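import Cfsg.Agent.H23.Sec12

/-! Alternating sections of groups of type E8. -/

set_option autoImplicit false
set_option linter.unusedSectionVars false
set_option maxRecDepth 100000

namespace H23.Sec

open H14 H14.PreSt H14.St Equiv Equiv.Perm H23.Wag Cfsg.Lie Module
open H14.RootSys hiding sign
open Matrix hiding J

/-- the test for elements of order 17 -/
def PE8 (a : Fin chevE8.rank → ℤ) : Prop :=
  ((∑ i, ∑ j, lmat _ tabE8.invT i j * a i * a j : ℤ) : ZMod 17) = 0 →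
  ∑ r, (fun v : ZMod 17 => (256 : ℤ) ^ ((3 : ℕ) * v).val - 256 ^ v.val)
    (∑ j, goodE8.R.cf r j * a j : ℤ) = 0 → ∀ j, (a j : ZMod 17) = 0

noncomputable instance instPE8 : DecidablePred PE8 := fun _ => by unfold PE8; infer_instance

theorem chk817 : alcB [2, 3, 4, 6, 5, 4, 3, 2] 17
    (fun L => decide (PE8 fun j => (L.getD j 0 : ℕ))) = true := by decide +kernel

/-- the test for elements of order 3 -/
def PE83 (a : Fin chevE8.rank → ℤ) : Prop :=
  (Finset.univ.filter fun r => ((∑ j, goodE8.R.cf r j * a j : ℤ) : ZMod 3) = 1).card ∈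
    [84, 81, 78, 57] ∨ ∀ j, (a j : ZMod 3) = 0

noncomputable instance instPE83 : DecidablePred PE83 := fun _ => by unfold PE83; infer_instance

theorem chk83 : alcB [2, 3, 4, 6, 5, 4, 3, 2] 3
    (fun L => decide (PE83 fun j => (L.getD j 0 : ℕ))) = true := by decide +kernel

theorem alg8 (p : ℕ) [Fact p.Prime] : (goodE8.SG (Kb p)).Alg p :=
  goodE8.alg (ZMod p) p one_ne_zero fun c h => by simpa using kerE8 c h

theorem alc8 {p l : ℕ} [Fact p.Prime] {P : (Fin chevE8.rank → ℤ) → Prop} [DecidablePred P]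
    (h : alcB [2, 3, 4, 6, 5, 4, 3, 2] l (fun L => decide (P fun j => (L.getD j 0 : ℕ))) = true)
    {z : (Kb p)ˣ} (hz : orderOf z = l) (hl : 0 < l) {s : chevE8.group (Kb p)} (hs : s ^ l = 1)
    (h1 : s ≠ 1) : ∃ g, ∃ ν : Fin chevE8.rank → ℤ,
      s = g * (goodE8.SG_hmul _).tor (fun i => z ^ ν i) * g⁻¹ ∧
      P (fun j => ν ⬝ᵥ goodE8.R.wt (goodE8.R.simple j)) ∧
      ¬ ∀ j, ((ν ⬝ᵥ goodE8.R.wt (goodE8.R.simple j) : ℤ) : ZMod l) = 0 := by
  obtain ⟨a, ν, h6, h7, h8⟩ := (alg8 p).exists_alcove (goodE8.tor_inj kerE8) (z := z) (s := s)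
    (hz ▸ hl) (hz ▸ hs)
  refine ⟨a, ν, h8, alc_chk (⟨239, by decide⟩ : Fin chevE8.nroots) (by decide +kernel)
    (by decide +kernel) h h6 (hz ▸ h7), fun e => h1 ?_⟩
  have := tor_cen (goodE8.SG_sep _) (goodE8.SG_top _) (goodE8.SG_hmul _) hz e
  rw [goodE8.center_eq_bot, Subgroup.mem_bot] at this
  rw [h8]; erw [this]; simp

theorem z17 : ∀ t : ZMod 17, (60 : ℤ) * t = 9 * ((60 : ℤ) * t) → t = 0 := by decide +kernel

theorem no19 {p : ℕ} [Fact p.Prime] (hp : p ≠ 17) {X : Type*} [Group X] [Finite X]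
    {f : X →* chevE8.group (Kb p)} (hf : Function.Injective f) {r : ℕ} {π : X →* Perm (Fin r)}
    (surj : ∀ σ, sign σ = 1 → ∃ g, π g = σ) : r ≤ 18 := by
  by_contra hr
  haveI : Fact (Nat.Prime 17) := ⟨by norm_num⟩
  obtain ⟨x, g, h3, h4, h5⟩ := alt_conj surj (m := 19) (l := 17) (u := 3) (by simp; omega)
    (List.formPerm [0, 1, 2, 3, 4, 5, 6, 7, 8, 9, 10, 11, 12, 13, 14, 15, 16])
    (List.formPerm [1, 3, 9, 10, 13, 5, 15, 11, 16, 14, 8, 7, 4, 12, 2, 6] * swap 17 18)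
    (by decide +kernel) (tor_comm (alg8 p) hp.symm (by rw [poinE8]; decide) hf).1
  obtain ⟨z, hz⟩ := ex_root (Kb p) p (l := 17) Fact.out hp.symm
  obtain ⟨a, ν, h8, h6, h7⟩ := alc8 chk817 hz (by omega) (s := f x) (by rw [← map_pow, h4, map_one])
    fun e => h3 (hf (e.trans (map_one f).symm))
  obtain ⟨w, -, h9⟩ := conj_pow_W (goodE8.SG_sep _) (goodE8.SG_top _) _ hz h8 (a := f g) (u := 3)
    (by rw [← map_inv, ← map_mul, ← map_mul, h5, map_pow])
  simp only [Int.cast_mul, Int.cast_natCast] at h9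
  refine h7 (h6 ?_ ?_)
  · have a1 : ∑ r, ((ν ⬝ᵥ goodE8.R.wt r : ℤ) : ZMod 17) ^ 2 =
        9 * ∑ r, ((ν ⬝ᵥ goodE8.R.wt r : ℤ) : ZMod 17) ^ 2 := by
      rw [Finset.mul_sum, ← Equiv.sum_comp w (fun r => 9 * _)]
      exact Finset.sum_congr rfl fun r _ => by rw [← h9 r]; push_cast; ring
    have a2 : ∀ a : Fin chevE8.rank → ℤ, ∑ r, (∑ j, goodE8.R.cf r j * a j) ^ 2 =
        60 * ∑ i, ∑ j, lmat _ tabE8.invT i j * a i * a j := fun a => by
      have : ∀ i j, 60 * lmat _ tabE8.invT i j = ∑ r, goodE8.R.cf r i * goodE8.R.cf r j := by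
        decide +kernel
      simp only [sq, Finset.sum_mul_sum, Finset.mul_sum, ← mul_assoc, this, Finset.sum_mul]
      rw [Finset.sum_comm]
      refine Finset.sum_congr rfl fun i _ => ?_
      rw [Finset.sum_comm]
      exact Finset.sum_congr rfl fun i _ => Finset.sum_congr rfl fun i _ => by ring
    have a3 := congrArg (Int.cast (R := ZMod 17)) (a2 fun j => ν ⬝ᵥ goodE8.R.wt (goodE8.R.simple j))
    simp only [← dot_wt, Int.cast_sum, Int.cast_pow] at a3
    rw [a3, Int.cast_mul] at a1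
    exact z17 _ a1
  · simp only [← dot_wt, Finset.sum_sub_distrib, sub_eq_zero]
    rw [← Equiv.sum_comp w]
    simp only [h9]

variable (K : Type) [Field K]

/-- the adjoint module -/
noncomputable def ρ8 : chevE8.group K →* End K (chevE8.Idx → K) :=
  (Matrix.toLinAlgEquiv' (R := K) (n := chevE8.Idx)).toMonoidHom.comp
    ((Units.coeHom _).comp (chevE8.group K).subtype)

theorem ρ8_eig (c : Fin chevE8.rank → Kˣ) (μ : Kˣ) : (ρ8 K ((goodE8.SG_hmul K).tor c)).eigenspace μ =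
    Pi.spanSubset K {a | ∏ i, c i ^ goodE8.C.adRep.wt a i = μ} := by
  ext v
  rw [End.mem_eigenspace_iff, Pi.mem_spanSubset_iff, funext_iff]
  refine forall_congr' fun a => ?_
  rw [show ∀ g, ρ8 K g v = ((chevE8.group K).subtype g : Matrix _ _ K) *ᵥ v from fun _ => rfl, (goodE8.SG_hmul K).map (goodE8.C.adRep.hmul K) (goodE8.SG_hom K), Rep.coe_tor, mulVec_diagonal,
    Pi.smul_apply, smul_eq_mul, mul_eq_mul_right_iff, Units.val_inj, Set.mem_ofPred_eq]
  tauto

theorem no18 {p : ℕ} [Fact p.Prime] (hp : p ≠ 3) {X : Type*} [Group X] [Finite X]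
    {f : X →* chevE8.group (Kb p)} (hf : Function.Injective f) {r : ℕ} {π : X →* Perm (Fin r)}
    (h : Mn π) : r ≤ 17 := by
  by_contra hr
  obtain ⟨Y, g, γ, h1⟩ := cfg h (by simp; omega) (cenL (a := 5) (alg8 p) (goodE8.tor_inj kerE8)
    hp.symm (by rw [poinE8]; decide) (by simp; omega)
    (by simp only [Fintype.card_fin]; change 8 + 5 + 2 < r; omega) hf h)
  obtain ⟨z, hz⟩ := ex_root (Kb p) p Nat.prime_three hp.symm
  refine noCfg (ρ := (ρ8 _).comp f) (ζ := z) (IsPrimitiveRoot.coe_units_iff.2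
    (hz ▸ IsPrimitiveRoot.orderOf z)) (by rw [finrank_fintype_fun_eq_card]; decide +kernel)
    (fun s h4 h3 => ?_) h1
  obtain ⟨a, ν, h8, h6, h7⟩ := alc8 chk83 hz (by omega) (s := f s) (by rw [← map_pow, h4, map_one])
    fun e => h3 (hf (e.trans (map_one f).symm))
  rw [MonoidHom.comp_apply, h8, eig_dim, ρ8_eig, Pi.dim_spanSubset]
  refine (congrArg (· ∈ [84, 81, 78, 57]) ?_).mpr (h6.resolve_right h7)
  rw [← Set.ncard_coe_finset]
  refine (congrArg Set.ncard (Set.ext fun a => ?_)).trans (Set.ncard_image_of_injective _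
    (Sum.inr_injective (α := Fin chevE8.rank)))
  rw [Set.mem_ofPred_eq, prod_zpow_dot, (by simp : ∀ t, t = z ↔ t = z ^ (1 : ℤ)),
    zpow_eq_zpow_iff_modEq, hz, ← ZMod.intCast_eq_intCast_iff]
  rcases a with a | a <;> simp [← dot_wt, Chev.adRep, PreChev.adWt, eq_comm]

theorem mainE8 {F : Type*} [Field F] [Finite F] (p : ℕ) [hp : Fact p.Prime] [CharP F p] {X : Type*}
    [Group X] {f : X →* chevE8.group F} (hf : Function.Injective f) {N : Subgroup X} [N.Normal]
    {r : ℕ} (h : Nonempty (X ⧸ N ≃* alternatingGroup (Fin r))) :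
    r ≤ 17 + (if p = 3 then 1 else 0) := by
  obtain ⟨π, even, surj⟩ := ex_pi h
  obtain ⟨γ⟩ := ex_emb F p
  haveI := Finite.of_injective _ hf
  have h2 := (goodE8.mapG_inj γ).comp hf
  split_ifs with h0
  · exact no19 (by omega) (f := (goodE8.mapG γ).comp f) h2 surj
  obtain ⟨Z, hZ⟩ := exists_mn even surj
  exact no18 h0 (f := ((goodE8.mapG γ).comp f).comp Z.subtype) (h2.comp Z.subtype_injective) hZ

end H23.Sec
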