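import Cfsg.Agent.H1.FP0

/-! Fixed points of Sylow subgroups: the rank three case. -/

set_option autoImplicit false

namespace H23.FP
open MulAction H1.FP
open scoped Pointwise
universe u

theorem cnt {Δ : Type u} [Finite Δ] {S T : Set Δ} (R : Δ → Δ → Prop) {μ ν : ℕ}
    (h1 : ∀ e ∈ S, μ ≤ {w | w ∈ T ∧ R e w}.ncard) (h2 : ∀ w ∈ T, {e | e ∈ S ∧ R e w}.ncard ≤ ν) :
    S.ncard * μ ≤ T.ncard * ν := by
  classical
  have := Fintype.ofFinite Δ
  rw [Set.ncard_eq_toFinset_card' S, Set.ncard_eq_toFinset_card' T]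
  refine Finset.card_mul_le_card_mul R (fun e m => (h1 e (Set.mem_toFinset.1 m)).trans_eq ?_)
    fun w m => le_of_eq_of_le ?_ (h2 w (Set.mem_toFinset.1 m))
  all_goals
    rw [Set.ncard_eq_toFinset_card']
    congr 1
    ext
    simp [Finset.bipartiteAbove, Finset.bipartiteBelow]

variable {K : Type u} [Group K] {Δ : Type u} [MulAction K Δ]

theorem cyc {p : ℕ} {x : K} (hp : p.Prime) (ho : orderOf x = p) {w : Δ} (n : x • w ≠ w) :
    (orbit (Subgroup.zpowers x) w).ncard = p := by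
  rw [← index_stabilizer]
  refine ((Nat.dvd_prime hp).1 (by
    rw [← ho, ← Nat.card_zpowers]; exact Subgroup.index_dvd_card _)).resolve_left fun e => n ?_
  exact (Subgroup.index_eq_one.1 e).ge (Subgroup.mem_top (⟨x, Subgroup.mem_zpowers x⟩ : Subgroup.zpowers x))

theorem oc (u v : Δ) : Nat.card (stabilizer K (u, v)) * (orbit (stabilizer K u) v).ncard = Nat.card (stabilizer K u) := by
  rw [← index_stabilizer, ← Subgroup.card_mul_index (stabilizer (stabilizer K u) v)]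
  congr 1
  exact Nat.card_congr ⟨fun g => ⟨⟨g.1, congrArg Prod.fst g.2⟩, congrArg Prod.snd g.2⟩,
    fun g => ⟨g.1.1, Prod.ext g.1.2 g.2⟩, fun _ => rfl, fun _ => rfl⟩

theorem sc {X : Type*} [MulAction K X] (g : K) (w : X) : Nat.card (stabilizer K (g • w)) = Nat.card (stabilizer K w) := by
  rw [stabilizer_smul_eq_stabilizer_map_conj, Subgroup.card_map_of_injective (MulAut.conj g).injective]

/-- the orbital graph of `(a, b)` -/
def Nb (K : Type u) [Group K] [MulAction K Δ] (a b u : Δ) : Set Δ := {v | ∃ g : K, g • a = u ∧ g • b = v}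

theorem Nb.smul {a b u v : Δ} (h : v ∈ Nb K a b u) (g : K) : g • v ∈ Nb K a b (g • u) :=
  let ⟨k, e, f⟩ := h; ⟨g * k, by rw [mul_smul, e], by rw [mul_smul, f]⟩

theorem Nb.sm {a b u v u' : Δ} (h : v ∈ Nb K a b u) {g : K} (e : g • u = u') : g • v ∈ Nb K a b u' := e ▸ Nb.smul h g

theorem Nb.eq (a b u : Δ) (g : K) : Nb K a b (g • u) = g • Nb K a b u :=
  Set.ext fun _ => ⟨fun h => Set.mem_smul_set_iff_inv_smul_mem.2 (inv_smul_smul g u ▸ Nb.smul h g⁻¹),
    fun ⟨_, h, e⟩ => e ▸ Nb.smul h g⟩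

theorem gr (wt : WT.{u}) : GR.{u} := by
  intro p K _ _ x Δ _ _ a b c φ s p3 pr xa ba cov φ2 hb hbF hc hcF
  set J := Op p (stabilizer K a)
  have Ja : ∀ j : J, j.1 • a = a := fun j => Op_le (p := p) (stabilizer K a) j.2
  have tr := pr.toIsPretransitive
  have big : ∀ {v : Δ} {S : Set Δ}, v ∈ orbit J c → orbit J v ⊆ S → S.ncard ≠ p + φ := fun m l e => by
    have := Set.ncard_le_ncard l
    rw [orbit_eq_iff.2 m] at this
    omega
  have aC : a ∉ orbit J c := fun m => by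
    have := Set.ncard_le_ncard (s := orbit J a) (t := {a}) fun _ ⟨j, e⟩ => e.symm.trans (Ja j)
    rw [orbit_eq_iff.2 m, Set.ncard_singleton] at this
    omega
  have Na : Nb K a b a = orbit J b := by
    refine Set.ext fun v => ⟨fun ⟨g, e, f⟩ => ?_, fun ⟨j, e⟩ => ⟨j, Ja j, e⟩⟩
    rcases cov v with k | k | k
    · exact (ba (smul_left_cancel g (f.trans (k.trans e.symm)))).elim
    · exact k
    refine (big k (S := g • orbit J b) (fun _ ⟨j, q⟩ => Set.mem_smul_set_iff_inv_smul_mem.2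
      ⟨⟨g⁻¹ * j * g⁻¹⁻¹, ?_⟩, ?_⟩) (by rw [Set.ncard_smul_set, hb])).elim
    · have := Op_conj (g := g⁻¹) j.2
      rwa [inv_smul_eq_iff.2 e.symm] at this
    · rw [← q, ← f]
      change (g⁻¹ * j * g⁻¹⁻¹) • b = g⁻¹ • j.1 • g • b
      rw [inv_inv, mul_smul, mul_smul]
  have So : orbit (stabilizer K a) b = orbit J b :=
    Na ▸ Set.ext fun _ => ⟨fun ⟨g, e⟩ => ⟨g, g.2, e⟩, fun ⟨g, e, f⟩ => ⟨⟨g, e⟩, f⟩⟩
  have cN : ∀ u, (Nb K a b u).ncard = p + φ := fun u => by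
    obtain ⟨g, rfl⟩ := tr.exists_smul_eq a u
    rw [Nb.eq, Set.ncard_smul_set, Na, hb]
  have sy : ∀ {u v}, v ∈ Nb K a b u → u ∈ Nb K a b v := by
    obtain ⟨g, e⟩ := tr.exists_smul_eq a b
    have : g⁻¹ • a ∈ orbit J b := by
      rcases cov (g⁻¹ • a) with k | k | k
      · exact (ba (e.symm.trans (inv_smul_eq_iff.1 k).symm)).elim
      · exact k
      refine (big k (S := orbit (stabilizer K a) (g⁻¹ • a)) (fun _ ⟨j, q⟩ => ⟨⟨j, Ja j⟩, q⟩) ?_).elim
      have o1 := oc (K := K) a b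
      have o2 := oc (K := K) a (g⁻¹ • a)
      rw [← sc g, Prod.smul_mk, e, smul_inv_smul, show stabilizer K (b, a) = stabilizer K (a, b) from
        Subgroup.ext fun _ => by simp [and_comm], ← o1, So, hb] at o2
      exact Nat.eq_of_mul_eq_mul_left Nat.card_pos o2
    obtain ⟨j, q⟩ := this
    rintro _ _ ⟨k, rfl, rfl⟩
    exact Nb.smul (⟨g * j, by rw [mul_smul, Ja, e], by rw [mul_smul, ← smul_inv_smul g a, ← q]; rfl⟩ : a ∈ Nb K a b b) k
  by_cases A : ∀ w ∈ Nb K a b a, ∀ e ∈ Nb K a b w, e ∈ insert a (Nb K a b a)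
  · have t : ∀ {u v w}, v ∈ insert u (Nb K a b u) → w ∈ insert v (Nb K a b v) → w ∈ insert u (Nb K a b u) := by
      rintro u v w (rfl | k) l
      · exact l
      rcases l with rfl | l
      · exact .inr k
      obtain ⟨g, rfl⟩ := tr.exists_smul_eq a u
      have := A _ (Nb.sm k (inv_smul_smul g a)) _ (Nb.smul l g⁻¹)
      exact this.imp inv_smul_eq_iff.1 fun q => smul_inv_smul g w ▸ Nb.smul q g
    have q : ∀ {u v}, v ∈ insert u (Nb K a b u) → insert v (Nb K a b v) = insert u (Nb K a b u) := fun k =>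
      Set.ext fun _ => ⟨t k, t (k.imp Eq.symm sy)⟩
    have hB : IsBlock K (insert a (Nb K a b a)) := isBlock_iff_smul_eq_of_mem.2 fun g d k l => by
      rw [← q k, Set.smul_set_insert, ← Nb.eq, q l, q k]
    rcases pr.isTrivialBlock_of_isBlock hB with h | h
    · exact ba (h (.inr ⟨1, one_smul _ _, one_smul _ _⟩) (.inl rfl))
    rcases h.ge (Set.mem_univ c) with k | k
    · exact aC (k ▸ mem_orbit_self c)
    · exact big (mem_orbit_self c) (orbit_eq_iff.2 (Na ▸ k)).le hb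
  push Not at A
  obtain ⟨w, w1, e, w2, n⟩ := A
  have eC : e ∈ orbit J c := ((cov e).resolve_left fun k => n (.inl k)).resolve_left fun k => n (.inr (Na ▸ k))
  have cj : ∀ {d e}, d ∈ orbit J c → e ∈ orbit J c → ∃ g : K, ∀ w ∈ Nb K a b a, w ∈ Nb K a b d →
      g • w ∈ orbit J b ∧ g • w ∈ Nb K a b e := fun {d e} k l => by
    obtain ⟨j, rfl⟩ : e ∈ orbit J d := (orbit_eq_iff.2 k).symm ▸ l
    exact ⟨j, fun w k l => ⟨Na ▸ Nb.sm k (Ja j), Nb.smul l j.1⟩⟩
  by_cases B : ∃ d ∈ orbit J c, x • d = d ∧ ∃ w ∈ Nb K a b a, w ∈ Nb K a b d ∧ x • w ≠ w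
  · obtain ⟨d, dC, xd, v, v1, v2, nv⟩ := B
    have := cnt (S := orbit J c) (T := orbit J b) (fun e w => w ∈ Nb K a b e) (μ := p) (ν := p + φ - 1) (fun e k => by
      obtain ⟨g, l⟩ := cj dC k
      rw [← cyc s.hp s.ord nv, ← Set.ncard_smul_set g]
      refine Set.ncard_le_ncard ?_
      rintro _ ⟨_, ⟨y, rfl⟩, rfl⟩
      exact l _ (Nb.sm v1 (fix_zpow xa y.2)) (Nb.sm v2 (fix_zpow xd y.2))) fun w k => by
      rw [← cN w, ← Set.ncard_diff_singleton_of_mem (sy (Na ▸ k))]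
      exact Set.ncard_le_ncard fun e l => ⟨sy l.2, fun q => aC (q ▸ l.1)⟩
    rw [hb] at this
    have h1 : (2 * p + 1) * p ≤ (p + 2) * (p + 1) :=
      (Nat.mul_le_mul_right _ hc).trans (this.trans (Nat.mul_le_mul (by omega) (by omega)))
    nlinarith
  push Not at B
  have := cnt (S := orbit J c ∩ fixedBy Δ x) (T := orbit J b ∩ fixedBy Δ x) (fun e w => w ∈ Nb K a b e) (μ := 1)
    (ν := φ - 1) (fun d k => by
      obtain ⟨g, l⟩ := cj eC k.1
      have := l w w1 (sy w2)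
      exact (Set.ncard_pos).2 ⟨_, ⟨this.1, B d k.1 k.2 _ (Na ▸ this.1) this.2⟩, this.2⟩) fun v k => by
      obtain ⟨g, gN, rfl⟩ := wt p K x Δ a v s tr xa k.2
      have h1 : (Nb K a b (g • a) ∩ fixedBy Δ x).ncard ≤ φ := by
        rw [← hbF, ← Set.ncard_smul_set g (orbit J b ∩ _)]
        refine Set.ncard_le_ncard fun v l => Set.mem_smul_set_iff_inv_smul_mem.2
          (And.intro (Na.le (Nb.sm l.1 (inv_smul_smul g a))) ?_)
        have := fix_zpow l.2 ((Subgroup.mem_normalizer_iff.1 gN x).1 (Subgroup.mem_zpowers x))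
        rwa [mul_smul, mul_smul, smul_eq_iff_eq_inv_smul] at this
      refine le_trans ?_ (Nat.sub_le_sub_right h1 1)
      rw [← Set.ncard_diff_singleton_of_mem (s := _ ∩ fixedBy Δ x) ⟨sy (Na ▸ k.1), xa⟩]
      exact Set.ncard_le_ncard fun e l => ⟨⟨sy l.2, l.1.2⟩, fun q => aC (q ▸ l.1.1)⟩
  rw [hbF] at this
  omega

end H23.FP
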