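import Cfsg.Agent.H17.FV0

/-! S5720, chunk `CH`. -/

set_option autoImplicit false
set_option linter.unusedVariables false

open Module H17.FV

namespace H23.FV

universe v w

theorem rn {K M : Type*} [Field K] [AddCommGroup M] [Module K M] [FiniteDimensional K M] (f : End K M)
    (S : Submodule K M) : finrank K S = finrank K (S.map f) + finrank K ↥(LinearMap.ker f ⊓ S) := by
  have h := LinearMap.finrank_range_add_finrank_ker (f.domRestrict S)
  rw [LinearMap.range_domRestrict, LinearMap.ker_domRestrict] at h
  rw [← h, ← Submodule.finrank_map_subtype_eq S, Submodule.map_comap_subtype, inf_comm]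

theorem ch : CH.{v, w} := by
  intro K A M _ _ _ _ _ _ _ _ p _ _ D ν hp hν ef j
  have mem : ∀ j (m : M), m ∈ LinearMap.range (act K M (D.π j)) ↔ D.π j • m = m := fun j m =>
    ⟨by rintro ⟨x, rfl⟩; show D.π j • D.π j • x = D.π j • x; rw [← mul_smul, ef.ππ], fun h => ⟨m, h⟩⟩
  set a : ℕ → ℕ := fun i => finrank K ↥(LinearMap.ker (act K M D.e) ⊓ LinearMap.range (act K M (D.π i))) with ha
  have h1 : ∀ m j, finrank K ↥(LinearMap.ker (act K M (D.e ^ m)) ⊓ LinearMap.range (act K M (D.π j))) ≤
      ∑ i ∈ Finset.range m, a (j + 2 * i) := by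
    intro m
    induction m with
    | zero =>
      intro j
      rw [Finset.sum_range_zero, Nat.le_zero, Submodule.finrank_eq_zero, eq_bot_iff]
      intro x hx
      have : D.e ^ 0 • x = 0 := hx.1
      rwa [pow_zero, one_smul] at this
    | succ m ih =>
      intro j
      rw [rn (act K M D.e), Finset.sum_range_succ']
      refine Nat.add_le_add ((Submodule.finrank_mono ?_).trans ((ih (j + 2)).trans (le_of_eq ?_)))
        (Submodule.finrank_mono (inf_le_inf_left _ inf_le_right))
      · rintro _ ⟨x, hx, rfl⟩
        have e1 : D.e ^ (m + 1) • x = 0 := hx.1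
        have e2 := (mem j x).1 hx.2
        refine ⟨?_, (mem _ _).2 ?_⟩
        · show D.e ^ m • D.e • x = 0
          rw [← mul_smul, ← pow_succ, e1]
        · show D.π (j + 2) • D.e • x = D.e • x
          rw [← mul_smul, ← ef.eπ, mul_smul, e2]
      · exact Finset.sum_congr rfl fun i _ => by congr 1; ring
  have h2 : ∀ d, ∑ i ∈ Finset.range d, a (j + 2 * i) + ∑ i ∈ Finset.range d, a (j + 1 + 2 * i) =
      ∑ i ∈ Finset.range (2 * d), a (j + i) := by
    intro d
    induction d with
    | zero => simp
    | succ d ih =>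
      rw [Finset.sum_range_succ, Finset.sum_range_succ, show 2 * (d + 1) = 2 * d + 1 + 1 by ring,
        Finset.sum_range_succ, Finset.sum_range_succ, ← ih, show j + (2 * d + 1) = j + 1 + 2 * d by ring]
      ring
  refine (Nat.add_le_add (h1 _ _) (h1 _ _)).trans ((h2 _).le.trans ?_)
  have hd : 2 * ((p - 1) / 2) ≤ p - 1 := Nat.mul_div_le _ _
  generalize 2 * ((p - 1) / 2) = n at hd
  let W : Fin n → Submodule K M := fun i =>
    LinearMap.ker (act K M D.e) ⊓ LinearMap.range (act K M (D.π (j + i)))
  let F : ((i : Fin n) → W i) →ₗ[K] LinearMap.ker (act K M D.e) :=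
    ∑ i, (Submodule.inclusion (inf_le_left : W i ≤ _)).comp (LinearMap.proj i)
  have hF : Function.Injective F := by
    refine (injective_iff_map_eq_zero _).2 fun x hx => funext fun k => Subtype.ext ?_
    have e : ∑ i, (x i : M) = 0 := by
      have := congrArg Subtype.val hx
      simpa [F] using this
    have e2 := congrArg (fun m : M => D.π (j + k) • m) e
    simp only [Finset.smul_sum, smul_zero] at e2
    rw [Finset.sum_eq_single k (fun i _ hik => ?_) (by simp), (mem _ _).1 (x k).2.2] at e2
    · exact e2
    · rw [← (mem _ _).1 (x i).2.2, ← mul_smul, ef.orth, zero_smul]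
      intro hm
      exact hik (Fin.ext ((Nat.ModEq.add_left_cancel' j hm).eq_of_lt_of_lt (by omega) (by omega)).symm)
  have := LinearMap.finrank_le_finrank_of_injective hF
  rw [finrank_pi_fintype] at this
  rw [Finset.sum_range]
  exact this

end H23.FV
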