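import Cfsg.Agent.H19.Amb3

/-! Modules over `𝔽₃`: commutator spaces and fixed spaces of `3'`-subgroups (for S4415). -/

set_option autoImplicit false

namespace H23.CB
open Subgroup H19

variable {S : Type*} [Group S] {E : Type*} [AddCommGroup E] [Module (ZMod 3) E]
  (ρ : Representation (ZMod 3) S E)

/-- fixed vectors -/
def Fx (Y : Subgroup S) : Submodule (ZMod 3) E where
  carrier := {v | ∀ y ∈ Y, ρ y v = v}
  add_mem' := fun h1 h2 y hy => by rw [map_add, h1 y hy, h2 y hy]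
  zero_mem' := fun y _ => map_zero _
  smul_mem' := fun c _ h y hy => by rw [map_smul, h y hy]

/-- commutator space -/
def Cm (Y : Subgroup S) : Submodule (ZMod 3) E :=
  Submodule.span _ {w | ∃ y ∈ Y, ∃ v, w = ρ y v - v}

variable {ρ}

theorem mul_ap (g h : S) (v : E) : ρ (g * h) v = ρ g (ρ h v) := by rw [map_mul]; rfl
theorem one_ap (v : E) : ρ 1 v = v := by rw [map_one]; rfl
theorem inv_ap (g : S) (v : E) : ρ g⁻¹ (ρ g v) = v := by rw [← mul_ap, inv_mul_cancel, one_ap]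
theorem ap_inv (g : S) (v : E) : ρ g (ρ g⁻¹ v) = v := by rw [← mul_ap, mul_inv_cancel, one_ap]
theorem ap_inj (g : S) {v w : E} (h : ρ g v = ρ g w) : v = w := by
  rw [← inv_ap (ρ := ρ) g v, h, inv_ap]
theorem ap_ne (g : S) {v : E} (h : v ≠ 0) : ρ g v ≠ 0 := fun e =>
  h (ap_inj (ρ := ρ) g (by rw [e, map_zero]))
theorem three (v : E) : v + v + v = 0 := by
  have : (3 : ZMod 3) • v = 0 := by rw [show (3 : ZMod 3) = 0 from rfl, zero_smul]
  rw [← this, show (3 : ZMod 3) = 1 + 1 + 1 from rfl, add_smul, add_smul, one_smul]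
theorem eq_zero_of_neg {v : E} (h : -v = v) : v = 0 := by
  have := three v
  nth_rewrite 1 [← h] at this
  simpa using this

variable (ρ) in
/-- elements acting trivially modulo `N` -/
def St (N : Submodule (ZMod 3) E) : Subgroup S where
  carrier := {g | ∀ v, ρ g v - v ∈ N}
  one_mem' := fun v => by rw [one_ap, sub_self]; exact N.zero_mem
  mul_mem' := fun {g h} hg hh v => by
    have := N.add_mem (hg (ρ h v)) (hh v)
    rwa [sub_add_sub_cancel, ← mul_ap] at this
  inv_mem' := fun {g} hg v => by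
    have := N.neg_mem (hg (ρ g⁻¹ v))
    rwa [ap_inv, neg_sub] at this

variable (ρ) in
/-- elements acting trivially on `N` -/
def Pt (N : Submodule (ZMod 3) E) : Subgroup S where
  carrier := {g | ∀ v ∈ N, ρ g v = v}
  one_mem' := fun v _ => one_ap v
  mul_mem' := fun {g h} hg hh v hv => by rw [mul_ap, hh v hv, hg v hv]
  inv_mem' := fun {g} hg v hv => by nth_rewrite 1 [← hg v hv]; rw [inv_ap]

variable (ρ) in
/-- elements leaving `N` invariant -/
def Iv [Finite S] (N : Submodule (ZMod 3) E) : Subgroup S where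
  carrier := {g | ∀ v ∈ N, ρ g v ∈ N}
  one_mem' := fun v hv => by rwa [one_ap]
  mul_mem' := fun {g h} hg hh v hv => by rw [mul_ap]; exact hg _ (hh v hv)
  inv_mem' := fun {g} hg v hv => by
    have key : ∀ n : ℕ, ∀ v ∈ N, ρ (g ^ n) v ∈ N := fun n => by
      induction n with
      | zero => intro v hv; rwa [pow_zero, one_ap]
      | succ n ih => intro v hv; rw [pow_succ, mul_ap]; exact ih _ (hg v hv)
    have : g⁻¹ = g ^ (orderOf g - 1) := by
      rw [inv_eq_iff_mul_eq_one, ← pow_succ', Nat.sub_add_cancel (orderOf_pos g), pow_orderOf_eq_one]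
    rw [this]; exact key _ v hv

variable {Y : Subgroup S} {N : Submodule (ZMod 3) E} {g y : S} {v : E}

theorem mem_Cm (hy : y ∈ Y) (v : E) : ρ y v - v ∈ Cm ρ Y := Submodule.subset_span ⟨y, hy, v, rfl⟩
theorem Cm_le (h : Y ≤ St ρ N) : Cm ρ Y ≤ N :=
  Submodule.span_le.2 fun _ ⟨_, hy, v, e⟩ => e ▸ h hy v
theorem le_St : Y ≤ St ρ (Cm ρ Y) := fun _ hy v => mem_Cm hy v
theorem Cm_mono {X : Subgroup S} (h : X ≤ Y) : Cm ρ X ≤ Cm ρ Y := Cm_le (h.trans le_St)

theorem Cm_inv (hg : g ∈ N(Y)) (hv : v ∈ Cm ρ Y) : ρ g v ∈ Cm ρ Y := by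
  refine (show Cm ρ Y ≤ (Cm ρ Y).comap (ρ g) from Cm_le fun y hy w => ?_) hv
  have := mem_Cm (ρ := ρ) ((mem_normalizer_iff.1 hg y).1 hy) (ρ g w)
  rw [mul_ap, mul_ap, inv_ap] at this
  simpa using this

theorem Fx_inv (hg : g ∈ N(Y)) (hv : v ∈ Fx ρ Y) : ρ g v ∈ Fx ρ Y := fun y hy => by
  have := hv _ ((mem_normalizer_iff.1 (inv_mem hg) y).1 hy)
  rw [inv_inv, mul_ap, mul_ap] at this
  rw [← ap_inv (ρ := ρ) g (ρ y (ρ g v)), this]

theorem unit_card (hc : (#Y).Coprime 3) : ((#Y : ℕ) : ZMod 3) * (#Y : ℕ) = 1 := by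
  have : ((#Y : ℕ) : ZMod 3) ≠ 0 := fun h => by
    rw [ZMod.natCast_eq_zero_iff] at h
    exact absurd (Nat.Coprime.eq_one_of_dvd hc.symm h) (by norm_num)
  revert this; generalize ((#Y : ℕ) : ZMod 3) = a; revert a; decide

theorem split [Finite S] (hc : (#Y).Coprime 3) (v : E) :
    ∃ m ∈ Cm ρ Y, ∃ f ∈ Fx ρ Y, v = m + f := by
  have := Fintype.ofFinite Y
  refine ⟨((#Y : ℕ) : ZMod 3) • -∑ y : Y, (ρ y v - v), Submodule.smul_mem _ _ (neg_mem
    (sum_mem fun y _ => mem_Cm y.2 v)), ((#Y : ℕ) : ZMod 3) • ∑ y : Y, ρ y v,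
    Submodule.smul_mem _ _ fun x hx => ?_, ?_⟩
  · rw [map_sum]
    exact Fintype.sum_equiv (Equiv.mulLeft (⟨x, hx⟩ : Y)) _ _ fun y => (mul_ap x y v).symm
  · rw [← smul_add, Finset.sum_sub_distrib, neg_sub, sub_add_cancel, Finset.sum_const,
      Finset.card_univ, ← Nat.card_eq_fintype_card, ← Nat.cast_smul_eq_nsmul (ZMod 3), smul_smul,
      unit_card hc, one_smul]

theorem disj [Finite S] (hc : (#Y).Coprime 3) (h1 : v ∈ Cm ρ Y) (h2 : v ∈ Fx ρ Y) : v = 0 := by
  have := Fintype.ofFinite Y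
  have h3 : Cm ρ Y ≤ LinearMap.ker (∑ y : Y, ρ y) := Cm_le fun x hx w => by
    rw [LinearMap.mem_ker, map_sub, sub_eq_zero, LinearMap.sum_apply, LinearMap.sum_apply]
    exact Fintype.sum_equiv (Equiv.mulRight (⟨x, hx⟩ : Y)) _ _ fun y => (mul_ap (y : S) x w).symm
  have h4 := LinearMap.mem_ker.1 (h3 h1)
  rw [LinearMap.sum_apply, Finset.sum_congr rfl fun (y : Y) _ => h2 y y.2, Finset.sum_const,
    Finset.card_univ, ← Nat.card_eq_fintype_card, ← Nat.cast_smul_eq_nsmul (ZMod 3)] at h4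
  rw [← one_smul (ZMod 3) v, ← unit_card hc, ← smul_smul, h4, smul_zero]

theorem eq_one [Finite S] (hi : ∀ g, (∀ v, ρ g v = v) → g = 1) (hc : (#Y).Coprime 3) (hy : y ∈ Y)
    (h : ∀ v ∈ Cm ρ Y, ρ y v = v) : y = 1 := hi y fun v => by
  obtain ⟨m, hm, f, hf, rfl⟩ := split (ρ := ρ) hc v
  rw [map_add, h m hm, hf y hy]

theorem card_pow [Finite E] (N : Submodule (ZMod 3) E) :
    Nat.card N = 3 ^ Module.finrank (ZMod 3) N := by
  rw [Module.natCard_eq_pow_finrank (K := ZMod 3), Nat.card_zmod]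

/-- a `3'`-subgroup moving at most four dimensions has order dividing `2⁹·5·13` -/
theorem card_dvd_gl [Finite S] [Finite E] (hi : ∀ g, (∀ v, ρ g v = v) → g = 1)
    (hc : (#Y).Coprime 3) (h : Nat.card (Cm ρ Y) ≤ 81) : #Y ∣ 2 ^ 9 * 5 * 13 := by
  let σ : Representation (ZMod 3) Y (Cm ρ Y) := Representation.subrepresentation
    (ρ.comp Y.subtype) (Cm ρ Y) fun g v hv => Cm_inv (le_normalizer g.2) hv
  have i : Function.Injective σ.asGroupHom := (injective_iff_map_eq_one _).2 fun g hg =>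
    Subtype.ext (eq_one hi hc g.2 fun v hv => congrArg Subtype.val
      (LinearMap.congr_fun (congrArg Units.val hg) (⟨v, hv⟩ : Cm ρ Y)))
  have h1 := Subgroup.card_dvd_of_injective _ i
  rw [← Nat.card_congr (Matrix.GeneralLinearGroup.toLin'
    (Module.finBasis (ZMod 3) (Cm ρ Y))).toEquiv, Matrix.card_GL_field] at h1
  rw [card_pow] at h
  have h2 : Module.finrank (ZMod 3) (Cm ρ Y) ≤ 4 :=
    (Nat.pow_le_pow_iff_right (by norm_num)).1 (h.trans (by norm_num : 81 ≤ 3 ^ 4))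
  refine (hc.pow_right 6).dvd_of_dvd_mul_right (h1.trans ?_)
  rw [ZMod.card]
  generalize Module.finrank (ZMod 3) (Cm ρ Y) = d at h2
  interval_cases d <;> decide +kernel

theorem modEq_fix [Finite S] [Finite E] {p : ℕ} (hp : p.Prime) (hy : y ^ p = 1)
    (hN : ∀ v ∈ N, ρ y v ∈ N) : Nat.card N ≡ Nat.card ↥(N ⊓ Fx ρ (zpowers y)) [MOD p] := by
  classical
  have := Fact.mk hp
  have hz : zpowers y ≤ Iv ρ N := zpowers_le.2 hN
  let σ : Representation (ZMod 3) (zpowers y) N := Representation.subrepresentation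
    (ρ.comp (zpowers y).subtype) N fun g v hv => hz g.2 v hv
  let _ : MulAction (zpowers y) N :=
    { smul := fun g v => σ g v, one_smul := one_ap, mul_smul := mul_ap }
  have hP : IsPGroup p (zpowers y) := IsPGroup.of_card (n := if y = 1 then 0 else 1) (by
    rw [Nat.card_zpowers]; split_ifs with h
    · simp [h]
    · rw [pow_one, orderOf_eq_prime hy h])
  refine (hP.card_modEq_card_fixedPoints N).trans (congrArg (· % p) (Nat.card_congr
    ⟨fun v => ⟨v.1.1, v.1.2, fun x hx => congrArg Subtype.val (v.2 ⟨x, hx⟩)⟩,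
      fun v => ⟨⟨v.1, v.2.1⟩, fun x => Subtype.ext (v.2.2 x x.2)⟩, fun _ => rfl, fun _ => rfl⟩))

theorem triv13 [Finite S] [Finite E] (hy : y ^ 13 = 1) (hN : ∀ v ∈ N, ρ y v ∈ N)
    (h : Nat.card N ≤ 12 * Nat.card ↥(N ⊓ Fx ρ (zpowers y))) : ∀ v ∈ N, ρ y v = v := by
  have h1 := modEq_fix (by norm_num : Nat.Prime 13) hy hN
  obtain ⟨k, hk⟩ : Nat.card ↥(N ⊓ Fx ρ (zpowers y)) ∣ Nat.card N :=
    AddSubgroup.card_dvd_of_le (H := (N ⊓ Fx ρ (zpowers y)).toAddSubgroup) (K := N.toAddSubgroup)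
      fun _ h => h.1
  have h2 : (Nat.card ↥(N ⊓ Fx ρ (zpowers y))).Coprime 13 := by
    rw [card_pow]; exact Nat.Coprime.pow_left _ (by norm_num)
  have h0 : 0 < Nat.card ↥(N ⊓ Fx ρ (zpowers y)) := Nat.card_pos
  rw [hk] at h h1
  have h3 : k ≡ 1 [MOD 13] := Nat.ModEq.cancel_left_of_coprime h2.symm (by rwa [mul_one])
  have h4 : k ≤ 12 := by nlinarith
  have h5 : k = 1 := by unfold Nat.ModEq at h3; omega
  rw [h5, mul_one] at hk
  have h6 : N ⊓ Fx ρ (zpowers y) = N :=
    Submodule.eq_of_le_of_finrank_eq inf_le_left (by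
      rw [card_pow, card_pow] at hk; exact (Nat.pow_right_injective (by norm_num) hk).symm)
  exact fun v hv => (h6.ge hv).2 y (mem_zpowers y)

/-- an element of odd sign is not in the kernel of the sign -/
theorem no_refl [Finite S] [Finite E] {R : Subgroup S} {b r : S} (b3 : b ^ 3 = 1)
    (gen : ∀ K : Subgroup S, (∀ r ∈ R, r * b * r⁻¹ ∈ K) → R ≤ K) (hr : r ∈ R) (h2 : r ^ 2 = 1)
    {e : E} (he : e ≠ 0) (h : LinearMap.range (ρ r - 1) = Submodule.span (ZMod 3) {e}) : False := by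
  classical
  have := Fintype.ofFinite E
  let _ : MulAction S E := { smul := fun g v => ρ g v, one_smul := one_ap, mul_smul := mul_ap }
  let φ := Equiv.Perm.sign.comp (MulAction.toPermHom S E)
  have hb : φ b = 1 := by
    have : φ b ^ 3 = 1 := by rw [← map_pow, b3, map_one]
    rcases Int.units_eq_one_or (φ b) with h | h
    · exact h
    · rw [h] at this; exact absurd this (by decide)
  have h1 : φ r = 1 := gen φ.ker (fun r _ => by simp [hb]) hr
  have h3 := Equiv.Perm.sign_of_pow_two_eq_one (σ := MulAction.toPermHom S E r)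
    (by rw [← map_pow, h2, map_one])
  have h4 : Fintype.card E = 3 * Nat.card (LinearMap.ker (ρ r - 1)) := by
    rw [← Nat.card_eq_fintype_card, Submodule.card_eq_card_quotient_mul_card (LinearMap.ker (ρ r - 1)),
      Nat.card_congr (LinearMap.quotKerEquivRange _).toEquiv, h, card_pow,
      card_pow (Submodule.span _ _), finrank_span_singleton he, mul_comm, pow_one]
  have h5 : Fintype.card (Function.fixedPoints (MulAction.toPermHom S E r)) =
      Nat.card (LinearMap.ker (ρ r - 1)) := by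
    rw [← Nat.card_eq_fintype_card]
    exact Nat.card_congr (Equiv.subtypeEquivRight fun v => by
      rw [LinearMap.mem_ker, LinearMap.sub_apply, sub_eq_zero]; rfl)
  rw [h4, h5, show ∀ n : ℕ, (3 * n - n) / 2 = n from fun n => by omega, card_pow,
    Odd.neg_one_pow (Odd.pow (by decide))] at h3
  exact absurd (h1.symm.trans h3) (by decide)

end H23.CB
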