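import Cfsg.Agent.H23.CB1

/-! The frame attached to a `b`-invariant four-group (for S4415). -/

set_option autoImplicit false

namespace H23.CB
open Subgroup H19

variable {S : Type*} [Group S] {E : Type*} [AddCommGroup E] [Module (ZMod 3) E]
  {ρ : Representation (ZMod 3) S E} {b t u r c : S} {e1 e2 e3 v : E} {N : Submodule (ZMod 3) E}

structure Cx (ρ : Representation (ZMod 3) S E) (b : S) : Prop where
  inj : ∀ g, (∀ v, ρ g v = v) → g = 1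
  b3 : b ^ 3 = 1
  rk : Nat.card (LinearMap.range (ρ b - 1)) ≤ 9

/-- `1, t, u, tu` is a four-group whose involutions are permuted by `b` -/
structure Tr (b t u : S) : Prop where
  tt : t * t = 1
  ne : t ≠ 1
  bt : b * t = u * b
  bu : b * u = t * u * b
  btu : b * (t * u) = t * b

theorem tr_mk (b3 : b ^ 3 = 1) (h1 : t * t = 1) (h2 : t ≠ 1)
    (h3 : t * (b * t * b⁻¹) * (b * (b * t * b⁻¹) * b⁻¹) = 1) : Tr b t (b * t * b⁻¹) := by
  have h4 : b * (b * t * b⁻¹) * b⁻¹ * (b * (b * t * b⁻¹) * b⁻¹) = 1 := by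
    calc _ = b * b * (t * t) * b⁻¹ * b⁻¹ := by group
      _ = 1 := by rw [h1]; group
  have h5 : b * (b * t * b⁻¹) * b⁻¹ = t * (b * t * b⁻¹) :=
    mul_right_cancel (h4.trans h3.symm)
  refine ⟨h1, h2, by group, by rw [← h5]; group, ?_⟩
  rw [← h5]
  calc _ = b ^ 3 * t * (b ^ 3)⁻¹ * b := by rw [pow_three']; group
    _ = _ := by rw [b3]; group

theorem Tr.eu (h : Tr b t u) : u = b * t * b⁻¹ := by rw [h.bt]; group
theorem Tr.etu (h : Tr b t u) : t * u = b * u * b⁻¹ := by rw [h.bu]; group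
theorem Tr.et (h : Tr b t u) : t = b * (t * u) * b⁻¹ := by rw [h.btu]; group
theorem Tr.uu (h : Tr b t u) : u * u = 1 := by
  rw [h.eu]; calc _ = b * (t * t) * b⁻¹ := by group
    _ = 1 := by rw [h.tt]; group
theorem Tr.comm (h : Tr b t u) : u * t = t * u := by
  have h1 : t * u * (t * u) = 1 := by
    rw [h.etu]; calc _ = b * (u * u) * b⁻¹ := by group
      _ = 1 := by rw [h.uu]; group
  calc u * t = (t * t) * u * t * (u * u) := by rw [h.tt, h.uu]; group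
    _ = t * (t * u * (t * u)) * u := by group
    _ = _ := by rw [h1]; group
theorem Tr.une (h : Tr b t u) : u ≠ 1 := fun e => h.ne (by
  have := h.bt; rw [e, one_mul] at this; simpa using this)
theorem Tr.tune (h : Tr b t u) : t * u ≠ 1 := fun e => h.ne (by rw [h.et, e]; group)
theorem Tr.next (h : Tr b t u) : Tr b u (t * u) := by
  have e : u * (t * u) = t := by rw [← mul_assoc, h.comm, mul_assoc, h.uu, mul_one]
  exact ⟨h.uu, h.une, h.bu, by rw [h.btu, e], by rw [e, h.bt]⟩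

structure Fr (ρ : Representation (ZMod 3) S E) (b t u : S) (e1 e2 e3 : E) : Prop where
  tr : Tr b t u
  ne : e1 ≠ 0
  b1 : ρ b e1 = e2
  b2 : ρ b e2 = e3
  b3 : ρ b e3 = e1
  t1 : ρ t e1 = e1
  t2 : ρ t e2 = -e2
  t3 : ρ t e3 = -e3
  u1 : ρ u e1 = -e1
  u2 : ρ u e2 = e2
  u3 : ρ u e3 = -e3
  g1 : ∀ v, ρ t v = v → ρ u v = -v → ∃ a : ZMod 3, v = a • e1
  g2 : ∀ v, ρ t v = -v → ρ u v = v → ∃ a : ZMod 3, v = a • e2
  g3 : ∀ v, ρ t v = -v → ρ u v = -v → ∃ a : ZMod 3, v = a • e3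
  g0 : ∀ v, ρ t v = v → ρ u v = v → ρ b v = v

theorem Tr.dec (h : Tr b t u) (ht : ∀ v ∈ N, ρ t v ∈ N) (hu : ∀ v ∈ N, ρ u v ∈ N) (hv : v ∈ N) :
    ∃ x ∈ N, ∃ y ∈ N, ∃ z ∈ N, ∃ w ∈ N, (ρ t x = x ∧ ρ u x = -x) ∧ (ρ t y = -y ∧ ρ u y = y) ∧
      (ρ t z = -z ∧ ρ u z = -z) ∧ (ρ t w = w ∧ ρ u w = w) ∧ v = x + y + z + w := by
  have a : ∀ v, ρ t (ρ t v) = v := fun v => by rw [← mul_ap, h.tt, one_ap]
  have a' : ∀ v, ρ u (ρ u v) = v := fun v => by rw [← mul_ap, h.uu, one_ap]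
  have a'' : ∀ v, ρ u (ρ t v) = ρ t (ρ u v) := fun v => by rw [← mul_ap, h.comm, mul_ap]
  have m1 := ht v hv
  have m2 := hu v hv
  have m3 := ht _ m2
  refine ⟨v + ρ t v - ρ u v - ρ t (ρ u v), sub_mem (sub_mem (add_mem hv m1) m2) m3,
    v - ρ t v + ρ u v - ρ t (ρ u v), sub_mem (add_mem (sub_mem hv m1) m2) m3,
    v - ρ t v - ρ u v + ρ t (ρ u v), add_mem (sub_mem (sub_mem hv m1) m2) m3,
    v + ρ t v + ρ u v + ρ t (ρ u v), add_mem (add_mem (add_mem hv m1) m2) m3,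
    ⟨?_, ?_⟩, ⟨?_, ?_⟩, ⟨?_, ?_⟩, ⟨?_, ?_⟩, ?_⟩
  iterate 8 simp only [map_add, map_sub, a, a', a'']; abel
  linear_combination (norm := abel) -three v

theorem indep {x y z w : E} (hx : ρ t x = x ∧ ρ u x = -x) (hy : ρ t y = -y ∧ ρ u y = y)
    (hz : ρ t z = -z ∧ ρ u z = -z) (hw : ρ t w = w ∧ ρ u w = w) (h : x + y + z + w = 0) :
    x = 0 ∧ y = 0 ∧ z = 0 ∧ w = 0 := by
  have h1 := congrArg (ρ t) h
  have h2 := congrArg (ρ u) h
  simp only [map_add, map_zero, hx.1, hx.2, hy.1, hy.2, hz.1, hz.2, hw.1, hw.2] at h1 h2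
  have h3 := congrArg (ρ u) h1
  simp only [map_add, map_neg, map_zero, hx.2, hy.2, hz.2, hw.2] at h3
  refine ⟨?_, ?_, ?_, ?_⟩
  · linear_combination (norm := abel) h + h1 - h2 - h3 - three x
  · linear_combination (norm := abel) h - h1 + h2 - h3 - three y
  · linear_combination (norm := abel) h - h1 - h2 + h3 - three z
  · linear_combination (norm := abel) h + h1 + h2 + h3 - three w

theorem Tr.m1 (h : Tr b t u) (hx : ρ t v = v ∧ ρ u v = -v) :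
    ρ t (ρ b v) = -ρ b v ∧ ρ u (ρ b v) = ρ b v :=
  ⟨by rw [← mul_ap, ← h.btu, mul_ap, mul_ap, hx.2, map_neg, hx.1, map_neg],
    by rw [← mul_ap, ← h.bt, mul_ap, hx.1]⟩
theorem Tr.m2 (h : Tr b t u) (hx : ρ t v = -v ∧ ρ u v = v) :
    ρ t (ρ b v) = -ρ b v ∧ ρ u (ρ b v) = -ρ b v :=
  ⟨by rw [← mul_ap, ← h.btu, mul_ap, mul_ap, hx.2, hx.1, map_neg],
    by rw [← mul_ap, ← h.bt, mul_ap, hx.1, map_neg]⟩
theorem Tr.m3 (h : Tr b t u) (hx : ρ t v = -v ∧ ρ u v = -v) :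
    ρ t (ρ b v) = ρ b v ∧ ρ u (ρ b v) = -ρ b v :=
  ⟨by rw [← mul_ap, ← h.btu, mul_ap, mul_ap, hx.2, map_neg, hx.1, neg_neg],
    by rw [← mul_ap, ← h.bt, mul_ap, hx.1, map_neg]⟩
theorem Tr.m0 (h : Tr b t u) (hx : ρ t v = v ∧ ρ u v = v) :
    ρ t (ρ b v) = ρ b v ∧ ρ u (ρ b v) = ρ b v :=
  ⟨by rw [← mul_ap, ← h.btu, mul_ap, mul_ap, hx.2, hx.1], by rw [← mul_ap, ← h.bt, mul_ap, hx.1]⟩

theorem Cx.bbb (C : Cx ρ b) (v : E) : ρ b (ρ b (ρ b v)) = v := by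
  rw [← mul_ap, ← mul_ap, ← pow_three', C.b3, one_ap]

theorem Cx.frame [Finite E] (C : Cx ρ b) (h : Tr b t u) : ∃ e1 e2 e3, Fr ρ b t u e1 e2 e3 := by
  let L : Submodule (ZMod 3) E :=
    { carrier := {v | ρ t v = v ∧ ρ u v = -v}
      add_mem' := fun h1 h2 => ⟨by rw [map_add, h1.1, h2.1], by rw [map_add, h1.2, h2.2, neg_add]⟩
      zero_mem' := by simp
      smul_mem' := fun c _ h => ⟨by rw [map_smul, h.1], by rw [map_smul, h.2, smul_neg]⟩ }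
  obtain ⟨e, he, e0⟩ : ∃ e ∈ L, e ≠ 0 := by
    by_contra! H
    refine h.ne (C.inj t fun v => ?_)
    obtain ⟨x, -, y, -, z, -, w, -, hx, hy, hz, hw, rfl⟩ := h.dec (ρ := ρ) (N := ⊤) (v := v)
      (fun _ _ => trivial) (fun _ _ => trivial) trivial
    have h2 : y = 0 := by rw [← C.bbb y, H _ (h.m3 (h.m2 hy)), map_zero]
    have h3 : z = 0 := by rw [← C.bbb z, H _ (h.m3 hz), map_zero, map_zero]
    rw [H x hx, h2, h3]; simpa using hw.1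
  let φ : L × L → LinearMap.range (ρ b - 1) := fun p => ⟨_, p.1.1 + ρ b p.2.1, rfl⟩
  have key : ∀ x ∈ L, ∀ y ∈ L, ∀ w, ρ t w = w ∧ ρ u w = w → (ρ b - 1) (x + ρ b y) = w →
      x = 0 ∧ y = 0 ∧ w = 0 := fun x hx y hy w hw e => by
    have := indep (ρ := ρ) (L.neg_mem hx) (h.m1 (L.sub_mem hx hy)) (h.m2 (h.m1 hy))
      (w := -w) ⟨by rw [map_neg, hw.1], by rw [map_neg, hw.2]⟩ (by
        rw [← e]; simp only [LinearMap.sub_apply, Module.End.one_apply, map_add, map_sub]; abel)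
    exact ⟨neg_eq_zero.1 this.1, by rw [← C.bbb y, this.2.2.1, map_zero], neg_eq_zero.1 this.2.2.2⟩
  have i : Function.Injective φ := fun p q e => by
    have := key _ (L.sub_mem p.1.2 q.1.2) _ (L.sub_mem p.2.2 q.2.2) 0 (by simp) (by
      have := congrArg Subtype.val e
      simp only [φ] at this
      rw [← sub_eq_zero, ← map_sub] at this
      rw [← this, map_sub (ρ b)]; congr 1; abel)
    exact Prod.ext (Subtype.ext (sub_eq_zero.1 this.1)) (Subtype.ext (sub_eq_zero.1 this.2.1))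
  have c1 := (Nat.card_le_card_of_injective φ i).trans C.rk
  have c2 : Submodule.span (ZMod 3) {e} ≤ L := (Submodule.span_singleton_le_iff_mem _ _).2 he
  have c3 := Submodule.finrank_mono c2
  rw [finrank_span_singleton e0] at c3
  rw [Nat.card_prod, card_pow, ← pow_add] at c1
  have c4 := (Nat.pow_le_pow_iff_right (by norm_num)).1 (c1.trans (by norm_num : 9 ≤ 3 ^ 2))
  have c5 := Submodule.eq_of_le_of_finrank_eq c2 (by rw [finrank_span_singleton e0]; omega)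
  have c6 : Function.Surjective φ := (i.bijective_of_nat_card_le (C.rk.trans (by
    rw [Nat.card_prod, card_pow, show Module.finrank (ZMod 3) L = 1 by omega]
    norm_num))).2
  have g : ∀ v ∈ L, ∃ a : ZMod 3, v = a • e := fun v hv =>
    (Submodule.mem_span_singleton.1 (c5.ge hv)).imp fun _ => Eq.symm
  refine ⟨e, ρ b e, ρ b (ρ b e), h, e0, rfl, rfl, C.bbb e, he.1, (h.m1 he).1, (h.m2 (h.m1 he)).1,
    he.2, (h.m1 he).2, (h.m2 (h.m1 he)).2, fun v h1 h2 => g v ⟨h1, h2⟩, fun v h1 h2 => ?_,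
    fun v h1 h2 => ?_, fun v h1 h2 => ?_⟩
  · obtain ⟨a, e⟩ := g _ (h.m3 (h.m2 ⟨h1, h2⟩))
    exact ⟨a, by rw [← C.bbb v, e, map_smul]⟩
  · obtain ⟨a, e⟩ := g _ (h.m3 ⟨h1, h2⟩)
    exact ⟨a, by rw [← C.bbb v, e, map_smul, map_smul]⟩
  · obtain ⟨p, hp⟩ := c6 ⟨_, v, rfl⟩
    have := h.m0 (ρ := ρ) ⟨h1, h2⟩
    exact sub_eq_zero.1 (key _ p.1.2 _ p.2.2 (ρ b v - v)
      ⟨by rw [map_sub, this.1, h1], by rw [map_sub, this.2, h2]⟩ (congrArg Subtype.val hp)).2.2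

namespace Fr
variable (F : Fr ρ b t u e1 e2 e3)
include F

theorem ne2 : e2 ≠ 0 := F.b1 ▸ ap_ne b F.ne
theorem ne3 : e3 ≠ 0 := F.b2 ▸ ap_ne b F.ne2

theorem next : Fr ρ b u (t * u) e2 e3 e1 := by
  have a : ∀ v, ρ t (ρ t v) = v := fun v => by rw [← mul_ap, F.tr.tt, one_ap]
  refine ⟨F.tr.next, F.ne2, F.b2, F.b3, F.b1, F.u2, F.u3, F.u1, ?_, ?_, ?_, fun v h1 h2 => ?_,
    fun v h1 h2 => ?_, fun v h1 h2 => ?_, fun v h1 h2 => ?_⟩
  · rw [mul_ap, F.u2, F.t2]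
  · rw [mul_ap, F.u3, map_neg, F.t3, neg_neg]
  · rw [mul_ap, F.u1, map_neg, F.t1]
  · rw [mul_ap, h1] at h2; exact F.g2 v h2 h1
  · rw [mul_ap, h1, map_neg, neg_eq_iff_eq_neg] at h2; exact F.g3 v h2 h1
  · rw [mul_ap, h1, map_neg, neg_inj] at h2; exact F.g1 v h2 h1
  · rw [mul_ap, h1] at h2; exact F.g0 v h2 h1

theorem dec (ht : ∀ v ∈ N, ρ t v ∈ N) (hu : ∀ v ∈ N, ρ u v ∈ N) (hv : v ∈ N) :
    ∃ a1 a2 a3 : ZMod 3, ∃ w ∈ N, a1 • e1 ∈ N ∧ a2 • e2 ∈ N ∧ a3 • e3 ∈ N ∧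
      (ρ t w = w ∧ ρ u w = w) ∧ v = a1 • e1 + a2 • e2 + a3 • e3 + w := by
  obtain ⟨x, m1, y, m2, z, m3, w, m4, hx, hy, hz, hw, rfl⟩ := F.tr.dec ht hu hv
  obtain ⟨a1, rfl⟩ := F.g1 x hx.1 hx.2
  obtain ⟨a2, rfl⟩ := F.g2 y hy.1 hy.2
  obtain ⟨a3, rfl⟩ := F.g3 z hz.1 hz.2
  exact ⟨a1, a2, a3, w, m4, m1, m2, m3, hw, rfl⟩

theorem dec' (v : E) : ∃ a1 a2 a3 : ZMod 3, ∃ w, (ρ t w = w ∧ ρ u w = w) ∧
    v = a1 • e1 + a2 • e2 + a3 • e3 + w := by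
  obtain ⟨a1, a2, a3, w, -, -, -, -, h⟩ := F.dec (N := ⊤) (v := v) (fun _ _ => trivial)
    (fun _ _ => trivial) trivial
  exact ⟨a1, a2, a3, w, h⟩

theorem W_le (h1 : e2 - e1 ∈ N) (h2 : e3 - e2 ∈ N) (v : E) : ρ b v - v ∈ N := by
  obtain ⟨a1, a2, a3, w, hw, rfl⟩ := F.dec' v
  convert sub_mem (N.smul_mem (a1 - a3) h1) (N.smul_mem (a3 - a2) h2) using 1
  simp only [map_add, map_smul, F.b1, F.b2, F.b3, F.g0 w hw.1 hw.2]
  module

theorem s_ne : e1 + e2 + e3 ≠ 0 := fun h =>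
  F.ne (indep (ρ := ρ) ⟨F.t1, F.u1⟩ ⟨F.t2, F.u2⟩ ⟨F.t3, F.u3⟩ (w := 0) (by simp) (by simpa using h)).1

theorem s_mem (hN : ∀ v ∈ N, ρ b v ∈ N) (hv : v ∈ N) (h : ρ b v ≠ v) : e1 + e2 + e3 ∈ N := by
  obtain ⟨a1, a2, a3, w, hw, rfl⟩ := F.dec' v
  have h1 := N.sub_mem (hN _ hv) hv
  have h2 := N.sub_mem (hN _ h1) h1
  simp only [map_add, map_sub, map_smul, F.b1, F.b2, F.b3, F.g0 w hw.1 hw.2] at h h1 h2
  have : ∀ a1 a2 a3 : ZMod 3, (∃ k, k * (a2 + a1 - a3 - a3) = 1 ∧ k * (a3 + a2 - a1 - a1) = 1 ∧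
      k * (a1 + a3 - a2 - a2) = 1) ∨ (a1 = a2 ∧ a2 = a3) ∨
      ∃ k, k * (a3 - a1) = 1 ∧ k * (a1 - a2) = 1 ∧ k * (a2 - a3) = 1 := by decide
  rcases this a1 a2 a3 with ⟨k, k1, k2, k3⟩ | ⟨rfl, rfl⟩ | ⟨k, k1, k2, k3⟩
  · convert N.smul_mem k h2 using 1
    linear_combination (norm := module) -k1 • e1 - k2 • e2 - k3 • e3
  · exact absurd (by abel) h
  · convert N.smul_mem k h1 using 1
    linear_combination (norm := module) -k1 • e1 - k2 • e2 - k3 • e3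

/-- an element commuting with `t` and `u` is diagonal -/
theorem diag (h1 : c * t = t * c) (h2 : c * u = u * c) : ρ c e1 = e1 ∨ ρ c e1 = -e1 := by
  obtain ⟨a, ha⟩ := F.g1 (ρ c e1) (by rw [← mul_ap, ← h1, mul_ap, F.t1])
    (by rw [← mul_ap, ← h2, mul_ap, F.u1, map_neg])
  have : ∀ a : ZMod 3, a = 0 ∨ a = 1 ∨ a = -1 := by decide
  rcases this a with rfl | rfl | rfl
  · exact absurd (by simpa using ha) (ap_ne c F.ne)
  · exact Or.inl (by simpa using ha)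
  · exact Or.inr (by simpa using ha)

theorem diag2 (h1 : c * t = t * c) (h2 : c * u = u * c) : ρ c e2 = e2 ∨ ρ c e2 = -e2 :=
  F.next.diag h2 (by rw [← mul_assoc, h1, mul_assoc, h2, mul_assoc])

theorem diag3 (h1 : c * t = t * c) (h2 : c * u = u * c) : ρ c e3 = e3 ∨ ρ c e3 = -e3 :=
  F.next.diag2 h2 (by rw [← mul_assoc, h1, mul_assoc, h2, mul_assoc])

end Fr
end H23.CB
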