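import Cfsg.Agent.H23.CB2
import Cfsg.Agent.H1.Frattini

/-! `R = [R, b]`: irreducibility, faithfulness, and `R` is a `2`-group (for S4415). -/

set_option autoImplicit false

namespace H23.CB
open Subgroup H19 Module

variable {S : Type*} [Group S] {E : Type*} [AddCommGroup E] [Module (ZMod 3) E]
  {ρ : Representation (ZMod 3) S E} {b t u r c y : S} {e1 e2 e3 v : E} {N : Submodule (ZMod 3) E}
  {R Y H : Subgroup S}

/-- the four-group of a triple -/
def Tr.Q (h : Tr b t u) : Subgroup S where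
  carrier := {x | x = 1 ∨ x = t ∨ x = u ∨ x = t * u}
  one_mem' := Or.inl rfl
  mul_mem' := by
    have h1 := h.tt; have h2 := h.uu; have h3 := h.comm
    have h4 : t * (t * u) = u := by rw [← mul_assoc, h1, one_mul]
    have h5 : u * (t * u) = t := by rw [← mul_assoc, h3, mul_assoc, h2, mul_one]
    have h6 : t * u * t = u := by rw [mul_assoc, h3, h4]
    have h7 : t * u * u = t := by rw [mul_assoc, h2, mul_one]
    have h8 : t * u * (t * u) = 1 := by rw [mul_assoc, h5, h1]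
    rintro _ _ (rfl | rfl | rfl | rfl) (rfl | rfl | rfl | rfl) <;> simp [*]
  inv_mem' := by
    have h8 : t * u * (t * u) = 1 := h.next.uu
    rintro _ (rfl | rfl | rfl | rfl)
    · simp
    · simp [inv_eq_of_mul_eq_one_right h.tt]
    · simp [inv_eq_of_mul_eq_one_right h.uu]
    · rw [inv_eq_of_mul_eq_one_right h8]; simp

theorem Tr.Q_sq (h : Tr b t u) (hx : c ∈ h.Q) : c * c = 1 := by
  rcases hx with rfl | rfl | rfl | rfl
  exacts [one_mul 1, h.tt, h.uu, h.next.uu]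

theorem Tr.card_Q (h : Tr b t u) : #h.Q = 4 := by
  have h1 := h.ne; have h2 := h.une; have h3 := h.tune
  have h4 : t ≠ u := fun e => h3 (by rw [← e, h.tt])
  have h5 : t ≠ t * u := fun e => h2 (by simpa using e)
  have h6 : u ≠ t * u := fun e => h1 (by simpa using e)
  change Nat.card ({1, t, u, t * u} : Set S) = 4
  rw [Nat.card_coe_set_eq, Set.ncard_insert_of_notMem (by simp [h1.symm, h2.symm, h3.symm]),
    Set.ncard_insert_of_notMem (by simp [h4, h2]), Set.ncard_pair h6]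

theorem Tr.Q_le (h : Tr b t u) (h1 : t ∈ H) (h2 : u ∈ H) : h.Q ≤ H := by
  rintro _ (rfl | rfl | rfl | rfl)
  exacts [one_mem _, h1, h2, mul_mem h1 h2]

theorem ab_of_sq (h : ∀ x ∈ H, x * x = 1) : Abelem 2 H :=
  ⟨⟨⟨fun x y => Subtype.ext (by
    have h1 := h _ (mul_mem x.2 y.2)
    calc (x : S) * y = (y * y) * x * y * (x * x) := by rw [h _ x.2, h _ y.2]; group
      _ = y * (y * x * (y * x)) * x := by group
      _ = y * x := by rw [h _ (mul_mem y.2 x.2)]; group)⟩⟩, fun x hx => by rw [pow_two, h x hx]⟩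

structure Rx (ρ : Representation (ZMod 3) S E) (b : S) (R : Subgroup S) : Prop extends Cx ρ b where
  nb : b ∈ N(R)
  cop : (#R).Coprime 3
  gen : ∀ K : Subgroup S, (∀ r ∈ R, r * b * r⁻¹ ∈ K) → R ≤ K

theorem Tr.mem (h : Tr b t u) (nb : b ∈ N(Y)) (ht : t ∈ Y) : u ∈ Y :=
  h.eu ▸ (mem_normalizer_iff.1 nb t).1 ht

theorem Fr.mem1 (F : Fr ρ b t u e1 e2 e3) (hu : u ∈ Y) : e1 ∈ Cm ρ Y := by
  convert mem_Cm (ρ := ρ) hu e1 using 1
  rw [F.u1]; linear_combination (norm := abel) three e1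
theorem Fr.mem2 (F : Fr ρ b t u e1 e2 e3) (ht : t ∈ Y) : e2 ∈ Cm ρ Y := by
  convert mem_Cm (ρ := ρ) ht e2 using 1
  rw [F.t2]; linear_combination (norm := abel) three e2
theorem Fr.mem3 (F : Fr ρ b t u e1 e2 e3) (ht : t ∈ Y) : e3 ∈ Cm ρ Y := by
  convert mem_Cm (ρ := ρ) ht e3 using 1
  rw [F.t3]; linear_combination (norm := abel) three e3

theorem Fr.St_t (F : Fr ρ b t u e1 e2 e3) (h2 : e2 ∈ N) (h3 : e3 ∈ N) : t ∈ St ρ N := fun v => by
  obtain ⟨a1, a2, a3, w, hw, rfl⟩ := F.dec' v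
  convert add_mem (N.smul_mem (-2 * a2) h2) (N.smul_mem (-2 * a3) h3) using 1
  simp only [map_add, map_smul, F.t1, F.t2, F.t3, hw.1]; module

variable [Finite S]

theorem Rx.eq_one_of_cube (X : Rx ρ b R) (hr : r ∈ R) (h : r ^ 3 = 1) : r = 1 :=
  orderOf_eq_one_iff.1 (Nat.eq_one_of_dvd_coprimes X.cop (orderOf_dvd_card' hr)
    (orderOf_dvd_of_pow_eq_one h))

theorem Cx.pg3 (X : Cx ρ b) : PG 3 (zpowers b) := by
  unfold PG PiG; rw [Nat.card_zpowers]
  exact (PiN.prime_pow Nat.prime_three 1).dvd (orderOf_dvd_of_pow_eq_one X.b3)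

theorem Rx.irr (X : Rx ρ b R) (F : Fr ρ b t u e1 e2 e3) (ht : t ∈ R) (h0 : N ≤ Cm ρ R)
    (hR : R ≤ Iv ρ N) (hb : b ∈ Iv ρ N) : N = ⊥ ∨ N = Cm ρ R := by
  by_cases h : e1 ∈ N
  · have h2 : e2 ∈ N := F.b1 ▸ hb _ h
    have h3 : e3 ∈ N := F.b2 ▸ hb _ h2
    refine Or.inr (le_antisymm h0 (Cm_le (X.gen _ fun r hr v => ?_)))
    have := hR hr _ (F.W_le (sub_mem h2 h) (sub_mem h3 h2) (ρ r⁻¹ v))
    rwa [map_sub, ap_inv, ← mul_ap, ← mul_ap] at this
  · have k : ∀ {a : ZMod 3} {e : E}, a • e ∈ N → e ∉ N → a = 0 := fun {a e} h1 h2 => by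
      by_contra h; exact h2 ((N.smul_mem_iff h).1 h1)
    have h3 : e3 ∉ N := fun h3 => h (F.b3 ▸ hb _ h3)
    have h2 : e2 ∉ N := fun h2 => h3 (F.b2 ▸ hb _ h2)
    have h4 : ∀ v ∈ N, ρ b v = v := fun v hv => by
      obtain ⟨a1, a2, a3, w, -, m1, m2, m3, hw, rfl⟩ := F.dec (hR ht) (hR (F.tr.mem X.nb ht)) hv
      rw [k m1 h, k m2 h2, k m3 h3]; simpa using F.g0 w hw.1 hw.2
    have h5 : R ≤ Pt ρ N := X.gen _ fun r hr v hv => by
      rw [mul_ap, mul_ap, h4 _ (hR (inv_mem hr) v hv), ap_inv]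
    exact Or.inl (eq_bot_iff.2 fun v hv => disj X.cop (h0 hv) fun r hr => h5 hr v hv)

theorem Rx.faith (X : Rx ρ b R) (F : Fr ρ b t u e1 e2 e3) (ht : t ∈ R) (hr : r ∈ R ⊔ zpowers b)
    (h : r ∈ Pt ρ (Cm ρ R)) : r = 1 := by
  have key : ∀ s ∈ R, s * b ∉ Pt ρ (Cm ρ R) := fun s hs h => by
    have h1 : (s * b) * s * (s * b)⁻¹ * s⁻¹ = 1 := eq_one X.inj X.cop
      (mul_mem ((mem_normalizer_iff.1 (mul_mem (le_normalizer hs) X.nb) s).1 hs) (inv_mem hs))
      fun v hv => by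
        have m := Cm_inv (le_normalizer (inv_mem hs)) hv
        rw [mul_ap, mul_ap, inv_mem h _ m, mul_ap, ap_inv, h v hv]
    have h2 : Commute s b := by
      have : s * (b * s) = s * (s * b) := by
        calc _ = ((s * b) * s * (s * b)⁻¹ * s⁻¹) * (s * (s * b)) := by group
          _ = _ := by rw [h1, one_mul]
      exact (mul_left_cancel this).symm
    have h3 := pow_mem h 3
    rw [h2.mul_pow, X.b3, mul_one] at h3
    rw [X.eq_one_of_cube hs (eq_one X.inj X.cop (pow_mem hs 3) h3), one_mul] at h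
    have h4 := h _ (F.mem2 ht)
    have h5 := F.u2
    rw [← h4, F.b2, F.u3] at h5
    exact F.ne3 (eq_zero_of_neg h5)
  obtain ⟨s, hs, x, ⟨k, rfl⟩, rfl⟩ := (mem_sup_of_norm (zpowers_le.2 X.nb)).1 hr
  have e : b ^ k = b ^ (k % 3) := zpow_eq_zpow_emod' k X.b3
  simp only [e] at h ⊢
  have : k % 3 = 0 ∨ k % 3 = 1 ∨ k % 3 = 2 := by omega
  rcases this with e | e | e <;> rw [e] at h ⊢
  · rw [zpow_zero, mul_one] at h ⊢; exact eq_one X.inj X.cop hs h
  · rw [zpow_one] at h; exact absurd h (key s hs)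
  · refine absurd ?_ (key _ ((mem_normalizer_iff.1 X.nb s⁻¹).1 (inv_mem hs)))
    convert inv_mem h using 1
    calc _ = (b ^ 3) * (s * b ^ (2 : ℤ))⁻¹ := by rw [pow_three']; group
      _ = _ := by rw [X.b3, one_mul]

variable [Finite E]

theorem Fr.final13 (C : Cx ρ b) (F : Fr ρ b t u e1 e2 e3) (hc : (#H).Coprime 3) (ht : t ∈ H)
    (h81 : Nat.card (Cm ρ H) ≤ 81) (hy : y ∈ H) (h13 : y ^ 13 = 1) (h : y * t = t * y) : y = 1 := by
  let M : Submodule (ZMod 3) E := LinearMap.ker (ρ t + 1)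
  have hM : ∀ v, v ∈ M ↔ ρ t v = -v := fun v => by
    simp only [M, LinearMap.mem_ker, LinearMap.add_apply, Module.End.one_apply, add_eq_zero_iff_eq_neg]
  have h1 : Nat.card M ≤ 9 := by
    refine (Nat.card_le_card_of_surjective (fun p : ZMod 3 × ZMod 3 => (⟨p.1 • e2 + p.2 • e3,
      (hM _).2 (by simp only [map_add, map_smul, F.t2, F.t3]; module)⟩ : M)) fun v => ?_).trans
      (by simp)
    obtain ⟨x, m1, y, -, z, -, w, m4, hx, hy, hz, hw, e⟩ := F.tr.dec (N := M)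
      (fun v hv => (hM _).2 (by rw [(hM v).1 hv, map_neg, (hM v).1 hv]))
      (fun v hv => (hM _).2 (by rw [← mul_ap, ← F.tr.comm, mul_ap, (hM v).1 hv, map_neg])) v.2
    obtain ⟨a2, rfl⟩ := F.g2 y hy.1 hy.2
    obtain ⟨a3, rfl⟩ := F.g3 z hz.1 hz.2
    rw [eq_zero_of_neg (((hM x).1 m1).symm.trans hx.1),
      eq_zero_of_neg (((hM w).1 m4).symm.trans hw.1)] at e
    exact ⟨(a2, a3), Subtype.ext (by simpa using e.symm)⟩
  have h2 := triv13 (N := M) h13
    (fun v hv => (hM _).2 (by rw [← mul_ap, ← h, mul_ap, (hM v).1 hv, map_neg]))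
    (h1.trans (by have : 0 < Nat.card ↥(M ⊓ Fx ρ (zpowers y)) := Nat.card_pos; omega))
  have h3 : zpowers y ≤ Pt ρ M := zpowers_le.2 h2
  have m2 : e2 ∈ Cm ρ H ⊓ Fx ρ (zpowers y) := ⟨F.mem2 ht, fun x hx => h3 hx _ ((hM _).2 F.t2)⟩
  have m3 : e3 ∈ Cm ρ H ⊓ Fx ρ (zpowers y) := ⟨F.mem3 ht, fun x hx => h3 hx _ ((hM _).2 F.t3)⟩
  have h4 := Nat.card_le_card_of_injective (fun p : ZMod 3 × ZMod 3 => (⟨p.1 • e2 + p.2 • e3,
      add_mem (Submodule.smul_mem _ _ m2) (Submodule.smul_mem _ _ m3)⟩ :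
      ↥(Cm ρ H ⊓ Fx ρ (zpowers y)))) fun p q e => by
    have := indep (ρ := ρ) (t := t) (u := u) (x := 0) (y := (p.1 - q.1) • e2)
      (z := (p.2 - q.2) • e3) (w := 0) (by simp) (by simp [F.t2, F.u2]) (by simp [F.t3, F.u3])
      (by simp) (by linear_combination (norm := module) congrArg Subtype.val e)
    exact Prod.ext (sub_eq_zero.1 ((smul_eq_zero.1 this.2.1).resolve_right F.ne2))
      (sub_eq_zero.1 ((smul_eq_zero.1 this.2.2.1).resolve_right F.ne3))
  simp only [Nat.card_prod, Nat.card_zmod] at h4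
  exact eq_one C.inj hc hy (triv13 h13 (fun v hv => Cm_inv (le_normalizer hy) hv) (by omega))

theorem norm13 {L : Subgroup S} (h1 : 13 ∣ #L) (h2 : #L ∣ 2 ^ 9 * 13) :
    ∃ P ≤ L, L ≤ N(P) ∧ #P = 13 := by
  have := Fact.mk (by norm_num : Nat.Prime 13)
  obtain ⟨P⟩ := (inferInstance : Nonempty (Sylow 13 L))
  have a1 : (P : Subgroup L).index ∣ 2 ^ 9 :=
    (Nat.Coprime.symm ((Nat.Prime.coprime_iff_not_dvd this.out).2 P.not_dvd_index)).dvd_of_dvd_mul_right
      ((index_dvd_card _).trans h2)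
  obtain ⟨i, hi, e⟩ := (Nat.dvd_prime_pow Nat.prime_two).1 (P.card_dvd_index.trans a1)
  have a2 := card_sylow_modEq_one 13 L
  rw [e] at a2
  have a3 : i = 0 := by unfold Nat.ModEq at a2; interval_cases i <;> omega
  rw [a3, pow_zero] at e
  have := (Nat.card_eq_one_iff_unique.1 e).1
  have := P.normal_of_subsingleton
  have hP := syl_sylow P
  refine ⟨_, hP.le, (normalIn_map_subtype _).norm, ?_⟩
  have a4 := hP.pi.dvd_of_dvd_mul (a := 13) (b := 2 ^ 9)
    ((PiN.prime_pow Nat.prime_two 9).sing_ne (by norm_num)) ((card_dvd hP.le).trans (mul_comm _ 13 ▸ h2))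
  exact Nat.dvd_antisymm a4 (hP.sdvd_card (by norm_num) h1)

theorem Fr.no13 (C : Cx ρ b) (F : Fr ρ b t u e1 e2 e3) (hc : (#H).Coprime 3) (hs : Sol H) (ht : t ∈ H)
    (hu : u ∈ H) (h81 : Nat.card (Cm ρ H) ≤ 81) : ¬ 13 ∣ #H := fun h13 => by
  obtain ⟨L, hL, hQ⟩ := PiN.exists_hall (π := {2, 13}) ((PiN.of_card_pow (k := 2) Nat.prime_two
    F.tr.card_Q).sing (by simp)) hs (F.tr.Q_le ht hu)
  obtain ⟨P, hP, hn, c⟩ := norm13 (hL.prime_dvd (by norm_num) (by simp) h13)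
    (hL.pi.dvd_of_dvd_mul (b := 5) ((piN_prime (by norm_num)).2 (by simp))
      ((card_dvd hL.le).trans ((card_dvd_gl C.inj hc h81).trans (by norm_num))))
  have := Fact.mk (by norm_num : Nat.Prime 13)
  have hA : Ab P := comm_of_cyclic (isCyclic_of_prime_card c)
  have p13 : ∀ y ∈ P, y ^ 13 = 1 := fun y hy => c ▸ orderOf_dvd_iff_pow_eq_one.1 (orderOf_dvd_card' hy)
  obtain ⟨⟨y, hy⟩, y1⟩ := ne_bot_iff_exists_ne_one.1 (show P ≠ ⊥ from fun e => by simp [e] at c)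
  have key : ∀ {t u e1 e2 e3}, Fr ρ b t u e1 e2 e3 → t ∈ L → y * t * y = t := fun {t u _ _ _} F ht => by
    have m := (mem_normalizer_iff.1 (hn ht) y).1 hy
    have i := inv_eq_of_mul_eq_one_right F.tr.tt
    rw [i] at m
    have := F.final13 C hc (hL.le ht) h81 (hL.le (hP (mul_mem hy m))) (p13 _ (mul_mem hy m)) (by
      rw [show y * (t * y * t) = t * y * t * y from congrArg Subtype.val (hA.is_comm.comm ⟨y, hy⟩ ⟨_, m⟩)]
      nth_rewrite 2 [show t * y * t * y = y * (t * y * t) from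
        congrArg Subtype.val (hA.is_comm.comm ⟨_, m⟩ ⟨y, hy⟩)]
      group)
    calc _ = y * (t * y * t) * t⁻¹ := by group
      _ = _ := by rw [this, one_mul, i]
  have mt : t ∈ L := hQ (Or.inr (Or.inl rfl))
  have mu : u ∈ L := hQ (Or.inr (Or.inr (Or.inl rfl)))
  refine y1 (Subtype.ext (F.next.next.final13 C hc (mul_mem ht hu) h81 (hL.le (hP hy)) (p13 y hy) ?_))
  calc _ = (y * t * y) * y⁻¹ * u := by group
    _ = t * y⁻¹ * (y * u * y) := by rw [key F mt, key F.next mu]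
    _ = _ := by group

theorem Rx.odd (X : Rx ρ b R) (F : Fr ρ b t u e1 e2 e3) (ht : t ∈ R) (hs : Sol R) {p : ℕ}
    (hp : p ≠ 2) (hY : PG p Y) (hle : Y ≤ R) (nb : b ∈ N(Y)) : Y ≤ C[b] := fun y hy => by
  by_contra h
  let W := LinearMap.range (ρ b - 1)
  let J := zpowers b ⊔ zpowers (y * b * y⁻¹)
  have mb : b ∈ J := mem_sup_left (mem_zpowers b)
  have mc : y * b * y⁻¹ * b⁻¹ ∈ J ⊓ Y := mem_inf.2 ⟨mul_mem (mem_sup_right (mem_zpowers _)) (inv_mem mb), by
    convert mul_mem hy ((mem_normalizer_iff.1 nb _).1 (inv_mem hy)) using 1; group⟩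
  generalize hc : y * b * y⁻¹ * b⁻¹ = c at mc
  have c1 : c ≠ 1 := fun e => h (mem_cent1.2 (by
    calc y * b = (y * b * y⁻¹ * b⁻¹) * b * y := by group
      _ = _ := by rw [hc, e, one_mul]))
  have cb : ¬ Commute c b := fun e => c1 (X.eq_one_of_cube (hle mc.2) (by
    have : (c * b) ^ 3 = 1 := by rw [← hc, inv_mul_cancel_right, conj_pow, X.b3]; group
    rwa [e.mul_pow, X.b3, mul_one] at this))
  have n0 : b ∈ N(J ⊓ Y) := zpowers_le.1 (norms_inf ((zpowers_le.2 mb).trans le_normalizer)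
    (zpowers_le.2 nb))
  have cop : (#(J ⊓ Y)).Coprime 3 := X.cop.coprime_dvd_left (card_dvd (inf_le_right.trans hle))
  have fW : finrank (ZMod 3) W ≤ 2 := (Nat.pow_le_pow_iff_right (by norm_num)).1
    ((card_pow W ▸ X.rk).trans (by norm_num : 9 ≤ 3 ^ 2))
  have f1 : finrank (ZMod 3) (Cm ρ (J ⊓ Y)) ≤ 4 := by
    refine (Submodule.finrank_mono (Cm_le (N := W ⊔ W.map (ρ y)) (inf_le_left.trans (sup_le
      (zpowers_le.2 fun v => Submodule.mem_sup_left ⟨v, rfl⟩) (zpowers_le.2 fun v =>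
        Submodule.mem_sup_right ⟨_, ⟨ρ y⁻¹ v, rfl⟩, ?_⟩))))).trans
      ((Submodule.finrank_add_le_finrank_add_finrank _ _).trans ?_)
    · simp only [LinearMap.sub_apply, Module.End.one_apply, map_sub, mul_ap, ap_inv]
    · have := Submodule.finrank_map_le (ρ y) W; omega
  have d := card_dvd_gl X.inj cop (card_pow (Cm ρ (J ⊓ Y)) ▸
    (Nat.pow_le_pow_right (by norm_num) f1))
  have n1 : J ⊓ Y ≠ ⊥ := fun e => c1 (by simpa [e] using mc)
  have hY0 := hY.infr J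
  have pp := hY0.prime_of_ne_bot n1
  have pd := hY0.dvd_of_ne_bot n1
  have : p = 5 ∨ p = 13 := by
    rcases (pp.dvd_mul).1 (pd.trans d) with h | h
    · rcases (pp.dvd_mul).1 h with h | h
      · exact absurd ((Nat.prime_dvd_prime_iff_eq pp Nat.prime_two).1 (pp.dvd_of_dvd_pow h)) hp
      · exact Or.inl ((Nat.prime_dvd_prime_iff_eq pp (by norm_num)).1 h)
    · exact Or.inr ((Nat.prime_dvd_prime_iff_eq pp (by norm_num)).1 h)
  rcases this with rfl | rfl
  · have c5 : #(J ⊓ Y) = 5 := Nat.dvd_antisymm (hY0.dvd_of_dvd_mul (b := 2 ^ 9 * 13)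
      (PiN.of_not_dvd (by norm_num)) (d.trans (by norm_num))) pd
    have := Fact.mk Nat.prime_three
    have m := H1.card_modEq_card_inf_centralizer (q := 3) (Q := zpowers b) X.pg3.isPGroup
      (zpowers_le.2 n0)
    have d5 := card_dvd (inf_le_left : J ⊓ Y ⊓ C(zpowers b) ≤ J ⊓ Y)
    rw [c5] at m d5
    rcases (Nat.dvd_prime (by norm_num)).1 d5 with e | e
    · rw [e] at m; exact absurd m (by decide)
    · have := eq_of_le_of_card_ge (inf_le_left : J ⊓ Y ⊓ C(zpowers b) ≤ J ⊓ Y) (by rw [c5, e])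
      exact cb ((this.ge mc).2 b (mem_zpowers b)).symm
  · have c13 : #(J ⊓ Y) = 13 := Nat.dvd_antisymm (hY0.dvd_of_dvd_mul (b := 2 ^ 9 * 5)
      (PiN.of_not_dvd (by norm_num)) (d.trans (by norm_num))) pd
    have p13 : c ^ 13 = 1 := c13 ▸ orderOf_dvd_iff_pow_eq_one.1 (orderOf_dvd_card' mc)
    have := Fact.mk pp
    have ez : zpowers c = J ⊓ Y := eq_of_le_of_card_ge (zpowers_le.2 mc)
      (by rw [c13, Nat.card_zpowers, orderOf_eq_prime p13 c1])
    have m := modEq_fix (ρ := ρ) (N := Cm ρ (J ⊓ Y)) pp p13 fun v hv => Cm_inv (le_normalizer mc) hv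
    rw [ez, show Cm ρ (J ⊓ Y) ⊓ Fx ρ (J ⊓ Y) = ⊥ from eq_bot_iff.2 fun v hv => disj cop hv.1 hv.2,
      card_pow, card_pow ⊥, finrank_bot] at m
    have f2 : finrank (ZMod 3) (Cm ρ (J ⊓ Y)) ≤ 3 := by
      by_contra h
      rw [show finrank (ZMod 3) (Cm ρ (J ⊓ Y)) = 4 by omega] at m
      exact absurd m (by decide)
    have hW : ∀ v, ρ b v - v ∈ Cm ρ (J ⊓ Y) := by
      have s1 : e1 + e2 + e3 ∈ Cm ρ (J ⊓ Y) := by
        by_contra h
        have a : b ∈ Pt ρ (Cm ρ (J ⊓ Y)) := fun v hv => by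
          by_contra h'; exact h (F.s_mem (fun v hv => Cm_inv n0 hv) hv h')
        refine cb (commutatorElement_eq_one_iff_commute.1 (eq_one X.inj cop (by
          convert mul_mem mc ((mem_normalizer_iff.1 n0 _).1 (inv_mem mc)) using 1
          rw [commutatorElement_def]; group) fun v hv => ?_))
        rw [commutatorElement_def, mul_ap, inv_mem a v hv, mul_ap, mul_ap,
          a _ (Cm_inv (le_normalizer (inv_mem mc)) hv), ap_inv]
      intro v
      obtain ⟨m, hm, f, hf, rfl⟩ := split (ρ := ρ) cop v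
      have : ρ b f = f := by
        by_contra h; exact F.s_ne (disj cop s1 (F.s_mem (fun v hv => Fx_inv n0 hv) hf h))
      rw [map_add, this, add_sub_add_right_eq_sub]; exact sub_mem (Cm_inv n0 hm) hm
    have hu := F.tr.mem X.nb ht
    have hH : F.tr.Q ⊔ J ⊓ Y ≤ R := sup_le (F.tr.Q_le ht hu) (inf_le_right.trans hle)
    refine F.no13 X.toCx (H := F.tr.Q ⊔ J ⊓ Y) (X.cop.coprime_dvd_left (card_dvd hH))
      (sol_mono hs hH) (mem_sup_left (Or.inr (Or.inl rfl)))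
      (mem_sup_left (Or.inr (Or.inr (Or.inl rfl)))) ?_ (c13 ▸ card_dvd le_sup_right)
    let V := Submodule.span (ZMod 3) {e1} ⊔ Cm ρ (J ⊓ Y)
    have v1 : e1 ∈ V := Submodule.mem_sup_left (Submodule.mem_span_singleton_self _)
    have v2 : e2 ∈ V := by simpa [F.b1] using add_mem v1 (Submodule.mem_sup_right (hW e1))
    have v3 : e3 ∈ V := by simpa [F.b2] using add_mem v2 (Submodule.mem_sup_right (hW e2))
    have := (Submodule.finrank_mono (Cm_le (N := V) (sup_le (F.tr.Q_le (F.St_t v2 v3)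
      (F.next.St_t v3 v1)) fun y hy v => Submodule.mem_sup_right (mem_Cm hy v)))).trans
      (Submodule.finrank_add_le_finrank_add_finrank _ _)
    rw [finrank_span_singleton F.ne] at this
    rw [card_pow]
    exact Nat.pow_le_pow_right (n := 3) (j := 4) (by norm_num) (by omega)

theorem Rx.two (X : Rx ρ b R) (F : Fr ρ b t u e1 e2 e3) (ht : t ∈ R) (hs : Sol R) : PG 2 R := by
  have h3 := X.pg3
  have hc : (#R).Coprime #(zpowers b) := (PiN.of_coprime X.cop).coprime' h3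
  have h1 : PiN {2} ((R ⊓ C[b]).relIndex R) := fun p hp hd => by
    by_contra h
    obtain ⟨P, hP, n⟩ := inv_syl_exists p (zpowers_le.2 X.nb) hc (Or.inr hs)
    exact hP.not_dvd hp (hd.trans (relIndex_dvd_of_le_left _ (le_inf hP.le
      (X.odd F ht hs h hP.pi hP.le (n (mem_zpowers b))))))
  obtain ⟨P, hP, n⟩ := inv_syl_exists 2 (zpowers_le.2 X.nb) hc (Or.inr hs)
  have h2 : R ≤ P ⊔ zpowers b := X.gen _ fun r hr => by
    obtain ⟨s, hs, c, hc, rfl⟩ := H2.exists_mul_of_coprime_relIndex (hP.idx.coprime' h1) hr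
    rw [show s * c * b * (s * c)⁻¹ = s * (c * b) * c⁻¹ * s⁻¹ by group, mem_cent1.1 hc.1.2,
      show s * (b * c) * c⁻¹ * s⁻¹ = s * b * s⁻¹ by group]
    exact mul_mem (mul_mem (mem_sup_left hs.1) (mem_sup_right (mem_zpowers b)))
      (mem_sup_left (inv_mem hs.1))
  intro p hp hd
  have h4 := ((hP.pi.sing (π := {2, 3}) (by simp)).sup (h3.sing (by simp)) n).of_le h2 p hp hd
  rcases h4 with rfl | rfl
  · rfl
  · exact absurd (Nat.Coprime.eq_one_of_dvd X.cop.symm hd) (by norm_num)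

end H23.CB
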