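import Cfsg.Agent.H23.CB3
import Cfsg.Agent.H4.ClassTwo

/-! A `2`-group `R = [R, b]` with centre of order two: the second centre (for S4415). -/

set_option autoImplicit false

namespace H23.CB
open Subgroup H19
open scoped commutatorElement

variable {S : Type*} [Group S] {b t u r s m n z c : S} {R K : Subgroup S}

structure Zx (b : S) (R : Subgroup S) (z : S) : Prop where
  b3 : b ^ 3 = 1
  nb : b ∈ N(R)
  gen : ∀ K : Subgroup S, (∀ r ∈ R, r * b * r⁻¹ ∈ K) → R ≤ K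
  two : PG 2 R
  mem : z ∈ R
  ne : z ≠ 1
  zz : z * z = 1
  cz : ∀ r ∈ R, r * z = z * r
  bz : b * z = z * b
  cen : ∀ c ∈ R, (∀ r ∈ R, r * c = c * r) → c = 1 ∨ c = z

namespace Zx
variable (X : Zx b R z)
include X

theorem bm (hr : r ∈ R) : b * r * b⁻¹ ∈ R := (mem_normalizer_iff.1 X.nb r).1 hr
theorem bbb (r : S) : b * (b * (b * r * b⁻¹) * b⁻¹) * b⁻¹ = r := by
  calc _ = b ^ 3 * r * (b ^ 3)⁻¹ := by rw [pow_three']; group
    _ = _ := by rw [X.b3]; group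

theorem memZ : c ∈ zpowers z ↔ c = 1 ∨ c = z := by
  refine ⟨fun h => X.cen c (zpowers_le.2 X.mem h) fun r hr => ?_, ?_⟩
  · exact (mem_cent1.1 (zpowers_le.2 (mem_cent1.2 (X.cz r hr).symm) h)).symm
  · rintro (rfl | rfl); exacts [one_mem _, mem_zpowers _]

theorem cZ (hc : c ∈ zpowers z) (hr : r ∈ R) : r * c = c * r := by
  rcases X.memZ.1 hc with rfl | rfl; exacts [by simp, X.cz r hr]
theorem jZ (hc : c ∈ zpowers z) (hr : r ∈ R) : r * c * r⁻¹ = c := by rw [X.cZ hc hr]; group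
theorem bZ (hc : c ∈ zpowers z) : b * c * b⁻¹ = c := by
  rcases X.memZ.1 hc with rfl | rfl; exacts [by simp, by rw [X.bz]; group]
theorem sqZ (hc : c ∈ zpowers z) : c * c = 1 := by
  rcases X.memZ.1 hc with rfl | rfl; exacts [by simp, X.zz]
theorem leR (hc : c ∈ zpowers z) : c ∈ R := zpowers_le.2 X.mem hc

/-- centralizer modulo the centre -/
def Cz (x : S) : Subgroup S where
  carrier := {s | s ∈ R ∧ ⁅s, x⁆ ∈ zpowers z}
  one_mem' := ⟨one_mem _, by simp⟩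
  mul_mem' := fun {g h} hg hh => ⟨mul_mem hg.1 hh.1, by
    rw [show ⁅g * h, x⁆ = g * ⁅h, x⁆ * g⁻¹ * ⁅g, x⁆ by simp only [commutatorElement_def]; group,
      X.jZ hh.2 hg.1]
    exact mul_mem hh.2 hg.2⟩
  inv_mem' := fun {g} hg => ⟨inv_mem hg.1, by
    rw [show ⁅g⁻¹, x⁆ = g⁻¹ * ⁅g, x⁆⁻¹ * g⁻¹⁻¹ by simp only [commutatorElement_def]; group,
      X.jZ (inv_mem hg.2) (inv_mem hg.1)]
    exact inv_mem hg.2⟩

/-- the second centre -/
def M : Subgroup S := R ⊓ ⨅ r ∈ R, X.Cz r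

theorem memM : m ∈ X.M ↔ m ∈ R ∧ ∀ r ∈ R, ⁅r, m⁆ ∈ zpowers z := by
  simp only [M, mem_inf, mem_iInf]
  refine and_congr_right fun h => forall₂_congr fun r _ => ?_
  rw [← inv_mem_iff (x := ⁅r, m⁆), commutatorElement_inv]
  exact ⟨fun h => h.2, fun h' => ⟨h, h'⟩⟩

theorem Z_le (hc : c ∈ zpowers z) : c ∈ X.M := X.memM.2 ⟨X.leR hc, fun r hr => by
  rw [commutatorElement_eq_one_iff_mul_comm.2 (X.cZ hc hr)]; exact one_mem _⟩

theorem bM (hm : m ∈ X.M) : b * m * b⁻¹ ∈ X.M := X.memM.2 ⟨X.bm hm.1, fun r hr => by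
  have h := (X.memM.1 hm).2 _ (X.bm (X.bm hr))
  rw [← X.bZ h, conjugate_commutatorElement, X.bbb] at h; exact h⟩

theorem cases (hm : m ∈ X.M) (hr : r ∈ R) : r * m = m * r ∨ r * m * r⁻¹ = m * z := by
  rcases X.memZ.1 ((X.memM.1 hm).2 r hr) with h | h
  · exact Or.inl (commutatorElement_eq_one_iff_mul_comm.1 h)
  · exact Or.inr (by rw [X.cz m hm.1, ← h, commutatorElement_def]; group)

theorem fixZ (hm : m ∈ X.M) (h : b * m * b⁻¹ = m ∨ b * m * b⁻¹ = m * z) : m ∈ zpowers z := by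
  have h1 : b * m * b⁻¹ = m := h.elim id fun h => by
    have e : b * (m * z) * b⁻¹ = m := by
      rw [show b * (m * z) * b⁻¹ = b * m * b⁻¹ * (b * z * b⁻¹) by group, h, X.bZ (mem_zpowers z),
        mul_assoc, X.zz, mul_one]
    have := X.bbb m
    rw [h, e, h] at this
    exact absurd (by simpa using this) X.ne
  have h2 : R ≤ C[m] := X.gen _ fun r hr => mem_cent1.2 (by
    have : b * (r⁻¹ * m * r) * b⁻¹ = r⁻¹ * m * r := by
      rcases X.cases hm (inv_mem hr) with e | e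
      · rw [e, inv_mul_cancel_right, h1]
      · rw [inv_inv] at e
        rw [e, show b * (m * z) * b⁻¹ = b * m * b⁻¹ * (b * z * b⁻¹) by group, h1, X.bZ (mem_zpowers z)]
    calc _ = r * (b * (r⁻¹ * m * r) * b⁻¹) * b * r⁻¹ := by group
      _ = _ := by rw [this]; group)
  exact X.memZ.2 (X.cen m hm.1 fun r hr => mem_cent1.1 (h2 hr))

theorem nrm (hr : r ∈ R) (h : r * (b * r * b⁻¹) * (b * (b * r * b⁻¹) * b⁻¹) ∈ X.M) :
    r * (b * r * b⁻¹) * (b * (b * r * b⁻¹) * b⁻¹) ∈ zpowers z := by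
  refine X.fixZ h ?_
  have e : b * (r * (b * r * b⁻¹) * (b * (b * r * b⁻¹) * b⁻¹)) * b⁻¹ =
      r⁻¹ * (r * (b * r * b⁻¹) * (b * (b * r * b⁻¹) * b⁻¹)) * r⁻¹⁻¹ := by
    calc _ = (b * r * b⁻¹) * (b * (b * r * b⁻¹) * b⁻¹) * (b * (b * (b * r * b⁻¹) * b⁻¹) * b⁻¹) := by group
      _ = _ := by rw [X.bbb]; group
  rw [e]
  exact (X.cases h (inv_mem hr)).imp_left fun e => by rw [e]; group

theorem triple (hm : m ∈ X.M) (h1 : m ∉ zpowers z) (h2 : m * m = 1) :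
    ∃ t ∈ X.M, Tr b t (b * t * b⁻¹) := by
  have hn := X.nrm hm.1 (mul_mem (mul_mem hm (X.bM hm)) (X.bM (X.bM hm)))
  generalize e : m * (b * m * b⁻¹) * (b * (b * m * b⁻¹) * b⁻¹) = n at hn
  have a : ∀ r, b * (r * n) * b⁻¹ = b * r * b⁻¹ * n := fun r => by
    nth_rewrite 2 [← X.bZ hn]; group
  refine ⟨m * n, mul_mem hm (X.Z_le hn), tr_mk X.b3 ?_ (fun h => h1 ?_) ?_⟩
  · rw [mul_assoc, ← mul_assoc n, ← X.cZ hn hm.1, mul_assoc, X.sqZ hn, mul_one, h2]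
  · rw [eq_inv_of_mul_eq_one_left h]; exact inv_mem hn
  · rw [a, a, mul_assoc m, ← X.cZ hn (mul_mem (X.bm hm.1) (X.leR hn)), mul_assoc _ n n, X.sqZ hn,
      mul_one, ← mul_assoc, e, X.sqZ hn]

theorem step [Finite S] (hK : K ⊴ R) (h : ¬ K ≤ zpowers z) : ∃ m ∈ K, m ∈ X.M ∧ m ∉ zpowers z := by
  obtain ⟨L, hL, hmin⟩ := exists_minimal_of_wellFoundedLT
    (fun L : Subgroup S => L ≤ K ∧ L ⊴ R ∧ ¬ L ≤ zpowers z) ⟨K, le_rfl, hK, h⟩
  have h1 := nil_commg_lt X.two.nil hL.2.1.le le_rfl hL.2.1.norm fun e => hL.2.2 (e ▸ bot_le)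
  have h2 : ⁅L, R⁆ ≤ zpowers z := by
    by_contra h
    exact h1.not_ge (hmin ⟨h1.le.trans hL.1, hL.2.1.comm (NormalIn.refl R), h⟩ h1.le)
  obtain ⟨m, m1, m2⟩ := SetLike.not_le_iff_exists.1 hL.2.2
  refine ⟨m, hL.1 m1, X.memM.2 ⟨hL.2.1.le m1, fun r hr => ?_⟩, m2⟩
  rw [← inv_mem_iff, commutatorElement_inv]; exact h2 (commutator_mem_commutator m1 hr)

theorem anti2 (hr : r ∈ R) (h1 : r * m * r⁻¹ = m * z) (h2 : s * m * s⁻¹ = m * z) :
    r * s * m = m * (r * s) := by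
  calc _ = r * (s * m * s⁻¹) * s := by group
    _ = (r * m * r⁻¹) * (r * z) * s := by rw [h2]; group
    _ = m * (z * z) * r * s := by rw [h1, X.cz r hr]; group
    _ = _ := by rw [X.zz]; group

omit X in
theorem anti1 (h1 : r * m = m * r) (h2 : s * m * s⁻¹ = m * z) (hz : r * z = z * r) :
    r * s * m * (r * s)⁻¹ = m * z := by
  calc _ = r * (s * m * s⁻¹) * r⁻¹ := by group
    _ = r * m * (z * r⁻¹) := by rw [h2]; group
    _ = m * (r * z) * r⁻¹ := by rw [h1]; group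
    _ = _ := by rw [hz]; group

omit X in
theorem anti1' (h1 : r * m * r⁻¹ = m * z) (h2 : s * m = m * s) :
    r * s * m * (r * s)⁻¹ = m * z := by
  rw [← h1, mul_assoc r, h2]; group

omit X in
theorem comm2 (h1 : r * m = m * r) (h2 : s * m = m * s) : r * s * m = m * (r * s) := by
  rw [mul_assoc, h2, ← mul_assoc, h1, mul_assoc]

/-- every element is congruent to one of `1, p, q, pq` modulo `C(m, n)` -/
theorem cover {p q : S} (hm : m ∈ X.M) (hn : n ∈ X.M) (hp : p ∈ R)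
    (p1 : p * m = m * p) (p2 : p * n * p⁻¹ = n * z) (q1 : q * m * q⁻¹ = m * z) (q2 : q * n = n * q)
    (hr : r ∈ R) : ∃ s, (s = 1 ∨ s = p ∨ s = q ∨ s = p * q) ∧ r * s ∈ C[m] ⊓ C[n] := by
  rcases X.cases hm hr with a | a <;> rcases X.cases hn hr with a' | a'
  · exact ⟨1, by simp, by simpa [mem_cent1] using ⟨a, a'⟩⟩
  · exact ⟨p, by simp, mem_cent1.2 (comm2 a p1), mem_cent1.2 (X.anti2 hr a' p2)⟩
  · exact ⟨q, by simp, mem_cent1.2 (X.anti2 hr a q1), mem_cent1.2 (comm2 a' q2)⟩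
  · exact ⟨p * q, by simp, mem_cent1.2 (X.anti2 hr a (anti1 p1 q1 (X.cz p hp))),
      mem_cent1.2 (X.anti2 hr a' (anti1' p2 q2))⟩

theorem tr_not (h : Tr b t u) : t ∉ zpowers z := fun ht => h.tune (by rw [h.eu, X.bZ ht, h.tt])

theorem exists_triple [Finite S] (h : Tr b t u) (ht : t ∈ R) : ∃ t ∈ X.M, Tr b t (b * t * b⁻¹) := by
  by_contra H
  have sq : ∀ m ∈ X.M, m ∉ zpowers z → m * m = z := fun m hm h1 =>
    (X.cen _ (mul_mem hm.1 hm.1) fun r hr => by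
      rcases X.cases hm hr with a | a
      · exact (comm2 a.symm a.symm).symm
      · calc _ = (r * m * r⁻¹) * (r * m * r⁻¹) * r := by group
          _ = m * (z * m) * z * r := by rw [a]; group
          _ = m * m * (z * z) * r := by rw [← X.cz m hm.1]; group
          _ = _ := by rw [X.zz, mul_one]).resolve_left fun h2 => H (X.triple hm h1 h2)
  obtain ⟨m, -, hm, m1⟩ := X.step (NormalIn.refl R) fun e => X.tr_not h (e ht)
  have back : ∀ x, b * x * b⁻¹ ∈ zpowers z → x ∈ zpowers z := fun x hx => by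
    rw [← X.bbb x, X.bZ hx, X.bZ hx]; exact hx
  have hn := X.bM hm
  have n1 : b * m * b⁻¹ ∉ zpowers z := fun e => m1 (back m e)
  have mn : m * (b * m * b⁻¹) ∉ zpowers z := fun e => n1 (back _ ((mul_mem_cancel_left e).1
    (X.nrm hm.1 (mul_mem (mul_mem hm hn) (X.bM hn)))))
  generalize b * m * b⁻¹ = n at hn n1 mn
  have nc : m * n ≠ n * m := fun e => X.ne (by
    rw [← sq _ (mul_mem hm hn) mn, mul_assoc, ← mul_assoc n, ← e, mul_assoc, sq n hn n1, ← mul_assoc,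
      sq m hm m1, X.zz])
  have a1 := (X.cases hn hm.1).resolve_left nc
  have a2 := (X.cases hm hn.1).resolve_left fun e => nc e.symm
  by_cases h1 : R ⊓ (C[m] ⊓ C[n]) ≤ zpowers z
  · obtain ⟨s, hs, h2⟩ := X.cover hm hn hm.1 rfl a1 a2 rfl ht
    have sM : s ∈ X.M := by
      rcases hs with rfl | rfl | rfl | rfl; exacts [one_mem _, hm, hn, mul_mem hm hn]
    have tM : t ∈ X.M := (mul_mem_cancel_right sM).1 (X.Z_le (h1 ⟨mul_mem ht sM.1, h2⟩))
    exact H (X.triple tM (X.tr_not h) h.tt)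
  · have key : ∀ x ∈ X.M, ∀ g ∈ R, ∀ y ∈ R, y ∈ C[x] → g * y * g⁻¹ ∈ C[x] := fun x hx g hg y hy h => by
      rw [mem_cent1] at h ⊢
      have : y * (g⁻¹ * x * g) = g⁻¹ * x * g * y := by
        rcases X.cases hx (inv_mem hg) with e | e
        · rw [e, inv_mul_cancel_right, h]
        · rw [inv_inv] at e; rw [e, ← mul_assoc, h, mul_assoc, X.cz y hy, mul_assoc]
      calc _ = g * (y * (g⁻¹ * x * g)) * g⁻¹ := by group
        _ = _ := by rw [this]; group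
    obtain ⟨k, hk, kM, k1⟩ := X.step (K := R ⊓ (C[m] ⊓ C[n])) ⟨inf_le_left, fun g hg =>
      H1.mem_normalizer_of_conj_mem fun y hy => mem_inf.2 ⟨mul_mem (mul_mem hg hy.1) (inv_mem hg),
        key m hm g hg y hy.1 hy.2.1, key n hn g hg y hy.1 hy.2.2⟩⟩ h1
    refine H (X.triple (mul_mem hm kM) (fun e => nc ?_) ?_)
    · have := mul_mem (mem_cent1.2 (X.cZ e hn.1).symm) (inv_mem hk.2.2)
      rw [mul_inv_cancel_right] at this; exact mem_cent1.1 this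
    · rw [mul_assoc, ← mul_assoc k, mem_cent1.1 hk.2.1, mul_assoc, sq k kM k1, ← mul_assoc,
        sq m hm m1, X.zz]

theorem conjb {x : S} (h : r * x * r⁻¹ = x * c) (hc : c ∈ zpowers z) :
    (b * r * b⁻¹) * (b * x * b⁻¹) * (b * r * b⁻¹)⁻¹ = (b * x * b⁻¹) * c := by
  nth_rewrite 1 [← X.bZ hc]
  calc _ = b * (r * x * r⁻¹) * b⁻¹ := by group
    _ = _ := by rw [h]; group

/-- the action pattern of `b r b⁻¹` on a triple -/
theorem pat (h : Tr b t u) (hu : u ∈ R) {α β : S} (a : α ∈ zpowers z) (a' : β ∈ zpowers z)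
    (h1 : r * t * r⁻¹ = t * α) (h2 : r * u * r⁻¹ = u * β) :
    (b * r * b⁻¹) * t * (b * r * b⁻¹)⁻¹ = t * (α * β) ∧
      (b * r * b⁻¹) * u * (b * r * b⁻¹)⁻¹ = u * α := by
  refine ⟨?_, by have := X.conjb h1 a; rwa [← h.eu] at this⟩
  have := X.conjb (r := r) (x := t * u) (c := α * β) (by
    rw [show r * (t * u) * r⁻¹ = (r * t * r⁻¹) * (r * u * r⁻¹) by group, h1, h2, mul_assoc,
      ← mul_assoc α, ← X.cZ a hu]; group) (mul_mem a a')
  rwa [← h.et] at this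

theorem cases' (hm : m ∈ X.M) (hr : r ∈ R) : ∃ α ∈ zpowers z, r * m * r⁻¹ = m * α :=
  (X.cases hm hr).elim (fun e => ⟨1, one_mem _, by rw [e]; group⟩) fun e => ⟨z, mem_zpowers z, e⟩

theorem exists_pat (h : Tr b t u) (ht : t ∈ X.M) :
    ∃ r ∈ R, r * t * r⁻¹ = t * z ∧ r * u = u * r := by
  have hu : u ∈ X.M := h.eu ▸ X.bM ht
  obtain ⟨r, hr, h1⟩ : ∃ r ∈ R, r * t ≠ t * r := by
    by_contra! H; exact X.tr_not h (X.memZ.2 (X.cen t ht.1 H))
  have a := (X.cases ht hr).resolve_left h1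
  rcases X.cases hu hr with a' | a'
  · exact ⟨r, hr, a, a'⟩
  · have z1 := mem_zpowers z
    obtain ⟨a1, a2⟩ := X.pat h hu.1 z1 z1 a a'
    obtain ⟨a3, a4⟩ := X.pat h hu.1 (mul_mem z1 z1) z1 a1 a2
    rw [X.zz, one_mul] at a3
    rw [X.zz, mul_one] at a4
    exact ⟨_, X.bm (X.bm hr), a3, mul_inv_eq_iff_eq_mul.1 a4⟩

theorem es [Finite S] (h2 : R ≤ X.M) (h3 : #R ≠ 2) : Cfsg.IsExtraspecial 2 R := by
  have := Fact.mk Nat.prime_two
  have hE := X.two.isPGroup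
  have h1 : ∀ x : R, x ∈ center R ↔ (x : S) ∈ zpowers z := fun x =>
    ⟨fun h => X.memZ.2 (X.cen x x.2 fun r hr => congrArg Subtype.val (mem_center_iff.1 h ⟨r, hr⟩)),
      fun h => mem_center_iff.2 fun y => Subtype.ext (X.cZ h y.2)⟩
  have hc : Nat.card (center R) = 2 := by
    rw [show center R = (zpowers z).subgroupOf R from Subgroup.ext h1,
      Nat.card_congr (subgroupOfEquivOfLe (zpowers_le.2 X.mem)).toEquiv, Nat.card_zpowers,
      orderOf_eq_prime (by rw [pow_two, X.zz]) X.ne]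
  have h4 : commutator R ≤ center R := commutator_le.2 fun x _ y _ =>
    (h1 _).2 ((X.memM.1 (h2 y.2)).2 x x.2)
  have h5 : commutator R = center R := by
    by_contra h
    have h6 := H4.card_mul_le_of_lt hE (lt_of_le_of_ne h4 h)
    have : commutator R = ⊥ := card_le_one_iff_eq_bot _ |>.1 (by rw [hc] at h6; omega)
    rw [commutator_eq_bot_iff_center_eq_top] at this
    exact h3 (by rw [← hc, this, card_top])
  refine ⟨⟨hE, le_antisymm (H4.frattini_le (p := 2) h4 fun x => mem_center_iff.2 fun y => ?_)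
    (h5 ▸ H4.commutator_le_frattini hE), h5⟩, hc⟩
  have h6 := h4 (commutator_mem_commutator (mem_top y) (mem_top x))
  rw [← commutatorElement_eq_one_iff_mul_comm, H4.commutator_pow_right (H4.commute_of_mem_center h6 x),
    ← hc]
  exact congrArg Subtype.val (pow_card_eq_one' (G := center R) (x := ⟨_, h6⟩))

/-- if `C_R(t, u) = ⟨t, u, z⟩`, then `R` is extraspecial of order 32 -/
theorem final [Finite S] (h : Tr b t u) (ht : t ∈ X.M)
    (hD : R ⊓ (C[t] ⊓ C[u]) ≤ h.Q ⊔ zpowers z) :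
    Cfsg.IsExtraspecial 2 R ∧ #R = 32 ∧ ∃ A : Subgroup S, A ≤ R ∧ Abelem 2 A ∧ #A = 8 := by
  have hu : u ∈ X.M := h.eu ▸ X.bM ht
  have z1 := mem_zpowers z
  have AM : h.Q ⊔ zpowers z ≤ X.M := sup_le (h.Q_le ht hu) fun _ => X.Z_le
  have hc : zpowers z ≤ C(h.Q) := fun c hc => mem_cent.2 fun x hx => X.cZ hc (h.Q_le ht.1 hu.1 hx)
  have sq : ∀ x ∈ h.Q ⊔ zpowers z, x * x = 1 := fun x hx => by
    obtain ⟨q, hq, c, hc', rfl⟩ := (mem_sup_of_norm (norms_of_cents hc)).1 hx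
    rw [mul_assoc, ← mul_assoc c, ← mem_cent.1 (hc hc') q hq, mul_assoc, X.sqZ hc', mul_one, h.Q_sq hq]
  have ab := ab_of_sq sq
  have c8 : #(h.Q ⊔ zpowers z) = 8 := by
    rw [card_sup_of_disjoint (norms_of_cents hc), h.card_Q, Nat.card_zpowers,
      orderOf_eq_prime (p := 2) (by rw [pow_two, X.zz]) X.ne]
    refine eq_bot_iff.2 ?_
    rintro x ⟨rfl | rfl | rfl | rfl, hx⟩
    exacts [one_mem _, absurd hx (X.tr_not h), absurd hx (X.tr_not h.next),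
      absurd hx (X.tr_not h.next.next)]
  have eD : R ⊓ (C[t] ⊓ C[u]) = h.Q ⊔ zpowers z := le_antisymm hD (le_inf (fun x hx => (AM hx).1)
    fun x hx => ⟨mem_cent1.2 (mem_cent.1 (cents_of_comm ab.1 le_rfl le_rfl hx) _
      (mem_sup_left (Or.inr (Or.inl rfl)))).symm, mem_cent1.2 (mem_cent.1
      (cents_of_comm ab.1 le_rfl le_rfl hx) _ (mem_sup_left (Or.inr (Or.inr (Or.inl rfl))))).symm⟩)
  obtain ⟨q, hq, q1, q2⟩ := X.exists_pat h ht
  obtain ⟨a1, a2⟩ := X.pat h hu.1 z1 (one_mem _) q1 (by rw [q2]; group)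
  obtain ⟨a3, p2⟩ := X.pat h hu.1 (mul_mem z1 (one_mem _)) z1 a1 a2
  rw [mul_one] at p2
  rw [mul_one, X.zz, mul_one, mul_inv_eq_iff_eq_mul] at a3
  have hp := X.bm (X.bm hq)
  have nz : ∀ s ∈ R, s * (b * s * b⁻¹) * (b * (b * s * b⁻¹) * b⁻¹) ∈ zpowers z := fun s hs => by
    refine X.nrm hs (AM (hD ⟨mul_mem (mul_mem hs (X.bm hs)) (X.bm (X.bm hs)), ?_⟩))
    obtain ⟨α, a, s1⟩ := X.cases' ht hs
    obtain ⟨β, a', s2⟩ := X.cases' hu hs
    obtain ⟨s3, s4⟩ := X.pat h hu.1 a a' s1 s2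
    obtain ⟨s5, s6⟩ := X.pat h hu.1 (mul_mem a a') a s3 s4
    have k : ∀ {x s s' s'' α β γ : S}, s ∈ R → s' ∈ R → α ∈ zpowers z → β ∈ zpowers z → γ ∈ zpowers z →
        s * x * s⁻¹ = x * α → s' * x * s'⁻¹ = x * β → s'' * x * s''⁻¹ = x * γ → α * β * γ = 1 →
        s * s' * s'' ∈ C[x] := fun {x s s' s'' α β γ} m1 m2 _ a2 a3 e1 e2 e3 e => mem_cent1.2 (by
      calc _ = s * (s' * (s'' * x * s''⁻¹) * s'⁻¹) * s⁻¹ * (s * s' * s'') := by group
        _ = (s * x * s⁻¹) * (s * β * s⁻¹) * (s * γ * s⁻¹) * (s * s' * s'') := by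
          rw [e3, show s' * (x * γ) * s'⁻¹ = (s' * x * s'⁻¹) * (s' * γ * s'⁻¹) by group, e2,
            X.jZ a3 m2]; group
        _ = x * (α * β * γ) * (s * s' * s'') := by rw [e1, X.jZ a2 m1, X.jZ a3 m1]; group
        _ = _ := by rw [e, mul_one])
    refine ⟨k hs (X.bm hs) a (mul_mem a a') (mul_mem (mul_mem a a') a) s1 s3 s5 ?_,
      k hs (X.bm hs) a' a (mul_mem a a') s2 s4 s6 ?_⟩ <;>
    rcases X.memZ.1 a with rfl | rfl <;> rcases X.memZ.1 a' with rfl | rfl <;>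
    simp [X.zz, ← mul_assoc]
  have cm : ∀ s ∈ R, ⁅s, b * s * b⁻¹⁆ ∈ zpowers z := fun s hs => by
    have n2 := nz _ (inv_mem hs)
    rw [← X.jZ n2 (inv_mem (X.bm (X.bm hs)))] at n2
    convert mul_mem (nz s hs) n2 using 1
    rw [commutatorElement_def]; group
  have cq := cm _ hp
  rw [X.bbb] at cq
  generalize b * (b * q * b⁻¹) * b⁻¹ = p at a3 p2 hp cq
  have gen2 : ∀ K : Subgroup S, p ∈ K → q ∈ K → h.Q ⊔ zpowers z ≤ K → R ≤ K := fun K k1 k2 k3 r hr => by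
    obtain ⟨s, hs, e⟩ := X.cover ht hu hp a3 p2 q1 q2 hr
    have : s ∈ K ⊓ R := by
      rcases hs with rfl | rfl | rfl | rfl
      exacts [one_mem _, ⟨k1, hp⟩, ⟨k2, hq⟩, mul_mem ⟨k1, hp⟩ ⟨k2, hq⟩]
    exact (mul_mem_cancel_right (mem_inf.1 this).1).1 (k3 (hD ⟨mul_mem hr this.2, e⟩))
  have AC : ∀ x ∈ R, h.Q ⊔ zpowers z ≤ X.Cz x := fun x hx y hy => (mem_iInf.1 (mem_iInf.1 (AM hy).2 x)) hx
  have RM : R ≤ X.M := gen2 _
    (X.memM.2 ⟨hp, fun r hr => (gen2 (X.Cz p) ⟨hp, by simp⟩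
      ⟨hq, by rw [← inv_mem_iff, commutatorElement_inv]; exact cq⟩ (AC p hp) hr).2⟩)
    (X.memM.2 ⟨hq, fun r hr => (gen2 (X.Cz q) ⟨hp, cq⟩ ⟨hq, by simp⟩ (AC q hq) hr).2⟩) AM
  have c32 : #R = 32 := by
    have i1 : (R ⊓ C[t]).relIndex R = 2 := relIndex_eq_two_iff.2 ⟨q, hq, fun r hr => by
      rcases X.cases ht hr with a | a
      · refine Or.inr ⟨⟨hr, mem_cent1.2 a⟩, fun e => X.ne ?_⟩
        have := mem_cent1.1 ((mul_mem_cancel_left (mem_cent1.2 a)).1 e.2)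
        rw [this] at q1; simpa using q1
      · refine Or.inl ⟨⟨mul_mem hr hq, mem_cent1.2 (X.anti2 hr a q1)⟩, fun e => X.ne ?_⟩
        rw [mem_cent1.1 e.2] at a; simpa using a⟩
    have i2 : (R ⊓ (C[t] ⊓ C[u])).relIndex (R ⊓ C[t]) = 2 := relIndex_eq_two_iff.2
      ⟨p, ⟨hp, mem_cent1.2 a3⟩, fun r hr => by
      rcases X.cases hu hr.1 with a | a
      · refine Or.inr ⟨⟨hr.1, hr.2, mem_cent1.2 a⟩, fun e => X.ne ?_⟩
        have := mem_cent1.1 ((mul_mem_cancel_left (mem_cent1.2 a)).1 e.2.2)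
        rw [this] at p2; simpa using p2
      · refine Or.inl ⟨⟨mul_mem hr.1 hp, mul_mem hr.2 (mem_cent1.2 a3),
          mem_cent1.2 (X.anti2 hr.1 a p2)⟩, fun e => X.ne ?_⟩
        rw [mem_cent1.1 e.2.2] at a; simpa using a⟩
    rw [← card_mul_relIndex (inf_le_left : R ⊓ C[t] ≤ R), i1, ← card_mul_relIndex
      (inf_le_inf_left R inf_le_left : R ⊓ (C[t] ⊓ C[u]) ≤ R ⊓ C[t]), i2, eD, c8]
  exact ⟨X.es RM (by omega), c32, _, fun x hx => (AM hx).1, ab, c8⟩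

end Zx
end H23.CB
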