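import Cfsg.Agent.H23.CB4

/-! The structure of `R = [R, b]` (for S4415). -/

set_option autoImplicit false

namespace H23.CB
open Subgroup H19 Module

variable {S : Type*} [Group S] [Finite S] {E : Type*} [AddCommGroup E] [Module (ZMod 3) E] [Finite E]
  {ρ : Representation (ZMod 3) S E} {b t u r c z : S} {e1 e2 e3 v : E} {R : Subgroup S}

theorem Rx.nrm1 (X : Rx ρ b R) (F : Fr ρ b t u e1 e2 e3) (ht : t ∈ R) (hc : c ∈ R)
    (h1 : ρ c e1 = e1 ∨ ρ c e1 = -e1) (h2 : ρ c e2 = e2) (h3 : ρ c e3 = e3)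
    (h0 : ∀ w ∈ Cm ρ R, ρ t w = w → ρ u w = w → ρ c w = w) : c = 1 := by
  have hu := F.tr.mem X.nb ht
  have d := fun v (hv : v ∈ Cm ρ R) => F.dec (fun v hv => Cm_inv (le_normalizer ht) hv)
    (fun v hv => Cm_inv (le_normalizer hu) hv) hv
  have key : ∀ c ∈ R, ρ c e1 = e1 → ρ c e2 = e2 → ρ c e3 = e3 →
      (∀ w ∈ Cm ρ R, ρ t w = w → ρ u w = w → ρ c w = w) → c = 1 := fun c hc h1 h2 h3 h0 =>
    eq_one X.inj X.cop hc fun v hv => by
      obtain ⟨a1, a2, a3, w, m, -, -, -, hw, rfl⟩ := d v hv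
      simp only [map_add, map_smul, h1, h2, h3, h0 w m hw.1 hw.2]
  rcases h1 with h1 | h1
  · exact key c hc h1 h2 h3 h0
  refine (no_refl (ρ := ρ) X.b3 X.gen hc (key _ (pow_mem hc 2) ?_ ?_ ?_ fun w m w1 w2 => ?_) F.ne
    (le_antisymm ?_ ((Submodule.span_singleton_le_iff_mem _ _).2 ⟨e1, ?_⟩))).elim
  · rw [pow_two, mul_ap, h1, map_neg, h1, neg_neg]
  · rw [pow_two, mul_ap, h2, h2]
  · rw [pow_two, mul_ap, h3, h3]
  · rw [pow_two, mul_ap, h0 w m w1 w2, h0 w m w1 w2]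
  · rintro _ ⟨v, rfl⟩
    obtain ⟨m, hm, f, hf, rfl⟩ := split (ρ := ρ) X.cop v
    obtain ⟨a1, a2, a3, w, m, -, -, -, hw, rfl⟩ := d m hm
    refine Submodule.mem_span_singleton.2 ⟨-2 * a1, ?_⟩
    simp only [LinearMap.sub_apply, Module.End.one_apply, map_add, map_smul, h1, h2, h3,
      h0 w m hw.1 hw.2, hf c hc]
    module
  · rw [LinearMap.sub_apply, h1, Module.End.one_apply]
    linear_combination (norm := abel) -three e1

theorem Rx.Qmem (X : Rx ρ b R) (F : Fr ρ b t u e1 e2 e3) (ht : t ∈ R) (hr : r ∈ R)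
    (h1 : r * t = t * r) (h2 : r * u = u * r)
    (h0 : ∀ w ∈ Cm ρ R, ρ t w = w → ρ u w = w → ρ r w = w) : r ∈ F.tr.Q := by
  have hu := F.tr.mem X.nb ht
  have key : ∀ q ∈ F.tr.Q, ρ r (ρ q e2) = e2 → ρ r (ρ q e3) = e3 → r ∈ F.tr.Q := fun q hq a2 a3 => by
    have q1 : ρ q e1 = e1 ∨ ρ q e1 = -e1 := by
      rcases hq with rfl | rfl | rfl | rfl <;> simp [mul_ap, F.t1, F.u1]
    have q0 : ∀ w, ρ t w = w → ρ u w = w → ρ q w = w := fun w w1 w2 => by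
      rcases hq with rfl | rfl | rfl | rfl <;> simp [mul_ap, w1, w2]
    have := X.nrm1 F ht (mul_mem hr (F.tr.Q_le ht hu hq)) (by
      rcases q1 with a | a <;> rcases F.diag h1 h2 with a' | a' <;> simp [mul_ap, a, a'])
      (by rw [mul_ap, a2]) (by rw [mul_ap, a3]) fun w m w1 w2 => by
        rw [mul_ap, q0 w w1 w2, h0 w m w1 w2]
    rw [eq_inv_of_mul_eq_one_left this]; exact inv_mem hq
  rcases F.diag2 h1 h2 with a | a <;> rcases F.diag3 h1 h2 with a' | a'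
  · exact key 1 (Or.inl rfl) (by rw [one_ap, a]) (by rw [one_ap, a'])
  · exact key u (Or.inr (Or.inr (Or.inl rfl))) (by rw [F.u2, a]) (by rw [F.u3, map_neg, a', neg_neg])
  · exact key (t * u) (Or.inr (Or.inr (Or.inr rfl))) (by rw [F.next.u1, map_neg, a, neg_neg])
      (by rw [F.next.u2, a'])
  · exact key t (Or.inr (Or.inl rfl)) (by rw [F.t2, map_neg, a, neg_neg])
      (by rw [F.t3, map_neg, a', neg_neg])

omit [Finite E] in
theorem Iv_span {g : S} (h1 : ρ g e1 ∈ Submodule.span (ZMod 3) {e1, e2, e3})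
    (h2 : ρ g e2 ∈ Submodule.span (ZMod 3) {e1, e2, e3})
    (h3 : ρ g e3 ∈ Submodule.span (ZMod 3) {e1, e2, e3}) :
    g ∈ Iv ρ (Submodule.span (ZMod 3) {e1, e2, e3}) := fun _ hv => by
  obtain ⟨a1, a2, a3, rfl⟩ := Submodule.mem_span_triple.1 hv
  simp only [map_add, map_smul]
  exact add_mem (add_mem (Submodule.smul_mem _ _ h1) (Submodule.smul_mem _ _ h2))
    (Submodule.smul_mem _ _ h3)

omit [Finite E] [Finite S] in
theorem Rx.bcen (X : Rx ρ b R) (hc : c ∈ Z(R)) : b * c * b⁻¹ ∈ Z(R) :=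
  (mem_normalizer_iff.1 (zpowers_le.1 (norms_inf (zpowers_le.2 X.nb)
    (norms_cent (zpowers_le.2 X.nb)))) c).1 hc

theorem Rx.case1 (X : Rx ρ b R) (F : Fr ρ b t u e1 e2 e3) (ht : t ∈ Z(R)) : R = F.tr.Q := by
  have hu : u ∈ Z(R) := F.tr.eu ▸ X.bcen ht
  have m1 : e1 ∈ Submodule.span (ZMod 3) {e1, e2, e3} := Submodule.subset_span (by simp)
  have m2 : e2 ∈ Submodule.span (ZMod 3) {e1, e2, e3} := Submodule.subset_span (by simp)
  have m3 : e3 ∈ Submodule.span (ZMod 3) {e1, e2, e3} := Submodule.subset_span (by simp)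
  have := (X.irr F ht.1 (N := Submodule.span (ZMod 3) {e1, e2, e3}) (Submodule.span_le.2 (by
    rintro _ (rfl | rfl | rfl); exacts [F.mem1 hu.1, F.mem2 ht.1, F.mem3 ht.1]))
    (fun r hr => Iv_span ?_ ?_ ?_) (Iv_span (F.b1 ▸ m2) (F.b2 ▸ m3) (F.b3 ▸ m1))).resolve_left
    fun e => F.ne (e.le m1)
  · refine le_antisymm (fun r hr => X.Qmem F ht.1 hr (ht.2 r hr) (hu.2 r hr) fun w m w1 w2 => ?_)
      (F.tr.Q_le ht.1 hu.1)
    obtain ⟨a1, a2, a3, e⟩ := Submodule.mem_span_triple.1 (this.ge m)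
    have := indep (ρ := ρ) (t := t) (u := u) (x := a1 • e1) (y := a2 • e2) (z := a3 • e3) (w := -w)
      (by simp [F.t1, F.u1]) (by simp [F.t2, F.u2]) (by simp [F.t3, F.u3]) (by simp [w1, w2])
      (by rw [e]; simp)
    rw [neg_eq_zero.1 this.2.2.2, map_zero]
  · rcases F.diag (ht.2 r hr) (hu.2 r hr) with a | a <;> simp [a, m1]
  · rcases F.diag2 (ht.2 r hr) (hu.2 r hr) with a | a <;> simp [a, m2]
  · rcases F.diag3 (ht.2 r hr) (hu.2 r hr) with a | a <;> simp [a, m3]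

omit [Finite E] in
theorem Rx.scal (X : Rx ρ b R) (F : Fr ρ b t u e1 e2 e3) (ht : t ∈ R) (hc : c ∈ Z(R))
    (hb : b * c = c * b) : c = 1 ∨ ∀ v ∈ Cm ρ R, ρ c v = -v := by
  have hu := F.tr.mem X.nb ht
  have key : ∀ a : ZMod 3, ρ c e1 = a • e1 → ∀ v ∈ Cm ρ R, ρ c v = a • v := fun a h => by
    have m : ∀ v, v ∈ LinearMap.ker (ρ c - a • 1) ↔ ρ c v = a • v := fun v => by
      simp [sub_eq_zero]
    have i : ∀ g ∈ N(R), g * c = c * g → g ∈ Iv ρ (Cm ρ R ⊓ LinearMap.ker (ρ c - a • 1)) :=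
      fun g hg e v hv => ⟨Cm_inv hg hv.1, (m _).2 (by
        rw [← mul_ap, ← e, mul_ap, (m v).1 hv.2, map_smul])⟩
    have := (X.irr F ht inf_le_left (fun r hr => i r (le_normalizer hr) (hc.2 r hr))
      (i b X.nb hb)).resolve_left fun e => F.ne (e.le ⟨F.mem1 hu, (m _).2 h⟩)
    exact fun v hv => (m v).1 (this.ge hv).2
  rcases F.diag (hc.2 t ht).symm (hc.2 u hu).symm with a | a
  · exact Or.inl (eq_one X.inj X.cop hc.1 (by simpa using key 1 (by simpa using a)))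
  · exact Or.inr (by simpa using key (-1) (by simpa using a))

omit [Finite E] in
theorem Rx.csq (X : Rx ρ b R) (F : Fr ρ b t u e1 e2 e3) (ht : t ∈ R) (hc : c ∈ Z(R)) :
    c * c = 1 := by
  have hu := F.tr.mem X.nb ht
  let U := Submodule.span (ZMod 3) {e1, e2, e3}
  have m1 : e1 ∈ U := Submodule.subset_span (by simp)
  have m2 : e2 ∈ U := Submodule.subset_span (by simp)
  have m3 : e3 ∈ U := Submodule.subset_span (by simp)
  have ib : b ∈ Iv ρ U := Iv_span (by rwa [F.b1]) (by rwa [F.b2]) (by rwa [F.b3])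
  have nb : b ∈ N(Z(R) ⊓ Pt ρ U) := H1.mem_normalizer_of_conj_mem fun x hx =>
    ⟨X.bcen hx.1, fun v hv => by rw [mul_ap, mul_ap, hx.2 _ (inv_mem ib v hv), ap_inv]⟩
  have := (X.irr F ht (N := Cm ρ R ⊓ Fx ρ (Z(R) ⊓ Pt ρ U)) inf_le_left
    (fun r hr v hv => ⟨Cm_inv (le_normalizer hr) hv.1, Fx_inv (cent_le_norm _
      (mem_cent.2 fun x hx => (hx.1.2 r hr).symm)) hv.2⟩)
    fun v hv => ⟨Cm_inv X.nb hv.1, Fx_inv nb hv.2⟩).resolve_left
      fun e => F.ne (e.le ⟨F.mem1 hu, fun x hx => hx.2 _ m1⟩)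
  refine eq_one X.inj X.cop (mul_mem hc.1 hc.1) fun v hv => (this.ge hv).2 _ ⟨mul_mem hc hc, ?_⟩
  have h1 := (hc.2 t ht).symm
  have h2 := (hc.2 u hu).symm
  intro v hv
  obtain ⟨a1, a2, a3, rfl⟩ := Submodule.mem_span_triple.1 hv
  rcases F.diag h1 h2 with a | a <;> rcases F.diag2 h1 h2 with a' | a' <;>
    rcases F.diag3 h1 h2 with a'' | a'' <;> simp [mul_ap, a, a', a'']

omit [Finite E] in
theorem Rx.zx (X : Rx ρ b R) (F : Fr ρ b t u e1 e2 e3) (ht : t ∈ R) (h2 : PG 2 R)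
    (h : ∀ t ∈ Z(R), ¬ Tr b t (b * t * b⁻¹)) : ∃ z, Zx b R z ∧ ∀ v ∈ Cm ρ R, ρ z v = -v := by
  have bb : ∀ r, b * (b * (b * r * b⁻¹) * b⁻¹) * b⁻¹ = r := fun r => by
    calc _ = b ^ 3 * r * (b ^ 3)⁻¹ := by rw [pow_three']; group
      _ = _ := by rw [X.b3]; group
  have hb : ∀ c ∈ Z(R), b * c = c * b := fun c hc => by
    have m2 := X.bcen hc
    have m3 := X.bcen m2
    have hn := mul_mem (mul_mem hc m2) m3
    have bn : b * (c * (b * c * b⁻¹) * (b * (b * c * b⁻¹) * b⁻¹)) * b⁻¹ =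
        c * (b * c * b⁻¹) * (b * (b * c * b⁻¹) * b⁻¹) := by
      calc _ = (b * c * b⁻¹) * (b * (b * c * b⁻¹) * b⁻¹) *
          (b * (b * (b * c * b⁻¹) * b⁻¹) * b⁻¹) := by group
        _ = _ := by rw [bb, hc.2 _ (mul_mem m2.1 m3.1), mul_assoc c]
    generalize e : c * (b * c * b⁻¹) * (b * (b * c * b⁻¹) * b⁻¹) = n at hn bn
    have a : ∀ r, b * (r * n) * b⁻¹ = b * r * b⁻¹ * n := fun r => by
      nth_rewrite 2 [← bn]; group
    have sn := X.csq F ht hn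
    have : c * n = 1 := by
      by_contra h1
      refine h _ (mul_mem hc hn) (tr_mk X.b3 (X.csq F ht (mul_mem hc hn)) h1 ?_)
      rw [a, a, mul_assoc c, ← hn.2 _ (mul_mem m2.1 hn.1), mul_assoc _ n n, sn, mul_one,
        ← mul_assoc, e, sn]
    rw [eq_inv_of_mul_eq_one_left this, inv_eq_of_mul_eq_one_right sn, ← mul_inv_eq_iff_eq_mul, bn]
  obtain ⟨⟨z, hz⟩, z1⟩ := ne_bot_iff_exists_ne_one.1
    (h2.center_ne_bot fun e => F.tr.ne (by simpa [e] using ht))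
  have z1 : z ≠ 1 := fun e => z1 (Subtype.ext e)
  have neg := (X.scal F ht hz (hb z hz)).resolve_left z1
  refine ⟨z, ⟨X.b3, X.nb, X.gen, h2, hz.1, z1, X.csq F ht hz, hz.2, hb z hz, fun c hc h => ?_⟩, neg⟩
  refine (X.scal F ht ⟨hc, h⟩ (hb c ⟨hc, h⟩)).imp_right fun e => ?_
  rw [← inv_eq_of_mul_eq_one_right (X.csq F ht hz)]
  exact eq_inv_of_mul_eq_one_left (eq_one X.inj X.cop (mul_mem hc hz.1) fun v hv => by
    rw [mul_ap, neg v hv, map_neg, e v hv, neg_neg])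

theorem Rx.main (X : Rx ρ b R) (hs : Sol R) (T : Tr b t u) (ht : t ∈ R) :
    (Abelem 2 R ∧ #R = 4) ∨
      (Cfsg.IsExtraspecial 2 R ∧ #R = 32 ∧ ∃ A : Subgroup S, A ≤ R ∧ Abelem 2 A ∧ #A = 8) := by
  obtain ⟨e1, e2, e3, F⟩ := X.frame T
  by_cases h : ∃ t ∈ Z(R), Tr b t (b * t * b⁻¹)
  · obtain ⟨t, ht, T⟩ := h
    obtain ⟨e1, e2, e3, F⟩ := X.frame T
    rw [X.case1 F ht]
    exact Or.inl ⟨ab_of_sq fun _ => T.Q_sq, T.card_Q⟩
  obtain ⟨z, Z, neg⟩ := X.zx F ht (X.two F ht hs) (by simpa using h)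
  obtain ⟨t, ht, T⟩ := Z.exists_triple T ht
  generalize b * t * b⁻¹ = u at T
  obtain ⟨e1, e2, e3, F⟩ := X.frame T
  refine Or.inr (Z.final T ht fun d hd => ?_)
  obtain ⟨r, hr, r1, r2⟩ := Z.exists_pat T ht
  have d1 := mem_cent1.1 hd.2.1
  have d2 := mem_cent1.1 hd.2.2
  have m4 := Cm_inv (le_normalizer hr) (F.mem2 (ρ := ρ) ht.1)
  have g : ∀ w ∈ Cm ρ R, ρ t w = w → ρ u w = w → ∃ a : ZMod 3, w = a • ρ r e2 := fun w m w1 w2 => by
    obtain ⟨a, e⟩ := F.g2 (ρ r⁻¹ w) (ap_inj (ρ := ρ) r (by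
        rw [← mul_ap, ← mul_ap, r1, mul_ap, neg w m, map_neg, w1, map_neg, ap_inv]))
      (ap_inj (ρ := ρ) r (by rw [← mul_ap, r2, mul_ap, ap_inv, w2]))
    exact ⟨a, by rw [← map_smul, ← e, ap_inv]⟩
  have t4 : ρ t (ρ r e2) = ρ r e2 := by
    have : ρ (r * t * r⁻¹) (ρ r e2) = -ρ r e2 := by rw [mul_ap, inv_ap, mul_ap, F.t2, map_neg]
    rwa [r1, mul_ap, neg _ m4, map_neg, neg_inj] at this
  have u4 : ρ u (ρ r e2) = ρ r e2 := by rw [← mul_ap, ← r2, mul_ap, F.u2]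
  obtain ⟨a, ha⟩ := g _ (Cm_inv (le_normalizer hd.1) m4) (by rw [← mul_ap, ← d1, mul_ap, t4])
    (by rw [← mul_ap, ← d2, mul_ap, u4])
  have : ∀ a : ZMod 3, a = 0 ∨ a = 1 ∨ a = -1 := by decide
  rcases this a with rfl | rfl | rfl
  · exact absurd (by simpa using ha) (ap_ne (ρ := ρ) d (ap_ne r F.ne2))
  · refine mem_sup_left (X.Qmem F ht.1 hd.1 d1 d2 fun w m w1 w2 => ?_)
    obtain ⟨a, rfl⟩ := g w m w1 w2
    rw [map_smul, ha, one_smul]
  · have hu := T.mem X.nb ht.1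
    have := X.Qmem F ht.1 (mul_mem hd.1 Z.mem) (Zx.comm2 d1 (Z.cz t ht.1).symm)
      (Zx.comm2 d2 (Z.cz u hu).symm) fun w m w1 w2 => by
        obtain ⟨a, rfl⟩ := g w m w1 w2
        rw [map_smul, mul_ap, neg _ m4, map_neg, ha]; simp
    exact (mul_mem_cancel_right (mem_sup_right (mem_zpowers z))).1 (mem_sup_left this)

omit [Finite E] in
theorem exists_tr {Q : Subgroup S} (b3 : b ^ 3 = 1) (hQ : Abelem 2 Q) (h4 : #Q = 4) (nb : b ∈ N(Q))
    (h : ¬ zpowers b ≤ C(Q)) : ∃ t ∈ Q, Tr b t (b * t * b⁻¹) ∧ Q ≤ ⁅Q, zpowers b⁆ := by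
  have h3 : PG 3 (zpowers b) := by
    unfold PG PiG; rw [Nat.card_zpowers]
    exact (PiN.prime_pow Nat.prime_three 1).dvd (orderOf_dvd_of_pow_eq_one b3)
  have := Fact.mk Nat.prime_three
  have m := H1.card_modEq_card_inf_centralizer (q := 3) h3.isPGroup (zpowers_le.2 nb)
  have d := card_dvd (inf_le_left : Q ⊓ C(zpowers b) ≤ Q)
  have h0 : Q ⊓ C(zpowers b) = ⊥ := by
    rw [h4] at m d
    obtain ⟨i, hi, e⟩ := (Nat.dvd_prime_pow Nat.prime_two (m := 2)).1 d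
    interval_cases i
    · exact card_eq_one.1 e
    · rw [e] at m; exact absurd m (by decide)
    · exact absurd (cents_symm (le_trans (eq_of_le_of_card_ge inf_le_left (by rw [h4, e]; rfl)).ge
        inf_le_right)) h
  obtain ⟨⟨t, ht⟩, t1⟩ := ne_bot_iff_exists_ne_one.1 (show Q ≠ ⊥ from fun e => by simp [e] at h4)
  refine ⟨t, ht, tr_mk b3 (by rw [← pow_two, hQ.2 t ht]) (fun e => t1 (Subtype.ext e)) ?_,
    (commg_eq_of_cent_eq_bot (zpowers_le.2 nb) (((PiN.of_card_pow (k := 2) Nat.prime_two h4).sing_ne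
      (by norm_num)).coprime' h3) (Or.inr (sol_of_ab hQ.1)) h0).ge⟩
  have m2 := (mem_normalizer_iff.1 nb t).1 ht
  have m3 := (mem_normalizer_iff.1 nb _).1 m2
  refine mem_bot.1 (h0.le (mem_inf.2 ⟨mul_mem (mul_mem ht m2) m3, ?_⟩))
  rw [cent_zpowers, mem_cent1, eq_comm, ← mul_inv_eq_iff_eq_mul]
  calc _ = (b * t * b⁻¹) * (b * (b * t * b⁻¹) * b⁻¹) * (b ^ 3 * t * (b ^ 3)⁻¹) := by
        rw [pow_three']; group
    _ = _ := by
      rw [b3, one_mul, inv_one, mul_one, mem_cent.1 (cents_of_comm hQ.1 le_rfl le_rfl ht) _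
        (mul_mem m2 m3), mul_assoc t]

end H23.CB
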