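import Mathlib
import Cfsg.Agent.H1.Core
import Cfsg.Agent.H1.Wielandt
import Cfsg.Agent.H23.Syl
import Cfsg.Agent.H24.SylowNum

/-! Casolo's theorem on subnormalizers of `p`-subgroups. -/

set_option autoImplicit false

namespace H23

open Subgroup Cfsg Finset
open scoped Pointwise

universe u

section mob
open Classical
variable {α : Type*} [PartialOrder α] [Fintype α]

/-- Möbius type function of a subset of a finite poset -/
noncomputable def mob (X : α → Prop) : α → ℤ :=
  (wellFounded_gt (α := α)).fix fun R ih => 1 - ∑ Q : {Q // X Q ∧ R < Q}, ih Q Q.2.2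

theorem sum_split {X : α → Prop} {R : α} (h : X R) (f : α → ℤ) :
    ∑ Q with X Q ∧ R ≤ Q, f Q = f R + ∑ Q with X Q ∧ R < Q, f Q := by
  rw [← sum_insert (by simp)]
  refine sum_congr ?_ fun _ _ => rfl
  ext Q
  simp only [mem_filter, mem_univ, true_and, mem_insert, le_iff_eq_or_lt]
  exact ⟨fun h => h.2.elim (fun e => Or.inl e.symm) fun e => Or.inr ⟨h.1, e⟩,
    fun h' => h'.elim (fun e => by rw [e]; exact ⟨h, Or.inl rfl⟩) fun e => ⟨e.1, Or.inr e.2⟩⟩

theorem sum_mob {X : α → Prop} {R : α} (h : X R) : ∑ Q with X Q ∧ R ≤ Q, mob X Q = 1 := by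
  have : mob X R = 1 - ∑ Q : {Q // X Q ∧ R < Q}, mob X Q := by
    rw [mob, WellFounded.fix_eq]
  rw [sum_split h, this, ← sum_subtype (p := fun Q => X Q ∧ R < Q)
    (univ.filter fun Q => X Q ∧ R < Q) (by simp)]
  simp

theorem eq_mob {X : α → Prop} {f : α → ℤ} (hf : ∀ R, X R → ∑ Q with X Q ∧ R ≤ Q, f Q = 1) (R : α) :
    X R → f R = mob X R := by
  induction R using (wellFounded_gt (α := α)).induction with
  | _ R ih =>
    intro h
    have := (hf R h).trans (sum_mob h).symm
    rw [sum_split h, sum_split h, sum_congr rfl fun Q hQ =>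
      ih Q (mem_filter.1 hQ).2.2 (mem_filter.1 hQ).2.1] at this
    exact add_right_cancel this

end mob

theorem card_smul_mem {G Ω : Type*} [Group G] [MulAction G Ω] (x : Ω) (S : Ω → Prop) :
    Nat.card {g : G // S (g • x)} =
      Nat.card {y : Ω // S y ∧ ∃ g : G, y = g • x} * Nat.card (MulAction.stabilizer G x) := by
  rw [← Nat.card_prod]
  have hc : ∀ y : {y : Ω // S y ∧ ∃ g : G, y = g • x}, ∃ g : G, g • x = y := fun y =>
    y.2.2.imp fun _ => Eq.symm
  choose c hc using hc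
  refine (Nat.card_congr (Equiv.ofBijective (fun q : _ × MulAction.stabilizer G x =>
    (⟨c q.1 * q.2, by rw [mul_smul, q.2.2, hc]; exact q.1.2.1⟩ : {g : G // S (g • x)}))
    ⟨?_, fun g => ?_⟩)).symm
  · rintro ⟨a, s⟩ ⟨b, t⟩ e
    have e : c a * s = c b * t := congrArg Subtype.val e
    have : a = b := Subtype.ext (by
      rw [← hc, ← hc, ← s.2, ← mul_smul, e, mul_smul, t.2, s.2])
    subst this
    exact Prod.ext rfl (Subtype.ext (mul_left_cancel e))
  · refine ⟨⟨⟨g.1 • x, g.2, g, rfl⟩, ⟨(c ⟨g.1 • x, g.2, g, rfl⟩)⁻¹ * g, ?_⟩⟩, Subtype.ext (by simp)⟩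
    rw [MulAction.mem_stabilizer_iff, mul_smul, inv_smul_eq_iff, hc]

variable {G : Type*} [Group G] {p : ℕ}

/-- `Q` is a `p`-subgroup normalized by `g` -/
def PN (p : ℕ) (g : G) (Q : Subgroup G) : Prop := IsPGroup p Q ∧ g ∈ normalizer (Q : Set G)

/-- `g` normalizes a `p`-subgroup containing `H` -/
def Sn (p : ℕ) (H : Subgroup G) (g : G) : Prop := ∃ R, PN p g R ∧ H ≤ R

variable [Finite G] [hp : Fact p.Prime]

theorem sn_iff {H : Subgroup G} (hH : IsPGroup p H) {g : G} :
    (H.subgroupOf (H ⊔ zpowers g)).IsSubnormal ↔ Sn p H g := by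
  refine ⟨fun h => ⟨_, ⟨H1.pCoreOf_isPGroup (H ⊔ zpowers g), H1.le_normalizer_pCoreOf _
    (mem_sup_right (mem_zpowers g))⟩, H1.le_map_subtype_iff.2 ⟨le_sup_left,
      H1.le_pCore_of_subnormal h (hH.comap_subtype)⟩⟩, ?_⟩
  rintro ⟨R, ⟨h1, h2⟩, h3⟩
  have hK : H ⊔ zpowers g ≤ normalizer (R : Set G) := sup_le (h3.trans le_normalizer) (zpowers_le.2 h2)
  exact ((H1.SubnIn.of_isPGroup h3 h1).trans (H1.SubnIn.of_le_normalizer le_normalizer le_rfl)).mono
    le_sup_left hK |>.isSubnormal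

theorem eq_of_inf_normalizer_le {R Q : Subgroup G} (hQ : IsPGroup p Q) (h : R ≤ Q)
    (h' : normalizer (R : Set G) ⊓ Q ≤ R) : R = Q :=
  by_contra fun e => ((H1.SubnIn.of_isPGroup h hQ).lt_normalizer_inf e).not_ge h'

open Classical in
/-- local Euler characteristic -/
noncomputable def pm (p : ℕ) (g : G) (R : Subgroup G) : ℤ :=
  @mob _ _ (Fintype.ofFinite _) (PN p g) R

omit [Finite G] hp in
theorem PN.inf {g : G} {Q R : Subgroup G} (h : PN p g Q) (h' : g ∈ normalizer (R : Set G)) :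
    PN p g (Q ⊓ R) :=
  ⟨h.1.to_le inf_le_left, inf_normalizer_le_normalizer_inf ⟨h.2, h'⟩⟩

open Classical in
theorem pm_normalizer {R : Subgroup G} (hR : IsPGroup p R) (g : normalizer (R : Set G)) :
    pm p (g : G) R = pm p g (R.subgroupOf (normalizer (R : Set G))) := by
  letI := Fintype.ofFinite (Subgroup G)
  let N := normalizer (R : Set G)
  letI := Fintype.ofFinite (Subgroup N)
  have h1 : ∀ Q, PN p (g : G) Q → PN p g (Q.subgroupOf N) := fun Q h =>
    ⟨h.1.comap_subtype, le_normalizer_comap _ h.2⟩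
  have := eq_mob (X := PN p g) (f := fun T : Subgroup N =>
    ∑ Q with PN p (g : G) Q ∧ Q.subgroupOf N = T, pm p (g : G) Q) (fun T hT => by
      have h2 : PN p (g : G) (T.map N.subtype) :=
        ⟨hT.1.map _, le_normalizer_map _ ⟨g, hT.2, rfl⟩⟩
      rw [← sum_mob h2, ← sum_fiberwise_of_maps_to (g := fun Q : Subgroup G => Q.subgroupOf N)
        (s := univ.filter fun Q => PN p (g : G) Q ∧ T.map N.subtype ≤ Q) (t := univ.filter fun Q => PN p g Q ∧ T ≤ Q) (fun Q hQ => by
          simp only [mem_filter, mem_univ, true_and] at hQ ⊢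
          exact ⟨h1 Q hQ.1, H1.map_subtype_le_iff.1 hQ.2⟩)]
      refine sum_congr rfl fun T' hT' => sum_congr ?_ fun _ _ => rfl
      ext Q
      simp only [mem_filter, mem_univ, true_and, H1.map_subtype_le_iff] at hT' ⊢
      exact ⟨fun h => ⟨⟨h.1, h.2 ▸ hT'.2⟩, h.2⟩, fun h => ⟨h.1.1, h.2⟩⟩) _ (h1 R ⟨hR, g.2⟩)
  refine Eq.trans (Eq.symm ?_) this
  refine (sum_eq_single R (fun Q hQ hne => absurd ?_ hne) fun h => absurd ?_ h).trans rfl
  · obtain ⟨h2, h3⟩ := (mem_filter.1 hQ).2
    rw [subgroupOf_inj, inf_eq_left.2 (le_normalizer (H := R))] at h3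
    exact (eq_of_inf_normalizer_le h2.1 (h3 ▸ inf_le_left) (by rw [inf_comm, h3])).symm
  · exact mem_filter.2 ⟨mem_univ _, ⟨hR, g.2⟩, rfl⟩

/-- sum of the local characteristics over the normalizer -/
noncomputable def pa (p : ℕ) (R : Subgroup G) : ℤ := ∑ᶠ g : normalizer (R : Set G), pm p (g : G) R

open Classical in
theorem sum_pa [Fintype (Subgroup G)] (H : Subgroup G) :
    ∑ Q ∈ univ.filter (fun Q : Subgroup G => IsPGroup p Q ∧ H ≤ Q), pa p Q = Nat.card {g // Sn p H g} := by
  have := Fintype.ofFinite G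
  have e : ∀ Q : Subgroup G, pa p Q = ∑ g with g ∈ normalizer (Q : Set G), pm p g Q := fun Q => by
    rw [pa, finsum_eq_sum_of_fintype, sum_subtype (p := (· ∈ normalizer (Q : Set G))) _ (by simp)]
  simp only [e]
  rw [sum_comm' (t' := univ) (s' := fun g => univ.filter fun Q => PN p g Q ∧ H ≤ Q)
    (fun x y => by simp only [mem_filter, mem_univ, true_and, and_true]; exact and_right_comm), Nat.card_eq_fintype_card, Fintype.card_subtype, card_filter]
  push_cast
  refine sum_congr rfl fun g _ => ?_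
  split_ifs with h
  · obtain ⟨R, hR⟩ := h
    obtain ⟨M, -, h1, h2⟩ := H1.exists_minimal_le (P := fun Q => PN p g Q ∧ H ≤ Q) hR
    have := @sum_mob _ _ (Fintype.ofFinite _) _ _ h1.1
    rw [← this]
    refine sum_congr ?_ fun _ _ => rfl
    ext Q
    simp only [mem_filter, mem_univ, true_and]
    exact ⟨fun h => ⟨h.1, inf_eq_left.1 (h2 _ ⟨h1.1.inf h.1.2, le_inf h1.2 h.2⟩ inf_le_left)⟩,
      fun h => ⟨h.1, h1.2.trans h.2⟩⟩
  · exact sum_eq_zero fun Q hQ => absurd ⟨Q, (mem_filter.1 hQ).2⟩ h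

open Classical in
/-- the value of `pa` -/
noncomputable def pb (p : ℕ) (R : Subgroup G) : ℤ :=
  if ∃ P : Sylow p G, R = P then Nat.card (normalizer (R : Set G)) else 0

theorem card_normalizer_sylow (P Q : Sylow p G) :
    Nat.card (normalizer ((P : Subgroup G) : Set G)) =
      Nat.card (normalizer ((Q : Subgroup G) : Set G)) := by
  have h1 := (normalizer ((P : Subgroup G) : Set G)).card_mul_index
  rw [← (normalizer ((Q : Subgroup G) : Set G)).card_mul_index, ← H24.card_sylow_eq_index,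
    ← H24.card_sylow_eq_index] at h1
  exact Nat.eq_of_mul_eq_mul_right Nat.card_pos h1

open Classical in
theorem sum_pb [Fintype (Subgroup G)] (H : Subgroup G) (P : Sylow p G) :
    ∑ Q ∈ univ.filter (fun Q : Subgroup G => IsPGroup p Q ∧ H ≤ Q), pb p Q =
      (Nat.card {Q : Sylow p G // H ≤ (Q : Subgroup G)} *
      Nat.card (normalizer ((P : Subgroup G) : Set G)) : ℕ) := by
  have := Fintype.ofFinite (Sylow p G)
  rw [Nat.card_eq_fintype_card, Fintype.card_subtype, card_eq_sum_ones, sum_mul]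
  push_cast
  symm
  refine sum_of_injOn (fun Q : Sylow p G => (Q : Subgroup G)) (fun _ _ _ _ e => Sylow.ext e)
    (fun Q hQ => by simpa using ⟨Q.isPGroup', by simpa using hQ⟩) (fun Q hQ h => if_neg ?_)
    fun Q _ => by rw [pb, if_pos ⟨Q, rfl⟩, one_mul, card_normalizer_sylow P Q]
  rintro ⟨S, rfl⟩
  exact h ⟨S, by simpa using (mem_filter.1 hQ).2.2, rfl⟩

open Classical in
theorem pa_eq (G : Type u) [Group G] [Finite G] :
    ∀ R : Subgroup G, IsPGroup p R → pa p R = pb p R := by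
  refine H1.induction_card (P := fun G _ _ => ∀ R : Subgroup G, IsPGroup p R → pa p R = pb p R)
    (fun G _ _ ih R => ?_) G
  letI := Fintype.ofFinite (Subgroup G)
  induction R using (wellFounded_gt (α := Subgroup G)).induction with
  | _ R ih2 =>
  intro hR
  by_cases hN : normalizer (R : Set G) = ⊤
  · obtain ⟨P⟩ : Nonempty (Sylow p G) := inferInstance
    haveI := normalizer_eq_top_iff.1 hN
    have h1 := sum_pa (p := p) R
    have h2 := sum_pb R P
    rw [Nat.card_congr (Equiv.subtypeUnivEquiv fun g => ⟨R, ⟨hR, hN ▸ mem_top g⟩, le_rfl⟩)] at h1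
    rw [Nat.card_congr (Equiv.subtypeUnivEquiv fun Q => hR.le_sylow_of_normal Q),
      H24.card_sylow_eq_index P, mul_comm, card_mul_index, ← h1] at h2
    have h3 := fun f => sum_split (X := fun Q : Subgroup G => IsPGroup p Q) hR f
    have := ((h3 _).symm.trans h2).trans (h3 _)
    rw [sum_congr rfl fun Q hQ =>
        (ih2 Q (mem_filter.1 hQ).2.2 (mem_filter.1 hQ).2.1).symm] at this
    exact (add_right_cancel this).symm
  set N := normalizer (R : Set G) with hNd
  have hn : normalizer ((R.subgroupOf N : Subgroup N) : Set N) = ⊤ :=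
    normalizer_eq_top_iff.2 normal_in_normalizer
  have e1 : pa p R = pa p (R.subgroupOf N) := by
    rw [pa, pa, hn, finsum_congr (pm_normalizer hR)]
    exact (finsum_comp_equiv (topEquiv (G := N)).toEquiv).symm
  rw [e1, ih N (H1.card_lt_of_ne_top hN) (R.subgroupOf N) hR.comap_subtype, pb, pb, hn, card_top]
  refine if_congr ⟨?_, ?_⟩ rfl rfl
  · rintro ⟨S, hS⟩
    obtain ⟨Q, hQ⟩ := hR.exists_le_sylow
    refine ⟨Q, eq_of_inf_normalizer_le Q.isPGroup' hQ fun x hx => ?_⟩
    have := S.is_maximal' (Q := (Q : Subgroup G).subgroupOf N) Q.isPGroup'.comap_subtype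
      (hS ▸ comap_mono hQ)
    exact (hS.trans this.symm).ge (show (⟨x, hx.1⟩ : N) ∈ _ from hx.2)
  · rintro ⟨S, rfl⟩
    exact ⟨S.subtype le_normalizer, rfl⟩

/-- Casolo's theorem -/
theorem casolo (H : Subgroup G) (P : Sylow p G) : Nat.card {g // Sn p H g} =
    Nat.card {Q : Sylow p G // H ≤ (Q : Subgroup G)} *
      Nat.card (normalizer ((P : Subgroup G) : Set G)) := by
  classical
  letI := Fintype.ofFinite (Subgroup G)
  have h1 := sum_pa (p := p) H
  rw [sum_congr (by congr) fun Q hQ => pa_eq G Q (by simpa using (mem_filter.1 hQ).2.1),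
    sum_pb H P] at h1
  exact_mod_cast h1.symm

theorem card_sylow_ge_mul (H : Subgroup G) (P : Sylow p G) :
    Nat.card {Q : Sylow p G // H ≤ (Q : Subgroup G)} *
      Nat.card (normalizer ((P : Subgroup G) : Set G)) =
      Nat.card {g : G // H ≤ MulAut.conj g • (P : Subgroup G)} := by
  have := card_smul_mem (G := G) P fun Q => H ≤ (Q : Subgroup G)
  rw [Sylow.stabilizer_eq_normalizer] at this
  refine Eq.trans ?_ this.symm
  congr 1
  exact Nat.card_congr (Equiv.subtypeEquivRight fun Q => ⟨fun h => ⟨h, by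
    obtain ⟨g, hg⟩ := MulAction.exists_smul_eq G P Q
    exact ⟨g, hg.symm⟩⟩, fun h => h.1⟩)

end H23
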