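import Cfsg.Agent.H23.LieC

/-! A `2`-group acted on by the Frobenius group `13:3`. -/

set_option autoImplicit false

namespace H23.C33
open H10.LieK H23.LN H2 Subgroup
open scoped TensorProduct commutatorElement

theorem zm1 : ∀ a b : ZMod 13, ¬ (a ≠ 0 ∧ (b = 3 * a ∨ b = 9 * a)) → a = 0 ∨ b = 0 ∨ a + b = 0 ∨
    (a + 3 * b ≠ a + b ∧ a + 3 * (3 * b) ≠ a + b ∧ 3 * a + b ≠ a + b ∧ 3 * a + 3 * b ≠ a + b ∧
      3 * a + 3 * (3 * b) ≠ a + b ∧ 3 * (3 * a) + b ≠ a + b ∧ 3 * (3 * a) + 3 * b ≠ a + b ∧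
      3 * (3 * a) + 3 * (3 * b) ≠ a + b) := by decide +kernel

theorem zm2 : ∀ a b c : ZMod 13, (a ≠ 0 ∧ (b = 3 * a ∨ b = 9 * a)) →
    (a + b ≠ 0 ∧ (c = 3 * (a + b) ∨ c = 9 * (a + b))) →
    ¬ (a ≠ 0 ∧ (c = 3 * a ∨ c = 9 * a)) ∧ ¬ (b ≠ 0 ∧ (c = 3 * b ∨ c = 9 * b)) := by decide +kernel

theorem zm3 : ∀ a : ZMod 13, a = 0 ∨ (3 * a ≠ a ∧ 3 * (3 * a) ≠ a) := by decide +kernel

theorem lie_root {R L : Type*} [CommRing R] [LieRing L] [LieAlgebra R L] {ω : R}
    (hω : ∑ i ∈ Finset.range 13, ω ^ i = 0) (φ ψ : Module.End R L)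
    (hφ : ∀ x y, φ ⁅x, y⁆ = ⁅φ x, φ y⁆) (hφp : φ ^ 13 = 1) (hr : φ * ψ = ψ * φ ^ 3)
    (h0 : ∀ x, φ x = x → x = 0) {n : ℕ} (hn : (13 : ℕ).Coprime n) (hL : ∀ x : L, n • x = 0)
    (h1 : ∀ x y, ⁅x + ψ x + ψ (ψ x), y + ψ y + ψ (ψ y)⁆ = 0)
    (h2 : ∀ x, 2 • (x + ψ x + ψ (ψ x)) = 0) : (∀ x y z : L, ⁅⁅x, y⁆, z⁆ = 0) ∧ ∀ x : L, 2 • x = 0 := by
  haveI : Fact (Nat.Prime 13) := ⟨by norm_num⟩
  have hω1 : ω ^ 13 = 1 := by rw [← sub_eq_zero, ← mul_geom_sum, hω, mul_zero]
  let e : ZMod 13 → R := fun a => ω ^ a.val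
  have e_add : ∀ a b, e (a + b) = e a * e b := fun a b => by
    simp only [e]; rw [ZMod.val_add, ← pow_eq_pow_mod _ hω1, pow_add]
  have e0 : e 0 = 1 := by simp [e]
  let χ : ZMod 13 → Module.End R L := fun a => φ ^ a.val
  have χ_add : ∀ a, φ * χ a = χ (a + 1) := fun a => by
    simp only [χ]; rw [ZMod.val_add, ← pow_eq_pow_mod _ hφp, ZMod.val_one, pow_succ']
  have e_sum : ∀ s : ZMod 13, s ≠ 0 → ∑ i, e (i * s) = 0 := fun s hs => by
    rw [← hω, show ∑ i, e (i * s) = ∑ i, e i from Equiv.sum_comp (Equiv.mulRight₀ s hs) e]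
    exact Fin.sum_univ_eq_sum_range (fun i => ω ^ i) 13
  let W : ZMod 13 → L → Prop := fun a x => φ x = e a • x
  have inv : ∀ x : L, ∃ m : ℕ, m • (13 : ℕ) • x = x := fun x =>
    exists_nsmul_eq_self_of_coprime (hn.coprime_dvd_right (addOrderOf_dvd_of_nsmul_eq_zero (hL x)))
  have tf : ∀ x : L, (13 : ℕ) • x = 0 → x = 0 := fun x h => by
    obtain ⟨m, hm⟩ := inv x; rw [← hm, h, smul_zero]
  have Wp : ∀ a x (k : ℕ), W a x → (φ ^ k) x = e (k * a) • x := fun a x k h => by
    induction k with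
    | zero => simp [e0]
    | succ k ih => rw [pow_succ', Module.End.mul_apply, ih, map_smul, h, smul_smul, ← e_add]; push_cast; ring_nf
  have Wb : ∀ {a b x y}, W a x → W b y → W (a + b) ⁅x, y⁆ := fun {a b x y} hx hy => by
    simp only [W] at *; rw [hφ, hx, hy, smul_lie, lie_smul, smul_smul, e_add]
  have Wψ : ∀ {a x}, W a x → W (3 * a) (ψ x) := fun {a x} hx => by
    simp only [W]; rw [← Module.End.mul_apply, hr, Module.End.mul_apply, Wp a x 3 hx, map_smul]; rfl
  have W0 : ∀ {x}, W 0 x → x = 0 := fun {x} hx => h0 x (by simpa [W, e0] using hx)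
  let π : ZMod 13 → Module.End R L := fun i => ∑ s, e (-(i * s)) • χ s
  have π1 : ∀ {a x} s, W a x → π s x = if a = s then (13 : ℕ) • x else 0 := fun {a x} s hx => by
    have : π s x = (∑ i, e (i * (a - s))) • x := by
      simp only [π, LinearMap.sum_apply, LinearMap.smul_apply, Finset.sum_smul]
      refine Finset.sum_congr rfl fun i _ => ?_
      rw [Wp a x _ hx, smul_smul, ← e_add, ZMod.natCast_zmod_val]; ring_nf
    rw [this]
    split_ifs with h
    · simp only [h, sub_self, mul_zero, e0, Finset.sum_const, Finset.card_univ, ZMod.card, smul_assoc, one_smul]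
    · rw [e_sum _ (sub_ne_zero.2 h), zero_smul]
  have dec : ∀ x : L, ∃ f : ZMod 13 → L, (∀ a, W a (f a)) ∧ x = ∑ a, f a := fun x => by
    obtain ⟨m, hm⟩ := inv x
    refine ⟨fun a => π a (m • x), fun a => ?_, ?_⟩
    · simp only [W, π, LinearMap.sum_apply, LinearMap.smul_apply]
      rw [map_sum, Finset.smul_sum, ← Equiv.sum_comp (Equiv.addRight (1 : ZMod 13))
        fun s => e a • e (-(a * s)) • χ s (m • x)]
      refine Finset.sum_congr rfl fun s _ => ?_
      rw [map_smul, ← Module.End.mul_apply, χ_add, smul_smul, ← e_add]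
      simp only [Equiv.coe_addRight]
      congr 2; ring
    · simp only [π, LinearMap.sum_apply, LinearMap.smul_apply]
      rw [Finset.sum_comm, Finset.sum_eq_single 0 (fun s _ hs => by
        rw [← Finset.sum_smul]
        simp only [← mul_neg]
        rw [e_sum _ (neg_ne_zero.2 hs), zero_smul]) (by simp)]
      simp only [mul_zero, neg_zero, e0, one_smul, χ, ZMod.val_zero, pow_zero, Module.End.one_apply,
        Finset.sum_const, Finset.card_univ, ZMod.card]
      rw [smul_comm, hm]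
  have B : ∀ {a b x y}, W a x → W b y → ¬ (a ≠ 0 ∧ (b = 3 * a ∨ b = 9 * a)) → ⁅x, y⁆ = 0 := by
    intro a b x y hx hy h
    rcases zm1 a b h with rfl | rfl | h | ⟨a1, a2, a3, a4, a5, a6, a7, a8⟩
    · rw [W0 hx, zero_lie]
    · rw [W0 hy, lie_zero]
    · exact W0 (h ▸ Wb hx hy)
    have := congrArg (π (a + b)) (h1 x y)
    simp only [add_lie, lie_add, map_add, map_zero] at this
    rw [π1 _ (Wb hx hy), π1 _ (Wb hx (Wψ hy)), π1 _ (Wb hx (Wψ (Wψ hy))), π1 _ (Wb (Wψ hx) hy),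
      π1 _ (Wb (Wψ hx) (Wψ hy)), π1 _ (Wb (Wψ hx) (Wψ (Wψ hy))), π1 _ (Wb (Wψ (Wψ hx)) hy),
      π1 _ (Wb (Wψ (Wψ hx)) (Wψ hy)), π1 _ (Wb (Wψ (Wψ hx)) (Wψ (Wψ hy)))] at this
    simp only [if_neg a1, if_neg a2, if_neg a3, if_neg a4, if_neg a5, if_neg a6, if_neg a7, if_neg a8,
      if_true, add_zero] at this
    exact tf _ this
  refine ⟨fun x y z => ?_, fun x => ?_⟩
  · obtain ⟨f, hf, rfl⟩ := dec x
    obtain ⟨g, hg, rfl⟩ := dec y
    obtain ⟨k, hk, rfl⟩ := dec z
    simp only [sum_lie, lie_sum]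
    refine Finset.sum_eq_zero fun c _ => Finset.sum_eq_zero fun b _ => Finset.sum_eq_zero fun a _ => ?_
    by_contra h
    obtain ⟨a1, a2⟩ := zm2 a b c (by_contra fun e => h (by rw [B (hf a) (hg b) e, zero_lie]))
      (by_contra fun e => h (B (Wb (hf a) (hg b)) (hk c) e))
    exact h (by rw [lie_lie, B (hf a) (hk c) a1, B (hg b) (hk c) a2, lie_zero, lie_zero, sub_zero])
  · obtain ⟨f, hf, rfl⟩ := dec x
    rw [Finset.smul_sum]
    refine Finset.sum_eq_zero fun a _ => ?_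
    rcases zm3 a with rfl | ⟨a1, a2⟩
    · rw [W0 (hf 0), smul_zero]
    have := congrArg (π a) (h2 (f a))
    rw [map_nsmul, map_add, map_add, π1 _ (hf a), π1 _ (Wψ (hf a)), π1 _ (Wψ (Wψ (hf a))), if_pos rfl,
      if_neg a1, if_neg a2, add_zero, add_zero, map_zero, smul_comm] at this
    exact tf _ this

theorem lie_aut {L : Type*} [LieRing L] (φ ψ : Module.End ℤ L)
    (hφ : ∀ x y, φ ⁅x, y⁆ = ⁅φ x, φ y⁆) (hφp : φ ^ 13 = 1) (hr : φ * ψ = ψ * φ ^ 3)
    (h0 : ∀ x, φ x = x → x = 0) {n : ℕ} (hn : (13 : ℕ).Coprime n) (hL : ∀ x : L, n • x = 0)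
    (h1 : ∀ x y, ⁅x + ψ x + ψ (ψ x), y + ψ y + ψ (ψ y)⁆ = 0)
    (h2 : ∀ x, 2 • (x + ψ x + ψ (ψ x)) = 0) : (∀ x y z : L, ⁅⁅x, y⁆, z⁆ = 0) ∧ ∀ x : L, 2 • x = 0 := by
  haveI : Fact (Nat.Prime 13) := ⟨by norm_num⟩
  let R := AdjoinRoot (Polynomial.cyclotomic 13 ℤ)
  let b := AdjoinRoot.powerBasis' (Polynomial.cyclotomic.monic 13 ℤ)
  let c : Fin b.dim → R ⊗[ℤ] L →+ L := fun i =>
    ((TensorProduct.lid ℤ L).toLinearMap ∘ₗ (b.basis.coord i).rTensor L).toAddMonoidHom
  have c_tmul : ∀ i r x, c i (r ⊗ₜ x) = b.basis.repr r i • x := fun i r x => rfl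
  have c_sum : ∀ x, x = ∑ i, b.basis i ⊗ₜ[ℤ] c i x := fun x => by
    induction x with
    | zero => simp
    | tmul r x =>
      simp only [c_tmul, ← TensorProduct.smul_tmul, ← TensorProduct.sum_tmul]
      rw [b.basis.sum_repr]
    | add x y hx hy =>
      simp only [map_add, TensorProduct.tmul_add, Finset.sum_add_distrib]
      rw [← hx, ← hy]
  have c_φ : ∀ i x, c i (φ.baseChange R x) = φ (c i x) := fun i x => by
    induction x with
    | zero => simp
    | tmul r x => simp [c_tmul]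
    | add x y hx hy => simp [hx, hy]
  have inj : ∀ y : L, (1 : R) ⊗ₜ[ℤ] y = 0 → y = 0 := fun y hy => by
    have h0 : 0 < b.dim := by
      change 0 < (Polynomial.cyclotomic 13 ℤ).natDegree
      rw [Polynomial.natDegree_cyclotomic]; exact Nat.totient_pos.2 (by norm_num)
    have := congrArg (c ⟨0, h0⟩) hy
    rwa [map_zero, c_tmul, show (1 : R) = b.basis ⟨0, h0⟩ by simp, b.basis.repr_self,
      Finsupp.single_eq_same, one_smul] at this
  let t : Module.End ℤ L := 1 + ψ + ψ * ψ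
  have ht : ∀ x : R ⊗[ℤ] L, x + ψ.baseChange R x + ψ.baseChange R (ψ.baseChange R x) = t.baseChange R x :=
    fun x => by simp [t, LinearMap.baseChange_mul]
  have ht' : ∀ x, t x = x + ψ x + ψ (ψ x) := fun x => rfl
  have hh := lie_root (R := R) (ω := AdjoinRoot.root _) (by
    have := (congrArg (AdjoinRoot.mk (Polynomial.cyclotomic 13 ℤ))
      (Polynomial.cyclotomic_prime ℤ 13)).symm.trans AdjoinRoot.mk_self
    simpa using this) (φ.baseChange R) (ψ.baseChange R) (fun x y => ?_) (by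
      rw [← LinearMap.baseChange_pow, hφp, LinearMap.baseChange_one]) (by
      rw [← LinearMap.baseChange_pow, ← LinearMap.baseChange_mul, ← LinearMap.baseChange_mul, hr])
      (fun x hx => ?_) hn (fun x => ?_) (fun x y => ?_) fun x => ?_
  · refine ⟨fun x y z => inj _ ?_, fun x => inj _ (by rw [TensorProduct.tmul_smul, hh.2])⟩
    simpa only [LieAlgebra.ExtendScalars.bracket_tmul, mul_one] using hh.1 (1 ⊗ₜ x) (1 ⊗ₜ y) (1 ⊗ₜ z)
  · induction x with
    | zero => simp
    | tmul r x =>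
      induction y with
      | zero => simp
      | tmul s y => simp [hφ]
      | add a b ha hb => simp only [lie_add, map_add, ha, hb]
    | add a b ha hb => simp only [add_lie, map_add, ha, hb]
  · rw [c_sum x]
    exact Finset.sum_eq_zero fun i _ => by rw [h0 (c i x) (by rw [← c_φ, hx]), TensorProduct.tmul_zero]
  · induction x with
    | zero => simp
    | tmul r x => rw [← TensorProduct.tmul_smul, hL, TensorProduct.tmul_zero]
    | add a b ha hb => rw [smul_add, ha, hb, add_zero]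
  · rw [ht, ht]
    induction x with
    | zero => simp
    | tmul r x =>
      induction y with
      | zero => simp
      | tmul s y => simp only [LinearMap.baseChange_tmul, LieAlgebra.ExtendScalars.bracket_tmul, ht', h1,
          TensorProduct.tmul_zero]
      | add a b ha hb => simp only [lie_add, map_add, ha, hb, add_zero]
    | add a b ha hb => simp only [add_lie, map_add, ha, hb, add_zero]
  · rw [ht]
    induction x with
    | zero => simp
    | tmul r x => rw [LinearMap.baseChange_tmul, ← TensorProduct.tmul_smul, ht', h2, TensorProduct.tmul_zero]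
    | add a b ha hb => rw [map_add, smul_add, ha, hb, add_zero]

theorem pow_four0 {N : Type} [Group N] [Finite N] (hN : IsPGroup 2 N) (α β : MulAut N)
    (hα : α ^ 13 = 1) (hβ : β ^ 3 = 1) (hr : α * β = β * α ^ 3) (h0 : ∀ x, α x = x → x = 1)
    (h2 : ∀ x, β x = x → x ^ 2 = 1) (y : N) : y ^ 4 = 1 := by
  haveI : Fact (Nat.Prime 2) := ⟨Nat.prime_two⟩
  haveI := hN.isNilpotent
  obtain ⟨k, hk⟩ := IsPGroup.iff_card.1 hN
  obtain ⟨M, hM⟩ := Subgroup.nilpotent_iff_lowerCentralSeries.1 ‹Group.IsNilpotent N›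
  have fx : ∀ (σ : MulAut N) (p : ℕ), σ ^ p = 1 → p.Coprime 2 → ∀ n, ∀ w ∈ γ N n,
      aut σ (sg n w) = sg n w → ∃ u ∈ γ N n, σ u = u ∧ sg n w = sg n u := fun σ p h1 h2 n w hw h => by
    have h3 := (aut_mem σ).2 hw
    have h4 : σ w * w⁻¹ ∈ γ N (n + 1) := sg_eq_zero (mul_mem h3 (inv_mem hw)) (by
      rw [sg_mul h3 (inv_mem hw), sg_inv hw, ← aut_sg, h, add_neg_cancel])
    obtain ⟨u, hu, e⟩ := aut_exists_mul_fixed (φ := (zpowers σ).subtype) (N := γ N (n + 1)) (k := w)
      (fun a x hx => (aut_mem _).2 hx) (by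
        rw [Nat.card_zpowers]
        exact ((h2.pow_right k).coprime_dvd_left (orderOf_dvd_of_pow_eq_one h1)).coprime_dvd_right
          (hk ▸ card_subgroup_dvd_card _)) (.inr inferInstance) (by
        rintro ⟨a, ha⟩
        obtain ⟨i, rfl⟩ := (mem_powers_iff_mem_zpowers.2 ha : a ∈ Submonoid.powers σ)
        change (σ ^ i) w * w⁻¹ ∈ _
        clear ha
        induction i with
        | zero => simp
        | succ i ih =>
          have := mul_mem ((aut_mem σ).2 ih) h4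
          rwa [map_mul, map_inv, mul_assoc, inv_mul_cancel_left, ← MulAut.mul_apply, ← pow_succ'] at this)
    have h5 := γ_succ_le n hu
    exact ⟨u * w, mul_mem h5 hw, mem_autFixed_zpowers.1 e, by rw [sg_mul h5 hw, sg_zero (.inl hu), zero_add]⟩
  let A := act (MonoidHom.id (MulAut N))
  have hA : ∀ σ n x, A σ (sg n x) = sg n (σ x) := fun σ n x => aut_sg σ n x
  let X : Subgroup N := autFixed (zpowers β).subtype
  have hX : ∀ x ∈ X, x ^ 2 = 1 := fun x hx => h2 x (mem_autFixed_zpowers.1 hx)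
  have tr : ∀ x, x + A β x + A β (A β x) ∈ LX X := fun x => by
    induction x using H10.LieK.induction with
    | h0 => simp
    | h2 a b ha hb => convert add_mem ha hb using 1; simp only [map_add]; abel
    | h1 n w hw =>
      have a1 := (aut_mem β).2 hw
      have a2 := (aut_mem β).2 a1
      have e : sg n w + A β (sg n w) + A β (A β (sg n w)) = sg n (w * β w * β (β w)) := by
        rw [hA, hA, sg_mul (mul_mem hw a1) a2, sg_mul hw a1]
      obtain ⟨u, hu, e1, e2⟩ := fx β 3 hβ (by norm_num) n _ (mul_mem (mul_mem hw a1) a2) (by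
        change A β (sg n (w * β w * β (β w))) = _
        rw [← e, map_add, map_add, hA, hA, hA, show β (β (β w)) = (β ^ 3) w from rfl, hβ, MulAut.one_apply]
        abel)
      rw [e, e2]
      exact sg_mem (mem_autFixed_zpowers.2 e1) hu
  have hc : ⁅X, X⁆ = ⊥ := commutator_eq_bot_iff_le_centralizer.2 fun x hx => mem_centralizer_iff.2
    fun z hz => by
      have := hX _ (mul_mem hz hx)
      have e : ∀ x ∈ X, x⁻¹ = x := fun x hx => inv_eq_of_mul_eq_one_right (by rw [← sq, hX x hx])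
      rw [← e _ (mul_mem hz hx), mul_inv_rev, e x hx, e z hz]
  obtain ⟨b1, b2⟩ := lie_aut (A α) (A β) (aut_lie α) (by rw [← map_pow, hα, map_one])
    (by rw [← map_pow, ← map_mul, ← map_mul, hr]) (fun a ha => by
      rw [← sum_proj hM a]
      refine Finset.sum_eq_zero fun n _ => ?_
      have h1 : (aut α).comp (proj n) = (proj n).comp (aut α) := hom_ext fun j y _ => by
        simp only [AddMonoidHom.comp_apply, aut_sg, proj, lift_sg]
        split_ifs <;> simp [aut_sg]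
      have h2 := DFunLike.congr_fun h1 a
      obtain ⟨y, hy, e⟩ := exists_proj n a
      rw [AddMonoidHom.comp_apply, AddMonoidHom.comp_apply, show aut α a = a from ha, e] at h2
      obtain ⟨u, -, e1, e2⟩ := fx α 13 hα (by norm_num) n y hy h2
      rw [e, e2, h0 u e1, sg_one]) (n := 2 ^ k) (Nat.Coprime.pow_right _ (by norm_num)) (fun a => by
      induction a using H10.LieK.induction with
      | h0 => simp
      | h2 a b ha hb => rw [smul_add, ha, hb, add_zero]
      | h1 i x hx => rw [← sg_pow hx, ← hk, pow_card_eq_one', sg_one])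
    (fun x y => by simpa [hc, LX_bot] using br_LX (lie_mem_br (tr x) (tr y)))
    fun x => AddMonoidHom.mem_ker.1 ((LX_le (V := (nsmulAddMonoidHom 2).ker)).2 (fun n x hx hn => by
      rw [AddMonoidHom.mem_ker, nsmulAddMonoidHom_apply, ← sg_pow hn, hX x hx, sg_one]) (tr x))
  have s : ∀ n, ∀ x ∈ γ N n, x ^ 2 ∈ γ N (n + 1) := fun n x hx =>
    sg_eq_zero (pow_mem hx 2) (by rw [sg_pow hx, b2])
  have h5 : adI (⊤ : AddSubgroup (Gr N)) ⊤ 2 ≤ ⊥ := br_le_left.2 fun c _ => br_le.2 fun a _ b _ => b1 a b c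
  have : ∀ k, γ N 2 ≤ γ N (2 + k) := fun k => by
    induction k with
    | zero => exact le_rfl
    | succ k ih => exact fun x hx => sg_eq_zero (ih hx) (AddSubgroup.mem_bot.1 ((adI_le h5
        bot_br k) ((adI_add ⊤ ⊤ _ k).le (sg_mem_adI _ x (ih hx)))))
  have := (this M).trans ((Subgroup.lowerCentralSeries_antitone _ le_add_self).trans hM.le)
    (s 1 _ (s 0 y trivial))
  rwa [← pow_mul, mem_bot] at this

theorem pow_four {N : Type*} [Group N] [Finite N] (hN : IsPGroup 2 N) (α β : MulAut N)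
    (hα : α ^ 13 = 1) (hβ : β ^ 3 = 1) (hr : α * β = β * α ^ 3) (h0 : ∀ x, α x = x → x = 1)
    (h2 : ∀ x, β x = x → x ^ 2 = 1) (y : N) : y ^ 4 = 1 := by
  let e : Shrink.{0} N ≃* N := Shrink.mulEquiv
  haveI : Finite (Shrink.{0} N) := Finite.of_equiv _ e.symm.toEquiv
  let c := MulAut.congr e.symm
  have hc : ∀ σ x, c σ x = x → σ (e x) = e x := fun σ x h => by
    simpa [c] using congrArg e h
  have := pow_four0 (hN.of_equiv e.symm) (c α) (c β) (by rw [← map_pow, hα, map_one])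
    (by rw [← map_pow, hβ, map_one]) (by rw [← map_pow, ← map_mul, ← map_mul, hr])
    (fun x h => e.injective (by rw [h0 _ (hc _ _ h), map_one]))
    (fun x h => e.injective (by rw [map_pow, h2 _ (hc _ _ h), map_one])) (e.symm y)
  simpa using congrArg e this

end H23.C33
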