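import Cfsg.Agent.H19.Amb5

/-!
# Weight decompositions and fixed spaces of elements of prime order
-/

open Subgroup Module MulAction
open H19 hiding eq_bot_mono

namespace H23.FH

variable {F : Type*} [Field F] {G : Type*} [Group G] {U : Type*} [AddCommGroup U] [Module F U]
  {ρ : G →* End F U} {A : Subgroup G} {p : ℕ} {x g : G} {l m : A →* Fˣ} {v : U}

/-- fixed space -/
abbrev Fx (ρ : G →* End F U) (x : G) : Submodule F U := LinearMap.ker (ρ x - 1)

theorem mem_Fx : v ∈ Fx ρ x ↔ ρ x v = v := by simp [sub_eq_zero]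

/-- weight space -/
def ws (ρ : G →* End F U) (l : A →* Fˣ) : Submodule F U where
  carrier := {v | ∀ a : A, ρ a v = (l a : F) • v}
  zero_mem' := fun _ => by simp
  add_mem' := fun ha hb a => by rw [map_add, ha a, hb a, smul_add]
  smul_mem' := fun c v hv a => by rw [map_smul, hv a, smul_comm]

theorem ws_eq (h0 : v ≠ 0) (h1 : v ∈ ws ρ l) (h2 : v ∈ ws ρ m) : l = m :=
  MonoidHom.ext fun a => Units.ext (smul_left_injective F h0 ((h1 a).symm.trans (h2 a)))

theorem exists_ws (h0 : v ≠ 0) (h : ∀ a : A, ∃ c : F, ρ a v = c • v) : ∃ l : A →* Fˣ, v ∈ ws ρ l := by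
  choose c hc using h
  refine ⟨MonoidHom.toHomUnits ⟨⟨c, smul_left_injective F h0 ?_⟩, fun a b =>
    smul_left_injective F h0 ?_⟩, hc⟩
  · simp [← hc]
  · simp only [← hc, coe_mul, map_mul, End.mul_apply]; rw [hc b, map_smul, hc a, smul_smul, mul_comm]

/-- the action on weights -/
abbrev wact (F : Type*) [Field F] (A : Subgroup G) [A.Normal] : MulAction G (A →* Fˣ) where
  smul g l := l.comp (MulAut.conjNormal g⁻¹).toMonoidHom
  one_smul l := by ext a; exact congrArg (fun b => (l b : F)) (Subtype.ext (by simp))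
  mul_smul g h l := by ext a; exact congrArg (fun b => (l b : F)) (Subtype.ext (by simp [mul_assoc]))

attribute [local instance] wact

variable [A.Normal]

theorem smul_app (g : G) (l : A →* Fˣ) (a : A) : (g • l) a = l (MulAut.conjNormal g⁻¹ a) := rfl

theorem ws_map (g : G) (h : v ∈ ws ρ l) : ρ g v ∈ ws ρ (g • l) := fun a => by
  rw [smul_app, ← map_smul, ← h, ← End.mul_apply, ← End.mul_apply, ← map_mul, ← map_mul]
  simp [mul_assoc]

theorem finrank_ws_smul [FiniteDimensional F U] (g : G) (l : A →* Fˣ) :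
    finrank F (ws ρ (g • l)) = finrank F (ws ρ l) := by
  have : ∀ (g : G) (l : A →* Fˣ), finrank F (ws ρ l) ≤ finrank F (ws ρ (g • l)) := fun g l =>
    LinearMap.finrank_le_finrank_of_injective (f := (ρ g).restrict fun _ => ws_map g) fun a b e =>
      Subtype.ext (((Group.isUnit g).map ρ |> (End.isUnit_iff _).1).1 (congrArg Subtype.val e))
  exact le_antisymm ((this g⁻¹ (g • l)).trans (by rw [inv_smul_smul])) (this g l)

variable [Finite G]

attribute [local instance] Fintype.ofFinite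

/-- projection on a weight space -/
noncomputable def pj (ρ : G →* End F U) (l : A →* Fˣ) : End F U :=
  (#A : F)⁻¹ • ∑ a : A, ((l a)⁻¹ : Fˣ) • ρ a

omit [A.Normal] in
theorem pj_mem (l : A →* Fˣ) (v : U) : pj ρ l v ∈ ws ρ l := fun b => by
  simp only [pj, LinearMap.smul_apply, LinearMap.sum_apply, map_smul, map_sum, Units.smul_def]
  rw [smul_comm (l b : F), Finset.smul_sum]
  conv_rhs => rw [← Equiv.sum_comp (Equiv.mulLeft b), Finset.smul_sum, Finset.smul_sum]
  simp [smul_smul, mul_comm _ (l b : F)⁻¹, ← mul_assoc]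

omit [A.Normal] in
theorem pj_ws (hA : (#A : F) ≠ 0) (h : v ∈ ws ρ m) [Decidable (l = m)] :
    pj ρ l v = if l = m then v else 0 := by
  have : pj ρ l v = ((#A : F)⁻¹ * ∑ a : A, (Units.coeHom F).comp (l⁻¹ * m) a) • v := by
    simp [pj, LinearMap.sum_apply, h _, Units.smul_def, smul_smul, Finset.sum_smul, mul_smul _ (∑ _ ∈ _, _)]
  rw [this]
  split_ifs with e
  · simp [e, ← Nat.card_eq_fintype_card, hA]
  · rw [sum_hom_units_eq_zero, mul_zero, zero_smul]
    exact fun f => e (inv_mul_eq_one.1 (MonoidHom.ext fun a => Units.ext (DFunLike.congr_fun f a)))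

theorem rho_pj (g : G) (l : A →* Fˣ) (v : U) : ρ g (pj ρ l v) = pj ρ (g • l) (ρ g v) := by
  simp only [pj, LinearMap.smul_apply, LinearMap.sum_apply, map_smul, map_sum, Units.smul_def]
  rw [← Equiv.sum_comp (MulAut.conjNormal g⁻¹).toEquiv]
  simp [smul_app, ← End.mul_apply, ← map_mul, ← mul_assoc]

omit [A.Normal] in
theorem sum_finrank_le [FiniteDimensional F U] (hA : (#A : F) ≠ 0) :
    ∑ l : A →* Fˣ, finrank F (ws ρ l) ≤ finrank F U := by
  classical
  rw [← finrank_pi_fintype]
  refine LinearMap.finrank_le_finrank_of_injective (f := ∑ l, (ws ρ l).subtype ∘ₗ LinearMap.proj l)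
    ((injective_iff_map_eq_zero _).2 fun v hv => funext fun l => Subtype.ext ?_)
  simpa [LinearMap.sum_apply, pj_ws hA (v _).2] using congrArg (pj ρ l) hv

variable [IsAlgClosed F]

omit [A.Normal] in
theorem card_wt (hA : (#A : F) ≠ 0) (hab : Ab A) : Nat.card (A →* Fˣ) = #A := by
  letI : CommGroup A := { (inferInstance : Group A) with mul_comm := hab.1.1 }
  haveI : NeZero ((Monoid.exponent A : ℕ) : F) := ⟨fun h => hA (by
    obtain ⟨c, hc⟩ := Group.exponent_dvd_nat_card (G := A); rw [hc, Nat.cast_mul, h, zero_mul])⟩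
  exact CommGroup.card_monoidHom_of_hasEnoughRootsOfUnity A F

omit [A.Normal] in
theorem sum_pj (hA : (#A : F) ≠ 0) (hab : Ab A) (v : U) : ∑ l : A →* Fˣ, pj ρ l v = v := by
  letI : CommGroup A := { (inferInstance : Group A) with mul_comm := hab.1.1 }
  haveI : NeZero ((Monoid.exponent A : ℕ) : F) := ⟨fun h => hA (by
    obtain ⟨c, hc⟩ := Group.exponent_dvd_nat_card (G := A); rw [hc, Nat.cast_mul, h, zero_mul])⟩
  simp only [pj, LinearMap.smul_apply, LinearMap.sum_apply, ← Finset.smul_sum, Units.smul_def]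
  rw [Finset.sum_comm, Finset.sum_eq_single 1 (fun a _ ha => ?_) (by simp)]
  · simp [← Nat.card_eq_fintype_card, card_wt hA hab, ← Nat.cast_smul_eq_nsmul F, smul_smul, hA]
  · obtain ⟨φ, hφ⟩ := CommGroup.exists_apply_ne_one_of_hasEnoughRootsOfUnity A F (inv_ne_one.2 ha)
    have := sum_hom_units_eq_zero ((Units.coeHom F).comp (MonoidHom.eval a⁻¹ : (A →* Fˣ) →* Fˣ))
      fun e => hφ (Units.ext (DFunLike.congr_fun e φ))
    rw [← Finset.sum_smul]
    exact smul_eq_zero_of_left (by simpa using this) _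

open Classical in
theorem fix_le [FiniteDimensional F U] (hA : (#A : F) ≠ 0) (hab : Ab A) (hp : p.Prime)
    (hx : x ^ p = 1) : p * finrank F (Fx ρ x) ≤ ∑ l : A →* Fˣ,
      if x • l = l then p * finrank F ↥(ws ρ l ⊓ Fx ρ x) else finrank F (ws ρ l) := by
  have hy : ∀ y : zpowers x, ∀ v ∈ Fx ρ x, ρ y v = v := fun y v hv =>
    (zpowers_le (H := stabilizer _ v |>.comap ρ.toHomUnits)).2 (mem_Fx.1 hv) y.2
  let T : (A →* Fˣ) → Submodule F U := fun l => if x • l = l then ws ρ l ⊓ Fx ρ x else ws ρ l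
  have h1 : finrank F (Fx ρ x) ≤
      ∑ ω : orbitRel.Quotient (zpowers x) (A →* Fˣ), finrank F (T ω.out) := by
    rw [← finrank_pi_fintype]
    refine LinearMap.finrank_le_finrank_of_injective (f := LinearMap.pi fun ω =>
      (pj ρ ω.out).restrict (p := Fx ρ x) (q := T ω.out) fun v hv => ?_)
      ((injective_iff_map_eq_zero _).2 fun v hv => Subtype.ext ?_)
    · simp only [T]
      split_ifs with e
      · exact ⟨pj_mem _ _, mem_Fx.2 (by rw [rho_pj, e, mem_Fx.1 hv])⟩
      · exact pj_mem _ _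
    · rw [← sum_pj (ρ := ρ) hA hab v.1]
      refine Finset.sum_eq_zero fun l _ => ?_
      obtain ⟨y, e⟩ : ∃ y : zpowers x, (y : G) • _ = l :=
        (orbitRel (zpowers x) _).symm (Quotient.mk_out (s := orbitRel (zpowers x) _) l)
      rw [← e, ← hy y v v.2]
      exact (rho_pj ..).symm.trans (by
        rw [show pj ρ _ v.1 = 0 from congrArg Subtype.val (congrFun hv _), map_zero])
  refine (Nat.mul_le_mul_left p h1).trans ?_
  rw [Finset.mul_sum, ← Finset.sum_fiberwise _ (Quotient.mk (orbitRel (zpowers x) (A →* Fˣ)))]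
  refine Finset.sum_le_sum fun ω _ => ?_
  by_cases e : x • ω.out = ω.out
  · refine le_trans ?_ (Finset.single_le_sum (a := ω.out) (fun _ _ => Nat.zero_le _) (by simp))
    rw [show T _ = _ from if_pos e, if_pos e]
  have h2 : ∀ l, Quotient.mk (orbitRel (zpowers x) (A →* Fˣ)) l = ω ↔ l ∈ orbit (zpowers x) ω.out :=
    fun l => by rw [Quotient.mk_eq_iff_out]; rfl
  rw [Finset.sum_congr rfl (g := fun _ => finrank F (ws ρ ω.out)) fun l hl => ?_, Finset.sum_const,
    smul_eq_mul]
  · refine Nat.mul_le_mul (le_of_eq ?_) (by rw [show T _ = _ from if_neg e])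
    rw [← Set.ncard_coe_finset, show SetLike.coe (Finset.filter _ _) = orbit (zpowers x) ω.out from
      Set.ext fun l => by simp [h2], ← index_stabilizer]
    refine (((Nat.dvd_prime hp).1 ((index_dvd_card _).trans ?_)).resolve_left fun h => e ?_).symm
    · exact Nat.card_zpowers x ▸ orderOf_dvd_of_pow_eq_one hx
    · exact (index_eq_one.1 h ▸ mem_top _ : ⟨x, mem_zpowers x⟩ ∈ stabilizer (zpowers x) ω.out)
  · obtain ⟨⟨_, i, rfl⟩, rfl⟩ := (h2 l).1 (Finset.mem_filter.1 hl).2
    rw [if_neg fun h => e (MulAction.injective (x ^ i) ?_)]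
    · exact finrank_ws_smul _ _
    · simpa only [smul_smul, zpow_mul_comm, ← zpow_add_one, ← zpow_one_add, add_comm, subgroup_smul_def]
        using h

end H23.FH
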