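import Cfsg.Agent.H23.FixHalf1

/-!
# Fixed spaces of elements of prime order: the abelian and the symplectic case
-/

open Subgroup Module MulAction
open H19 hiding eq_bot_mono
open scoped commutatorElement

namespace H23.FH

attribute [local instance] wact Fintype.ofFinite

variable {F : Type*} [Field F] {G : Type*} [Group G] {U : Type*} [AddCommGroup U] [Module F U]
  {ρ : G →* End F U} {A N Z H : Subgroup G} {p : ℕ} {x g : G}

/-- conjugation on endomorphisms -/
noncomputable def cr (ρ : G →* End F U) : G →* End F (End F U) where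
  toFun g := LinearMap.mulLeft F (ρ g) ∘ₗ LinearMap.mulRight F (ρ g⁻¹)
  map_one' := by ext; simp
  map_mul' a b := by ext; simp

theorem cr_app (g : G) (T : End F U) : cr ρ g T = ρ g * (T * ρ g⁻¹) := rfl

theorem sq_lt [FiniteDimensional F U] (h : ρ x ≠ 1) :
    finrank F (Fx ρ x) ^ 2 < finrank F (Fx (cr ρ) x) := by
  let R := LinearMap.range (ρ x - 1)
  let s : ((U ⧸ R) →ₗ[F] Fx ρ x) →ₗ[F] End F U :=
    { toFun := fun Y => (Fx ρ x).subtype ∘ₗ Y ∘ₗ R.mkQ
      map_add' := fun _ _ => by ext; simp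
      map_smul' := fun _ _ => by ext; simp }
  have hs : Function.Injective s := (injective_iff_map_eq_zero s).2 fun Y hY =>
    Submodule.linearMap_qext _ (LinearMap.ext fun v => Subtype.ext (LinearMap.congr_fun hY v))
  have h1 : LinearMap.range s < Fx (cr ρ) x := by
    refine lt_of_le_of_ne ?_ fun e => h ?_
    · rintro _ ⟨Y, rfl⟩
      refine mem_Fx.2 (LinearMap.ext fun v => (mem_Fx.1 (Y _).2).trans ?_)
      refine congrArg (fun w => (Y w : U)) ((Submodule.Quotient.eq R).2 ⟨-ρ x⁻¹ v, ?_⟩)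
      simp [← End.mul_apply, ← map_mul, sub_eq_neg_add, add_comm]
    · obtain ⟨Y, hY⟩ := e.ge (show 1 ∈ _ from mem_Fx.2 (by simp [cr_app, ← map_mul]))
      exact LinearMap.ext fun v => mem_Fx.1 ((show (Y _ : U) = v from LinearMap.congr_fun hY v) ▸ (Y _).2)
  have h2 := Submodule.finrank_lt_finrank_of_lt h1
  have h3 := R.finrank_quotient_add_finrank
  have h4 : finrank F R + finrank F (Fx ρ x) = _ := (ρ x - 1).finrank_range_add_finrank_ker
  rwa [LinearMap.finrank_range_of_inj hs, finrank_linearMap, show finrank F (U ⧸ R) =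
    finrank F (Fx ρ x) by omega, ← sq] at h2

variable [Finite G]

theorem pg_zp (hp : p.Prime) (hx : x ^ p = 1) : PG p (zpowers x) :=
  PiN.dvd ((piN_prime hp).2 rfl) (Nat.card_zpowers x ▸ orderOf_dvd_of_pow_eq_one hx)

theorem idx {r : ℕ} (hp : p.Prime) (hA : PG r A) (hn : x ∈ N(A)) (hx : x ^ p = 1) :
    (∃ j, C[x].relIndex A = r ^ j) ∧ (r = p ∨ C[x].relIndex A ≡ 1 [MOD p]) := by
  have e := card_inf_mul_relIndex C[x] A
  refine ⟨(PiN.dvd hA (Dvd.intro_left _ e)).exists_pow (relIndex_ne_zero' _ _),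
    or_iff_not_imp_left.2 fun h => ?_⟩
  haveI := Fact.mk hp
  letI : MulAction (zpowers x) A :=
    MulAction.compHom A (A.normalizerMonoidHom.comp (inclusion (zpowers_le.2 hn)))
  have h1 := (pg_zp hp hx).isPGroup.card_modEq_card_fixedPoints A
  have : fixedPoints (zpowers x) A = (C(zpowers x).subgroupOf A : Set A) := by
    ext y
    exact ⟨fun hx => mem_cent.2 fun b hb =>
      mul_inv_eq_iff_eq_mul.1 (congrArg Subtype.val (hx ⟨b, hb⟩)), fun hx b =>
      Subtype.ext (mul_inv_eq_iff_eq_mul.2 (mem_cent.1 hx b b.2))⟩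
  rw [this, SetLike.coe_sort_coe, card_subgroupOf, cent_zpowers, ← e] at h1
  exact Nat.ModEq.cancel_left_of_coprime (((PiN.dvd hA (Dvd.intro _ e)).sing_ne h).coprime_prime
    hp).symm (by rwa [mul_one])

theorem three_mul_le (hp : p.Prime) (h2 : p ≠ 2) {G : Type*} [Group G] [Finite G]
    [Group.IsSolvable G] {x : G} (hx : x ^ p = 1) (hg : normalClosure {x} = ⊤) {H : Subgroup G}
    (hH : H ≠ ⊤) : 3 * Nat.card {g // g⁻¹ * x * g ∈ H} ≤ Nat.card G := by
  induction hn : Nat.card G using Nat.strong_induction_on generalizing G with | _ n ih => ?_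
  subst hn
  obtain ⟨M, hM, hHM⟩ := (eq_top_or_exists_le_coatom H).resolve_left hH
  refine (Nat.mul_le_mul_left 3 (Nat.card_le_card_of_injective (β := {g // g⁻¹ * x * g ∈ M})
    (Subtype.map id fun _ h => hHM h) (Subtype.map_injective _ fun _ _ => id))).trans ?_
  obtain ⟨W, r, hr, -, hW, h0, hab, hmin⟩ := H1.exists_minimal_normal_elementary_le (⊤ : Subgroup G)
    (fun e => hH (eq_top_iff.2 (e ▸ bot_le))) inferInstance
  by_cases hWM : W ≤ M
  · let π := QuotientGroup.mk' W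
    have hs := QuotientGroup.mk'_surjective W
    have := ih _ (H1.card_quotient_lt h0) (x := π x) (by rw [← map_pow, hx, map_one])
      (by rw [← Set.image_singleton, ← map_normalClosure _ _ hs, hg, map_top_of_surjective _ hs])
      (H := M.map π) (fun e => hM.1 (by
        rw [← sup_eq_left.2 hWM, ← H1.comap_map_mk', e, comap_top])) rfl
    have e := QuotientGroup.card_preimage_mk W {g | g⁻¹ * π x * g ∈ M.map π}
    rw [show QuotientGroup.mk ⁻¹' _ = {g | g⁻¹ * x * g ∈ M} from Set.ext fun g => by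
      rw [← sup_eq_left.2 hWM, ← H1.comap_map_mk', map_comap_eq_self_of_surjective hs]; rfl] at e
    rw [card_eq_card_quotient_mul_card_subgroup W]
    exact (congrArg (3 * ·) e).le.trans (by
      rw [mul_comm (Nat.card W), ← mul_assoc]; exact Nat.mul_le_mul_right _ this)
  have hc := comm_iff_le_cent.1 hab.1
  have hMW : W ⊔ M = ⊤ := hM.2 _ (right_lt_sup.2 hWM)
  have nW : ∀ K : Subgroup G, K ≤ N(W) := fun K => le_normalizer_of_normal
  have h1 : W ⊓ M = ⊥ := (hmin _ (normalizer_eq_top_iff.1 (top_le_iff.1 (hMW ▸ sup_le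
    (norms_of_comm hab.1 le_rfl inf_le_left) (norms_inf (nW _) le_normalizer)))) inf_le_left).resolve_right
    fun e => hWM (e ▸ inf_le_right)
  rcases isEmpty_or_nonempty {g // g⁻¹ * x * g ∈ M} with he | ⟨⟨g, hy⟩⟩
  · simp
  set y := g⁻¹ * x * g with ey
  have hC : ¬ W ≤ C[y] := fun h => hM.1 (top_le_iff.1 (hg ▸ ?_))
  swap
  · have h3 : W ≤ C((⊤ : Subgroup G)) := cents_symm (hg ▸ normalClosure_le_normal
      (Set.singleton_subset_iff.2 (by
        simpa [ey, mul_assoc] using (normal_centralizer).conj_mem _ (le_cent1_iff.1 h) g)))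
    haveI : M.Normal := normalizer_eq_top_iff.1 (top_le_iff.1 (hMW ▸ sup_le
      (norms_of_cents (cents_mono h3 le_rfl le_top)) le_normalizer))
    exact normalClosure_le_normal (Set.singleton_subset_iff.2 (by
      simpa [ey, mul_assoc] using this.conj_mem _ hy g))
  have h3 : 3 ≤ C[y].relIndex W := by
    by_contra! h
    have h4 : C[y].relIndex W = 2 := by
      have := relIndex_pos C[y] W
      have := mt relIndex_eq_one.1 hC
      omega
    obtain ⟨⟨j, e⟩, h5 | h5⟩ := idx hp (PiN.of_isPGroup hr (H1.isPGroup_of_isElementaryAbelian hab))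
      (nW ⊤ (mem_top y)) (by rw [ey, ← inv_inv g, inv_inv g⁻¹, conj_pow, hx]; simp)
    · exact h2 (((PiN.prime_pow hp j).eq_of_dvd Nat.prime_two (by rw [← h5, ← e, h4])).symm)
    · exact hp.one_lt.ne' (Nat.dvd_one.1 ((Nat.modEq_iff_dvd' one_le_two).1 (h4 ▸ h5).symm))
  have h4 : Nat.card {g // g⁻¹ * x * g ∈ M} ≤ Nat.card (↥(C[y] ⊓ W) × M) := by
    refine Nat.card_le_card_of_surjective (fun a => ⟨g * a.1 * a.2, ?_⟩) fun ⟨k, hk⟩ => ?_
    · have : (g * a.1 * a.2)⁻¹ * x * (g * a.1 * a.2) = a.2⁻¹ * ((a.1 : G)⁻¹ * (y * a.1)) * a.2 := by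
        simp [ey, mul_assoc]
      rw [this, ← mem_cent1.1 a.1.2.1, inv_mul_cancel_left]
      exact mul_mem (mul_mem (inv_mem a.2.2) hy) a.2.2
    · obtain ⟨w, hw, m, hm, e⟩ := (mem_sup_of_norm (nW M)).1 (hMW ▸ mem_top (g⁻¹ * k))
      obtain rfl : k = g * w * m := by rw [mul_assoc, ← e, mul_inv_cancel_left]
      refine ⟨⟨⟨w, ?_, hw⟩, ⟨m, hm⟩⟩, rfl⟩
      have h5 : y⁻¹ * w⁻¹ * y * w ∈ W ⊓ M := ⟨mul_mem (conj_mem_of_norm' (nW ⊤ (mem_top y))
        (inv_mem hw)) hw, by
          simpa [ey, mul_assoc] using mul_mem (inv_mem hy) (mul_mem (mul_mem hm hk) (inv_mem hm))⟩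
      rw [h1, mem_bot, mul_assoc, ← mul_inv_rev, inv_mul_eq_one] at h5
      exact mem_cent1.2 h5
  rw [← card_top (G := G), ← hMW, card_sup_of_disjoint (nW M) h1, ← card_inf_mul_relIndex C[y] W]
  rw [Nat.card_prod] at h4
  nlinarith [Nat.mul_le_mul_left (#(C[y] ⊓ W) * #M) h3]

variable [IsAlgClosed F] [FiniteDimensional F U]

open Classical in
theorem fix_le' [A.Normal] (hA : (#A : F) ≠ 0) (hab : Ab A) (hp : p.Prime) (hx : x ^ p = 1) :
    p * finrank F (Fx ρ x) ≤ ∑ l : A →* Fˣ, finrank F (ws ρ l) +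
      (p - 1) * ∑ l : A →* Fˣ, if x • l = l then finrank F (ws ρ l) else 0 := by
  rw [Finset.mul_sum, ← Finset.sum_add_distrib]
  refine (fix_le hA hab hp hx).trans (Finset.sum_le_sum fun l _ => ?_)
  split_ifs
  · rw [← one_add_mul, Nat.add_sub_cancel' hp.one_le]
    exact Nat.mul_le_mul_left _ (Submodule.finrank_mono inf_le_left)
  · simp

theorem ab_case [Nontrivial U] [A.Normal] [Group.IsSolvable G] (hA : (#A : F) ≠ 0) (hab : Ab A)
    (hp : p.Prime) (h5 : 5 ≤ p) (hx : x ^ p = 1) (hg : normalClosure {x} = ⊤)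
    (h : ∀ l : A →* Fˣ, ws ρ l ≠ ⊥ → stabilizer G l ≠ ⊤) :
    2 * finrank F (Fx ρ x) < finrank F U := by
  classical
  have h1 := fix_le' (ρ := ρ) hA hab hp hx
  have h2 := sum_finrank_le (ρ := ρ) hA
  set S := ∑ l : A →* Fˣ, if x • l = l then finrank F (ws ρ l) else 0 with hS
  have h3 : ∀ g : G, S = ∑ l : A →* Fˣ,
      if g⁻¹ * x * g ∈ stabilizer G l then finrank F (ws ρ l) else 0 := fun g => by
    rw [hS, ← Equiv.sum_comp (MulAction.toPerm g)]
    refine Finset.sum_congr rfl fun l _ => if_congr ?_ (finrank_ws_smul _ _) rfl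
    rw [mem_stabilizer_iff, mul_smul, mul_smul, inv_smul_eq_iff]; rfl
  have h4 : Nat.card G * (3 * S) ≤ Nat.card G * ∑ l : A →* Fˣ, finrank F (ws ρ l) := by
    rw [mul_left_comm, Nat.card_eq_fintype_card, ← smul_eq_mul (Fintype.card G), ← Finset.card_univ,
      ← Finset.sum_const, Finset.sum_congr rfl fun g _ => h3 g, Finset.sum_comm, Finset.mul_sum,
      Finset.mul_sum]
    refine Finset.sum_le_sum fun l _ => ?_
    by_cases e : ws ρ l = ⊥
    · rw [show finrank F (ws ρ l) = 0 from Submodule.finrank_eq_zero.2 e]; simp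
    rw [← Finset.sum_filter, Finset.sum_const, smul_eq_mul, ← mul_assoc, ← Fintype.card_subtype,
      Finset.card_univ, ← Nat.card_eq_fintype_card, ← Nat.card_eq_fintype_card]
    exact Nat.mul_le_mul_right _ (three_mul_le hp (by omega) hx hg (h l e))
  have h6 := (Nat.le_of_mul_le_mul_left h4 Nat.card_pos).trans h2
  have h7 := finrank_pos (R := F) (M := U)
  obtain ⟨q, rfl⟩ : ∃ q, p = q + 1 := ⟨p - 1, by omega⟩
  rw [Nat.add_sub_cancel] at h1
  by_contra! h8
  nlinarith [Nat.mul_le_mul_left q h6, Nat.mul_le_mul_left (q + 1) h8,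
    Nat.mul_le_mul_right (finrank F U) h5]

theorem symp_case [Nontrivial U] [N.Normal] [Z.Normal] (hN : (#N : F) ≠ 0) (hp : p.Prime)
    (hx : x ^ p = 1) (hZ : ∀ z ∈ Z, ∃ c : F, ρ z = c • 1) (hd : ⁅N, N⁆ ≤ Z)
    (hr : ∀ n ∈ N, (∀ m ∈ N, ρ (m * n * m⁻¹) = ρ n) → n ∈ Z)
    (hc : 4 * (p - 1) * #(N.map (QuotientGroup.mk' Z) ⊓ C[QuotientGroup.mk' Z x]) ≤
      (p - 4) * #(N.map (QuotientGroup.mk' Z))) :
    2 * finrank F (Fx ρ x) < finrank F U := by
  classical
  let π := QuotientGroup.mk' Z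
  let τ : G ⧸ Z →* End F (End F U) := QuotientGroup.lift Z (cr ρ) fun z hz => by
    obtain ⟨c, e⟩ := hZ z hz
    refine LinearMap.ext fun T => ?_
    rw [cr_app, ← mul_assoc, show ρ z * T = T * ρ z by simp [e], mul_assoc, ← map_mul]; simp
  have hτ : ∀ g n, τ (π g) (ρ n) = ρ (g * n * g⁻¹) := fun g n => by
    rw [map_mul, map_mul, mul_assoc]; rfl
  set W := N.map π
  haveI : W.Normal := Normal.map inferInstance _ (QuotientGroup.mk'_surjective Z)
  have hW : (#W : F) ≠ 0 := fun e => hN (by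
    obtain ⟨c, hc⟩ := card_map_dvd N π; rw [hc, Nat.cast_mul, e, zero_mul])
  have hab : Ab W := comm_iff_der.2 (by rwa [← map_commutator, H1.map_mk'_eq_bot_iff])
  have hu : ∀ g, IsUnit (ρ g) := fun g => (Group.isUnit g).map ρ
  have h1 : ∀ n ∈ N, ∃ l : W →* Fˣ, ρ n ∈ ws τ l := fun n hn => exists_ws (hu n).ne_zero <| by
    rintro ⟨_, m, hm, rfl⟩
    obtain ⟨c, e⟩ := hZ _ (hd (commutator_mem_commutator hm hn))
    exact ⟨c, by rw [hτ, show m * n * m⁻¹ = ⁅m, n⁆ * n by group, map_mul, e]; simp⟩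
  have h2 : ∀ l : W →* Fˣ, ∀ n ∈ N, ∀ n' ∈ N, ρ n ∈ ws τ l → ρ n' ∈ ws τ l → π n = π n' :=
    fun l n hn n' hn' h h' => QuotientGroup.eq.2 (hr _ (mul_mem (inv_mem hn) hn') fun m hm => by
      have a := (hτ m n).symm.trans (h ⟨_, m, hm, rfl⟩)
      have b := (hτ m n').symm.trans (h' ⟨_, m, hm, rfl⟩)
      refine (hu (m * n * m⁻¹)).mul_left_cancel ?_
      rw [← map_mul, show _ * (m * _ * m⁻¹) = m * n' * m⁻¹ by group, a, b, smul_mul_assoc, ← map_mul,
        mul_inv_cancel_left])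
  choose n hn e using fun w : W => w.2
  choose φ hφ using fun w => h1 _ (hn w)
  have h3 : Function.Bijective φ := (Nat.bijective_iff_injective_and_card φ).2
    ⟨fun a b h => Subtype.ext (by
      rw [← e, ← e]; exact h2 _ _ (hn a) _ (hn b) (hφ a) (h ▸ hφ b)), (card_wt hW hab).symm⟩
  have h4 : ∀ l m : W →* Fˣ, finrank F (ws τ l) ≤ finrank F (ws τ m) := fun l m => by
    obtain ⟨w, hw⟩ := h3.2 (m * l⁻¹)
    refine LinearMap.finrank_le_finrank_of_injective (f := (LinearMap.mulLeft F (ρ (n w))).restrict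
      (p := ws τ l) (q := ws τ m) fun T hT a => ?_) fun a b e =>
        Subtype.ext ((hu _).mul_left_cancel (congrArg Subtype.val e))
    have : τ a (ρ (n w) * T) = τ a (ρ (n w)) * τ a T := by
      obtain ⟨_, g, -, rfl⟩ := a
      change cr ρ g _ = cr ρ g _ * cr ρ g _
      simp only [cr_app, mul_assoc]
      rw [← mul_assoc (ρ g⁻¹), ← map_mul, inv_mul_cancel, map_one, one_mul]
    rw [LinearMap.mulLeft_apply, this, hφ w a, hT a, smul_mul_smul_comm, hw]
    simp
  have h5 := fix_le' (ρ := τ) hW hab hp (x := π x) (by rw [← map_pow, hx, map_one])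
  have h6 := sum_finrank_le (ρ := τ) hW
  simp only [fun l => le_antisymm (h4 l 1) (h4 1 l)] at h5 h6
  rw [← Finset.sum_filter] at h5
  simp only [Finset.sum_const, smul_eq_mul, Finset.card_univ, ← Nat.card_eq_fintype_card,
    card_wt hW hab, finrank_linearMap] at h5 h6
  have h7 : (Finset.univ.filter fun l : W →* Fˣ => π x • l = l).card ≤ #(W ⊓ C[π x]) := by
    rw [← Fintype.card_subtype, ← Nat.card_eq_fintype_card]
    choose ψ hψ using h3.2
    refine Nat.card_le_card_of_injective (fun l => ⟨ψ l.1, (ψ l.1).2, ?_⟩) fun a b h =>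
      Subtype.ext (by rw [← hψ a.1, ← hψ b.1, show ψ a.1 = ψ b.1 from Subtype.ext (congrArg Subtype.val h :)])
    have := ws_map (π x) (hφ (ψ l.1))
    rw [hτ, hψ, l.2] at this
    have := h2 _ _ (‹N.Normal›.conj_mem _ (hn _) x) _ (hn _) this (hψ l.1 ▸ hφ _)
    rw [map_mul, map_mul, map_inv, mul_inv_eq_iff_eq_mul, e] at this
    exact mem_cent1.2 this.symm
  by_contra! h8
  have h9 : finrank F (Fx ρ x) ^ 2 < finrank F (Fx τ (π x)) := sq_lt fun h => by
    rw [show W ⊓ C[π x] = W from inf_eq_left.2 ?_] at hc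
    · have := Nat.le_of_mul_le_mul_right hc (card_pos _)
      have := hp.two_le
      omega
    · rintro _ ⟨y, hy, rfl⟩
      have := hr (y⁻¹ * (x * y * x⁻¹)) (mul_mem (inv_mem hy) (‹N.Normal›.conj_mem _ hy x)) fun m _ => by
        have : ρ x⁻¹ = 1 := ρ.ker.inv_mem h
        have e : ρ (y⁻¹ * (x * y * x⁻¹)) = 1 := by
          rw [map_mul, map_mul, map_mul, h, this, one_mul, mul_one, ← map_mul]; simp
        rw [map_mul, map_mul, e, mul_one, ← map_mul]; simp
      rw [← QuotientGroup.eq, eq_comm] at this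
      exact mem_cent1.2 (mul_inv_eq_iff_eq_mul.1 this).symm
  have h10 : 4 ≤ p := by
    by_contra! h
    rw [Nat.sub_eq_zero_of_le h.le, zero_mul] at hc
    exact (Nat.mul_pos (Nat.mul_pos four_pos (Nat.sub_pos_of_lt hp.one_lt)) (card_pos _)).not_ge hc
  obtain ⟨q, rfl⟩ : ∃ q, p = q + 4 := ⟨p - 4, by omega⟩
  rw [show q + 4 - 1 = q + 3 from rfl] at h5 hc
  rw [Nat.add_sub_cancel] at hc
  nlinarith [Nat.mul_le_mul h8 h8, Nat.mul_le_mul_left (q + 4) h9,
    Nat.mul_le_mul_left (q + 4) (h6.trans (Nat.mul_le_mul h8 h8)),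
    Nat.mul_le_mul_right (finrank F (ws τ (1 : W →* Fˣ))) (show 4 * (q + 3) * #(W ⊓ C[π x]) ≤ q * #W from hc),
    Nat.mul_le_mul_right ((q + 3) * finrank F (ws τ (1 : W →* Fˣ))) h7]

end H23.FH
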