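import Cfsg.Agent.H23.FixHalf2
import Cfsg.Agent.H9.Qd
import Cfsg.Agent.H10.HH4
import Cfsg.Agent.H17.PermMod

/-!
# Flavell's bound: an element of prime order `p > 3` whose conjugates generate a solvable group
fixes less than half of a faithful irreducible module
-/

open Subgroup Module MulAction H18
open H19 hiding eq_bot_mono
open scoped commutatorElement

namespace H23.FH

attribute [local instance] wact Fintype.ofFinite

variable {F : Type*} [Field F] {G : Type*} [Group G] {U : Type*} [AddCommGroup U] [Module F U]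
  {ρ : G →* End F U} {A N Z H W : Subgroup G} {p r : ℕ} {x g : G} [Finite G]

theorem cent_of_quad [hs : Group.IsSolvable G] [W.Normal] (hp : p.Prime) (h5 : 5 ≤ p)
    (hW : PG r W) (hmin : ∀ K : Subgroup G, K.Normal → K ≤ W → K = ⊥ ∨ K = W) (hx : x ^ p = 1)
    (hq : ⁅W, zpowers x⁆ ≤ C[x]) : W ≤ C[x] := by
  haveI := Fact.mk hp
  rw [← cent_zpowers] at hq ⊢
  by_cases e : r = p
  swap
  · exact cents_symm (cents_of_commg_le_cent le_normalizer_of_normal
      ((hW.sing_ne e).coprime' (pg_zp hp hx)) hq)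
  subst e
  rcases eq_or_ne W ⊥ with rfl | h0
  · exact bot_le
  obtain ⟨S, hS⟩ := H28.exists_isSylowIn r (⊤ : Subgroup G)
  obtain ⟨L, h1, -, h2, h3⟩ := (H9.stabAt_of_not_involves_qd (H := ⊤) (by omega)
    (H9.not_involves_qd_of_isPSolvable h5 (H1.isPSolvable_of_isSolvable inferInstance)) hW.isPGroup
    le_normalizer_of_normal le_top (commg_eq_bot.2 hq)).exists_le_sup hS le_normalizer_of_normal
  haveI : L.Normal := normalizer_eq_top_iff.1 (top_le_iff.1 h2)
  refine le_trans (ge_of_eq ((hmin (W ⊓ C(L)) inferInstance inf_le_left).resolve_left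
    (ne_bot_mono ?_ (hW.meet_cent (PiN.of_isPGroup hp hS.isPGroup) le_normalizer_of_normal h0))))
    (inf_le_right.trans (cent_mono h1))
  exact le_inf inf_le_left ((cents_sup (inf_le_left.trans (cents_symm le_rfl))
    inf_le_right).trans (cent_mono h3))

theorem arith {n j : ℕ} (hp : p.Prime) (h5 : 5 ≤ p) (hr : r.Prime) (e : n = r ^ (j + 2))
    (h : r = p ∨ n ≡ 1 [MOD p]) : 4 * (p - 1) ≤ (p - 4) * n := by
  have h1 : r * r ∣ n := ⟨r ^ j, by rw [e]; ring⟩
  have h2 := Nat.le_of_dvd (e ▸ pow_pos hr.pos _) h1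
  have h3 := hr.two_le
  obtain ⟨q, rfl⟩ : ∃ q, p = q + 5 := ⟨p - 5, by omega⟩
  rw [show q + 5 - 1 = q + 4 from rfl, show q + 5 - 4 = q + 1 from rfl]
  rcases h with rfl | h
  · nlinarith
  have h4 := Nat.le_of_dvd (Nat.sub_pos_of_lt (by nlinarith))
    ((Nat.modEq_iff_dvd' (by nlinarith)).1 h.symm)
  have h6 : q + 6 ≤ n := by omega
  rcases q with - | - | q
  · by_contra! h7
    have : r < 4 := by nlinarith
    have : n = 6 ∨ n = 11 := by unfold Nat.ModEq at h; omega
    rcases this with rfl | rfl <;> interval_cases r <;> omega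
  · norm_num at hp
  · nlinarith

theorem symp_idx [Group.IsSolvable G] [N.Normal] [Z.Normal] (eZ : Z(N) = Z) (hp : p.Prime) (h5 : 5 ≤ p) (hx : x ^ p = 1)
    (hg : normalClosure {x} = ⊤) (hab : ¬ Ab N) (hmin : ∀ M, M.Normal → M < N → M ≤ C(⊤)) :
    4 * (p - 1) * #(N.map (QuotientGroup.mk' Z) ⊓ C[QuotientGroup.mk' Z x]) ≤
      (p - 4) * #(N.map (QuotientGroup.mk' Z)) := by
  set π := QuotientGroup.mk' Z
  have z1 : Z ≤ N := eZ ▸ inf_le_left
  have z2 : Z ≤ C(N) := eZ ▸ inf_le_right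
  have hs : Function.Surjective π := QuotientGroup.mk'_surjective _
  have hc : ∀ K : Subgroup G, (K.map π).comap π = K ⊔ Z := fun K => H1.comap_map_mk' _ _
  have hN : (N.map π).comap π = N := by rw [hc, sup_eq_left.2 z1]
  have hm : ∀ K : Subgroup (G ⧸ Z), K.Normal → K ≤ N.map π → K = ⊥ ∨ K = N.map π := fun K _ h =>
    ((comap_mono (f := π) h).trans hN.le).lt_or_eq.imp (fun h' => by
      rw [← map_comap_eq_self_of_surjective hs K, H1.map_mk'_eq_bot_iff]
      exact (le_inf h'.le ((hmin _ inferInstance h').trans (cent_mono le_top))).trans eZ.le)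
      fun h' => by rw [← map_comap_eq_self_of_surjective hs K, h']
  haveI : (N.map π).Normal := Normal.map inferInstance _ hs
  have h0 : N.map π ≠ ⊥ := fun e => hab (comm_iff_le_cent.2
    ((H1.map_mk'_eq_bot_iff.1 e).trans z2))
  obtain ⟨W, r, hr, h1, hW, h2, h3, -⟩ := H1.exists_minimal_normal_elementary_le _ h0 inferInstance
  obtain rfl := (hm W hW h1).resolve_left h2
  have h4 := PiN.of_isPGroup hr (H1.isPGroup_of_isElementaryAbelian h3)
  have hx' : π x ^ p = 1 := by rw [← map_pow, hx, map_one]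
  have h6 : ¬ N.map π ≤ C[π x] := fun h => by
    have h7 : N.map π ≤ C(⊤) := cents_symm (by
      rw [← map_top_of_surjective _ hs, ← hg, map_normalClosure _ _ hs, Set.image_singleton]
      exact normalClosure_le_normal (Set.singleton_subset_iff.2 (le_cent1_iff.1 h)))
    obtain ⟨_, ⟨n, hn, rfl⟩, h8⟩ := exists_ne_one h0
    have h9 : zpowers (π n) ≤ N.map π := zpowers_le.2 (mem_map_of_mem _ hn)
    have := (hm _ (normalizer_eq_top_iff.1 (top_le_iff.1 (norms_of_cents (cents_symm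
      (h9.trans h7))))) h9).resolve_left (zpowers_ne_bot.2 h8)
    rw [← hN, ← this, ← MonoidHom.map_zpowers, hc] at hab
    exact hab (comm_sup (comm_zpowers _) (eZ ▸ comm_center _) (cents_symm
      (z2.trans (cent_mono (zpowers_le.2 hn)))))
  obtain ⟨⟨j, e⟩, h7⟩ := idx hp h4 (le_normalizer_of_normal (mem_top (π x))) hx'
  rw [← card_inf_mul_relIndex C[π x] (N.map π), inf_comm (N.map π), mul_left_comm (p - 4), mul_comm]
  refine Nat.mul_le_mul_left _ ?_
  rcases j with - | - | j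
  · exact (h6 (relIndex_eq_one.1 e)).elim
  swap
  · exact arith hp h5 hr e h7
  refine (h6 (cent_of_quad hp h5 h4 hm hx' ?_)).elim
  have hd : ⁅N, N⁆ ≤ C(⊤) := hmin _ inferInstance (sol_der_lt inferInstance fun e =>
    hab (e ▸ comm_bot))
  have h8 : ⁅N, zpowers x⁆ ≤ C((C[π x] ⊓ N.map π).comap π) := by
    refine commg_eq_bot.1 (three_subgroup (commg_eq_bot.2 (le_trans ?_ z2))
      (commg_eq_bot.2 ((commutator_mono ?_ le_rfl).trans (hd.trans (cent_mono le_top)))))
    · rw [← H1.map_mk'_eq_bot_iff, map_commutator, map_comap_eq_self_of_surjective hs,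
        MonoidHom.map_zpowers, commg_eq_bot]
      exact cents_symm (cent_zpowers (π x) ▸ inf_le_left)
    · exact (comap_mono inf_le_right).trans hN.le
  rw [← MonoidHom.map_zpowers, ← map_commutator]
  rintro _ ⟨u, hu, rfl⟩
  have h9 : u ∈ N := commutator_le_left _ _ hu
  rcases eq_of_prime_index (le_sup_left (b := zpowers (π u))) (sup_le inf_le_right (zpowers_le.2
    (mem_map_of_mem _ h9))) (by rw [inf_relIndex_right, e, zero_add, pow_one]; exact hr) with h | h
  · exact (h.le (mem_sup_right (mem_zpowers _))).1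
  have : u ∈ Z := eZ.le ⟨h9, le_cent1_iff.1 (by
    rw [← hN, ← h, ← map_comap_eq_self_of_surjective hs (_ ⊓ _), ← MonoidHom.map_zpowers,
      ← Subgroup.map_sup, hc]
    exact sup_le (sup_le (le_cent1_iff.2 (h8 hu)) (zpowers_le.2 (mem_cent1_self u)))
      (z2.trans (cent_le_cent1 h9)))⟩
  rw [show π u = 1 from (QuotientGroup.eq_one_iff u).2 this]
  exact one_mem _

variable [FiniteDimensional F U] [Nontrivial U] [Group.IsSolvable G]

theorem half_closed [IsAlgClosed F] [N.Normal] (hp : p.Prime) (h5 : 5 ≤ p) (hx : x ^ p = 1)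
    (hg : normalClosure {x} = ⊤) (hN : (#N : F) ≠ 0) (h0 : ¬ N ≤ C(⊤))
    (hmin : ∀ M, M.Normal → M < N → M ≤ C(⊤))
    (hf : ∀ M, M.Normal → M ≤ N → M ≠ ⊥ → fix ρ M = ⊥) : 2 * finrank F (Fx ρ x) < finrank F U := by
  classical
  by_cases hab : Ab N
  · refine ab_case hN hab hp h5 hx hg fun l h e => h (eq_bot_iff.2 ?_)
    rw [← hf ⁅⊤, N⁆ inferInstance (commutator_le_right _ _) fun e =>
      h0 (cents_symm (commg_eq_bot.1 e)), le_fix_iff, commutator_le]
    intro g _ n hn v hv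
    have := DFunLike.congr_fun (show g⁻¹ • l = l from (e ▸ mem_top _ : g⁻¹ ∈ stabilizer G l)) ⟨n, hn⟩
    rw [smul_app, inv_inv] at this
    rw [commutatorElement_def, rho_mul_apply, hv ⟨n⁻¹, inv_mem hn⟩, map_smul,
      show ρ (g * n * g⁻¹) v = _ from hv (MulAut.conjNormal g ⟨n, hn⟩), this, smul_smul,
      ← Units.val_mul, ← map_mul]
    simp [show (⟨n⁻¹, inv_mem hn⟩ : N) = ⟨n, hn⟩⁻¹ from rfl]
  have hZ : Z(N) ≤ C(⊤) := hmin _ inferInstance (inf_lt_left.2 (mt comm_iff_le_cent.2 hab))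
  have hd : ⁅N, N⁆ ≤ C(⊤) := hmin _ inferInstance (sol_der_lt inferInstance fun e =>
    hab (e ▸ comm_bot))
  have hZ' := cast_card_ne_zero_of_le hN (A := Z(N)) inf_le_left
  have h1 : ∀ (g : G) (l : ↥Z(N) →* Fˣ), g • l = l := fun g l => MonoidHom.ext fun a =>
    congrArg l (Subtype.ext (by simp [mul_assoc, ← mem_cent.1 (hZ a.2) g trivial]))
  have h2 : ∀ l : ↥Z(N) →* Fˣ, ws ρ l ≠ ⊥ →
      2 * finrank F (ws ρ l ⊓ Fx ρ x : Submodule F U) < finrank F (ws ρ l) := fun l hl => by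
    haveI := Submodule.nontrivial_iff_ne_bot.2 hl
    let σ : G →* End F (ws ρ l) :=
      Representation.subrepresentation ρ _ fun g v hv => h1 g l ▸ ws_map g hv
    have hσ : ∀ g v, (σ g v : U) = ρ g v := fun _ _ => rfl
    have := symp_case (ρ := σ) hN hp hx (fun z hz => ⟨l ⟨z, hz⟩, LinearMap.ext fun v =>
      Subtype.ext (v.2 ⟨z, hz⟩)⟩) (le_inf (der_le _) (hd.trans (cent_mono le_top)))
      (fun n hn h => ⟨hn, mem_cent.2 fun m hm => ?_⟩) (symp_idx rfl hp h5 hx hg hab hmin)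
    · rwa [← Submodule.finrank_map_subtype_eq, show Fx σ x = (Fx ρ x).comap (ws ρ l).subtype from
        Submodule.ext fun v => by simp only [mem_Fx, Submodule.mem_comap, Subtype.ext_iff]; rfl,
        Submodule.map_comap_subtype] at this
    have h3 : zpowers ⁅m, n⁆ ≤ ⁅N, N⁆ := zpowers_le.2 (commutator_mem_commutator hm hn)
    by_contra h4
    refine hl (eq_bot_iff.2 ?_)
    rw [← hf _ (normalizer_eq_top_iff.1 (top_le_iff.1 (norms_of_cents (cents_symm
      (h3.trans hd))))) (h3.trans (der_le _)) (zpowers_ne_bot.2 (mt commutatorElement_eq_one_iff_mul_comm.1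
      h4)), le_fix_iff, zpowers_le]
    intro v hv
    rw [← hσ _ ⟨v, hv⟩, commutatorElement_def, map_mul, h m hm, ← map_mul, mul_inv_cancel, map_one]
    rfl
  have h3 := fix_le (ρ := ρ) hZ' (comm_center N) hp hx
  simp only [h1, if_true, ← Finset.mul_sum] at h3
  refine ((Nat.mul_le_mul_left 2 (Nat.le_of_mul_le_mul_left h3 hp.pos)).trans_lt ?_).trans_le
    (sum_finrank_le (ρ := ρ) hZ')
  obtain ⟨v, hv⟩ := exists_ne (0 : U)
  obtain ⟨l, -, hl⟩ := Finset.exists_ne_zero_of_sum_ne_zero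
    ((sum_pj (ρ := ρ) hZ' (comm_center N) v).trans_ne hv)
  rw [Finset.mul_sum]
  refine Finset.sum_lt_sum (fun l _ => ?_) ⟨l, Finset.mem_univ _, h2 l
    ((Submodule.ne_bot_iff _).2 ⟨_, pj_mem l v, hl⟩)⟩
  rcases eq_or_ne (ws ρ l) ⊥ with e | e
  · rw [e, bot_inf_eq, finrank_bot, mul_zero]
  · exact (h2 l e).le

open H10.HH in
theorem half {ℓ : ℕ} [hl : Fact ℓ.Prime] [CharP F ℓ] (hp : p.Prime) (h5 : 5 ≤ p) (hx : x ^ p = 1)
    (hg : normalClosure {x} = ⊤) (h1 : x ≠ 1) (hf : ∀ M : Subgroup G, M.Normal → M ≠ ⊥ → fix ρ M = ⊥) :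
    2 * finrank F (Fx ρ x) < finrank F U := by
  by_cases h0 : (⊤ : Subgroup G) ≤ C(⊤)
  · have := hf (zpowers x) (normalizer_eq_top_iff.1 (top_le_iff.1 (norms_of_cents
      (cents_mono h0 le_rfl le_top)))) (zpowers_ne_bot.2 h1)
    rw [show Fx ρ x = ⊥ from eq_bot_iff.2 (this ▸ le_fix_iff.2 (zpowers_le.2 fun _ => mem_Fx.1)),
      finrank_bot]
    exact finrank_pos
  obtain ⟨N, ⟨_, h2⟩, h3⟩ := WellFounded.has_min wellFounded_lt
    {N : Subgroup G | N.Normal ∧ ¬ N ≤ C(⊤)} ⟨⊤, inferInstance, h0⟩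
  have hmin : ∀ M, M.Normal → M < N → M ≤ C(⊤) := fun M h h' => by_contra fun e => h3 M ⟨h, e⟩ h'
  have hN : (#N : F) ≠ 0 := fun e => by
    have hn : Nil N := by
      rcases eq_or_ne N ⊥ with rfl | h
      · exact nil_bot
      · exact (isNilpotent_iff_lowerCentralSeries _).2 ⟨2, commg_eq_bot.2
          ((hmin _ inferInstance (sol_der_lt inferInstance h)).trans (cent_mono le_top))⟩
    have := (nil_Oc_hall hn {ℓ}).sne_bot hl.out ((CharP.cast_eq_zero_iff F ℓ _).1 e)
    obtain ⟨v, -, hv, h⟩ := H17.exists_fixed_vec ρ _ (Oc_pi {ℓ} N).isPGroup ⊤ (fun _ _ _ _ => trivial)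
      top_ne_bot
    exact hv ((Submodule.mem_bot F).1 (hf _ (normalIn_top.Oc _).normal this ▸ mem_fix.2 h))
  haveI : Nontrivial (TensorProduct F (AlgebraicClosure F) U) :=
    nontrivial_of_finrank_pos (by rw [finrank_baseChange]; exact finrank_pos)
  have := half_closed (ρ := bc ρ) hp h5 hx hg (bc_cast hN) h2 hmin fun M h hM h' => ?_
  · have e1 := (bc ρ x - 1).finrank_range_add_finrank_ker
    have e2 := (ρ x - 1).finrank_range_add_finrank_ker
    rw [show bc ρ x - 1 = (ρ x - 1).baseChange _ by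
      rw [LinearMap.baseChange_sub, LinearMap.baseChange_one]; rfl, finrank_range_baseChange] at e1
    rw [finrank_baseChange] at this e1
    rw [show Fx (bc ρ) x = LinearMap.ker ((ρ x - 1).baseChange _) by
      rw [LinearMap.baseChange_sub, LinearMap.baseChange_one]; rfl] at this
    unfold Fx
    omega
  have hA := cast_card_ne_zero_of_le hN hM
  have e : avg (bc ρ) M = bcE F U (avg ρ M) := by
    simp only [avg, pr, one_smul, map_smul, map_sum]
    conv_rhs => rw [← algebraMap_smul (AlgebraicClosure F), map_inv₀, map_natCast]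
    rfl
  have e' : avg ρ M = 0 := LinearMap.ext fun v => (Submodule.mem_bot F).1 (hf M h h' ▸ avg_mem_fix v)
  refine eq_bot_iff.2 fun v hv => ?_
  rw [← avg_of_fix (bc_cast hA) hv, e, e', map_zero]
  exact zero_mem _

end H23.FH
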