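import Mathlib

/-! `2 × 2` matrices over a division ring of characteristic `0`: idempotents and normal forms. -/

set_option autoImplicit false
set_option linter.unusedSectionVars false

namespace H23.GD

variable {D : Type*} [DivisionRing D]

abbrev M (D : Type*) := Matrix (Fin 2) (Fin 2) D

/-- diagonal matrices -/
def dg (a b : D) : M D := !![a, 0; 0, b]
/-- antidiagonal matrices -/
def ad (a b : D) : M D := !![0, a; b, 0]

theorem M.ext' {A B : M D} (h1 : A 0 0 = B 0 0) (h2 : A 0 1 = B 0 1) (h3 : A 1 0 = B 1 0)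
    (h4 : A 1 1 = B 1 1) : A = B := by
  ext i j; fin_cases i <;> fin_cases j <;> assumption

theorem mul_ap (A B : M D) (i j : Fin 2) : (A * B) i j = A i 0 * B 0 j + A i 1 * B 1 j := by
  simp [Matrix.mul_apply, Fin.sum_univ_two]

@[simp] theorem dg_mul_dg (a b c d : D) : dg a b * dg c d = dg (a * c) (b * d) := by
  simp [dg]
@[simp] theorem dg_mul_ad (a b c d : D) : dg a b * ad c d = ad (a * c) (b * d) := by
  simp [dg, ad]
@[simp] theorem ad_mul_dg (a b c d : D) : ad a b * dg c d = ad (a * d) (b * c) := by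
  simp [dg, ad]
@[simp] theorem ad_mul_ad (a b c d : D) : ad a b * ad c d = dg (a * d) (b * c) := by
  simp [dg, ad]
@[simp] theorem dg_inj {a b c d : D} : dg a b = dg c d ↔ a = c ∧ b = d :=
  ⟨fun h => ⟨congrFun (congrFun h 0) 0, congrFun (congrFun h 1) 1⟩, fun ⟨h, k⟩ => h ▸ k ▸ rfl⟩
@[simp] theorem ad_inj {a b c d : D} : ad a b = ad c d ↔ a = c ∧ b = d :=
  ⟨fun h => ⟨congrFun (congrFun h 0) 1, congrFun (congrFun h 1) 0⟩, fun ⟨h, k⟩ => h ▸ k ▸ rfl⟩
theorem dg_one : dg (1 : D) 1 = 1 := Matrix.one_fin_two.symm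
theorem dg_zero : dg (0 : D) 0 = 0 := by ext i j; fin_cases i <;> fin_cases j <;> rfl
@[simp] theorem neg_dg (a b : D) : -dg a b = dg (-a) (-b) := by simp [dg]
@[simp] theorem neg_ad (a b : D) : -ad a b = ad (-a) (-b) := by simp [ad]
@[simp] theorem dg_add (a b c d : D) : dg a b + dg c d = dg (a + c) (b + d) := by simp [dg]
@[simp] theorem dg_sub (a b c d : D) : dg a b - dg c d = dg (a - c) (b - d) := by
  simp [sub_eq_add_neg]
@[simp] theorem dg_eq_one {a b : D} : dg a b = 1 ↔ a = 1 ∧ b = 1 := by rw [← dg_one, dg_inj]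
@[simp] theorem dg_eq_neg_one {a b : D} : dg a b = -1 ↔ a = -1 ∧ b = -1 := by
  rw [← dg_one, neg_dg, dg_inj]
@[simp] theorem dg_eq_zero {a b : D} : dg a b = 0 ↔ a = 0 ∧ b = 0 := by rw [← dg_zero, dg_inj]
theorem dg_eq_ad {a b c d : D} (h : dg a b = ad c d) : a = 0 := congrFun (congrFun h 0) 0
@[simp] theorem dg00 (a b : D) : dg a b 0 0 = a := rfl
@[simp] theorem dg11 (a b : D) : dg a b 1 1 = b := rfl
@[simp] theorem dg01 (a b : D) : dg a b 0 1 = 0 := rfl
@[simp] theorem dg10 (a b : D) : dg a b 1 0 = 0 := rfl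
@[simp] theorem ad00 (a b : D) : ad a b 0 0 = 0 := rfl
@[simp] theorem ad11 (a b : D) : ad a b 1 1 = 0 := rfl
@[simp] theorem ad01 (a b : D) : ad a b 0 1 = a := rfl
@[simp] theorem ad10 (a b : D) : ad a b 1 0 = b := rfl
theorem dg_pow (a b : D) (n : ℕ) : dg a b ^ n = dg (a ^ n) (b ^ n) := by
  induction n with
  | zero => simp [dg_one]
  | succ n h => simp [pow_succ, h]

theorem eq_dg {A : M D} (h1 : A 0 1 = 0) (h2 : A 1 0 = 0) : A = dg (A 0 0) (A 1 1) :=
  M.ext' rfl h1 h2 rfl
theorem eq_ad {A : M D} (h1 : A 0 0 = 0) (h2 : A 1 1 = 0) : A = ad (A 0 1) (A 1 0) :=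
  M.ext' h1 rfl rfl h2

theorem dg_of_comm {A : M D} (h : A * dg 1 0 = dg 1 0 * A) : A = dg (A 0 0) (A 1 1) := by
  have h1 := congrFun (congrFun h 0) 1
  have h2 := congrFun (congrFun h 1) 0
  simp [mul_ap] at h1 h2
  exact eq_dg h1.symm h2

theorem ad_of_comm {A : M D} (h : A * dg 1 0 = dg 0 1 * A) : A = ad (A 0 1) (A 1 0) := by
  have h1 := congrFun (congrFun h 0) 0
  have h2 := congrFun (congrFun h 1) 1
  simp [mul_ap] at h1 h2
  exact eq_ad h1 h2.symm

/-- conjugation by a unit -/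
def cjM (U : (M D)ˣ) : M D ≃+* M D where
  toFun a := U⁻¹.1 * a * U.1
  invFun a := U.1 * a * U⁻¹.1
  left_inv a := by simp [mul_assoc]
  right_inv a := by simp [mul_assoc]
  map_mul' a b := by simp [mul_assoc]
  map_add' a b := by simp [mul_add, add_mul]

theorem cjM_apply (U : (M D)ˣ) (a : M D) : cjM U a = U⁻¹.1 * a * U.1 := rfl

theorem exists_col {A : M D} (h : A ≠ 0) : ∃ j, ¬ (A 0 j = 0 ∧ A 1 j = 0) := by
  by_contra! k
  exact h (M.ext' (k 0).1 (k 1).1 (k 0).2 (k 1).2)

/-- a proper idempotent is conjugate to `E₁₁` -/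
theorem idem_conj {e : M D} (he : e * e = e) (h0 : e ≠ 0) (h1 : e ≠ 1) :
    ∃ U : (M D)ˣ, cjM U e = dg 1 0 := by
  obtain ⟨j, hj⟩ := exists_col h0
  obtain ⟨k, hk⟩ := exists_col (sub_ne_zero.2 h1.symm)
  have hf : e * (1 - e) = 0 := by rw [mul_sub, mul_one, he, sub_self]
  let P : M D := !![e 0 j, (1 - e) 0 k; e 1 j, (1 - e) 1 k]
  have a1 : ∀ i, e i 0 * e 0 j + e i 1 * e 1 j = e i j := fun i => by rw [← mul_ap, he]
  have a2 : ∀ i, e i 0 * (1 - e) 0 k + e i 1 * (1 - e) 1 k = 0 := fun i => by rw [← mul_ap, hf]; rfl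
  have hP : e * P = P * dg 1 0 := by
    refine M.ext' ?_ ?_ ?_ ?_ <;> simp only [mul_ap, P] <;> simp [a1] <;> simpa using a2 _
  have hu : IsUnit P := by
    refine IsArtinianRing.isUnit_iff_isLeftRegular.2 (isLeftRegular_of_non_zero_divisor P fun X hX => ?_)
    have b : P * (dg 1 0 * X) = 0 := by rw [← mul_assoc, ← hP, mul_assoc, hX, mul_zero]
    have c : ∀ l, X 0 l = 0 := fun l => by
      have b0 := congrFun (congrFun b 0) l
      have b1 := congrFun (congrFun b 1) l
      simp [mul_ap, P] at b0 b1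
      tauto
    have d : ∀ l, X 1 l = 0 := fun l => by
      have b0 := congrFun (congrFun hX 0) l
      have b1 := congrFun (congrFun hX 1) l
      simp only [mul_ap, c, mul_zero, zero_add, Matrix.zero_apply, mul_eq_zero] at b0 b1
      by_contra n
      exact hk ⟨b0.resolve_right n, b1.resolve_right n⟩
    exact M.ext' (c 0) (c 1) (d 0) (d 1)
  obtain ⟨U, hU⟩ := hu
  exact ⟨U, by rw [cjM_apply, mul_assoc, hU, hP, ← hU, ← mul_assoc]; simp⟩

theorem idem_cases {a : D} (h : a * a = a) : a = 0 ∨ a = 1 := by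
  rcases eq_or_ne a 0 with k | k
  · exact .inl k
  · exact .inr (mul_left_cancel₀ k (h.trans (mul_one a).symm))

/-- proper idempotents -/
structure PI (e : M D) : Prop where
  idem : e * e = e
  ne0 : e ≠ 0
  ne1 : e ≠ 1

theorem PI.conj {e : M D} (h : PI e) : ∃ U : (M D)ˣ, cjM U e = dg 1 0 := idem_conj h.1 h.2 h.3

theorem PI.compl {e : M D} (h : PI e) : PI (1 - e) :=
  ⟨by rw [mul_sub, sub_mul, sub_mul, h.1]; simp, sub_ne_zero.2 h.3.symm, fun k => h.2 (by simpa using k)⟩

theorem PI.map {e : M D} (h : PI e) (φ : M D ≃+* M D) : PI (φ e) :=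
  ⟨by rw [← map_mul, h.1], by simpa using h.2, fun k => h.3 (φ.injective (k.trans (map_one φ).symm))⟩

theorem pi_dg : PI (dg (1 : D) 0) := ⟨by simp, by simp, by simp⟩

theorem PI.comm {e f : M D} (he : PI e) (hf : PI f) (h : f * e = e * f) : f = e ∨ f = 1 - e := by
  obtain ⟨U, hU⟩ := he.conj
  have hf' := hf.map (cjM U)
  have := dg_of_comm (A := cjM U f) (by rw [← hU, ← map_mul, ← map_mul, h])
  rw [this] at hf'
  have i := hf'.1
  simp only [dg_mul_dg, dg_inj] at i
  rcases idem_cases i.1 with a | a <;> rcases idem_cases i.2 with b | b <;> rw [a, b] at this hf'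
  · exact absurd dg_zero hf'.2
  · exact .inr ((cjM U).injective (by rw [this, map_sub, map_one, hU, ← dg_one]; simp))
  · exact .inl ((cjM U).injective (by rw [this, hU]))
  · exact absurd dg_one hf'.3

theorem sq_one {a : D} (h : a * a = 1) : a = 1 ∨ a = -1 := mul_self_eq_one_iff.1 h

theorem eq_of_sq {a b : D} (h : a * a = b * b) (c : a * b = b * a) : a = b ∨ a = -b := by
  have : (a - b) * (a + b) = 0 := by rw [sub_mul, mul_add, mul_add, h, c]; abel
  rcases mul_eq_zero.1 this with k | k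
  exacts [.inl (sub_eq_zero.1 k), .inr (eq_neg_of_add_eq_zero_left k)]

variable [CharZero D]

theorem ne_neg {a : D} (h : a ≠ 0) : a ≠ -a := fun k => h (by
  have : (2 : D) * a = 0 := by rw [two_mul]; exact add_eq_zero_iff_eq_neg.2 k
  simpa using this)

theorem one_ne_neg : (1 : D) ≠ -1 := ne_neg one_ne_zero

theorem M.one_ne_neg : (1 : M D) ≠ -1 := fun h => GD.one_ne_neg (D := D) (by
  simpa using congrFun (congrFun h 0) 0)

/-- `Q₈ × ℤ₃` is not a subgroup of a division ring -/
theorem q8_three {I J w : D} (hI : I * I = -1) (hJ : J * J = -1) (h : I * J = -(J * I))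
    (h1 : w * I = I * w) (h2 : w * J = J * w) (h3 : w * w * w = 1) : w = 1 := by
  by_contra n
  have a : w * w + w + 1 = 0 := by
    have : (w - 1) * (w * w + w + 1) = 0 := by
      have : (w - 1) * (w * w + w + 1) = w * w * w - 1 := by noncomm_ring
      rw [this, h3, sub_self]
    exact (mul_eq_zero.1 this).resolve_left (sub_ne_zero.2 n)
  have c1 : Commute w I := h1
  have c2 : Commute w J := h2
  have b : (w * I + w * w * J) * (w * I + w * w * J) = 1 := by
    have e1 : w * I * (w * I) = w * w * (I * I) := (c1.symm.mul_mul_mul_comm w I)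
    have e2 : w * I * (w * w * J) = w * (w * w) * (I * J) := ((c1.mul_left c1).symm.mul_mul_mul_comm w J)
    have e3 : w * w * J * (w * I) = w * w * w * (J * I) := (c2.symm.mul_mul_mul_comm (w * w) I)
    have e4 : w * w * J * (w * w * J) = w * w * (w * w) * (J * J) :=
      ((c2.mul_left c2).symm.mul_mul_mul_comm (w * w) J)
    rw [add_mul, mul_add, mul_add, e1, e2, e3, e4, hI, hJ, h, ← mul_assoc w w w, ← mul_assoc (w * w) w w, h3]
    rw [eq_neg_of_add_eq_zero_left a |> fun k => show w * w = -1 - w from by rw [← k]; abel]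
    noncomm_ring
  have c : I * (w * I + w * w * J) = (w * I + w * w * J) * I := by
    rcases sq_one b with k | k <;> simp [k]
  have w0 : w ≠ 0 := by rintro rfl; simp at h3
  have d : w * w * (I * J) = w * w * (J * I) := by
    have e1 : I * (w * I) = w * I * I := by rw [← mul_assoc, ← h1]
    have e2 : I * (w * w * J) = w * w * (I * J) := by
      rw [← mul_assoc, ← (c1.mul_left c1).eq, mul_assoc]
    rw [mul_add, add_mul, e1, e2, mul_assoc (w * w)] at c
    exact add_left_cancel c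
  have := mul_left_cancel₀ (mul_ne_zero w0 w0) d
  rw [this] at h
  refine ne_neg (mul_ne_zero ?_ ?_) h <;> rintro rfl <;> simp at hI hJ

theorem half_mul (A : M D) : (2⁻¹ : ℚ) • (A + A) = A := by
  rw [← two_smul ℚ, smul_smul]; norm_num

/-- the idempotent attached to an involution -/
noncomputable def pj (t : M D) : M D := (2⁻¹ : ℚ) • (1 + t)

theorem pj_two (t : M D) : pj t + pj t = 1 + t := by rw [pj, ← smul_add, half_mul]

theorem pi_pj {t : M D} (h : t * t = 1) (h1 : t ≠ 1) (h2 : t ≠ -1) : PI (pj t) := by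
  refine ⟨?_, fun k => h2 ?_, fun k => h1 ?_⟩
  · have : (1 + t) * (1 + t) = (1 + t) + (1 + t) := by rw [mul_add, add_mul, add_mul, h]; simp [add_comm]
    rw [pj, smul_mul_smul_comm, this, ← smul_smul, half_mul]
  · have := pj_two t
    rw [k, add_zero] at this
    exact eq_neg_of_add_eq_zero_right this.symm
  · have := pj_two t
    rw [k] at this
    exact (add_left_cancel this).symm

theorem refl_conj {t : M D} (h : t * t = 1) (h1 : t ≠ 1) (h2 : t ≠ -1) :
    ∃ U : (M D)ˣ, cjM U t = dg 1 (-1) := by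
  obtain ⟨U, hU⟩ := (pi_pj h h1 h2).conj
  refine ⟨U, ?_⟩
  have := congrArg (cjM U) (pj_two t)
  rw [map_add, hU, map_add, map_one] at this
  rw [← sub_eq_iff_eq_add'.2 this, ← dg_one]; simp

theorem dg_of_comm' {A : M D} (h : A * dg 1 (-1) = dg 1 (-1) * A) : A = dg (A 0 0) (A 1 1) := by
  have h1 := congrFun (congrFun h 0) 1
  have h2 := congrFun (congrFun h 1) 0
  simp [mul_ap] at h1 h2
  refine eq_dg ?_ ?_ <;> by_contra k
  exacts [ne_neg k h1.symm, ne_neg k h2]

theorem ad_of_anti {A : M D} (h : A * dg 1 (-1) = -(dg 1 (-1) * A)) : A = ad (A 0 1) (A 1 0) := by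
  have h1 := congrFun (congrFun h 0) 0
  have h2 := congrFun (congrFun h 1) 1
  simp [mul_ap] at h1 h2
  refine eq_ad ?_ ?_ <;> by_contra k
  exacts [ne_neg k h1, ne_neg k h2.symm]

/-- commuting reflections -/
theorem refl_comm {t r : M D} (h : t * t = 1) (h1 : t ≠ 1) (h2 : t ≠ -1) (k : r * r = 1)
    (c : r * t = t * r) : r = 1 ∨ r = -1 ∨ r = t ∨ r = -t := by
  obtain ⟨U, hU⟩ := refl_conj h h1 h2
  have := dg_of_comm' (A := cjM U r) (by rw [← hU, ← map_mul, ← map_mul, c])
  have i := congrArg (cjM U) k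
  rw [map_mul, map_one, this, dg_mul_dg, dg_eq_one] at i
  rcases sq_one i.1 with a | a <;> rcases sq_one i.2 with b | b <;> rw [a, b] at this
  · exact .inl ((cjM U).injective (by rw [this, map_one, dg_one]))
  · exact .inr (.inr (.inl ((cjM U).injective (by rw [this, hU]))))
  · exact .inr (.inr (.inr ((cjM U).injective (by rw [this, map_neg, hU]; simp))))
  · exact .inr (.inl ((cjM U).injective (by rw [this, map_neg, map_one]; simp)))

/-- normal form of two anticommuting reflections -/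
theorem pair_conj {t s : M D} (h : t * t = 1) (k : s * s = 1) (c : s * t = -(t * s)) :
    ∃ U : (M D)ˣ, cjM U t = dg 1 (-1) ∧ cjM U s = ad 1 1 := by
  have s0 : s ≠ -s := fun e => M.one_ne_neg (D := D) (by
    conv_lhs => rw [← k]
    conv_lhs => enter [1]; rw [e]
    rw [neg_mul, k])
  obtain ⟨U, hU⟩ := refl_conj h (by rintro rfl; exact s0 (by simpa using c))
    (by rintro rfl; exact s0 (by simpa using c.symm))
  have := ad_of_anti (A := cjM U s) (by rw [← hU, ← map_mul, ← map_mul, c, map_neg])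
  have i := congrArg (cjM U) k
  rw [map_mul, map_one, this, ad_mul_ad, dg_eq_one] at i
  set a := cjM U s 0 1
  set b := cjM U s 1 0
  let V : (M D)ˣ := ⟨dg 1 b, dg 1 a, by simp [i.2], by simp [i.1]⟩
  have e : ∀ x, cjM (U * V) x = dg 1 a * cjM U x * dg 1 b := fun x => by
    simp only [cjM_apply, mul_inv_rev, Units.val_mul, mul_assoc]; rfl
  exact ⟨U * V, by rw [e, hU]; simp [i.1], by rw [e, this]; simp [i.1]⟩

end H23.GD
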