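import Cfsg.Agent.H23.GD1

/-! Averaging idempotents and rational traces for finite subgroups of `GL₂(D)`. -/

set_option autoImplicit false
set_option linter.unusedSectionVars false

namespace H23.GD
open Finset
open scoped TensorProduct

section tr
variable {R : Type*} [Ring R] [Algebra ℚ R] [Module.Finite ℚ R]

/-- the trace of the left regular representation -/
noncomputable def tr (R : Type*) [Ring R] [Algebra ℚ R] : R →ₗ[ℚ] ℚ :=
  LinearMap.trace ℚ R ∘ₗ (Algebra.lmul ℚ R).toLinearMap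

theorem tr_apply (a : R) : tr R a = LinearMap.trace ℚ R (Algebra.lmul ℚ R a) := rfl

theorem tr_comm (a b : R) : tr R (a * b) = tr R (b * a) := by
  rw [tr_apply, tr_apply, map_mul (Algebra.lmul ℚ R), map_mul (Algebra.lmul ℚ R), LinearMap.trace_mul_comm]

theorem tr_one : tr R 1 = Module.finrank ℚ R := by rw [tr_apply, map_one, LinearMap.trace_one]

theorem tr_idem {e : R} (h : e * e = e) :
    tr R e = Module.finrank ℚ (LinearMap.range (Algebra.lmul ℚ R e)) :=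
  (LinearMap.IsIdempotentElem.isProj_range (Algebra.lmul ℚ R e)
    (by rw [IsIdempotentElem, ← map_mul, h])).trace

theorem tr_le {E F c : R} (hE : E * E = E) (hF : F * F = F) (h : F * (c * E) = c * E)
    (k : ∀ x, c * (E * x) = 0 → E * x = 0) : tr R E ≤ tr R F := by
  rw [tr_idem hE, tr_idem hF, Nat.cast_le]
  refine LinearMap.finrank_le_finrank_of_injective
    (f := (Algebra.lmul ℚ R c).restrict (p := LinearMap.range _) (q := LinearMap.range _) ?_) ?_
  · rintro _ ⟨x, rfl⟩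
    exact ⟨c * E * x, by simp [← mul_assoc, mul_assoc F, h]⟩
  · refine (injective_iff_map_eq_zero _).2 ?_
    rintro ⟨_, x, rfl⟩ hx
    exact Subtype.ext (k x (congrArg Subtype.val hx))

theorem tr_tmul (a b : R) : tr (R ⊗[ℚ] R) (a ⊗ₜ b) = tr R a * tr R b := by
  rw [tr_apply, tr_apply, tr_apply, ← LinearMap.trace_tensorProduct']
  congr 1
  ext x y; simp

theorem shift {S : Type*} [Ring S] {a : S} {p : ℕ} (h : a ^ p = 1) :
    a * ∑ k ∈ range p, a ^ k = ∑ k ∈ range p, a ^ k := by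
  have := mul_geom_sum a p
  rw [h, sub_self, sub_mul, one_mul] at this
  exact sub_eq_zero.1 this

theorem shift_pow {S : Type*} [Ring S] {a : S} {p : ℕ} (h : a ^ p = 1) (n : ℕ) :
    a ^ n * ∑ k ∈ range p, a ^ k = ∑ k ∈ range p, a ^ k := by
  induction n with
  | zero => simp
  | succ n i => rw [pow_succ, mul_assoc, shift h, i]

theorem geom_idem {K S : Type*} [Field K] [Ring S] [Algebra K S] {a : S} {p : ℕ} (h : a ^ p = 1)
    (hp : (p : K) ≠ 0) : ((p : K)⁻¹ • ∑ k ∈ range p, a ^ k) * ((p : K)⁻¹ • ∑ k ∈ range p, a ^ k) =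
      (p : K)⁻¹ • ∑ k ∈ range p, a ^ k := by
  rw [smul_mul_smul_comm, sum_mul, sum_congr rfl fun k _ => shift_pow h k, sum_const, card_range,
    ← Nat.cast_smul_eq_nsmul K, smul_smul, mul_assoc, inv_mul_cancel₀ hp, mul_one]

/-- rational traces are invariant under coprime powers -/
theorem tr_pow {a : R} {p : ℕ} (hp : p.Prime) (h : a ^ p = 1) {k : ℕ} (h0 : 0 < k) (hk : k < p) :
    tr R (a ^ k) = tr R a := by
  classical
  let b := Module.finBasis ℚ R
  let φ : R →+* Matrix (Fin (Module.finrank ℚ R)) (Fin (Module.finrank ℚ R)) ℂ :=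
    (algebraMap ℚ ℂ).mapMatrix.comp (Algebra.leftMulMatrix b).toRingHom
  have hφ : ∀ x, (φ x).trace = (tr R x : ℂ) := fun x => by
    rw [tr_apply, LinearMap.trace_eq_matrix_trace ℚ b]
    exact (AddMonoidHom.map_trace (algebraMap ℚ ℂ) _).symm
  have hζ := Complex.isPrimitiveRoot_exp p hp.ne_zero
  set ζ := Complex.exp (2 * Real.pi * Complex.I / p)
  have p0 : (p : ℂ) ≠ 0 := Nat.cast_ne_zero.2 hp.ne_zero
  have i := geom_idem (K := ℂ) (a := ζ • φ a) (p := p)
    (by rw [smul_pow, hζ.pow_eq_one, ← map_pow, h, map_one, one_smul]) p0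
  set P := (p : ℂ)⁻¹ • ∑ k ∈ range p, (ζ • φ a) ^ k with hP
  obtain ⟨n, hn⟩ : ∃ n : ℕ, P.trace = n := ⟨_, by
    rw [← Matrix.trace_toLin'_eq]
    exact (LinearMap.IsIdempotentElem.isProj_range _
      (by rw [IsIdempotentElem, Module.End.mul_eq_comp, ← Matrix.toLin'_mul, i])).trace⟩
  rw [hP, Matrix.trace_smul, Matrix.trace_sum, smul_eq_mul, inv_mul_eq_iff_eq_mul₀ p0] at hn
  simp only [smul_pow, ← map_pow, Matrix.trace_smul, hφ, smul_eq_mul] at hn
  have := (hζ.sum_eq_zero_iff_forall_eq hp fun i => tr R (a ^ i.1) - if i.1 = 0 then (p * n : ℚ) else 0).1 (by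
    simp only [Rat.cast_sub, sub_mul, sum_sub_distrib]
    rw [Fin.sum_univ_eq_sum_range (fun i => (tr R (a ^ i) : ℂ) * ζ ^ i),
      Fin.sum_univ_eq_sum_range (fun i => (((if i = 0 then p * n else 0 : ℚ)) : ℂ) * ζ ^ i),
      sum_eq_single (f := fun i => (((if i = 0 then p * n else 0 : ℚ)) : ℂ) * ζ ^ i) 0
        (fun j _ j0 => by simp [j0]) (fun k => absurd (mem_range.2 hp.pos) k), sub_eq_zero]
    simpa [mul_comm] using hn) ⟨k, hk⟩ ⟨1, hp.one_lt⟩
  simpa [h0.ne'] using this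

end tr

section av
variable {G R : Type*} [Group G] [Finite G] [Ring R] [Algebra ℚ R] (ρ : G →* R)

/-- the averaging idempotent of a subgroup -/
noncomputable def av (C : Subgroup G) : R := (Nat.card C : ℚ)⁻¹ • ∑ᶠ c : C, ρ c

theorem av_eq (C : Subgroup G) [Fintype C] : av ρ C = (Nat.card C : ℚ)⁻¹ • ∑ c : C, ρ c := by
  rw [av, finsum_eq_sum_of_fintype]

variable {ρ} {C : Subgroup G} {x : G}

theorem mul_av (h : x ∈ C) : ρ x * av ρ C = av ρ C := by
  haveI := Fintype.ofFinite C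
  rw [av_eq, mul_smul_comm, mul_sum]
  congr 1
  exact Fintype.sum_equiv (Equiv.mulLeft ⟨x, h⟩) _ _ fun c => (map_mul _ _ _).symm

theorem comm_av {a : R} (h : ∀ c ∈ C, a * ρ c = ρ c * a) : a * av ρ C = av ρ C * a := by
  haveI := Fintype.ofFinite C
  rw [av_eq, mul_smul_comm, smul_mul_assoc, mul_sum, sum_mul]
  congr 1
  exact sum_congr rfl fun c _ => h c c.2

theorem lin_av {V : Type*} [AddCommGroup V] [Module ℚ V] (f : R →ₗ[ℚ] V) {v : V}
    (h : ∀ c ∈ C, f (ρ c) = v) : f (av ρ C) = v := by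
  haveI := Fintype.ofFinite C
  rw [av_eq, map_smul, map_sum, sum_congr rfl fun (c : C) _ => h c c.2, sum_const, card_univ,
    ← Nat.cast_smul_eq_nsmul ℚ, smul_smul, ← Nat.card_eq_fintype_card, inv_mul_cancel₀, one_smul]
  exact Nat.cast_ne_zero.2 Nat.card_pos.ne'

theorem av_mul_of {a : R} (h : ∀ c ∈ C, ρ c * a = a) : av ρ C * a = a :=
  lin_av (LinearMap.mulRight ℚ a) h

theorem av_idem : av ρ C * av ρ C = av ρ C := av_mul_of fun _ => mul_av

theorem norm_av (h : ∀ c ∈ C, x * c * x⁻¹ ∈ C) : ρ x * av ρ C = av ρ C * ρ x := by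
  haveI := Fintype.ofFinite C
  rw [av_eq, mul_smul_comm, smul_mul_assoc, mul_sum, sum_mul]
  congr 1
  let f : C → C := fun c => ⟨_, h c c.2⟩
  have hf : Function.Injective f := fun a b k => Subtype.ext (by simpa [f] using k)
  refine Fintype.sum_bijective f (Finite.injective_iff_bijective.1 hf) _ _ fun c => ?_
  simp [f, ← map_mul]

theorem av_mul (h : x ∈ C) : av ρ C * ρ x = av ρ C := by
  rw [← norm_av fun c hc => C.mul_mem (C.mul_mem h hc) (C.inv_mem h), mul_av h]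

theorem av_ne_one (hρ : Function.Injective ρ) (h : x ∈ C) (h1 : x ≠ 1) : av ρ C ≠ 1 := fun k =>
  h1 (hρ (by rw [← mul_one (ρ x), ← k, mul_av h, k, map_one]))

/-- an element acting fixed point freely on `C` is conjugate to all elements of its coset -/
theorem fpf_conj (h : ∀ c ∈ C, x * c * x⁻¹ ∈ C) (hf : ∀ c ∈ C, x * c = c * x → c = 1) {c : G}
    (hc : c ∈ C) : ∃ u : G, x * c = u * x * u⁻¹ := by
  have h' : ∀ c ∈ C, x⁻¹ * c * x ∈ C := fun c hc => by
    let f : C → C := fun c => ⟨_, h c c.2⟩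
    have hf : Function.Injective f := fun a b k => Subtype.ext (by simpa [f] using k)
    obtain ⟨d, hd⟩ := Finite.injective_iff_surjective.1 hf ⟨c, hc⟩
    have := congrArg Subtype.val hd
    simp only [f] at this
    rw [← this]; simp [mul_assoc]
  let f : C → C := fun u => ⟨x⁻¹ * u * x * u⁻¹, C.mul_mem (h' _ u.2) (C.inv_mem u.2)⟩
  have hf : Function.Injective f := fun a b k => by
    have k' : x⁻¹ * a * x * (a : G)⁻¹ = x⁻¹ * b * x * (b : G)⁻¹ := congrArg Subtype.val k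
    have := hf ((b : G)⁻¹ * a) (C.mul_mem (C.inv_mem b.2) a.2) (by
      calc x * ((b : G)⁻¹ * a) = b⁻¹ * x * (x⁻¹ * b * x * (b : G)⁻¹) * a := by simp [mul_assoc]
        _ = b⁻¹ * a * x := by rw [← k']; simp [mul_assoc])
    exact (Subtype.ext (inv_mul_eq_one.1 this)).symm
  obtain ⟨u, hu⟩ := Finite.injective_iff_surjective.1 hf ⟨c, hc⟩
  exact ⟨u, by rw [← show x⁻¹ * u * x * (u : G)⁻¹ = c from congrArg Subtype.val hu]; group⟩

theorem tr_conj [Module.Finite ℚ R] (u x : G) : tr R (ρ (u * x * u⁻¹)) = tr R (ρ x) := by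
  rw [map_mul, tr_comm, ← map_mul]; simp

theorem tr_fpf [Module.Finite ℚ R] (h : ∀ c ∈ C, x * c * x⁻¹ ∈ C)
    (hf : ∀ c ∈ C, x * c = c * x → c = 1) : tr R (ρ x * (1 - av ρ C)) = 0 := by
  rw [mul_sub, mul_one, map_sub, sub_eq_zero]
  refine (lin_av (tr R ∘ₗ LinearMap.mulLeft ℚ (ρ x)) fun c hc => ?_).symm
  obtain ⟨u, hu⟩ := fpf_conj h hf hc
  rw [LinearMap.comp_apply, LinearMap.mulLeft_apply, ← map_mul, hu, tr_conj]

end av

variable {D : Type*} [DivisionRing D] [CharZero D] [Module.Finite ℚ D]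
variable {G : Type*} [Group G] [Finite G] {ρ : G →* M D}

/-- the normalized trace -/
noncomputable def χ (D : Type*) [DivisionRing D] [CharZero D] : M D →ₗ[ℚ] ℚ :=
  (2 / tr (M D) 1) • tr (M D)

theorem tr_pos : 0 < tr (M D) 1 := by
  rw [tr_one]; exact Nat.cast_pos.2 Module.finrank_pos

theorem χ_apply (a : M D) : χ D a = 2 / tr (M D) 1 * tr (M D) a := rfl

theorem χ_one : χ D 1 = 2 := div_mul_cancel₀ _ tr_pos.ne'

theorem χ_cj (U : (M D)ˣ) (a : M D) : χ D (cjM U a) = χ D a := by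
  rw [χ_apply, χ_apply, cjM_apply, tr_comm]; simp

theorem PI.χ {e : M D} (h : PI e) : χ D e = 1 := by
  obtain ⟨U, hU⟩ := h.conj
  obtain ⟨V, hV⟩ := h.compl.conj
  have := χ_cj V (1 - e)
  rw [hV, ← hU, χ_cj, map_sub, χ_one] at this
  linarith

theorem χ_idem {e : M D} (h : e * e = e) : χ D e = 0 ∧ e = 0 ∨ χ D e = 1 ∧ PI e ∨ χ D e = 2 ∧ e = 1 := by
  rcases eq_or_ne e 0 with rfl | h0
  · simp
  rcases eq_or_ne e 1 with rfl | h1
  · simp [χ_one]
  exact .inr (.inl ⟨PI.χ ⟨h, h0, h1⟩, h, h0, h1⟩)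

theorem compl_idem {R : Type*} [Ring R] {e : R} (h : e * e = e) : (1 - e) * (1 - e) = 1 - e := by
  rw [mul_sub, sub_mul, sub_mul, h]; simp

theorem χ_compl {U : Subgroup G} (hρ : Function.Injective ρ) (hU : U ≠ ⊥) :
    χ D (1 - av ρ U) = 1 ∨ χ D (1 - av ρ U) = 2 := by
  obtain ⟨⟨x, hx⟩, h1⟩ := Subgroup.ne_bot_iff_exists_ne_one.1 hU
  rcases χ_idem (compl_idem (av_idem (ρ := ρ) (C := U))) with k | k | k
  exacts [absurd (sub_eq_zero.1 k.2).symm (av_ne_one hρ hx (by simpa using h1)), .inl k.1, .inr k.1]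

/-- no element of order at least `3` acts (with its powers) fixed point freely on a subgroup -/
theorem no_frob (hρ : Function.Injective ρ) {U : Subgroup G} (hU : U ≠ ⊥) {h : G} {l : ℕ} (hl : 3 ≤ l)
    (h1 : h ^ l = 1) (hn : ∀ c ∈ U, h * c * h⁻¹ ∈ U)
    (hf : ∀ k, 0 < k → k < l → ∀ c ∈ U, h ^ k * c = c * h ^ k → c = 1) : False := by
  have l0 : (l : ℚ) ≠ 0 := Nat.cast_ne_zero.2 (by omega)
  have i := geom_idem (K := ℚ) (a := ρ h) (p := l) (by rw [← map_pow, h1, map_one]) l0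
  set e := (l : ℚ)⁻¹ • ∑ k ∈ range l, ρ h ^ k with he
  have hn' : ∀ k, ∀ c ∈ U, h ^ k * c * (h ^ k)⁻¹ ∈ U := fun k => by
    induction k with
    | zero => simp
    | succ k i => exact fun c hc => by simpa [pow_succ', mul_assoc] using hn _ (i c hc)
  have c : e * (1 - av ρ U) = (1 - av ρ U) * e := by
    rw [he, smul_mul_assoc, mul_smul_comm, sum_mul, mul_sum]
    congr 1
    refine sum_congr rfl fun k _ => ?_
    rw [← map_pow, mul_sub, sub_mul, norm_av (hn' k), mul_one, one_mul]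
  have v : χ D (e * (1 - av ρ U)) = (l : ℚ)⁻¹ * χ D (1 - av ρ U) := by
    rw [he, smul_mul_assoc, map_smul, sum_mul, map_sum, smul_eq_mul, sum_eq_single 0]
    · simp
    · intro k hk k0
      rw [← map_pow, χ_apply, tr_fpf (hn' k) (hf k (Nat.pos_of_ne_zero k0) (mem_range.1 hk)), mul_zero]
    · exact fun k => absurd (mem_range.2 (by omega)) k
  have w := χ_idem (e := e * (1 - av ρ U)) (by
    rw [mul_assoc, ← mul_assoc _ e, ← c, mul_assoc, compl_idem av_idem, ← mul_assoc, i])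
  rw [v] at w
  have l3 : (3 : ℚ) ≤ l := by exact_mod_cast hl
  rcases χ_compl hρ hU with a | a <;> rw [a] at w <;>
    rcases w with ⟨w, -⟩ | ⟨w, -⟩ | ⟨w, -⟩ <;> rw [inv_mul_eq_iff_eq_mul₀ l0] at w <;> linarith

/-- `X` commutes with a proper idempotent -/
def Red (ρ : G →* M D) (X : Subgroup G) : Prop := ∃ e, PI e ∧ ∀ g ∈ X, ρ g * e = e * ρ g

theorem red_of_stab {e : M D} (he : PI e) (h : ∀ g, (1 - e) * ρ g * e = 0) : Red ρ ⊤ := by
  haveI := Fintype.ofFinite G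
  have h' : ∀ g, e * (ρ g * e) = ρ g * e := fun g => by
    have := h g
    rw [sub_mul, sub_mul, one_mul, mul_assoc] at this
    exact (sub_eq_zero.1 this).symm
  have n0 : (Fintype.card G : ℚ) ≠ 0 := Nat.cast_ne_zero.2 Fintype.card_ne_zero
  let p := (Fintype.card G : ℚ)⁻¹ • ∑ g, ρ g * e * ρ g⁻¹
  have a : p * e = e := by
    rw [smul_mul_assoc, sum_mul, sum_congr rfl (g := fun _ => e), sum_const, card_univ,
      ← Nat.cast_smul_eq_nsmul ℚ, smul_smul, inv_mul_cancel₀ n0, one_smul]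
    intro g _
    rw [mul_assoc, mul_assoc, h', ← mul_assoc, ← map_mul]; simp
  have b : e * p = p := by
    rw [mul_smul_comm, mul_sum]
    congr 1
    exact sum_congr rfl fun g _ => by rw [← mul_assoc, h']
  refine ⟨p, ⟨by rw [← b, ← mul_assoc (e * p), mul_assoc e, a, he.1], fun k => he.2 (by rw [← a, k, zero_mul]),
    fun k => he.3 (by rw [k, mul_one] at b; exact b)⟩, fun x _ => ?_⟩
  rw [mul_smul_comm, smul_mul_assoc, mul_sum, sum_mul]
  congr 1
  refine Fintype.sum_equiv (Equiv.mulLeft x) _ _ fun g => ?_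
  simp only [Equiv.coe_mulLeft, map_mul, mul_inv_rev, mul_assoc]
  rw [← map_mul ρ x⁻¹, inv_mul_cancel, map_one, mul_one]

theorem exists_left_inv {e a : M D} (he : PI e) (h : (1 - e) * a * e ≠ 0) :
    ∃ b, b * ((1 - e) * a * e) = e := by
  obtain ⟨U, hU⟩ := he.conj
  have k : cjM U ((1 - e) * a * e) = ad 0 (cjM U a 1 0) := by
    rw [map_mul, map_mul, map_sub, map_one, hU, ← dg_one]
    refine M.ext' ?_ ?_ ?_ ?_ <;> simp [mul_ap]
  have n : cjM U a 1 0 ≠ 0 := fun z => h ((cjM U).injective (by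
    rw [k, z, map_zero]; exact M.ext' rfl rfl rfl rfl))
  exact ⟨(cjM U).symm (ad (cjM U a 1 0)⁻¹ 0), (cjM U).injective (by
    rw [map_mul, k, hU]; simp [n])⟩

/-- comparing the norm of the character on `G` and on a subgroup `B` normalizing `U` -/
theorem norm_le [Fintype G] (hr : ¬ Red ρ ⊤) (hρ : Function.Injective ρ) {U B : Subgroup G} [Fintype B]
    (hU : U ≠ ⊥) (hn : ∀ b ∈ B, ∀ c ∈ U, b * c * b⁻¹ ∈ U) :
    (Nat.card G : ℚ)⁻¹ * ∑ g, χ D (ρ g) ^ 2 ≤
      (Nat.card B : ℚ)⁻¹ * ∑ b : B, χ D (ρ b * (1 - av ρ U)) ^ 2 := by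
  obtain ⟨σ, hσ⟩ : ∃ σ : G →* M D ⊗[ℚ] M D, ∀ g, σ g = ρ g ⊗ₜ ρ g :=
    ⟨{ toFun g := ρ g ⊗ₜ ρ g, map_one' := by simp [Algebra.TensorProduct.one_def], map_mul' := by simp },
      fun _ => rfl⟩
  set e := av ρ U with he
  have ef : (1 - e) * (1 - e) = 1 - e := compl_idem av_idem
  have cb : ∀ b ∈ B, ρ b * (1 - e) = (1 - e) * ρ b := fun b hb => by
    rw [mul_sub, sub_mul, norm_av (hn b hb), mul_one, one_mul]
  have cs : ∀ b ∈ B, ((1 - e) ⊗ₜ (1 - e)) * σ b = σ b * ((1 - e) ⊗ₜ (1 - e)) := fun b hb => by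
    simp only [hσ, Algebra.TensorProduct.tmul_mul_tmul, cb b hb]
  have ff : ((1 - e) ⊗ₜ[ℚ] (1 - e)) * ((1 - e) ⊗ₜ (1 - e)) = (1 - e) ⊗ₜ (1 - e) := by simp [ef]
  have key := tr_le (E := av σ ⊤) (F := av σ B * ((1 - e) ⊗ₜ (1 - e))) (c := (1 - e) ⊗ₜ (1 - e)) av_idem
    (by rw [mul_assoc, ← mul_assoc _ (av σ B), comm_av cs, mul_assoc, ff, ← mul_assoc, av_idem])
    (by rw [mul_assoc, ← mul_assoc _ _ (av σ ⊤), ff, ← mul_assoc, ← comm_av cs, mul_assoc,
          av_mul_of fun c _ => mul_av (Subgroup.mem_top c)]) fun x hx => by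
      set ξ := av σ ⊤ * x
      have inv : ∀ g, (ρ g ⊗ₜ 1) * ξ = (1 ⊗ₜ ρ g⁻¹) * ξ := fun g => by
        have : (ρ g ⊗ₜ[ℚ] (1 : M D)) = (1 ⊗ₜ ρ g⁻¹) * σ g := by simp [hσ, ← map_mul]
        rw [this, mul_assoc, ← mul_assoc (σ g), mul_av (Subgroup.mem_top g)]
      have e1 : (e ⊗ₜ 1) * ξ = (1 ⊗ₜ e) * ξ := by
        haveI := Fintype.ofFinite U
        rw [he, av_eq, ← TensorProduct.smul_tmul', TensorProduct.tmul_smul, smul_mul_assoc, smul_mul_assoc,
          TensorProduct.sum_tmul, TensorProduct.tmul_sum, sum_mul, sum_mul]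
        congr 1
        exact Fintype.sum_equiv (Equiv.inv U) _ _ fun c => inv c
      have e2 : ((1 - e) ⊗ₜ 1) * ξ = 0 := by
        have : ((1 - e) ⊗ₜ[ℚ] (1 - e)) = ((1 - e) ⊗ₜ 1) * (1 ⊗ₜ (1 - e)) := by simp
        rw [this, mul_assoc, TensorProduct.tmul_sub, sub_mul, ← e1, ← sub_mul, ← TensorProduct.sub_tmul,
          ← mul_assoc] at hx
        simpa [ef] using hx
      rcases χ_idem (av_idem (ρ := ρ) (C := U)) with ⟨-, k⟩ | ⟨-, k⟩ | ⟨-, k⟩
      · rw [← he] at k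
        simpa [k, ← Algebra.TensorProduct.one_def] using e2
      · obtain ⟨g, hg⟩ : ∃ g, (1 - e) * ρ g * e ≠ 0 := by
          by_contra! n; exact hr (red_of_stab k n)
        obtain ⟨b, hb⟩ := exists_left_inv k hg
        have e3 : (((1 - e) * ρ g) ⊗ₜ 1) * ξ = 0 := by
          have : (((1 - e) * ρ g) ⊗ₜ[ℚ] (1 : M D)) = ((1 - e) ⊗ₜ 1) * (ρ g ⊗ₜ 1) := by simp
          rw [this, mul_assoc, inv, ← mul_assoc]
          have : ((1 - e) ⊗ₜ[ℚ] (1 : M D)) * (1 ⊗ₜ ρ g⁻¹) = (1 ⊗ₜ ρ g⁻¹) * ((1 - e) ⊗ₜ 1) := by simp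
          rw [this, mul_assoc, e2, mul_zero]
        have e4 : (1 : M D ⊗[ℚ] M D) = (b ⊗ₜ 1) * (((1 - e) * ρ g) ⊗ₜ 1) +
            ((1 - b * ((1 - e) * ρ g)) ⊗ₜ 1) * ((1 - e) ⊗ₜ 1) := by
          rw [Algebra.TensorProduct.tmul_mul_tmul, Algebra.TensorProduct.tmul_mul_tmul, mul_one,
            ← TensorProduct.add_tmul, Algebra.TensorProduct.one_def]
          congr 1
          rw [← mul_assoc, ← he] at hb
          rw [mul_sub _ 1, sub_mul _ _ e, hb]; simp
        rw [← one_mul ξ, e4, add_mul, mul_assoc, mul_assoc, e2, e3]; simp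
      · obtain ⟨⟨x, hx⟩, h1⟩ := Subgroup.ne_bot_iff_exists_ne_one.1 hU
        exact absurd k (av_ne_one hρ hx (by simpa using h1))
  haveI := Fintype.ofFinite (⊤ : Subgroup G)
  rw [av_eq, av_eq, smul_mul_assoc, map_smul, map_smul, sum_mul, map_sum, map_sum, Subgroup.card_top,
    Fintype.sum_equiv Subgroup.topEquiv.toEquiv _ (fun g => tr (M D) (ρ g) ^ 2)
      (fun g => by simp [hσ, tr_tmul, sq])] at key
  simp only [hσ, Algebra.TensorProduct.tmul_mul_tmul, tr_tmul, ← sq,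
    smul_eq_mul] at key
  simp only [χ_apply, mul_pow, ← mul_sum]
  have := mul_le_mul_of_nonneg_left key (sq_nonneg (2 / tr (M D) 1))
  linarith

end H23.GD
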