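import Cfsg.Agent.H23.GD2

/-! Trace obstructions, Blichfeldt's lemma and lines fixed by abelian subgroups of `GL₂(D)`. -/

set_option autoImplicit false
set_option linter.unusedSectionVars false

namespace H23.GD
open Finset

variable {D : Type*} [DivisionRing D] [CharZero D]
variable {G : Type*} [Group G] [Finite G] {ρ : G →* M D} {z : G}

section fd
variable [Module.Finite ℚ D]

theorem χ_conj (u x : G) : χ D (ρ (u * x * u⁻¹)) = χ D (ρ x) := by rw [χ_apply, χ_apply, tr_conj]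

theorem borel_le [Fintype G] (hr : ¬ Red ρ ⊤) (hρ : Function.Injective ρ) (hz : ρ z = -1)
    {U B : Subgroup G} {q : ℕ} (hq : q.Prime) (hU : Nat.card U = q) (hB : Nat.card B = q * (q - 1))
    (hn : ∀ b ∈ B, ∀ c ∈ U, b * c * b⁻¹ ∈ U)
    (hf : ∀ b ∈ B, b ∉ U → z * b ∉ U → ∀ c ∈ U, b * c = c * b → c = 1) :
    (Nat.card G : ℚ)⁻¹ * ∑ g, χ D (ρ g) ^ 2 ≤ 8 / ((q : ℚ) - 1) ^ 2 := by
  classical
  have U0 : U ≠ ⊥ := by rintro rfl; exact hq.one_lt.ne (by simpa using hU)
  refine (norm_le hr hρ U0 hn).trans ?_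
  set f := 1 - av ρ U with hf'
  let F : G → ℚ := fun g => χ D (ρ g * f) ^ 2
  have a : ∑ b : B, F b ≤ 2 * ∑ u : U, F u := by
    rw [← sum_subtype (univ.filter (· ∈ B)) (by simp) F, ← sum_subtype (univ.filter (· ∈ U)) (by simp) F, two_mul]
    have e : ∑ u ∈ univ.filter (· ∈ U), F u = ∑ u ∈ univ.filter (z * · ∈ U), F u :=
      (sum_equiv (Equiv.mulLeft z) (by simp) fun g _ => by simp [F, hz]).symm
    nth_rewrite 2 [e]
    rw [← sum_union_inter]
    refine le_trans ?_ (le_add_of_nonneg_right (sum_nonneg fun _ _ => sq_nonneg _))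
    rw [← sum_filter_ne_zero]
    refine sum_le_sum_of_subset_of_nonneg (fun b hb => ?_) fun _ _ _ => sq_nonneg _
    obtain ⟨hb, h0⟩ := mem_filter.1 hb
    by_contra n
    simp only [mem_union, mem_filter, mem_univ, true_and, not_or] at hb n
    exact h0 (by simp [F, χ_apply, hf', tr_fpf (hn b hb) (hf b hb n.1 n.2)])
  haveI := Fact.mk hq
  obtain ⟨u, hu⟩ := (isCyclic_of_prime_card hU).exists_generator
  have o : orderOf u = q := (orderOf_eq_card_of_forall_mem_zpowers hu).trans hU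
  have b : ∀ v : U, v ≠ 1 → χ D (ρ v * f) = χ D (ρ u * f) := fun v v1 => by
    obtain ⟨k, hk, rfl⟩ := mem_image.1 (mem_zpowers_iff_mem_range_orderOf.1 (hu v))
    rw [hf', mul_sub, mul_sub, mul_av (u ^ k).2, mul_av u.2, map_sub, map_sub, mul_one, mul_one,
      χ_apply, χ_apply (ρ u), Subgroup.coe_pow, map_pow, tr_pow hq
      (by rw [← map_pow, ← o, ← Subgroup.coe_pow, pow_orderOf_eq_one]; simp)
      (Nat.pos_of_ne_zero (by rintro rfl; simp at v1)) (o ▸ mem_range.1 hk)]
  have s : ∀ φ : ℚ → ℚ, ∑ v : U, φ (χ D (ρ v * f)) = φ (χ D f) + (q - 1) * φ (χ D (ρ u * f)) := fun φ => by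
    rw [← add_sum_erase _ _ (mem_univ 1), sum_congr rfl fun v hv => congrArg φ (b v (ne_of_mem_erase hv)),
      sum_const, card_erase_of_mem (mem_univ _), card_univ, ← Nat.card_eq_fintype_card, hU]
    simp [Nat.cast_sub hq.one_le]
  have q0 : (0 : ℚ) < q := Nat.cast_pos.2 hq.pos
  have q1 : (0 : ℚ) < q - 1 := sub_pos.2 (by exact_mod_cast hq.one_lt)
  have c : χ D f + (q - 1) * χ D (ρ u * f) = 0 := by
    have : av ρ U * f = 0 := by rw [hf', mul_sub, av_idem, mul_one, sub_self]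
    have := congrArg (χ D) this
    rw [av_eq, smul_mul_assoc, map_smul, sum_mul, map_sum, s fun x => x, hU] at this
    simpa [q0.ne'] using this
  have d := s (· ^ 2)
  have r : χ D f ^ 2 ≤ 4 := by rcases χ_compl hρ U0 with k | k <;> rw [k] <;> norm_num
  rw [show χ D (ρ u * f) = -χ D f / (q - 1) by field_simp; linarith] at d
  refine (mul_le_mul_of_nonneg_left a (by positivity)).trans ?_
  rw [show ∑ u : U, F u = _ from d, hB, Nat.cast_mul, Nat.cast_sub hq.one_le, Nat.cast_one]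
  have : ((q : ℚ) * (q - 1))⁻¹ * (2 * (χ D f ^ 2 + (q - 1) * (-χ D f / (q - 1)) ^ 2)) =
      2 * χ D f ^ 2 / (q - 1) ^ 2 := by field_simp; ring
  rw [this]
  gcongr; linarith

theorem χ_geom (hρ : Function.Injective ρ) {x : G} {n : ℕ} (h : x ^ n = 1) (h1 : x ≠ 1) (n0 : n ≠ 0) :
    ∑ k ∈ range n, χ D (ρ (x ^ k)) = 0 ∨ ∑ k ∈ range n, χ D (ρ (x ^ k)) = n := by
  have l0 : (n : ℚ) ≠ 0 := Nat.cast_ne_zero.2 n0
  have p : ρ x ^ n = 1 := by rw [← map_pow, h, map_one]
  rcases χ_idem (geom_idem (K := ℚ) p l0) with ⟨k, -⟩ | ⟨k, -⟩ | ⟨-, k⟩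
  · rw [map_smul, map_sum, smul_eq_mul, inv_mul_eq_iff_eq_mul₀ l0] at k
    exact .inl (by simpa using k)
  · rw [map_smul, map_sum, smul_eq_mul, inv_mul_eq_iff_eq_mul₀ l0] at k
    exact .inr (by simpa using k)
  · exact absurd (hρ (by rw [← mul_one (ρ x), ← k, mul_smul_comm, shift p, k, map_one])) h1

theorem χ_three (hρ : Function.Injective ρ) {x : G} (h : x ^ 3 = 1) (h1 : x ≠ 1) :
    (χ D (ρ x) = -1 ∨ χ D (ρ x) = 1 / 2) ∧ χ D (ρ (x ^ 2)) = χ D (ρ x) := by
  have a : χ D (ρ (x ^ 2)) = χ D (ρ x) := by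
    rw [χ_apply, χ_apply, map_pow, tr_pow Nat.prime_three (by rw [← map_pow, h, map_one]) two_pos (by norm_num)]
  have := χ_geom hρ h h1 (by norm_num)
  simp only [sum_range_succ, sum_range_zero, pow_zero, pow_one, map_one, χ_one, a] at this
  exact ⟨this.imp (fun k => by linarith) fun k => by push_cast at k; linarith, a⟩

theorem class_le [Fintype G] [DecidableEq G] (y : G) {m : ℕ} (hm : Nat.card (Subgroup.centralizer {y}) ≤ m) :
    Nat.card G * χ D (ρ y) ^ 2 ≤ m * ∑ g with orderOf g = orderOf y, χ D (ρ g) ^ 2 := by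
  classical
  have a : ∑ g with IsConj y g, χ D (ρ g) ^ 2 ≤ ∑ g with orderOf g = orderOf y, χ D (ρ g) ^ 2 :=
    sum_le_sum_of_subset_of_nonneg (fun g hg => by
      simp only [mem_filter, mem_univ, true_and] at hg ⊢
      obtain ⟨u, rfl⟩ := isConj_iff.1 hg
      exact (MulAut.conj u).orderOf_eq y) fun _ _ _ => sq_nonneg _
  rw [sum_congr rfl (g := fun _ => χ D (ρ y) ^ 2) (fun g hg => by
    obtain ⟨u, rfl⟩ := isConj_iff.1 (mem_filter.1 hg).2
    rw [χ_conj]), sum_const, nsmul_eq_mul] at a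
  have b : Nat.card G = #{g | IsConj y g} * Nat.card (Subgroup.centralizer {y}) := by
    rw [Subgroup.nat_card_centralizer_nat_card_stabilizer, Nat.card_congr (ConjAct.toConjAct (G := G)).toEquiv,
      Nat.card_congr (MulAction.orbitProdStabilizerEquivGroup (ConjAct G) y).symm, Nat.card_prod]
    congr 1
    rw [← Nat.card_eq_finsetCard]
    exact Nat.card_congr (Equiv.setCongr (by ext g; rw [ConjAct.mem_orbit_conjAct, isConj_comm]; simp))
  refine le_trans ?_ (mul_le_mul_of_nonneg_left a (Nat.cast_nonneg m))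
  rw [b, ← mul_assoc, Nat.cast_mul, mul_comm (m : ℚ)]
  gcongr

theorem no_fermat (hr : ¬ Red ρ ⊤) (hρ : Function.Injective ρ) (hz : ρ z = -1)
    {U B : Subgroup G} {q : ℕ} (hq : q.Prime) (hU : Nat.card U = q) (hB : Nat.card B = q * (q - 1))
    (hn : ∀ b ∈ B, ∀ c ∈ U, b * c * b⁻¹ ∈ U)
    (hf : ∀ b ∈ B, b ∉ U → z * b ∉ U → ∀ c ∈ U, b * c = c * b → c = 1) (h17 : 17 ≤ q)
    (hC : ∀ y : G, y ^ 3 = 1 → y ≠ 1 → Nat.card (Subgroup.centralizer {y}) ≤ q + 1)
    {x : G} (h3 : x ^ 3 = 1) (h1 : x ≠ 1) (h9 : q = 17 → ∃ c, c ^ 3 = x) : False := by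
  classical
  haveI := Fintype.ofFinite G
  have ub := borel_le hr hρ hz hq hU hB hn hf
  have zc : ∀ g, z * g = g * z := fun g => hρ (by simp [hz])
  have oz : orderOf z = 2 := orderOf_eq_prime (hρ (by simp [hz])) fun k => M.one_ne_neg (by rw [← hz, k, map_one])
  have ox : orderOf x = 3 := orderOf_eq_prime h3 h1
  have o6 : orderOf (z * x) = 6 := by
    rw [Commute.orderOf_mul_eq_mul_orderOf_of_coprime (zc x) (by rw [oz, ox]; norm_num), oz, ox]
  let S : ℕ → ℚ := fun n => ∑ g with orderOf g = n, χ D (ρ g) ^ 2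
  have tot : S 3 + S 6 + S 9 ≤ ∑ g, χ D (ρ g) ^ 2 := by
    have := sum_fiberwise_le_sum_of_sum_fiber_nonneg (s := univ) (t := {3, 6, 9}) (g := orderOf)
      (f := fun g => χ D (ρ g) ^ 2) fun _ _ => sum_nonneg fun _ _ => sq_nonneg _
    rw [sum_insert (by simp), sum_insert (by simp), sum_singleton] at this
    linarith
  have a3 := class_le (ρ := ρ) x (hC x h3 h1)
  have a6 := class_le (ρ := ρ) (z * x) (le_trans (Subgroup.card_le_of_le (K := Subgroup.centralizer {x})
    fun g hg => Subgroup.mem_centralizer_singleton_iff.2 (mul_left_cancel (a := z) (by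
      rw [← mul_assoc, zc, mul_assoc, Subgroup.mem_centralizer_singleton_iff.1 hg, mul_assoc]))) (hC x h3 h1))
  rw [ox] at a3
  rw [o6, map_mul, hz, neg_one_mul, map_neg, neg_sq] at a6
  have g0 : (0 : ℚ) < Nat.card G := Nat.cast_pos.2 Nat.card_pos
  have s9 : 0 ≤ S 9 := sum_nonneg fun _ _ => sq_nonneg _
  have q1 : (0 : ℚ) < ((q : ℚ) - 1) ^ 2 := by
    have : (17 : ℚ) ≤ q := by exact_mod_cast h17
    nlinarith
  rw [inv_mul_le_iff₀ g0, ← mul_div_assoc, le_div_iff₀ q1] at ub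
  push_cast at a3 a6
  change _ ≤ _ * S 3 at a3
  change _ ≤ _ * S 6 at a6
  obtain ⟨c3, c2⟩ := χ_three hρ h3 h1
  rcases (show q = 17 ∨ 19 ≤ q by
    have : q ≠ 18 := by rintro rfl; norm_num at hq
    omega) with rfl | h19
  · push_cast at ub a3 a6
    rcases c3 with c3 | c3 <;> rw [c3] at a3 a6
    · linarith
    obtain ⟨c, rfl⟩ := h9 rfl
    have c9 : c ^ 9 = 1 := by rw [← h3, ← pow_mul]
    have key : ∀ k, ¬ 3 ∣ k → χ D (ρ (c ^ k)) ^ 2 < 1 / 4 := fun k hk => by
      by_contra! n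
      have oc : orderOf c = 9 := orderOf_eq_prime_pow (p := 3) (n := 1) h1 c9
      have ok : orderOf (c ^ k) = 9 := by
        rw [← oc]
        exact Nat.Coprime.orderOf_pow (oc ▸ ((Nat.Prime.coprime_iff_not_dvd Nat.prime_three).2 hk).pow_left 2)
      have a9 := class_le (ρ := ρ) (c ^ k) (le_trans (Subgroup.card_le_of_le
        (K := Subgroup.centralizer {(c ^ k) ^ 3}) fun g hg => Subgroup.mem_centralizer_singleton_iff.2
          (Commute.pow_right (Subgroup.mem_centralizer_singleton_iff.1 hg) 3))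
        (hC _ (by rw [← pow_mul]; exact orderOf_dvd_iff_pow_eq_one.1 ok.dvd)
          (fun e => by simpa [ok] using orderOf_dvd_of_pow_eq_one e)))
      rw [ok] at a9
      push_cast at a9
      change _ ≤ _ * S 9 at a9
      nlinarith
    have := χ_geom hρ c9 (by rintro rfl; simp at h1) (by norm_num)
    rw [← pow_mul] at c2
    simp only [sum_range_succ, sum_range_zero, pow_zero, map_one, χ_one, c2, c3] at this
    have k1 := abs_lt.1 (abs_lt_of_sq_lt_sq (b := (1 / 2 : ℚ)) ((key 1 (by norm_num)).trans_eq (by norm_num)) (by norm_num))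
    have k2 := abs_lt.1 (abs_lt_of_sq_lt_sq (b := (1 / 2 : ℚ)) ((key 2 (by norm_num)).trans_eq (by norm_num)) (by norm_num))
    have k4 := abs_lt.1 (abs_lt_of_sq_lt_sq (b := (1 / 2 : ℚ)) ((key 4 (by norm_num)).trans_eq (by norm_num)) (by norm_num))
    have k5 := abs_lt.1 (abs_lt_of_sq_lt_sq (b := (1 / 2 : ℚ)) ((key 5 (by norm_num)).trans_eq (by norm_num)) (by norm_num))
    have k7 := abs_lt.1 (abs_lt_of_sq_lt_sq (b := (1 / 2 : ℚ)) ((key 7 (by norm_num)).trans_eq (by norm_num)) (by norm_num))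
    have k8 := abs_lt.1 (abs_lt_of_sq_lt_sq (b := (1 / 2 : ℚ)) ((key 8 (by norm_num)).trans_eq (by norm_num)) (by norm_num))
    push_cast at this
    rcases this with e | e <;> linarith
  · have c4 : 1 / 4 ≤ χ D (ρ x) ^ 2 := by rcases c3 with c3 | c3 <;> rw [c3] <;> norm_num
    have q19 : (19 : ℚ) ≤ q := by exact_mod_cast h19
    have e1 : Nat.card G / 2 ≤ ((q : ℚ) + 1) * ∑ g, χ D (ρ g) ^ 2 := by nlinarith
    have e2 := mul_le_mul_of_nonneg_right e1 q1.le
    have e3 := mul_le_mul_of_nonneg_left ub (show (0 : ℚ) ≤ q + 1 by positivity)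
    have e4 : 16 * ((q : ℚ) + 1) < ((q : ℚ) - 1) ^ 2 := by nlinarith
    nlinarith

end fd

/-- the stabilizer of an idempotent -/
def St (ρ : G →* M D) (e : M D) : Subgroup G where
  carrier := {g | ρ g * e = e * ρ g}
  one_mem' := by simp
  mul_mem' {a b} ha hb := by
    change _ = _ at ha hb ⊢
    rw [map_mul, mul_assoc, hb, ← mul_assoc, ha, mul_assoc]
  inv_mem' {a} ha := by
    change _ = _ at ha ⊢
    calc ρ a⁻¹ * e = ρ a⁻¹ * (e * ρ a) * ρ a⁻¹ := by simp [mul_assoc, ← map_mul]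
      _ = e * ρ a⁻¹ := by rw [← ha, ← mul_assoc, ← map_mul]; simp

theorem mem_St {e : M D} {g : G} : g ∈ St ρ e ↔ ρ g * e = e * ρ g := Iff.rfl

/-- `g` fixes or swaps the two lines attached to `e` -/
def Sw (ρ : G →* M D) (e : M D) (g : G) : Prop := ρ g * e = e * ρ g ∨ ρ g * e = (1 - e) * ρ g

theorem swap_mul {e : M D} {a b : G} (ha : ρ a * e = (1 - e) * ρ a) (hb : ρ b * e = (1 - e) * ρ b) :
    a * b ∈ St ρ e := by
  rw [mem_St, map_mul, mul_assoc, hb, ← mul_assoc, mul_sub, ha, ← mul_assoc]; noncomm_ring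

theorem swap_inv {e : M D} {a : G} (ha : ρ a * e = (1 - e) * ρ a) : ρ a⁻¹ * e = (1 - e) * ρ a⁻¹ := by
  have := congrArg (fun x => ρ a⁻¹ * x * ρ a⁻¹) ha
  simp only [← mul_assoc, mul_assoc _ (ρ a), ← map_mul, inv_mul_cancel, mul_inv_cancel, map_one, one_mul,
    mul_one, mul_sub] at this
  rw [sub_mul, this]; simp

theorem Sw.odd {e : M D} {g : G} (h : Sw ρ e g) (o : Odd (orderOf g)) : g ∈ St ρ e := by
  rcases h with h | h
  · exact h
  obtain ⟨k, hk⟩ := o
  have : g = ((g * g) ^ k)⁻¹ := by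
    rw [eq_inv_iff_mul_eq_one, ← sq, ← pow_mul, ← pow_succ', ← hk, pow_orderOf_eq_one]
  exact this ▸ inv_mem (pow_mem (swap_mul h h) k)

theorem le_St {e : M D} {K : Subgroup G} (hK : ⁅K, K⁆ = K) (h : ∀ g ∈ K, Sw ρ e g) : K ≤ St ρ e := by
  refine hK.ge.trans (Subgroup.commutator_le.2 fun a ha b hb => ?_)
  rw [commutatorElement_def]
  have m : ∀ a b, ρ a * e = (1 - e) * ρ a → b ∈ St ρ e → a * b * a⁻¹ ∈ St ρ e := fun a b ha hb =>
    swap_mul (by rw [map_mul, mul_assoc, hb, ← mul_assoc, ha, mul_assoc]) (swap_inv ha)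
  rcases h a ha with p | p <;> rcases h b hb with q | q
  · exact mul_mem (mul_mem (mul_mem p q) (inv_mem p)) (inv_mem q)
  · simpa [mul_assoc] using mul_mem (show a ∈ St ρ e from p) (m b _ q (inv_mem p))
  · exact mul_mem (m a b p q) (inv_mem q)
  · rw [mul_assoc]; exact mul_mem (swap_mul p q) (swap_mul (swap_inv p) (swap_inv q))

theorem unip {w : G} {n : M D} (h : ρ w = 1 + n) (hn : n * n = 0) : n = 0 := by
  have : ∀ m : ℕ, ρ (w ^ m) = 1 + (m : ℚ) • n := fun m => by
    induction m with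
    | zero => simp
    | succ m i => rw [pow_succ, map_mul, i, h]; simp [mul_add, add_mul, hn, add_smul, add_assoc, add_comm]
  have := this (orderOf w)
  rw [pow_orderOf_eq_one, map_one, left_eq_add, smul_eq_zero] at this
  exact this.resolve_left (Nat.cast_ne_zero.2 (orderOf_pos w).ne')

theorem exists_norm [Module.Finite ℚ D] (ρ : G →* M D) : ∃ N : M D → ℚ, (∀ g X, N (ρ g * X) = N X) ∧
    (∀ X, X ≠ 0 → 0 < N X) ∧ ∀ X Y, N (X + Y) + N (Y - X) = 2 * (N X + N Y) := by
  haveI := Fintype.ofFinite G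
  let b := Module.finBasis ℚ (M D)
  refine ⟨fun X => ∑ g, ∑ i, b.repr (ρ g * X) i ^ 2, fun h X => ?_, fun X hX => ?_, fun X Y => ?_⟩
  · exact Fintype.sum_equiv (Equiv.mulRight h) _ _ fun g => by simp [mul_assoc]
  · obtain ⟨i, hi⟩ : ∃ i, b.repr X i ≠ 0 := by
      by_contra! k; exact hX (b.repr.injective (by ext i; simp [k]))
    refine sum_pos' (fun _ _ => sum_nonneg fun _ _ => sq_nonneg _) ⟨1, mem_univ _, ?_⟩
    exact sum_pos' (fun _ _ => sq_nonneg _) ⟨i, mem_univ _, by simpa using pow_pos (abs_pos.2 hi) 2⟩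
  · simp only [← sum_add_distrib, mul_sum]
    refine sum_congr rfl fun g _ => sum_congr rfl fun i _ => ?_
    simp only [mul_add, mul_sub, map_add, map_sub, Finsupp.add_apply, Finsupp.sub_apply]; ring

/-- Blichfeldt's lemma -/
theorem blich [Module.Finite ℚ D] (hG : ⁅(⊤ : Subgroup G), (⊤ : Subgroup G)⁆ = ⊤) {x : G} {a : D} (hx : ρ x = dg a 1)
    (ha : a * a = a - 1) : Red ρ ⊤ := by
  obtain ⟨N, N1, N2, N3⟩ := exists_norm ρ
  have a3 : a * a * a = -1 := by rw [ha, sub_mul, ha]; simp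
  have x3 : ρ (x * x * x) = dg (-1) 1 := by simp [hx, a3]
  have xi : ρ x⁻¹ = dg (1 - a) 1 := by
    rw [← one_mul (ρ x⁻¹), show (1 : M D) = dg (1 - a) 1 * ρ x by simp [hx, sub_mul, ha, dg_one], mul_assoc, ← map_mul]
    simp
  set f : M D := dg 1 0 with hf
  let F : G → M D := fun g => ρ g * f * ρ g⁻¹
  have pF : ∀ g, PI (F g) := fun g => pi_dg.map (cjM ((ρ.toHomUnits g)⁻¹))
  have r3 : ∀ g, ρ (g * (x * x * x) * g⁻¹) = 1 - F g - F g := fun g => by
    have : dg (-1 : D) 1 = 1 - f - f := by rw [← dg_one]; simp [hf]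
    rw [map_mul, map_mul, x3, this]
    simp [F, mul_sub, sub_mul, ← map_mul]
  have orth : ∀ X, N X = N (f * X) + N ((1 - f) * X) := fun X => by
    have h1 := N3 (f * X) ((1 - f) * X)
    have h2 := N1 (1 * (x * x * x) * 1⁻¹) X
    rw [r3] at h2
    simp only [F, inv_one, map_one, one_mul, mul_one] at h2
    rw [← add_mul, ← sub_mul, h2, add_sub_cancel, one_mul] at h1
    linarith
  have ci : ∀ g (X : M D), ρ g⁻¹ * (ρ g * X) = X := fun g X => by rw [← mul_assoc, ← map_mul]; simp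
  have cF : ∀ g, ρ (g * x * g⁻¹) * F g = F g * ρ (g * x * g⁻¹) := fun g => by
    have : ρ x * f = f * ρ x := by simp [hx, hf]
    simp only [F, map_mul, mul_assoc, ci]
    rw [← mul_assoc (ρ x), this, mul_assoc]
  have uF : ∀ g, ρ (g * x * g⁻¹) * F g = 1 - ρ (g * x * g⁻¹)⁻¹ := fun g => by
    have : ρ x * f = 1 - ρ x⁻¹ := by rw [xi, hx, ← dg_one]; simp [hf]
    simp only [F, mul_inv_rev, inv_inv, map_mul, mul_assoc, ci]
    rw [← mul_assoc (ρ x), this]
    simp [sub_mul, mul_sub, ← map_mul]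
  have cancel : ∀ g (X : M D), ρ g * X = 0 → X = 0 := fun g X h => by
    rw [← one_mul X, ← map_one ρ, ← inv_mul_cancel g, map_mul, mul_assoc, h, mul_zero]
  have cancel' : ∀ g (X : M D), X * ρ g = 0 → X = 0 := fun g X h => by
    rw [← mul_one X, ← map_one ρ, ← mul_inv_cancel g, map_mul, ← mul_assoc, h, zero_mul]
  refine ⟨_, pi_dg, le_St hG fun g₀ _ => ?_⟩
  suffices ∀ g, F g = f ∨ F g = 1 - f from (this g₀).imp
    (fun k => by rw [← hf]; nth_rewrite 2 [← k]; simp [F, mul_assoc, ← map_mul])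
    (fun k => by rw [← hf, ← k]; simp [F, mul_assoc, ← map_mul])
  by_contra! hb
  obtain ⟨g, hg, hm⟩ := Set.exists_min_image {g | F g ≠ f ∧ F g ≠ 1 - f} (fun g => N (F g * (1 - f)))
    (Set.toFinite _) hb
  set y := g * x * g⁻¹ with hy
  have b1 : F y ≠ f := fun k => by
    have : y ∈ St ρ f := by rw [mem_St]; nth_rewrite 2 [← k]; simp [F, mul_assoc, ← map_mul]
    have := mem_St.1 (mul_mem (mul_mem this this) this)
    rw [show y * y * y = g * (x * x * x) * g⁻¹ by simp [hy, mul_assoc], r3] at this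
    refine not_or.2 hg (pi_dg.comm (pF g) ?_)
    rw [← half_mul (F g * _), ← half_mul (_ * F g)]
    congr 1
    simp only [sub_mul, mul_sub, one_mul, mul_one, sub_sub, add_mul, mul_add] at this
    exact sub_right_injective this
  have b2 : F y ≠ 1 - f := fun k => by
    have e := ad_of_comm (A := ρ y) (by
      rw [show dg (0 : D) 1 = F y by rw [k, ← dg_one]; simp [hf]]; simp [F, mul_assoc, ← map_mul, hf])
    have e1 : ρ y * ρ y * ρ y + (ρ y + ρ y) = ρ y * ρ y + ρ y * ρ y + 1 := by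
      have : ρ x * ρ x * ρ x + (ρ x + ρ x) = ρ x * ρ x + ρ x * ρ x + 1 := by
        rw [hx, ← dg_one]; simp only [dg_mul_dg, dg_add, dg_inj, a3]; rw [ha]; constructor <;> noncomm_ring
      have := congrArg (fun X => ρ g * X * ρ g⁻¹) this
      simpa [hy, mul_add, add_mul, mul_assoc, ← map_mul] using this
    have e2 : (ρ y * ρ y) ^ 3 = 1 := by
      have : (x * x) ^ 3 = (x * x * x) * (x * x * x) := by simp [pow_succ, mul_assoc]
      rw [← map_mul, ← map_pow, show y * y = g * (x * x) * g⁻¹ by simp [hy, mul_assoc], conj_pow, this,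
        map_mul, map_mul, map_mul, x3]
      simp [dg_one, ← map_mul]
    rw [e] at e1 e2
    have e3 := congrFun (congrFun e1 0) 0
    simp only [ad_mul_ad, dg_mul_ad, Matrix.add_apply, ad00, dg00, Matrix.one_apply_eq, add_zero] at e3
    rw [ad_mul_ad, dg_pow, dg_eq_one] at e2
    set c := ρ y 0 1 * ρ y 1 0
    have e4 : (2 * c) ^ 3 = 8 := by rw [(Commute.ofNat_left 2 c).mul_pow, e2.1]; norm_num
    rw [show 2 * c = -1 by rw [two_mul]; exact eq_neg_of_add_eq_zero_left e3.symm] at e4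
    norm_num at e4
  have m := hm y ⟨b1, b2⟩
  have o := orth (ρ y * F g * (1 - f))
  have ff : f * (1 - f) = 0 := by rw [mul_sub, pi_dg.1, mul_one, sub_self]
  have o1 : N (f * (ρ y * F g * (1 - f))) = N (F y * (1 - f)) := by
    have n : ∀ X, N (-X) = N X := fun X => by
      have h1 := N3 X 0
      have h2 := N3 0 X
      simp only [add_zero, zero_sub, zero_add, sub_zero] at h1 h2
      linarith
    rw [uF, sub_mul, mul_sub, one_mul, ff, zero_sub, n]
    simp only [F, mul_assoc, N1, hy]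
  rw [o1, mul_assoc (ρ y), N1] at o
  have z0 : (1 - f) * (ρ y * (F g * (1 - f))) = 0 := by
    by_contra n
    have := N2 _ n
    linarith
  set u := ρ y * F g with hu
  have u11 : u 1 1 = 0 := by
    have := congrFun (congrFun z0 1) 1
    rw [← mul_assoc (ρ y), ← dg_one, ← hu] at this
    clear_value u
    simpa [hf, mul_ap] using this
  have w : ∀ g' : G, ρ g' = 1 + ((F g - f) + (F g - f)) → (F g - f) * (F g - f) = 0 → False := fun g' h1 h2 => by
    have := unip h1 (by simp [mul_add, add_mul, h2])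
    exact hg.1 (sub_eq_zero.1 (by rw [← half_mul (F g - f), this, smul_zero]))
  have r1 := r3 1
  simp only [F, inv_one, map_one, one_mul, mul_one] at r1
  have i := (pF g).1
  by_cases u10 : u 1 0 = 0
  · have k : (1 - f) * F g = 0 := cancel' y _ (by
      rw [mul_assoc, ← cF, ← dg_one, ← hy, ← hu]
      clear_value u
      refine M.ext' ?_ ?_ ?_ ?_ <;> simp [hf, mul_ap, u10, u11])
    rw [sub_mul, one_mul, sub_eq_zero] at k
    have k' : F g * f = f := by
      have l0 := congrFun (congrFun k 1) 0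
      have l1 := congrFun (congrFun k 1) 1
      have l2 := congrFun (congrFun i 0) 0
      have l3 := congrFun (congrFun i 0) 1
      simp [hf, mul_ap] at l0 l1
      simp only [mul_ap, l0, l1, mul_zero, add_zero] at l2 l3
      rcases idem_cases l2 with l | l
      · exact absurd (M.ext' l (by simpa [l] using l3.symm) l0 l1) (pF g).2
      · refine M.ext' ?_ ?_ ?_ ?_ <;> simp [hf, mul_ap, l, l0]
    refine w (x * x * x * (g * (x * x * x) * g⁻¹)) ?_ ?_
    · rw [map_mul, r1, r3]; simp only [mul_sub, sub_mul, ← k, one_mul, mul_one]; abel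
    · rw [mul_sub, sub_mul, sub_mul, i, ← k, k', pi_dg.1]; simp [hf]
  by_cases u01 : u 0 1 = 0
  · have k : F g * (1 - f) = 0 := cancel y _ (by
      rw [← mul_assoc, ← dg_one]
      refine M.ext' ?_ ?_ ?_ ?_ <;> simp [hf, mul_ap, u01, u11, ← hu])
    rw [mul_sub, mul_one, sub_eq_zero] at k
    have k' : f * F g = f := by
      have l0 := congrFun (congrFun k 0) 1
      have l1 := congrFun (congrFun k 1) 1
      have l2 := congrFun (congrFun i 0) 0
      have l3 := congrFun (congrFun i 1) 0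
      simp [hf, mul_ap] at l0 l1
      simp only [mul_ap, l0, l1, zero_mul, add_zero] at l2 l3
      rcases idem_cases l2 with l | l
      · exact absurd (M.ext' l l0 (by simpa [l] using l3.symm) l1) (pF g).2
      · refine M.ext' ?_ ?_ ?_ ?_ <;> simp [hf, mul_ap, l, l0]
    refine w (g * (x * x * x) * g⁻¹ * (x * x * x)) ?_ ?_
    · rw [map_mul, r1, r3]; simp only [mul_sub, sub_mul, ← k, one_mul, mul_one]; abel
    · rw [mul_sub, sub_mul, sub_mul, i, ← k, k', pi_dg.1]; simp [hf]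
  · have k : u * (1 - F g) = 0 := by rw [hu, mul_assoc, mul_sub, i, mul_one, sub_self, mul_zero]
    have l : ∀ j, (1 - F g) 0 j = 0 := fun j => by
      simpa [mul_ap, u11, u10] using congrFun (congrFun k 1) j
    have l' : ∀ j, (1 - F g) 1 j = 0 := fun j => by
      have := congrFun (congrFun k 0) j
      rw [mul_ap, l] at this
      simpa [u01] using this
    exact (pF g).compl.2 (M.ext' (l 0) (l 1) (l' 0) (l' 1))

end H23.GD
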