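import Cfsg.Agent.H19.Amb3
import Cfsg.Agent.H23.SecFour
import Cfsg.Agent.H10.QD

/-!
# Harada: a `2`-group `S` with `C_S(b) = D × B` for all involutions `b` of the four-group `B`
has sectional rank at most four
-/

set_option autoImplicit false

open Subgroup Cfsg
open H19 hiding eq_bot_mono

namespace H23.Har

variable {G : Type*} [Group G] [Finite G]

/-- every element has square one -/
def El (E : Subgroup G) : Prop := ∀ t ∈ E, t * t = 1

omit [Finite G] in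
theorem El.inv {E : Subgroup G} (h : El E) {a : G} (ha : a ∈ E) : a⁻¹ = a :=
  inv_eq_of_mul_eq_one_right (h a ha)

omit [Finite G] in
theorem El.comm {E : Subgroup G} (h : El E) {a b : G} (ha : a ∈ E) (hb : b ∈ E) :
    a * b = b * a := by
  rw [← h.inv (mul_mem ha hb), mul_inv_rev, h.inv ha, h.inv hb]

omit [Finite G] in
theorem El.ab {E : Subgroup G} (h : El E) : Ab E := ⟨⟨fun a b => Subtype.ext (h.comm a.2 b.2)⟩⟩

omit [Finite G] in
theorem El.J {E : Subgroup G} (h : El E) (g : G) : El (cj g E) := fun t ht => by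
  have := h _ (mem_cj.1 ht)
  calc t * t = g * (g⁻¹ * t * g * (g⁻¹ * t * g)) * g⁻¹ := by group
    _ = 1 := by rw [this]; group

theorem relIndex_le_of_fun {K X Y : Subgroup G} (f : G → G) (hf : ∀ x ∈ X, f x ∈ Y)
    (hK : ∀ x ∈ X, ∀ x' ∈ X, f x = f x' → x⁻¹ * x' ∈ K) : K.relIndex X ≤ #Y := by
  refine Nat.card_le_card_of_injective
    (fun q : X ⧸ K.subgroupOf X => (⟨f (q.out : X), hf _ q.out.2⟩ : Y)) fun a b h => ?_
  rw [← a.out_eq', ← b.out_eq', QuotientGroup.eq]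
  exact hK _ a.out.2 _ b.out.2 (congrArg Subtype.val h)

theorem two_mul_le {H K : Subgroup G} (h : H < K) : 2 * #H ≤ #K := by
  obtain ⟨c, hc⟩ := card_dvd h.le
  have h1 := card_lt h
  have h2 := card_pos H
  rcases c with _ | _ | c
  · omega
  · omega
  · rw [hc]; nlinarith

theorem card_le_idx {T X M : Subgroup G} (hX : X ≤ M) {k : ℕ} (h : T.relIndex M ≤ k) :
    #X ≤ #(T ⊓ X) * k := by
  rw [← card_inf_mul_relIndex T X]
  exact Nat.mul_le_mul_left _ ((relIndex_le_of_le_right hX (relIndex_ne_zero' _ _)).trans h)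

theorem card_le_comm {X Y : Subgroup G} {y : G} (h : ∀ x ∈ X, x * y * x⁻¹ * y⁻¹ ∈ Y) :
    #X ≤ #(X ⊓ C[y]) * #Y := by
  rw [inf_comm]
  refine card_le_idx le_rfl (relIndex_le_of_fun _ h fun x _ x' _ e => mem_cent1.2 ?_)
  have e' := mul_right_cancel e
  calc x⁻¹ * x' * y = x⁻¹ * (x' * y * x'⁻¹) * x' := by group
    _ = y * (x⁻¹ * x') := by rw [← e']; group

omit [Finite G] in
theorem comm_mem {X Y : Subgroup G} (hsq : ∀ x ∈ X, x * x ∈ Y) {x y : G} (hx : x ∈ X)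
    (hy : y ∈ X) : x * y * x⁻¹ * y⁻¹ ∈ Y := by
  have : x * y * x⁻¹ * y⁻¹ = x * x * (x⁻¹ * y * (x⁻¹ * y)) * (y * y)⁻¹ := by group
  rw [this]
  exact mul_mem (mul_mem (hsq _ hx) (hsq _ (mul_mem (inv_mem hx) hy))) (inv_mem (hsq _ hy))

/-- the elementary abelian case -/
structure K4 (S T B : Subgroup G) : Prop where
  pg : PG 2 S
  le : T ≤ S
  ble : B ≤ T
  cb : #B = 4
  ct : #T = 16
  el : El T
  cen : ∀ b ∈ B, b ≠ 1 → ∀ y ∈ S, y * b = b * y → y ∈ T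

namespace K4

variable {S T B : Subgroup G} (h : K4 S T B)
include h

theorem small {K : Subgroup G} (hK : K ≤ T) (hd : K ⊓ B = ⊥) : #K ≤ 4 := by
  have h1 := card_sup_of_disjoint (norms_of_comm h.el.ab h.ble hK) hd
  have h2 := card_le (sup_le hK h.ble)
  rw [h1, h.cb, h.ct] at h2
  omega

theorem cent_le {y : G} (hy : y ∈ S) (hy' : y ∉ T) : #(T ⊓ C[y]) ≤ 4 := by
  refine h.small inf_le_left (eq_bot_iff.2 fun b hb => ?_)
  by_contra h1
  exact hy' (h.cen b hb.2 h1 y hy (mem_cent1.1 hb.1.2).symm)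

theorem le_norm : T ≤ S ⊓ N(T) := le_inf h.le le_normalizer

theorem idx_le {K : Subgroup G} {b : G} (hb : b ∈ B) (h1 : b ≠ 1) (hbK : b ∈ K) :
    T.relIndex (S ⊓ N(T)) ≤ #⁅K, S ⊓ N(T)⁆ := by
  refine relIndex_le_of_fun (fun x => b * x * b⁻¹ * x⁻¹)
    (fun x hx => commutator_mem_commutator hbK hx) fun x hx x' hx' e => ?_
  refine h.cen b hb h1 _ (mul_mem (inv_mem hx.1) hx'.1) ?_
  have e' : x * b⁻¹ * x⁻¹ = x' * b⁻¹ * x'⁻¹ := by
    apply mul_left_cancel (a := b)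
    simpa only [mul_assoc] using e
  rw [h.el.inv (h.ble hb)] at e'
  calc x⁻¹ * x' * b = x⁻¹ * (x' * b * x'⁻¹) * x' := by group
    _ = b * (x⁻¹ * x') := by rw [← e']; group

theorem idx : T.relIndex (S ⊓ N(T)) ≤ 4 := by
  have hT : T ≠ ⊥ := ne_bot_iff_one_lt_card.2 (by rw [h.ct]; norm_num)
  have hN : PG 2 (S ⊓ N(T)) := h.pg.dvd (card_dvd inf_le_left)
  have hlt := PiN.commg_lt (h.pg.dvd (card_dvd h.le)) hN inf_le_right hT
  by_cases hd : ⁅T, S ⊓ N(T)⁆ ⊓ B = ⊥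
  · obtain ⟨b, hb, h1⟩ := exists_ne_one (ne_bot_iff_one_lt_card.2 (by rw [h.cb]; norm_num) : B ≠ ⊥)
    exact (h.idx_le hb h1 (h.ble hb)).trans (h.small hlt.le hd)
  · obtain ⟨b, hb, h1⟩ := exists_ne_one hd
    have h2 := two_mul_le (PiN.commg_lt (h.pg.dvd (card_dvd (hlt.le.trans h.le))) hN
      (commg_normr _ _) (ne_bot_of_mem hb.1 h1))
    have h3 := two_mul_le hlt
    have h4 := h.idx_le hb.2 h1 hb.1
    rw [h.ct] at h3
    omega

theorem e16 {E : Subgroup G} (hE : E ≤ S ⊓ N(T)) (he : El E) (hc : #E = 16) (hne : E ≠ T) :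
    #(T ⊓ E) ≤ 4 ∧ ∀ v ∈ S ⊓ N(T), v * v = 1 → v ∈ T ∨ v ∈ E := by
  have h0 : ∀ e ∈ E, T ⊓ E ≤ T ⊓ C[e] := fun e he' =>
    inf_le_inf_left _ fun a ha => mem_cent1.2 (he.comm ha he')
  obtain ⟨u, hu, hu'⟩ : ∃ u ∈ E, u ∉ T := by
    by_contra hc'
    push Not at hc'
    exact hne (eq_of_le_of_card_eq hc' (hc.trans h.ct.symm))
  have h1 := (card_le (h0 u hu)).trans (h.cent_le (hE hu).1 hu')
  have h2 := card_sup_mul_inf (hE.trans inf_le_right)
  have h3 := card_mul_relIndex h.le_norm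
  have h4 := card_le (sup_le h.le_norm hE)
  have h5 := h.idx
  rw [h.ct] at h2 h3
  rw [hc] at h2
  have h6 : 64 ≤ #(T ⊔ E) := by nlinarith
  have h7 : T ⊔ E = S ⊓ N(T) := eq_of_le_of_card_eq (sup_le h.le_norm hE) (by omega)
  have h8 : 4 ≤ #(T ⊓ E) := by nlinarith
  refine ⟨h1, fun v hv hv2 => ?_⟩
  obtain ⟨t, ht, e, he', rfl⟩ := (mem_sup_of_norm (hE.trans inf_le_right)).1 (h7.ge hv)
  by_cases heT : e ∈ T
  · exact Or.inl (mul_mem ht heT)
  have h9 : T ⊓ E = T ⊓ C[e] := eq_of_le_of_card_eq (h0 e he')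
    (le_antisymm (card_le (h0 e he')) ((h.cent_le (hE he').1 heT).trans h8))
  refine Or.inr (mul_mem (h9.ge ⟨ht, mem_cent1.2 ?_⟩).2 he')
  rw [← inv_eq_of_mul_eq_one_right hv2, mul_inv_rev, he.inv he', h.el.inv ht]

theorem uniq {E F : Subgroup G} (hE : E ≤ S ⊓ N(T)) (he : El E) (hc : #E = 16) (hne : E ≠ T)
    (hF : F ≤ S ⊓ N(T)) (hf : El F) (hc' : #F = 16) : F = T ∨ F = E := by
  rw [or_iff_not_imp_left]
  intro hne'
  obtain ⟨u, hu, hu'⟩ : ∃ u ∈ F, u ∉ T := by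
    by_contra hc''
    push Not at hc''
    exact hne' (eq_of_le_of_card_eq hc'' (hc'.trans h.ct.symm))
  have h1 := fun v (hv : v ∈ F) => (h.e16 hE he hc hne).2 v (hF hv) (hf v hv)
  refine eq_of_le_of_card_eq (fun v hv => ?_) (hc'.trans hc.symm)
  rcases h1 v hv with h2 | h2
  · rcases h1 _ (mul_mem hu hv) with h3 | h3
    · exact absurd ((mul_mem_cancel_right h2).1 h3) hu'
    · exact (mul_mem_cancel_left ((h1 u hu).resolve_left hu')).1 h3
  · exact h2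

theorem low {X Y : Subgroup G} (hX : X ≤ S) (hsq : ∀ x ∈ X, x * x ∈ Y) {y : G} (hy : y ∈ X)
    (hy' : y ∉ T) (hn : y ∈ N(T)) : #(T ⊓ X) ≤ 4 * #(T ⊓ Y) := by
  refine (card_le_comm (y := y) (X := T ⊓ X) (Y := T ⊓ Y) fun x hx => ⟨?_, comm_mem hsq hx.2 hy⟩).trans
    (Nat.mul_le_mul_right _ ((card_le (inf_le_inf_right _ inf_le_left)).trans
      (h.cent_le (hX hy) hy')))
  rw [mul_assoc, mul_assoc, ← mul_assoc y]
  exact mul_mem hx.1 (conj_mem_of_norm hn (inv_mem hx.1))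

theorem sec_N {X Y : Subgroup G} (hX : X ≤ S ⊓ N(T)) (hsq : ∀ x ∈ X, x * x ∈ Y) :
    #X ≤ 16 * #Y := by
  by_cases hT : X ≤ T
  · have := card_le hT
    have := card_pos Y
    rw [h.ct] at *
    omega
  obtain ⟨y, hy, hy'⟩ := SetLike.not_le_iff_exists.1 hT
  have h1 := h.low (hX.trans inf_le_left) hsq hy hy' (hX hy).2
  have h2 := card_le_idx hX h.idx
  have h3 := card_le (inf_le_right : T ⊓ Y ≤ Y)
  omega

section
variable {w : G} (hw : w ∈ S ⊓ N(S ⊓ N(T))) (hw' : w ∉ S ⊓ N(T))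
include hw hw'

theorem sw_le : cj w T ≤ S ⊓ N(T) := cj_le_of_mem_norm hw.2 h.le_norm

theorem sw_ne : cj w T ≠ T := fun e => hw' ⟨hw.1, mem_norm_iff_cj.2 e⟩

theorem sw_uniq {F : Subgroup G} (hF : F ≤ S ⊓ N(T)) (hf : El F) (hc : #F = 16) :
    F = T ∨ F = cj w T :=
  h.uniq (h.sw_le hw hw') (h.el.J w) ((card_cj _ _).trans h.ct) (h.sw_ne hw hw') hF hf hc

theorem sw_sw : cj w (cj w T) = T :=
  (h.sw_uniq hw hw' (cj_le_of_mem_norm hw.2 (h.sw_le hw hw')) ((h.el.J w).J w)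
    (by rw [card_cj, card_cj, h.ct])).resolve_right fun e => h.sw_ne hw hw' (cj_inj.1 e)

theorem sw_mem {v : G} (hv : v ∈ S) (hvn : cj v T ≤ S ⊓ N(T)) :
    v ∈ S ⊓ N(T) ∨ w⁻¹ * v ∈ S ⊓ N(T) := by
  rcases h.sw_uniq hw hw' hvn (h.el.J v) ((card_cj _ _).trans h.ct) with e | e
  · exact Or.inl ⟨hv, mem_norm_iff_cj.2 e⟩
  · exact Or.inr ⟨S.mul_mem (S.inv_mem hw.1) hv, mem_norm_iff_cj.2 (by rw [cj_mul, e, cj_inv_cj])⟩

theorem sw_idx : (S ⊓ N(T)).relIndex (S ⊓ N(S ⊓ N(T))) = 2 := by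
  refine relIndex_eq_two_iff_exists_notMem_and'.2 ⟨w⁻¹, inv_mem hw, by rwa [inv_mem_iff],
    fun v hv => (h.sw_mem hw hw' hv.1 (cj_le_of_mem_norm hv.2 h.le_norm)).symm⟩

theorem sw_idx8 : T.relIndex (S ⊓ N(S ⊓ N(T))) ≤ 8 := by
  rw [← relIndex_mul_relIndex T _ _ h.le_norm (le_inf inf_le_left le_normalizer), h.sw_idx hw hw']
  have := h.idx
  omega

theorem sw_el {E : Subgroup G} (hE : E ≤ S ⊓ N(S ⊓ N(T))) (he : El E) (hwE : w ∈ E) : #E ≤ 8 := by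
  obtain ⟨h1, h2⟩ := h.e16 (h.sw_le hw hw') (h.el.J w) ((card_cj _ _).trans h.ct) (h.sw_ne hw hw')
  have h3 := card_le_idx hE (h.sw_idx hw hw').le
  have h4 : S ⊓ N(T) ⊓ E ≤ T ⊓ cj w T := fun v hv => by
    have e : w * v * w⁻¹ = v := by rw [he.comm hwE hv.2]; group
    rcases h2 v hv.1 (he v hv.2) with h5 | h5
    · exact ⟨h5, e ▸ conj_mem_cj.2 h5⟩
    · exact ⟨by rw [← h.sw_sw hw hw', ← e]; exact conj_mem_cj.2 h5, h5⟩
  have := card_le h4
  omega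

theorem sw_eq : S ⊓ N(S ⊓ N(T)) = S := by
  have hN : S ⊓ N(T) ≤ S ⊓ N(S ⊓ N(T)) := le_inf inf_le_left le_normalizer
  refine nil_eq_of_norm_le h.pg.nil inf_le_left fun v hv => ?_
  have h1 := cj_le_of_mem_norm hv.2 (h.le_norm.trans hN)
  by_cases h2 : cj v T ≤ S ⊓ N(T)
  · rcases h.sw_mem hw hw' hv.1 h2 with h3 | h3
    · exact hN h3
    · exact (mul_mem_cancel_left (inv_mem hw)).1 (hN h3)
  obtain ⟨u, hu, hu'⟩ := SetLike.not_le_iff_exists.1 h2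
  have := h.sw_el (h1 hu) hu' h1 (h.el.J v) hu
  rw [card_cj, h.ct] at this
  omega

theorem sec_M {X Y : Subgroup G} (hX : X ≤ S ⊓ N(S ⊓ N(T))) (hsq : ∀ x ∈ X, x * x ∈ Y)
    (hwX : w ∈ X) : #X ≤ 16 * #Y := by
  have h1 := card_le_idx hX (h.sw_idx8 hw hw')
  by_cases hc : T ⊓ X ≤ cj w T
  · by_cases hY : Y = ⊥
    · have := h.sw_el hw hw' hX (fun x hx => by simpa [hY] using hsq x hx) hwX
      have := card_pos Y
      omega
    have h2 := ne_bot_iff_one_lt_card.1 hY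
    have h3 := (card_le (le_inf inf_le_left hc)).trans
      (h.e16 (h.sw_le hw hw') (h.el.J w) ((card_cj _ _).trans h.ct) (h.sw_ne hw hw')).1
    omega
  obtain ⟨t, ht, ht'⟩ := SetLike.not_le_iff_exists.1 hc
  have hu : w * t * w⁻¹ ∉ T := fun e => ht' (by rwa [← h.sw_sw hw hw', conj_mem_cj] at e)
  have h2 := h.low (hX.trans inf_le_left) hsq (mul_mem (mul_mem hwX ht.2) (inv_mem hwX)) hu
    (h.sw_le hw hw' (conj_mem_cj.2 ht.1)).2
  have h3 := two_mul_le (lt_of_le_of_ne (inf_le_right : T ⊓ Y ≤ Y) fun e => hu <|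
    (T.mul_mem_cancel_right (T.inv_mem ht.1)).1 (e.ge (comm_mem hsq hwX ht.2)).1)
  omega

end

theorem sec {X Y : Subgroup G} (hX : X ≤ S) (hsq : ∀ x ∈ X, x * x ∈ Y) : #X ≤ 16 * #Y := by
  by_cases h1 : X ≤ S ⊓ N(T)
  · exact h.sec_N h1 hsq
  obtain ⟨w, hw, hw'⟩ := SetLike.not_le_iff_exists.1 h1
  obtain ⟨v, hv, hv'⟩ := SetLike.exists_of_lt
    (h.pg.lt_norm (lt_of_le_of_ne (inf_le_left : S ⊓ N(T) ≤ S) fun e => h1 (hX.trans e.ge)))
  have e := h.sw_eq hv hv'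
  exact h.sec_M (e.ge (hX hw)) hw' (hX.trans e.ge) hsq hw

end K4

omit [Finite G] in
theorem ex_sq {P K : Subgroup G} : ∀ (k : ℕ) {y : G}, y ∈ P → y ∉ K → y ^ 2 ^ k ∈ K →
    ∃ y ∈ P, y ∉ K ∧ y * y ∈ K
  | 0, y, _, h, h' => absurd (by simpa using h') h
  | k + 1, y, hy, h, h' => by
    by_cases h2 : y * y ∈ K
    · exact ⟨y, hy, h, h2⟩
    · exact ex_sq k (mul_mem hy hy) h2 (by rwa [← sq, ← pow_mul, ← pow_succ'])

section
variable {S T D B : Subgroup G} {n : ℕ} {c : G} {e : ℤ}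

theorem mc_eq (hS : PG 2 S) (hT : T ≤ S) (hd : Dprod D B T) (hD : H10.MC D n c e)
    (hB : IsKleinFour B) (cen : ∀ b ∈ B, b ≠ 1 → ∀ y ∈ S, y * b = b * y → y ∈ T) : S = T := by
  by_contra hne
  obtain ⟨y, hy, hy'⟩ := SetLike.exists_of_lt (hS.lt_norm (lt_of_le_of_ne hT (Ne.symm hne)))
  obtain ⟨k, hk⟩ := (hS.dvd (orderOf_dvd_card' hy.1)).exists_pow (orderOf_pos y).ne'
  obtain ⟨y, hy, hy', hy2⟩ := ex_sq k hy hy' (by rw [← hk, pow_orderOf_eq_one]; exact one_mem _)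
  have hel : El B := fun b hb => by rw [← sq, H10.kf_sq hB hb]
  have hBZ : B ≤ Z(T) := le_inf hd.right_le
    (hd.sup ▸ cents_sup (cents_symm hd.cent) (comm_iff_le_cent.1 hel.ab))
  have hZ : ∀ b ∈ B, y * b * y⁻¹ ∈ Z(T) := fun b hb =>
    conj_mem_of_norm (norms_inf le_rfl (norm_le_norm_cent T) hy.2) (hBZ hb)
  have hz := hBZ.trans inf_le_left
  have key : ∀ b ∈ B, b ≠ 1 → b * (y * b * y⁻¹) ∉ B := fun b hb h1 hc => by
    by_cases h2 : b * (y * b * y⁻¹) = 1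
    · refine hy' (cen b hb h1 y hy.1 ?_)
      rw [← mul_inv_eq_iff_eq_mul, ← inv_eq_of_mul_eq_one_right h2, hel.inv hb]
    · refine hy' (cen _ hc h2 y hy.1 ?_)
      have h3 := mem_cent.1 (hBZ hb).2 _ hy2
      have h4 := mem_cent.1 (hBZ hb).2 _ (hZ b hb).1
      calc y * (b * (y * b * y⁻¹)) = y * b * y⁻¹ * (y * y * b) * y⁻¹ := by group
        _ = y * b * y⁻¹ * b * y := by rw [h3]; group
        _ = _ := by rw [h4]
  have key2 : ∀ b ∈ B, b ≠ 1 → H10.mcZ c n * (b * (y * b * y⁻¹)) ∈ B := fun b hb h1 => by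
    have h2 := mul_mem (hBZ hb) (hZ b hb)
    obtain ⟨d, hd', b', hb', h3⟩ := hd.cp.mem h2.1
    have h4 : d ∈ C(D) := mem_cent.2 fun s hs => by
      have h5 := mem_cent.1 h2.2 s (hd.left_le hs)
      rw [h3, mul_assoc d, mem_cent.1 (hd.cent hs) b' hb', ← mul_assoc, ← mul_assoc] at h5
      exact mul_right_cancel h5
    rcases (hD.mem_center_iff hd').1 h4 with h5 | h5
    · exact absurd (by rwa [h3, h5, one_mul]) (key b hb h1)
    · rwa [h3, h5, ← mul_assoc, hD.z_mul_self, one_mul]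
  obtain ⟨a, ha, b, hb, ha1, hb1, hab⟩ := H10.kf_exists hB
  refine key _ (mul_mem ha hb) (fun h => hab (by rw [← hel.inv ha, inv_eq_of_mul_eq_one_right h])) ?_
  have h1 := mul_mem (key2 a ha ha1) (key2 b hb hb1)
  have h2 := mem_cent.1 (mul_mem (hBZ ha) (hZ a ha)).2 _ (hd.left_le hD.z_mem)
  have h3 := mem_cent.1 (hBZ hb).2 _ (hZ a ha).1
  convert h1 using 1
  calc a * b * (y * (a * b) * y⁻¹) = a * (b * (y * a * y⁻¹)) * (y * b * y⁻¹) := by group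
    _ = H10.mcZ c n * (H10.mcZ c n * (a * (y * a * y⁻¹))) * (b * (y * b * y⁻¹)) := by
      rw [← h3, ← mul_assoc (H10.mcZ c n), hD.z_mul_self]; group
    _ = _ := by
      rw [← mul_assoc (H10.mcZ c n * (a * _)) (H10.mcZ c n), mul_assoc (H10.mcZ c n) _ (H10.mcZ c n),
        ← h2]

theorem mc_sec (hd : Dprod D B T) (hD : H10.MC D n c e) (hB : IsKleinFour B) {X Y : Subgroup G}
    (hX : X ≤ T) (hsq : ∀ x ∈ X, x * x ∈ Y) : #X ≤ 16 * #Y := by
  have hel : El B := fun b hb => by rw [← sq, H10.kf_sq hB hb]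
  have hc : zpowers c ≤ C(B) := hD.le.trans hd.cent
  have hA := comm_sup (comm_zpowers c) hel.ab hc
  have h1 := card_sup_of_disjoint (norms_of_cents (cents_symm hc))
    (eq_bot_iff.2 ((inf_le_inf_right _ hD.le).trans hd.inf.le))
  have h2 := card_mul_relIndex (sup_le (hD.le.trans hd.left_le) hd.right_le)
  have h3 := card_mul_relIndex hD.le
  have h4 : #B = 4 := hB.card_four
  have h5 := card_pos (zpowers c)
  rw [← hd.card, h1, ← h3, hD.idx, h4] at h2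
  have h6 := card_le_idx hX (show (zpowers c ⊔ B).relIndex T ≤ 2 by nlinarith)
  have hz : zpowers (H10.mcZ c n) ≤ C(B) := (zpowers_le.2 hD.z_mem).trans hd.cent
  have h7 := Nat.le_of_dvd (Nat.mul_pos (card_pos _) (card_pos _))
    (card_sup_dvd (norms_of_cents (cents_symm hz)))
  rw [Nat.card_zpowers, hD.z_orderOf, h4] at h7
  have h8 := card_le_idx (T := zpowers (H10.mcZ c n) ⊔ B) (le_refl ((zpowers c ⊔ B) ⊓ X))
    (relIndex_le_of_fun (fun x => x * x) (fun x hx => hsq x hx.2) fun x hx x' hx' e => by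
      have h9 := mul_mem (inv_mem hx.1 : x⁻¹ ∈ zpowers c ⊔ B) hx'.1
      have h10 : x⁻¹ * x' * (x⁻¹ * x') = 1 := by
        have := mul_comm_of_comm hA hx'.1 (inv_mem hx.1 : x⁻¹ ∈ zpowers c ⊔ B)
        calc x⁻¹ * x' * (x⁻¹ * x') = x⁻¹ * (x' * x⁻¹) * x' := by group
          _ = (x * x)⁻¹ * (x' * x') := by rw [this]; group
          _ = 1 := by rw [e, inv_mul_cancel]
      obtain ⟨d, hd', b, hb, h11⟩ := (mem_sup_of_norm (norms_of_cents (cents_symm hc))).1 h9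
      rw [h11] at h10 ⊢
      refine mul_mem_sup ?_ hb
      have h12 : d ^ 2 = 1 := by
        rw [mul_assoc, ← mul_assoc b, mem_cent.1 (hc hd') b hb, mul_assoc, hel b hb] at h10
        rw [sq]; simpa using h10
      rcases hD.invol_in hd' h12 with h | h <;> rw [h]
      exacts [one_mem _, mem_zpowers _])
  have h9 := card_le (inf_le_left : (zpowers (H10.mcZ c n) ⊔ B) ⊓ ((zpowers c ⊔ B) ⊓ X) ≤ _)
  nlinarith

end

theorem sec_of_syl {S : Subgroup G} (hS : Syl 2 S ⊤) {k : ℕ}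
    (h : ∀ X Y : Subgroup G, X ≤ S → (∀ x ∈ X, x * x ∈ Y) → #X ≤ 2 ^ k * #Y) :
    SectionalPRankLE 2 k G := by
  have h' : ∀ H N : Subgroup G, N ≤ H → (∀ x ∈ H, x * x ∈ N) → N.relIndex H ≤ 2 ^ k := by
    intro H N hNH hsq
    have hn : H ≤ N(N) := fun g hg => mem_norm_of_cj_le fun x hx => by
      obtain ⟨y, hy, rfl⟩ := mem_cj'.1 hx
      exact conj_mem_of_sq hNH hsq hg hy
    haveI := NormalIn.subgroupOf ⟨hNH, hn⟩
    have hp : IsPGroup 2 (H ⧸ N.subgroupOf H) := fun a => ⟨1, by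
      obtain ⟨a, rfl⟩ := QuotientGroup.mk_surjective a
      rw [← QuotientGroup.mk_pow, QuotientGroup.eq_one_iff, pow_one, sq]
      exact hsq a a.2⟩
    obtain ⟨j, hj⟩ := hp.exists_card_eq
    obtain ⟨P, hP⟩ := exists_syl 2 H
    obtain ⟨g, -, hg⟩ := hS.scj_le le_top hP.pi
    have h1 := hP.sup_eq hNH (by rw [relIndex, index, hj]; exact PiN.prime_pow Nat.prime_two j)
    have h2 := h _ (cj g (N ⊓ P)) hg fun x hx => by
      obtain ⟨y, hy, rfl⟩ := mem_cj'.1 hx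
      rw [show g * y * g⁻¹ * (g * y * g⁻¹) = g * (y * y) * g⁻¹ by group, conj_mem_cj]
      exact ⟨hsq y (hP.le hy), mul_mem hy hy⟩
    rw [card_cj, card_cj, ← card_inf_mul_relIndex N P, mul_comm] at h2
    rw [← h1, relIndex_sup_of_norm (hP.le.trans hn)]
    exact Nat.le_of_mul_le_mul_right h2 (card_pos _)
  intro H N _ A _ hA
  have h1 := h' ((A.comap (QuotientGroup.mk' N)).map H.subtype) (N.map H.subtype)
    (map_mono fun x hx => by
      rw [mem_comap, QuotientGroup.mk'_apply, (QuotientGroup.eq_one_iff x).2 hx]; exact one_mem _)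
    (by rintro _ ⟨x, hx, rfl⟩
        refine ⟨x * x, ?_, map_mul _ _ _⟩
        rw [SetLike.mem_coe, ← QuotientGroup.eq_one_iff, QuotientGroup.mk_mul, ← sq]
        exact hA _ hx)
  rw [relIndex_map_map_of_injective _ _ H.subtype_injective] at h1
  have h2 := relIndex_ker (A.comap (QuotientGroup.mk' N)) (QuotientGroup.mk' N)
  rw [QuotientGroup.ker_mk', map_comap_eq_self_of_surjective (QuotientGroup.mk'_surjective N)] at h2
  rwa [h2] at h1

theorem main {T D B : Subgroup G} (hT : IsPGroup 2 T) (hprod : IsInternalDirectProduct D B T)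
    (hD : (∃ m : ℕ, 2 ≤ m ∧ Nonempty (D ≃* DihedralGroup m)) ∨ IsQuasiDihedral D)
    (hB : IsKleinFour B)
    (hTb : ∀ b ∈ B, orderOf b = 2 → T ≤ C[b] ∧ Odd (T.relIndex C[b])) :
    SectionalPRankLE 2 4 G := by
  have hT2 := PiN.of_isPGroup Nat.prime_two hT
  obtain ⟨S, hS, hTS⟩ := hT2.exists_syl le_top
  have hd : Dprod D B T :=
    ⟨fun a ha => mem_cent.2 fun b hb => (hprod.2.2.1 a ha b hb).symm, hprod.2.2.2.2, hprod.2.2.2.1⟩
  have cen : ∀ b ∈ B, b ≠ 1 → ∀ y ∈ S, y * b = b * y → y ∈ T := fun b hb h1 y hy e => by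
    obtain ⟨h2, h3⟩ := hTb b hb (orderOf_eq_prime (H10.kf_sq hB hb) h1)
    exact ((syl_mk h2 hT2 h3.not_two_dvd_nat).max (le_inf hTS h2) inf_le_right
      (hS.pi.dvd (card_dvd inf_le_left))).le ⟨hy, mem_cent1.2 e⟩
  have hD' : IsKleinFour D ∨ ∃ n c e, H10.MC D n c e := by
    rcases hD with ⟨m, hm, ⟨e⟩⟩ | hD
    · rcases H10.dihedral_cases (hT.to_le hd.left_le) hm e with h | ⟨n, x, h, -⟩
      exacts [Or.inl h, Or.inr ⟨n, x, _, h⟩]
    · obtain ⟨n, x, y, h⟩ := H10.exists_QD hD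
      exact Or.inr ⟨n, x, _, h.mc⟩
  refine sec_of_syl hS fun X Y hX hsq => ?_
  rcases hD' with h | ⟨n, c, e, h⟩
  · refine K4.sec (T := T) (B := B) ⟨hS.pi, hTS, hd.right_le, hB.card_four, ?_, fun t ht => ?_,
      cen⟩ hX hsq
    · rw [← hd.card, h.card_four, hB.card_four]
    · obtain ⟨d, hd', b, hb, rfl⟩ := hd.cp.mem ht
      rw [mul_assoc, ← mul_assoc b, mem_cent.1 (hd.cent hd') b hb, mul_assoc, ← sq b,
        H10.kf_sq hB hb, mul_one, ← sq, H10.kf_sq h hd']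
  · exact mc_sec hd h hB (hX.trans (mc_eq hS.pi hTS hd h hB cen).le) hsq

end H23.Har
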