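import Cfsg.Agent.H23.Mann
import Cfsg.Agent.H23.FrobThm

/-!
# Itô's theorem on groups with two conjugacy class sizes
-/

open Subgroup H24
open scoped Pointwise commutatorElement

namespace H23

variable {G : Type*} [Group G] [Finite G]

theorem ncard_pow_ordCompl {H : Subgroup G} (hc : IsMulCommutative H) {p : ℕ} (hp : p.Prime) :
    {x : G | x ∈ H ∧ x ^ ordCompl[p] (Nat.card G) = 1}.ncard = ordCompl[p] (Nat.card H) := by
  haveI := Fact.mk hp
  set m := ordCompl[p] (Nat.card G)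
  let f : H →* H := MonoidHom.mk' (fun x => x ^ m) fun a b =>
    Commute.mul_pow (hc.is_comm.comm a b) m
  have h1 : {x : G | x ∈ H ∧ x ^ m = 1}.ncard = Nat.card f.ker := by
    rw [← card_map_of_injective H.subtype_injective, ← SetLike.coe_sort_coe, Nat.card_coe_set_eq]
    congr 1
    ext x
    exact ⟨fun h => ⟨⟨x, h.1⟩, Subtype.ext h.2, rfl⟩,
      fun ⟨y, hy, e⟩ => e ▸ ⟨y.2, congrArg Subtype.val hy⟩⟩
  have h2 : ¬ p ∣ Nat.card f.ker := fun h => by
    obtain ⟨x, hx⟩ := exists_prime_orderOf_dvd_card' p h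
    refine Nat.not_dvd_ordCompl hp (Nat.card_pos (α := G)).ne' ?_
    exact hx.symm.dvd.trans (orderOf_dvd_of_pow_eq_one (n := m) (Subtype.ext x.2))
  have h3 : IsPGroup p f.range := by
    rintro ⟨_, x, rfl⟩
    refine ⟨(Nat.card G).factorization p, Subtype.ext (Subtype.ext ?_)⟩
    change ((x : G) ^ m) ^ _ = 1
    rw [← pow_mul, mul_comm, Nat.ordProj_mul_ordCompl_eq_self, pow_card_eq_one']
  obtain ⟨k, hk⟩ := h3.exists_card_eq
  rw [h1, ← card_mul_index f.ker, index_ker, hk, mul_comm, Nat.ordCompl_pow_mul_of_not_dvd k hp h2]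

/-- All centralizers of non-central elements are abelian. -/
def CAg (G : Type*) [Group G] : Prop :=
  ∀ u : G, u ∉ center G → IsMulCommutative (centralizer ({u} : Set G))

omit [Finite G] in
theorem CAg.cent_eq (h : CAg G) {u v : G} (hu : u ∉ center G) (hv : v ∉ center G)
    (huv : v ∈ centralizer ({u} : Set G)) : centralizer ({v} : Set G) = centralizer {u} :=
  le_antisymm
    (fun w hw => mem_cent.2 (congrArg Subtype.val
      ((h v hv).is_comm.comm ⟨w, hw⟩ ⟨u, mem_cent_comm.1 huv⟩)))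
    fun w hw => mem_cent.2 (congrArg Subtype.val ((h u hu).is_comm.comm ⟨w, hw⟩ ⟨v, huv⟩))

theorem CAg.count (h : CAg G) (S : Set G) {d e : ℕ} (he : {x | x ∈ center G ∧ x ∈ S}.ncard = e)
    (hd : ∀ u ∉ center G, {x | x ∈ centralizer ({u} : Set G) ∧ x ∈ S}.ncard = d) :
    S.ncard + ((fun u : G => centralizer ({u} : Set G)) '' (center G : Set G)ᶜ).ncard * e =
      e + ((fun u : G => centralizer ({u} : Set G)) '' (center G : Set G)ᶜ).ncard * d := by
  classical
  have := Fintype.ofFinite G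
  set T := (fun u : G => centralizer ({u} : Set G)) '' (center G : Set G)ᶜ
  have h1 : ∀ S' : Set G, (center G : Set G) ∩ S ⊆ S' →
      S'.ncard = e + (S' \ ((center G : Set G) ∩ S)).ncard := fun S' hS' => by
    rw [← Set.ncard_sdiff_add_ncard_of_subset hS', add_comm]; exact congrArg (· + _) he
  rw [h1 S Set.inter_subset_right, add_assoc, add_right_inj, Set.ncard_eq_toFinset_card',
    Finset.card_eq_sum_card_fiberwise (f := fun u : G => centralizer ({u} : Set G))
      (t := T.toFinset) (fun x hx => by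
        simp only [Finset.mem_coe, Set.mem_toFinset] at hx ⊢
        exact ⟨x, fun h' => hx.2 ⟨h', hx.1⟩, rfl⟩),
    Set.ncard_eq_toFinset_card' T, ← smul_eq_mul, ← smul_eq_mul, ← Finset.sum_const,
    ← Finset.sum_const, ← Finset.sum_add_distrib]
  refine Finset.sum_congr rfl fun H hH => ?_
  obtain ⟨u, hu, rfl⟩ := Set.mem_toFinset.1 hH
  rw [← hd u hu, h1 {x | x ∈ centralizer ({u} : Set G) ∧ x ∈ S}
    fun x hx => ⟨center_le_centralizer _ hx.1, hx.2⟩, add_comm, add_right_inj,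
    Set.ncard_eq_toFinset_card']
  congr 1
  ext x
  simp only [Finset.mem_filter, Set.mem_toFinset, Set.mem_sdiff, Set.mem_inter_iff,
    SetLike.mem_coe, Set.mem_ofPred_eq]
  exact ⟨fun ⟨⟨h1, h2⟩, h3⟩ => ⟨⟨h3 ▸ self_mem_cent x, h1⟩, h2⟩,
    fun ⟨⟨h1, h2⟩, h3⟩ => ⟨⟨h2, h3⟩, h.cent_eq hu (fun h' => h3 ⟨h', h2⟩) h1⟩⟩

theorem CAg.ordCompl_lt (h : CAg G) {c n : ℕ} (hn : ∀ u : G, u ∉ center G → cs u = n)
    (hc : (center G).index = c * n) {p : ℕ} (hp : p.Prime) (hpc : p ∣ c) :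
    ordCompl[p] n < ordProj[p] c := by
  have hz : 0 < Nat.card (center G) := Nat.card_pos
  have hcn : c * n ≠ 0 := hc ▸ index_ne_zero_of_finite
  have hG : Nat.card G = Nat.card (center G) * (c * n) := by rw [← hc, card_mul_index]
  have hC : ∀ u : G, u ∉ center G →
      Nat.card (centralizer ({u} : Set G)) = Nat.card (center G) * c := fun u hu => by
    refine Nat.eq_of_mul_eq_mul_left (cs_pos u) ?_
    rw [cs_mul_card, hG, hn u hu]; ring
  have e1 := h.count Set.univ (d := Nat.card (center G) * c) (e := Nat.card (center G))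
    (by simp only [Set.mem_univ, and_true]; exact (Nat.card_coe_set_eq _).symm)
    fun u hu => by
      rw [← hC u hu]; simp only [Set.mem_univ, and_true]; exact (Nat.card_coe_set_eq _).symm
  have e2 := h.count {x | x ^ ordCompl[p] (Nat.card G) = 1}
    (ncard_pow_ordCompl (H := center G) inferInstance hp)
    fun u hu => (ncard_pow_ordCompl (h u hu) hp).trans (congrArg (fun m => ordCompl[p] m) (hC u hu))
  obtain ⟨t, ht⟩ := frobenius_dvd (Nat.ordCompl_dvd (Nat.card G) p)
  rw [ht] at e2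
  rw [Set.ncard_univ] at e1
  generalize ((fun u : G => centralizer ({u} : Set G)) '' (center G : Set G)ᶜ).ncard = k at e1 e2
  rw [hG] at e1 e2
  simp only [Nat.ordCompl_mul] at e2
  have hz' := Nat.ordCompl_pos p hz.ne'
  have hc0 := Nat.ordCompl_pos p (left_ne_zero_of_mul hcn)
  have e3 := Nat.ordProj_mul_ordCompl_eq_self c p
  have e4 := Nat.ordProj_mul_ordCompl_eq_self n p
  have e5 : 2 ≤ ordProj[p] c := hp.two_le.trans (Nat.le_of_dvd (Nat.ordProj_pos c p)
    (Nat.dvd_ordProj_of_dvd (left_ne_zero_of_mul hcn) hp hpc))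
  generalize ordCompl[p] (Nat.card (center G)) = z' at *
  generalize Nat.card (center G) = z at *
  generalize ordCompl[p] c = c' at *
  generalize ordCompl[p] n = n' at *
  generalize ordProj[p] c = a at *
  generalize ordProj[p] n = b at *
  subst e3 e4
  have f1 : a * c' * (b * n') + k = 1 + k * (a * c') :=
    Nat.eq_of_mul_eq_mul_left hz (by linarith)
  have f2 : c' * n' * t + k = 1 + k * c' := Nat.eq_of_mul_eq_mul_left hz' (by linarith)
  obtain ⟨a, rfl⟩ : ∃ a', a = a' + 1 := ⟨a - 1, by omega⟩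
  have f3 : (a + 1) * (b * n') = n' * t + k * a := Nat.eq_of_mul_eq_mul_left hc0 (by linarith)
  have f4 : n' ∣ k * a := (Nat.dvd_add_right (dvd_mul_right n' t)).1
    (f3 ▸ Dvd.dvd.mul_left (dvd_mul_left n' b) _)
  have f5 : n'.Coprime k := by
    rw [Nat.coprime_iff_gcd_eq_one, ← Nat.dvd_one]
    have g1 : Nat.gcd n' k ∣ 1 + k * c' := f2 ▸ dvd_add
      (((Nat.gcd_dvd_left n' k).mul_left _).mul_right _) (Nat.gcd_dvd_right n' k)
    exact (Nat.dvd_add_left ((Nat.gcd_dvd_right n' k).mul_right _)).1 g1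
  exact Nat.lt_succ_of_le (Nat.le_of_dvd (by omega) (f5.dvd_of_dvd_mul_left f4))

variable {n : ℕ}

theorem cent_le_of_two (h : ∀ x : G, cs x = 1 ∨ cs x = n) {x w : G} (hx : x ∉ center G)
    (hw : w ∈ centralizer ({x} : Set G)) (hc : (orderOf x).Coprime (orderOf w)) :
    centralizer ({x} : Set G) ≤ centralizer {w} := by
  have h1 := cent_mul_of_coprime (mem_cent_iff_commute.1 hw).symm hc
  rw [← cent_eq_of_two h hx (x := x * w) (h1 ▸ inf_le_left), h1]
  exact inf_le_right

theorem relIndex_center_of_two (h : ∀ x : G, cs x = 1 ∨ cs x = n) {x : G} (hx : x ∉ center G) :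
    (center G).index = (center G).relIndex (centralizer {x}) * n := by
  rw [← (h x).resolve_left (mt cs_eq_one_iff.1 hx), relIndex_mul_index (center_le_centralizer _)]

theorem dvd_relIndex_center_iff {H : Subgroup G} {r : ℕ} (hr : r.Prime) :
    r ∣ (center G).relIndex H ↔ ∃ w ∈ H, w ∉ center G ∧ ∃ k, orderOf w = r ^ k := by
  haveI := Fact.mk hr
  constructor
  · intro hd
    by_contra hcon
    push Not at hcon
    obtain ⟨R⟩ := (inferInstance : Nonempty (Sylow r H))
    refine not_dvd_index_of_sylow_le R (fun w hw => ?_) hd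
    by_contra hw'
    obtain ⟨k, hk⟩ := orderOf_eq_pow_of_mem R.isPGroup' hw
    exact hcon w w.2 hw' k (by rw [orderOf_coe, hk])
  · rintro ⟨w, hw, hwz, k, hk⟩
    by_contra hd
    obtain ⟨R, hR⟩ := exists_sylow_le_of_not_dvd_index hd
    obtain ⟨g, hg⟩ := H24.exists_conj_mem_sylow (x := (⟨w, hw⟩ : H)) (k := k)
      (by rw [← orderOf_coe, hk]) R
    have := Normal.conj_mem inferInstance _ (hR hg) g
    exact hwz (by simpa [mul_assoc, mem_subgroupOf] using this)

/-- Itô: only one prime carries non-central elements. -/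
theorem ito_prime (h : ∀ x : G, cs x = 1 ∨ cs x = n) {p q i j : ℕ} (hp : p.Prime) (hq : q.Prime)
    {x y : G} (hx : x ∉ center G) (hy : y ∉ center G) (hi : orderOf x = p ^ i)
    (hj : orderOf y = q ^ j) : p = q := by
  by_contra hne
  have hn : ∀ u : G, u ∉ center G → cs u = n := fun u hu =>
    (h u).resolve_left (mt cs_eq_one_iff.1 hu)
  have hn0 : 0 < n := hn x hx ▸ cs_pos x
  set c := (center G).relIndex (centralizer ({x} : Set G))
  have hc := relIndex_center_of_two h hx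
  have hcu : ∀ u : G, u ∉ center G → (center G).relIndex (centralizer {u}) = c := fun u hu =>
    Nat.eq_of_mul_eq_mul_right hn0 ((relIndex_center_of_two h hu).symm.trans hc)
  have hpc : p ∣ c := (dvd_relIndex_center_iff hp).2 ⟨x, self_mem_cent x, hx, i, hi⟩
  have hqc : q ∣ c := hcu y hy ▸ (dvd_relIndex_center_iff hq).2 ⟨y, self_mem_cent y, hy, j, hj⟩
  have hCA : CAg G := by
    intro u hu
    obtain ⟨v, hv, r, k, hr, hk, hvz⟩ : ∃ v ∈ zpowers u, ∃ r k : ℕ, r.Prime ∧ orderOf v = r ^ k ∧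
        v ∉ center G := by
      by_contra hcon
      push Not at hcon
      exact hu (mem_of_forall_primePow u hcon)
    rw [cent_eq_of_two h hvz (cent_le_cent_of_mem_zpowers hv)]
    obtain ⟨s, hs, hsr, hsc⟩ : ∃ s : ℕ, s.Prime ∧ s ≠ r ∧ s ∣ c := by
      by_cases e : p = r
      · exact ⟨q, hq, fun e' => hne (e.trans e'.symm), hqc⟩
      · exact ⟨p, hp, e, hpc⟩
    obtain ⟨w, hw, hwz, l, hl⟩ := (dvd_relIndex_center_iff hs).1 (hcu v hvz ▸ hsc)
    have h1 : ∀ a ∈ centralizer ({v} : Set G), ¬ r ∣ orderOf a →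
        centralizer ({v} : Set G) ≤ centralizer {a} := fun a ha h' =>
      cent_le_of_two h hvz ha (hk ▸ (hr.coprime_iff_not_dvd.2 h').pow_left k)
    have h2 := cent_eq_of_two h hwz (h1 w hw fun h' =>
      hsr ((Nat.prime_dvd_prime_iff_eq hr hs).1 (hr.dvd_of_dvd_pow (hl ▸ h'))).symm)
    refine ⟨⟨fun a b => Subtype.ext ?_⟩⟩
    obtain ⟨a₁, a₂, h₁, h₂, e, -, ⟨m, hm⟩, h₃⟩ := H24.exists_pPart hr (a : G)
    have h3 := h1 a₂ (zpowers_le.2 a.2 h₂) h₃ b.2
    have h4 := cent_le_of_two h hwz (h2 ▸ zpowers_le.2 a.2 h₁)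
      (by rw [hl, hm]; exact ((Nat.coprime_primes hs hr).2 hsr).pow _ _) (h2.le b.2)
    have h5 := cent_inf_le_cent_mul a₁ a₂ ⟨h4, h3⟩
    rw [e] at h5
    exact (mem_cent.1 h5).symm
  have e1 := hCA.ordCompl_lt hn hc hp hpc
  have e2 := hCA.ordCompl_lt hn hc hq hqc
  have hcop : ∀ a b, (p ^ a).Coprime (q ^ b) := fun a b =>
    ((Nat.coprime_primes hp hq).2 hne).pow a b
  have hc0 : c ≠ 0 := index_ne_zero_of_finite
  have e3 : ordProj[p] c * ordProj[q] c ≤ c := Nat.le_of_dvd (Nat.pos_of_ne_zero hc0)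
    ((hcop _ _).mul_dvd_of_dvd_of_dvd (Nat.ordProj_dvd c p) (Nat.ordProj_dvd c q))
  have e4 : ordProj[p] n ≤ ordCompl[q] n := Nat.le_of_dvd (Nat.ordCompl_pos q hn0.ne')
    ((hcop _ _).dvd_of_dvd_mul_left
      ((Nat.ordProj_dvd n p).trans (Nat.ordProj_mul_ordCompl_eq_self n q).symm.dvd))
  have e5 : n < c := by
    calc n = ordCompl[p] n * ordProj[p] n := by rw [mul_comm, Nat.ordProj_mul_ordCompl_eq_self]
      _ ≤ ordCompl[p] n * ordCompl[q] n := Nat.mul_le_mul_left _ e4
      _ < _ := Nat.mul_lt_mul'' e1 e2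
      _ ≤ c := e3
  obtain ⟨v, -, hv⟩ := SetLike.exists_of_lt (lt_top_iff_ne_top.2 (mt cent_eq_top_iff.1 hx))
  have hvz : v ∉ center G := fun e => hv (center_le_centralizer _ e)
  have e6 : centralizer ({x} : Set G) ⊓ centralizer {v} ≤ center G := fun w hw => by
    by_contra hwz
    exact hv ((hCA.cent_eq hx hwz hw.1) ▸ (hCA.cent_eq hvz hwz hw.2).symm ▸ self_mem_cent v)
  have e7 := (index_antitone e6).trans index_inf_le
  change _ ≤ cs x * cs v at e7
  rw [hc, hn x hx, hn v hvz] at e7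
  exact absurd (Nat.le_of_mul_le_mul_right e7 hn0) (not_le.2 e5)

/-- Itô's theorem: `G/Z(G)` is a `p`-group. -/
theorem ito (h : ∀ x : G, cs x = 1 ∨ cs x = n) {x : G} (hx : x ∉ center G) :
    ∃ p : ℕ, p.Prime ∧ ∀ y : G, ¬ p ∣ orderOf y → y ∈ center G := by
  obtain ⟨v, -, r, k, hr, hk, hvz⟩ : ∃ v ∈ zpowers x, ∃ r k : ℕ, r.Prime ∧ orderOf v = r ^ k ∧
      v ∉ center G := by
    by_contra hcon
    push Not at hcon
    exact hx (mem_of_forall_primePow x hcon)
  refine ⟨r, hr, fun y hy => mem_of_forall_primePow y fun w hw q j hq hj => ?_⟩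
  by_contra hwz
  obtain rfl := ito_prime h hr hq hvz hwz hk hj
  refine hy (dvd_trans ?_ (orderOf_dvd_of_mem_zpowers hw))
  rw [hj]
  refine dvd_pow_self r fun e => hwz ?_
  rw [e, pow_zero, orderOf_eq_one_iff] at hj
  rw [hj]; exact one_mem _

end H23
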