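import Cfsg.Agent.H23.LieC
import Cfsg.Agent.H1.SF9

/-!
# Centralizers of coprime automorphisms (Acciarri–Shumyatsky)
-/

set_option autoImplicit false

namespace H23.LN
open H10.LieK H2 Subgroup Cfsg
open H19 hiding eq_bot_mono
open scoped commutatorElement

variable {A G ι κ : Type} [Group A] [Group G] {φ : A →* MulAut G} {p n e : ℕ} {B D : Subgroup A}
  {H J K X Y : Subgroup G}

theorem itc_mono (h : Y ≤ K) (h' : X ≤ J) : ∀ r, itc Y X r ≤ itc K J r
  | 0 => h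
  | r + 1 => commutator_mono (itc_mono h h' r) h'

theorem map_itc {G' : Type} [Group G'] (f : G →* G') : ∀ r, (itc Y X r).map f = itc (Y.map f) (X.map f) r
  | 0 => rfl
  | r + 1 => by rw [itc, map_commutator, map_itc f r]; rfl

theorem map_dS {G' : Type} [Group G'] (f : G →* G') : ∀ r, (dS Y r).map f = dS (Y.map f) r
  | 0 => rfl
  | r + 1 => by rw [dS, map_commutator, map_dS f r]; rfl

theorem dS_mono (h : Y ≤ K) : ∀ r, dS Y r ≤ dS K r
  | 0 => h
  | r + 1 => commutator_mono (dS_mono h r) (dS_mono h r)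

theorem dS_top : ∀ r, dS (⊤ : Subgroup G) r = derivedSeries G r
  | 0 => rfl
  | r + 1 => by rw [dS, dS_top r]; rfl

theorem dS_add (i : ℕ) : ∀ r, dS Y (i + r) = dS (dS Y i) r
  | 0 => rfl
  | r + 1 => congrArg (fun X => ⁅X, X⁆) (dS_add i r)

theorem dS_le_lcs : ∀ r, dS Y r ≤ Y.lowerCentralSeries r
  | 0 => le_rfl
  | r + 1 => commutator_mono (dS_le_lcs r) ((dS_le_lcs r).trans (lowerCentralSeries_le_self _ _))

theorem norm_dS : ∀ r, Y ≤ N(dS Y r)
  | 0 => le_normalizer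
  | r + 1 => norms_der (norm_dS r)

theorem Fx_anti (h : B ≤ D) : Fx φ D ≤ Fx φ B := fun _ hx => mem_Fx.2 fun b hb => mem_Fx.1 hx b (h hb)

theorem itc_eq_bot (h1 : Y ≤ N(K)) (h2 : X ≤ K) (h : K.lowerCentralSeries n = ⊥) :
    itc Y X (n + 1) = ⊥ := by
  have : ∀ r, itc Y X (r + 1) ≤ K.lowerCentralSeries r := fun r => by
    induction r with
    | zero => exact (commutator_mono le_rfl h2).trans (commg_le_right h1)
    | succ r ih => exact commutator_mono ih h2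
  exact le_bot_iff.1 (h ▸ this n)

variable [Finite A]

theorem nil_of (hp : p.Prime) (hA : Abelem p (⊤ : Subgroup A)) {G : Type} [Group G] [Finite G]
    [Group.IsSolvable G] {φ : A →* MulAut G} {X : ι → Subgroup G} (hc : ¬ p ∣ Nat.card G)
    (hg : ⨆ i, X i = ⊤) (h2 : ∀ i B, Hy p B → itc (Fx φ B) (X i) e = ⊥) : Group.IsNilpotent G := by
  induction hn : Nat.card G using Nat.strong_induction_on generalizing G with | _ n ih => ?_
  subst hn
  rcases subsingleton_or_nontrivial G with h0 | h0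
  · infer_instance
  obtain ⟨V, ⟨_, hV, h1⟩, h3⟩ := WellFounded.has_min wellFounded_lt
    {V : Subgroup G | V.Normal ∧ AInv φ V ∧ V ≠ ⊥} ⟨⊤, inferInstance, fun _ _ _ => trivial, top_ne_bot⟩
  have hm : ∀ K ≤ V, K.Normal → AInv φ K → K ≠ ⊥ → K = V := fun K h a b c =>
    h.lt_or_eq.resolve_left (h3 K ⟨a, b, c⟩)
  have hab : Ab V := comm_iff_der.2 (by_contra fun h => (sol_der_lt inferInstance h1).ne
    (hm _ (der_le V) inferInstance (hV.commutator hV) h))
  obtain ⟨q, hq, hd⟩ := exists_prime_dvd_card h1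
  have hVq : PG q V := abelem_pg hq (hm _ (Ohm1_le q V) (normalizer_eq_top_iff.1 (top_le_iff.1
    (norms_Ohm1 q le_normalizer_of_normal))) (fun a => (Ohm1_le_iff (K := (Ohm1 q V).comap
      (φ a).toMonoidHom)).2 fun x hx h => mem_Ohm1 (hV a x hx) (by
        rw [← map_pow, h, map_one])) (Ohm1_ne_bot hq hd) ▸ abelem_Ohm1 hab q)
  let π := QuotientGroup.mk' V
  have hs := QuotientGroup.mk'_surjective V
  have hcV : ¬ p ∣ #V := fun h => hc (h.trans (card_subgroup_dvd_card V))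
  haveI := ih _ (H1.card_quotient_lt h1) (φ := quotAut φ V hV) (X := fun i => (X i).map π)
    (fun h => hc (h.trans (card_quotient_dvd_card V)))
    (by rw [← Subgroup.map_iSup, hg, map_top_of_surjective _ hs]) (fun i B hB => by
      rw [show Fx (quotAut φ V hV) B = (Fx φ B).map π from autFixed_quotAut (φ := φ.comp B.subtype) V
        (fun b => hV b) (((abelem_pg hp hA).of_le le_top).coprime (PiN.of_not_dvd hcV))
        (Or.inr inferInstance), ← map_itc, h2 i B hB, Subgroup.map_bot]) rfl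
  have h4 : ∀ i, itc V (X i) e = ⊥ := fun i => by
    have hle : ∀ Y ≤ V, ∀ r, itc Y (X i) r ≤ V := fun Y hY r => by
      induction r with
      | zero => exact hY
      | succ r ih => exact (commutator_mono ih le_rfl).trans (commutator_le_left _ _)
    have : ∀ r, itc V (X i) r ≤ ⨆ B : {B // Hy p B}, itc (V ⊓ Fx φ B.1) (X i) r := fun r => by
      induction r with
      | zero => exact gen_hy hp hA hcV hV fun B hB => le_iSup_of_le ⟨B, hB⟩ le_rfl
      | succ r ih =>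
        exact (commutator_mono ih le_rfl).trans (H1.commutator_iSup_le (fun B => norms_of_comm hab
          (hle _ inf_le_left _) (iSup_le fun B => hle _ inf_le_left _)) fun B => le_iSup_of_le B le_rfl)
    exact le_bot_iff.1 ((this e).trans (iSup_le fun B =>
      (itc_mono inf_le_right le_rfl e).trans (h2 i B.1 B.2).le))
  haveI := Fact.mk hq
  have hS : PG q ((Oc {q} ⊤).comap π) := pG_iff.2 ((Oc_pi {q} ⊤).isPGroup.comap_of_ker_isPGroup π
    (by rw [QuotientGroup.ker_mk']; exact hVq.isPGroup))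
  have h5 : ⊤ ≤ (Oc {q} ⊤).comap π ⊔ C(V) := hg ▸ iSup_le fun i => le_of_syl fun r P hr hP => by
    by_cases hrq : r = q
    · subst hrq
      exact le_sup_of_le_left (map_le_iff_le_comap.1 (nil_le_Oc inferInstance le_top
        (pG_iff.2 (hP.pi.isPGroup.map π))))
    have : ∀ k, ⁅V, P⁆ ≤ itc V P k := fun k => by
      induction k with
      | zero => exact commutator_le_left _ _
      | succ k ih => exact (commg_commg le_normalizer_of_normal ((hVq.sing_ne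
          (Ne.symm hrq)).coprime' hP.pi)).ge.trans (commutator_mono ih le_rfl)
    exact le_sup_of_le_right (cents_symm (commg_eq_bot.1 (le_bot_iff.1
      ((this e).trans ((itc_mono le_rfl hP.le e).trans (h4 i).le)))))
  have := hm (V ⊓ C(⊤)) inf_le_left inferInstance (hV.inf (AInv.centralizer fun _ _ _ => trivial))
    (ne_bot_mono (le_inf inf_le_left ((cents_sup inf_le_right (inf_le_left.trans
      (cents_symm le_rfl))).trans (cent_mono h5))) (hVq.meet_cent hS le_normalizer_of_normal h1))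
  exact Subgroup.isNilpotent_of_ker_le_center π (by
    rw [QuotientGroup.ker_mk', ← centralizer_univ]; exact this.ge.trans inf_le_right)

theorem main (p e t s : ℕ) (hp : p.Prime) : ∃ c, ∀ {A G ι : Type} [Group A] [Group G] [Finite A]
    [Finite G] [Group.IsSolvable G] [Finite ι] {φ : A →* MulAut G} {X : ι → Subgroup G} (a : A),
    Nat.card ι ≤ t → Abelem p (⊤ : Subgroup A) → ¬ p ∣ Nat.card G → (∀ i, AInv φ (X i)) →
    (∀ i j B, Hy p B → ∃ l, ⁅X i, X j⁆ ⊓ Fx φ B ≤ X l) →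
    (∀ i B, Hy p B → itc (Fx φ B) (X i) e = ⊥) → dS (Fx φ (zpowers a)) s = ⊥ →
    (⨆ i, X i).lowerCentralSeries c = ⊥ := by
  obtain ⟨c, hc⟩ := class_le p e t s hp
  refine ⟨c, fun {A G ι} _ _ _ _ _ _ φ X a ht hA hd hX h1 h2 h3 => ?_⟩
  set H := ⨆ i, X i
  have hH : AInv φ H := fun b => (iSup_le fun i x hx => mem_iSup_of_mem i (hX i b x hx) :
    H ≤ H.comap (φ b).toMonoidHom)
  have hF : ∀ B, (Fx (restrictAut φ H hH) B).map H.subtype ≤ Fx φ B := by
    rintro B _ ⟨x, hx, rfl⟩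
    exact mem_Fx.2 fun b hb => congrArg Subtype.val (mem_Fx.1 hx b hb)
  have hY : ∀ i, ((X i).subgroupOf H).map H.subtype = X i := fun i =>
    map_subgroupOf_eq_of_le (le_iSup X i)
  have hd' : ¬ p ∣ #H := fun h => hd (h.trans (card_subgroup_dvd_card H))
  have hg : ⨆ i, (X i).subgroupOf H = ⊤ := map_injective H.subtype_injective (by
    simp only [Subgroup.map_iSup, hY, ← MonoidHom.range_eq_map, range_subtype, H])
  have h2' : ∀ i B, Hy p B → itc (Fx (restrictAut φ H hH) B) ((X i).subgroupOf H) e = ⊥ :=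
    fun i B hB => (map_eq_bot_iff_of_injective _ H.subtype_injective).1 (le_bot_iff.1 (by
      rw [map_itc, hY, ← h2 i B hB]; exact itc_mono (hF B) le_rfl e))
  haveI := nil_of hp hA hd' hg h2'
  haveI := Fintype.ofFinite ι
  rw [← top_subtype_lowerCentralSeries, show (⊤ : Subgroup H).lowerCentralSeries c = ⊥ from hc a (Nat.card_eq_fintype_card (α := ι) ▸ ht) hA hd'
    (fun i => (hX i).subgroupOf_restrictAut H hH) hg (fun i j B hB => ?_) h2'
    ((map_eq_bot_iff_of_injective _ H.subtype_injective).1 (le_bot_iff.1 (by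
      rw [map_dS, ← h3]; exact dS_mono (hF _) s))), Subgroup.map_bot]
  obtain ⟨l, hl⟩ := h1 i j B hB
  refine ⟨l, map_le_iff_le_comap.1 (le_trans (le_inf ?_ ((map_mono inf_le_right).trans (hF B))) hl)⟩
  exact (map_mono inf_le_left).trans (by rw [map_commutator, hY, hY])

variable [Finite G]

theorem step (hp : p.Prime) (hA : Abelem p (⊤ : Subgroup A)) (hc : ¬ p ∣ Nat.card G)
    {X : ι → Subgroup G} {Y : κ → Subgroup G} (hX : ∀ i, AInv φ (X i)) (hY : ∀ j, AInv φ (Y j))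
    (h : ⨆ i, X i ≤ ⨆ j, Y j) (h1 : ∀ i j B, Hy p B → ∃ l, ⁅X i, Y j⁆ ⊓ Fx φ B ≤ X l) :
    ⨆ τ : ι × κ × {B // Hy p B}, ⁅X τ.1, Y τ.2.1⁆ ⊓ Fx φ τ.2.2.1 = ⁅⨆ i, X i, ⨆ j, Y j⁆ := by
  refine le_antisymm (iSup_le fun τ => inf_le_left.trans (commutator_mono (le_iSup X _)
    (le_iSup Y _))) ?_
  set N := ⨆ τ : ι × κ × {B // Hy p B}, ⁅X τ.1, Y τ.2.1⁆ ⊓ Fx φ τ.2.2.1
  have h2 : ∀ i j, ⁅X i, Y j⁆ ≤ N := fun i j => gen_hy hp hA (fun h => hc (h.trans
    (card_subgroup_dvd_card _))) ((hX i).commutator (hY j)) fun B hB => le_iSup_of_le (i, j, ⟨B, hB⟩) le_rfl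
  have h3 : ⨆ j, Y j ≤ N(N) := iSup_le fun j => norms_of_commg_le (H1.commutator_iSup_le
    (fun τ => norms_of_le (le_iSup_of_le τ le_rfl)) fun τ => let ⟨l, hl⟩ := h1 _ _ _ τ.2.2.2
      (commutator_mono hl le_rfl).trans (h2 l j))
  refine H1.commutator_iSup_le (fun i => (le_iSup X i).trans (h.trans h3)) fun i => ?_
  rw [commutator_comm]
  exact H1.commutator_iSup_le (fun j => (le_iSup Y j).trans h3) fun j => commutator_comm (X i) _ ▸ h2 i j

theorem iSup_Fx (hp : p.Prime) (hA : Abelem p (⊤ : Subgroup A)) (hc : ¬ p ∣ Nat.card G) :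
    ⨆ B : {B // Hy p B}, Fx φ B.1 = ⊤ :=
  top_le_iff.1 (gen_hy hp hA (by rwa [card_top]) (fun _ _ _ => trivial) fun B hB =>
    le_iSup_of_le ⟨B, hB⟩ inf_le_right)

theorem sol_of (hp : p.Prime) (hA : Abelem p (⊤ : Subgroup A)) (h3 : p ^ 3 ≤ Nat.card A)
    (hc : ¬ p ∣ Nat.card G) (h : ∀ a ≠ 1, Sol (Fx φ (zpowers a))) : Group.IsSolvable G := by
  have := H1.sol_of_cent1 hp (abelem_sdA (φ := φ) hA) (card_sdA (φ := φ) ▸ h3) (K := sdK φ ⊤)
    (PiN.of_not_dvd (by rwa [card_sdK, card_top])) (AInv.sd fun _ _ _ => trivial)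
    (forall_mem_sdA.2 fun a ha => by
      rw [← cent_zpowers, ← MonoidHom.map_zpowers, sdK_Fx, top_inf_eq]
      exact isSolvable_sdK (h a fun e => ha (by rw [e, map_one])))
  exact Group.isSolvable_of_surjective (f := ((sdKEquiv φ ⊤).symm.trans topEquiv).toMonoidHom)
    ((sdKEquiv φ ⊤).symm.trans topEquiv).surjective

omit [Finite G] in
theorem exists_mem_inf (hp : p.Prime) {k m : ℕ} (hA : Nat.card A = p ^ k) (hD : D.index ≤ p ^ m)
    (hB : Hy p B) (h : m + 2 ≤ k) : ∃ a ≠ 1, zpowers a ≤ D ⊓ B := by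
  have h1 : B.index ≤ p := Nat.le_of_mul_le_mul_left ((card_mul_index B).le.trans hB) (card_pos B)
  obtain ⟨a, ha, h2⟩ := exists_ne_one (H := D ⊓ B) fun e => by
    have := index_inf_le.trans (Nat.mul_le_mul hD h1)
    rw [e, index_bot, hA, ← pow_succ] at this
    exact absurd ((Nat.pow_le_pow_iff_right hp.one_lt).1 this) (by omega)
  exact ⟨a, h2, zpowers_le.2 ha⟩

omit [Finite G] in
theorem card_hy : Nat.card {B : Subgroup A // Hy p B} ≤ 2 ^ Nat.card A := by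
  rw [show 2 ^ Nat.card A = Nat.card (Set A) by
    haveI := Fintype.ofFinite A
    simp]
  exact Nat.card_le_card_of_injective (fun B => (B.1 : Set A)) fun _ _ h =>
    Subtype.ext (SetLike.coe_injective h)

/-- index sets -/
def TD (κ : Type) : ℕ → Type
  | 0 => κ
  | d + 1 => TD κ d × TD κ d × κ

/-- index sets -/
def TG (κ : Type) : ℕ → Type
  | 0 => κ
  | d + 1 => TG κ d × κ × κ

/-- special subgroups -/
def XD (p : ℕ) (φ : A →* MulAut G) : (d : ℕ) → TD {B : Subgroup A // Hy p B} d → Subgroup G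
  | 0, B => Fx φ B.1
  | d + 1, τ => ⁅XD p φ d τ.1, XD p φ d τ.2.1⁆ ⊓ Fx φ τ.2.2.1

/-- special subgroups -/
def XG (p : ℕ) (φ : A →* MulAut G) : (d : ℕ) → TG {B : Subgroup A // Hy p B} d → Subgroup G
  | 0, B => Fx φ B.1
  | d + 1, τ => ⁅XG p φ d τ.1, Fx φ τ.2.1.1⁆ ⊓ Fx φ τ.2.2.1

theorem card_TD (N d : ℕ) : ∃ t, ∀ κ [Finite κ], Nat.card κ ≤ N →
    Finite (TD κ d) ∧ Nat.card (TD κ d) ≤ t := by
  induction d with
  | zero => exact ⟨N, fun κ _ h => ⟨‹_›, h⟩⟩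
  | succ d ih =>
    obtain ⟨t, ht⟩ := ih
    refine ⟨t * (t * N), fun κ _ h => ?_⟩
    obtain ⟨_, h1⟩ := ht κ h
    exact ⟨inferInstanceAs (Finite (_ × _ × _)), ((Nat.card_prod _ _).trans (congrArg _
      (Nat.card_prod _ _))).le.trans (Nat.mul_le_mul h1 (Nat.mul_le_mul h1 h))⟩

theorem card_TG (N d : ℕ) : ∃ t, ∀ κ [Finite κ], Nat.card κ ≤ N →
    Finite (TG κ d) ∧ Nat.card (TG κ d) ≤ t := by
  induction d with
  | zero => exact ⟨N, fun κ _ h => ⟨‹_›, h⟩⟩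
  | succ d ih =>
    obtain ⟨t, ht⟩ := ih
    refine ⟨t * (N * N), fun κ _ h => ?_⟩
    obtain ⟨_, h1⟩ := ht κ h
    exact ⟨inferInstanceAs (Finite (_ × _ × _)), ((Nat.card_prod _ _).trans (congrArg _
      (Nat.card_prod _ _))).le.trans (Nat.mul_le_mul h1 (Nat.mul_le_mul h h))⟩

omit [Finite G] in
theorem hy_index (hB : Hy p B) : B.index ≤ p :=
  Nat.le_of_mul_le_mul_left ((card_mul_index B).le.trans hB) (card_pos B)

theorem XD_spec (hp : p.Prime) (hA : Abelem p (⊤ : Subgroup A)) (hc : ¬ p ∣ Nat.card G) (d : ℕ) :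
    (∀ τ, AInv φ (XD p φ d τ)) ∧ (∀ τ, ∃ σ, XD p φ (d + 1) τ ≤ XD p φ d σ) ∧
    (∀ τ, ∃ D : Subgroup A, D.index ≤ p ^ 2 ^ d ∧ XD p φ d τ ≤ dS (Fx φ D) d) ∧
    ⨆ τ, XD p φ d τ = dS ⊤ d := by
  have hF := Fx_inv (φ := φ) fun a b => mul_comm_of_comm hA.1 (mem_top a) (mem_top b)
  induction d with
  | zero => exact ⟨fun τ => hF _, fun τ => ⟨τ.2.2, inf_le_right⟩,
      fun τ => ⟨τ.1, by simpa using hy_index τ.2, le_rfl⟩, iSup_Fx hp hA hc⟩
  | succ d ih =>
    obtain ⟨h1, h2, h3, h4⟩ := ih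
    refine ⟨fun τ => ((h1 _).commutator (h1 _)).inf (hF _), fun τ => ?_, fun τ => ?_,
      (step hp hA hc h1 h1 le_rfl fun i j B hB => h2 (i, j, ⟨B, hB⟩)).trans (by rw [h4]; rfl)⟩
    · obtain ⟨σ, h⟩ := h2 τ.1
      obtain ⟨σ', h'⟩ := h2 τ.2.1
      exact ⟨(σ, σ', τ.2.2), inf_le_inf_right _ (commutator_mono h h')⟩
    · obtain ⟨D, a, h⟩ := h3 τ.1
      obtain ⟨D', a', h'⟩ := h3 τ.2.1
      exact ⟨D ⊓ D', index_inf_le.trans ((Nat.mul_le_mul a a').trans (by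
        rw [← pow_add, ← two_mul, ← pow_succ'])), inf_le_left.trans (commutator_mono
          (h.trans (dS_mono (Fx_anti inf_le_left) d)) (h'.trans (dS_mono (Fx_anti inf_le_right) d)))⟩

theorem XG_spec (hp : p.Prime) (hA : Abelem p (⊤ : Subgroup A)) (hc : ¬ p ∣ Nat.card G) (d : ℕ) :
    (∀ τ, AInv φ (XG p φ d τ)) ∧ (∀ τ, ∃ σ, XG p φ (d + 1) τ ≤ XG p φ d σ) ∧
    (∀ τ, ∃ D : Subgroup A, D.index ≤ p ^ (d + 1) ∧ XG p φ d τ ≤ (Fx φ D).lowerCentralSeries d) ∧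
    ⨆ τ, XG p φ d τ = (⊤ : Subgroup G).lowerCentralSeries d ∧
    ∀ τ, ∃ B : {B // Hy p B}, XG p φ d τ ≤ Fx φ B.1 := by
  have hF := Fx_inv (φ := φ) fun a b => mul_comm_of_comm hA.1 (mem_top a) (mem_top b)
  induction d with
  | zero => exact ⟨fun τ => hF _, fun τ => ⟨τ.2.2, inf_le_right⟩,
      fun τ => ⟨τ.1, by simpa using hy_index τ.2, le_rfl⟩, iSup_Fx hp hA hc, fun τ => ⟨τ, le_rfl⟩⟩
  | succ d ih =>
    obtain ⟨h1, h2, h3, h4, -⟩ := ih
    refine ⟨fun τ => ((h1 _).commutator (hF _)).inf (hF _), fun τ => ?_, fun τ => ?_,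
      (step hp hA hc h1 (fun B : {B // Hy p B} => hF B.1) (le_top.trans (iSup_Fx hp hA hc).ge)
        fun i j B hB => h2 (i, j, ⟨B, hB⟩)).trans (by rw [h4, iSup_Fx hp hA hc]; rfl),
      fun τ => ⟨τ.2.2, inf_le_right⟩⟩
    · obtain ⟨σ, h⟩ := h2 τ.1
      exact ⟨(σ, τ.2), inf_le_inf_right _ (commutator_mono h le_rfl)⟩
    · obtain ⟨D, a, h⟩ := h3 τ.1
      exact ⟨D ⊓ τ.2.1.1, index_inf_le.trans (Nat.mul_le_mul a (hy_index τ.2.1.2)),
        inf_le_left.trans (commutator_mono (h.trans (lowerCentralSeries_mono d (Fx_anti inf_le_left)))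
          (Fx_anti inf_le_right))⟩

theorem thm_der (p k c d : ℕ) (hp : p.Prime) (hd : 2 ^ d + 2 ≤ k) : ∃ n, ∀ {A G : Type} [Group A]
    [Group G] [Finite A] [Finite G] (φ : A →* MulAut G), Abelem p (⊤ : Subgroup A) →
    Nat.card A = p ^ k → ¬ p ∣ Nat.card G →
    (∀ a ≠ 1, (dS (Fx φ (zpowers a)) d).lowerCentralSeries c = ⊥) →
    (derivedSeries G d).lowerCentralSeries n = ⊥ := by
  obtain ⟨t, ht⟩ := card_TD (2 ^ p ^ k) d
  obtain ⟨n, hn⟩ := main p (c + 1) t (d + c) hp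
  refine ⟨n, fun {A G} _ _ _ _ φ hA hk hc h => ?_⟩
  obtain ⟨_, h0⟩ := ht _ (hk ▸ card_hy (A := A) (p := p))
  obtain ⟨h1, h2, h3, h4⟩ := XD_spec (φ := φ) hp hA hc d
  have h5 : ∀ a ≠ 1, dS (Fx φ (zpowers a)) (d + c) = ⊥ := fun a ha =>
    le_bot_iff.1 (by rw [dS_add, ← h a ha]; exact dS_le_lcs c)
  haveI := sol_of (φ := φ) hp hA (hk ▸ Nat.pow_le_pow_right hp.pos (by
    have := Nat.one_le_two_pow (n := d); omega)) hc fun a ha => ⟨d + c, by
      rw [← dS_top, ← map_eq_bot_iff_of_injective _ (subtype_injective _), map_dS,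
        ← MonoidHom.range_eq_map, range_subtype, h5 a ha]⟩
  obtain ⟨a, ha, -⟩ := exists_mem_inf (D := ⊤) (B := ⊤) (m := 0) hp hk (by simp)
    (card_top.ge.trans (Nat.le_mul_of_pos_right _ hp.pos)) (le_add_self.trans hd)
  rw [← dS_top, ← h4]
  refine hn a h0 hA hc h1 (fun i j B hB => h2 (i, j, ⟨B, hB⟩)) (fun i B hB => ?_) (h5 a ha)
  obtain ⟨D, hD, h6⟩ := h3 i
  obtain ⟨b, hb, h7⟩ := exists_mem_inf hp hk hD hB hd
  exact itc_eq_bot ((Fx_anti (h7.trans inf_le_right)).trans (norm_dS d))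
    (h6.trans (dS_mono (Fx_anti (h7.trans inf_le_left)) d)) (h b hb)

theorem thm_lcs (p k c d : ℕ) (hp : p.Prime) (hd : d + 3 ≤ k) : ∃ n, ∀ {A G : Type} [Group A]
    [Group G] [Finite A] [Finite G] (φ : A →* MulAut G), Abelem p (⊤ : Subgroup A) →
    Nat.card A = p ^ k → ¬ p ∣ Nat.card G →
    (∀ a ≠ 1, ((Fx φ (zpowers a)).lowerCentralSeries d).lowerCentralSeries c = ⊥) →
    ((⊤ : Subgroup G).lowerCentralSeries d).lowerCentralSeries n = ⊥ := by
  obtain ⟨t, ht⟩ := card_TG (2 ^ p ^ k) d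
  obtain ⟨n, hn⟩ := main p (c + 1) t (d + c) hp
  refine ⟨n, fun {A G} _ _ _ _ φ hA hk hc h => ?_⟩
  obtain ⟨_, h0⟩ := ht _ (hk ▸ card_hy (A := A) (p := p))
  obtain ⟨h1, h2, h3, h4, h8⟩ := XG_spec (φ := φ) hp hA hc d
  have h5 : ∀ a ≠ 1, dS (Fx φ (zpowers a)) (d + c) = ⊥ := fun a ha => le_bot_iff.1 (by
    rw [dS_add, ← h a ha]; exact (dS_le_lcs c).trans (lowerCentralSeries_mono c (dS_le_lcs d)))
  haveI := sol_of (φ := φ) hp hA (hk ▸ Nat.pow_le_pow_right hp.pos (by omega)) hc fun a ha =>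
    ⟨d + c, by rw [← dS_top, ← map_eq_bot_iff_of_injective _ (subtype_injective _), map_dS,
        ← MonoidHom.range_eq_map, range_subtype, h5 a ha]⟩
  obtain ⟨a, ha, -⟩ := exists_mem_inf (D := ⊤) (B := ⊤) (m := 0) hp hk (by simp)
    (card_top.ge.trans (Nat.le_mul_of_pos_right _ hp.pos)) (by omega)
  rw [← h4]
  refine hn a h0 hA hc h1 (fun i j B hB => ?_) (fun i B hB => ?_) (h5 a ha)
  · obtain ⟨B', h6⟩ := h8 j
    obtain ⟨l, h7⟩ := h2 (i, B', ⟨B, hB⟩)
    exact ⟨l, (inf_le_inf_right _ (commutator_mono le_rfl h6)).trans h7⟩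
  obtain ⟨D, hD, h6⟩ := h3 i
  obtain ⟨b, hb, h7⟩ := exists_mem_inf hp hk hD hB hd
  exact itc_eq_bot ((Fx_anti (h7.trans inf_le_right)).trans (self_le_normalizer_lowerCentralSeries _ d))
    (h6.trans (lowerCentralSeries_mono d (Fx_anti (h7.trans inf_le_left)))) (h b hb)

end H23.LN
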