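/-
Maximal subgroups of `E₇(2)`: orders of the classical 3-transposition groups.
-/
import Cfsg.Agent.H7.ME0
import Cfsg.Agent.S0245
import Cfsg.Agent.S0280
import Cfsg.Agent.S0287
import Cfsg.Agent.S0288
import Cfsg.Agent.H12.Bridge
import Cfsg.Agent.H12.Char2

set_option autoImplicit false

namespace H23.ME
open Subgroup H7.ME Matrix QuadraticMap

theorem two {k n : ℕ} (h : 2 ^ k * n ∣ 9 * NG) : k ≤ 63 := by
  by_contra c
  exact absurd (((pow_dvd_pow 2 (show 64 ≤ k by omega)).trans (Dvd.intro _ rfl)).trans h) (by norm_num [NG])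
theorem Bad.nine {n : ℕ} (h : Bad n) : n ∣ 9 * NG := h.2.2.mul_left 9
theorem small {n : ℕ} {M : Type} [Finite M] {A : Type} (f : A → M) (i : f.Injective) (hM : Nat.card M ≤ 4)
    [Nonempty A] (h : n ∣ Nat.card A) : ¬ Bad n := fun b => by
  haveI := Finite.of_injective f i
  have := Nat.le_of_dvd Nat.card_pos (b.1.trans h)
  have := Nat.card_le_card_of_injective f i
  omega

theorem fc : FC := by
  refine ⟨fun m b => ?_, fun n F _ _ hF b => ?_, fun m b => ?_, fun m b => ?_⟩
  · rw [Cfsg.Agent.S0245.result (ZMod.card 2)] at b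
    have := two (Bad.nine b)
    have : m ≤ 7 := by nlinarith
    revert b
    interval_cases m <;> norm_num [Bad, NG, Finset.prod_range_succ]
  · rcases le_or_gt 2 n with h | h
    · have e := Cfsg.Agent.S0280.result (q := 2) hF n h
      have d : Nat.gcd n (2 + 1) * ((2 + 1) * Nat.card (Cfsg.PSU n F 2)) ∣ 9 * NG := by
        rw [← mul_assoc]
        exact mul_dvd_mul (mul_dvd_mul (Nat.gcd_dvd_right n 3) (dvd_refl 3)) b.2.2
      have d' := ((b.2.1.mul_left (2 + 1)).mul_left (Nat.gcd n (2 + 1)))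
      rw [e] at d d'
      have := two d
      have : n ≤ 11 := by
        by_contra c
        have : 12 * 11 ≤ n * (n - 1) := Nat.mul_le_mul (by omega) (by omega)
        omega
      revert d'
      interval_cases n <;> decide
    · refine small (M := Matrix (Fin n) (Fin n) F) (A := Cfsg.SU n F 2) (fun g => g.1.1)
        (fun x y e => Subtype.ext (Subtype.ext e)) ?_ (card_quotient_dvd_card _) b
      show Nat.card (Fin n → Fin n → F) ≤ 4
      rw [Nat.card_eq_fintype_card, Fintype.card_fun, Fintype.card_fun, hF]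
      interval_cases n <;> simp
  · rcases le_or_gt 1 m with h | h
    · rw [Cfsg.Agent.S0287.result (ZMod.card 2) m h] at b
      have := two (k := m * (m - 1) + 1) (by rw [pow_succ', mul_assoc]; simpa only [mul_assoc] using Bad.nine b)
      have : m ≤ 8 := by
        by_contra c
        have : 9 * 8 ≤ m * (m - 1) := Nat.mul_le_mul (by omega) (by omega)
        omega
      revert b
      interval_cases m <;> norm_num [Bad, NG, Finset.prod_range_succ]
    · obtain rfl : m = 0 := by omega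
      exact small (M := Matrix (Fin 0 ⊕ Fin 0) (Fin 0 ⊕ Fin 0) (ZMod 2)) (fun g => g.1.1)
        (fun x y e => Subtype.ext (Units.ext e)) (by show Nat.card (_ → _ → ZMod 2) ≤ 4; simp) dvd_rfl b
  · have e := Cfsg.Agent.S0288.result (ZMod.card 2) (m + 1) (by omega) 1 1 (by decide)
    rw [Nat.add_sub_cancel] at e
    rw [e] at b
    have := two (k := (m + 1) * m + 1) (by rw [pow_succ', mul_assoc]; simpa only [mul_assoc] using Bad.nine b)
    have : m ≤ 7 := by nlinarith
    revert b
    interval_cases m <;> norm_num [Bad, NG, Finset.prod_range_succ]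

theorem dim3 {n : ℕ} (h : 127 ∣ Nat.card (GL (Fin n) (ZMod 3))) : 46 ≤ n := by
  by_contra c
  rw [Matrix.card_GL_field, ZMod.card] at h
  obtain ⟨i, -, hi⟩ := (Nat.Prime.prime (by norm_num : Nat.Prime 127)).exists_mem_finset_dvd h
  have : ∀ n < 46, ∀ i < n, ¬ 127 ∣ 3 ^ n - 3 ^ i := by decide +kernel
  exact this n (by omega) i i.2 hi

theorem ex_orth {n : ℕ} {B : QuadraticForm (ZMod 3) (Fin n → ZMod 3)} (hB : H12.QNondeg B) (c : ZMod 3) (k : ℕ)
    (h : 2 * k ≤ n) : ∃ e : Fin k → Fin n → ZMod 3, (∀ i, B (e i) = c) ∧ ∀ i j, i ≠ j → polar B (e i) (e j) = 0 := by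
  induction k with
  | zero => exact ⟨Fin.elim0, fun i => i.elim0, fun i => i.elim0⟩
  | succ k ih =>
    obtain ⟨e, h1, h2⟩ := ih (by omega)
    obtain ⟨s, s1, s2⟩ := H12.exists_Q_eq_perp hB (List.ofFn e) (by simp; omega) c
    have s3 : ∀ i, polar B (e i) s = 0 := fun i => s1 _ (by simp)
    refine ⟨Fin.cons s e, Fin.cases s2 h1, Fin.cases (Fin.cases (fun k => absurd rfl k) fun j _ => ?_)
      fun i => Fin.cases (fun _ => s3 i) fun j k => h2 i j fun a => k (by rw [a])⟩
    exact (polar_comm _ _ _).trans (s3 j)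

theorem f3 : F3 := fun n B hB c c0 b => by
  have hn := dim3 (b.2.1.trans ((card_quotient_dvd_card _).trans
    ((card_subgroup_dvd_card _).trans (card_subgroup_dvd_card _))))
  obtain ⟨e, e1, e2⟩ : ∃ e : ZMod 23 → Fin n → ZMod 3, (∀ i, B (e i) = -c) ∧ ∀ i j, i ≠ j → polar B (e i) (e j) = 0 :=
    ex_orth (B := B) hB.1 (-c) 23 (by omega)
  have cc : ∀ c : ZMod 3, -c + -c = c ∧ 2 • -c = c := by decide
  obtain ⟨c1, c4⟩ := cc c
  have c2 : c⁻¹ * (2 • -c) = 1 := by rw [c4, inv_mul_cancel₀ c0]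
  have c3 : 2 • -c ≠ 0 := by rwa [c4]
  have inj : Function.Injective e := fun i j k => by
    by_contra a
    exact c3 (by rw [← e1 j, ← polar_self, ← e2 i j a, k])
  let M : Cfsg.reflectionSubgroup (⇑B) c → (Fin n → ZMod 3) → Fin n → ZMod 3 := fun g v => g.1.1.1 *ᵥ v
  have mul : ∀ g h v, M (g * h) v = M g (M h v) := fun g h v => (mulVec_mulVec _ _ _).symm
  have all : ∀ σ : Equiv.Perm (ZMod 23), ∃ g, ∀ i, M g (e i) = e (σ i) := fun σ => by
    induction σ using Equiv.Perm.swap_induction_on with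
    | one => exact ⟨1, fun i => one_mulVec _⟩
    | swap_mul σ x y xy ih =>
      obtain ⟨g, hg⟩ := ih
      have q : B (e x - e y) = c := by
        rw [sub_eq_add_neg, QuadraticMap.map_add B, B.map_neg, polar_neg_right, e2 x y xy, e1, e1, c1]; simp
      refine ⟨⟨(H12.orthEquiv B).symm (H12.refl B (e x - e y)), subset_closure ⟨_, q,
        (H12.coe_eq_reflection_iff B _ _).2 (MulEquiv.apply_symm_apply _ _)⟩⟩ * g, fun i => ?_⟩
      rw [mul, hg, Equiv.Perm.mul_apply]
      refine (H12.orthEquiv_apply B _ _).symm.trans ?_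
      rw [MulEquiv.apply_symm_apply, H12.refl_apply, q, polar_sub_left]
      rcases eq_or_ne (σ i) x with k | k
      · rw [k, polar_self, e2 y x xy.symm, e1, sub_zero, c2]; simp
      rcases eq_or_ne (σ i) y with k' | k'
      · rw [k', polar_self, e2 x y xy, e1, zero_sub, mul_neg, c2]; simp
      · rw [e2 _ _ k.symm, e2 _ _ k'.symm, Equiv.swap_apply_of_ne_of_ne k k']; simp
  obtain ⟨g, hg⟩ := all (Equiv.addRight 1)
  have pw : ∀ (m : ℕ) i, M (g ^ m) (e i) = e (i + (m : ZMod 23)) := fun m => by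
    induction m with
    | zero => exact fun i => (one_mulVec _).trans (by simp)
    | succ m ih => exact fun i => by rw [pow_succ', mul, ih, hg]; simp [add_assoc]
  set m := Nat.card (Cfsg.reflectionSubgroup (⇑B) c ⧸ center (Cfsg.reflectionSubgroup (⇑B) c)) with hm
  have z : g ^ m ∈ center _ := (QuotientGroup.eq_one_iff _).1 (by rw [QuotientGroup.mk_pow]; exact pow_card_eq_one')
  have k0 : (m : ZMod 23) ≠ 0 := fun k =>
    absurd (((ZMod.natCast_eq_zero_iff m 23).1 k).trans b.2.2) (by norm_num [NG])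
  obtain ⟨r, hr⟩ := all (Equiv.swap 0 ((m : ZMod 23) + (m : ZMod 23)))
  have := congrArg (fun g => M g (e 0)) (mem_center_iff.1 z r)
  simp only [mul, pw, hr] at this
  have k : ∀ m : ZMod 23, m ≠ 0 → Equiv.swap 0 (m + m) (0 + m) ≠ Equiv.swap 0 (m + m) 0 + m := by decide
  exact k _ k0 (inj this)

end H23.ME
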