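import Cfsg.Agent.H23.Elem

/-! Complete Sylow products. -/

set_option autoImplicit false

namespace H23.MinS
open Subgroup

variable {G : Type*} [Group G] [Finite G]

theorem exists_parts (l : List ℕ) (hl : ∀ q ∈ l, q.Prime) (a : G)
    (ha : ∀ q, q.Prime → q ∣ orderOf a → q ∈ l) :
    ∃ s : List G, List.Forall₂ (fun q x => ∃ k, orderOf x = q ^ k) l s ∧ s.prod = a := by
  induction l generalizing a with
  | nil =>
    refine ⟨[], .nil, (orderOf_eq_one_iff.1 ?_).symm⟩
    by_contra c
    obtain ⟨q, hq, h⟩ := Nat.exists_prime_and_dvd c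
    simpa using ha q hq h
  | cons q l ih =>
    obtain ⟨u, -, v, hv, rfl, h1, h2⟩ := exists_pPart q (hl q (by simp)) a
    obtain ⟨s, hs, e⟩ := ih (fun r hr => hl r (by simp [hr])) v fun r hr h => by
      rcases List.mem_cons.1 (ha r hr (h.trans (orderOf_dvd_of_mem_zpowers hv))) with rfl | h3
      · exact (hr.one_lt.ne' (Nat.eq_one_of_self_dvd' h h2)).elim
      · exact h3
    exact ⟨u :: s, .cons h1 hs, by rw [List.prod_cons, e]⟩
where Nat.eq_one_of_self_dvd' {r n : ℕ} (h : r ∣ n) (h2 : n.Coprime r) : r = 1 :=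
  h2.symm.eq_one_of_dvd h

theorem s4393 (h : ∀ (t : ℕ) (p : Fin t → ℕ), (∀ i, (p i).Prime) → Function.Injective p →
      (∀ q : ℕ, q.Prime → q ∣ Nat.card G → ∃ i, p i = q) →
      ∀ (S : (i : Fin t) → Sylow (p i) G) (g : G), ∃ s : (i : Fin t) → G,
        (∀ i, s i ∈ (S i : Subgroup G)) ∧ g = (List.ofFn s).prod)
    {a b c : G} (ab : (orderOf a).Coprime (orderOf b)) (bc : (orderOf b).Coprime (orderOf c))
    (ac : (orderOf a).Coprime (orderOf c)) (e : a * b * c = 1) : a = 1 := by
  classical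
  have key : ∀ (l : List ℕ) (s : List G), l.Nodup → (∀ q ∈ l, q.Prime) →
      (∀ q, q.Prime → q ∣ Nat.card G → q ∈ l) → List.Forall₂ (fun q x => ∃ k, orderOf x = q ^ k) l s →
      s.prod = 1 → ∀ x ∈ s, x = 1 := by
    intro l s hn hl hc hs e
    have hlen := hs.length_eq
    have hp : ∀ i : Fin l.length, (l.get i).Prime := fun i => hl _ (l.get_mem i)
    have : ∀ i : Fin l.length, ∃ S : Sylow (l.get i) G, s.get (i.cast hlen) ∈ (S : Subgroup G) := by
      intro i
      obtain ⟨k, hk⟩ := hs.get i.2 (i.cast hlen).2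
      obtain ⟨S, hS⟩ := (IsPGroup.of_card (p := l.get i) (n := k) (G := zpowers (s.get (i.cast hlen)))
        (by rw [Nat.card_zpowers]; exact hk)).exists_le_sylow
      exact ⟨S, hS (mem_zpowers _)⟩
    choose S hS using this
    let φ : (∀ i, (S i : Subgroup G)) → G := fun σ => (List.ofFn fun i => (σ i : G)).prod
    have hφ : Function.Surjective φ := fun g => by
      obtain ⟨σ, h1, h2⟩ := h _ l.get hp (List.nodup_iff_injective_get.1 hn)
        (fun q hq hd => List.get_of_mem (hc q hq hd)) S g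
      exact ⟨fun i => ⟨σ i, h1 i⟩, h2.symm⟩
    have hcard : Nat.card (∀ i, (S i : Subgroup G)) = Nat.card G := by
      rw [Nat.card_pi, Finset.prod_congr rfl fun i _ => (haveI := Fact.mk (hp i); (S i).card_eq_multiplicity),
        ← Finset.prod_image (f := fun q => q ^ (Nat.card G).factorization q)
          (List.nodup_iff_injective_get.1 hn).injOn]
      conv_rhs => rw [← Nat.prod_factorization_pow_eq_self (Nat.card_pos (α := G)).ne']
      refine (Finset.prod_subset (fun q hq => ?_) fun q _ hq => ?_).symm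
      · obtain ⟨i, rfl⟩ := List.get_of_mem (hc q (Nat.prime_of_mem_primeFactors hq)
          (Nat.dvd_of_mem_primeFactors hq))
        exact Finset.mem_image_of_mem _ (Finset.mem_univ i)
      · simp [Finsupp.notMem_support_iff.1 hq]
    have h1 := (hφ.bijective_of_nat_card_le hcard.le).1 (a₁ := fun i => ⟨_, hS i⟩) (a₂ := 1) (by
      have e1 : (List.ofFn fun i : Fin l.length => s.get (i.cast hlen)) = s :=
        List.ext_get (by simp [hlen]) (by simp)
      simp only [φ, e1, e]
      simp)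
    intro x hx
    obtain ⟨i, rfl⟩ := List.get_of_mem hx
    exact congrArg Subtype.val (congrFun h1 (i.cast hlen.symm))
  let L : G → List ℕ := fun x => (orderOf x).primeFactors.toList
  have hL : ∀ x q, q ∈ L x ↔ q.Prime ∧ q ∣ orderOf x := fun x q => by simp [L, (orderOf_pos x).ne']
  have hs := fun x => exists_parts (L x) (fun q hq => ((hL x q).1 hq).1) x fun q h1 h2 => (hL x q).2 ⟨h1, h2⟩
  obtain ⟨s1, h1, e1⟩ := hs a
  obtain ⟨s2, h2, e2⟩ := hs b
  obtain ⟨s3, h3, e3⟩ := hs c
  let R := ((Nat.card G).primeFactors.filter fun q => q ∉ L a ++ L b ++ L c).toList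
  have hR : ∀ q, q ∈ R ↔ (q.Prime ∧ q ∣ Nat.card G) ∧ q ∉ L a ++ L b ++ L c := fun q => by
    simp only [R, Finset.mem_toList, Finset.mem_filter, Nat.mem_primeFactors_of_ne_zero Nat.card_pos.ne']
  obtain ⟨s4, h4, e4⟩ := exists_parts R (fun q hq => ((hR q).1 hq).1.1) (1 : G) fun q h1 h2 =>
    (h1.one_lt.ne' (by simpa using h2)).elim
  have hd : ∀ {x y : G}, (orderOf x).Coprime (orderOf y) → (L x).Disjoint (L y) := fun h q h1 h2 =>
    ((hL _ q).1 h1).1.one_lt.ne' (Nat.eq_one_of_dvd_coprimes h ((hL _ q).1 h1).2 ((hL _ q).1 h2).2)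
  rw [← e1]
  refine List.prod_eq_one fun x hx => key (L a ++ L b ++ L c ++ R) (s1 ++ s2 ++ s3 ++ s4) ?_ ?_ ?_
    (List.rel_append (List.rel_append (List.rel_append h1 h2) h3) h4) (by simp [← mul_assoc, *]) x (by simp [hx])
  · refine List.Nodup.append (List.Nodup.append (List.Nodup.append (Finset.nodup_toList _)
      (Finset.nodup_toList _) (hd ab)) (Finset.nodup_toList _) ?_) (Finset.nodup_toList _)
      fun q h1 h2 => ((hR q).1 h2).2 h1
    exact List.disjoint_append_left.2 ⟨hd ac, hd bc⟩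
  · intro q hq
    simp only [List.mem_append, hL, hR] at hq
    tauto
  · intro q h1 h2
    rw [List.mem_append, hR]
    tauto

end H23.MinS
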