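import Cfsg.Agent.H0.LiftAmb
import Cfsg.Agent.H24.ClassSize

/-!
# The Navarro–Rizo fixed point formula for coprime actions of `p`-groups
-/

open Subgroup Finset
open scoped Pointwise

namespace H23

open H0 H19

section
variable {P : Type*} [Group P] [Finite P] {p : ℕ} [hp : Fact p.Prime]

theorem mul_card_zpowers_pow (hP : IsPGroup p P) {x : P} (hx : x ≠ 1) :
    p * Nat.card (zpowers (x ^ p)) = Nat.card (zpowers x) := by
  obtain ⟨k, hk⟩ := (IsPGroup.iff_orderOf.1 hP) x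
  have h : p ∣ orderOf x := hk ▸ dvd_pow_self p fun e => hx (by
    rw [← orderOf_eq_one_iff, hk, e, pow_zero])
  rw [Nat.card_zpowers, Nat.card_zpowers, orderOf_pow_of_dvd hp.out.ne_zero h, Nat.mul_div_cancel' h]

theorem zpowers_eq_iff_not_mem (hP : IsPGroup p P) {x y : P} (hx : x ≠ 1) :
    zpowers y = zpowers x ↔ y ∈ zpowers x ∧ y ∉ zpowers (x ^ p) := by
  constructor
  · intro e
    refine ⟨e ▸ mem_zpowers y, fun h => ?_⟩
    have h1 := Nat.le_of_dvd Nat.card_pos (card_dvd_of_le (e ▸ zpowers_le.2 h))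
    have h2 := mul_card_zpowers_pow hP hx
    have h3 : 0 < Nat.card (zpowers (x ^ p)) := Nat.card_pos
    have := hp.out.two_le
    nlinarith
  · rintro ⟨h1, h2⟩
    obtain ⟨n, rfl⟩ := (mem_powers_iff_mem_zpowers.2 h1 : y ∈ Submonoid.powers x)
    obtain ⟨k, hk⟩ := (IsPGroup.iff_orderOf.1 hP) x
    refine le_antisymm (zpowers_le.2 h1) (zpowers_le.2 (mem_zpowers_pow_iff.2 ?_))
    rw [hk]
    refine (Nat.Coprime.pow_right k (hp.out.coprime_iff_not_dvd.2 ?_).symm)
    rintro ⟨m, rfl⟩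
    exact h2 (by simp only [pow_mul]; exact pow_mem (mem_zpowers _) _)

open Classical in
theorem mult1_eq_sum [Fintype P] (H : Subgroup P) (χ : P → ℂ) :
    mult1 H χ = (#H : ℂ)⁻¹ * ∑ y, if y ∈ H then χ y else 0 := by
  rw [mult1, finsum_eq_sum_of_fintype, ← sum_filter, sum_subtype (p := (· ∈ H)) _ (by simp)]

open Classical in
theorem mult1_sub_pow [Fintype P] (hP : IsPGroup p P) (x : P) (χ : P → ℂ) :
    p * mult1 (zpowers x) χ - mult1 (zpowers (x ^ p)) χ =
      (if zpowers x = ⊥ then (p : ℂ) - 1 else p / #(zpowers x)) *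
        ∑ y, if zpowers y = zpowers x then χ y else 0 := by
  rcases eq_or_ne x 1 with rfl | hx
  · simp [mult1_bot, sub_mul]
  have h0 : (p : ℂ) ≠ 0 := Nat.cast_ne_zero.2 hp.out.ne_zero
  have h1 : (#(zpowers (x ^ p)) : ℂ) ≠ 0 := Nat.cast_ne_zero.2 Nat.card_pos.ne'
  rw [if_neg (mt zpowers_eq_bot.1 hx), mult1_eq_sum, mult1_eq_sum, ← mul_card_zpowers_pow hP hx]
  have h2 : (∑ y, if y ∈ zpowers x then χ y else 0) = (∑ y, if y ∈ zpowers (x ^ p) then χ y else 0) +
      ∑ y, if zpowers y = zpowers x then χ y else 0 := by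
    rw [← sum_add_distrib]
    refine sum_congr rfl fun y _ => ?_
    simp only [zpowers_eq_iff_not_mem hP hx]
    by_cases h3 : y ∈ zpowers (x ^ p)
    · simp [h3, zpowers_le.2 (pow_mem (mem_zpowers x) p) h3]
    · simp [h3]
  rw [h2]
  push_cast
  field_simp
  ring

theorem sum_mult1_zpowers [Fintype P] (hP : IsPGroup p P) (χ : P → ℂ) :
    p * ∑ x, mult1 (zpowers x) χ =
      (p - 1) * ∑ y, χ y + ∑ x, mult1 (zpowers (x ^ p)) χ := by
  classical
  have h1 : ∀ H : Subgroup P, mult1 H (fun _ => 1) = 1 := fun H => by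
    rw [mult1, finsum_eq_sum_of_fintype]
    simp
  rw [← sub_eq_iff_eq_add, mul_sum, ← sum_sub_distrib]
  simp only [mult1_sub_pow hP, mul_sum]
  rw [sum_comm]
  refine sum_congr rfl fun y _ => ?_
  have h2 := mult1_sub_pow hP y (fun _ => 1)
  rw [h1, h1, mul_one] at h2
  refine Eq.trans ?_ (congrArg (· * χ y) h2).symm
  simp only [mul_sum, sum_mul]
  refine sum_congr rfl fun x _ => ?_
  by_cases h3 : zpowers y = zpowers x
  · simp [h3]
  · simp [h3, Ne.symm h3]

end

variable {X : Type*} [Group X] [Finite X] {p : ℕ} [hp : Fact p.Prime] {P V : Subgroup X}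

theorem navarro_rizo_sol [Fintype P] (hP : IsPGroup p P) (hn : P ≤ N(V)) (hc : (#V).Coprime #P)
    (hs : Sol V) : (∏ x : P, #(V ⊓ C(zpowers (x : X)))) ^ p =
      #(V ⊓ C(P)) ^ ((p - 1) * #P) * ∏ x : P, #(V ⊓ C(zpowers ((x : X) ^ p))) := by
  induction hV : #V using Nat.strong_induction_on generalizing V with | _ n ih =>
  by_cases h1 : V = ⊥
  · subst h1; simp
  obtain ⟨q, W, hq, hqV, hlt, hN, hab, hpow⟩ := exists_elementary_section hs h1
  have hcW := Nat.Coprime.coprime_dvd_left (card_dvd hlt.le) hc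
  have IH := ih _ (hV ▸ card_lt hlt) (hn.trans hN) hcW (sol_mono hs hlt.le) rfl
  obtain ⟨χ, -, hd⟩ := exists_lift_section hq hlt.le hn (hn.trans hN) hab hpow
    (Nat.Coprime.coprime_dvd_left hqV hc).symm hcW (Or.inr (sol_mono hs hlt.le))
  obtain ⟨a, a1, a2⟩ := hd P le_rfl
  choose d d1 d2 using fun x : P => hd (zpowers (x : X)) (zpowers_le.2 x.2)
  have e := sum_mult1_zpowers hP fun x : P => χ x
  have h2 : ∀ x : P, mult1 (zpowers x) (fun x : P => χ x) = d x := fun x => by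
    rw [← d2, ← mult1_subgroupOf (zpowers_le.2 x.2), ← coe_subtype, ← MonoidHom.map_zpowers,
      subgroupOf, comap_map_eq_self_of_injective P.subtype_injective]
  rw [← card_mul_mult1, a2] at e
  simp only [h2] at e
  have e' : p * ∑ x, d x = a * ((p - 1) * #P) + ∑ x, d (x ^ p) := by
    have : ((p * ∑ x, d x : ℕ) : ℂ) = (a * ((p - 1) * #P) + ∑ x, d (x ^ p) : ℕ) := by
      push_cast [Nat.cast_sub hp.out.one_le]
      linear_combination e
    exact_mod_cast this
  simp only [← Subgroup.coe_pow, d1, a1, prod_mul_distrib, prod_pow_eq_pow_sum, mul_pow, ← pow_mul] at IH ⊢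
  rw [IH, mul_comm _ p, e', pow_add]
  ring

/-- **Navarro–Rizo formula.** -/
theorem navarro_rizo [Fintype P] (hP : IsPGroup p P) (hn : P ≤ N(V)) (hc : (#V).Coprime #P) :
    (∏ x : P, #(V ⊓ C(zpowers (x : X)))) ^ p =
      #(V ⊓ C(P)) ^ ((p - 1) * #P) * ∏ x : P, #(V ⊓ C(zpowers ((x : X) ^ p))) := by
  have h0 : ∀ H : Subgroup X, #H ≠ 0 := fun H => Nat.card_pos.ne'
  have h1 : ∀ f : P → Subgroup X, ∏ x, #(f x) ≠ 0 := fun f => prod_ne_zero_iff.2 fun x _ => h0 _
  refine Nat.eq_of_factorization_eq (pow_ne_zero _ (h1 _))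
    (mul_ne_zero (pow_ne_zero _ (h0 _)) (h1 _)) fun q => ?_
  by_cases hq : q.Prime
  swap
  · simp only [Nat.factorization_eq_zero_of_not_prime _ hq]
  haveI := Fact.mk hq
  have hs : ∀ E ≤ P, Sol E := fun E hE => haveI := (hP.to_le hE).isNilpotent; inferInstance
  obtain ⟨Q, hQ, hQn⟩ := inv_syl_exists q hn hc (Or.inl (hs P le_rfl))
  have h2 : ∀ E ≤ P, (#(V ⊓ C(E))).factorization q = (#(Q ⊓ C(E))).factorization q := fun E hE => by
    obtain ⟨S, hS⟩ := (inv_syl_inf_cent (hE.trans hn) (hc.coprime_dvd_right (card_dvd hE))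
      (Or.inl (hs E hE)) hQ (hE.trans hQn)).exists_sylow
    rw [← hS, card_map_of_injective (subtype_injective _), S.card_eq_multiplicity,
      hq.factorization_pow, Finsupp.single_eq_same]
  obtain ⟨S, hS⟩ := hQ.exists_sylow
  have h3 : Sol Q := by
    haveI := (hS ▸ S.isPGroup'.map V.subtype : IsPGroup q Q).isNilpotent
    infer_instance
  have h4 := congrArg (fun n => n.factorization q) (navarro_rizo_sol hP hQn
    (hc.coprime_dvd_left (card_dvd hQ.1)) h3)
  simp only [Nat.factorization_mul (pow_ne_zero _ (h0 _)) (h1 _), Nat.factorization_pow,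
    Nat.factorization_prod fun x _ => h0 _, Finsupp.add_apply, Finsupp.smul_apply,
    Finsupp.finsetSum_apply] at h4 ⊢
  rw [h2 P le_rfl, sum_congr rfl fun (x : P) _ => h2 _ (zpowers_le.2 x.2),
    sum_congr rfl fun (x : P) _ => h2 _ (zpowers_le.2 (pow_mem x.2 p)), h4]

end H23
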