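/-
S3384, chunks `OI` and `FIN`.
-/
import Cfsg.Agent.H14.O80
import Cfsg.Agent.H14.OmRep
import Cfsg.Agent.H11.OmegaOrder
import Cfsg.Agent.H8.PG4
import Cfsg.Agent.H19.Amb4

set_option autoImplicit false
set_option linter.unusedSectionVars false

open Cfsg Subgroup
open H19 hiding eq_bot_mono
open H14.O8 (Cls OI FIN)
namespace H23.O8
universe u

theorem oi : OI.{u} := fun F _ _ hF => by
  have z : center (Omega F (quadFormPlus 4 F)) = ⊥ :=
    card_eq_one.1 ((H11.card_center_omegaPlus (by decide) (.inr (by decide))).trans (by rw [hF]; decide))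
  have e := (QuotientGroup.quotientMulEquivOfEq z).trans QuotientGroup.quotientBot
  have := H11.pomegaPlus_simple (F := F) (m := 4) (by decide)
  have c := H11.card_omegaPlus_mul (F := F) (m := 3) (.inr (by decide))
  refine ⟨(H14.equiv_D4 F).map (·.trans e), e.symm.isSimpleGroup, z, ?_⟩
  rw [hF, show Nat.gcd 2 (4 - 1) = 1 by decide, one_mul] at c
  rw [c]; decide +kernel

variable {Γ : Type} [Group Γ] [Finite Γ] {M M' L L' : Subgroup Γ} {k : ℕ} {g : Γ}

/-- `L` lies between `M` and its normalizer -/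
structure In (M L : Subgroup Γ) (k : ℕ) : Prop where
  n : M ⊴ L
  i : M.relIndex L = k

theorem In.J (h : In M L k) (g : Γ) : In (cj g M) (cj g L) k := ⟨h.n.J g, (relIndex_cj _ _ _).trans h.i⟩
theorem In.dvd (h : In M L k) : k ∣ M.relIndex N(M) :=
  h.i ▸ Dvd.intro _ (relIndex_mul_relIndex M L _ h.n.le h.n.norm)

theorem gf [IsSimpleGroup M] (c : C(M) = ⊥) (h : M ⊴ L) : generalizedFittingSubgroup L = M.subgroupOf L := by
  have := h.subgroupOf
  have := (subgroupOfEquivOfLe h.le).isSimpleGroup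
  exact H8.PG.gf_eq_of_simple _ (eq_bot_iff.2 fun x hx => mem_bot.2 (Subtype.ext (mem_bot.1 (c ▸ mem_cent.2 fun y hy =>
    congrArg Subtype.val (mem_cent.1 hx ⟨y, h.le hy⟩ hy)))))

theorem syl {p a m : ℕ} (hp : p.Prime) (h : M.relIndex N(M) = p ^ a * m) (hm : ¬ p ∣ m) :
    ∃ L, In M L (p ^ a) ∧ ∀ L', In M L' (p ^ a) → ∃ g, cj g L' = L := by
  have := Fact.mk hp
  have k : ∀ L, In M L (p ^ a) → Syl p (quo M L) (quo M N(M)) := fun L l =>
    syl_mk (quo_mono _ l.n.norm) (PiN.of_card_pow hp ((card_quo l.n.norm).trans l.i)) (by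
      have := relIndex_mul_relIndex M L _ l.n.le l.n.norm
      rw [l.i, h] at this
      rwa [relIndex_quo l.n.le l.n.norm le_rfl, Nat.eq_of_mul_eq_mul_left (pow_pos hp.pos a) this])
  obtain ⟨P, hP⟩ := Sylow.exists_subgroup_card_pow_prime (G := Quo M) p (n := a) (Dvd.intro m h.symm)
  have l : In M (qpre M P) (p ^ a) := ⟨⟨le_qpre _, qpre_le_norm _⟩, by rw [← card_quo (qpre_le_norm _), quo_qpre, hP]⟩
  refine ⟨_, l, fun L' l' => ?_⟩
  obtain ⟨x, -, e⟩ := (k _ l').sconj (k _ l)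
  obtain ⟨g, rfl⟩ := qmk_surj M x
  refine ⟨g, ?_⟩
  have j := l'.J g
  rw [cj_of_mem_norm g.2] at j
  exact quo_inj j.n.norm l.n.norm j.n.le l.n.le ((quo_cj g.2 _).trans e)

theorem fin : FIN.{u} := fun Γ Ω _ _ _ _ M iso cl c ix => by
  have s : ∀ j, IsSimpleGroup (M j) := fun j => (iso j).elim fun e => e.isSimpleGroup
  have i0 : (M 0).relIndex N(M 0) = 12 := ix 0
  have i1 : (M 1).relIndex N(M 1) = 4 := ix 1
  have a : ∀ {j L k}, In (M j) L k → Nonempty (generalizedFittingSubgroup L ≃* Ω) ∧ (generalizedFittingSubgroup L).index = k :=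
    fun {j L k} h => by
      rw [gf (c j) h.n]; exact ⟨(iso j).map (subgroupOfEquivOfLe h.n.le).trans, h.i⟩
  have b : ∀ {L : Subgroup Γ} {k}, Nonempty (generalizedFittingSubgroup L ≃* Ω) ∧ (generalizedFittingSubgroup L).index = k →
      ∃ j g, In (M j) (cj g L) k := fun {L k} ⟨⟨e⟩, h⟩ => by
    obtain ⟨j, g, l⟩ := cl _ ⟨(equivMapOfInjective _ _ L.subtype_injective).symm.trans e⟩
    exact ⟨j, g, l ▸ In.J ⟨normalIn_map_subtype _, by rw [relIndex, subgroupOf, comap_map_eq_self_of_injective L.subtype_injective, h]⟩ g⟩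
  have n : ∀ i j, (∃ g, cj g (M i) = M j) → i = j := fun i j ⟨g, e⟩ => by
    have := ix j
    rw [← e, ← cj_norm, relIndex_cj, ix i] at this
    exact (by decide : ∀ i j : Fin 2, ![12, 4] i = ![12, 4] j → i = j) i j this
  have n' : ∀ {i j L L' k k'}, In (M i) L k → In (M j) L' k' → (∃ g, cj g L = L') → i = j := fun {i j L L' k k'} h h' ⟨g, e⟩ => by
    have : IsSimpleGroup (cj g (M i)) := (cjEquiv g (M i)).symm.isSimpleGroup
    have l : cj g (M i) ⊴ L' := e ▸ h.n.J g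
    have := (gf (by rw [← cj_cent, c i, cj_bot]) l).symm.trans (gf (c j) h'.n)
    exact n i j ⟨g, by rwa [subgroupOf_inj, inf_of_le_left l.le, inf_of_le_left h'.n.le] at this⟩
  have one : ∀ k, ¬ k ∣ 4 → (∃ L, In (M 0) L k ∧ ∀ L', In (M 0) L' k → ∃ g, cj g L' = L) → Cls (fun H : Subgroup Γ =>
      Nonempty (generalizedFittingSubgroup H ≃* Ω) ∧ (generalizedFittingSubgroup H).index = k) 1 := fun k k4 ⟨L, l, u⟩ =>
    ⟨fun _ => L, fun _ => a l, fun _ _ _ => Subsingleton.elim _ _, fun H h => by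
      obtain ⟨j, g, m⟩ := b h
      obtain rfl | rfl : j = 0 ∨ j = 1 := by omega
      · obtain ⟨g', e⟩ := u _ m
        exact ⟨0, g' * g, (cj_mul _ _ _).trans e⟩
      · exact absurd (i1 ▸ m.dvd) k4⟩
  refine ⟨⟨M, iso, n, cl⟩, one 3 (by decide) (syl (a := 1) (m := 4) Nat.prime_three i0 (by decide)), ?_,
    one 12 (by decide) ⟨_, ⟨normalIn_norm _, i0⟩, fun L l => ⟨1, (cj_one _).trans (eq_of_le_of_card_eq l.n.norm ?_)⟩⟩⟩
  · have : ∀ j, ∃ L, In (M j) L 4 ∧ ∀ L', In (M j) L' 4 → ∃ g, cj g L' = L := Fin.forall_fin_two.2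
      ⟨syl (a := 2) (m := 3) Nat.prime_two i0 (by decide), syl (a := 2) (m := 1) Nat.prime_two i1 (by decide)⟩
    choose f l u using this
    refine ⟨f, fun j => a (l j), fun i j => n' (l i) (l j), fun H h => ?_⟩
    obtain ⟨j, g, m⟩ := b h
    obtain ⟨g', e⟩ := u j _ m
    exact ⟨j, g' * g, (cj_mul _ _ _).trans e⟩
  · rw [← card_mul_relIndex l.n.le, ← card_mul_relIndex (le_normalizer (H := M 0)), l.i, i0]

end H23.O8
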