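/-
S3384, chunks `TT` and `S5`: the torus `5⁴`.
-/
import Cfsg.Agent.H14.O80
import Cfsg.Agent.H19.Amb4

set_option autoImplicit false
set_option linter.unusedSectionVars false

namespace H23.O8
open Subgroup

section abstract
open H19 hiding eq_bot_mono
variable {Γ : Type*} [Group Γ] [Finite Γ] {A B : Subgroup Γ} {n : Γ}

theorem s5a (cA : #A = 5 ^ 4) (ab : A ≤ C(A)) (nN : n ∈ N(A)) (n5 : n ^ 5 ∈ A) (nA : n ∉ A) (five : ¬ 5 ^ 6 ∣ Nat.card Γ)
    (fx : #(A ⊓ C[n]) ≤ 5) (cB : #B = 5 ^ 4) (aB : B ≤ C(B)) : ∃ g, cj g B = A := by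
  have p5 : Nat.Prime 5 := by decide
  have zN : zpowers n ≤ N(A) := zpowers_le.2 nN
  have pA : PG 5 A := PiN.of_card_pow p5 cA
  have pP : PG 5 (A ⊔ zpowers n) := pA.sup (piG_zpowers.2 ((PiN.prime_pow p5 5).dvd (orderOf_dvd_of_pow_eq_one (by
    have := orderOf_dvd_iff_pow_eq_one.1 (orderOf_dvd_card' n5)
    rwa [cA, ← pow_mul] at this)))) zN
  obtain ⟨k, hk⟩ := pP.exists_card
  have lt : A < A ⊔ zpowers n := left_lt_sup.2 (mt zpowers_le.1 nA)
  have k1 := card_lt lt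
  rw [cA, hk, Nat.pow_lt_pow_iff_right (by decide)] at k1
  have k2 : ¬ 6 ≤ k := fun h => five ((pow_dvd_pow 5 h).trans (hk ▸ card_subgroup_dvd_card _))
  obtain rfl : k = 5 := by omega
  have nP : n ∈ A ⊔ zpowers n := mem_sup_right (mem_zpowers n)
  have PN : A ⊔ zpowers n ≤ N(A) := sup_le le_normalizer zN
  generalize A ⊔ zpowers n = P at *
  have sP : Syl 5 P ⊤ := syl_mk le_top pP fun h => five (by
    rw [← card_top, ← card_mul_relIndex (le_top (a := P)), hk, pow_succ]; exact Nat.mul_dvd_mul_left _ h)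
  obtain ⟨g, -, hg⟩ := sP.scj_le le_top (PiN.of_card_pow p5 cB)
  have c' : #(cj g B) = 5 ^ 4 := (card_cj _ _).trans cB
  have a' : cj g B ≤ C(cj g B) := by rw [← cj_cent]; exact cj_mono g aB
  refine ⟨g, ?_⟩
  generalize cj g B = D at *
  by_contra ne
  obtain ⟨y, hy, yA⟩ := SetLike.not_le_iff_exists.1 fun h : D ≤ A => ne (eq_of_le_of_card_eq h (c'.trans cA.symm))
  have i : A.relIndex P = 5 := by have := card_mul_relIndex lt.le; rw [cA, hk] at this; omega
  have e : A ⊔ zpowers y = P := (eq_of_prime_index le_sup_left (sup_le lt.le (zpowers_le.2 (hg hy))) (i ▸ p5)).resolve_left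
    fun h => yA (h ▸ mem_sup_right (mem_zpowers y))
  have l : A ⊓ D ≤ A ⊓ C[n] := le_inf inf_le_left (le_cent1_iff.2 ((e ▸ sup_le (cents_mono ab le_rfl inf_le_left)
    (zpowers_le.2 (cent_mono inf_le_right (a' hy))) : P ≤ C(A ⊓ D)) nP))
  have h1 := card_sup_mul_inf (hg.trans PN)
  have h2 := Nat.mul_le_mul (card_le (sup_le lt.le hg)) ((card_le l).trans fx)
  rw [h1, cA, c', hk] at h2
  omega
end abstract

open Cfsg Cfsg.Lie H14 H14.O8 H14.RootSys H14.PreSt H14.St Matrix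

/-- the coroots that span the torus -/
noncomputable def U : Matrix (Fin 4) (Fin chevE8.rank) ℤ := of fun i k => R.co (q 0 i) k + 2 * R.co (w (q 0 i)) k
/-- the action of the Frobenius map -/
noncomputable def Fm : Matrix (Fin chevE8.rank) (Fin chevE8.rank) ℤ := of fun i j => 2 * R.co (w (R.simple i)) j
/-- coordinates of the fixed vectors -/
def Pm : Matrix (Fin chevE8.rank) (Fin 4) ℤ := (!![0, 0, 0, 1; 3, 1, 4, 3; 0, 0, 2, 1; 0, 3, 0, 0; 1, 3, 4, 4; 4, 0, 0, 0;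
  0, 4, 3, 1; 2, 4, 3, 2] : Matrix (Fin 8) (Fin 4) ℤ)
theorem U_eq : U = of fun (i : Fin 4) (k : Fin chevE8.rank) => tabE8.co (q 0 i) k + 2 * tabE8.co (wN (q 0 i)) k := by
  ext i k; simp only [U, of_apply, co_val, w_val]
theorem Fm_eq : Fm = of fun i j : Fin chevE8.rank => 2 * tabE8.co (wN (chevE8.simple i)) j := by
  ext i k; simp only [Fm, of_apply, co_val, w_val]; rfl
local notation "π" => Int.castRingHom (ZMod 5)
theorem FF : Fm * Fm = diagonal fun _ => -4 := by rw [Fm_eq]; decide +kernel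
theorem UF : U.map π * Fm.map π = U.map π := by rw [Fm_eq, U_eq]; decide +kernel
theorem PU : Pm.map π * U.map π + (2 : ZMod 5) • Fm.map π = (3 : ZMod 5) • 1 := by rw [Fm_eq, U_eq]; decide +kernel

variable {K G : Type} [Field K] [Group G] (X : Su K G)

theorem zeq {a b : ℤ} : X.ζ ^ a = X.ζ ^ b ↔ (a : ZMod 5) = b := by
  rw [zpow_eq_zpow_iff_modEq, X.ord, ZMod.intCast_eq_intCast_iff]
theorem c_eq (y : V) : X.c y = fun k => X.ζ ^ ((fun i => ((y i).val : ℤ)) ᵥ* U) k := by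
  funext k; simp only [Su.c, vecMul, dotProduct, U, of_apply]
theorem cast_vm {α β : Type} [Fintype α] (μ : α → ℤ) (M : Matrix α β ℤ) (k : β) :
    ((μ ᵥ* M) k : ZMod 5) = ((fun i => (μ i : ZMod 5)) ᵥ* M.map π) k := by simp [vecMul, dotProduct]
theorem c_iff {y : V} {ν : Fin chevE8.rank → ℤ} : X.c y = (fun k => X.ζ ^ ν k) ↔ y ᵥ* U.map π = fun k => (ν k : ZMod 5) := by
  simp [c_eq, funext_iff, zeq, cast_vm]
theorem mat_eq : X.F.mat = Fm := by ext i j; simp [Fr.mat, Fm, X.q, X.ρ]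
theorem fix_iff {c : Fin chevE8.rank → Kˣ} : X.F.hmul.tor c ∈ X.F.fix ↔ mpow Kˣ Fm c = c := by
  rw [Fr.mem_fix, Fr.σ_tor, X.inj.eq_iff, mat_eq]
theorem fix_iff' {ν : Fin chevE8.rank → ℤ} : X.F.hmul.tor (fun k => X.ζ ^ ν k) ∈ X.F.fix ↔
    (fun k => (ν k : ZMod 5)) ᵥ* Fm.map π = fun k => (ν k : ZMod 5) := by
  simp [fix_iff, mpow_zpow, funext_iff, zeq, cast_vm]

theorem chi_c (y : V) (s : I) : R.chi (X.c y) s = X.ζ ^ (y ⬝ᵥ κ s).val := by
  have : ∀ i, (U *ᵥ R.wt s) i = R.pair (q 0 i) s + 2 * R.pair (w (q 0 i)) s := fun i => by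
    simp only [mulVec, dotProduct, U, of_apply, RootSys.pair, add_mul, Finset.sum_add_distrib, Finset.mul_sum, mul_assoc]
  rw [c_eq, chi_zpow, ← zpow_natCast, zeq, ← dotProduct_mulVec]
  simp only [dotProduct, this, κ, Int.cast_sum, Int.cast_mul, Int.cast_natCast, ZMod.natCast_zmod_val]

theorem mem_A (g : G) : g ∈ X.A ↔ ∃ y, g = X.a y := by
  refine ⟨fun h => ?_, ?_⟩
  · obtain ⟨c, rfl⟩ := X.F.hmul.exists_tor h.1
    have e := (fix_iff X).1 h.2
    have e2 : mpow Kˣ (Fm * Fm) c = c := by rw [mpow_mul, e, e]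
    rw [FF, mpow_diagonal] at e2
    have : ∀ k, ∃ m : ℤ, X.ζ ^ m = c k := fun k => by
      have : IsPrimitiveRoot X.ζ 5 := X.ord ▸ IsPrimitiveRoot.orderOf _
      obtain ⟨m, -, hm⟩ := this.eq_pow_of_mem_rootsOfUnity (ξ := c k) (by
        rw [mem_rootsOfUnity, ← zpow_natCast, show ((5 : ℕ) : ℤ) = 1 - -4 from rfl, _root_.zpow_sub, congrFun e2 k]; simp)
      exact ⟨m, by simpa using hm⟩
    choose ν hν using this
    obtain rfl : (fun k => X.ζ ^ ν k) = c := funext hν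
    refine ⟨(fun k => (ν k : ZMod 5)) ᵥ* Pm.map π, congrArg _ ((c_iff X).2 ?_).symm⟩
    rw [vecMul_vecMul, eq_sub_of_add_eq PU, vecMul_sub, vecMul_smul, vecMul_smul, (fix_iff' X).1 h.2, vecMul_one, ← sub_smul]
    norm_num
  · rintro ⟨y, rfl⟩
    refine mem_inf.2 ⟨X.F.hmul.range_tor.le ⟨_, rfl⟩, ?_⟩
    rw [Su.a, c_eq, fix_iff', ← (c_iff X).1 (c_eq X y), vecMul_vecMul, UF]

theorem a_inj (w6 : W6) : Function.Injective X.a := fun y y' h => sub_eq_zero.1 (w6.span _ fun s => by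
  have := (chi_c X y s).symm.trans (X.inj h ▸ chi_c X y' s)
  rw [← zpow_natCast, ← zpow_natCast, zeq] at this
  simpa [sub_eq_zero] using this)

/-- the exponents that give elements of `M` -/
def zp {α Γ : Type} [CommGroup Γ] (s : Γ) (M : Subgroup (α → Γ)) : AddSubgroup (α → ℤ) where
  carrier := {ν | (fun k => s ^ ν k) ∈ M}
  zero_mem' := by simpa [← Pi.one_def] using one_mem _
  add_mem' a b := by simpa [Pi.mul_def, _root_.zpow_add] using mul_mem (M := α → Γ) a b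
  neg_mem' a := by simpa [Pi.inv_def] using inv_mem (G := α → Γ) a

theorem tt [IsAlgClosed K] (w6 : W6) : X.TT where
  chi := chi_c X
  add y y' := (congrArg X.F.hmul.tor (funext fun k => by
    simp only [c_eq, Pi.mul_apply, ← _root_.zpow_add, zeq, Int.cast_add, cast_vm]; simp [add_vecMul, ← Pi.add_def])).trans (map_mul _ _ _)
  mem := mem_A X
  inj := a_inj X w6
  card := by
    rw [show Nat.card X.A = Nat.card (Set.range X.a) from Nat.card_congr (Equiv.subtypeEquivRight fun g => by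
      simp [mem_A, eq_comm]), Nat.card_range_of_injective (a_inj X w6)]
    simp
  le j := H_le_of_simple fun k t ht => by
    obtain ⟨s, rfl⟩ := IsAlgClosed.exists_pow_nat_eq t two_pos
    obtain ⟨s, rfl⟩ := IsUnit.mk0 s fun h => ht (by simp [h])
    let T := zp s ((X.S.U (Ξ j)).comap X.F.hmul.tor)
    have m : ∀ r ∈ Ξ j, R.co r ∈ T := fun r hr => (X.F.hmul.h_eq r s ▸ h_mem_U hr ((w6.cl j).neg hr) _ :)
    have q1 : ∀ i, q j i ∈ Ξ j := fun i => .inl ⟨_, w6.simple j i⟩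
    obtain ⟨a, b, e⟩ := w6.two j k
    have : _ ∈ T := e ▸ sum_mem fun i _ => add_mem (zsmul_mem (m _ (q1 i)) _) (zsmul_mem (m _ ((w6.w_mem j _).2 (q1 i))) _)
    rw [← Units.val_pow_eq_pow_val, X.F.hmul.h_eq]
    simp only [← zpow_natCast, ← _root_.zpow_mul]
    exact this

theorem s5 (w5 : W5) (T : X.TT) (N : X.NN) : X.S5 := fun B hB cB aB => by
  obtain ⟨v, vC, v1, v5, u, hu⟩ := w5
  obtain ⟨n, nF, hn⟩ := N.rep v vC
  have := X.fin
  have AF : X.A ≤ X.F.fix := inf_le_right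
  obtain ⟨g, hg⟩ := s5a (A := X.A.subgroupOf X.F.fix) (B := B.subgroupOf X.F.fix) (n := ⟨n, nF⟩)
    ((H19.card_subgroupOf' AF).trans T.card) (fun a ha b hb => Subtype.ext (X.F.hmul.comm _ hb.1 _ ha.1))
    (mem_normalizer_iff.2 fun a => mem_normalizer_iff.1 (N.nw n v hn nF).2 a)
    ⟨mem_H_of_NW (v5 ▸ pow_mem hn 5), pow_mem nF 5⟩ (fun h => v1 (NW.unique X.F.sep hn (mem_NW_of_H h.1))) X.five (by
      have : ∀ x : ↥(X.A.subgroupOf X.F.fix ⊓ centralizer {(⟨n, nF⟩ : X.F.fix)}), ∃ t : ZMod 5, x.1.1 = X.a (t • u) := fun x => by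
        obtain ⟨y, e⟩ := (T.mem _).1 x.2.1
        have c : Commute (X.a y) n := e ▸ congrArg Subtype.val (H19.mem_cent1.1 x.2.2)
        obtain ⟨t, rfl⟩ := hu y fun s => by
          have := (T.chi y _).symm.trans ((X.F.hmul.chi_of_commute X.F.sep hn c s).trans (T.chi y s))
          rw [← zpow_natCast, ← zpow_natCast, zeq] at this
          simpa using this
        exact ⟨t, e⟩
      choose t ht using this
      simpa using Nat.card_le_card_of_injective t fun x y e => Subtype.ext (Subtype.ext (by rw [ht, ht, e])))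
    ((H19.card_subgroupOf' hB).trans cB) (fun a ha b hb => Subtype.ext (aB _ hb _ ha))
  refine ⟨g, g.2, ?_⟩
  rw [← map_subgroupOf_eq_of_le hB, ← map_subgroupOf_eq_of_le AF, ← hg, H19.cj_def, Subgroup.map_map, Subgroup.map_map]; rfl

end H23.O8
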