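import Cfsg.Agent.H12.OmegaSum
import Cfsg.Agent.H11.LowDim

/-!
Hyperbolic frames of quadratic spaces, their parabolic subgroups and the Gauss decomposition.
-/

namespace H23.OO

open Module QuadraticMap Matrix H12

theorem exists_conj {G : Type*} [Group G] [Finite G] {U : Subgroup G} {l : G} (h1 : ∀ u ∈ U, l * u * l⁻¹ ∈ U)
    (h2 : ∀ u ∈ U, u * l = l * u → u = 1) {u : G} (hu : u ∈ U) : ∃ v ∈ U, v * l * v⁻¹ = u * l := by
  obtain ⟨v, e⟩ := Finite.surjective_of_injective (f := fun v : U => (⟨v * (l * v.1⁻¹ * l⁻¹), mul_mem v.2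
    (h1 _ (inv_mem v.2))⟩ : U)) (fun a b e => Subtype.ext (inv_mul_eq_one.1 (h2 _ (mul_mem (inv_mem b.2) a.2) (by
      have e : a.1 * (l * a.1⁻¹ * l⁻¹) = b * (l * b.1⁻¹ * l⁻¹) := congrArg Subtype.val e
      rw [show b.1⁻¹ * a * l = b.1⁻¹ * (a * (l * a.1⁻¹ * l⁻¹)) * l * a by group, e]; group))).symm) ⟨u, hu⟩
  exact ⟨v, v.2, by rw [← show v.1 * (l * v.1⁻¹ * l⁻¹) = u from congrArg Subtype.val e]; group⟩

variable {F V : Type*} {n : Type} [Field F] [AddCommGroup V] [Module F V] [Fintype n] [DecidableEq n]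

theorem dot_ext {a b : n → F} (h : ∀ x, x ⬝ᵥ a = x ⬝ᵥ b) : a = b := dotProduct_eq _ _ fun x => by
  rw [dotProduct_comm, h, dotProduct_comm]

theorem exists_vec (φ : (n → F) →ₗ[F] F) : ∃ a : n → F, ∀ x, φ x = a ⬝ᵥ x :=
  ⟨fun i => φ (Pi.single i 1), fun x => by
    conv_lhs => rw [pi_eq_sum_univ' x]
    simp [dotProduct, mul_comm]⟩

/-- the inverse transpose -/
def dual : GL n F →* GL n F where
  toFun P := ⟨(P⁻¹ : GL n F).1ᵀ, P.1ᵀ, by rw [← transpose_mul, Units.mul_inv, transpose_one],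
    by rw [← transpose_mul, Units.inv_mul, transpose_one]⟩
  map_one' := Units.ext (by simp)
  map_mul' P Q := Units.ext (by simp [-coe_units_inv])

theorem coe_dual (P : GL n F) : (dual P).1 = (P⁻¹ : GL n F).1ᵀ := rfl

theorem dual_dual (P : GL n F) : dual (dual P) = P := rfl

theorem dual_dot (P : GL n F) (x y : n → F) : (P.1 *ᵥ x) ⬝ᵥ ((dual P).1 *ᵥ y) = x ⬝ᵥ y := by
  rw [coe_dual, dotProduct_mulVec, vecMul_transpose, mulVec_mulVec, Units.inv_mul, one_mulVec]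

/-- hyperbolic frames -/
structure Fr (Q : QuadraticForm F V) (n : Type) [Fintype n] where
  E : (n → F) →ₗ[F] V
  Φ : (n → F) →ₗ[F] V
  cx : V →ₗ[F] (n → F)
  cy : V →ₗ[F] (n → F)
  qE : ∀ x, Q (E x) = 0
  qΦ : ∀ y, Q (Φ y) = 0
  pE : ∀ x v, polar Q (E x) v = x ⬝ᵥ cy v
  pΦ : ∀ y v, polar Q (Φ y) v = y ⬝ᵥ cx v
  xE : ∀ x, cx (E x) = x
  yΦ : ∀ y, cy (Φ y) = y

namespace Fr

variable {Q : QuadraticForm F V} (fr : Fr Q n)

attribute [simp] qE qΦ pE pΦ xE yΦ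

/-- the opposite frame -/
@[simps] def swap : Fr Q n := ⟨fr.Φ, fr.E, fr.cy, fr.cx, fr.qΦ, fr.qE, fr.pΦ, fr.pE, fr.yΦ, fr.xE⟩

@[simp] theorem yE (x : n → F) : fr.cy (fr.E x) = 0 := dot_ext fun y => by
  rw [← fr.pE, polar, ← map_add, qE]; simp

@[simp] theorem xΦ (y : n → F) : fr.cx (fr.Φ y) = 0 := fr.swap.yE y

@[simp] theorem pE' (x : n → F) (v : V) : polar Q v (fr.E x) = x ⬝ᵥ fr.cy v := by rw [polar_comm, fr.pE]

@[simp] theorem pΦ' (y : n → F) (v : V) : polar Q v (fr.Φ y) = y ⬝ᵥ fr.cx v := fr.swap.pE' y v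

/-- the orthogonal complement -/
def W : Submodule F V := LinearMap.ker fr.cx ⊓ LinearMap.ker fr.cy

theorem mem_W {w : V} : w ∈ fr.W ↔ fr.cx w = 0 ∧ fr.cy w = 0 := Iff.rfl

@[simp] theorem swap_W : fr.swap.W = fr.W := inf_comm ..

/-- the projection to the complement -/
def p : End F V := 1 - fr.E ∘ₗ fr.cx - fr.Φ ∘ₗ fr.cy

theorem p_apply (v : V) : fr.p v = v - fr.E (fr.cx v) - fr.Φ (fr.cy v) := rfl

@[simp] theorem swap_p : fr.swap.p = fr.p := sub_right_comm ..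

@[simp] theorem xp (v : V) : fr.cx (fr.p v) = 0 := by simp [p_apply]

@[simp] theorem yp (v : V) : fr.cy (fr.p v) = 0 := by simp [p_apply]

theorem p_mem (v : V) : fr.p v ∈ fr.W := ⟨fr.xp v, fr.yp v⟩

theorem p_of {w : V} (h : w ∈ fr.W) : fr.p w = w := by simp [p_apply, (fr.mem_W.1 h).1, (fr.mem_W.1 h).2]

@[simp] theorem pp (v : V) : fr.p (fr.p v) = fr.p v := fr.p_of (fr.p_mem v)

@[simp] theorem p_E (x : n → F) : fr.p (fr.E x) = 0 := by simp [p_apply]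

@[simp] theorem p_Φ (x : n → F) : fr.p (fr.Φ x) = 0 := by simp [p_apply]

theorem dec (v : V) : fr.E (fr.cx v) + fr.p v + fr.Φ (fr.cy v) = v := by rw [p_apply]; abel

theorem ext {u v : V} (h1 : fr.cx u = fr.cx v) (h2 : fr.p u = fr.p v) (h3 : fr.cy u = fr.cy v) : u = v := by
  rw [← fr.dec u, h1, h2, h3, fr.dec]

theorem Q_eq (v : V) : Q v = fr.cx v ⬝ᵥ fr.cy v + Q (fr.p v) := by
  conv_lhs => rw [← fr.dec v]
  simp [Q_add, dotProduct_comm, add_comm]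

theorem polar_eq (u v : V) : polar Q u v = fr.cx u ⬝ᵥ fr.cy v + fr.cy u ⬝ᵥ fr.cx v + polar Q (fr.p u) (fr.p v) := by
  conv_lhs => rw [← fr.dec u, ← fr.dec v]
  simp [dotProduct_comm (fr.cx v), dotProduct_comm (fr.cy v), add_comm, add_left_comm]

theorem hom_ext {g h : orth Q} (h1 : ∀ x, g.1 (fr.E x) = h.1 (fr.E x)) (h2 : ∀ w ∈ fr.W, g.1 w = h.1 w)
    (h3 : ∀ y, g.1 (fr.Φ y) = h.1 (fr.Φ y)) : g = h := orth_ext fun v => by
  rw [← fr.dec v, map_add, map_add, map_add, map_add, h1, h2 _ (fr.p_mem v), h3]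

/-- Levi elements as linear maps -/
def levL (A : GL n F) : End F V := fr.E ∘ₗ A.1.mulVecLin ∘ₗ fr.cx + fr.p + fr.Φ ∘ₗ (dual A).1.mulVecLin ∘ₗ fr.cy

theorem levL_mul (A B : GL n F) (v : V) : fr.levL A (fr.levL B v) = fr.levL (A * B) v := by simp [levL]

theorem levL_one (v : V) : fr.levL 1 v = v := by simp [levL, dec]

/-- the Levi factor -/
def lev : GL n F →* orth Q := MonoidHom.mk' (fun A => ⟨LinearEquiv.ofLinearMap (fr.levL A) (fr.levL A⁻¹)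
  (LinearMap.ext fun v => by simp [levL_mul, levL_one]) (LinearMap.ext fun v => by simp [levL_mul, levL_one]),
  mem_orth.2 fun v => by rw [fr.Q_eq, fr.Q_eq v]; simp [levL, dual_dot]⟩) fun A B => orth_ext fun v => (fr.levL_mul A B v).symm

theorem lev_apply (A : GL n F) (v : V) :
    (fr.lev A).1 v = fr.E (A.1 *ᵥ fr.cx v) + fr.p v + fr.Φ ((dual A).1 *ᵥ fr.cy v) := rfl

@[simp] theorem lev_E (A : GL n F) (x : n → F) : (fr.lev A).1 (fr.E x) = fr.E (A.1 *ᵥ x) := by simp [lev_apply]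

@[simp] theorem lev_Φ (A : GL n F) (x : n → F) : (fr.lev A).1 (fr.Φ x) = fr.Φ ((dual A).1 *ᵥ x) := by simp [lev_apply]

theorem lev_W (A : GL n F) {w : V} (h : w ∈ fr.W) : (fr.lev A).1 w = w := by
  simp [lev_apply, (fr.mem_W.1 h).1, (fr.mem_W.1 h).2, fr.p_of h]

theorem swap_lev (A : GL n F) : fr.swap.lev (dual A) = fr.lev A := orth_ext fun v => by
  simp [lev_apply, dual_dual]; abel

theorem cy_of {g : orth Q} (h : ∀ x, g.1 (fr.E x) = fr.E x) (v : V) : fr.cy (g.1 v) = fr.cy v := dot_ext fun x => by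
  rw [← fr.pE, ← h, orth_polar, fr.pE]

theorem inv_fix {g : orth Q} {v : V} (h : g.1 v = v) : (g⁻¹).1 v = v := by
  conv_lhs => rw [← h, orth_inv_apply']

/-- isometries of the complement -/
def O : Subgroup (orth Q) where
  carrier := {g | (∀ x, g.1 (fr.E x) = fr.E x) ∧ ∀ y, g.1 (fr.Φ y) = fr.Φ y}
  mul_mem' ha hb := ⟨fun x => by rw [orth_mul_apply, hb.1, ha.1], fun x => by rw [orth_mul_apply, hb.2, ha.2]⟩
  one_mem' := ⟨fun _ => rfl, fun _ => rfl⟩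
  inv_mem' ha := ⟨fun x => inv_fix (ha.1 x), fun x => inv_fix (ha.2 x)⟩

theorem swap_O {δ : orth Q} (h : δ ∈ fr.O) : δ ∈ fr.swap.O := ⟨h.2, h.1⟩

theorem O_W {δ : orth Q} (h : δ ∈ fr.O) {w : V} (hw : w ∈ fr.W) : δ.1 w ∈ fr.W :=
  ⟨(fr.swap.cy_of h.2 w).trans hw.1, (fr.cy_of h.1 w).trans hw.2⟩

theorem refl_mem {w : V} (hw : w ∈ fr.W) : refl Q w ∈ fr.O :=
  ⟨fun x => refl_apply_of_orth (by simp [(fr.mem_W.1 hw).2]), fun x => refl_apply_of_orth (by simp [(fr.mem_W.1 hw).1])⟩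

theorem lev_comm (A : GL n F) {δ : orth Q} (h : δ ∈ fr.O) : Commute (fr.lev A) δ :=
  fr.hom_ext (fun x => by simp [orth_mul_apply, h.1]) (fun w hw => by
    simp [orth_mul_apply, fr.lev_W A hw, fr.lev_W A (fr.O_W h hw)]) fun x => by simp [orth_mul_apply, h.2]

/-- the unipotent radical -/
def U : Subgroup (orth Q) where
  carrier := {g | (∀ x, g.1 (fr.E x) = fr.E x) ∧ ∀ v, fr.cy v = 0 → ∃ x, g.1 v = v + fr.E x}
  mul_mem' {a b} ha hb := ⟨fun x => by rw [orth_mul_apply, hb.1, ha.1], fun v hv => by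
    obtain ⟨x, e⟩ := hb.2 v hv
    obtain ⟨y, e'⟩ := ha.2 v hv
    exact ⟨y + x, by rw [orth_mul_apply, e, map_add, e', ha.1, map_add, add_assoc]⟩⟩
  one_mem' := ⟨fun _ => rfl, fun _ _ => ⟨0, by simp [orth_one_apply]⟩⟩
  inv_mem' {a} ha := ⟨fun x => inv_fix (ha.1 x), fun v hv => by
    obtain ⟨x, e⟩ := ha.2 v hv
    exact ⟨-x, by rw [map_neg, ← sub_eq_add_neg, eq_sub_iff_add_eq, ← inv_fix (ha.1 x), ← map_add, ← e, orth_inv_apply']⟩⟩

theorem conj_mem (A : GL n F) {δ : orth Q} (h : δ ∈ fr.O) {u : orth Q} (hu : u ∈ fr.U) :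
    fr.lev A * δ * u * (fr.lev A * δ)⁻¹ ∈ fr.U := by
  have h' := inv_mem h
  rw [_root_.mul_inv_rev, ← map_inv]
  refine ⟨fun x => by simp only [orth_mul_apply, h.1, h'.1, hu.1, lev_E, mulVec_mulVec, A.mul_inv, one_mulVec], fun v hv => ?_⟩
  obtain ⟨x, e⟩ := hu.2 ((δ⁻¹).1 ((fr.lev A⁻¹).1 v)) (by rw [fr.cy_of h'.1, lev_apply]; simp [hv])
  refine ⟨A.1 *ᵥ x, ?_⟩
  simp only [orth_mul_apply, e, map_add, orth_inv_apply, h.1, lev_E]
  rw [map_inv, orth_inv_apply]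

theorem eich_mem (e : n → F) {w : V} (hw : fr.cy w = 0) : eich Q (fr.E e) w ∈ fr.U :=
  ⟨fun x => by simp [eich_apply (fr.qE e) (w := w) (by simp [hw]), hw], fun v hv =>
    ⟨polar Q w v • e, by simp [eich_apply (fr.qE e) (w := w) (by simp [hw]), hv]⟩⟩

/-- the big cell -/
def Big (g y : orth Q) (A : GL n F) (δ : orth Q) : Prop :=
  y ∈ fr.swap.U ∧ δ ∈ fr.O ∧ ∃ x ∈ fr.U, g = y * (fr.lev A * δ) * x

theorem Big.move {fr : Fr Q n} {g y y' x δ δ' : orth Q} {A A' : GL n F} (h : fr.Big g y A δ) (hx : x ∈ fr.U)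
    (h' : fr.Big (x * y) y' A' δ') : fr.Big (x * g * x⁻¹) y' (A' * A) (δ' * δ) := by
  obtain ⟨-, h2, x1, h3, rfl⟩ := h
  obtain ⟨k1, k2, x2, k3, e⟩ := h'
  refine ⟨k1, mul_mem k2 h2, _, mul_mem (fr.conj_mem A⁻¹ (inv_mem h2) k3) (mul_mem h3 (inv_mem hx)), ?_⟩
  rw [← mul_assoc, ← mul_assoc, e, map_mul, map_inv, (fr.lev_comm A h2).inv_inv.eq, (fr.lev_comm A k2).mul_mul_mul_comm]
  group

theorem Big.apply {fr : Fr Q n} {g y δ : orth Q} {A : GL n F} (h : fr.Big g y A δ) (x : n → F) :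
    g.1 (fr.E x) = y.1 (fr.E (A.1 *ᵥ x)) := by
  obtain ⟨-, h2, x1, h3, rfl⟩ := h
  simp [orth_mul_apply, h3.1, h2.1]

theorem Big.eq {fr : Fr Q n} {g y δ δ' : orth Q} {A : GL n F} (h : fr.Big g y A δ) (h' : δ' ∈ fr.O)
    (e : ∀ w ∈ fr.W, ∃ x z, g.1 (w + fr.E x) = δ'.1 w + fr.Φ z) : δ = δ' := by
  obtain ⟨h1, h2, x1, h3, rfl⟩ := h
  refine fr.hom_ext (fun x => (h2.1 x).trans (h'.1 x).symm) (fun w hw => ?_) fun x => (h2.2 x).trans (h'.2 x).symm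
  obtain ⟨x, z, e⟩ := e w hw
  obtain ⟨x', e1⟩ := h3.2 w hw.2
  have m := fr.O_W h2 hw
  have m' := fr.O_W h' hw
  obtain ⟨z', e2⟩ := h1.2 _ m.1
  rw [orth_mul_apply, orth_mul_apply, orth_mul_apply, map_add, e1, h3.1, add_assoc, ← map_add fr.E, map_add, h2.1, map_add,
    lev_E, fr.lev_W A m] at e
  have e3 := congrArg fr.cx e
  rw [show fr.cx (y.1 _) = _ from fr.swap.cy_of h1.1 _] at e3
  simp only [map_add fr.cx, swap_cy, xE, xΦ, (fr.mem_W.1 m).1, (fr.mem_W.1 m').1, zero_add] at e3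
  rw [e3, map_zero, add_zero, e2] at e
  simpa [fr.p_of m, fr.p_of m'] using congrArg fr.p e

variable [FiniteDimensional F V] (hQ : QNondeg Q)
include hQ

omit fr in
theorem exists_orth (f : End F V) (h : ∀ v, Q (f v) = Q v) : ∃ g : orth Q, ∀ v, g.1 v = f v := by
  obtain ⟨e, he, h'⟩ := hQ.exists_isom f ⟨fun x y => by
    change polar Q _ _ = polar Q _ _
    simp [polar, ← map_add, h], h⟩
  exact ⟨⟨e, he⟩, h'⟩

omit [FiniteDimensional F V] in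
theorem eq_zero {w : V} (hw : w ∈ fr.W) (h : ∀ v ∈ fr.W, polar Q w v = 0) : w = 0 := hQ w fun v => by
  change polar Q w v = 0
  rw [fr.polar_eq, (fr.mem_W.1 hw).1, (fr.mem_W.1 hw).2, fr.p_of hw, h _ (fr.p_mem v)]; simp

theorem big_of (g : orth Q) (A : GL n F) (h : ∀ x, fr.cx (g.1 (fr.E x)) = A.1 *ᵥ x) : ∃ y δ, fr.Big g y A δ := by
  let T : (n → F) →ₗ[F] V := g.1.toLinearMap ∘ₗ fr.E ∘ₗ (A⁻¹).1.mulVecLin
  have t1 : ∀ x, fr.cx (T x) = x := fun x => by simp [T, h, -coe_units_inv]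
  have t2 : ∀ x, Q (T x) = 0 := fun x => (orth_Q g _).trans (fr.qE _)
  let τ : V →ₗ[F] (n → F) := LinearMap.pi fun i => polarBilin Q (T (Pi.single i 1))
  have t3 : ∀ x v, x ⬝ᵥ τ v = polar Q (T x) v := fun x v => by
    conv_rhs => rw [pi_eq_sum_univ' x, ← polarBilin_apply_apply]
    simp [τ, dotProduct, -polarBilin_apply_apply]
  obtain ⟨y, hy⟩ := exists_orth hQ (T ∘ₗ fr.cx + fr.p + fr.Φ ∘ₗ (fr.cy - τ ∘ₗ fr.p)) fun v => by
    rw [fr.Q_eq v]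
    simp only [LinearMap.add_apply, LinearMap.comp_apply, Q_add, polar_add_left, t2, ← t3, qΦ, pΦ', t1, xp, LinearMap.sub_apply]
    simp [dotProduct_comm (fr.cx v), add_comm, t1]
  have y1 : ∀ x, (y⁻¹ * g).1 (fr.E x) = fr.E (A.1 *ᵥ x) := fun x => by
    rw [orth_mul_apply, ← orth_inv_apply' y (fr.E (A.1 *ᵥ x)), hy]; simp [T, -coe_units_inv]
  have y2 : ∀ v, fr.cy ((y⁻¹ * g).1 v) = (dual A).1 *ᵥ fr.cy v := fun v => dot_ext fun x => by
    rw [← one_mulVec x, ← A.mul_inv, ← mulVec_mulVec, dual_dot, ← fr.pE, ← y1, orth_polar, fr.pE]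
  obtain ⟨δ, hδ⟩ := exists_orth hQ (fr.E ∘ₗ fr.cx + fr.p ∘ₗ (y⁻¹ * g).1.toLinearMap ∘ₗ fr.p + fr.Φ ∘ₗ fr.cy) fun v => by
    rw [fr.Q_eq, fr.Q_eq v, ← orth_Q (y⁻¹ * g) (fr.p v), fr.Q_eq ((y⁻¹ * g).1 _), y2]; simp
  have d : δ ∈ fr.O := ⟨fun x => by simp [hδ], fun x => by simp [hδ]⟩
  refine ⟨y, δ, ⟨fun x => by simp [hy], fun v hv => ⟨-τ (fr.p v), ?_⟩⟩, d, (fr.lev A * δ)⁻¹ * (y⁻¹ * g),
    ⟨fun x => ?_, fun v hv => ⟨(A⁻¹).1 *ᵥ fr.cx ((y⁻¹ * g).1 v) - fr.cx v, ?_⟩⟩, by group⟩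
  · have hv : fr.cx v = 0 := hv
    conv_rhs => rw [← fr.dec v]
    simp [hy, hv, sub_eq_add_neg, add_assoc]
  · rw [orth_mul_apply, y1, ← orth_inv_apply' (fr.lev A * δ) (fr.E x), orth_mul_apply, d.1, lev_E]
  · rw [orth_mul_apply, ← orth_inv_apply' (fr.lev A * δ) (v + _)]
    refine congrArg _ (fr.ext ?_ ?_ ?_)
    · simp [orth_mul_apply _ δ, lev_apply, hδ, -coe_units_inv]
    · conv_lhs => rw [← fr.dec v, map_add (y⁻¹ * g).1, map_add (y⁻¹ * g).1, y1, hv]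
      simp [orth_mul_apply _ δ, lev_apply, hδ]
    · rw [y2]; simp [orth_mul_apply _ δ, lev_apply, hδ]

end Fr

end H23.OO
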