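import Cfsg.Agent.H23.SpOre4

/-!
Isometries of symplectic spaces: decomposition into good pieces.
-/

namespace H23.SO

open Module Polynomial

variable {F V : Type*} [Field F] [AddCommGroup V] [Module F V] {ω : LinearMap.BilinForm F V}
  {G G' T S : End F V} {U Z : Submodule F V} {x y e f : V} {k : ℕ}

theorem IsoOn.mul (h : IsoOn ω T U) (h' : IsoOn ω S U) : IsoOn ω (T * S) U :=
  ⟨fun u hu => h.1 _ (h'.1 u hu), fun u hu w hw => (h.2 _ (h'.1 u hu) _ (h'.1 w hw)).trans (h'.2 u hu w hw)⟩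

theorem IsoOn.pow (h : IsoOn ω T U) (n : ℕ) : IsoOn ω (T ^ n) U := by
  induction n with
  | zero => exact ⟨fun _ h => h, fun _ _ _ _ => rfl⟩
  | succ n ih => exact pow_succ T n ▸ ih.mul h

theorem Inv.nil (h : Inv G Z) (n : ℕ) : Inv ((G - 1) ^ n) Z := Inv.pow (fun z hz => sub_mem (h z hz) hz) n

theorem aeval_comm₂ (h : Commute T S) (p q : F[X]) (x : V) : aeval T p (aeval S q x) = aeval S q (aeval T p x) :=
  aeval_comm (Algebra.commute_of_mem_adjoin_singleton_of_commute (aeval_mem_adjoin_singleton F S) h) p x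

namespace Iso

variable (h : Iso ω G G')
include h

theorem inv_two' (h1 : Inv (G + G') Z) (hx : x ∈ Z) (hy : G x - x ∈ Z) : cyc G x ≤ Z :=
  h.inv_two h1 hx ((Z.sub_mem_iff_left hx).1 hy)

theorem sg_of {x' y' : V} (h1 : ∀ w ∈ cyc (G + G') x, ω w x' = 0) (h2 : ∀ w ∈ cyc (G + G') y, ω w y' = 0)
    (h3 : G x - x ∈ cyc (G + G') y) (h4 : G x' - x' ∈ cyc (G + G') y') :
    SG ω G ((cyc (G + G') x ⊔ cyc (G + G') x') ⊔ (cyc (G + G') y ⊔ cyc (G + G') y')) := by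
  refine ⟨_, _, rfl, ((h.ort_self _).sup_right (h.ort_cyc h1)).sup_left ((h.ort_symm (h.ort_cyc h1)).sup_right (h.ort_self _)),
    ((h.ort_self _).sup_right (h.ort_cyc h2)).sup_left ((h.ort_symm (h.ort_cyc h2)).sup_right (h.ort_self _)), fun u hu => ?_⟩
  obtain ⟨a, ha, b, hb, rfl⟩ := Submodule.mem_sup.1 hu
  rw [map_add, add_sub_add_comm]
  exact Submodule.add_mem_sup (cyc_le inv_cyc h3 (h.sub_mem_cyc ha)) (cyc_le inv_cyc h4 (h.sub_mem_cyc hb))

variable [FiniteDimensional F V] (u : Un ω G Z k) (nd : Nd ω Z) (r : finrank F Z = 2 * (k + 1)) (he : e ∈ Z)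
  (e0 : ((G - 1) ^ k) e ≠ 0)
include u nd r he e0

theorem sg_pair : SG ω G Z := by
  have s := h.inv_s u.inv
  have i4 : ∀ {a b c d : V}, Inv (G + G') ((cyc (G + G') a ⊔ cyc (G + G') b) ⊔ (cyc (G + G') c ⊔ cyc (G + G') d)) :=
    (inv_cyc.sup inv_cyc).sup (inv_cyc.sup inv_cyc)
  have m := @self_mem_cyc F V _ _ _ (G + G')
  have l := @Submodule.mem_sup_left F V _ _ _
  have r' := @Submodule.mem_sup_right F V _ _ _
  have cN : Commute (G + G') (G - 1) := h.comm_s.sub_right (Commute.one_right _)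
  have cG : Commute (G + G') G' := add_comm G G' ▸ h.symm.comm_s
  have hN := sub_mem (u.inv e he) he
  rcases Nat.even_or_odd k with hk | hk
  · have n := h.notMem (u.nil e he) e0 (k + 1) 1 1 (by omega) (odd_one.add_even hk)
    simp only [pow_one] at n
    obtain ⟨f, hf, f1, f2⟩ := h.dual nd (cyc_le s (h.inv' u.inv _ hN)) (u.inv.nil k e he) n
    have := h.sg_of (x := e) (x' := G f - f) (y := G e - e) (y' := G f) (fun w hw => ?_) (fun w hw => ?_) m ?_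
    · rwa [le_antisymm (sup_le (sup_le (cyc_le s he) (cyc_le s (sub_mem (u.inv f hf) hf))) (sup_le (cyc_le s hN)
        (cyc_le s (u.inv f hf)))) ((h.eq_pair u he hf f2 r).ge.trans (sup_le (h.inv_two' i4 ?_ ?_) (h.inv_two' i4 ?_ ?_)))] at this
      exacts [l (l m), r' (l m), by simpa using sub_mem (r' (r' (m (x := G f)))) (l (r' (m (x := G f - f)))), l (r' m)]
    · have := f1 _ (map_mem_cyc cG (map_mem_cyc cN hw))
      simp only [LinearMap.sub_apply, End.one_apply, map_sub, h.ll, h.symm.adj] at this ⊢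
      linear_combination -this
    · exact (h.symm.adj ..).symm.trans (f1 _ (map_mem_cyc cG hw))
    · exact ⟨.X - 1 - 1, by simp [h.ll]; abel⟩
  · have n := h.notMem (u.nil e he) e0 (k + 1) 0 0 (by omega) (by simpa using hk)
    simp only [pow_zero, End.one_apply] at n
    obtain ⟨f, hf, f1, f2⟩ := h.dual nd (cyc_le s he) (u.inv.nil k e he) n
    have := h.sg_of (x := e) (x' := f) (y := G e - e) (y' := G f - f) f1 (fun w hw => ?_) m m
    · rwa [le_antisymm (sup_le (sup_le (cyc_le s he) (cyc_le s hf)) (sup_le (cyc_le s hN) (cyc_le s (sub_mem (u.inv f hf) hf))))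
        ((h.eq_pair u he hf f2 r).ge.trans (sup_le (h.inv_two' i4 ?_ ?_) (h.inv_two' i4 ?_ ?_)))] at this
      exacts [l (l m), r' (l m), l (r' m), r' (r' m)]
    · obtain ⟨p, rfl⟩ := mem_cyc.1 hw
      have e1 := f1 _ ⟨p, rfl⟩
      have e2 := f1 _ (inv_cyc _ ⟨p, rfl⟩)
      rw [map_sub (aeval _ p), aeval_comm h.comm_s]
      change ω (aeval (G + G') p e) f = 0 at e1
      change ω ((G + G') (aeval (G + G') p e)) f = 0 at e2
      simp only [LinearMap.add_apply, LinearMap.sub_apply, map_add, map_sub, h.iso, h.symm.adj] at e2 ⊢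
      linear_combination 2 * e1 - e2

omit nd e0 in
theorem com_pair (hf : f ∈ Z) (b : ω (((G - 1) ^ k) e) f ≠ 0) (o1 : Ort ω (cyc G e) (cyc G e)) (o2 : Ort ω (cyc G f) (cyc G f))
    (sy : ∀ p q : F[X], ω (aeval G p e) (aeval G q f) = ω (aeval G q e) (aeval G p f)) {α β : F} (hab : α ^ 2 + β ^ 2 = -1)
    {m : ℕ} (hm : ∀ z ∈ Z, (G ^ (m + m)) z = G z) : Com ω (-G) Z := by
  have n' : ∀ z ∈ Z, ((G' - 1) ^ (k + 1)) z = 0 := fun z hz => by rw [h.N'_pow, u.nil z hz, map_zero, smul_zero]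
  have m1 : α • e + β • f ∈ Z := add_mem (Z.smul_mem _ he) (Z.smul_mem _ hf)
  have m2 : β • e - α • f ∈ Z := sub_mem (Z.smul_mem _ he) (Z.smul_mem _ hf)
  obtain ⟨I, hI⟩ := h.exists_map u he hf b (u.nil _ m1) (u.nil _ m2)
  obtain ⟨J, hJ⟩ := h.exists_map u he hf b (n' _ hf) (n' _ (neg_mem he))
  have d : ∀ z ∈ Z, ∃ p q : F[X], aeval G p e + aeval G q f = z := fun z hz => by
    obtain ⟨_, ⟨p, rfl⟩, _, ⟨q, rfl⟩, e⟩ := Submodule.mem_sup.1 ((h.eq_pair u he hf b r).ge hz)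
    exact ⟨p, q, e⟩
  have i' := h.inv' u.inv
  have x1 : ∀ (T : End F V) (p : F[X]) x, T (aeval T p x) = aeval T (.X * p) x := by simp
  have cI : ∀ z ∈ Z, I (G z) = G (I z) := fun z hz => by
    obtain ⟨p, q, rfl⟩ := d z hz
    simp only [map_add G, map_add I, x1, hI]
  have cJ : ∀ z ∈ Z, J (G z) = G' (J z) := fun z hz => by
    obtain ⟨p, q, rfl⟩ := d z hz
    simp only [map_add G, map_add J, map_add G', x1, hJ]
  have cI' := comm_on i' (T := I) (S' := G') fun z hz => by rw [← h.ll (I (G' z)), ← cI _ (i' z hz), h.rr]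
  have o3 : ∀ p q : F[X], ω (aeval G p e) (aeval G q e) = 0 := fun p q => o1 _ ⟨p, rfl⟩ _ ⟨q, rfl⟩
  have o4 : ∀ p q : F[X], ω (aeval G p f) (aeval G q f) = 0 := fun p q => o2 _ ⟨p, rfl⟩ _ ⟨q, rfl⟩
  have o5 : ∀ p q : F[X], ω (aeval G p f) (aeval G q e) = -ω (aeval G p e) (aeval G q f) := fun p q => by rw [h.skew, sy]
  have k : ∀ (p q : F[X]) x y, ω (aeval G' p x) (aeval G' q y) = ω (aeval G q x) (aeval G p y) := fun p q x y => by
    rw [← adj_aeval h.adj, aeval_comm₂ h.comm, adj_aeval h.symm.adj]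
  have hI1 : IsoOn ω I Z := by
    refine ⟨fun z hz => ?_, fun z hz w hw => ?_⟩ <;> obtain ⟨p, q, rfl⟩ := d z hz
    · exact (map_add I ..).symm ▸ (hI p).1.symm ▸ (hI q).2.symm ▸ add_mem (u.inv.aeval p _ m1) (u.inv.aeval q _ m2)
    · obtain ⟨p', q', rfl⟩ := d w hw
      simp only [map_add, hI, map_sub, map_smul, LinearMap.add_apply, LinearMap.sub_apply, LinearMap.smul_apply, o3, o4, o5,
        smul_eq_mul]
      linear_combination (ω (aeval G q e) (aeval G p' f) - ω (aeval G p e) (aeval G q' f)) * hab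
  have hJ1 : IsoOn ω J Z := by
    refine ⟨fun z hz => ?_, fun z hz w hw => ?_⟩ <;> obtain ⟨p, q, rfl⟩ := d z hz
    · exact (map_add J ..).symm ▸ (hJ p).1.symm ▸ (hJ q).2.symm ▸ add_mem (i'.aeval p _ hf) (i'.aeval q _ (neg_mem he))
    · obtain ⟨p', q', rfl⟩ := d w hw
      simp only [map_add, hJ, map_neg, LinearMap.add_apply, LinearMap.neg_apply, k, o3, o4, o5, sy p', sy q']
      ring
  have hG : IsoOn ω G Z := ⟨u.inv, fun a _ b _ => h.iso a b⟩
  refine ⟨G ^ m * I, J, (hG.pow m).mul hI1, hJ1, fun z hz => ?_⟩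
  have e1 : I (J z) = -J (I z) := by
    obtain ⟨p, q, rfl⟩ := d z hz
    have e2 := hI 1
    simp only [map_one, End.one_apply] at e2
    simp only [map_add, hI, hJ, map_neg, map_sub, map_smul, cI' _ _ he, cI' _ _ hf, e2]
    module
  have e2 := comm_on u.inv cJ (.X ^ m) _ (hI1.1 z hz)
  simp only [map_pow, aeval_X] at e2
  have e3 : ∀ x, (G ^ m) ((G' ^ m) x) = x := fun x => by rw [← End.mul_apply, ← h.comm.mul_pow, h.r, one_pow]; rfl
  have m3 := hJ1.1 _ (hI1.1 z hz)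
  rw [End.mul_apply, End.mul_apply, e1, e2, LinearMap.neg_apply, map_neg, ← hm _ (i'.pow m _ m3), ← pow_pow, e3]

theorem com_neg [Finite F] (h2 : (2 : F) ≠ 0) : Even k ∧ Com ω (-G) Z := by
  obtain ⟨f0, hf0, b0⟩ : ∃ f ∈ Z, ω (((G - 1) ^ k) e) f ≠ 0 := by simpa using mt (nd _ (u.inv.nil k e he)) e0
  have ev := h.even u he hf0 b0 h2
  obtain ⟨e', a1, a2, o1⟩ := h.isotropic u he hf0 b0 h2
  replace he : e' ∈ Z := by simpa using add_mem (cyc_le u.inv hf0 a1) he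
  rw [← a2] at b0
  have n' : ∀ z ∈ Z, ((G' - 1) ^ (k + 1)) z = 0 := fun z hz => by rw [h.N'_pow, u.nil z hz, map_zero, smul_zero]
  obtain ⟨T, hT⟩ := h.exists_map u he hf0 b0 (n' _ he) (n' _ hf0)
  have i' := h.inv' (inv_cyc (x := e'))
  have cT : ∀ z ∈ cyc G e', T (G z) = G' (T z) := by
    rintro _ ⟨p, rfl⟩
    simpa [(hT p).1] using (hT (.X * p)).1
  have cT' := comm_on i' (T := T) (S' := G) fun z hz => by rw [← h.rr (T (G' z)), ← cT _ (i' z hz), h.rr]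
  have t1 : T e' = e' := by simpa using (hT 1).1
  obtain ⟨f1, hf1, b1, b2⟩ := h.dual nd (X := (cyc G e').map (T - 1)) (by
      rintro _ ⟨_, ⟨p, rfl⟩, rfl⟩
      exact sub_mem ((hT p).1 ▸ (h.inv' u.inv).aeval p _ he) (u.inv.aeval p _ he)) (u.inv.nil k e' he) (by
    rintro ⟨_, ⟨p, rfl⟩, e1⟩
    change T (aeval G p e') - aeval G p e' = _ at e1
    have e2 := congrArg T e1
    have e3 := (hT ((.X - 1) ^ k)).1
    simp only [map_pow, map_sub, aeval_X, map_one, h.N'_pow, ev.neg_one_pow, one_smul, h.fix (u.nil e' he)] at e3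
    rw [map_sub, (hT p).1, cT' p _ self_mem_cyc, t1, e3] at e2
    rw [(hT p).1] at e1
    have : (2 : F) • ((G - 1) ^ k) e' = 0 := by linear_combination (norm := module) -e1 - e2
    exact b0 (by simp [(smul_eq_zero.1 this).resolve_left h2]))
  have b3 : ω (((G - 1) ^ k) f1) e' ≠ 0 := by simpa [h.flip (u.nil e' he)] using b2
  obtain ⟨f, c1, c2, o2⟩ := h.isotropic u hf1 he b3 h2
  have hf : f ∈ Z := by simpa using add_mem (cyc_le u.inv he c1) hf1
  have b4 : ∀ w ∈ cyc G e', ω (T w) f = ω w f := fun w hw => by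
    have e1 := b1 _ ⟨w, hw, rfl⟩
    have e2 := o1 _ hw _ c1
    have e3 := o1 (T w) (by obtain ⟨p, rfl⟩ := hw; exact (hT p).1 ▸ i'.aeval p _ self_mem_cyc) _ c1
    simp only [map_sub, LinearMap.sub_apply, End.one_apply] at e1 e2 e3
    linear_combination e1 - e2 + e3
  obtain ⟨p, _⟩ := CharP.exists F
  haveI : Fact p.Prime := ⟨CharP.char_is_prime F p⟩
  obtain ⟨α, β, hab⟩ := CharP.sq_add_sq F p (-1)
  obtain ⟨m, hm⟩ := ((Fact.out : p.Prime).odd_of_ne_two (by rintro rfl; exact h2 (CharP.cast_eq_zero F 2))).pow (n := k + 1)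
  refine ⟨ev, h.com_pair u r he hf (by simpa [h.flip (u.nil f hf), c2] using b3) o1 o2 (fun p q => ?_) (by simpa using hab)
    (m := m + 1) fun z hz => ?_⟩
  · rw [← adj_aeval h.symm.adj, ← b4 _ (i'.aeval q (aeval G p e') ⟨p, rfl⟩), cT' q (aeval G p e') ⟨p, rfl⟩, (hT p).1, ← adj_aeval h.symm.adj,
      aeval_comm₂ h.comm]
  · have := pow_zero_of_le (u.nil z hz) (Nat.lt_pow_self (Fact.out : p.Prime).one_lt).le
    rw [H12.sub_one_pow_char_pow (F := F), LinearMap.sub_apply, sub_eq_zero, hm] at this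
    rw [show m + 1 + (m + 1) = 2 * m + 1 + 1 by ring, pow_succ', End.mul_apply, this, End.one_apply]

end Iso

namespace Iso

variable (h : Iso ω G G') [FiniteDimensional F V]
include h

theorem nil_piece (h0 : Z ≠ ⊥) (h1 : Nd ω Z) (h2 : Inv G Z) {n : ℕ} (h3 : ∀ z ∈ Z, ((G + G' - (2 : F) • 1) ^ n) z = 0) :
    ∃ W ≤ Z, W ≠ ⊥ ∧ Nd ω W ∧ Inv G W ∧ (SG ω G W ∧ SG ω (-G) W ∨
      ∃ k, ∃ e ∈ W, Un ω G W k ∧ finrank F W = 2 * (k + 1) ∧ ((G - 1) ^ k) e ≠ 0) := by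
  obtain ⟨k, k1, e, he, k2⟩ := exists_min (π := G - 1) (n := 2 * n) h0 fun z hz => by
    have := congrArg (G ^ n) (h3 z hz)
    rwa [h.s_two, (h.comm_N.pow_right 2).mul_pow, ← End.mul_apply, ← mul_assoc, ← h.comm.mul_pow, h.r, one_pow, one_mul,
      ← pow_mul, map_zero] at this
  by_cases c : ∃ x ∈ Z, ω (((G - 1) ^ k) x) x ≠ 0
  · obtain ⟨x, hx, c⟩ := c
    exact ⟨_, cyc_le h2 hx, fun e => c (by simp [(Submodule.eq_bot_iff _).1 e x self_mem_cyc]), h.nd_cyc h2 k1 hx c, inv_cyc,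
      .inl ⟨h.sg_cyc x, cyc_neg (T := G) ▸ h.neg.sg_cyc x⟩⟩
  have u : Un ω G Z k := ⟨h2, k1, by simpa using c⟩
  obtain ⟨f, hf, b⟩ : ∃ f ∈ Z, ω (((G - 1) ^ k) e) f ≠ 0 := by simpa using mt (h1 _ (h2.nil k e he)) k2
  have le := sup_le (cyc_le h2 he) (cyc_le h2 hf)
  have m : e ∈ cyc G e ⊔ cyc G f := Submodule.mem_sup_left self_mem_cyc
  exact ⟨_, le, fun e' => k2 (by simp [(Submodule.eq_bot_iff _).1 e' e m]), h.nd_pair u he hf b, inv_cyc.sup inv_cyc,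
    .inr ⟨k, e, m, ⟨inv_cyc.sup inv_cyc, fun z hz => k1 z (le hz), fun z hz => u.alt z (le hz)⟩, h.rank_pair u he hf b, k2⟩⟩

variable [Finite F]

theorem piece (h0 : U ≠ ⊥) (h1 : Nd ω U) (h2 : Inv G U) : ∃ W ≤ U, W ≠ ⊥ ∧ Nd ω W ∧ Inv G W ∧
    (SG ω G W ∨ (2 : F) ≠ 0 ∧ SG ω (-G) W ∧ Com ω G W ∧ finrank F W % 4 = 2) := by
  obtain ⟨Z, le, z0, z1, z2, p, n, hp, z3⟩ := h.primary h0 h1 h2
  by_cases c : IsCoprime p (.X ^ 2 - 4)
  · obtain ⟨x, hx, x0, x1⟩ := h.etale z0 z1 z2 hp z3 c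
    exact ⟨_, (cyc_le z2 hx).trans le, fun e => x0 ((Submodule.eq_bot_iff _).1 e x self_mem_cyc), x1, inv_cyc, .inl (h.sg_cyc x)⟩
  have k : ∀ q, p ∣ q → ∀ z ∈ Z, (aeval (G + G') q ^ n) z = 0 := by
    rintro _ ⟨q, rfl⟩ z hz
    rw [← map_pow, mul_comm, mul_pow, map_mul, End.mul_apply, map_pow _ p, z3 z hz, map_zero]
  rw [hp.coprime_iff_not_dvd, not_not, show (.X ^ 2 - 4 : F[X]) = -((.X - 1 - 1) * (-.X - 1 - 1)) by ring, dvd_neg] at c
  rcases hp.prime.dvd_or_dvd c with c | c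
  · obtain ⟨W, w0, w1, w2, w3, w4⟩ := h.nil_piece z0 z1 z2 (n := n) (by simpa [two_smul, sub_sub] using k _ c)
    refine ⟨W, w0.trans le, w1, w2, w3, .inl ?_⟩
    rcases w4 with w4 | ⟨k, e, he, u, r, e0⟩
    exacts [w4.1, h.sg_pair u w2 r he e0]
  · obtain ⟨W, w0, w1, w2, w3, w4⟩ := h.neg.nil_piece z0 z1 z2.neg (n := n) (by
      simpa [two_smul, sub_sub, add_comm] using k _ c)
    refine ⟨W, w0.trans le, w1, w2, neg_neg G ▸ w3.neg, ?_⟩
    rcases w4 with w4 | ⟨k, e, he, u, r, e0⟩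
    · exact .inl (neg_neg G ▸ w4.2)
    have s := h.neg.sg_pair u w2 r he e0
    by_cases t : (2 : F) = 0
    · exact .inl (by rwa [neg_eq_of_add_eq_zero_left ((two_smul F G).symm.trans (by rw [t, zero_smul]))] at s)
    · obtain ⟨ev, c⟩ := h.neg.com_neg u w2 r he e0 t
      exact .inr ⟨t, s, neg_neg G ▸ c, by rw [Nat.even_iff] at ev; omega⟩

theorem decomp (h1 : Nd ω U) (h2 : Inv G U) : SG ω G U ∨ (2 : F) ≠ 0 ∧ ∃ A B C, A ⊔ (B ⊔ C) = U ∧ Ort ω A (B ⊔ C) ∧ Ort ω B C ∧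
    Nd ω A ∧ Nd ω B ∧ Inv G A ∧ Inv G B ∧ SG ω G A ∧ SG ω (-G) B ∧ Com ω G B ∧ Com ω G C ∧ finrank F B % 4 = 2 := by
  induction U using WellFoundedLT.induction with | ind U ih => ?_
  by_cases h0 : U = ⊥
  · exact .inl ⟨⊥, ⊥, by simp [h0], by simp [Ort], by simp [Ort], by simp⟩
  obtain ⟨W, w0, w1, w2, w3, w4⟩ := h.piece h0 h1 h2
  obtain ⟨Y, rfl, y1, y2, y3⟩ := h.compl h1 h2 w0 w2 w3
  have := ih Y (right_lt_sup.2 fun e => w1 ((w2.disjoint (h.ort_symm y1)).eq_bot_of_le e)) y2 y3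
  rcases w4 with w4 | ⟨t, w4, w5, w6⟩ <;> rcases this with y | ⟨t, A, B, C, rfl, a1, a2, a3, a4, a5, a6, a7, a8, a9, a10, a11⟩
  · exact .inl (h.sg_sup w4 y y1)
  · have o := y1.mono le_rfl le_sup_left
    exact .inr ⟨t, W ⊔ A, B, C, sup_assoc .., (y1.mono le_rfl le_sup_right).sup_left a1, a2, h.nd_sup w2 a3 o, a4, w3.sup a5, a6,
      h.sg_sup w4 a7 o, a8, a9, a10, a11⟩
  · exact .inr ⟨t, Y, W, ⊥, by simp [sup_comm], by simpa using h.ort_symm y1, by simp [Ort], y2, w2, y3, w3, y, w4, w5,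
      com_of_one (by simp), w6⟩
  · exact .inr ⟨t, A, W, B ⊔ C, sup_left_comm .., (h.ort_symm (y1.mono le_rfl le_sup_left)).sup_right a1,
      y1.mono le_rfl le_sup_right, a3, w2, a5, w3, a7, w4, w5, h.com_sup a4 a9 a10 a2, w6⟩

end Iso

end H23.SO
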