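import Cfsg.Agent.H23.SpOre1
import Cfsg.Agent.H23.SpOre5
import Cfsg.Agent.H11.Bridge

/-!
Every element of a finite symplectic group is a commutator.
-/

namespace H23.SO

open Matrix Module Polynomial

section
variable {n F : Type*} [Fintype n] [DecidableEq n] [Field F]

theorem comm_of [Finite F] {P Q : GL n F} (hP : Fpf P.1ᵀ) (hQ : Fpf Q.1) (c : IsConj (lev P)⁻¹ (lev Q))
    {g : symplecticGroup n F} (h : g.1.toBlocks₁₁ = P.1 * Q.1) : ∃ a b : symplecticGroup n F, g = a * b * a⁻¹ * b⁻¹ := by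
  obtain ⟨a, b, h1, h2, rfl⟩ := gauss hP hQ h
  obtain ⟨d, rfl⟩ := isConj_iff.1 h1
  obtain ⟨e, rfl⟩ := isConj_iff.1 (c.trans h2)
  exact ⟨d * lev P * d⁻¹, e * d⁻¹, by group⟩

theorem aeval_semi {A B S : Matrix n n F} (h : A * S = S * B) (p : F[X]) : aeval A p * S = S * aeval B p := by
  simp [aeval_eq_sum_range, Finset.sum_mul, Finset.mul_sum, (SemiconjBy.pow_right (a := S) h.symm _).eq]

theorem card_le_deg {K : Type*} [Field K] [Finite K] {q : K[X]} (q0 : q.Monic) (hq : ∀ x, q.eval x = 0) :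
    Nat.card K ≤ q.natDegree := by
  classical
  haveI := Fintype.ofFinite K
  exact Nat.card_eq_fintype_card.trans_le ((Finset.card_le_card fun x _ => Multiset.mem_toFinset.2
    ((mem_roots q0.ne_zero).2 (hq x))).trans (q.roots.toFinset_card_le.trans (card_roots' q)))

theorem comm_one [Finite F] {m : ℕ} (hm : 4 ≤ Nat.card F ∨ 5 ≤ Nat.card F ^ m) {g : symplecticGroup (Fin m) F}
    (h : g.1.toBlocks₁₁ = 1) : ∃ a b : symplecticGroup (Fin m) F, g = a * b * a⁻¹ * b⁻¹ := by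
  rcases m.eq_zero_or_pos with rfl | m0
  · exact ⟨1, 1, Subsingleton.elim ..⟩
  obtain ⟨p, _⟩ := CharP.exists F
  haveI : Fact p.Prime := ⟨CharP.char_is_prime F p⟩
  haveI : NeZero m := ⟨m0.ne'⟩
  obtain ⟨θ, hθ⟩ := IsCyclic.exists_monoid_generator (α := (FiniteField.Extension F p m)ˣ)
  let L := Algebra.leftMulMatrix (finBasisOfFinrankEq F _ (FiniteField.finrank_extension F p m))
  have h1 : aeval (θ⁻¹).1 (minpoly F θ.1) ≠ 0 := fun e => by
    obtain ⟨σ, hσ⟩ := minpoly.exists_algEquiv_of_root' (Algebra.IsAlgebraic.isAlgebraic _) e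
    have k : ∀ x, x ≠ 0 → σ x * x = 1 := fun x hx => by
      obtain ⟨j, hj⟩ := hθ (Units.mk0 x hx)
      obtain rfl : θ.1 ^ j = x := congrArg Units.val hj
      rw [map_pow, hσ, ← mul_pow, Units.inv_mul, one_pow]
    rcases hm with hm | hm
    · refine absurd (hm.trans (card_le_deg (q := X ^ 3 - X) (by monicity!) fun x => ?_)) (not_le.2 (by compute_degree!))
      by_cases hx : x = 0
      · simp [hx]
      have := k _ ((_root_.map_ne_zero (algebraMap F _)).2 hx)
      rw [σ.commutes, ← map_mul, map_eq_one_iff _ (algebraMap F _).injective] at this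
      simp only [eval_sub, eval_pow, eval_X]
      linear_combination x * this
    · rw [← FiniteField.natCard_extension F p m] at hm
      refine absurd (hm.trans (card_le_deg (q := X ^ 4 + 2 * X ^ 3 + 2 * X ^ 2 + X) (by monicity!) fun x => ?_))
        (not_le.2 (by compute_degree!))
      simp only [eval_add, eval_mul, eval_pow, eval_X, eval_ofNat]
      by_cases hx : x = 0
      · simp [hx]
      by_cases hx' : x + 1 = 0
      · linear_combination (x ^ 3 + x ^ 2 + x) * hx'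
      have e1 := k x hx
      have e2 := k _ hx'
      rw [map_add, map_one] at e2
      linear_combination (x ^ 2 + x) * (x * e2 - (x + 1) * e1)
  let P : GL (Fin m) F := Units.map L.toMonoidHom θ
  have h2 : aeval P.1ᵀ (minpoly F θ.1) = 0 := by
    have : (aeval P.1 (minpoly F θ.1))ᵀ = 0 := by
      rw [show P.1 = L θ from rfl, aeval_algHom_apply, minpoly.aeval, map_zero, transpose_zero]
    simpa [aeval_eq_sum_range, transpose_sum, transpose_pow] using this
  have h3 : IsUnit (aeval (P⁻¹).1 (minpoly F θ.1)) := by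
    rw [show (P⁻¹).1 = L (θ⁻¹).1 from rfl, aeval_algHom_apply]
    exact (Ne.isUnit h1).map L
  refine comm_of (P := P) (Q := P⁻¹) (fun S _ e => ?_) (fun S _ e => ?_) (by rw [map_inv]) (h.trans P.mul_inv.symm)
  · refine h3.mul_left_eq_zero.1 ?_
    rw [← aeval_semi (A := P.1ᵀ) ((Units.mul_inv_cancel_right _ P).symm.trans (congrArg (· * _) e)), h2, Matrix.zero_mul]
  · refine h3.mul_right_eq_zero.1 ?_
    rw [aeval_semi (B := P.1ᵀ) ?_, h2, Matrix.mul_zero]
    rw [← congrArg (· * _) e, Matrix.mul_assoc, ← transpose_mul, Units.mul_inv, transpose_one, Matrix.mul_one]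

theorem fpf_gold (h2 : (2 : F) ≠ 0) {A : Matrix n n F} (h : A * A = A + 1) : Fpf A := fun S _ e => by
  have h' : Aᵀ * Aᵀ = Aᵀ + 1 := by rw [← transpose_mul, h, transpose_add, transpose_one]
  have e1 : A * S + S * Aᵀ + S = 0 := by
    have : A * A * S * (Aᵀ * Aᵀ) = S := by
      rw [Matrix.mul_assoc A, Matrix.mul_assoc A, ← Matrix.mul_assoc, ← Matrix.mul_assoc, Matrix.mul_assoc A _ Aᵀ, e, e]
    rw [h, h', add_mul, one_mul, mul_add, add_mul, e, mul_one] at this
    linear_combination (norm := abel) this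
  have e2 : A * S = -S := by
    have := congrArg (A * ·) e1
    simp only [mul_add, ← mul_assoc, h, e, add_mul, one_mul, mul_zero] at this
    refine smul_right_injective _ h2 ?_
    simp only [two_smul]
    linear_combination (norm := abel) this
  have := congrArg (A * ·) e2
  simp only [← mul_assoc, h, add_mul, one_mul, mul_neg] at this
  rw [e2] at this
  simpa using this.symm

theorem comm_neg_one [Finite F] (h2 : (2 : F) ≠ 0) {m : ℕ} (hm : Even m) {g : symplecticGroup (Fin m) F}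
    (h : g.1.toBlocks₁₁ = -1) : ∃ a b : symplecticGroup (Fin m) F, g = a * b * a⁻¹ * b⁻¹ := by
  obtain ⟨k, rfl⟩ := hm.two_dvd
  let ρ : Matrix (Fin 2) (Fin 2) F →+* Matrix (Fin (2 * k)) (Fin (2 * k)) F := (reindexAlgEquiv F F finProdFinEquiv).toRingHom.comp
    ((blockDiagonalRingHom (Fin 2) (Fin k) F).comp (Pi.constRingHom _ _))
  have t : ∀ A, (ρ A)ᵀ = ρ Aᵀ := fun A => congrArg (reindex _ _) (blockDiagonal_transpose _)
  let C : GL (Fin 2) F := ⟨!![0, 1; 1, 1], !![-1, 1; 1, 0], by simp [one_fin_two], by simp [one_fin_two]⟩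
  let D : GL (Fin 2) F := ⟨!![0, 1; -1, 0], !![0, -1; 1, 0], by simp [one_fin_two], by simp [one_fin_two]⟩
  let σ := Units.map ρ.toMonoidHom
  have c1 : C.1ᵀ = C.1 := by ext i j; fin_cases i <;> fin_cases j <;> rfl
  have c2 : ∀ A : Matrix (Fin 2) (Fin 2) F, A * A = A + 1 → Fpf (ρ A) := fun A e =>
    fpf_gold h2 (by rw [← map_mul, e, map_add, map_one])
  refine comm_of (P := σ C) (Q := σ (-C⁻¹)) (((t _).trans (congrArg ρ c1)).symm ▸ c2 _ ?_) (c2 _ ?_) ((lev_trG _).trans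
    (lev_conj ?_)) (h.trans ?_)
  · simp [C, one_fin_two]
  · change -!![-1, 1; 1, 0] * -!![-1, 1; 1, 0] = -!![-1, 1; 1, 0] + (1 : Matrix _ _ F)
    simp [one_fin_two]
  · rw [show trG (σ C) = σ C from Units.ext ((t _).trans (congrArg ρ c1))]
    refine σ.map_isConj (isConj_of D (Units.ext ?_))
    change !![0, 1; -1, 0] * !![0, 1; 1, 1] = -!![-1, 1; 1, 0] * (!![0, 1; -1, 0] : Matrix _ _ F)
    simp
  · rw [← Units.val_mul, ← map_mul, mul_neg, mul_inv_cancel]
    exact (map_neg ρ 1).trans (congrArg _ (map_one ρ)) |>.symm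

end

variable {F V : Type*} [Field F] [AddCommGroup V] [Module F V] {ω : LinearMap.BilinForm F V}
  {G G' : End F V} {U : Submodule F V} [FiniteDimensional F V]

theorem Iso.model (h : Iso ω G G') (h1 : Nd ω U) (h2 : Inv G U) {ε : F} (hε : ε * ε = 1) (h3 : SG ω (ε • G) U) :
    ∃ m, finrank F U = 2 * m ∧ ((∀ g : symplecticGroup (Fin m) F, g.1.toBlocks₁₁ = ε • 1 →
      ∃ a b : symplecticGroup (Fin m) F, g = a * b * a⁻¹ * b⁻¹) → Com ω G U) := by
  obtain ⟨X, Y, rfl, x1, y1, h3⟩ := h3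
  let e := finBasis F X
  have : ∀ j, ∃ f ∈ Y, ∀ x : X, ω f x = e.coord j x := fun j => by
    obtain ⟨φ, hφ⟩ := LinearMap.exists_extend (e.coord j)
    obtain ⟨_, hf, e1⟩ := h.rep h1 (-φ)
    obtain ⟨a, ha, b, hb, rfl⟩ := Submodule.mem_sup.1 hf
    refine ⟨b, hb, fun x => ?_⟩
    have := e1 x (Submodule.mem_sup_left x.2)
    rw [map_add, x1 _ x.2 _ ha, zero_add, h.skew, LinearMap.neg_apply, neg_inj] at this
    exact this.trans (LinearMap.congr_fun hφ x)
  choose f f1 f2 using this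
  let ψ := Fintype.linearCombination F (Sum.elim (fun i => (e i : V)) f)
  have p0 : ∀ v, ψ v = ∑ i, v (.inl i) • (e i : V) + ∑ i, v (.inr i) • f i := by
    simp [ψ, Fintype.linearCombination_apply]
  have p1 : ∀ u v, ω (ψ u) (ψ v) = u ⬝ᵥ (J _ F *ᵥ v) := fun u v => by
    simp [p0, H11.J_form_apply, x1 _ (e _).2 _ (e _).2, y1 _ (f1 _) _ (f1 _), f2, h.skew (e _) (f _), Finsupp.single_apply,
      mul_comm, sub_eq_add_neg, Finset.sum_add_distrib, add_comm]
  have p2 : LinearMap.range ψ = X ⊔ Y := by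
    refine le_antisymm (by
      rintro _ ⟨v, rfl⟩
      exact p0 v ▸ Submodule.add_mem_sup (sum_mem fun i _ => X.smul_mem _ (e i).2) (sum_mem fun i _ => Y.smul_mem _ (f1 i)))
      (sup_le (fun x hx => ⟨Sum.elim (e.repr ⟨x, hx⟩) 0, ?_⟩) fun y hy => ⟨Sum.elim 0 fun j => ω y (e j), ?_⟩)
    · simpa [p0, -Basis.sum_repr] using congrArg X.subtype (e.sum_repr ⟨x, hx⟩)
    · have m : ∑ j, ω y (e j) • f j - y ∈ Y := sub_mem (sum_mem fun i _ => Y.smul_mem _ (f1 i)) hy
      simp only [p0, Sum.elim_inl, Sum.elim_inr, Pi.zero_apply, zero_smul, Finset.sum_const_zero, zero_add]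
      refine sub_eq_zero.1 (h1 _ (Submodule.mem_sup_right m) ((Ort.sup_right (Z := F ∙ _) (fun _ ha x hx => ?_)
        (y1.mono ((Submodule.span_singleton_le_iff_mem ..).2 m) le_rfl)) _ (Submodule.mem_span_singleton_self _)))
      obtain ⟨c, rfl⟩ := Submodule.mem_span_singleton.1 ha
      have := congrArg (fun x : X => ω y x) (e.sum_repr ⟨x, hx⟩)
      simp [fun j => f2 j ⟨x, hx⟩, mul_comm, -Basis.sum_repr] at this ⊢
      exact .inr (sub_eq_zero.2 this)
  have p3 : LinearMap.ker ψ = ⊥ := LinearMap.ker_eq_bot'.2 fun v hv => H11.spForm_nondeg v fun w => by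
    rw [H11.spForm_B, ← p1, hv]; simp
  obtain ⟨φ, hφ⟩ := ψ.exists_leftInverse_of_injective p3
  replace hφ : ∀ v, φ (ψ v) = v := LinearMap.congr_fun hφ
  refine ⟨finrank F X, by rw [← p2, LinearMap.finrank_range_of_inj (LinearMap.ker_eq_bot.1 p3)]; simp [two_mul], fun H => ?_⟩
  have p4 : ∀ v, ψ (LinearMap.toMatrix' (φ ∘ₗ G ∘ₗ ψ) *ᵥ v) = G (ψ v) := fun v => by
    obtain ⟨w, hw⟩ := p2.ge (h2 _ (p2.le ⟨v, rfl⟩))
    simp [← hw, hφ]
  obtain ⟨a, b, e1⟩ := H ⟨_, (H11.mem_symplecticGroup_iff _).2 fun u v => by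
    rw [H11.spForm_B, H11.spForm_B, ← p1, ← p1, p4, p4, h.iso]⟩ (by
    ext i j
    have e1 := p1 (Pi.single (.inr i) 1) (LinearMap.toMatrix' (φ ∘ₗ G ∘ₗ ψ) *ᵥ Pi.single (.inl j) 1)
    have e2 := y1 _ (f1 i) _ (h3 _ (e j).2)
    rw [p4, H11.J_form_apply] at e1
    simp [ψ, Pi.single_apply] at e1
    simp [f2, Finsupp.single_apply, sub_eq_zero] at e2
    simp only [toBlocks₁₁, of_apply, LinearMap.toMatrix'_apply, Matrix.smul_apply, Matrix.one_apply, eq_comm (a := i), ← e2]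
    simp [ψ, ← e1, ← mul_assoc, hε])
  have k : ∀ a : symplecticGroup _ F, IsoOn ω (ψ ∘ₗ toLin' a.1 ∘ₗ φ) (X ⊔ Y) := fun a => p2 ▸ ⟨fun _ _ => ⟨_, rfl⟩, by
    rintro _ ⟨u, rfl⟩ _ ⟨v, rfl⟩
    simpa [hφ, p1, H11.spForm_B] using (H11.mem_symplecticGroup_iff _).1 a.2 u v⟩
  refine ⟨_, _, k a, k b, fun u hu => ?_⟩
  obtain ⟨v, rfl⟩ := p2.ge hu
  have e2 : LinearMap.toMatrix' (φ ∘ₗ G ∘ₗ ψ) * (b.1 * a.1) = a.1 * b.1 :=
    congrArg Subtype.val ((congrArg (· * (b * a)) e1).trans (show _ = a * b by group))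
  simp [hφ, ← p4, e2]

theorem Iso.com_top [Finite F] (h : Iso ω G G') (h1 : Nd ω ⊤) {m : ℕ} (r : finrank F V = 2 * m)
    (hm : 4 ≤ Nat.card F ∨ 5 ≤ Nat.card F ^ m) : Com ω G ⊤ := by
  have c1 : ∀ {U m}, Nd ω U → Inv G U → SG ω G U → finrank F U = 2 * m → m = 0 ∨ 4 ≤ Nat.card F ∨ 5 ≤ Nat.card F ^ m →
      Com ω G U := fun {U m} a b c d e => by
    obtain ⟨m', r, H⟩ := h.model a b (mul_one 1) (by simpa using c)
    obtain rfl : m' = m := by omega
    refine H fun g hg => e.elim ?_ fun e => comm_one e (by simpa using hg)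
    rintro rfl
    exact ⟨1, 1, Subsingleton.elim ..⟩
  rcases h.decomp h1 (fun _ _ => trivial) with s | ⟨t, A, B, C, e, a1, a2, a3, a4, a5, a6, a7, a8, a9, a10, a11⟩
  · exact c1 h1 (fun _ _ => trivial) s (by simpa using r) (.inr hm)
  have c2 := h.com_sup a4 a9 a10 a2
  obtain ⟨k, r', -⟩ := h.model a3 a5 (mul_one 1) (by simpa using a7)
  by_cases hk : k = 1
  · subst hk
    rcases h.two a3 a5 r' with s | s
    · have o := a1.mono le_rfl le_sup_left
      obtain ⟨l, r'', H⟩ := h.model (h.nd_sup a3 a4 o) (a5.sup a6) (ε := -1) (by simp) (by simpa using h.sg_sup s a8 o)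
      have := Submodule.finrank_sup_add_finrank_inf_eq A B
      rw [(a3.disjoint (h.ort_symm o)).eq_bot, finrank_bot] at this
      exact e ▸ sup_assoc A B C ▸ h.com_sup (h.nd_sup a3 a4 o) (H fun g hg => comm_neg_one t (Nat.even_iff.2 (by omega))
        (by simpa using hg)) a10 ((a1.mono le_rfl le_sup_right).sup_left a2)
    · exact e ▸ h.com_sup a3 s c2 a1
  refine e ▸ h.com_sup a3 (c1 a3 a5 a7 r' ((Nat.eq_zero_or_pos k).imp_right fun k0 => .inr ?_)) c2 a1
  have : 3 ≤ Nat.card F := by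
    by_contra! H
    have := Finite.one_lt_card (α := F)
    exact t (by simpa [show Nat.card F = 2 by omega] using (card_nsmul_eq_zero' (G := F) (x := 1)))
  exact (by norm_num : 5 ≤ 3 ^ 2).trans ((Nat.pow_le_pow_left this 2).trans (Nat.pow_le_pow_right (by omega) (by omega)))

theorem ore [Finite F] {m : ℕ} (hm : 4 ≤ Nat.card F ∨ 5 ≤ Nat.card F ^ m) (g : symplecticGroup (Fin m) F) :
    ∃ a b : symplecticGroup (Fin m) F, g = a * b * a⁻¹ * b⁻¹ := by
  have i : ∀ A, A ∈ symplecticGroup (Fin m) F ↔ ∀ u v, toBilin' (J _ F) (A *ᵥ u) (A *ᵥ v) = toBilin' (J _ F) u v := by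
    simp [H11.mem_symplecticGroup_iff, H11.spForm_B, toBilin'_apply']
  have h : Iso (toBilin' (J (Fin m) F)) (toLin' g.1) (toLin' (g⁻¹).1) := ⟨H11.J_isAlt _ _, by
    rw [End.mul_eq_comp, ← toLin'_mul, ← Submonoid.coe_mul, inv_mul_cancel]; exact toLin'_one, by
    rw [End.mul_eq_comp, ← toLin'_mul, ← Submonoid.coe_mul, mul_inv_cancel]; exact toLin'_one, (i _).1 g.2⟩
  obtain ⟨a, b, h1, h2, e⟩ := h.com_top (fun u _ e => H11.spForm_nondeg u fun w => by
    simpa [H11.spForm_B, toBilin'_apply'] using e w trivial) (by simp [two_mul]) hm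
  refine ⟨⟨LinearMap.toMatrix' a, (i _).2 fun u v => by simpa using h1.2 u trivial v trivial⟩, ⟨LinearMap.toMatrix' b,
    (i _).2 fun u v => by simpa using h2.2 u trivial v trivial⟩, ?_⟩
  rw [mul_assoc, ← _root_.mul_inv_rev, eq_mul_inv_iff_mul_eq]
  exact Subtype.ext (toLin'.injective (LinearMap.ext fun u => by simpa [toLin'_mul] using (e u trivial).symm))

end H23.SO
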