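import Cfsg.Agent.H23.OrOre1
import Cfsg.Agent.H23.SpOre6

/-!
Fixed-point-free Levi elements and moves inside the big cell.
-/

namespace H23.OO

open Module QuadraticMap Matrix H12 Polynomial

variable {F V : Type*} {n : Type} [Field F] [AddCommGroup V] [Module F V] [Fintype n] [DecidableEq n]

theorem aeval_tr (A : Matrix n n F) (φ : F[X]) : aeval Aᵀ φ = (aeval A φ)ᵀ := by
  simp [aeval_eq_sum_range, transpose_sum, transpose_pow]

theorem exists_dot {a : n → F} (h : a ≠ 0) : ∃ x, x ⬝ᵥ a = 1 := by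
  obtain ⟨i, hi⟩ := Function.ne_iff.1 h
  exact ⟨Pi.single i (a i)⁻¹, by simpa using inv_mul_cancel₀ hi⟩

theorem alt_zero {A B S : Matrix n n F} {φ : F[X]} {a b : n → F} (h : A * S = S * B) (h1 : aeval A φ = vecMulVec a b)
    (h2 : IsUnit (aeval B φ)) (h3 : ∀ y, y ⬝ᵥ S *ᵥ y = 0) : S = 0 := by
  have e := SO.aeval_semi h φ
  obtain ⟨u, hu⟩ := h2
  rw [h1, ← hu, ← Units.mul_inv_eq_iff_eq_mul, Matrix.mul_assoc, vecMulVec_mul] at e
  generalize b ᵥ* _ = c at e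
  subst e
  by_contra h0
  obtain ⟨x, hx⟩ := exists_dot (a := a) (by rintro rfl; simp at h0)
  obtain ⟨y, hy⟩ := exists_dot (a := c) (by rintro rfl; simp at h0)
  have h4 := h3 x
  have h5 := h3 y
  have h6 := h3 (x + y)
  simp only [vecMulVec_mulVec, dotProduct_comm c, op_smul_eq_smul, dotProduct_smul, add_dotProduct, hx, hy, smul_eq_mul,
    mul_one, one_mul] at h4 h5 h6
  simp [h4, h5] at h6

theorem det_rank_one (a b : n → F) : (1 + vecMulVec a b).det = 1 + b ⬝ᵥ a := by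
  rw [vecMulVec_eq Unit, det_one_add_replicateCol_mul_replicateRow]

/-- rank one perturbations of the identity -/
noncomputable def rk (a b : n → F) (h : 1 + b ⬝ᵥ a ≠ 0) : GL n F :=
  GeneralLinearGroup.mkOfDetNeZero (1 + vecMulVec a b) (det_rank_one a b ▸ h)

theorem rk_det (a b : n → F) (h : 1 + b ⬝ᵥ a ≠ 0) : (rk a b h).1.det = 1 + b ⬝ᵥ a := det_rank_one a b

theorem rk_mulVec (a b : n → F) (h : 1 + b ⬝ᵥ a ≠ 0) (x : n → F) : (rk a b h).1 *ᵥ x = x + (b ⬝ᵥ x) • a := by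
  change (1 + vecMulVec a b) *ᵥ x = _
  simp [add_mulVec, vecMulVec_mulVec]

theorem rk_dual (a b : n → F) (h : 1 + b ⬝ᵥ a ≠ 0) (y : n → F) :
    (dual (rk a b h)).1 *ᵥ y = y - ((a ⬝ᵥ y) / (1 + b ⬝ᵥ a)) • b := dot_ext fun x => by
  rw [← one_mulVec x, ← (rk a b h).mul_inv, ← mulVec_mulVec, dual_dot, rk_mulVec]
  simp only [dotProduct_sub, add_dotProduct, dotProduct_smul, smul_dotProduct, smul_eq_mul, dotProduct_comm _ b, dotProduct_add]
  field_simp
  ring

variable {Q : QuadraticForm F V}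

variable (Q) in
/-- commutators in `Ω` -/
def Com (g : orth Q) : Prop := ∃ a ∈ commutator (orth Q), ∃ b ∈ commutator (orth Q), g = a * b * a⁻¹ * b⁻¹

theorem Com.of_conj {g : orth Q} (x : orth Q) (h : Com Q (x * g * x⁻¹)) : Com Q g := by
  obtain ⟨a, ha, b, hb, e⟩ := h
  exact ⟨_, Subgroup.Normal.conj_mem' inferInstance a ha x, _, Subgroup.Normal.conj_mem' inferInstance b hb x, by
    rw [show g = x⁻¹ * (x * g * x⁻¹) * x by group, e]; group⟩

namespace Fr

variable (fr : Fr Q n)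

/-- fixed-point-free action on the unipotent radical -/
def Fp (l : orth Q) : Prop := (∀ u ∈ fr.U, l * u * l⁻¹ ∈ fr.U) ∧ ∀ u ∈ fr.U, u * l = l * u → u = 1

theorem fp_of (hQ : QNondeg Q) {D : GL n F} {δ : orth Q} (h0 : δ ∈ fr.O)
    (h1 : ∀ S : Matrix n n F, (∀ y, y ⬝ᵥ S *ᵥ y = 0) → D.1 * S = S * (dual D).1 → S = 0) {ψ : F[X]}
    (h2 : ∀ w ∈ fr.W, aeval δ.1.toLinearMap ψ w = 0) (h3 : IsUnit (aeval D.1 ψ)) : fr.Fp (fr.lev D * δ) := by
  refine ⟨fun u hu => fr.conj_mem D h0 hu, fun u hu e => ?_⟩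
  replace e : ∀ v, u.1 ((fr.lev D).1 (δ.1 v)) = (fr.lev D).1 (δ.1 (u.1 v)) := fun v => congrArg (·.1 v) e
  have u1 : ∀ w ∈ fr.W, u.1 w = w + fr.E (fr.cx (u.1 w)) := fun w hw => by
    obtain ⟨x, e⟩ := hu.2 w hw.2
    simp [e, (fr.mem_W.1 hw).1]
  have u2 : ∀ k : ℕ, ∀ w ∈ fr.W, fr.cx (u.1 ((δ.1.toLinearMap ^ k) w)) = D.1 ^ k *ᵥ fr.cx (u.1 w) := fun k => by
    induction k with
    | zero => simp
    | succ k ih =>
      intro w hw
      have := congrArg fr.cx (e w)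
      rw [fr.lev_W D (fr.O_W h0 hw), u1 w hw, map_add δ.1, h0.1, map_add, fr.lev_W D (fr.O_W h0 hw), lev_E, map_add,
        (fr.O_W h0 hw).1, zero_add, xE] at this
      rw [pow_succ, End.mul_apply, ih (δ.1.toLinearMap w) (fr.O_W h0 hw), pow_succ, ← mulVec_mulVec, ← this]; rfl
  have u3 : ∀ w ∈ fr.W, u.1 w = w := fun w hw => by
    have := congrArg (fun v => fr.cx (u.1 v)) (h2 w hw)
    simp only [aeval_eq_sum_range, LinearMap.sum_apply, LinearMap.smul_apply, map_sum, map_smul, u2 _ w hw, map_zero,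
      ← smul_mulVec, ← sum_mulVec] at this
    rw [← aeval_eq_sum_range] at this
    rw [u1 w hw, mulVec_injective_of_isUnit h3 (this.trans (mulVec_zero _).symm), map_zero, add_zero]
  let S := LinearMap.toMatrix' (fr.cx ∘ₗ u.1.toLinearMap ∘ₗ fr.Φ)
  have u4 : ∀ y, u.1 (fr.Φ y) = fr.E (S *ᵥ y) + fr.Φ y := fun y => fr.ext (by simp [S]) (by
    simp only [map_add, p_E, p_Φ, add_zero]
    refine fr.eq_zero hQ (fr.p_mem _) fun v hv => ?_
    have := orth_polar u (fr.Φ y) v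
    rw [u3 v hv, fr.polar_eq, fr.p_of hv] at this
    simpa [(fr.mem_W.1 hv).1, (fr.mem_W.1 hv).2] using this) (by simp [fr.cy_of hu.1])
  have := h1 S (fun y => by simpa [u4, Q_add] using orth_Q u (fr.Φ y)) (matrix_ext_mulVec fun y => by
    simpa [h0.1, h0.2, u4] using (congrArg fr.cx (e (fr.Φ y))).symm)
  exact fr.hom_ext hu.1 u3 fun y => by simp [u4, this, orth_one_apply]

theorem fp_both (hQ : QNondeg Q) {D : GL n F} {δ : orth Q} (h0 : δ ∈ fr.O) {φ ψ : F[X]} {a b : n → F}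
    (h1 : aeval D.1 φ = vecMulVec a b) (h2 : IsUnit (aeval (D⁻¹).1 φ)) (h3 : ∀ w ∈ fr.W, aeval δ.1.toLinearMap ψ w = 0)
    (h4 : IsUnit (aeval D.1 ψ)) (h5 : IsUnit (aeval (D⁻¹).1 ψ)) : fr.Fp (fr.lev D * δ) ∧ fr.swap.Fp (fr.lev D * δ) := by
  refine ⟨fr.fp_of hQ h0 (fun S h e => alt_zero e h1 (by rwa [coe_dual, aeval_tr, isUnit_transpose]) h) h3 h4, ?_⟩
  rw [← fr.swap_lev]
  refine fr.swap.fp_of hQ (fr.swap_O h0) (fun S h e => alt_zero (A := D.1ᵀ) (a := b) (b := a) ?_ ?_ h2 h) (by simpa using h3)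
    (by rwa [coe_dual, aeval_tr, isUnit_transpose])
  · rw [← Units.mul_inv_cancel_right (D.1ᵀ * S) D, Matrix.mul_assoc _ S, ← show _ = S * D.1 from e, ← Matrix.mul_assoc,
      coe_dual, ← transpose_mul, Units.inv_mul, transpose_one, Matrix.one_mul]
  · rw [aeval_tr, h1, transpose_vecMulVec]

variable [FiniteDimensional F V] [Finite F]

theorem Fp.le {fr : Fr Q n} {l : orth Q} (h : fr.Fp l) : fr.U ≤ commutator (orth Q) := fun u hu => by
  obtain ⟨v, -, e⟩ := exists_conj h.1 h.2 hu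
  exact eq_mul_inv_of_mul_eq e.symm ▸ Subgroup.commutator_mem_commutator (Subgroup.mem_top v) (Subgroup.mem_top l)

theorem Big.com {fr : Fr Q n} {g y δ c : orth Q} {Z D : GL n F} (h : fr.Big g y (Z * D⁻¹) 1)
    (h1 : fr.swap.Fp (fr.lev Z * δ)) (h2 : fr.Fp (fr.lev D * δ)) (h3 : c ∈ commutator (orth Q))
    (h4 : c * (fr.lev D * δ) * c⁻¹ = fr.lev Z * δ) (h5 : fr.lev D * δ ∈ commutator (orth Q)) : Com Q g := by
  obtain ⟨k1, -, x, k2, rfl⟩ := h
  obtain ⟨u, hu, e1⟩ := exists_conj h1.1 h1.2 k1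
  obtain ⟨v, hv, e2⟩ := exists_conj h2.1 h2.2 (inv_mem k2)
  refine ⟨y * (fr.lev Z * δ), mul_mem (h1.le k1) (h4 ▸ Subgroup.Normal.conj_mem inferInstance _ h5 c), v * c⁻¹ * u⁻¹,
    mul_mem (mul_mem (h2.le hv) (inv_mem h3)) (inv_mem (h1.le hu)), ?_⟩
  rw [show y * (fr.lev (Z * D⁻¹) * 1) * x = y * (fr.lev Z * δ) * (x⁻¹ * (fr.lev D * δ))⁻¹ by rw [map_mul, map_inv]; group,
    ← e2, ← e1, ← h4]
  group

variable (hQ : QNondeg Q) (hne : NotExc F V)
include hQ hne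

theorem ds_lev (A : GL n F) : H12.dickson Q (fr.lev A) = 1 ∧ spinor Q (fr.lev A) = qsign A.1.det := by
  have hsl : ∀ B : SpecialLinearGroup n F, fr.lev (SpecialLinearGroup.toGL B) ∈ commutator (orth Q) := by
    refine H11.sl_transvection_induction _ (by simp) (fun i j hij a => ?_)
      fun A B hA hB => by rw [map_mul, map_mul]; exact Subgroup.mul_mem _ hA hB
    have hw : (Pi.single j a : n → F) ⬝ᵥ Pi.single i 1 = 0 := by simp [hij.symm]
    have hw' : polar Q (fr.E (Pi.single i 1)) (fr.Φ (Pi.single j a)) = 0 := by simp [hij]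
    rw [show SpecialLinearGroup.toGL (SpecialLinearGroup.transvection hij a) = rk (Pi.single i 1) (Pi.single j a) (by simp [hw])
      from Units.ext (matrix_ext_mulVec fun x => by
        simp [rk_mulVec, SpecialLinearGroup.transvection_coe, add_mulVec, single_mulVec, ← Pi.single_smul]; rfl)]
    convert eichGroup_le_commutator hQ hne (eich_mem_eichGroup (fr.qE _) hw') using 1
    exact orth_ext fun x => by
      rw [eich_apply (fr.qE _) hw', lev_apply, rk_mulVec, rk_dual, hw, p_apply]; simp; abel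
  rcases isEmpty_or_nonempty n with _ | ⟨⟨i⟩⟩
  · rw [Subsingleton.elim A 1]; simp [qsign_one]
  have hd := A.det_ne_zero
  have e1 : 1 + (Pi.single i (A.1.det - 1) : n → F) ⬝ᵥ Pi.single i 1 = A.1.det := by simp
  let D := rk (Pi.single i 1) (Pi.single i (A.1.det - 1)) (e1.trans_ne hd)
  have hD : D.1.det = A.1.det := (rk_det ..).trans e1
  have hef : polar Q (fr.E (Pi.single i 1)) (fr.Φ (Pi.single i 1)) = 1 := by simp
  have h1 := dickson_spinor_hyp hQ hne (fr.qE _) (fr.qΦ _) hef hd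
  have h2 : fr.lev D = _ := orth_ext fun x => by
    rw [refl_hyp_mul (fr.qE _) (fr.qΦ _) hef one_ne_zero hd, lev_apply, rk_mulVec, rk_dual, e1, p_apply,
      show (Pi.single i (A.1.det - 1) : n → F) = (A.1.det - 1) • Pi.single i 1 by simp [← Pi.single_smul]]
    simp only [map_add, map_sub, map_smul, pE, pΦ, smul_dotProduct, smul_eq_mul]
    match_scalars <;> field_simp <;> ring
  obtain ⟨B, hB⟩ : ∃ B : SpecialLinearGroup n F, SpecialLinearGroup.toGL B = A * D⁻¹ :=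
    ⟨⟨(A * D⁻¹).1, by rw [Units.val_mul, det_mul, ← hD, ← det_mul, Units.mul_inv, det_one]⟩, Units.ext rfl⟩
  have h3 := (mem_commutator_iff hQ hne _).1 (hsl B)
  rw [hB] at h3
  rw [← inv_mul_cancel_right A D, map_mul, map_mul (H12.dickson _), map_mul (spinor _), h3.1, h3.2, h2, h1.1, h1.2,
    inv_mul_cancel_right, one_mul, one_mul]
  exact ⟨rfl, rfl⟩

theorem lev_mem {A : GL n F} (h : IsSquare A.1.det) : fr.lev A ∈ commutator (orth Q) :=
  (mem_commutator_iff hQ hne _).2 ⟨(fr.ds_lev hQ hne A).1, (fr.ds_lev hQ hne A).2.trans (qsign_eq_one.2 h)⟩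

end Fr

end H23.OO
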