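import Cfsg.Agent.H23.OrOre2

/-!
Normalizing the Levi component.
-/

namespace H23.OO

open Module QuadraticMap Matrix H12

variable {F V : Type*} {n : Type} [Field F] [AddCommGroup V] [Module F V] [Fintype n] [DecidableEq n]
  {Q : QuadraticForm F V}

theorem exists_dot₂ {a b : n → F} (h : b ∉ F ∙ a) : ∃ x, x ⬝ᵥ a = 0 ∧ x ⬝ᵥ b = 1 := by
  obtain ⟨φ, h1, h2⟩ := (F ∙ a).exists_dual_map_eq_bot_of_notMem h inferInstance
  obtain ⟨x, hx⟩ := exists_vec φ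
  exact ⟨(φ b)⁻¹ • x, by simp [← hx, show φ a = 0 from h2.le ⟨a, Submodule.mem_span_singleton_self a, rfl⟩], by simp [← hx, h1]⟩

theorem qsign_div [Finite F] {a b d : F} (a0 : a ≠ 0) (b0 : b ≠ 0) (d0 : d ≠ 0) {s : ℤˣ} (h1 : qsign b * s = qsign a)
    (h2 : 1 = qsign d * s) : qsign (a / b * d) = 1 := by
  rw [show a / b * d = a * b * d * (b⁻¹ * b⁻¹) by field_simp, qsign_mul (by simp [*]) (by simp [*]), qsign_mul_self,
    qsign_mul (by simp [*]) d0, qsign_mul a0 b0, ← h1]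
  exact (by decide : ∀ x y s : ℤˣ, 1 = y * s → x * s * x * y * 1 = 1) _ _ _ h2

namespace Fr

variable (fr : Fr Q n)

/-- the defect of being in the big cell -/
def K (g : orth Q) : Submodule F (n → F) := LinearMap.ker (fr.cx ∘ₗ g.1.toLinearMap ∘ₗ fr.E)

theorem mem_K {g : orth Q} {x : n → F} : x ∈ fr.K g ↔ fr.cx (g.1 (fr.E x)) = 0 := Iff.rfl

/-- the maximal singular subspace meets its image properly -/
def I (g : orth Q) : Prop := (∃ x ≠ 0, ∃ x', g.1 (fr.E x) = fr.E x') ∧ ∃ x, ∀ x', g.1 (fr.E x) ≠ fr.E x'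

theorem I.conj {fr : Fr Q n} {g u : orth Q} (h : fr.I g) (hu : u ∈ fr.U) : fr.I (u * g * u⁻¹) := by
  obtain ⟨⟨x, x0, x', e⟩, z, hz⟩ := h
  have h' := (inv_mem hu).1
  exact ⟨⟨x, x0, x', by simp only [orth_mul_apply, h', e, hu.1]⟩, z, fun z' e => hz z' (by
    rw [← h' z', ← e, orth_mul_apply, orth_mul_apply, h', orth_inv_apply'])⟩

theorem U_cx {y : orth Q} (h : y ∈ fr.swap.U) (v : V) : fr.cx (y.1 v) = fr.cx v := fr.swap.cy_of h.1 v

theorem Big.I {fr : Fr Q n} {g y δ : orth Q} {A : GL n F} (h : fr.Big g y A δ) (h' : fr.I g) :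
    (∃ x ≠ 0, y.1 (fr.E x) = fr.E x) ∧ ∃ x, y.1 (fr.E x) ≠ fr.E x := by
  obtain ⟨⟨x, x0, x', e⟩, z, hz⟩ := h'
  rw [h.apply] at e hz
  refine ⟨⟨A.1 *ᵥ x, fun e => x0 (mulVec_injective_of_isUnit A.isUnit (e.trans (mulVec_zero _).symm)), ?_⟩, _, hz _⟩
  rw [e, ← fr.xE x', ← e, fr.U_cx h.1, xE]

theorem O_eq_one (h : fr.W = ⊥) {δ : orth Q} (hδ : δ ∈ fr.O) : δ = 1 :=
  fr.hom_ext hδ.1 (fun w hw => by rw [(Submodule.eq_bot_iff _).1 h w hw, map_zero, map_zero]) hδ.2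

theorem polar_W {w : V} (hw : w ∈ fr.W) (v : V) : polar Q w v = polar Q w (fr.p v) := by
  rw [fr.polar_eq, (fr.mem_W.1 hw).1, (fr.mem_W.1 hw).2, fr.p_of hw]; simp

variable [FiniteDimensional F V] (hQ : QNondeg Q) (an : ∀ w ∈ fr.W, Q w = 0 → w = 0)
include hQ

theorem big_of_K {g : orth Q} (h : fr.K g = ⊥) : ∃ A y δ, fr.Big g y A δ := by
  obtain ⟨A, hA⟩ := ((LinearMap.isUnit_iff_ker_eq_bot _).2 h).map LinearMap.toMatrixAlgEquiv'
  exact ⟨A, fr.big_of hQ g A fun x => by rw [hA]; exact (LinearMap.toMatrix'_mulVec (fr.cx ∘ₗ g.1.toLinearMap ∘ₗ fr.E) x).symm⟩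

theorem mv {y : orth Q} (hy : y ∈ fr.swap.U) (e : n → F) {w : V} (hw : fr.cy w = 0)
    (h : ∀ z, (e ⬝ᵥ fr.cy (y.1 (fr.E z))) • fr.cx w = 0) {d : F} (d0 : d ≠ 0)
    (hd : 1 + (polar Q w (y.1 (fr.E e)) - Q w * e ⬝ᵥ fr.cy (y.1 (fr.E e))) = d) :
    ∃ A y' δ, fr.Big (eich Q (fr.E e) w * y) y' A δ ∧ A.1.det = d ∧
      ∀ z, A.1 *ᵥ z = z + (polar Q w (y.1 (fr.E z)) - Q w * e ⬝ᵥ fr.cy (y.1 (fr.E z))) • e := by
  obtain ⟨b, hb⟩ := exists_vec ((polarBilin Q w - Q w • polarBilin Q (fr.E e)) ∘ₗ y.1.toLinearMap ∘ₗ fr.E)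
  replace hb : ∀ z, polar Q w (y.1 (fr.E z)) - Q w * e ⬝ᵥ fr.cy (y.1 (fr.E z)) = b ⬝ᵥ z := by simpa using hb
  rw [hb] at hd
  obtain ⟨y', δ, H⟩ := fr.big_of hQ (eich Q (fr.E e) w * y) (rk e b (hd.trans_ne d0)) fun z => by
    rw [orth_mul_apply, eich_apply (fr.qE e) (by simp [hw]), rk_mulVec, ← hb]
    simp [fr.U_cx hy, h, sub_smul, add_sub_assoc]
  exact ⟨_, y', δ, H, (rk_det ..).trans hd, fun z => by rw [rk_mulVec, hb]⟩

theorem mv_refl {y : orth Q} (hy : y ∈ fr.swap.U) (e : n → F) {w' : V} (hw : w' ∈ fr.W) (h0 : Q w' ≠ 0)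
    (h1 : Q (fr.p (y.1 (fr.E e))) ≠ 0) : ∃ x ∈ fr.U, ∃ A y', fr.Big (x * y) y' A (refl Q w' * refl Q (fr.p (y.1 (fr.E e)))) ∧
      A.1.det = Q w' / Q (fr.p (y.1 (fr.E e))) := by
  have m := fr.p_mem (y.1 (fr.E e))
  have e1 := fr.dec (y.1 (fr.E e))
  have e2 := fr.Q_eq (y.1 (fr.E e))
  rw [fr.U_cx hy, xE] at e1 e2
  rw [orth_Q, qE] at e2
  generalize fr.p (y.1 (fr.E e)) = w at *
  generalize fr.cy (y.1 (fr.E e)) = c at *
  obtain ⟨u, rfl⟩ : ∃ u, w' = w + Q w • u := ⟨(Q w)⁻¹ • (w' - w), by simp [h1]⟩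
  have mu : u ∈ fr.W := (fr.W.smul_mem_iff h1).1 ((fr.W.add_mem_iff_right m).1 hw)
  have e3 : Q (w + Q w • u) = Q w * (1 + polar Q w u + Q u * Q w) := by simp [Q_add, Q_smul]; ring
  obtain ⟨A, y', δ, H, h2, -⟩ := fr.mv hQ hy e mu.2 (fun z => by simp [(fr.mem_W.1 mu).1]) (div_ne_zero h0 h1) (by
    simp [← e1, e3, (fr.mem_W.1 mu).1, (fr.mem_W.1 mu).2, (fr.mem_W.1 m).2, polar_comm Q u, h1]
    linear_combination Q u * e2)
  refine ⟨_, fr.eich_mem e mu.2, A, y', H.eq (mul_mem (fr.refl_mem hw) (fr.refl_mem m)) (fun v hv => ?_) ▸ H, h2⟩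
  obtain ⟨z, hz⟩ := hy.2 v hv.1
  have e4 := orth_polar y (fr.E e) v
  simp [← e1, hz, (fr.mem_W.1 hv).1, (fr.mem_W.1 hv).2, (fr.mem_W.1 m).1, dotProduct_comm z] at e4
  have d0 := right_ne_zero_of_mul (e3 ▸ h0)
  refine ⟨(-(polar Q u v + Q u * polar Q w v) / (1 + polar Q w u + Q u * Q w)) • e, z + (-(polar Q u v + Q u * polar Q w v) /
    (1 + polar Q w u + Q u * Q w)) • c, ?_⟩
  simp only [orth_mul_apply, map_add, map_smul, hz, ← e1, eich_apply (fr.qE e) (w := u) (by simp [(fr.mem_W.1 mu).2]),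
    refl_apply, e3, polar_add_left, polar_add_right, polar_smul_left, polar_smul_right, polar_sub_right, pE, pE', pΦ', swap_E,
    (fr.mem_W.1 mu).1, (fr.mem_W.1 mu).2, (fr.mem_W.1 m).2, (fr.mem_W.1 hv).2, yE, yΦ, dotProduct_zero, zero_dotProduct, polar_self',
    polar_comm Q u w, xE, qE, dotProduct_comm z, dotProduct_comm c, eq_neg_of_add_eq_zero_left e4,
    eq_neg_of_add_eq_zero_left e2.symm, smul_eq_mul]
  match_scalars <;> field_simp <;> ring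

theorem mv_plus (h0 : fr.W = ⊥) {y : orth Q} (hy : y ∈ fr.swap.U) {z : n → F} (hz : y.1 (fr.E z) ≠ fr.E z) {t : F}
    (ht : t ≠ 0) : ∃ x ∈ fr.U, ∃ A y', fr.Big (x * y) y' A 1 ∧ A.1.det = t * t := by
  have p0 : ∀ v, fr.p v = 0 := fun v => (Submodule.eq_bot_iff _).1 h0 _ (fr.p_mem v)
  obtain ⟨e, he⟩ := exists_dot (a := fr.cy (y.1 (fr.E z))) fun e => hz (fr.ext (fr.U_cx hy _) (by simp [p0]) (by simp [e]))
  have q : ∀ a, a ⬝ᵥ fr.cy (y.1 (fr.E a)) = 0 := fun a => by simpa [orth_Q, p0, fr.U_cx hy] using (fr.Q_eq (y.1 (fr.E a))).symm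
  have q' : z ⬝ᵥ fr.cy (y.1 (fr.E e)) = -1 := by
    have := q (z + e)
    simp only [map_add, add_dotProduct, dotProduct_add, q, he] at this
    linear_combination this
  obtain ⟨a, ha⟩ := exists_vec (polarBilin Q (fr.E e) ∘ₗ y.1.toLinearMap ∘ₗ fr.E)
  obtain ⟨b, hb⟩ := exists_vec (polarBilin Q (fr.E ((1 - t) • z)) ∘ₗ y.1.toLinearMap ∘ₗ fr.E)
  simp only [LinearMap.comp_apply, LinearEquiv.coe_coe, polarBilin_apply_apply, pE, smul_dotProduct, smul_eq_mul] at ha hb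
  have e1 : 1 + a ⬝ᵥ (t - 1) • z = t := by simp [← ha, he]
  have e2 : 1 + b ⬝ᵥ e = t := by simp [← hb, q']
  obtain ⟨y', δ, H⟩ := fr.big_of hQ (eich Q (fr.E ((t - 1) • z)) (fr.E e) * y) (rk _ a (e1.trans_ne ht) * rk e b (e2.trans_ne ht))
    fun v => by
      rw [orth_mul_apply, eich_apply (fr.qE _) (by simp), Units.val_mul, ← mulVec_mulVec, rk_mulVec, rk_mulVec]
      simp only [map_add, map_sub, map_smul, fr.U_cx hy, xE, qE, pE, ← ha, ← hb, q, smul_dotProduct, smul_eq_mul, dotProduct_add,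
        dotProduct_smul, polar_smul_left]
      module
  exact ⟨_, fr.eich_mem _ (fr.yE e), _, y', fr.O_eq_one h0 H.2.1 ▸ H, by rw [Units.val_mul, det_mul, rk_det, rk_det, e1, e2]⟩

include an

theorem c_ne {y : orth Q} (hy : y ∈ fr.swap.U) {z : n → F} (hz : y.1 (fr.E z) ≠ fr.E z) : fr.cy (y.1 (fr.E z)) ≠ 0 := fun e =>
  hz (fr.ext (fr.U_cx hy _) ((an _ (fr.p_mem _) (by simpa [e, orth_Q] using (fr.Q_eq (y.1 (fr.E z))).symm)).trans
    (fr.p_E z).symm) (by simp [e]))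

theorem mv_ne (h0 : fr.W ≠ ⊥) {y : orth Q} (hy : y ∈ fr.swap.U) {z : n → F} (hz : y.1 (fr.E z) ≠ fr.E z) :
    ∃ x ∈ fr.U, ∃ A y' δ, fr.Big (x * y) y' A δ ∧ ∃ e, fr.p (y'.1 (fr.E e)) ≠ 0 := by
  by_cases h : ∃ e, fr.p (y.1 (fr.E e)) ≠ 0
  · exact ⟨1, one_mem _, 1, y, 1, ⟨hy, one_mem _, 1, one_mem _, by simp⟩, h⟩
  push Not at h
  obtain ⟨w, hw, w0⟩ := (Submodule.ne_bot_iff _).1 h0
  obtain ⟨e, he⟩ := exists_dot (fr.c_ne hQ an hy hz)
  obtain ⟨A, y', δ, H, -⟩ := fr.mv hQ hy e hw.2 (fun z => by simp [(fr.mem_W.1 hw).1]) one_ne_zero (by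
    have := fr.Q_eq (y.1 (fr.E e))
    simp only [orth_Q, qE, fr.U_cx hy, xE, h, map_zero, add_zero] at this
    simp [fr.polar_W hw (y.1 _), h, ← this])
  refine ⟨_, fr.eich_mem e hw.2, A, y', δ, H, A.1 *ᵥ z, ?_⟩
  rw [← H.apply z]
  simp [orth_mul_apply, eich_apply (fr.qE e) (w := w) (by simp [(fr.mem_W.1 hw).2]), h, he, fr.p_of hw, w0]

theorem mv_tv {y : orth Q} (hy : y ∈ fr.swap.U) {e z : n → F} (he : y.1 (fr.E e) = fr.E e) (hz : y.1 (fr.E z) ≠ fr.E z) :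
    ∃ x ∈ fr.U, ∃ A y', fr.Big (x * y) y' A 1 ∧ A.1.det = 1 ∧ A.1 *ᵥ e = e ∧ A.1 *ᵥ z = z + e := by
  obtain ⟨a, ha⟩ := exists_dot (fr.c_ne hQ an hy hz)
  have q : ∀ v, e ⬝ᵥ fr.cy (y.1 v) = e ⬝ᵥ fr.cy v := fun v => by rw [← fr.pE, ← he, orth_polar, fr.pE]
  obtain ⟨A, y', δ, H, h1, h2⟩ := fr.mv hQ hy e (fr.yE a) (fun z => by simp [q]) one_ne_zero (by simp [he])
  refine ⟨_, fr.eich_mem e (fr.yE a), A, y', H.eq (one_mem _) (fun v hv => ?_) ▸ H, h1, by simp [h2, he], by simp [h2, ha]⟩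
  obtain ⟨s, hs⟩ := hy.2 v hv.1
  have := q v
  simp [hs, (fr.mem_W.1 hv).2] at this
  exact ⟨-(a ⬝ᵥ s) • e, s, by
    simp [orth_mul_apply, orth_one_apply, hs, he, eich_apply (fr.qE e) (w := fr.E a) (by simp), (fr.mem_W.1 hv).2, this, dotProduct_comm s]⟩

variable [Finite F] (hne : NotExc F V) (hU : fr.U ≤ commutator (orth Q)) (hU' : fr.swap.U ≤ commutator (orth Q))
include hne

omit an in
include hU hU' in
theorem Big.mem {g y δ : orth Q} {A : GL n F} (h : fr.Big g y A δ) :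
    dickson Q g = dickson Q δ ∧ spinor Q g = qsign A.1.det * spinor Q δ := by
  obtain ⟨h1, -, x, h2, rfl⟩ := h
  have a := (mem_commutator_iff hQ hne _).1 (hU' h1)
  have b := (mem_commutator_iff hQ hne _).1 (hU h2)
  simp [a, b, fr.ds_lev hQ hne A]

theorem eq_refl {δ : orth Q} (h : δ ∈ fr.O) (h1 : dickson Q δ = -1) : ∃ w ∈ fr.W, w ≠ 0 ∧ δ = refl Q w := by
  have k : ∀ τ ∈ fr.O, τ ≠ 1 → ∃ v ∈ fr.W, τ.1 v ≠ v ∧ τ.1 v - v ∈ fr.W ∧ Q (τ.1 v - v) ≠ 0 ∧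
      (refl Q (τ.1 v - v) * τ).1 v = v := fun τ hτ e => by
    obtain ⟨v, hv, e⟩ : ∃ v ∈ fr.W, τ.1 v ≠ v := by
      by_contra! H
      exact e (fr.hom_ext hτ.1 H hτ.2)
    have m := sub_mem (fr.O_W hτ hv) hv
    have := mt (an _ m) (sub_ne_zero.2 e)
    exact ⟨v, hv, e, m, this, refl_sub_apply (orth_Q τ v) this⟩
  obtain ⟨v, hv, e, m, q, f⟩ := k δ h (by rintro rfl; simp at h1)
  refine ⟨_, m, sub_ne_zero.2 e, eq_inv_of_mul_eq_one_right (not_not.1 fun H => ?_) |>.trans (refl_inv _)⟩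
  have o := mul_mem (fr.refl_mem m) h
  have d : dickson Q (refl Q (δ.1 v - v) * δ) = 1 := by simp [dickson_refl hQ hne q, h1]
  generalize refl Q (δ.1 v - v) * δ = τ at *
  obtain ⟨u, hu, e', m', q', f'⟩ := k τ o H
  have v0 : v ≠ 0 := by rintro rfl; simp at e
  have s : Submodule.span F {v, u} = fr.W := Submodule.eq_of_le_of_finrank_le (Submodule.span_le.2 (Set.pair_subset hv hu)) (by
    rw [finrank_span_pair_of_not_mem v0 fun e => by
      obtain ⟨c, rfl⟩ := Submodule.mem_span_singleton.1 e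
      exact e' (by rw [map_smul, f])]
    by_contra! H
    obtain ⟨w, h1, h2, h3⟩ := exists_singular_mem Q H
    exact h2 (an w h1 h3))
  have o' := mul_mem (fr.refl_mem m') o
  have := fr.hom_ext (h := 1) o'.1 (fun w hw => by
    obtain ⟨a, b, rfl⟩ := Submodule.mem_span_pair.1 (s.ge hw)
    rw [map_add, map_smul, map_smul, f', orth_mul_apply, f, refl_apply_of_orth, orth_one_apply]
    rw [polar_sub_left, ← orth_polar τ u, f, sub_self]) o'.2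
  simpa [dickson_refl hQ hne q', d] using congrArg (dickson Q) this

include hU hU'

theorem exists_lt {g : orth Q} (hg : dickson Q g = 1) (h : fr.K g ≠ ⊥) : ∃ x ∈ fr.U, fr.K (x * g) < fr.K g := by
  obtain ⟨a, ha, a0⟩ := (Submodule.ne_bot_iff _).1 h
  have k1 : ∀ b ∈ fr.K g, g.1 (fr.E b) = fr.Φ (fr.cy (g.1 (fr.E b))) := fun b hb => fr.ext (by simpa [mem_K] using hb) ((an _ (fr.p_mem _)
    (by simpa [fr.mem_K.1 hb, orth_Q] using (fr.Q_eq (g.1 (fr.E b))).symm)).trans (fr.p_Φ _).symm) (by simp)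
  have k2 : ∀ b ∈ fr.K g, ∀ v, fr.cy (g.1 (fr.E b)) ⬝ᵥ fr.cx (g.1 (fr.E v)) = 0 := fun b hb v => by
    rw [← fr.pΦ, ← k1 b hb, orth_polar]; simp
  have k3 : ∀ b ∈ fr.K g, fr.cy (g.1 (fr.E b)) = 0 → b = 0 := fun b hb e => by
    simpa [e] using congrArg fr.cx (g.1.map_eq_zero_iff.1 ((k1 b hb).trans (by simp [e])))
  obtain ⟨e, he⟩ := exists_dot (mt (k3 a ha) a0)
  have fin : ∀ x : orth Q, (∀ b ∈ fr.K (x * g), b ∈ fr.K g ∧ e ⬝ᵥ fr.cy (g.1 (fr.E b)) = 0) → fr.K (x * g) < fr.K g :=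
    fun x H => lt_of_le_of_ne (fun b hb => (H b hb).1) fun e => by simpa [he] using (H a (e.ge ha)).2
  have k4 := k2 a ha
  by_cases h0 : fr.W = ⊥
  swap
  · obtain ⟨w, hw, w0⟩ := (Submodule.ne_bot_iff _).1 h0
    refine ⟨_, fr.eich_mem e hw.2, fin _ fun b hb => ?_⟩
    rw [mem_K, orth_mul_apply, eich_apply (fr.qE e) (by simp [(fr.mem_W.1 hw).2])] at hb
    simp only [map_add, map_sub, map_smul, xE, (fr.mem_W.1 hw).1, smul_zero, sub_zero, add_sub_assoc, ← sub_smul] at hb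
    have h1 := congrArg (fr.cy (g.1 (fr.E a)) ⬝ᵥ ·) hb
    simp only [dotProduct_add, k4, dotProduct_smul, dotProduct_comm _ e, he, zero_add, smul_eq_mul, mul_one,
      dotProduct_zero] at h1
    rw [h1, zero_smul, add_zero] at hb
    rw [k1 b hb] at h1
    exact ⟨hb, by simpa [(fr.mem_W.1 hw).1, mt (an w hw) w0, dotProduct_comm e] using h1⟩
  by_cases h1 : ∃ a' ∈ fr.K g, fr.cy (g.1 (fr.E a')) ∉ F ∙ fr.cy (g.1 (fr.E a))
  · obtain ⟨a', ha', h1⟩ := h1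
    obtain ⟨e', h2, h3⟩ := exists_dot₂ h1
    refine ⟨_, fr.eich_mem e (fr.yE e'), fin _ fun b hb => ?_⟩
    rw [mem_K, orth_mul_apply, eich_apply (fr.qE e) (by simp)] at hb
    simp only [map_add, map_sub, map_smul, xE, qE, pE, zero_mul, zero_smul, sub_zero] at hb
    have h4 := congrArg (fr.cy (g.1 (fr.E a)) ⬝ᵥ ·) hb
    have h5 := congrArg (fr.cy (g.1 (fr.E a')) ⬝ᵥ ·) hb
    simp [k4, k2 a' ha', dotProduct_comm _ e, dotProduct_comm _ e', he, h2, h3] at h4 h5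
    simp [h4] at h5
    exact ⟨by simpa [h4, h5, mem_K] using hb, h5⟩
  push Not at h1
  have q : Q (fr.E e - fr.Φ (fr.cy (g.1 (fr.E a)))) = -1 := by simp [Q_sub, he, dotProduct_comm _ e]
  obtain ⟨A, y, δ, H⟩ := fr.big_of_K hQ (g := refl Q (fr.E e - fr.Φ (fr.cy (g.1 (fr.E a)))) * g)
    ((Submodule.eq_bot_iff _).2 fun b hb => by
      rw [mem_K, orth_mul_apply, refl_apply, q] at hb
      have h4 := congrArg (fr.cy (g.1 (fr.E a)) ⬝ᵥ ·) hb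
      simp [k4, dotProduct_comm _ e, he] at h4 hb
      simp only [h4, zero_smul, add_zero] at hb
      obtain ⟨c, hc⟩ := Submodule.mem_span_singleton.1 (h1 b hb)
      exact k3 b hb (by rw [← hc, show c = 0 by simpa [← hc, he] using h4, zero_smul]))
  have := (H.mem fr hQ hne hU hU').1
  simp [fr.O_eq_one h0 H.2.1, dickson_refl hQ hne (q.trans_ne (by simp)), hg] at this

theorem exists_big {g : orth Q} (hg : dickson Q g = 1) : ∃ x ∈ fr.U, ∃ A y δ, fr.Big (x * g * x⁻¹) y A δ := by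
  obtain ⟨x, hx, e⟩ : ∃ x ∈ fr.U, fr.K (x * g) = ⊥ := by
    induction h : fr.K g using WellFoundedLT.induction generalizing g with | ind K ih => ?_
    by_cases h0 : fr.K g = ⊥
    · exact ⟨1, one_mem _, by rwa [one_mul]⟩
    obtain ⟨x, hx, h1⟩ := fr.exists_lt hQ an hne hU hU' hg h0
    obtain ⟨x', hx', e⟩ := ih _ (h ▸ h1) (g := x * g) (by simp [hg, ((mem_commutator_iff hQ hne _).1 (hU hx)).1]) rfl
    exact ⟨x' * x, mul_mem hx' hx, by rwa [mul_assoc]⟩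
  exact ⟨x, hx, fr.big_of_K hQ ((Submodule.eq_bot_iff _).2 fun b hb => (Submodule.eq_bot_iff _).1 e b (by
    rwa [mem_K, orth_mul_apply, (inv_mem hx).1] at hb))⟩

theorem exists_norm {g : orth Q} (hg : g ∈ commutator (orth Q)) (hI : fr.I g) :
    ∃ x y A, fr.Big (x * g * x⁻¹) y A 1 ∧ A.1.det = 1 ∧ ∀ c : F, A.1 ≠ c • 1 := by
  have sq : ∀ {a : F}, a ≠ 0 → qsign a = 1 → ∃ t, t ≠ 0 ∧ t * t * a = 1 := fun a0 h => by
    obtain ⟨s, rfl⟩ := qsign_eq_one.1 h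
    exact ⟨s⁻¹, inv_ne_zero (left_ne_zero_of_mul a0), by field_simp [left_ne_zero_of_mul a0]⟩
  have nm : ∀ {g}, g ∈ commutator (orth Q) → ∀ x, x * g * x⁻¹ ∈ commutator (orth Q) :=
    Subgroup.Normal.conj_mem inferInstance _
  obtain ⟨x, hx, y, A, H, h1⟩ : ∃ x ∈ fr.U, ∃ y A, fr.Big (x * g * x⁻¹) y A 1 ∧ A.1.det = 1 := by
    obtain ⟨x, hx, A, y, δ, H⟩ := fr.exists_big hQ an hne hU hU' ((mem_commutator_iff hQ hne _).1 hg).1
    obtain ⟨-, z, hz⟩ := H.I (hI.conj hx)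
    by_cases h0 : fr.W = ⊥
    · obtain rfl := fr.O_eq_one h0 H.2.1
      obtain ⟨t, t0, ht⟩ := sq A.det_ne_zero (by
        simpa [((mem_commutator_iff hQ hne _).1 (nm hg x)).2] using (H.mem fr hQ hne hU hU').2.symm)
      obtain ⟨x', hx', A', y', H', h1⟩ := fr.mv_plus hQ h0 H.1 hz t0
      exact ⟨x' * x, mul_mem hx' hx, y', A' * A, by simpa [mul_assoc] using H.move hx' H', by simpa [h1] using ht⟩
    obtain ⟨x1, hx1, A1, y1, δ1, H1, e, he⟩ := fr.mv_ne hQ an h0 H.1 hz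
    replace H1 := H.move hx1 H1
    have m := (mem_commutator_iff hQ hne _).1 (nm (nm hg x) x1)
    have m' := H1.mem fr hQ hne hU hU'
    have q := mt (an _ (fr.p_mem _)) he
    obtain ⟨w, hw, w0, e1⟩ := fr.eq_refl hQ an hne (mul_mem (fr.refl_mem (fr.p_mem (y1.1 (fr.E e)))) H1.2.1) (by
      rw [map_mul, ← m'.1, m.1, dickson_refl hQ hne q, mul_one])
    have q' := mt (an w hw) w0
    obtain ⟨t, t0, ht⟩ := sq (a := Q w / Q (fr.p (y1.1 (fr.E e))) * (A1 * A).1.det) (mul_ne_zero (div_ne_zero q' q)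
      (A1 * A).det_ne_zero) (by
        have := congrArg (spinor Q) e1
        rw [map_mul, spinor_refl hQ hne q, spinor_refl hQ hne q'] at this
        exact qsign_div q' q (A1 * A).det_ne_zero this (m.2.symm.trans m'.2))
    obtain ⟨x2, hx2, A2, y2, H2, h2⟩ := fr.mv_refl hQ H1.1 e (fr.W.smul_mem t hw) (by simp [Q_smul, t0, q']) q
    refine ⟨x2 * x1 * x, mul_mem (mul_mem hx2 hx1) hx, y2, A2 * (A1 * A), ?_, ?_⟩
    · have := H1.move hx2 H2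
      rw [mul_assoc _ _ (δ1 * δ), e1, refl_smul t0, refl_mul_self] at this
      simpa [mul_assoc] using this
    · rw [Units.val_mul, det_mul, h2, Q_smul, ← ht]; ring
  by_cases h2 : ∃ c : F, A.1 = c • 1
  swap
  · exact ⟨x, y, A, H, h1, by simpa using h2⟩
  obtain ⟨c, hc⟩ := h2
  obtain ⟨⟨e, e0, he⟩, z, hz⟩ := H.I (hI.conj hx)
  obtain ⟨x', hx', A', y', H', h3, h4, h5⟩ := fr.mv_tv hQ an H.1 he hz
  refine ⟨x' * x, y', A' * A, by simpa [mul_assoc] using H.move hx' H', by simp [h1, h3], fun d hd => e0 ?_⟩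
  have k1 := congrArg (· *ᵥ e) hd
  have k2 := congrArg (· *ᵥ z) hd
  have c0 : c ≠ 0 := by
    rintro rfl
    haveI : Nonempty n := by_contra fun h => e0 (funext fun i => (h ⟨i⟩).elim)
    simp [hc] at h1
  simp only [Units.val_mul, hc, mul_smul_comm, mul_one, smul_mulVec, h4, h5, one_mulVec, smul_add] at k1 k2
  simpa [c0, ← show c = d from smul_left_injective F e0 k1] using k2

end Fr

end H23.OO
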