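import Cfsg.Agent.H23.OrOre3

/-!
Choice of the maximal singular subspace, and the central element `-1`.
-/

namespace H23.OO

open Module QuadraticMap Matrix H12

variable {F V : Type*} {n : Type} [Field F] [AddCommGroup V] [Module F V] [Fintype n] [DecidableEq n]
  {Q : QuadraticForm F V}

theorem exists_perp (h : 3 ≤ Fintype.card n) (φ ψ : Dual F (n → F)) : ∃ a ≠ 0, φ a = 0 ∧ ψ a = 0 := by
  obtain ⟨a, -, h1, h2⟩ := exists_mem_ker_not_mem (W := ⊤) ![φ, ψ] ⊥ (by simp; omega)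
  exact ⟨a, h1, h2 0, h2 1⟩

namespace Fr

variable (fr : Fr Q n)

/-- subframes -/
noncomputable def sub {m : Type} [Fintype m] [DecidableEq m] (ι : m ↪ n) : Fr Q m :=
  have k : ∀ (x : m → F) (y : n → F), Function.ExtendByZero.linearMap F ι x ⬝ᵥ y = x ⬝ᵥ LinearMap.funLeft F F ι y := fun x y => by
    conv_lhs => rw [pi_eq_sum_univ' x, map_sum, sum_dotProduct]
    refine Finset.sum_congr rfl fun i _ => ?_
    rw [map_smul, show Function.ExtendByZero.linearMap F ι (Pi.single i 1) = Pi.single (ι i) 1 from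
      funext fun k => ?_]
    · simp [mul_comm]
    by_cases h : ∃ j, ι j = k
    · obtain ⟨j, rfl⟩ := h
      exact (ι.injective.extend_apply ..).trans (by simp [Pi.single_apply])
    · exact (Function.extend_apply' _ _ _ h).trans (by simp [Pi.single_eq_of_ne' fun e => h ⟨i, e⟩])
  have k' : ∀ x : m → F, LinearMap.funLeft F F ι (Function.ExtendByZero.linearMap F ι x) = x := fun x =>
    funext fun i => ι.injective.extend_apply ..
  ⟨fr.E ∘ₗ Function.ExtendByZero.linearMap F ι, fr.Φ ∘ₗ Function.ExtendByZero.linearMap F ι, LinearMap.funLeft F F ι ∘ₗ fr.cx,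
    LinearMap.funLeft F F ι ∘ₗ fr.cy, fun _ => fr.qE _, fun _ => fr.qΦ _, fun _ _ => (fr.pE ..).trans (k ..),
    fun _ _ => (fr.pΦ ..).trans (k ..), fun _ => (congrArg _ (fr.xE _)).trans (k' _), fun _ => (congrArg _ (fr.yΦ _)).trans (k' _)⟩

variable [FiniteDimensional F V]

theorem rank_eq : finrank F V = 2 * Fintype.card n + finrank F fr.W := by
  rw [← (fr.cx.prod fr.cy).finrank_range_add_finrank_ker, LinearMap.ker_prod, LinearMap.range_eq_top.2 fun x =>
    ⟨fr.E x.1 + fr.Φ x.2, by simp⟩]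
  simp [two_mul]; rfl

variable (hQ : QNondeg Q)
include hQ

theorem witt₂ (h : 2 ≤ Fintype.card n) {u v : V} (hu : Q u = 0) (hv : Q v = 0) (e : polar Q u v = 0) :
    ∃ (x : orth Q) (a b : n → F), x.1 u = fr.E a ∧ x.1 v = fr.E b := by
  classical
  obtain ⟨f, hf⟩ := finrank_le_iff_exists_linearMap.1 ((finrank_span_le_card (R := F) {u, v}).trans
    ((by simpa using Finset.card_le_two : _ ≤ 2).trans (by simpa using h : 2 ≤ finrank F (n → F))))
  have q : ∀ x : Submodule.span F {u, v}, Q x = 0 := fun ⟨x, hx⟩ => by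
    obtain ⟨a, b, rfl⟩ := Submodule.mem_span_pair.1 hx
    simp [Q_add, Q_smul, hu, hv, e]
  obtain ⟨x, hx, H⟩ := hQ.witt _ (fr.E ∘ₗ f) ((Function.LeftInverse.injective fr.xE).comp hf) (fun a b => by
    change polar Q _ _ = polar Q _ _
    rw [polar, polar, q, q, ← Submodule.coe_add, q, ← map_add, LinearMap.comp_apply, qE]; simp) fun a => (fr.qE _).trans (q a).symm
  exact ⟨⟨x, hx⟩, _, _, H ⟨u, Submodule.subset_span (by simp)⟩, H ⟨v, Submodule.subset_span (by simp)⟩⟩

variable [Finite F]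

theorem exists_I (h3 : 3 ≤ Fintype.card n) {g : orth Q} (hg : ∀ c : F, ∃ v, g.1 v ≠ c • v) : ∃ x, fr.I (x * g * x⁻¹) := by
  by_contra! H
  have k : ∀ g : orth Q, (∀ x, ¬fr.I (x * g * x⁻¹)) → ∀ a ≠ 0, ∀ b, g.1 (fr.E a) = fr.E b → ∃ c : F, ∀ a, g.1 (fr.E a) = c • fr.E a := by
    intro g H a a0 b e
    have k1 : ∀ x : orth Q, ∀ a ≠ 0, ∀ b, (x * g * x⁻¹).1 (fr.E a) = fr.E b → ∀ a, ∃ b, (x * g * x⁻¹).1 (fr.E a) = fr.E b :=
      fun x a a0 b e => by simpa using mt (And.intro ⟨a, a0, b, e⟩) (H x)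
    let A := fr.cx ∘ₗ g.1.toLinearMap ∘ₗ fr.E
    have k2 : ∀ a, g.1 (fr.E a) = fr.E (A a) := fun a' => by
      obtain ⟨b, e⟩ := k1 1 a a0 b (by simpa using e) a'
      rw [one_mul, inv_one, mul_one] at e
      simp [A, e]
    obtain ⟨c, hc⟩ := LinearMap.exists_eq_smul_id_of_forall_notLinearIndependent (f := A) fun v h => by
      obtain ⟨f, f1, f2⟩ := exists_dot₂ (a := v) (b := A v) fun e => by
        obtain ⟨c, e⟩ := Submodule.mem_span_singleton.1 e
        simpa using (LinearIndependent.pair_iff.1 h c (-1) (by simp [e])).2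
      obtain ⟨e, he⟩ := exists_dot (a := f) (by rintro rfl; simp at f2)
      have q : Q (fr.E e - fr.Φ f) = -1 := by simp [Q_sub, he, dotProduct_comm f]
      have r : ∀ a, (refl Q (fr.E e - fr.Φ f) * g * (refl Q (fr.E e - fr.Φ f))⁻¹).1 (fr.E a) = fr.E (A a) -
          (f ⬝ᵥ A a) • (fr.E e - fr.Φ f) ∨ f ⬝ᵥ a ≠ 0 := fun a => (ne_or_eq _ _).symm.imp_left fun h => by
        rw [refl_inv, orth_mul_apply, orth_mul_apply, refl_apply_of_orth (x := fr.E a) (by simp [h, dotProduct_comm a]), k2,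
          refl_apply, q]; simp [dotProduct_comm f]
      obtain ⟨a, a0, a1, a2⟩ := exists_perp h3 (dotProductBilin F F f) (dotProductBilin F F f ∘ₗ A)
      obtain ⟨b, hb⟩ := k1 _ a a0 (A a) (((r a).resolve_right (not_not.2 a1)).trans (by simp [show f ⬝ᵥ A a = 0 from a2])) v
      have := congrArg fr.cy (((r v).resolve_right (not_not.2 f1)).symm.trans hb)
      simp [f2] at this
      simp [this] at f2
    exact ⟨c, fun a => by simp [k2, hc]⟩
  have cj : ∀ {g : orth Q}, (∀ x, ¬fr.I (x * g * x⁻¹)) → ∀ y x, ¬fr.I (x * (y * g * y⁻¹) * x⁻¹) := fun h y x => by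
    simpa [mul_assoc] using h (x * y)
  have inj := Function.LeftInverse.injective fr.xE
  obtain ⟨z, z0, hz⟩ := exists_singular (LinearMap.BilinMap.toQuadraticMap ((polarBilin Q).compl₁₂ fr.E (g.1.toLinearMap ∘ₗ fr.E)))
    (by simpa using h3)
  obtain ⟨x, a, b, e1, e2⟩ := fr.witt₂ hQ (by omega) (fr.qE z) ((orth_Q g _).trans (fr.qE z)) hz
  obtain ⟨c, hc⟩ := k _ (cj H x) a (by rintro rfl; exact z0 (inj (by simpa using e1))) b (by
    rw [← e1, orth_mul_apply, orth_inv_apply', orth_mul_apply, e2])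
  obtain ⟨v, hv⟩ := hg c
  refine hv (x.1.injective ?_)
  have := le_of_singular_mem (W := ⊤) ((CForm.nondegOn_top _).2 hQ) trivial (mt (inj.eq_iff' (map_zero _)).1 z0) (fr.qE z)
    (LinearMap.ker ((x * g * x⁻¹).1.toLinearMap - c • 1)).toAddSubgroup (fun y _ hy => by
      obtain ⟨a, a0, a1, -⟩ := exists_perp h3 (dotProductBilin F F (fr.cy y)) 0
      obtain ⟨x', a', b', e1, e2⟩ := fr.witt₂ hQ (by omega) (fr.qE a) hy (by simpa [dotProduct_comm a] using a1)
      have a2 : a' ≠ 0 := by rintro rfl; exact a0 (inj (by simpa using e1))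
      have e3 : (x' * (x * g * x⁻¹) * x'⁻¹).1 (fr.E a') = fr.E (c • a') := by
        rw [map_smul, ← e1, orth_mul_apply, orth_inv_apply', orth_mul_apply, hc, map_smul]
      obtain ⟨c', hc'⟩ := k _ (cj (cj H x) x') a' a2 _ e3
      obtain rfl : c = c' := smul_left_injective F a2 (inj (by simpa using e3.symm.trans (hc' a')))
      have := hc' b'
      rw [← e2, orth_mul_apply, orth_inv_apply', orth_mul_apply, ← map_smul] at this
      exact sub_eq_zero.2 (x'.1.injective this)) (x.1 v) trivial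
  simpa [orth_mul_apply, orth_inv_apply', sub_eq_zero] using this

variable (hne : NotExc F V) (h2 : (2 : F) ≠ 0) {g : orth Q} (hg : ∀ v, g.1 v = -v)
include hne h2 hg

omit fr in
theorem neg_com {m : Type} [Fintype m] [DecidableEq m] [Nontrivial m] (fr : Fr Q (m ⊕ m)) {J r : orth Q} (h0 : J ∈ fr.O)
    (h1 : r ∈ fr.O) (h3 : ∀ w ∈ fr.W, r.1 (J.1 w) = -J.1 (r.1 w)) (h4 : dickson Q J = 1) : Com Q g := by
  obtain ⟨i, j, hij⟩ := exists_pair_ne m
  obtain ⟨t, t0, ht⟩ := exists_qsign_eq_spinor hQ hne J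
  let S : GL (m ⊕ m) F := ⟨fromBlocks 0 1 1 0, fromBlocks 0 1 1 0, by simp [fromBlocks_multiply], by simp [fromBlocks_multiply]⟩
  let h : GL (m ⊕ m) F := ⟨fromBlocks 1 0 0 (-1), fromBlocks 1 0 0 (-1), by simp [fromBlocks_multiply], by simp [fromBlocks_multiply]⟩
  have e1 : 1 + (Pi.single (.inl i) (t * S.1.det - 1) : m ⊕ m → F) ⬝ᵥ Pi.single (.inl i) 1 = t * S.1.det := by simp
  let D := rk _ _ (e1.trans_ne (mul_ne_zero t0 S.det_ne_zero)) * S
  have e2 : h * D = -(D * h) := Units.ext (matrix_ext_mulVec fun x => by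
    simp only [D, Units.val_mul, Units.val_neg, neg_mulVec, ← mulVec_mulVec, rk_mulVec]
    ext (k | k) <;> simp [S, h, fromBlocks_mulVec, neg_mulVec, Pi.single_apply] <;> split_ifs <;> ring)
  let a : m ⊕ m → F := Pi.single (.inl j) 1 + Pi.single (.inr j) 1
  have e3 : D.1 *ᵥ a = a := by
    simp only [D, Units.val_mul, ← mulVec_mulVec, rk_mulVec]
    ext (k | k) <;> simp [S, a, fromBlocks_mulVec, Pi.single_apply, hij]
  have e4 : (dual D).1 *ᵥ a = a := by
    simp only [D, map_mul, Units.val_mul, ← mulVec_mulVec, rk_dual, coe_dual S]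
    ext (k | k) <;> simp [S, a, fromBlocks_mulVec, Pi.single_apply, hij, fromBlocks_transpose, -coe_units_inv]
  have hef : polar Q (fr.E a) (fr.Φ ((2 : F)⁻¹ • a)) = 1 := by simp [a, ← two_mul, h2]
  have m1 : ∀ c : F, refl Q (fr.E a + c • fr.Φ ((2 : F)⁻¹ • a)) ∈ Subgroup.centralizer {fr.lev D * J} := fun c =>
    Subgroup.mem_centralizer_singleton_iff.2 (by
      rw [mul_inv_eq_iff_eq_mul.1 (refl_conj (fr.lev D * J) _)]; simp [orth_mul_apply, h0.1, h0.2, e3, e4, mulVec_smul])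
  obtain ⟨s, hs, hb⟩ := exists_mem_commutator_of hQ hne _ (fr.lev h * r) (.inr ⟨_, m1 1, dickson_refl hQ hne
    ((Q_hyp' (fr.qE _) (fr.qΦ _) hef 1).trans_ne one_ne_zero)⟩) fun c hc => ⟨_, mul_mem (m1 1) (m1 c),
      dickson_spinor_hyp hQ hne (fr.qE _) (fr.qΦ _) hef hc⟩
  refine ⟨_, hb, fr.lev D * J, (mem_commutator_iff hQ hne _).2 ⟨by simp [h4, fr.ds_lev hQ hne D], ?_⟩, ?_⟩
  · rw [map_mul, (fr.ds_lev hQ hne D).2, Units.val_mul, det_mul, rk_det, e1, mul_assoc, qsign_mul t0 (mul_ne_zero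
      S.det_ne_zero S.det_ne_zero), qsign_mul_self, mul_one, ht, Int.units_mul_self]
  · rw [mul_assoc _ s, Subgroup.mem_centralizer_singleton_iff.1 hs, eq_mul_inv_iff_mul_eq, eq_mul_inv_iff_mul_eq,
      ← mul_assoc, ← mul_assoc _ _ s, mul_left_inj, (fr.lev_comm D h1).symm.mul_mul_mul_comm, ← map_mul, e2, mul_assoc,
      (fr.lev_comm h h0).symm.mul_mul_mul_comm, ← map_mul]
    refine fr.hom_ext (fun x => ?_) (fun w hw => ?_) fun x => ?_
    · simp [orth_mul_apply, h0.1, h1.1, hg, neg_mulVec]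
    · simp [orth_mul_apply, hg, h3 w hw, fr.lev_W _ (fr.O_W h0 (fr.O_W h1 hw))]
    · simp [orth_mul_apply, h0.2, h1.2, hg, neg_mulVec, coe_dual, -coe_units_inv]

theorem neg_two (h : finrank F fr.W = 2) (h1 : g ∈ commutator (orth Q)) : ∃ a ∈ fr.W, ∃ b ∈ fr.W, Q a ≠ 0 ∧ Q b ≠ 0 ∧
    polar Q a b = 0 ∧ Submodule.span F {a, b} = fr.W ∧ IsSquare ((-1) ^ Fintype.card n * (Q a * Q b)) := by
  have nd : (CForm.ofQuad Q).NondegOn fr.W := fun w hw => fr.eq_zero hQ hw
  obtain ⟨a, ha, a0⟩ := exists_nonsingular nd (by rintro e; rw [e] at h; simp at h)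
  obtain ⟨b, hb, b0, e⟩ := exists_orth_nonsingular hQ h2 nd h.ge ha a0
  have s : Submodule.span F {a, b} = fr.W := Submodule.eq_of_le_of_finrank_eq (Submodule.span_le.2 (Set.pair_subset ha hb)) (by
    rw [h, finrank_span_pair_of_not_mem (by rintro rfl; simp at a0) fun e' => by
      obtain ⟨c, rfl⟩ := Submodule.mem_span_singleton.1 e'
      simp [polar_self', h2, a0, Q_smul] at e b0
      exact b0 e])
  have e1 : g = fr.lev (-1) * (refl Q a * refl Q b) := fr.hom_ext
    (fun x => by simp [orth_mul_apply, hg, (fr.refl_mem ha).1, (fr.refl_mem hb).1, neg_mulVec]) (fun w hw => by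
      rw [orth_mul_apply, fr.lev_W _ (fr.O_W (mul_mem (fr.refl_mem ha) (fr.refl_mem hb)) hw)]
      obtain ⟨c, d, rfl⟩ := Submodule.mem_span_pair.1 (s.ge hw)
      simp [orth_mul_apply, hg, refl_apply_self a0, refl_apply_self b0, refl_apply_of_orth e,
        refl_apply_of_orth ((polar_comm ..).trans e), add_comm])
    fun x => by simp [orth_mul_apply, hg, (fr.refl_mem ha).2, (fr.refl_mem hb).2, neg_mulVec, coe_dual]
  have := ((mem_commutator_iff hQ hne _).1 h1).2
  rw [e1, map_mul, map_mul, (fr.ds_lev hQ hne _).2, spinor_refl hQ hne a0, spinor_refl hQ hne b0, ← qsign_mul a0 b0,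
    ← qsign_mul (GeneralLinearGroup.det_ne_zero _) (mul_ne_zero a0 b0), qsign_eq_one] at this
  exact ⟨a, ha, b, hb, a0, b0, e, s, by simpa [det_neg] using this⟩

theorem com_neg (an : ∀ w ∈ fr.W, Q w = 0 → w = 0) (h3 : 3 ≤ Fintype.card n) (h4 : fr.W = ⊥ → 4 ≤ Fintype.card n)
    (h1 : g ∈ commutator (orth Q)) : Com Q g := by
  have r := fr.rank_eq
  have d2 : finrank F fr.W ≤ 2 := by
    by_contra! H
    obtain ⟨w, h1, h2, h3⟩ := exists_singular_mem Q H
    exact h2 (an w h1 h3)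
  have ev : Even (finrank F V) := by
    have := dickson_eq_det hQ hne g
    rw [((mem_commutator_iff hQ hne _).1 h1).1, show (g.1 : V →ₗ[F] V) = (-1 : F) • LinearMap.id by ext; simp [hg],
      LinearMap.det_smul] at this
    by_contra ho
    rw [(Nat.not_even_iff_odd.1 ho).neg_one_pow] at this
    exact h2 (by simp at this; linear_combination this)
  have od : finrank F fr.W = 2 → Even (Fintype.card n) := fun h => by
    obtain ⟨a, ha, b, hb, a0, b0, e, -, s, hs⟩ := fr.neg_two hQ hne h2 hg h h1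
    by_contra ho
    rw [(Nat.not_even_iff_odd.1 ho).neg_one_pow] at hs
    have := congrArg (polar Q b) (an _ (add_mem (fr.W.smul_mem s ha) (fr.W.smul_mem (Q a) hb)) (by
      simp [Q_add, Q_smul, e]; linear_combination -Q a * hs))
    simp [(polar_comm ..).trans e, polar_self', *] at this
  obtain ⟨j, hj⟩ : ∃ j, j = Fintype.card n / 2 := ⟨_, rfl⟩
  obtain ⟨ι⟩ := Function.Embedding.nonempty_of_card_le (α := Fin j ⊕ Fin j) (β := n) (by simp; omega)
  have r' := (fr.sub ι).rank_eq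
  simp only [Fintype.card_sum, Fintype.card_fin] at r'
  have : 2 ≤ j ∧ (finrank F (fr.sub ι).W = 0 ∨ finrank F (fr.sub ι).W = 2) := by
    rw [← Submodule.finrank_eq_zero] at h4
    simp only [Nat.even_iff] at ev od
    omega
  haveI i := Fin.nontrivial_iff_two_le.2 this.1
  rcases this.2 with h | h
  · exact neg_com hQ hne h2 hg (fr.sub ι) (one_mem _) (one_mem _) (fun w hw => by
      simp [(Submodule.eq_bot_iff _).1 (Submodule.finrank_eq_zero.1 h) w hw]) (map_one _)
  obtain ⟨a, ha, b, hb, a0, b0, e, s, t, ht⟩ := (fr.sub ι).neg_two hQ hne h2 hg h h1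
  simp only [Fintype.card_sum, ← two_mul, pow_mul, neg_one_sq, one_pow, one_mul] at ht
  have t0 : t / Q b ≠ 0 := div_ne_zero (left_ne_zero_of_mul (ht ▸ mul_ne_zero a0 b0)) b0
  have q : Q a = Q ((t / Q b) • b) := by rw [Q_smul]; field_simp; linear_combination ht
  have hb' := (fr.sub ι).W.smul_mem (t / Q b) hb
  have e' : polar Q ((t / Q b) • b) a = 0 := by simp [polar_comm Q b, e]
  rw [Submodule.span_insert, ← Submodule.span_singleton_smul_eq t0.isUnit b, ← Submodule.span_insert] at s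
  generalize (t / Q b) • b = c at *
  have q1 : Q (a - c) ≠ 0 := by simpa [Q_sub, ← q, polar_comm Q a, e', ← two_mul, h2]
  have k1 := refl_sub_apply q q1
  have k2 : (refl Q (a - c)).1 c = a := by rw [← k1, ← orth_mul_apply, k1, refl_mul_self, orth_one_apply]
  refine neg_com hQ hne h2 hg (fr.sub ι) (mul_mem ((fr.sub ι).refl_mem (sub_mem ha hb')) ((fr.sub ι).refl_mem hb'))
    ((fr.sub ι).refl_mem hb') (fun w hw => ?_) (by simp [dickson_refl hQ hne q1, dickson_refl hQ hne (q ▸ a0)])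
  obtain ⟨x, y, rfl⟩ := Submodule.mem_span_pair.1 (s.ge hw)
  simp [orth_mul_apply, k1, k2, refl_apply_self (q ▸ a0), refl_apply_of_orth e', add_comm]

end Fr

end H23.OO
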