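import Cfsg.Agent.H23.Cyc
import Cfsg.Agent.H4.Dihedral
import Cfsg.Agent.H3.Critical
import Cfsg.Agent.H24.ClassSize

/-!
# `p`-by-cyclic subgroups
-/

open Subgroup H24
open scoped Pointwise commutatorElement

namespace H23

variable {G : Type*} [Group G] [Finite G] {p : ℕ} [hp : Fact p.Prime]

theorem pbc_sup {T : Subgroup G} (hT : IsPGroup p T) {x : G} (hx : x ∈ normalizer (T : Set G)) :
    (∀ S : Sylow p (zpowers x ⊔ T : Subgroup G), (S : Subgroup (zpowers x ⊔ T : Subgroup G)).Normal) ∧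
    ∀ (S : Sylow p (zpowers x ⊔ T : Subgroup G))
      [(S : Subgroup (zpowers x ⊔ T : Subgroup G)).Normal],
      IsCyclic ((zpowers x ⊔ T : Subgroup G) ⧸ (S : Subgroup (zpowers x ⊔ T : Subgroup G))) := by
  set H := zpowers x ⊔ T
  haveI : (T.subgroupOf H).Normal := (normal_subgroupOf_iff_le_normalizer le_sup_right).2
    (sup_le (zpowers_le.2 hx) le_normalizer)
  have hle : ∀ S : Sylow p H, T.subgroupOf H ≤ S := fun S =>
    IsPGroup.le_sylow_of_normal (N := T.subgroupOf H) hT.comap_subtype S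
  have hcyc : ∀ (N : Subgroup H) [N.Normal], T.subgroupOf H ≤ N → IsCyclic (H ⧸ N) := by
    intro N _ hN
    refine ⟨⟨((⟨x, mem_sup_left (mem_zpowers x)⟩ : H) : H ⧸ N), fun q => ?_⟩⟩
    obtain ⟨⟨g, hg⟩, rfl⟩ := QuotientGroup.mk_surjective q
    obtain ⟨_, ⟨i, rfl⟩, t, ht, rfl⟩ := (H1.mem_sup_of_le_normalizer (zpowers_le.2 hx)).1 hg
    refine ⟨i, ?_⟩
    simp only
    rw [← QuotientGroup.mk_zpow, QuotientGroup.eq]
    refine hN ?_
    rw [mem_subgroupOf]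
    simpa using ht
  refine ⟨fun S => Normal.of_commutator_le _ (le_trans ?_ (hle S)), fun S _ => hcyc _ (hle S)⟩
  haveI := hcyc _ le_rfl
  rw [_root_.commutator_def, commutator_le]
  intro a _ b _
  rw [← QuotientGroup.eq_one_iff, ← QuotientGroup.mk'_apply, map_commutatorElement,
    commutatorElement_eq_one_iff_mul_comm]
  exact IsCyclic.isMulCommutative.is_comm.comm _ _

theorem pbc_decomp {H : Subgroup G} (h1 : ∀ S : Sylow p H, (S : Subgroup H).Normal)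
    (h2 : ∀ (S : Sylow p H) [(S : Subgroup H).Normal], IsCyclic (H ⧸ (S : Subgroup H))) :
    ∃ (T : Subgroup G) (x : G), IsPGroup p T ∧ x ∈ normalizer (T : Set G) ∧ ¬ p ∣ orderOf x ∧
      zpowers x ⊔ T = H := by
  obtain ⟨S⟩ := (inferInstance : Nonempty (Sylow p H))
  haveI := h1 S
  obtain ⟨q, hq⟩ := (h2 S).exists_generator
  obtain ⟨g, rfl⟩ := QuotientGroup.mk_surjective q
  obtain ⟨a, b, -, -, rfl, -, ⟨k, hk⟩, hb⟩ := H24.exists_pPart hp.out g
  have ha : a ∈ (S : Subgroup H) := by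
    obtain ⟨R, hR⟩ := exists_sylow_mem hk
    haveI := Sylow.unique_of_normal S (h1 S)
    exact Subsingleton.elim R S ▸ hR
  rw [QuotientGroup.mk_mul, (QuotientGroup.eq_one_iff a).2 ha, one_mul] at hq
  refine ⟨(S : Subgroup H).map H.subtype, b, S.isPGroup'.map _,
    le_normalizer_map H.subtype ⟨b, le_normalizer_of_normal (mem_top b), rfl⟩,
    by rwa [orderOf_coe], le_antisymm (sup_le (zpowers_le.2 b.2) (map_subtype_le _)) fun y hy => ?_⟩
  obtain ⟨i, hi⟩ := mem_zpowers_iff.1 (hq (⟨y, hy⟩ : H))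
  rw [← QuotientGroup.mk_zpow, QuotientGroup.eq] at hi
  rw [show y = (b : G) ^ i * (((b : G) ^ i)⁻¹ * y) by group]
  exact mul_mem_sup (zpow_mem (mem_zpowers _) i) ⟨_, hi, by simp⟩

theorem isCyclic_sup_of_cent {T : Subgroup G} (hT : IsPGroup p T) (hc : IsCyclic T) {x : G}
    (hx : x ∈ centralizer (T : Set G)) (ho : ¬ p ∣ orderOf x) :
    IsCyclic (zpowers x ⊔ T : Subgroup G) := by
  obtain ⟨a, rfl⟩ := exists_zpowers_eq hc
  have h1 : Commute x a := (mem_centralizer_iff.1 hx a (mem_zpowers a)).symm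
  obtain ⟨k, hk⟩ := orderOf_eq_pow_of_mem hT (mem_zpowers a)
  have h2 : (orderOf x).Coprime (orderOf a) :=
    hk ▸ ((hp.out.coprime_iff_not_dvd.2 ho).symm).pow_right k
  rw [show zpowers x ⊔ zpowers a = zpowers (x * a) from le_antisymm
    (sup_le (zpowers_le.2 (mem_zpowers_mul_left h1 h2)) (zpowers_le.2 (mem_zpowers_mul_right h1 h2)))
    (zpowers_le.2 (mul_mem_sup (mem_zpowers x) (mem_zpowers a)))]
  infer_instance

omit hp in
theorem dih_cases {H : Subgroup G} {n : ℕ} (e : H ≃* DihedralGroup n) : ∃ a b : G,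
    orderOf a = n ∧ b ^ 2 = 1 ∧ b * a * b⁻¹ = a⁻¹ ∧ b ∉ zpowers a ∧ zpowers a ⊔ zpowers b = H ∧
      ∀ g ∈ H, g ∉ zpowers a → g ^ 2 = 1 ∧ ∀ c ∈ zpowers a, g * c * g⁻¹ = c⁻¹ := by
  obtain ⟨a, b, h1, h2, h3, h4, h5⟩ := H4.exists_gens_of_dihedral e
  have h2' : (b : G) ^ 2 = 1 := congrArg Subtype.val h2
  have h3' : (b : G) * a * (b : G)⁻¹ = (a : G)⁻¹ := congrArg Subtype.val h3
  have h6 : zpowers (a : G) ⊔ zpowers (b : G) = H := by
    have := congrArg (map H.subtype) h5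
    rwa [Subgroup.map_sup, MonoidHom.map_zpowers, MonoidHom.map_zpowers, ← MonoidHom.range_eq_map,
      range_subtype] at this
  refine ⟨a, b, by rw [orderOf_coe, h1], h2', h3', fun ⟨i, hi⟩ => h4 ⟨i, Subtype.ext hi⟩, h6,
    fun g hg hg' => ?_⟩
  have h7 : ∀ i : ℤ, (b : G) * a ^ i * (b : G)⁻¹ = ((a : G) ^ i)⁻¹ := fun i => by
    rw [← conj_zpow, h3', inv_zpow]
  rcases H4.mem_sup_cases (k := -1) (h3'.trans (zpow_neg_one _).symm) (h2' ▸ one_mem _)
    (h6.ge hg) with ⟨j, rfl⟩ | ⟨j, rfl⟩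
  · exact absurd (zpow_mem (mem_zpowers _) j) hg'
  · refine ⟨?_, ?_⟩
    · calc ((a : G) ^ j * b) ^ 2 = a ^ j * (b * a ^ j * (b : G)⁻¹) * b ^ 2 := by
            simp only [sq]; group
        _ = 1 := by rw [h7, h2']; group
    · rintro _ ⟨i, rfl⟩
      calc (a : G) ^ j * b * a ^ i * ((a : G) ^ j * b)⁻¹
          = (a : G) ^ j * (b * a ^ i * (b : G)⁻¹) * ((a : G) ^ j)⁻¹ := by group
        _ = _ := by rw [h7]; group

theorem exists_conj_le {T : Subgroup G} (hT : IsPGroup p T) (P : Sylow p G) :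
    ∃ g : G, MulAut.conj g • T ≤ P := by
  obtain ⟨R, hR⟩ := hT.exists_le_sylow
  obtain ⟨g, rfl⟩ := MulAction.exists_smul_eq G R P
  exact ⟨g, pointwise_smul_le_pointwise_smul_iff.2 hR⟩

end H23
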