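import Cfsg.Agent.H1.Wielandt
import Cfsg.Agent.H2.Coprime

set_option autoImplicit false

namespace H23
open Subgroup Cfsg
open scoped Pointwise

variable {G : Type*} [Group G]

/-- The join of all subnormal subgroups inside a proper subgroup `M` is normalized by a
subgroup strictly bigger than `M`. -/
theorem exists_subnormal_max [Finite G] {M : Subgroup G} (hM : M ≠ ⊤) :
    ∃ K : Subgroup G, K ≤ M ∧ M < normalizer (K : Set G) ∧
      ∀ L : Subgroup G, L.IsSubnormal → L ≤ M → L ≤ K := by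
  set K : Subgroup G := sSup {L : Subgroup G | L.IsSubnormal ∧ L ≤ M} with hK
  have hKM : K ≤ M := sSup_le fun L hL => hL.2
  have hmax : ∀ L : Subgroup G, L.IsSubnormal → L ≤ M → L ≤ K := fun L h1 h2 => le_sSup ⟨h1, h2⟩
  have hsub : K.IsSubnormal := H1.isSubnormal_sSup fun A hA => hA.1
  have hn : M ≤ normalizer (K : Set G) := by
    refine H1.le_normalizer_sSup_of_conj_mem fun g hg L hL => hmax _ (H1.isSubnormal_conj hL.1 g) ?_
    exact H1.conj_smul_le_of_le_of_mem hL.2 (le_normalizer hg)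
  refine ⟨K, hKM, lt_of_le_of_ne hn fun h => ?_, hmax⟩
  have hne : K ≠ ⊤ := fun h' => hM (top_le_iff.1 (h' ▸ hKM))
  obtain ⟨N, h1, h2, h3⟩ := (H1.SubnIn.top_iff.2 hsub).exists_gt_normalizer hne
  exact h1.not_ge (hmax N (H1.SubnIn.top_iff.1 h2) (h ▸ h3))

theorem eq_bot_of_primitive [Finite G] {M : Subgroup G} (hM : M ≠ ⊤)
    (hprim : ∀ N : Subgroup G, N ≤ M → M ≤ normalizer (N : Set G) → N ≠ ⊥ →
      normalizer (N : Set G) = M) {L : Subgroup G} (hL : L.IsSubnormal) (hLM : L ≤ M) : L = ⊥ := by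
  obtain ⟨K, h1, h2, h3⟩ := exists_subnormal_max hM
  by_contra hne
  have : K ≠ ⊥ := fun h => hne (le_bot_iff.1 (h ▸ h3 L hL hLM))
  exact h2.ne' (hprim K h1 h2.le this)

end H23
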