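/-
Rank 3 actions of `PSL_n(q)`: the doubly transitive case, first part.
-/
import Cfsg.Agent.H13.R3_2
import Cfsg.Agent.H20.CK.L
import Cfsg.Agent.H24.Zsig

set_option autoImplicit false
set_option linter.unusedSectionVars false

open Module MulAction H13.R3

namespace H23.R3

universe u

variable {F : Type u} [Field F] [Fintype F] {V : Type u} [AddCommGroup V] [Module F V] [Finite V]
  {G : Type u} [Group G] [Finite G] [DistribMulAction G V] [SMulCommClass G F V] {H : Subgroup G}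
  {P W : Submodule F V} {a b c a' b' u u' x y z x' y' z' w : V}

theorem two2 (hy : Hy F V H) (t : Two F V H) (q : Fintype.card F = 2) : False := by
  have e1 : ∀ c : F, c ≠ 0 → c = 1 := fun c hc => by
    simpa [q] using FiniteField.pow_card_sub_one_eq_one c hc
  have e2 : ∀ v : V, v + v = 0 := fun v => by
    rw [← two_smul F, show (2 : F) = 0 from by simpa [q] using FiniteField.cast_card_eq_zero F, zero_smul]
  have e3 : ∀ u v : V, u ≠ 0 → v ≠ 0 → v ≠ u → Ind F u v := fun u v h1 h2 h3 => ⟨h1, fun e => by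
    obtain ⟨c, rfl⟩ := Submodule.mem_span_singleton.1 e
    exact h3 (by rw [e1 c fun k => h2 (by rw [k, zero_smul]), one_smul])⟩
  rcases H20.CK.thmT _ H V rfl e2 (fun g h => Subtype.ext (hy.fa g h)) (fun u v u' v' h1 h2 h3 h4 h5 h6 => by
    obtain ⟨j, hj, k1, c, k2⟩ := t u v u' v' (e3 u v h1 h2 h3) (e3 u' v' h4 h5 h6)
    exact ⟨⟨j, hj⟩, k1, by rwa [e1 c fun k => h2 (gsz.1 (by rw [k2, k, zero_smul])), one_smul] at k2⟩) with h | h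
  · obtain ⟨s, -, hs⟩ := hy.nt
    obtain ⟨g, hg⟩ := h (lin F V s).toAddEquiv
    exact hs (by rw [← inv_mul_eq_one.1 (hy.fa (g.1⁻¹ * s) fun v => by rw [mul_smul, inv_smul_eq_iff]; exact (hg v).symm)]; exact g.2)
  · have := Nat.pow_le_pow_right two_pos hy.n5
    rw [card_V F V, q] at h
    omega

variable (F V) in
/-- all transvections are induced on every plane -/
def MM (H : Subgroup G) : Prop :=
  ∀ x y z w : V, Ind3 F x y z → w ∈ ln F x y → ∃ h ∈ H, h • x = x ∧ h • y = y ∧ h • z = z + w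

theorem pl_eq3 (d : finrank F P = 3) (h : Ind3 F x y z) (h1 : x ∈ P) (h2 : y ∈ P) (h3 : z ∈ P) : pl F x y z = P :=
  Submodule.eq_of_le_of_finrank_eq (pl_le.2 ⟨h1, h2, h3⟩) (h.finrank.trans d.symm)
theorem ex_ln (d : finrank F W = 2) : ∃ x y, Ind F x y ∧ W = ln F x y := by
  obtain ⟨x, h1, h2⟩ := ex_ne0 (A := W) (by omega)
  obtain ⟨y, h3, h4⟩ := ex_notMem (A := F ∙ x) (B := W) (by rw [finrank_span_singleton h2]; omega)
  exact ⟨x, y, ⟨h2, h4⟩, (Submodule.eq_of_le_of_finrank_eq (ln_le.2 ⟨h1, h3⟩) ((Ind.finrank ⟨h2, h4⟩).trans d.symm)).symm⟩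
theorem ex_ind3 (d : 3 ≤ finrank F P) : ∃ x y z, Ind3 F x y z ∧ x ∈ P ∧ y ∈ P ∧ z ∈ P := by
  obtain ⟨x, h1, h2⟩ := ex_ne0 (A := P) (by omega)
  obtain ⟨y, h3, h4⟩ := ex_notMem (A := F ∙ x) (B := P) (by rw [finrank_span_singleton h2]; omega)
  obtain ⟨z, h5, h6⟩ := ex_notMem (A := ln F x y) (B := P) (by rw [Ind.finrank ⟨h2, h4⟩]; omega)
  exact ⟨x, y, z, ⟨⟨h2, h4⟩, h6⟩, h1, h3, h5⟩
theorem swap3 (h : Ind3 F x y z) : Ind3 F x z y :=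
  have k : Ind F x z := ⟨h.1.1, fun e => h.2 (sp_le_ln e)⟩
  ⟨k, fun e => h.2 (ln_eq h.1 l_ln e ▸ r_ln)⟩

namespace MM
variable (m : MM F V H)
include m

theorem s1 (d : finrank F P = 3) (h : Ind3 F a u u') (h1 : a ∈ P) (h2 : u ∈ P) (h3 : u' ∈ P) :
    ∃ h ∈ H ⊓ St G P, h • a = a ∧ h • u = u' := by
  have i : Ind3 F a (u' - u) u := ⟨⟨h.1.1, fun e => h.2 (by simpa using add_mem (sp_le_ln e) (r_ln (x := a) (y := u)))⟩,
    fun e => h.2 (by rw [ln_eq h.1 l_ln e]; simpa using add_mem (r_ln (x := a) (y := u' - u)) e)⟩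
  obtain ⟨g, hg, e1, e2, e3⟩ := m _ _ _ _ i r_ln
  refine ⟨g, ⟨hg, ?_⟩, e1, by rw [e3, add_sub_cancel]⟩
  rw [← pl_eq3 d i h1 (sub_mem h3 h2) h2]
  exact mem_St_pl (e1.symm ▸ p1_pl) (e2.symm ▸ p2_pl) (e3.symm ▸ add_mem p3_pl p2_pl)

theorem s2 (d : finrank F P = 3) (h : Ind F a u) (h' : Ind F a u') (h1 : a ∈ P) (h2 : u ∈ P) (h3 : u' ∈ P) :
    ∃ h ∈ H ⊓ St G P, h • a = a ∧ h • u = u' := by
  by_cases e : u' ∈ ln F a u
  · obtain ⟨z, h4, h5⟩ := ex_notMem (A := ln F a u) (B := P) (by rw [h.finrank]; omega)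
    obtain ⟨g, hg, e1, rfl⟩ := m.s1 d ⟨h, h5⟩ h1 h2 h4
    obtain ⟨k, hk, e2, e3⟩ := m.s1 d (swap3 ⟨h', ln_eq h' l_ln e ▸ h5⟩) h1 h4 h3
    exact ⟨k * g, mul_mem hk hg, by rw [mul_smul, e1, e2], by rw [mul_smul, e3]⟩
  · exact m.s1 d ⟨h, e⟩ h1 h2 h3

theorem s3 (d : finrank F P = 3) (h : a ≠ 0) (h' : a' ≠ 0) (h1 : a ∈ P) (h2 : a' ∈ P) : ∃ h ∈ H ⊓ St G P, h • a = a' := by
  obtain ⟨c, h4, h5⟩ := ex_notMem (A := ln F a a') (B := P) (by have := finrank_ln_le (F := F) a a'; omega)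
  exact (m.s2 d (Ind.symm ⟨h, fun e => h5 (sp_le_ln e)⟩) (Ind.symm ⟨h', fun e => h5 (ln_comm (F := F) a a' ▸ sp_le_ln e)⟩) h4 h1 h2).imp
    fun _ k => ⟨k.1, k.2.2⟩

theorem s4 (d : finrank F P = 3) (h : Ind F a b) (h' : Ind F a' b') (h1 : a ∈ P) (h2 : b ∈ P) (h3 : a' ∈ P) (h4 : b' ∈ P) :
    ∃ h ∈ H ⊓ St G P, h • a = a' ∧ h • b = b' := by
  obtain ⟨g, hg, rfl⟩ := m.s3 d h.1 h'.1 h1 h3
  obtain ⟨k, hk, e2, e3⟩ := m.s2 d (h.smul g) h' h3 ((hg.2 b).2 h2) h4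
  exact ⟨k * g, mul_mem hk hg, by rw [mul_smul, e2], by rw [mul_smul, e3]⟩

theorem s5 (h : Ind3 F x y z) (h' : Ind3 F x' y' z') (e : PE F H (x, y, z) (x', y', z')) :
    ∃ h ∈ H, h • x = x' ∧ h • y = y' ∧ ∃ c : F, c ≠ 0 ∧ h • z = c • z' := by
  obtain ⟨j, hj, h1, h2, h3⟩ := e
  obtain ⟨k, hk, rfl, rfl⟩ := m.s4 h'.finrank (h.1.smul j) h'.1 h1 h2 p1_pl p2_pl
  obtain ⟨α, β, c, e⟩ := mem_pl.1 ((hk.2 _).2 h3)
  have i := (h.smul j).smul k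
  obtain ⟨g, hg, e1, e2, e3⟩ := m _ _ _ _ i (neg_mem (mem_ln.2 ⟨α, β, rfl⟩))
  exact ⟨g * (k * j), mul_mem hg (mul_mem hk.1 hj), by rw [mul_smul, mul_smul, e1], by rw [mul_smul, mul_smul, e2], c,
    fun c0 => i.2 (mem_ln.2 ⟨α, β, by simpa [c0] using e⟩), by rw [mul_smul, mul_smul, e3]; exact e ▸ by abel⟩

theorem s6 (sc : Sc F V H) (h : Ind3 F x y z) (h' : Ind3 F x y z') (e : PE F H (x, y, z) (x, y, z')) :
    ∃ h ∈ H ⊓ St G (ln F x y), h • z = z' := by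
  obtain ⟨g, hg, e1, e2, c, c0, e3⟩ := m.s5 h h' e
  obtain ⟨k, hk, e4⟩ := sc.mem_St (ln F x y) (inv_ne_zero c0)
  exact ⟨k * g, mul_mem hk ⟨hg, mem_St_ln (e1.symm ▸ l_ln) (e2.symm ▸ r_ln)⟩, by rw [mul_smul, e3, e4, inv_smul_smul₀ c0]⟩

/-- the conclusion needed by Perin's lemma -/
def _root_.H23.R3.Cm (H : Subgroup G) (W : Submodule F V) : Prop := ∃ a ∈ H, ∃ b ∈ H, a ∈ St G W ∧ b ∈ St G W ∧
  ∃ v ∈ W, ∃ f : Dual F V, v ≠ 0 ∧ f v = 0 ∧ (∃ w ∈ W, f w ≠ 0) ∧ ∀ u ∈ W, (a * b * a⁻¹ * b⁻¹) • u = u + f u • v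

theorem cm2 (q : Fintype.card F ≠ 2) (n : 3 ≤ finrank F V) (d : finrank F W = 2) : Cm H W := by
  obtain ⟨x, y, h, rfl⟩ := ex_ln d
  obtain ⟨z, hz⟩ := ex_notMem' (A := ln F x y) (by omega)
  obtain ⟨c, c0, c1⟩ : ∃ c : F, c ≠ 0 ∧ c ≠ 1 := by
    classical
    by_contra k
    have := Finset.card_le_card (s := (Finset.univ : Finset F)) (t := {0, 1}) fun c _ => by
      simpa [imp_iff_not_or] using not_exists.1 k c
    have h1 := q2 F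
    have h2 := Finset.card_le_two (a := (0 : F)) (b := 1)
    rw [Finset.card_univ] at this
    omega
  have i : Ind3 F x y z := ⟨h, hz⟩
  obtain ⟨a, ha, a1, -, a2⟩ := m x z y x (swap3 i) l_ln
  obtain ⟨b, hb, b1, b2⟩ := m.s2 i.finrank h (by simpa using h.sml one_ne_zero c0) p1_pl p2_pl (Submodule.smul_mem _ c p2_pl)
  obtain ⟨f, f1, f2⟩ := ex_dual h.2
  have f3 := f2 x (Submodule.mem_span_singleton_self x)
  refine ⟨a, ha, b, hb.1, mem_St_ln (a1.symm ▸ l_ln) (a2.symm ▸ add_mem r_ln l_ln),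
    mem_St_ln (b1.symm ▸ l_ln) (b2.symm ▸ Submodule.smul_mem _ c r_ln), x, l_ln, (1 - c⁻¹) • f, h.1, by simp [f3],
    ⟨y, r_ln, by simpa [f1, sub_eq_zero] using c1⟩, fun u hu => ?_⟩
  obtain ⟨s, t, rfl⟩ := mem_ln.1 hu
  have a3 : a⁻¹ • x = x := inv_smul_eq_iff.2 a1.symm
  have a4 : a⁻¹ • y = y - x := inv_smul_eq_iff.2 (by simp [smul_sub, a1, a2])
  have b3 : b⁻¹ • x = x := inv_smul_eq_iff.2 b1.symm
  have b4 : b⁻¹ • y = c⁻¹ • y := inv_smul_eq_iff.2 (by rw [gsc, b2, inv_smul_smul₀ c0])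
  simp only [mul_smul, smul_add, smul_sub, gsc, a1, a2, a3, a4, b1, b2, b3, b4, inv_smul_smul₀ c0, map_add, map_smul,
    LinearMap.smul_apply, f1, f3]
  module

theorem cm3 (d : finrank F W = 3) : Cm H W := by
  obtain ⟨x, y, z, i, h1, h2, h3⟩ := ex_ind3 d.ge
  obtain rfl := pl_eq3 d i h1 h2 h3
  obtain ⟨a, ha, a1, a2, a3⟩ := m x z y x (swap3 i) l_ln
  obtain ⟨b, hb, b1, b2, b3⟩ := m x y z y i r_ln
  obtain ⟨f, f1, f2⟩ := ex_dual i.2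
  refine ⟨a, ha, b, hb, mem_St_pl (a1.symm ▸ h1) (a3.symm ▸ add_mem h2 h1) (a2.symm ▸ h3),
    mem_St_pl (b1.symm ▸ h1) (b2.symm ▸ h2) (b3.symm ▸ add_mem h3 h2), x, h1, f, i.1.1, f2 x l_ln,
    ⟨z, h3, f1 ▸ one_ne_zero⟩, fun u hu => ?_⟩
  obtain ⟨r, s, t, rfl⟩ := mem_pl.1 hu
  have a4 : a⁻¹ • x = x := inv_smul_eq_iff.2 a1.symm
  have a5 : a⁻¹ • y = y - x := inv_smul_eq_iff.2 (by simp [smul_sub, a1, a3])
  have a6 : a⁻¹ • z = z := inv_smul_eq_iff.2 a2.symm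
  have b4 : b⁻¹ • x = x := inv_smul_eq_iff.2 b1.symm
  have b5 : b⁻¹ • y = y := inv_smul_eq_iff.2 b2.symm
  have b6 : b⁻¹ • z = z - y := inv_smul_eq_iff.2 (by simp [smul_sub, b2, b3])
  simp only [mul_smul, smul_add, smul_sub, gsc, a1, a2, a3, a4, a5, a6, b1, b2, b3, b4, b5, b6, map_add, map_smul,
    f1, f2 x l_ln, f2 y r_ln]
  module
end MM

theorem fin (pl : PL.{u}) (hy : Hy F V H) (nt : NoTv F V H) (q : Fintype.card F ≠ 2) {e k : ℕ} (h3 : 3 ≤ e)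
    (h : finrank F V < 2 * e) (hd : Fintype.card F ^ (k + e) - Fintype.card F ^ k ∣ Nat.card H)
    (hW : ∀ W : Submodule F V, finrank F W + e = finrank F V → Cm H W) : False := by
  obtain ⟨r, hr, h1, h2⟩ := H24.zsigmondy (q2 F) (show 1 < e by omega) (fun k => q k.1) (fun k => by omega)
  refine pl F V G H r e hy.fa hr h1 h2 (by omega) h (h1.trans (Dvd.dvd.trans ⟨Fintype.card F ^ k, ?_⟩ hd)) hW nt
  rw [Nat.sub_mul, one_mul, pow_add, mul_comm]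

end H23.R3
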