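/-
Rank 3 actions of `PSL_n(q)`: the doubly transitive case, second part.
-/
import Cfsg.Agent.H23.R31

set_option autoImplicit false
set_option linter.unusedSectionVars false

open Module MulAction H13.R3

namespace H23.R3

universe u

variable {F : Type u} [Field F] [Fintype F] {V : Type u} [AddCommGroup V] [Module F V] [Finite V]
  {G : Type u} [Group G] [Finite G] [DistribMulAction G V] [SMulCommClass G F V] {H : Subgroup G}
  {P U W : Submodule F V} {a b c a' b' u u' x y z x' y' z' w : V} {h : G} {β : Prop} {p : V × V × V}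

/-- subspaces that can be moved into `P` -/
def Ty (H : Subgroup G) (P U : Submodule F V) : Prop := ∃ h ∈ H, ∀ u ∈ U, h • u ∈ P

theorem ty_pe : Ty H (pl F p.1 p.2.1 p.2.2) (pl F x y z) ↔ PE F H (x, y, z) p :=
  ⟨fun ⟨h, hh, k⟩ => ⟨h, hh, k _ p1_pl, k _ p2_pl, k _ p3_pl⟩, fun ⟨h, hh, k⟩ => ⟨h, hh, fun _ hu => pl_le.2 k (smul_mem_pl h hu)⟩⟩
theorem ty_of {U' : Submodule F V} (hh : h ∈ H) (e : ∀ u, h • u ∈ U' ↔ u ∈ U) : Ty H P U' ↔ Ty H P U :=
  ⟨fun ⟨k, hk, l⟩ => ⟨k * h, mul_mem hk hh, fun u hu => by rw [mul_smul]; exact l _ ((e u).2 hu)⟩,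
    fun ⟨k, hk, l⟩ => ⟨k * h⁻¹, mul_mem hk (inv_mem hh), fun u hu => by rw [mul_smul]; exact l _ ((e _).1 (by simpa using hu))⟩⟩
theorem ty_smul (hh : h ∈ H) : Ty H P (pl F (h • x) (h • y) (h • z)) ↔ Ty H P (pl F x y z) := ty_of hh fun _ => smul_mem_pl_iff

theorem same (l : Le2 (fun a : V × V × V => Ind3 F a.1 a.2.1 a.2.2) (PE F H)) (hp : Ind3 F p.1 p.2.1 p.2.2)
    (i : Ind3 F x y z) (i' : Ind3 F x' y' z')
    (e : Ty H (pl F p.1 p.2.1 p.2.2) (pl F x y z) ↔ Ty H (pl F p.1 p.2.1 p.2.2) (pl F x' y' z')) : PE F H (x, y, z) (x', y', z') := by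
  rw [ty_pe, ty_pe] at e
  by_cases k : PE F H (x, y, z) p
  · exact k.trans (PE.symm i' hp (e.1 k))
  · exact ((l p (x, y, z) (x', y', z') hp i i').resolve_left fun k' => k (k'.symm hp i)).resolve_left
      fun k' => k (e.2 (k'.symm hp i'))

theorem mk_ln : Submodule.Quotient.mk (p := F ∙ x) u ∈ ln F (Submodule.Quotient.mk (p := F ∙ x) y) (Submodule.Quotient.mk z) ↔
    u ∈ pl F x y z := by
  rw [mem_ln, mem_pl]
  refine ⟨fun ⟨s, t, e⟩ => ?_, fun ⟨r, s, t, e⟩ => ⟨s, t, ?_⟩⟩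
  · obtain ⟨r, k⟩ := Submodule.mem_span_singleton.1 ((Submodule.Quotient.eq _ (x := u) (y := s • y + t • z)).1 e.symm)
    exact ⟨r, s, t, by rw [k]; abel⟩
  · exact ((Submodule.Quotient.eq _ (x := u) (y := s • y + t • z)).2
      (Submodule.mem_span_singleton.2 ⟨r, by rw [← e]; abel⟩)).symm
theorem mk_sp : Submodule.Quotient.mk (p := F ∙ x) u ∈ F ∙ (Submodule.Quotient.mk (p := F ∙ x) y) ↔ u ∈ ln F x y := by
  have := mk_ln (F := F) (x := x) (u := u) (y := y) (z := y)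
  rwa [ln_eq_sup, sup_idem, pl_eq_sup, sup_eq_left.2 ((Submodule.span_singleton_le_iff_mem _ _).2 r_ln)] at this
theorem mk_ind (hx : x ≠ 0) : Ind F (Submodule.Quotient.mk (p := F ∙ x) y) (Submodule.Quotient.mk z) ↔ Ind3 F x y z := by
  simp only [Ind, Ind3, mk_sp, ne_eq, Submodule.Quotient.mk_eq_zero, hx, not_false_eq_true, true_and]

/-- the block through a line -/
def Mb (H : Subgroup G) (P : Submodule F V) (β : Prop) (x y z : V) : Prop := z ∈ ln F x y ∨ (Ty H P (pl F x y z) ↔ β)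

theorem mb_smul (hh : h ∈ H) : Mb H P β (h • x) (h • y) (h • z) ↔ Mb H P β x y z := by
  rw [Mb, Mb, smul_mem_ln_iff, ty_smul hh]
theorem mb_ln (e : ln F x y = ln F x' y') : Mb H P β x y z ↔ Mb H P β x' y' z := by rw [Mb, Mb, pl_eq_sup, pl_eq_sup, e]

/-- the structure found at a point -/
def Bl (H : Subgroup G) (P : Submodule F V) (β : Prop) (D : ℕ) (x : V) : Prop :=
  (∀ y, y ∉ F ∙ x → ∃ B : Submodule F V, finrank F B = D ∧ ∀ z, z ∈ B ↔ Mb H P β x y z) ∧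
    ((∀ y w, y ∉ F ∙ x → w ∉ F ∙ x → Mb H P β x y w → ∀ z, Mb H P β x w z ↔ Mb H P β x y z) ∧ (finrank F V = 6 → D ≠ 3) ∨
      D + 1 = finrank F V ∧ finrank F V ≠ 6)

theorem Bl.smul {D : ℕ} (k : Bl H P β D x) (hh : h ∈ H) : Bl H P β D (h • x) := by
  refine ⟨fun y hy => ?_, k.2.imp_left (And.imp_left fun k y w hy hw e z => ?_)⟩
  · obtain ⟨y, rfl⟩ := MulAction.surjective h y
    obtain ⟨B, d, e⟩ := k.1 y fun e => hy (smul_mem_sp h e)
    refine ⟨B.map (lin F V h).toLinearMap, (LinearEquiv.finrank_map_eq _ _).trans d, fun z => ?_⟩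
    obtain ⟨z, rfl⟩ := MulAction.surjective h z
    rw [mb_smul hh, ← e]
    exact ⟨fun ⟨u, hu, k⟩ => MulAction.injective h k ▸ hu, fun k => ⟨z, k, rfl⟩⟩
  · obtain ⟨y, rfl⟩ := MulAction.surjective h y
    obtain ⟨w, rfl⟩ := MulAction.surjective h w
    obtain ⟨z, rfl⟩ := MulAction.surjective h z
    simp only [mb_smul hh, smul_mem_sp_iff] at *
    exact k y w hy hw e z

theorem no_spread {R : V → Submodule F V} (n : finrank F V = 5) (d : ∀ v, v ≠ 0 → finrank F (R v) = 2) (s : ∀ v, v ≠ 0 → v ∈ R v)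
    (sp : Spr R) : False := by
  have : Finite (Submodule F V) := Finite.of_injective _ SetLike.coe_injective
  have := dcount (R '' {v | v ≠ 0}) {v | v ≠ 0} (fun B v => v ∈ B) (m := Fintype.card F ^ 2 - 1) (n := 1)
    (by rintro _ ⟨v, hv, rfl⟩; rw [← d v hv, ← ncard_ne0]; simp only [and_comm, Set.mem_ofPred_eq])
    fun v hv => Set.ncard_eq_one.2 ⟨R v, Set.ext fun B => ⟨fun ⟨⟨w, hw, e⟩, k⟩ => e ▸ (sp w v hw hv (e ▸ k)).symm,
      fun e => e ▸ ⟨⟨v, hv, rfl⟩, s v hv⟩⟩⟩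
  rw [ncard_ne0' (F := F), n, mul_one] at this
  have hq := q2 F
  clear d n
  generalize Fintype.card F = q at *
  generalize Set.ncard _ = m at this
  have h1 : 1 ≤ q ^ 2 := Nat.one_le_pow _ _ (by omega)
  have h2 : 1 ≤ q ^ 5 := Nat.one_le_pow _ _ (by omega)
  zify [h1, h2] at this
  have := Int.le_of_dvd (a := q ^ 2 - 1) (b := q - 1) (by omega) ⟨m - q ^ 3 - q, by linear_combination -this⟩
  nlinarith

theorem ex_bl (st : H13.R3.ST.{u}) (m : MM F V H) (sc : Sc F V H) (t : Two F V H) (n : 3 ≤ finrank F V)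
    (l : Le2 (fun a : V × V × V => Ind3 F a.1 a.2.1 a.2.2) (PE F H)) (hp : Ind3 F p.1 p.2.1 p.2.2)
    (i : Ind3 F x y z) (k : ¬ PE F H (x, y, z) p) :
    ∃ β D, 3 ≤ D ∧ D < finrank F V ∧ ∀ x, x ≠ 0 → Bl H (pl F p.1 p.2.1 p.2.2) β D x := by
  have pt := t.pt (by omega)
  set P := pl F p.1 p.2.1 p.2.2
  have dq : finrank F (V ⧸ F ∙ x) + 1 = finrank F V := by
    rw [← finrank_span_singleton (K := F) i.1.1, Submodule.finrank_quotient_add_finrank]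
  have eT : ∀ y z, Ty H P ((ln F (Submodule.Quotient.mk (p := F ∙ x) y) (Submodule.Quotient.mk z)).comap (F ∙ x).mkQ) ↔
      Ty H P (pl F x y z) := fun y z => iff_of_eq (congrArg _ (Submodule.ext fun _ => mk_ln))
  have sj := Submodule.Quotient.mk_surjective (F ∙ x)
  obtain ⟨β, R, d, hR, d2, dn, e, sp⟩ := st F (V ⧸ F ∙ x) (St G (F ∙ x)) (H.subgroupOf _)
    (fun v w => Ty H P ((ln F v w).comap (F ∙ x).mkQ))
    (fun c hc => let ⟨z, hz, e⟩ := sc.mem_St (F ∙ x) hc; ⟨⟨z, hz.2⟩, hz.1, fun u => by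
      obtain ⟨u, rfl⟩ := sj u; rw [qsmul_mk, e]; rfl⟩)
    (fun v w hv hw => by
      obtain ⟨v, rfl⟩ := sj v
      obtain ⟨w, rfl⟩ := sj w
      rw [ne_eq, Submodule.Quotient.mk_eq_zero] at hv hw
      obtain ⟨u, hu⟩ := ex_notMem' (A := ln F x v) (by rw [Ind.finrank ⟨i.1.1, hv⟩]; omega)
      obtain ⟨j, hj, e1, c, e2⟩ := t x v x w ⟨i.1.1, hv⟩ ⟨i.1.1, hw⟩
      have c0 : c ≠ 0 := fun k => (Ind.ne0 ⟨i.1.1, hv⟩) (gsz.1 (by rw [e2, k, zero_smul]))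
      obtain ⟨s, hs, e3⟩ := sc.mem_St (F ∙ x) (inv_ne_zero c0)
      exact ⟨⟨s * j, mul_mem hs.2 (mem_St_sp (e1.symm ▸ Submodule.mem_span_singleton_self x))⟩, mul_mem hs.1 hj,
        by rw [qsmul_mk, mul_smul, e2, e3, inv_smul_smul₀ c0]⟩)
    (fun j hj v w => ty_of (h := j.1) hj fun u => smul_mem_ln_iff (g := j) (u := Submodule.Quotient.mk u))
    (fun _ _ _ _ _ _ e => by rw [e])
    (fun v w v' w' h1 h2 e => by
      obtain ⟨v, rfl⟩ := sj v
      obtain ⟨w, rfl⟩ := sj w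
      obtain ⟨v', rfl⟩ := sj v'
      obtain ⟨w', rfl⟩ := sj w'
      rw [mk_ind i.1.1] at h1 h2
      rw [eT, eT] at e
      obtain ⟨j, hj, e1, e2, c, -, e3⟩ := m.s5 h1 h2 (same l hp h1 h2 e)
      exact ⟨⟨j, mem_St_sp (e1.symm ▸ Submodule.mem_span_singleton_self x)⟩, hj, by rw [qsmul_mk, e2], c, by rw [qsmul_mk, e3]; rfl⟩)
    (by
      obtain ⟨j, hj, e⟩ := pt _ _ hp.1.1 i.1.1
      exact ⟨_, _, (mk_ind i.1.1).2 (e ▸ hp.smul j), (eT _ _).2 (e ▸ (ty_smul hj).2 ⟨1, one_mem _, by simp [P]⟩)⟩)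
    ⟨_, _, (mk_ind i.1.1).2 i, fun e => k (ty_pe.1 ((eT _ _).1 e))⟩
  have key : ∀ y z, y ∉ F ∙ x → (Submodule.Quotient.mk z ∈ R (Submodule.Quotient.mk y) ↔ Mb H P β x y z) := fun y z hy => by
    by_cases k : z ∈ ln F x y
    · exact iff_of_true ((Submodule.span_singleton_le_iff_mem _ _).2 (hR.self _ (by simpa using hy)) (mk_sp.2 k)) (.inl k)
    · rw [e _ _ ((mk_ind i.1.1).2 ⟨⟨i.1.1, hy⟩, k⟩), eT, Mb, or_iff_right k]
  refine ⟨β, d + 1, by omega, by omega, fun x' hx => ?_⟩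
  obtain ⟨j, hj, rfl⟩ := pt _ _ i.1.1 hx
  refine Bl.smul ⟨fun y hy => ⟨(R (Submodule.Quotient.mk y)).comap (F ∙ x).mkQ, ?_, fun z => key y z hy⟩, ?_⟩ hj
  · have := LinearMap.finrank_range_add_finrank_ker ((F ∙ x).mkQ.domRestrict ((R (Submodule.Quotient.mk y)).comap (F ∙ x).mkQ))
    rw [LinearMap.range_domRestrict, Submodule.map_comap_eq_of_surjective (F ∙ x).mkQ_surjective, hR.dim _ (by simpa using hy),
      LinearMap.ker_domRestrict, Submodule.ker_mkQ, (Submodule.comapSubtypeEquivOfLe (Submodule.le_comap_mkQ _ _)).finrank_eq,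
      finrank_span_singleton i.1.1] at this
    exact this.symm
  refine sp.imp (fun sp => ⟨fun y w hy hw k z => ?_, fun n e => no_spread (by omega) (fun v hv => by rw [hR.dim v hv]; omega) hR.self sp⟩)
    fun e => ⟨by omega, fun n => par5 hR.self (fun v hv => by rw [hR.dim v hv, e]) hR.symm (by omega)⟩
  rw [← key _ _ hy, ← key _ _ hw, sp _ _ (by simpa using hy) (by simpa using hw) ((key _ _ hy).2 k)]

theorem orb (m : MM F V H) (sc : Sc F V H) (l : Le2 (fun a : V × V × V => Ind3 F a.1 a.2.1 a.2.2) (PE F H))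
    (hp : Ind3 F p.1 p.2.1 p.2.2) (i : Ind3 F x y a) {S : Set V} (hS : ∀ u, u ∈ S ↔ u ∉ ln F x y ∧
      (Ty H (pl F p.1 p.2.1 p.2.2) (pl F x y a) ↔ Ty H (pl F p.1 p.2.1 p.2.2) (pl F x y u))) : S.ncard ∣ Nat.card H :=
  orb_dvd (J := H ⊓ St G (ln F x y)) inf_le_left (a := a) (fun j hj => (hS _).2 ⟨fun e => i.2 ((hj.2 a).1 e), by
    rw [← ty_smul hj.1, pl_eq_sup (j • x), ln_eq (i.1.smul j) ((hj.2 x).2 l_ln) ((hj.2 y).2 r_ln), ← pl_eq_sup]⟩)
    fun b hb => m.s6 sc i ⟨i.1, ((hS b).1 hb).1⟩ (same l hp i ⟨i.1, ((hS b).1 hb).1⟩ ((hS b).1 hb).2)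

/-- frames of length four -/
def F4 (F : Type u) [Field F] [Module F V] (X : Set (V × V)) (r : V × V → V → Prop) : Set ((V × V) × V × V) :=
  {a | a.1 ∈ X ∧ (a.2.1 ∉ ln F a.1.1 a.1.2 ∧ r a.1 a.2.1) ∧ a.2.2 ∉ pl F a.1.1 a.1.2 a.2.1 ∧ r a.1 a.2.2}

theorem ncard_F4 {X : Set (V × V)} {r : V × V → V → Prop} {D : ℕ} (h : ∀ a ∈ X, Ind F a.1 a.2 ∧
    ∃ B : Submodule F V, finrank F B = D ∧ ln F a.1 a.2 ≤ B ∧ ∀ u, u ∈ B ↔ r a u) : (F4 F X r).ncard =
      X.ncard * ((Fintype.card F ^ D - Fintype.card F ^ 2) * (Fintype.card F ^ D - Fintype.card F ^ 3)) := by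
  refine ncard_pairs _ X (fun a ha => ha.1) fun a ha => ?_
  obtain ⟨i, B, rfl, l, e⟩ := h a ha
  rw [← i.finrank, ← ncard_diff l]
  refine ncard_pairs _ _ (fun b hb => ⟨(e _).2 hb.2.1.2, hb.2.1.1⟩) fun z hz => ?_
  rw [← Ind3.finrank ⟨i, hz.2⟩, ← ncard_diff (pl_le.2 ⟨l l_ln, l r_ln, hz.1⟩)]
  exact congrArg _ (Set.ext fun w => ⟨fun k => ⟨(e _).2 k.2.2.2, k.2.2.1⟩, fun k => ⟨ha, ⟨hz.2, (e _).1 hz.1⟩, k.2, (e _).1 k.1⟩⟩)

theorem blocks (hy : Hy F V H) {D : ℕ} (d4 : 4 ≤ D) (dn : D < finrank F V)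
    (h1 : ∀ x y, Ind F x y → ∃ B : Submodule F V, finrank F B = D ∧ ∀ z, z ∈ B ↔ Mb H P β x y z)
    (h2 : ∀ x y w, Ind F x y → w ∉ F ∙ x → Mb H P β x y w → ∀ z, Mb H P β x w z ↔ Mb H P β x y z) : False := by
  have n5 := hy.n5
  have h3 : ∀ x y a b, Ind F x y → Ind F a b → Mb H P β x y a → Mb H P β x y b → ∀ z, Mb H P β a b z ↔ Mb H P β x y z :=
    fun x y a b i j ha hb z => by
      by_cases e : a ∈ F ∙ x
      · rw [mb_ln (x' := x) (y' := b) (by rw [ln_eq_sup, ln_eq_sup, sp_eq j.1 e]), h2 x y b i (sp_eq j.1 e ▸ j.2) hb]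
      · have k := fun z => (mb_ln (ln_comm a x)).trans (h2 x y a i e ha z)
        rw [h2 a x b (Ind.symm ⟨i.1, e⟩) j.2 ((k b).2 hb), k]
  have inv : ∀ {X : Set (V × V)} {r : V × V → V → Prop} (g : G), (∀ a ∈ X, g • a ∈ X) → (∀ a u, r a u → r (g • a) (g • u)) →
      ∀ a ∈ F4 F X r, g • a ∈ F4 F X r := fun g k1 k2 a ha =>
    ⟨k1 _ ha.1, ⟨fun e => ha.2.1.1 (smul_mem_ln_iff.1 e), k2 _ _ ha.2.1.2⟩, fun e => ha.2.2.1 (smul_mem_pl_iff.1 e), k2 _ _ ha.2.2.2⟩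
  have := avg2 hy (S := F4 F {a | Ind F a.1 a.2} fun _ _ => True) (T := F4 F {a | Ind F a.1 a.2} fun a => Mb H P β a.1 a.2)
    (β := (Fintype.card F ^ D - 1) * (Fintype.card F ^ D - Fintype.card F) *
      ((Fintype.card F ^ D - Fintype.card F ^ 2) * (Fintype.card F ^ D - Fintype.card F ^ 3)))
    (fun a ha => ⟨ha.1, ⟨ha.2.1.1, trivial⟩, ha.2.2.1, trivial⟩) (fun g => inv g (fun a ha => ha.smul g) fun _ _ => id)
    (fun a ha b hb => (hy.sl.w4 (by omega) ⟨ha.1, ha.2.1.1⟩ ⟨hb.1, hb.2.1.1⟩ ha.2.2.1 hb.2.2.1).imp fun g k =>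
      Prod.ext (Prod.ext k.1 k.2.1) (Prod.ext k.2.2.1 k.2.2.2))
    (fun g hg => inv g (fun a ha => ha.smul g) fun _ _ => (mb_smul hg).2) (by
      rintro t t' ⟨v, f, ht⟩ ⟨v', f', ht'⟩
      obtain ⟨y, i, hv⟩ : ∃ y, Ind F v y ∧ v' ∈ ln F v y := by
        by_cases e : v' ∈ F ∙ v
        · obtain ⟨y, hy⟩ := ex_notMem' (A := F ∙ v) (by rw [finrank_span_singleton ht.1]; omega)
          exact ⟨y, ⟨ht.1, hy⟩, sp_le_ln e⟩
        · exact ⟨v', ⟨ht.1, e⟩, r_ln⟩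
      obtain ⟨B, d, e⟩ := h1 v y i
      have k : ∀ {t : G} {v : V} {f : Dual F V}, Tv t v f → v ∈ B → ∀ a ∈ F4 F {a | Ind F a.1 a.2 ∧ a.1 ∈ B ∧ a.2 ∈ B} fun _ u => u ∈ B,
          t • a ∈ F4 F {a | Ind F a.1 a.2 ∧ a.1 ∈ B ∧ a.2 ∈ B} fun _ u => u ∈ B := fun {t _ _} ht hv =>
        have : ∀ u ∈ B, t • u ∈ B := fun u hu => ht.2.2.2 u ▸ add_mem hu (B.smul_mem _ hv)
        inv t (fun a ha => ⟨ha.1.smul t, this _ ha.2.1, this _ ha.2.2⟩) fun _ => this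
      refine ⟨_, fun a ha => ?_, ?_, k ht ((e _).2 (.inl l_ln)), k ht' ((e _).2 (.inl hv))⟩
      · have := fun z => (h3 v y _ _ i ha.1.1 ((e _).1 ha.1.2.1) ((e _).1 ha.1.2.2) z).trans (e z).symm
        exact ⟨ha.1.1, ⟨ha.2.1.1, (this _).2 ha.2.1.2⟩, ha.2.2.1, (this _).2 ha.2.2.2⟩
      · rw [ncard_F4 (D := D) fun a ha => ⟨ha.1, B, d, ln_le.2 ha.2, fun _ => Iff.rfl⟩, ncard_frames, d])
  rw [ncard_F4 (X := {a | Ind F a.1 a.2}) (r := fun _ _ => True) fun a ha => ⟨ha, ⊤, finrank_top F V, le_top, by simp⟩,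
    ncard_F4 (X := {a | Ind F a.1 a.2}) (r := fun a => Mb H P β a.1 a.2) fun a ha =>
    let ⟨B, d, e⟩ := h1 _ _ ha; ⟨ha, B, d, fun z hz => (e z).2 (.inl hz), e⟩, ncard_frames'] at this
  have hq := q2 F
  have k1 : Fintype.card F ^ 3 < Fintype.card F ^ D := Nat.pow_lt_pow_right hq (by omega)
  have k2 : Fintype.card F ^ D < Fintype.card F ^ finrank F V := Nat.pow_lt_pow_right hq dn
  have k3 : Fintype.card F ^ 2 < Fintype.card F ^ 3 := Nat.pow_lt_pow_right hq (by omega)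
  have k4 : Fintype.card F < Fintype.card F ^ 2 := by nlinarith
  generalize Fintype.card F ^ D = A at *
  generalize Fintype.card F ^ finrank F V = N at *
  generalize Fintype.card F ^ 2 = q2 at *
  generalize Fintype.card F ^ 3 = q3 at *
  generalize Fintype.card F = q at *
  zify [show 1 ≤ A by omega, show q ≤ A by omega, show q2 ≤ A by omega, show q3 ≤ A by omega, show 1 ≤ N by omega,
    show q ≤ N by omega, show q2 ≤ N by omega, show q3 ≤ N by omega] at this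
  have a1 : ((N : ℤ) - 1) * (A - q2) < (A - 1) * (N - q2) := by
    nlinarith [mul_pos (show (0 : ℤ) < N - A by omega) (show (0 : ℤ) < q2 - 1 by omega)]
  have a2 : ((N : ℤ) - q) * (A - q3) < (A - q) * (N - q3) := by
    nlinarith [mul_pos (show (0 : ℤ) < N - A by omega) (show (0 : ℤ) < q3 - q by omega)]
  have p1 : (0 : ℤ) < (N - 1) * (A - q2) := mul_pos (by omega) (by omega)
  have p2 : (0 : ℤ) < (N - q) * (A - q3) := mul_pos (by omega) (by omega)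
  have := mul_lt_mul_of_pos_left (mul_lt_mul'' a1 a2 p1.le p2.le) (mul_pos p1 p2)
  linarith

theorem main (st : H13.R3.ST.{u}) (pl' : PL.{u}) (m1 : M1.{u}) : MAIN.{u} := by
  intro F V G _ _ _ _ _ _ _ _ _ H hy nt t l
  by_cases q : Fintype.card F = 2
  · exact two2 hy t q
  have m : MM F V H := m1 F V G H hy.sc t
  obtain ⟨x, y, z, i, -⟩ := ex_ind3 (P := (⊤ : Submodule F V)) (by rw [finrank_top]; have := hy.n5; omega)
  rcases hy.n5.eq_or_lt with n | n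
  · refine fin pl' hy nt q (e := 3) (k := 0) le_rfl (by omega) ?_ fun W d => m.cm2 q (by omega) (by omega)
    rw [zero_add, pow_zero, ← i.finrank, ← ncard_ne0]
    exact orb_dvd (J := H ⊓ St G (pl F x y z)) inf_le_left (a := x) (fun j hj => ⟨(hj.2 x).2 p1_pl, fun e => i.1.1 (gsz.1 e)⟩)
      fun b hb => m.s3 i.finrank i.1.1 hb.2 p1_pl hb.1
  have o := fun {a S} => orb (x := x) (y := y) (a := a) (S := S) (p := (x, y, z)) m hy.sc (l n) i
  by_cases k : ∀ a b c, Ind3 F a b c → PE F H (a, b, c) (x, y, z)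
  · refine fin pl' hy nt q (e := finrank F V - 2) (k := 2) (by omega) (by omega) ?_ fun W d => m.cm2 q (by omega) (by omega)
    rw [show 2 + (finrank F V - 2) = finrank F V by omega, ← i.1.finrank, ← ncard_compl]
    exact o i fun u => ⟨fun h => ⟨h, iff_of_true (ty_pe.2 (k _ _ _ i)) (ty_pe.2 (k _ _ _ ⟨i.1, h⟩))⟩, fun h => h.1⟩
  push Not at k
  obtain ⟨a, b, c, j, k⟩ := k
  obtain ⟨β, D, d3, dn, bl⟩ := ex_bl (p := (x, y, z)) st m hy.sc t (by omega) (l n) i j k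
  obtain ⟨B, d, e⟩ := (bl x i.1.1).1 y i.1.2
  have lB : ln F x y ≤ B := fun u hu => (e u).2 (.inl hu)
  by_cases h : D + 1 = finrank F V ∧ finrank F V ≠ 6
  swap
  · have n6 := ((bl x i.1.1).2.resolve_right h).2
    rcases d3.eq_or_lt with rfl | d4
    · refine fin pl' hy nt q (e := finrank F V - 3) (k := 3) (by omega) (by omega) ?_ fun W d => m.cm3 (by omega)
      obtain ⟨a, ha⟩ := ex_notMem' (A := B) (by omega)
      rw [show 3 + (finrank F V - 3) = finrank F V by omega, ← d, ← ncard_compl]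
      refine o ⟨i.1, fun h => ha (lB h)⟩ fun u => ?_
      rw [e, Mb] at ha
      rw [Set.mem_ofPred_eq, e, Mb]; tauto
    · exact blocks hy d4 dn (fun x y i => (bl x i.1).1 y i.2) fun x y w i => ((bl x i.1).2.resolve_right h).1 y w i.2
  · refine fin pl' hy nt q (e := finrank F V - 3) (k := 2) (by omega) (by omega) ?_ fun W d => m.cm3 (by omega)
    obtain ⟨a, ha, ha'⟩ := ex_notMem (A := ln F x y) (B := B) (by rw [i.1.finrank]; omega)
    rw [show 2 + (finrank F V - 3) = finrank F B by omega, ← i.1.finrank, ← ncard_diff lB]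
    refine o ⟨i.1, ha'⟩ fun u => ?_
    rw [e, Mb] at ha
    rw [Set.mem_ofPred_eq, e, Mb]; tauto

end H23.R3
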