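import Cfsg.Agent.H26.RB0

/-! S4578: chunks `PERM`, `PW`, `MAXP`. -/

set_option autoImplicit false

namespace H23.RB
open Cfsg Finset Equiv Equiv.Perm H7.Sn H26.RB Subgroup

universe u

section
variable {G : Type*} [Group G] {p : ℕ}

/-- a normal subgroup of a `p`-group meets the centre -/
theorem ex_cen [Finite G] (hp : p.Prime) {P R : Subgroup G} (hP : IsPGroup p P) (h : R ≤ P) (hn : ∀ x ∈ P, ∀ r ∈ R, x * r * x⁻¹ ∈ R)
    (h0 : R ≠ ⊥) : ∃ v ∈ R, v ≠ 1 ∧ v ^ p = 1 ∧ ∀ x ∈ P, x * v = v * x := by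
  have := Fact.mk hp
  letI : MulAction P R :=
    { smul := fun x r => ⟨x.1 * r.1 * x.1⁻¹, hn _ x.2 _ r.2⟩
      one_smul := fun r => Subtype.ext (by change (1 : G) * r.1 * 1⁻¹ = r.1; simp)
      mul_smul := fun x y r => Subtype.ext (by
        change (x.1 * y.1) * r.1 * (x.1 * y.1)⁻¹ = x.1 * (y.1 * r.1 * y.1⁻¹) * x.1⁻¹; group) }
  obtain ⟨n, hn0, e⟩ := (hP.to_le h).nontrivial_iff_card.1 ((nontrivial_iff_ne_bot R).2 h0)
  obtain ⟨b, hb, b1⟩ := hP.exists_fixed_point_of_prime_dvd_card_of_fixed_point R (e ▸ dvd_pow_self p hn0.ne') (a := 1)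
    fun x => Subtype.ext (by change x.1 * 1 * x.1⁻¹ = 1; simp)
  have c : ∀ x ∈ P, Commute x b.1 := fun x hx => mul_inv_eq_iff_eq_mul.1 (congrArg Subtype.val (hb ⟨x, hx⟩))
  obtain ⟨k, hk⟩ := IsPGroup.iff_orderOf.1 (hP.to_le h) b
  rw [← orderOf_coe] at hk
  obtain _ | k := k
  · exact (b1 (Subtype.ext (orderOf_eq_one_iff.1 hk).symm)).elim
  refine ⟨b.1 ^ p ^ k, pow_mem b.2 _, pow_ne_one_of_lt_orderOf (pow_ne_zero _ hp.ne_zero) (hk ▸ Nat.pow_lt_pow_right hp.one_lt k.lt_succ_self),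
    by rw [← pow_mul, ← pow_succ, ← hk, pow_orderOf_eq_one], fun x hx => (c x hx).pow_right _⟩

theorem le_of_norm [Finite G] {y : G} {P R : Subgroup G} (hP : IsPGroup p P) (hy : ∀ x ∈ P, x * y = y * x)
    (mx : ∀ R : Subgroup G, IsPGroup p R → (∀ x ∈ R, x * y = y * x) → P ≤ R → R ≤ P) (hR : IsPGroup p R)
    (hy' : ∀ x ∈ R, x * y = y * x) (hn : ∀ x ∈ P, ∀ r ∈ R, x * r * x⁻¹ ∈ R) : R ≤ P :=
  le_sup_right.trans (mx _ (hP.to_sup_of_normal_right' hR fun x hx => mem_normalizer_fintype (hn x hx))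
    (fun _ hx => mem_centralizer_singleton_iff.1 ((sup_le (fun x hx => mem_centralizer_singleton_iff.2 (hy x hx))
      (fun x hx => mem_centralizer_singleton_iff.2 (hy' x hx)) : P ⊔ R ≤ centralizer {y}) hx)) le_sup_left)
end

section
variable {α : Type*} {u y x e : Perm α} {a : α} {p : ℕ}

theorem ex_res (x : Perm α) (O : α → Prop) (h : ∀ a, O (x a) ↔ O a) : ∃ e : Perm α, (∀ a, O a → e a = x a) ∧ ∀ a, ¬ O a → e a = a := by
  classical
  exact ⟨ofSubtype (x.subtypePerm h), fun a => ofSubtype_subtypePerm_of_mem h, fun a => ofSubtype_subtypePerm_of_not_mem h⟩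

theorem cm_ap (h : x * u = u * x) (a : α) : x (u a) = u (x a) := congrArg (· a) h

theorem ap_inv (x : Perm α) (a : α) : x (x⁻¹ a) = a := x.apply_symm_apply a

theorem cm_pow (h : x * u = u * x) (k : ℕ) (a : α) : x ((u ^ k) a) = (u ^ k) (x a) := cm_ap (Commute.pow_right h k) a

theorem fix_iff (h : x * u = u * x) (a : α) : u (x a) = x a ↔ u a = a := by rw [← cm_ap h, x.injective.eq_iff]

theorem pow_ap (h : e * u = u * e) {k : ℕ} (h' : e a = (u ^ k) a) (n : ℕ) : (e ^ n) a = (u ^ (k * n)) a := by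
  induction n with
  | zero => simp
  | succ n ih => rw [pow_succ', mul_apply, ih, cm_pow h, h', ← mul_apply, ← pow_add, Nat.mul_succ]

/-- the base group -/
def BG [Finite α] (u y : Perm α) : Subgroup (Perm α) where
  carrier := BE u y
  one_mem' := ⟨by simp, by simp, fun a => ⟨0, rfl⟩⟩
  mul_mem' := fun {a b} ha hb => ⟨Commute.mul_left ha.1 hb.1, Commute.mul_left ha.2.1 hb.2.1, fun c => by
    obtain ⟨k, e⟩ := hb.2.2 c
    obtain ⟨j, e'⟩ := ha.2.2 c
    exact ⟨k + j, by rw [mul_apply, e, cm_pow ha.1, e', pow_add, mul_apply]⟩⟩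
  inv_mem' := fun {a} ha => ⟨Commute.inv_left ha.1, Commute.inv_left ha.2.1, fun c => by
    obtain ⟨k, e⟩ := ha.2.2 c
    refine ⟨k * (orderOf a - 1), ?_⟩
    rw [← pow_ap ha.1 e, inv_eq_of_mul_eq_one_left (show a ^ (orderOf a - 1) * a = 1 by
      rw [← pow_succ, Nat.sub_add_cancel (orderOf_pos a), pow_orderOf_eq_one])]⟩

theorem BE_pow (hu : u ^ p = 1) (h : e ∈ BE u y) : e ^ p = 1 := Equiv.ext fun a => by
  obtain ⟨k, e'⟩ := h.2.2 a
  rw [pow_ap h.1 e', mul_comm, pow_mul, hu, one_pow]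

theorem BE_comm (h : e ∈ BE u y) (h' : x ∈ BE u y) : e * x = x * e := Equiv.ext fun a => by
  obtain ⟨k, e1⟩ := h.2.2 a
  obtain ⟨j, e2⟩ := h'.2.2 a
  rw [mul_apply, mul_apply, e2, cm_pow h.1, e1, cm_pow h'.1, e2, ← mul_apply, ← mul_apply, pow_mul_comm]

theorem BE_conj (h1 : x * u = u * x) (h2 : x * y = y * x) (h : e ∈ BE u y) : x * e * x⁻¹ ∈ BE u y :=
  ⟨Commute.mul_left (Commute.mul_left h1 h.1) (Commute.inv_left h1), Commute.mul_left (Commute.mul_left h2 h.2.1) (Commute.inv_left h2),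
    fun a => (h.2.2 (x⁻¹ a)).imp fun k e' => by rw [mul_apply, mul_apply, e', cm_pow h1, ap_inv]⟩

variable [Fintype α] [DecidableEq α]

theorem card_BG (hp : 0 < p) (hu : u ^ p = 1) : Nat.card (BG u y) ≤ p ^ u.cycleType.card := by
  have r : ∀ c : u.cycleFactorsFinset, ∃ a, a ∈ c.1.support := fun c => (mem_cycleFactorsFinset_iff.1 c.2).1.nonempty_support
  choose r hr using r
  have k : ∀ (e : BG u y) (c : u.cycleFactorsFinset), ∃ k : Fin p, e.1 (r c) = (u ^ k.1) (r c) := fun e c => by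
    obtain ⟨k, h⟩ := e.2.2.2 (r c)
    exact ⟨⟨k % p, Nat.mod_lt _ hp⟩, by rw [h, ← pow_eq_pow_mod _ hu]⟩
  choose k hk using k
  refine (Nat.card_le_card_of_injective k fun e e' h => Subtype.ext (Equiv.ext fun a => ?_)).trans_eq (by
    rw [Nat.card_fun, Nat.card_eq_fintype_card, Fintype.card_fin, Nat.card_eq_fintype_card, Fintype.card_coe, cycleType_def,
      Multiset.card_map]; rfl)
  by_cases ha : u a = a
  · obtain ⟨i, h1⟩ := e.2.2.2 a
    obtain ⟨j, h2⟩ := e'.2.2.2 a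
    rw [h1, h2, pow_apply_eq_self_of_apply_eq_self ha, pow_apply_eq_self_of_apply_eq_self ha]
  · let c : u.cycleFactorsFinset := ⟨_, cycleOf_mem_cycleFactorsFinset_iff.2 (mem_support.2 ha)⟩
    obtain ⟨i, -, hi⟩ := ((mem_support_cycleOf_iff' ha).1 (hr c)).symm.exists_pow_eq'
    rw [← hi, cm_pow e.2.1, cm_pow e'.2.1, hk, hk, h]
end

theorem perm : PERM := fun α _ _ p y P hp hy hP hc mx => by
  have := Fact.mk hp
  classical
  obtain ⟨u, hu, um⟩ := Finset.exists_max_image (univ.filter fun u : Perm α => u ∈ P ∧ u ^ p = 1 ∧ ∀ x ∈ P, x * u = u * x)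
    (fun u => #u.support) ⟨1, by simp [one_mem]⟩
  simp only [mem_filter, mem_univ, true_and] at hu um
  obtain ⟨uP, up, uc⟩ := hu
  have yu := (hc u uP).symm
  have sp : ∀ x ∈ P, ∀ a, u a = a → x a = a := by
    let R : Subgroup (Perm α) :=
      { carrier := {r | (∀ a, u a ≠ a → r a = a) ∧ ∃ x ∈ P, ∀ a, u a = a → r a = x a}
        one_mem' := ⟨fun _ _ => rfl, 1, one_mem _, fun _ _ => rfl⟩
        mul_mem' := fun {r s} ⟨h1, x, hx, h2⟩ ⟨h3, z, hz, h4⟩ => ⟨fun a ha => by rw [mul_apply, h3 a ha, h1 a ha], _, mul_mem hx hz,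
          fun a ha => by rw [mul_apply, h4 a ha, h2 _ ((fix_iff (uc z hz) a).2 ha), mul_apply]⟩
        inv_mem' := fun {r} ⟨h1, x, hx, h2⟩ => ⟨fun a ha => Perm.inv_eq_iff_eq.2 (h1 a ha).symm, _, inv_mem hx, fun a ha =>
          Perm.inv_eq_iff_eq.2 (by rw [h2 _ ((fix_iff (uc _ (inv_mem hx)) a).2 ha), ap_inv])⟩ }
    have hn : ∀ x ∈ P, ∀ r ∈ R, x * r * x⁻¹ ∈ R := fun x hx r ⟨h1, z, hz, h2⟩ => ⟨fun a ha => by
      rw [mul_apply, mul_apply, h1 _ (mt (fix_iff (uc _ (inv_mem hx)) a).1 ha), ap_inv], _,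
        mul_mem (mul_mem hx hz) (inv_mem hx), fun a ha => by
          rw [mul_apply, mul_apply, h2 _ ((fix_iff (uc _ (inv_mem hx)) a).2 ha)]; rfl⟩
    have RP : R ≤ P := le_of_norm hP hc mx (fun ⟨r, h1, x, hx, h2⟩ => (hP ⟨x, hx⟩).imp fun k e => Subtype.ext (Equiv.ext fun a => by
      change (r ^ p ^ k) a = a
      by_cases ha : u a = a
      · have : ∀ n : ℕ, (r ^ n) a = (x ^ n) a := fun n => by
          induction n with
          | zero => rfl
          | succ n ih => rw [pow_succ', mul_apply, ih, h2 _ ((fix_iff (uc _ (pow_mem hx n)) a).2 ha), pow_succ', mul_apply]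
        rw [this, show x ^ p ^ k = 1 from congrArg Subtype.val e, one_apply]
      · exact pow_apply_eq_self_of_apply_eq_self (h1 a ha) _)) (fun r ⟨h1, x, hx, h2⟩ => Equiv.ext fun a => by
        by_cases ha : u a = a
        · rw [mul_apply, mul_apply, h2 a ha, h2 _ ((fix_iff yu a).2 ha), cm_ap (hc x hx)]
        · rw [mul_apply, mul_apply, h1 a ha, h1 _ (mt (fix_iff yu a).1 ha)]) hn
    have R0 : R = ⊥ := by
      by_contra n
      obtain ⟨v, hv, v1, vp, vc⟩ := ex_cen hp hP RP hn n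
      refine (um (u * v) ⟨mul_mem uP (RP hv), by rw [Commute.mul_pow (vc u uP), up, vp, mul_one], fun x hx =>
        Commute.mul_right (uc x hx) (vc x hx)⟩).not_gt (card_lt_card ⟨fun a ha => ?_, fun s => v1 (Equiv.ext fun a => ?_)⟩)
      · rw [mem_support] at ha ⊢
        rwa [mul_apply, hv.1 a ha]
      · by_contra na
        have ha : u a = a := by_contra fun ha => na (hv.1 a ha)
        exact mem_support.1 (s (mem_support.2 (by rwa [mul_apply, ← cm_ap (vc u uP).symm, ha]))) ha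
    intro x hx a ha
    obtain ⟨e, e1, e2⟩ := ex_res x (fun a => u a = a) (fix_iff (uc x hx))
    rw [← e1 a ha, mem_bot.1 (R0.le (⟨e2, x, hx, e1⟩ : e ∈ R)), one_apply]
  have EP : BG u y ≤ P := le_of_norm hP hc mx (fun e => ⟨1, Subtype.ext (by rw [pow_one]; exact BE_pow up e.2)⟩) (fun e he => he.2.1)
    fun x hx e he => BE_conj (uc x hx) (hc x hx) he
  refine ⟨u, uP, _, BG u y, uc, cycleType_of_pow_prime_eq_one up, fun x hx a ha => mem_support.2 (mt (sp x hx a) (mem_support.1 ha)), rfl, EP,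
    card_BG hp.pos up, fun x hx => ⟨fun h e he => BE_comm h he, fun h => ⟨uc x hx, hc x hx, fun a => ?_⟩⟩⟩
  by_cases ha : u a = a
  · exact ⟨0, sp x hx a ha⟩
  let O : α → Prop := fun b => ∃ i j : ℕ, b = (u ^ i * y ^ j) a
  have inv : ∀ g : Perm α, (∀ b, O b → O (g b)) → ∀ b, O (g b) ↔ O b := fun g hg b => ⟨fun h => by
    have : ∀ n : ℕ, O ((g ^ n) (g b)) := fun n => by
      induction n with
      | zero => exact h
      | succ n ih => rw [pow_succ']; exact hg _ ih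
    have := this (orderOf g - 1)
    rwa [← mul_apply, ← pow_succ, Nat.sub_add_cancel (orderOf_pos g), pow_orderOf_eq_one] at this, hg b⟩
  have iu := inv u (by rintro _ ⟨i, j, rfl⟩; exact ⟨i + 1, j, by rw [pow_succ', mul_assoc]; rfl⟩)
  have iy := inv y (by rintro _ ⟨i, j, rfl⟩; exact ⟨i, j + 1, by rw [mul_apply, cm_pow yu, pow_succ']; rfl⟩)
  obtain ⟨e, e1, e2⟩ := ex_res u O iu
  have cm : ∀ g : Perm α, g * u = u * g → (∀ b, O (g b) ↔ O b) → e * g = g * e := fun g h1 h2 => Equiv.ext fun b => by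
    by_cases hb : O b
    · rw [mul_apply, mul_apply, e1 b hb, e1 _ ((h2 b).2 hb), cm_ap h1]
    · rw [mul_apply, mul_apply, e2 b hb, e2 _ (mt (h2 b).1 hb)]
  have he : e ∈ BG u y := ⟨cm u rfl iu, cm y yu iy, fun b => by
    by_cases hb : O b
    exacts [⟨1, e1 b hb⟩, ⟨0, e2 b hb⟩]⟩
  obtain ⟨i, j, hx'⟩ : O (x a) := by_contra fun n => ha (x.injective (by rw [← e1 a ⟨0, 0, by simp⟩, cm_ap (h e he), e2 _ n]))
  have c : Commute u y := yu.symm
  obtain ⟨k, hk⟩ := hP ⟨x, hx⟩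
  have h1 := pow_ap (u := u ^ i * y ^ j) (k := 1) (Commute.mul_right (Commute.pow_right (uc x hx) i) (Commute.pow_right (hc x hx) j))
    (by rw [pow_one, hx']) (p ^ (k + 1))
  rw [pow_succ, pow_mul, show x ^ p ^ k = 1 from congrArg Subtype.val hk, one_pow, one_mul, (c.pow_pow i j).mul_pow, ← pow_mul u,
    ← mul_assoc, mul_comm _ p, pow_mul, up, one_pow, one_mul, ← pow_succ] at h1
  have h2 : y ^ j ∈ MulAction.stabilizer (Perm α) a := by
    have h3 : (y ^ j) ^ p ^ (k + 1) ∈ MulAction.stabilizer (Perm α) a := h1.symm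
    exact zpowers_le.2 h3 (mem_zpowers_pow_iff.2 (Nat.Coprime.pow_left _ ((Nat.Prime.coprime_iff_not_dvd hp).2
      fun d => hy (d.trans (orderOf_pow_dvd j)))))
  exact ⟨i, by rw [hx', mul_apply, show (y ^ j) a = a from h2]⟩

theorem pw : PW := fun α _ _ p w u s hp hu hc hs => by
  have := Fact.mk hp
  have up : u ^ p = 1 := pow_prime_eq_one_iff.2 fun c h => (Multiset.eq_of_mem_replicate (hu ▸ h))
  have key : ∀ a, u a ≠ a → p ∣ #((u * s).cycleOf a).support ∧ (u * s) a ≠ a := fun a ha => by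
    have k : ∀ m : ℕ, ((u * s) ^ m) a = a → p ∣ m := fun m h => by
      have h1 : ((u * s) ^ m) ^ orderOf s ∈ MulAction.stabilizer (Perm α) a := pow_mem h _
      rw [← pow_mul, Commute.mul_pow hc, mul_comm m, pow_mul s, pow_orderOf_eq_one, one_pow, mul_one] at h1
      refine (hp.dvd_mul.1 (by_contra fun n => ha ?_)).resolve_left hs
      exact zpowers_le.2 h1 (mem_zpowers_pow_iff.2 (Nat.Coprime.coprime_dvd_right (orderOf_dvd_of_pow_eq_one up)
        ((Nat.Prime.coprime_iff_not_dvd hp).2 n).symm))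
    exact ⟨k _ (by rw [← pow_mod_card_support_cycleOf_self_apply, Nat.mod_self]; rfl), fun e => hp.not_dvd_one (k 1 e)⟩
  calc p * w = #u.support := by rw [← sum_cycleType, hu, Multiset.sum_replicate, smul_eq_mul, mul_comm]
    _ ≤ #(((u * s).cycleFactorsFinset.filter fun c => p ∣ #c.support).biUnion fun c => c.support) := card_le_card fun a ha => by
      obtain ⟨h1, h2⟩ := key a (mem_support.1 ha)
      exact mem_biUnion.2 ⟨_, mem_filter.2 ⟨cycleOf_mem_cycleFactorsFinset_iff.2 (mem_support.2 h2), h1⟩,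
        (mem_support_cycleOf_iff' h2).2 (SameCycle.refl _ _)⟩
    _ ≤ _ := card_biUnion_le.trans (by
      rw [ct_eq, Multiset.filter_add, Multiset.sum_add, cycleType_def, Multiset.filter_map]
      exact Nat.le_add_right _ _)

theorem maxp : MAXP.{u} := fun H Q _ _ _ π p _ y P hk hy R hR hr hc hle => by
  set D := P.1.map (centralizer {y}).subtype
  have hD : IsPGroup p D := P.isPGroup'.map _
  have DR : D ≤ R.comap π := map_le_iff_le_comap.1 hle
  obtain ⟨S, hS⟩ := (hD.of_equiv (subgroupOfEquivOfLe DR).symm).exists_le_sylow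
  have SC : S.1.map (R.comap π).subtype ≤ centralizer {y} := by
    rintro _ ⟨x, hx, rfl⟩
    obtain ⟨k, e⟩ := S.isPGroup' ⟨x, hx⟩
    replace e : x.1 ^ p ^ k = 1 := congrArg (·.1.1) e
    obtain ⟨c, hc'⟩ : ∃ c, c = y⁻¹ * (x.1 * y * x.1⁻¹) := ⟨_, rfl⟩
    have cz := mem_center_iff.1 (hk (show c ∈ π.ker by
      rw [MonoidHom.mem_ker, hc', map_mul, map_mul, map_mul, hc _ x.2]; simp))
    have e1 : x.1 * y * x.1⁻¹ = y * c := by rw [hc', mul_inv_cancel_left]
    have e2 : ∀ n : ℕ, x.1 ^ n * y * (x.1 ^ n)⁻¹ = y * c ^ n := fun n => by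
      induction n with
      | zero => simp
      | succ n ih =>
        rw [pow_succ' x.1, show x.1 * x.1 ^ n * y * (x.1 * x.1 ^ n)⁻¹ = x.1 * (x.1 ^ n * y * (x.1 ^ n)⁻¹) * x.1⁻¹ by group, ih,
          ← mul_assoc, mul_assoc _ (c ^ n), ← (show Commute x.1⁻¹ c from cz _).pow_right n, ← mul_assoc, e1, pow_succ', mul_assoc]
    have e3 : c ^ orderOf y = 1 := by
      have := congrArg (· ^ orderOf y) e1
      simpa [conj_pow, Commute.mul_pow (cz y)] using this.symm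
    have e4 : c ^ p ^ k = 1 := by simpa [e] using (e2 (p ^ k)).symm
    rw [(pow_eq_one_iff_of_coprime (Nat.Coprime.pow_left k ((Nat.Prime.coprime_iff_not_dvd Fact.out).2 hy))).1 ⟨e4, e3⟩, mul_one] at e1
    exact mem_centralizer_singleton_iff.2 (mul_inv_eq_iff_eq_mul.1 e1)
  have SD : S.1.map (R.comap π).subtype ≤ D := by
    have := P.is_maximal' (((S.isPGroup'.map (R.comap π).subtype).of_equiv (subgroupOfEquivOfLe SC).symm)) fun x hx =>
      (⟨⟨x.1, DR ⟨x, hx, rfl⟩⟩, hS ⟨x, hx, rfl⟩, rfl⟩ : x.1 ∈ S.1.map (R.comap π).subtype)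
    intro x hx
    exact ⟨⟨x, SC hx⟩, this.le hx, rfl⟩
  let f : R.comap π →* R := π.subgroupComap R
  have fs : Function.Surjective f := fun r => by
    obtain ⟨x, e⟩ := hr r.2
    exact ⟨⟨x, by rw [mem_comap, e]; exact r.2⟩, Subtype.ext e⟩
  have := (S.mapSurjective fs).is_maximal' (hR.to_subgroup ⊤) le_top
  intro r hr'
  obtain ⟨x, hx, e⟩ : (⟨r, hr'⟩ : R) ∈ S.1.map f := this.le (mem_top _)
  exact ⟨x.1, SD ⟨x, hx, rfl⟩, congrArg Subtype.val e⟩

end H23.RB
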