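import Cfsg.Agent.H23.RB1
import Cfsg.Agent.H8.Dom

/-! S4578: chunks `ODD`, `P2A`, `P2S`. -/

set_option autoImplicit false

namespace H23.RB
open Cfsg Finset Equiv Equiv.Perm H7.Sn H26.RB Subgroup
open scoped Nat

universe u

section
variable {n : ℕ} {H : Type*} [Group H] [Finite H] {π : H →* Perm (Fin n)}

theorem card_cov (c : Cov π) : 2 * Nat.card H = Nat.card π.ker * n ! := by
  haveI : Nontrivial (Fin n) := Fin.nontrivial_iff_two_le.2 (by have := c.five; omega)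
  have := two_mul_nat_card_alternatingGroup (α := Fin n)
  rw [Nat.card_perm, Nat.card_eq_fintype_card (α := Fin n), Fintype.card_fin, ← c.range, ← index_ker] at this
  rw [← this, ← π.ker.card_mul_index]; ring

theorem card_map_ker {Q : Type*} [Group Q] (f : H →* Q) (D : Subgroup H) :
    Nat.card D = Nat.card ↥(f.ker ⊓ D) * Nat.card (D.map f) := by
  rw [← relIndex_ker, ← inf_relIndex_right, relIndex, ← Nat.card_congr (subgroupOfEquivOfLe (inf_le_right : f.ker ⊓ D ≤ D)).toEquiv,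
    card_mul_index]

/-- self-centralising subgroups pull back along injections -/
theorem good_of (sc : SC.{u}) {H : Type u} [Group H] [Finite H] {Q : Type*} [Group Q] [Finite Q] {f : H →* Q} {D : Subgroup H} (hi : ∀ x ∈ D, f x = 1 → x = 1)
    {E : Subgroup Q} (h1 : E ≤ D.map f) (h2 : ∀ x ∈ D.map f, x ∈ E ↔ ∀ e ∈ E, x * e = e * x) {p k : ℕ} (h3 : Nat.card E ≤ p ^ k) :
    Good p k D := by
  have inj : Function.Injective (f.comp D.subtype) := (injective_iff_map_eq_one _).2 fun x e => Subtype.ext (hi _ x.2 e)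
  refine sc D p k (E.comap (f.comp D.subtype)) (fun x => (h2 _ ⟨x, x.2, rfl⟩).trans ⟨fun h e he => inj (by
    rw [map_mul, map_mul]; exact h _ he), fun h e he => ?_⟩) ((Nat.card_le_card_of_injective (fun x => (⟨_, x.2⟩ : E))
      fun x y e => Subtype.ext (inj (congrArg Subtype.val e))).trans h3)
  obtain ⟨d, hd, rfl⟩ := h1 he
  simpa using congrArg (f.comp D.subtype) (h ⟨d, hd⟩ he)
end

theorem odd (mp : MAXP.{u}) (sub : SUB.{u}) (spc : SPC.{u}) (nsc : NSC.{u}) (sc : SC.{u}) (fin : FIN.{u}) : ODD.{u} := by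
  intro n H _ _ π c hk p M B D χ b p2
  have hp : p.Prime := b.hM.1
  have := Fact.mk hp
  obtain ⟨y, hy, P, hP⟩ := b.hD
  have yr := H7.not_dvd_of_isDefectClass b.hM b.hB hy
  have hD : IsPGroup p D := hP ▸ P.isPGroup'.map _
  have c2 : ∀ k, (p ^ k).Coprime 2 := fun k => Nat.Coprime.pow_left k ((Nat.coprime_primes hp Nat.prime_two).2 p2)
  have hi : ∀ x ∈ D, π x = 1 → x = 1 := fun x hx e => by
    obtain ⟨k, h⟩ := hD ⟨x, hx⟩
    refine (pow_eq_one_iff_of_coprime (c2 k)).1 ⟨congrArg Subtype.val h, ?_⟩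
    exact orderOf_dvd_iff_pow_eq_one.1 ((π.ker.orderOf_dvd_natCard e).trans hk)
  obtain ⟨_, ⟨u, hu, rfl⟩, w, E, h1, h2, -, -, h5, h6, h7⟩ := perm (Fin n) p (π y) (D.map π) hp
    (fun d => yr (d.trans (orderOf_map_dvd π y))) (hD.map π) (by
      rintro _ ⟨x, hx, rfl⟩
      obtain ⟨x, -, rfl⟩ := hP.le hx
      rw [← map_mul, ← map_mul]; exact congrArg π (mem_centralizer_singleton_iff.1 x.2))
    fun R hR hc h => hP ▸ mp H _ π p y P c.cen yr R hR (c.range ▸ fun x hx => by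
      obtain ⟨k, e⟩ := hR ⟨x, hx⟩
      exact (pow_eq_one_iff_of_coprime (c2 k)).1 ⟨by rw [← map_pow, show x ^ p ^ k = 1 from congrArg Subtype.val e, map_one],
        Int.units_sq _⟩) hc (hP ▸ h)
  obtain ⟨χ', e1, e2⟩ : Cor π p χ := by
    by_cases h : ∀ y, π y = 1 → χ.1 y = χ.1 1
    · exact nsc n H π c p hp p2 χ h
    · push Not at h
      refine spc n H π c (((Nat.dvd_prime Nat.prime_two).1 hk).resolve_left fun e => ?_) p hp p2 χ h
      obtain ⟨y, h1, h2⟩ := h
      exact h2 (by rw [mem_bot.1 ((card_eq_one.1 e).le h1)])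
  obtain ⟨s, s1, s2, s3⟩ := sub H p M B D χ b p2 u hu (fun x hx => mul_inv_eq_one.1 (hi _ (mul_mem (mul_mem hx hu) (inv_mem (mul_mem hu hx)))
    (by rw [map_mul, map_inv, map_mul, map_mul, h1 _ ⟨x, hx, rfl⟩, mul_inv_cancel]))) χ' e1
  have := e2 _ w s3 (by
    rw [map_mul]; exact pw _ p w _ _ hp h2 (by rw [← map_mul, s1, map_mul]) fun d => s2 (d.trans (orderOf_map_dvd π s)))
  refine (fin H p M B D χ b).2 w (good_of sc hi h5 h7 h6) (this.trans ?_)
  have e := congrArg (·.factorization p) (card_cov c)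
  simp only [Nat.factorization_mul two_ne_zero Nat.card_pos.ne', Nat.factorization_mul Nat.card_pos.ne' (Nat.factorial_ne_zero n),
    Finsupp.add_apply, Nat.factorization_eq_zero_of_not_dvd fun d => p2 ((Nat.prime_dvd_prime_iff_eq hp Nat.prime_two).1 d)] at e
  omega

section
variable {α : Type*} [Fintype α] [DecidableEq α] {u x : Perm α} {a c : α} {w : ℕ}

theorem u2 (h : u.cycleType = .replicate w 2) (a : α) : u (u a) = a :=
  congrArg (· a) (show u ^ 2 = 1 from pow_prime_eq_one_iff.2 fun _ h' => Multiset.eq_of_mem_replicate (h ▸ h'))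

theorem sw_BE (h : u.cycleType = .replicate w 2) (a : α) : swap a (u a) ∈ BE u 1 :=
  ⟨by rw [swap_mul_eq_mul_swap, show u⁻¹ a = u a from Perm.inv_eq_iff_eq.2 (u2 h a).symm, show u⁻¹ (u a) = a from u.symm_apply_apply a,
    swap_comm], by simp, fun b => by
    by_cases h1 : b = a
    · exact ⟨1, by rw [h1, swap_apply_left, pow_one]⟩
    by_cases h2 : b = u a
    · exact ⟨1, by rw [h2, swap_apply_right, pow_one, u2 h]⟩
    exact ⟨0, swap_apply_of_ne_of_ne h1 h2⟩⟩

theorem BE_or (h : u.cycleType = .replicate w 2) (hx : x ∈ BE u 1) (a : α) : x a = a ∨ x a = u a := by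
  obtain ⟨k, e⟩ := hx.2.2 a
  rw [e]
  clear e
  induction k with
  | zero => exact .inl rfl
  | succ k ih => rw [pow_succ', mul_apply]; exact ih.symm.imp (fun e => by rw [e, u2 h]) fun e => by rw [e]

theorem nd (h : u.cycleType = .replicate w 2) (ha : u a ≠ a) (hc : u c ≠ c) (h1 : c ≠ a) (h2 : c ≠ u a) : [a, u a, c, u c].Nodup := by
  have : u c ≠ a := fun e => h2 (by rw [← e, u2 h])
  simp [ha.symm, hc.symm, h1.symm, h2.symm, this.symm]

theorem mem_BE (h : u.cycleType = .replicate w 2) (h3 : 3 ≤ w) (hc : x * u = u * x) (hs : x.support ⊆ u.support)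
    (he : ∀ e ∈ BE u 1, sign e = 1 → x * e = e * x) : x ∈ BE u 1 := ⟨hc, by simp, fun a => by
  by_cases ha : u a = a
  · exact ⟨0, by_contra fun n => mem_support.1 (hs (mem_support.2 n)) ha⟩
  obtain ⟨c, h1, h2⟩ := exists_mem_notMem_of_card_lt_card (s := {a, u a, x a, u (x a)}) (t := u.support)
    (card_le_four.trans_lt (by rw [← sum_cycleType, h, Multiset.sum_replicate, smul_eq_mul]; omega))
  simp only [mem_insert, mem_singleton, not_or] at h2
  rw [mem_support] at h1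
  have n := nd h ha h1 h2.1 h2.2.1
  simp only [List.nodup_cons, List.mem_cons, not_or, List.not_mem_nil] at n
  have := cm_ap (he _ ((BG u 1).mul_mem (sw_BE h a) (sw_BE h c)) (by simp [Ne.symm ha, Ne.symm h1])) a
  rw [mul_apply, swap_apply_of_ne_of_ne n.1.2.1 n.1.2.2.1, swap_apply_left, cm_ap hc] at this
  by_cases e1 : x a = a
  · exact ⟨0, e1⟩
  by_cases e2 : x a = u a
  · exact ⟨1, e2⟩
  rw [mul_apply, swap_apply_of_ne_of_ne (Ne.symm h2.2.2.1) (fun e => h2.2.2.2 (by rw [e, u2 h])), swap_apply_of_ne_of_ne e1 e2,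
    fix_iff hc] at this
  exact (ha this).elim⟩
end

section
variable {n : ℕ} {H : Type u} [Group H] [Finite H] {π : H →* Perm (Fin n)}

/-- the map to the alternating group -/
def fA (c : Cov π) : H →* alternatingGroup (Fin n) := π.codRestrict _ fun x => c.range.le ⟨x, rfl⟩

theorem fA_surj (c : Cov π) : Function.Surjective (fA c) := fun x => (c.range.ge x.2).imp fun _ e => Subtype.ext e

theorem fA_ker (c : Cov π) : (fA c).ker = π.ker := π.ker_codRestrict _ _

theorem dom_blk (c : Cov π) (hk : IsPGroup 2 π.ker) {M B D χ θ} (b : Blk (H := H) 2 M B D χ) (h : θ ∈ H8.dom (fA c) (fA_surj c) B) :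
    Blk 2 M (H8.dom (fA c) (fA_surj c) B) (D.map (fA c)) θ := by
  have r : H8.RegInj 2 (fA c) ⊤ := H8.regInj_of_cent (by rw [inf_top_eq, fA_ker]; exact hk) fun x _ _ g hg =>
    (mem_center_iff.1 (c.cen (fA_ker c ▸ hg.1)) x).symm
  exact ⟨b.hM, H8.isPBlock_dom b.hM r b.hB, H8.isDefectGroup_dom b.hM r b.hB b.hD, h⟩

theorem map_fA (c : Cov π) (D : Subgroup H) : (D.map (fA c)).map (alternatingGroup (Fin n)).subtype = D.map π := map_map _ _ _
end

theorem p2a (alt : ALT2) (sc : SC.{u}) (fin : FIN.{u}) : P2A.{u} := by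
  intro n H _ _ π c hk M B D χ b
  have k0 := card_eq_one.1 hk
  obtain ⟨θ, rfl⟩ := H7.exists_infl_eq (f := fA c) (hf := fA_surj c) (χ := χ) (by rw [fA_ker, k0]; exact bot_le)
  obtain ⟨P, E, u, w, h1, -, h3, h4, h5, h6, h7, h8, -, h10, -, h12⟩ := alt n M _ _ θ
    (dom_blk c (k0 ▸ IsPGroup.of_bot) b b.hχ) (by have := c.five; omega)
  rw [map_fA] at h1
  by_cases w3 : w ≤ 2
  · refine (fin H 2 M B D _ b).1 (.inl ?_)
    rw [card_map_ker (fA c) D, fA_ker, k0, bot_inf_eq, card_bot, one_mul]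
    exact h10 w3
  have hE : ∀ e, e ∈ E ↔ e ∈ BE u 1 := fun e => h5 ▸ Iff.rfl
  refine (fin H 2 M B D _ b).2 (w - 1) (good_of sc (fun x _ e => mem_bot.1 (k0.le e)) (E := E ⊓ alternatingGroup _)
    (h1 ▸ inf_le_inf_right _ h6) (fun x hx => ⟨fun h e he => BE_comm ((hE _).1 h.1) ((hE _).1 he.1), fun h => ?_⟩) ?_) ?_
  · rw [h1] at hx
    exact ⟨(hE _).2 (mem_BE h4 (by omega) (h3 x hx.1) (h8 x hx.1) fun e he s => h e ⟨(hE _).2 he, s⟩), hx.2⟩
  · obtain ⟨a, ha⟩ : u.support.Nonempty := card_pos.1 (by rw [← sum_cycleType, h4, Multiset.sum_replicate, smul_eq_mul]; omega)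
    have e := card_map_ker (H := Perm (Fin n)) sign E
    have : 1 < Nat.card (E.map sign) := (one_lt_card_iff_ne_bot _).2 fun z => by
      have := mem_bot.1 (z.le ⟨_, (hE _).2 (sw_BE h4 a), rfl⟩)
      rw [sign_swap (mem_support.1 ha).symm] at this
      exact absurd this (by decide)
    rw [inf_comm, show alternatingGroup (Fin n) = sign.ker from rfl]
    obtain ⟨k, rfl⟩ : ∃ k, w = k + 1 := ⟨w - 1, by omega⟩
    rw [pow_succ] at h7
    rw [Nat.add_sub_cancel]
    nlinarith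
  · have e := congrArg (·.factorization 2) (card_cov c)
    simp only [hk, one_mul, Nat.factorization_mul two_ne_zero Nat.card_pos.ne', Finsupp.add_apply, Nat.prime_two.factorization_self] at e
    have : charDegree (H7.infl (fA c) (fA_surj c) θ).1 = charDegree θ.1 := by
      change ⌊(θ.1 (fA c 1)).re⌋₊ = _
      rw [map_one]; rfl
    rw [this]
    omega

theorem cen_le {D : Type*} [Group D] [Finite D] {p : ℕ} (hp : p.Prime) (h : ¬ IsMulCommutative D) : ¬ (center D).index ∣ p := fun d =>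
  have := Fact.mk hp
  have : IsCyclic (D ⧸ center D) := isCyclic_of_card_dvd_prime d
  h ⟨⟨commutative_of_cyclic_center_quotient (QuotientGroup.mk' _) (QuotientGroup.ker_mk' _).le⟩⟩

theorem p2s (alt : ALT2) (spg : SPG) (emb : EMB.{u}) : P2S.{u} := by
  intro n H _ _ π c hk M B D χ b
  obtain ⟨G, _, _, π', z, τ, S⟩ := spg n
  obtain ⟨e, he⟩ := emb n H π c hk G π' z S.ker S.anti
  have anti : ∀ (x g : H) (a b c d : Fin n), [a, b, c, d].Nodup → π g = swap a b * swap c d → (π x a = b ∧ π x b = a ∧ π x c = c ∧ π x d = d) ∨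
      (π x a = c ∧ π x c = a ∧ π x b = d ∧ π x d = b) → x * g ≠ g * x := fun x g a b c d h1 h2 h3 h4 =>
    S.anti (e x) (e g) a b c d h1 (e x).2 (by rwa [he]) (by rwa [he]) (by rw [← Subgroup.coe_mul, ← map_mul, h4, map_mul, Subgroup.coe_mul])
  have k2 : IsPGroup 2 π.ker := .of_card (n := 1) hk
  obtain ⟨θ, hθ⟩ := H8.dom_nonempty b.hM (fA_surj c) (fA_ker c ▸ k2) b.hB
  obtain ⟨P, E, u, w, h1, -, h3, h4, h5, h6, -, h8, h9, h10, h11, -⟩ := alt n M _ _ θ (dom_blk c k2 b hθ) (by have := c.five; omega)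
  rw [map_fA] at h1
  have hE : ∀ e, e ∈ E ↔ e ∈ BE u 1 := fun e => h5 ▸ Iff.rfl
  have cD := card_map_ker (fA c) D
  have ck : Nat.card ↥((fA c).ker ⊓ D) ≤ 2 := hk ▸ fA_ker c ▸ card_le_of_le inf_le_left
  by_cases w1 : w ≤ 1
  · rw [h9 w1, card_bot] at cD
    exact .inl (by omega)
  obtain ⟨a, d, n1, s⟩ := h11 (by omega)
  have n2 := n1
  simp only [List.nodup_cons, List.mem_cons, not_or, List.not_mem_nil] at n2
  have lE : ∀ a d, u a ≠ a → u d ≠ d → ∃ g ∈ D, π g = swap a (u a) * swap d (u d) := fun a d ha hd =>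
    h1.ge ⟨h6 ((hE _).2 ((BG u 1).mul_mem (sw_BE h4 a) (sw_BE h4 d))), by simp [ha.symm, hd.symm]⟩
  obtain ⟨g, hg, eg⟩ : ∃ g ∈ D, π g = swap a d * swap (u a) (u d) := h1.ge ⟨s, by simp [n2.1.1]⟩
  have nc : ¬ IsMulCommutative D := fun h => by
    obtain ⟨x, hx, ex⟩ := lE a d (Ne.symm n2.1.2.1) (Ne.symm n2.2.1.2.1)
    refine anti x g a d _ _ n1 eg (.inr ?_) (congrArg Subtype.val (h.is_comm.comm ⟨x, hx⟩ ⟨g, hg⟩))
    simp only [ex, mul_apply, swap_apply_def]
    grind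
  refine .inr ⟨nc, ?_⟩
  by_cases w2 : w ≤ 2
  · have := h10 w2
    have h := (center D).card_mul_index
    have h' := cen_le Nat.prime_two nc
    have h0 : (center D).index ≠ 0 := index_ne_zero_of_finite
    have : Nat.card D ≤ 8 := by nlinarith
    by_contra! k
    have : (center D).index ≤ 2 := by nlinarith
    interval_cases (center D).index <;> simp at h' h0
  refine hk ▸ Nat.card_le_card_of_injective (fun x => (⟨x.1.1, ?_⟩ : π.ker)) fun x y e => Subtype.ext (Subtype.ext (congrArg (·.1) e))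
  have cx : ∀ g ∈ D, x.1.1 * g = g * x.1.1 := fun g hg => congrArg Subtype.val (mem_center_iff.1 x.2 ⟨g, hg⟩).symm
  have xP := h1.le ⟨_, x.1.2, rfl⟩
  have xE := mem_BE h4 (by omega) (h3 _ xP.1) (h8 _ xP.1) fun e he s => by
    obtain ⟨g, hg, rfl⟩ := h1.ge ⟨h6 ((hE _).2 he), s⟩
    rw [← map_mul, cx g hg, map_mul]
  by_contra nx
  obtain ⟨a', ha'⟩ : ∃ a', π x.1.1 a' ≠ a' := by_contra fun h => nx (Equiv.ext fun a => by_contra fun h' => h ⟨a, h'⟩)
  have e1 := (BE_or h4 xE a').resolve_left ha'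
  by_cases h : ∃ d', u d' ≠ d' ∧ π x.1.1 d' = d'
  · obtain ⟨d', e2, e3⟩ := h
    obtain ⟨g, hg, eg⟩ := lE a' d' (e1 ▸ ha') e2
    have e4 : π x.1.1 (u a') = a' := by rw [cm_ap xE.1, e1, u2 h4]
    exact anti _ g a' _ d' _ (nd h4 (e1 ▸ ha') e2 (fun e => ha' (e ▸ e3)) fun e => ha' (by rw [e1, ← e, ← e3, e, e4])) eg
      (.inl ⟨e1, e4, e3, by rw [cm_ap xE.1, e3]⟩) (cx g hg)
  · push Not at h
    have k : ∀ b, u b ≠ b → π x.1.1 b = u b := fun b hb => (BE_or h4 xE b).resolve_left (h b hb)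
    have k1 := k a (Ne.symm n2.1.2.1)
    have k2 := k d (Ne.symm n2.2.1.2.1)
    exact anti _ g a d _ _ n1 eg (.inr ⟨k1, by rw [cm_ap xE.1, k1, u2 h4], k2, by rw [cm_ap xE.1, k2, u2 h4]⟩) (cx g hg)

end H23.RB
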