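import Cfsg.Agent.H23.RB2
import Cfsg.Agent.H27.Alt2

/-! S4578: chunk `SM` (degrees at most seven). -/

set_option autoImplicit false

namespace H23.RB
open Cfsg Finset Equiv Equiv.Perm H7.Sn H26.RB Subgroup
open scoped Nat commutatorElement

universe u

/-- transfer into an abelian subgroup of a perfect group -/
theorem tr_pow {H : Type*} [Group H] [Finite H] (h : commutator H = ⊤) {D : Subgroup H} (hD : IsMulCommutative D) {z : H}
    (hz : z ∈ center H) : z ^ D.index = 1 := by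
  letI : CommGroup D := { (inferInstance : Group D) with mul_comm := hD.is_comm.comm }
  have h1 := MonoidHom.transfer_eq_pow (MonoidHom.id D) z fun k g _ => by
    rw [mul_assoc, ← mem_center_iff.1 (pow_mem hz k), inv_mul_cancel_left]
  rw [Abelianization.commutator_subset_ker _ (h.ge (mem_top z))] at h1
  exact congrArg Subtype.val h1.symm

section
variable {β : Type*} [Fintype β] [DecidableEq β] {g : Perm β}

theorem t22 (h7 : Fintype.card β ≤ 7) (hs : sign g = 1) (h2 : g ^ 2 = 1) (h1 : g ≠ 1) : g.cycleType = {2, 2} := by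
  have e := cycleType_of_pow_prime_eq_one h2
  have s := g.sum_cycleType_le
  have n := mt card_cycleType_eq_zero.1 h1
  rw [sign_of_cycleType] at hs
  generalize g.cycleType.card = m at *
  rw [e, Multiset.sum_replicate, smul_eq_mul] at s hs
  have : m ≤ 3 := by omega
  interval_cases m
  · exact (n rfl).elim
  · exact absurd hs (by decide)
  · exact e
  · exact absurd hs (by decide)

theorem t42 (h7 : Fintype.card β ≤ 7) (hs : sign g = 1) {k : ℕ} (hk : g ^ 2 ^ k = 1) (h2 : g ^ 2 ≠ 1) : g.cycleType = {4, 2} := by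
  have s := g.sum_cycleType_le
  have d : ∀ c ∈ g.cycleType, c = 2 ∨ c = 4 := fun c hc => by
    obtain ⟨j, -, rfl⟩ := (Nat.dvd_prime_pow Nat.prime_two).1 ((dvd_of_mem_cycleType hc).trans (orderOf_dvd_of_pow_eq_one hk))
    have h1 := two_le_of_mem_cycleType hc
    have h3 := (Multiset.le_sum_of_mem hc).trans (s.trans h7)
    have : j < 3 := (Nat.pow_lt_pow_iff_right one_lt_two).1 (by omega)
    interval_cases j <;> simp at h1 ⊢
  obtain ⟨m, e⟩ : ∃ m, g.cycleType = 4 ::ₘ m := Multiset.exists_cons_of_mem (by_contra fun n =>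
    h2 (pow_prime_eq_one_iff.2 fun c hc => (d c hc).resolve_right fun e => n (e ▸ hc)))
  rw [sign_of_cycleType] at hs
  rw [e] at hs s d ⊢
  rw [Multiset.sum_cons] at s
  have e2 : m = .replicate m.card 2 := Multiset.eq_replicate.2 ⟨rfl, fun c hc => (d c (Multiset.mem_cons_of_mem hc)).resolve_right fun e => by
    have := Multiset.le_sum_of_mem hc; omega⟩
  generalize m.card = j at e2
  subst e2
  rw [Multiset.sum_replicate, smul_eq_mul] at s
  have : j ≤ 1 := by omega
  interval_cases j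
  · exact absurd hs (by decide)
  · rfl

theorem cen42 (h7 : Fintype.card β ≤ 7) (h : g.cycleType = {4, 2}) : Nat.card (centralizer {g}) = 8 := by
  have s := g.sum_cycleType_le
  rw [nat_card_centralizer, h] at *
  have : Fintype.card β - ({4, 2} : Multiset ℕ).sum ≤ 1 := by simp at s ⊢; omega
  rw [Nat.factorial_eq_one.2 this]; decide

/-- abelian `2`-subgroups of small alternating groups -/
theorem ab_le (h7 : Fintype.card β ≤ 7) {A : Subgroup (Perm β)} (hA : A ≤ alternatingGroup β) (h2 : IsPGroup 2 A)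
    (hc : ∀ x ∈ A, ∀ y ∈ A, x * y = y * x) : Nat.card A ≤ 4 := by
  by_cases h : ∀ x ∈ A, x ^ 2 = 1
  · classical
    have := Fintype.ofFinite A
    have := Fintype.ofFinite (Quotient (MulAction.orbitRel A β))
    have e := MulAction.sum_card_fixedBy_eq_card_orbits_mul_card_group A β
    have k : ∀ x : A, Fintype.card (MulAction.fixedBy β x) + #x.1.support = Fintype.card β := fun x => by
      rw [← card_add_card_compl x.1.support, add_comm, Fintype.card_subtype]
      congr 2; ext a; simp [MulAction.mem_fixedBy, Subgroup.smul_def]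
    have e2 := Finset.sum_congr rfl fun (x : A) (_ : x ∈ univ) => k x
    have e3 : ∑ x : A, #x.1.support + 4 = Fintype.card A * 4 := by
      rw [← add_sum_erase _ _ (mem_univ 1), Finset.sum_congr rfl fun (x : A) (hx : x ∈ univ.erase 1) => show #x.1.support = 4 by
        rw [← sum_cycleType, t22 h7 (hA x.2) (h _ x.2) fun e => (mem_erase.1 hx).1 (Subtype.ext e)]; rfl, sum_const,
        card_erase_of_mem (mem_univ _), card_univ, smul_eq_mul]
      have := Fintype.card_pos (α := A)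
      simp; omega
    rw [sum_add_distrib, e, sum_const, card_univ, smul_eq_mul] at e2
    rw [Nat.card_eq_fintype_card]
    refine Nat.le_of_dvd (by norm_num) ((Nat.dvd_add_right (dvd_mul_right _ (Fintype.card β))).1 ?_)
    rw [← e2, add_assoc, e3]
    exact dvd_add (dvd_mul_left _ _) (dvd_mul_right _ _)
  push Not at h
  obtain ⟨x, hx, h⟩ := h
  obtain ⟨k, hk⟩ := h2 ⟨x, hx⟩
  have t := t42 h7 (hA hx) (congrArg Subtype.val hk) h
  have le : A ≤ centralizer {x} := fun y hy => mem_centralizer_singleton_iff.2 (hc y hy x hx)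
  have d := cen42 h7 t ▸ card_dvd_of_le le
  by_contra! l
  have e : A = centralizer {x} := eq_of_le_of_card_ge le (by
    rw [cen42 h7 t]
    have := Nat.le_of_dvd (by norm_num) d
    interval_cases Nat.card A <;> simp_all)
  obtain ⟨c, h1, h3⟩ := Multiset.mem_map.1 (cycleType_def x ▸ t ▸ (by decide) : 4 ∈ x.cycleFactorsFinset.1.map (Finset.card ∘ support))
  have := mem_alternatingGroup.1 (hA (e.ge (mem_centralizer_singleton_iff.2 (self_mem_cycle_factors_commute h1))))
  rw [(mem_cycleFactorsFinset_iff.1 h1).1.sign, show #c.support = 4 from h3] at this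
  exact absurd this (by decide)
end

/-- involutions lie in the kernel -/
theorem sq_ker {n : ℕ} {H : Type u} [Group H] [Finite H] {π : H →* Perm (Fin n)} (c : Cov π) (h7 : n ≤ 7) (h6 : Nat.card π.ker ∣ 6)
    {z : H} (hz : π z = 1) (z1 : z ≠ 1) (z2 : z ^ 2 = 1) {x : H} (hx : x ^ 2 = 1) : π x = 1 := by
  obtain ⟨m, rfl⟩ : ∃ m, n = m + 2 := ⟨n - 2, by have := c.five; omega⟩
  have cz : ∀ {k}, π k = 1 → ∀ g, g * k = k * g := fun hk => mem_center_iff.1 (c.cen hk)
  let N : Subgroup H :=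
    { carrier := {k | π k = 1 ∧ k ^ 3 = 1}
      one_mem' := ⟨map_one π, one_pow 3⟩
      mul_mem' := fun {a b} ha hb => ⟨by rw [map_mul, ha.1, hb.1, mul_one], by rw [Commute.mul_pow (cz hb.1 a), ha.2, hb.2, mul_one]⟩
      inv_mem' := fun {a} ha => ⟨by rw [map_inv, ha.1, inv_one], by rw [inv_pow, ha.2, inv_one]⟩ }
  haveI : N.Normal := ⟨fun k hk g => by rwa [cz hk.1, mul_inv_cancel_right]⟩
  let f := (H27.A2.eF m).toMonoidHom.comp (fA c)
  have f1 : ∀ k, f k = 1 ↔ π k = 1 := fun k => (H27.A2.eF m).map_eq_one_iff.trans Subtype.ext_iff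
  let ρ := QuotientGroup.lift N f fun k hk => (f1 k).2 hk.1
  have hc : ρ.ker ≤ center _ := fun k hk => mem_center_iff.2 fun g => by
    obtain ⟨k, rfl⟩ := QuotientGroup.mk_surjective k
    obtain ⟨g, rfl⟩ := QuotientGroup.mk_surjective g
    exact congrArg QuotientGroup.mk (cz ((f1 k).1 hk) g)
  by_contra n
  refine H27.A2.sq_ne_one (π := ρ) (fun a => ?_) hc (fun k hk => ?_) (fun L hL => z1 ?_) (x := (x : H ⧸ N))
    (t22 (by simp; omega) (f x).2 (by rw [← Subgroup.coe_pow, ← map_pow, ← QuotientGroup.mk_pow, hx]; simp)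
      fun e => n ((f1 x).1 (Subtype.ext e))) (by rw [← QuotientGroup.mk_pow, hx]; rfl)
  · obtain ⟨b, rfl⟩ := (H27.A2.eF m).surjective a
    obtain ⟨g, rfl⟩ := fA_surj c b
    exact ⟨g, rfl⟩
  · obtain ⟨k, rfl⟩ := QuotientGroup.mk_surjective k
    have := (f1 k).1 hk
    exact (QuotientGroup.eq_one_iff (k ^ 2)).2 ⟨by rw [map_pow, this, one_pow], by
      rw [← pow_mul]; exact orderOf_dvd_iff_pow_eq_one.1 ((π.ker.orderOf_dvd_natCard this).trans h6)⟩
  · have top : ⊤ ≤ L := by
      rw [← map_top_of_surjective _ (QuotientGroup.mk'_surjective N), ← c.perf, _root_.commutator_def, map_commutator]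
      refine commutator_le.2 fun a _ b _ => ?_
      obtain ⟨⟨⟨k, hk⟩, ⟨l, hl⟩⟩, rfl⟩ := hL.2 a
      obtain ⟨⟨⟨k', hk'⟩, ⟨l', hl'⟩⟩, rfl⟩ := hL.2 b
      have e : ∀ k ∈ ρ.ker, ∀ x, k * x * k⁻¹ = x := fun k hk x => by rw [← mem_center_iff.1 (hc hk), mul_inv_cancel_right]
      change k * l * (k' * l') * (k * l)⁻¹ * (k' * l')⁻¹ ∈ L
      rw [show k * l * (k' * l') * (k * l)⁻¹ = k * (l * (k' * l') * l⁻¹) * k⁻¹ by group, e k hk,
        show l * (k' * l') * l⁻¹ * (k' * l')⁻¹ = l * (k' * (l' * l⁻¹ * l'⁻¹) * k'⁻¹) by group, e k' hk']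
      exact mul_mem hl (mul_mem (mul_mem hl' (inv_mem hl)) (inv_mem hl'))
    have := (QuotientGroup.eq_one_iff z).1 (disjoint_def.1 hL.disjoint ((f1 z).2 hz) (top (mem_top _)))
    rw [← this.2, pow_succ, z2, one_mul]

theorem sm (ker : KER.{u}) : SM.{u} := by
  intro n H _ _ π c h7 p hp' y P hy
  have hp := hp'.out
  have h6 := (ker n H π c).1
  set D := P.1.map (centralizer {y}).subtype with hDe
  have hD : IsPGroup p D := P.isPGroup'.map _
  obtain ⟨k, hk⟩ := IsPGroup.iff_card.1 hD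
  obtain ⟨j, hj⟩ := IsPGroup.iff_card.1 (hD.to_subgroup (center D))
  obtain ⟨i, hi⟩ := hD.index (center D)
  have cD := card_map_ker π D
  have c1 : Nat.card (D.map π) ∣ 2520 := by
    haveI : Nontrivial (Fin n) := Fin.nontrivial_iff_two_le.2 (by have := c.five; omega)
    have := two_mul_nat_card_alternatingGroup (α := Fin n)
    rw [Nat.card_perm, Nat.card_eq_fintype_card (α := Fin n), Fintype.card_fin] at this
    exact (card_dvd_of_le (c.range ▸ map_le_range π D)).trans (Nat.dvd_of_mul_dvd_mul_left two_pos (this ▸ Nat.factorial_dvd_factorial h7))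
  have c2 : Nat.card ↥(π.ker ⊓ D) ∣ 6 := (card_dvd_of_le inf_le_left).trans h6
  have c3 : Nat.card ↥(π.ker ⊓ D) ∣ p ^ k := hk ▸ card_dvd_of_le inf_le_right
  have c4 : Nat.card H ∣ 15120 := Nat.dvd_of_mul_dvd_mul_left two_pos
    (card_cov c ▸ (Nat.mul_dvd_mul h6 (Nat.factorial_dvd_factorial h7)).trans (by decide))
  have ji : j + i = k := Nat.pow_right_injective hp.two_le (by simp only [pow_add, ← hj, ← hi, ← hk, card_mul_index])
  have i2 : ¬ IsMulCommutative D → 2 ≤ i := fun h => by_contra fun l => cen_le hp h (hi ▸ (pow_dvd_pow p (by omega)).trans (pow_one p).dvd)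
  rw [Tiny, hk, hj, Nat.pow_le_pow_iff_right hp.one_lt]
  by_contra! n
  obtain ⟨k3, n⟩ := n
  replace n := fun h => (Nat.pow_lt_pow_iff_right hp.one_lt).1 ((pow_one p).trans_lt (n h))
  have d : p ^ k ∣ 15120 := hk ▸ (card_subgroup_dvd_card D).trans c4
  have d3 := (pow_dvd_pow p k3).trans d
  have ez : Nat.card ↥(π.ker ⊓ D) ≠ 1 → ∃ z ∈ D, π z = 1 ∧ z ≠ 1 := fun h => by
    obtain ⟨z, hz, z1⟩ := (bot_or_exists_ne_one _).resolve_left (mt card_eq_one.2 h)
    exact ⟨z, hz.2, hz.1, z1⟩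
  have tr : IsMulCommutative D → ¬ p ∣ D.index → ∀ z ∈ D, π z = 1 → z = 1 := fun h hx z hz e => by
    obtain ⟨l, hl⟩ := hD ⟨z, hz⟩
    exact (pow_eq_one_iff_of_coprime (Nat.Coprime.pow_left l ((Nat.Prime.coprime_iff_not_dvd hp).2 hx))).1
      ⟨congrArg Subtype.val hl, tr_pow c.perf h (c.cen e)⟩
  obtain rfl | rfl : p = 2 ∨ p = 3 := by
    have : p < 25 := lt_of_pow_lt_pow_left₀ 3 (by norm_num) ((Nat.le_of_dvd (by norm_num) d3).trans_lt (by norm_num))
    exact (by decide : ∀ q < 25, q ^ 3 ∣ 15120 → q = 1 ∨ q = 2 ∨ q = 3 ∨ q = 6) p this d3 |>.resolve_left hp.ne_one |>.imp_right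
      fun e => e.resolve_right (by rintro rfl; exact absurd hp (by decide))
  swap
  · obtain rfl : k = 3 := le_antisymm (not_lt.1 fun l => absurd ((pow_dvd_pow 3 l).trans d) (by decide)) k3
    by_cases h : IsMulCommutative D
    · obtain ⟨z, hz, e, z1⟩ := ez fun e => by
        rw [e, one_mul, hk] at cD
        exact absurd (cD ▸ c1) (by decide)
      refine z1 (tr h (fun x => ?_) z hz e)
      exact absurd ((Nat.mul_dvd_mul_left _ x).trans (hk ▸ D.card_mul_index ▸ c4)) (by decide)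
    · have := n h
      have := i2 h
      omega
  have c5 : Nat.card ↥(π.ker ⊓ D) ∣ 2 := by
    obtain ⟨l, -, e⟩ := (Nat.dvd_prime_pow hp).1 c3
    rw [e] at c2 ⊢
    exact (pow_dvd_pow 2 (show l ≤ 1 from not_lt.1 fun h => absurd ((pow_dvd_pow 2 h).trans c2) (by decide))).trans (pow_one 2).dvd
  have c6 := Nat.le_of_dvd two_pos c5
  have AB := ab_le (A := D.map π) (by simpa using h7) (c.range ▸ map_le_range π D) (hD.map π)
  have SQ : Nat.card ↥(π.ker ⊓ D) ≠ 1 → ∀ x, x ^ 2 = 1 → π x = 1 := fun h x hx => by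
    obtain ⟨z, hz, e, z1⟩ := ez h
    exact sq_ker c h7 h6 e z1 (orderOf_dvd_iff_pow_eq_one.1 (((π.ker ⊓ D).orderOf_dvd_natCard ⟨e, hz⟩).trans c5)) hx
  have k8 : 2 ^ 3 ≤ 2 ^ k := Nat.pow_le_pow_right two_pos k3
  by_cases h : IsMulCommutative D
  · have cm : ∀ x ∈ D, ∀ y ∈ D, x * y = y * x := fun x hx y hy => congrArg Subtype.val (h.is_comm.comm ⟨x, hx⟩ ⟨y, hy⟩)
    have := AB (by rintro _ ⟨x, hx, rfl⟩ _ ⟨y, hy, rfl⟩; rw [← map_mul, cm x hx y hy, map_mul])
    have n1 : Nat.card ↥(π.ker ⊓ D) ≠ 1 := fun e => by rw [e] at cD; omega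
    by_cases h2 : ∀ x ∈ D, π x ^ 2 = 1
    · letI : CommGroup D := { (inferInstance : Group D) with mul_comm := h.is_comm.comm }
      have e := (powMonoidHom 2 : D →* D).ker.card_mul_index
      rw [index_ker] at e
      have l : ∀ X : Subgroup D, (∀ x ∈ X, π x.1 = 1) → Nat.card X ≤ 2 := fun X hX => le_trans (Nat.card_le_card_of_injective
        (fun x => (⟨x.1.1, hX _ x.2, x.1.2⟩ : ↥(π.ker ⊓ D))) fun x y e => Subtype.ext (Subtype.ext (congrArg (·.1) e))) c6
      have l1 := l (powMonoidHom 2 : D →* D).ker fun x hx => SQ n1 _ (congrArg Subtype.val hx)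
      have l2 := l (powMonoidHom 2 : D →* D).range (by rintro _ ⟨x, rfl⟩; exact (map_pow π _ 2).trans (h2 _ x.2))
      nlinarith
    push Not at h2
    obtain ⟨x, hx, h2⟩ := h2
    obtain ⟨l, hl⟩ := hD ⟨x, hx⟩
    have t := cen42 (by simpa using h7) (t42 (by simpa using h7) (c.range.le ⟨x, rfl⟩) (k := l)
      (by rw [← map_pow, show x ^ 2 ^ l = 1 from congrArg Subtype.val hl, map_one]) h2)
    obtain ⟨x, -, rfl⟩ := hx
    have y1 : π y = 1 := (pow_eq_one_iff_of_coprime (Nat.Coprime.pow_left 3 ((Nat.Prime.coprime_iff_not_dvd hp).2 hy))).1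
      ⟨orderOf_dvd_iff_pow_eq_one.1 (((centralizer {π x}).orderOf_dvd_natCard (mem_centralizer_singleton_iff.2 (by
        rw [← map_mul, ← mem_centralizer_singleton_iff.1 x.2, map_mul]))).trans t.dvd), by rw [← map_pow, pow_orderOf_eq_one, map_one]⟩
    obtain ⟨z, hz, e, z1⟩ := ez n1
    refine z1 (tr h ?_ z hz e)
    rw [hDe, index_map_subtype, index_eq_one.2 (eq_top_iff.2 fun g _ => mem_centralizer_singleton_iff.2 (mem_center_iff.1 (c.cen y1) g)),
      mul_one]
    exact P.not_dvd_index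
  have := n h
  have := i2 h
  have k4 : k ≤ 4 := not_lt.1 fun l => absurd ((pow_dvd_pow 2 l).trans d) (by decide)
  obtain rfl : i = 2 := by omega
  obtain rfl : k = 4 := by omega
  have n1 : Nat.card ↥(π.ker ⊓ D) ≠ 1 := fun e => by
    rw [e, one_mul, hk] at cD
    exact absurd (cD ▸ c1) (by decide)
  have s : ∀ a : D, a ^ 2 ∈ center D := fun a => (QuotientGroup.eq_one_iff _).1 (by_contra fun na => by
    have : IsCyclic (D ⧸ center D) := isCyclic_of_orderOf_eq_card (a : D ⧸ center D) (by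
      have := orderOf_dvd_natCard (a : D ⧸ center D)
      rw [show Nat.card (D ⧸ center D) = 2 ^ 2 from hi] at this ⊢
      exact orderOf_eq_prime_pow (n := 1) na (orderOf_dvd_iff_pow_eq_one.1 this))
    exact h ⟨⟨commutative_of_cyclic_center_quotient (QuotientGroup.mk' _) (QuotientGroup.ker_mk' _).le⟩⟩)
  have := AB (by
    rintro _ ⟨a, ha, rfl⟩ _ ⟨b, hb, rfl⟩
    rw [← mul_inv_eq_one, ← map_mul, ← map_mul, ← map_inv, ← map_mul]
    refine SQ n1 _ ?_
    have e : ∀ a ∈ D, ∀ g ∈ D, g * a ^ 2 = a ^ 2 * g := fun a ha g hg => congrArg Subtype.val (mem_center_iff.1 (s ⟨a, ha⟩) ⟨g, hg⟩)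
    obtain ⟨q, hq⟩ : ∃ q, q = a * b * (b * a)⁻¹ := ⟨_, rfl⟩
    have qc : ∀ g ∈ D, g * q = q * g := fun g hg => by
      rw [show q = a ^ 2 * (a⁻¹ * b) ^ 2 * b⁻¹ ^ 2 by rw [hq, sq, sq, sq]; group]
      exact Commute.mul_right (Commute.mul_right (e a ha g hg) (e _ (mul_mem (inv_mem ha) hb) g hg)) (e _ (inv_mem hb) g hg)
    have e1 : a * b * a⁻¹ = q * b := by rw [hq]; group
    have e2 : a ^ 2 * b * (a ^ 2)⁻¹ = q ^ 2 * b := by
      rw [show a ^ 2 * b * (a ^ 2)⁻¹ = a * (a * b * a⁻¹) * a⁻¹ by rw [sq]; group, e1, ← mul_assoc, qc a ha, mul_assoc q, mul_assoc q, e1, sq,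
        mul_assoc]
    rw [← e a ha b hb, mul_inv_cancel_right] at e2
    rw [← hq]; exact (mul_eq_right.1 e2.symm))
  nlinarith

end H23.RB
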