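import Cfsg.Agent.H9.RL0
import Cfsg.Agent.H1.PConstr
import Cfsg.Agent.H1.Wielandt

/-! S3860, chunks `RED`, `S1`. -/

set_option autoImplicit false

namespace H23.RL
open Cfsg Subgroup H19 H17.GS H9.RL

universe u
variable {G : Type u} [Group G] [Finite G]

theorem syl_card {P H : Subgroup G} (h : Syl 2 P H) : #P = 2 ^ (#H).factorization 2 := by
  obtain ⟨k, hk⟩ := h.pi.exists_card
  rw [← h.card_mul, Nat.factorization_mul (card_ne_zero _) (relIndex_ne_zero' _ _), Finsupp.add_apply,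
    Nat.factorization_eq_zero_of_not_dvd (h.not_dvd Nat.prime_two), hk, Nat.Prime.factorization_pow Nat.prime_two]
  simp

theorem fac_comap {B : Type u} [Group B] {π : G →* B} (hs : Function.Surjective π) (o : Odd #π.ker) (Y : Subgroup B) :
    (#(Y.comap π)).factorization 2 = (#Y).factorization 2 := by
  haveI := Finite.of_surjective π hs
  rw [H1.card_comap_of_surjective hs, Nat.factorization_mul (card_ne_zero _) (card_ne_zero _), Finsupp.add_apply,
    Nat.factorization_eq_zero_of_not_dvd o.not_two_dvd_nat, add_zero]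

/-- real elements lift modulo a normal subgroup of odd order, with the `2`-part of the centralizer -/
theorem lift {B : Type u} [Group B] {π : G →* B} (hs : Function.Surjective π) (o : Odd #π.ker) {ξ : B} (r : Re ξ) :
    ∃ y, π y = ξ ∧ Re y ∧ (#C[y]).factorization 2 = (#C[ξ]).factorization 2 := by
  haveI : Fact (Nat.Prime 2) := ⟨Nat.prime_two⟩
  obtain ⟨γ, r⟩ := r
  obtain ⟨g, rfl⟩ := hs γ
  obtain ⟨P, hP⟩ := exists_syl 2 (C[ξ].comap π)
  have mD : ∀ {d : G}, d ∈ C[ξ].comap π ↔ π d * ξ * (π d)⁻¹ = ξ := by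
    intro d; rw [mem_comap, mem_cent1, mul_inv_eq_iff_eq_mul]
  have gD : g ∈ N(C[ξ].comap π) := mem_norm_of_cj_le fun w hw => by
    obtain ⟨d, a, rfl⟩ := mem_cj'.1 hw
    have r' : π g * ξ⁻¹ * (π g)⁻¹ = ξ := by rw [← conj_inv, r, inv_inv]
    have e : (π g)⁻¹ * ξ * π g = ξ⁻¹ := by nth_rewrite 1 [← r']; group
    have a' : π d * ξ⁻¹ * (π d)⁻¹ = ξ⁻¹ := by rw [← conj_inv, mD.1 a]
    rw [mD, map_mul, map_mul, map_inv]
    calc _ = π g * (π d * ((π g)⁻¹ * ξ * π g) * (π d)⁻¹) * (π g)⁻¹ := by group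
      _ = ξ := by rw [e, a', r']
  obtain ⟨d, hd, n, hn, rfl⟩ := (mem_sup_of_norm (inf_le_left.trans le_rfl)).1
    ((hP.frattini ⟨le_normalizer, le_rfl⟩).ge gD)
  have rn : π n * ξ * (π n)⁻¹ = ξ⁻¹ := by
    have := mD.1 (inv_mem hd)
    rw [map_mul] at r
    calc _ = (π d)⁻¹ * (π d * π n * ξ * (π d * π n)⁻¹) * π d := by group
      _ = ξ⁻¹ := by rw [r, ← inv_inj]; simpa [mul_assoc] using this
  obtain ⟨k, m, om, e⟩ := Nat.exists_eq_two_pow_mul_odd (orderOf_pos n).ne'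
  obtain ⟨t, ht⟩ : ∃ t, t = n ^ m := ⟨_, rfl⟩
  have n2 : n * n ∈ C[ξ].comap π := mD.2 (by
    rw [map_mul, show π n * π n * ξ * (π n * π n)⁻¹ = π n * (π n * ξ * (π n)⁻¹) * (π n)⁻¹ by group, rn, ← conj_inv, rn,
      inv_inv])
  have rt : π t * ξ * (π t)⁻¹ = ξ⁻¹ := by
    obtain ⟨j, rfl⟩ := om
    rw [ht, pow_succ', pow_mul, sq, map_mul,
      show ∀ a b : B, a * b * ξ * (a * b)⁻¹ = a * (b * ξ * b⁻¹) * a⁻¹ from fun _ _ => by group, mD.1 (pow_mem n2 j), rn]
  have tP : t ∈ N(P) := ht ▸ pow_mem hn.2 m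
  have t2 : t * t ∈ P := hP.le_of_norm (K := zpowers (t * t)) (zpowers_le.2 (by
      rw [ht, ← (Commute.refl n).mul_pow]; exact pow_mem n2 m))
    (piG_zpowers.2 fun p a b => (Nat.prime_dvd_prime_iff_eq a Nat.prime_two).1 (a.dvd_of_dvd_pow (n := k) (b.trans
      (orderOf_dvd_of_pow_eq_one (by rw [← sq, ← pow_mul, mul_comm, pow_mul, ht, ← pow_mul n, mul_comm m, ← e,
        pow_orderOf_eq_one, one_pow])))))
    (zpowers_le.2 (mul_mem tP tP)) (mem_zpowers _)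
  obtain ⟨x, rfl⟩ := hs ξ
  obtain ⟨c, hc, z, hz, rfl⟩ := mem_sup_of_normal_right.1 ((H1.comap_centralizer_map_of_coprime π hP.pi.isPGroup
    (Nat.coprime_two_right.2 o)).le (show x ∈ _ from by
      rintro _ ⟨p, a, rfl⟩; exact mem_cent1.1 (hP.le a)))
  rw [map_mul, MonoidHom.mem_ker.1 hz, mul_one] at *
  let F := {y : G // π y = π c ∧ y ∈ C(P)}
  have cF : Nat.card F = #(π.ker ⊓ C(P)) := Nat.card_congr
    ⟨fun y => ⟨c⁻¹ * y.1, by simp [y.2.1], C(P).mul_mem (C(P).inv_mem hc) y.2.2⟩,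
      fun y => ⟨c * y.1, by simp [MonoidHom.mem_ker.1 y.2.1], C(P).mul_mem hc y.2.2⟩, fun y => by simp, fun y => by simp⟩
  let σ : Function.End F := fun y => ⟨(t * y.1 * t⁻¹)⁻¹, by
    rw [map_inv, map_mul, map_mul, map_inv, y.2.1, rt, inv_inv],
    inv_mem (conj_mem_of_norm (norm_le_norm_cent _ tP) y.2.2)⟩
  classical
  haveI := Fintype.ofFinite F
  have := Equiv.Perm.card_fixedPoints_modEq (f := σ) (p := 2) (n := 1) (funext fun y => Subtype.ext (by
    change (t * (t * y.1 * t⁻¹)⁻¹ * t⁻¹)⁻¹ = y.1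
    rw [show (t * (t * y.1 * t⁻¹)⁻¹ * t⁻¹)⁻¹ = t * t * y.1 * (t * t)⁻¹ by simp [mul_assoc], y.2.2 _ t2,
      mul_inv_cancel_right]))
  rw [← Nat.card_eq_fintype_card, cF] at this
  obtain ⟨⟨y, hy⟩⟩ : Nonempty σ.fixedPoints := Fintype.card_pos_iff.1 (Nat.pos_of_ne_zero fun e =>
    (o.of_dvd_nat (card_dvd inf_le_left)).not_two_dvd_nat ((Nat.modEq_zero_iff_dvd).1 (e ▸ this)))
  refine ⟨y.1, y.2.1, ⟨t, inv_eq_iff_eq_inv.1 (congrArg Subtype.val hy)⟩, ?_⟩
  have s := hP.of_le (K := C[y.1]) (fun p a => mem_cent1.2 (y.2.2 p a)) fun w a =>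
    mem_cent1.2 (by rw [← y.2.1, ← map_mul, mem_cent1.1 a, map_mul])
  rw [← fac_comap hs o]
  exact Nat.pow_right_injective le_rfl ((syl_card s).symm.trans (syl_card hP))

theorem red : RED.{u} := by
  intro main G _ _ a h
  let π := QuotientGroup.mk' (piCore {2}ᶜ G)
  have hs : Function.Surjective π := QuotientGroup.mk'_surjective _
  have o : Odd #π.ker := by rw [QuotientGroup.ker_mk', ← Oc_top]; exact og_iff.1 (Oc_pi _ _)
  obtain ⟨S, s1, s2⟩ := main (G ⧸ piCore {2}ᶜ G) (min a ((Nat.card G).factorization 2))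
    ((Nat.card G).factorization 2 - min a ((Nat.card G).factorization 2))
    ⟨fun ξ r nc P hP => by
      obtain ⟨y, rfl, ⟨g, ry⟩, e⟩ := lift hs o r
      have := h y (isConj_iff.2 ⟨g, ry⟩) fun k => nc (mem_center_iff.2 fun b => by
        obtain ⟨b, rfl⟩ := hs b
        rw [← map_mul, mem_center_iff.1 k, map_mul])
      rw [syl_card hP, ← e, ← card_mul_index C[y], Nat.factorization_mul (card_ne_zero _) index_ne_zero_of_finite,
        Finsupp.add_apply, this]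
      congr 1; omega,
    by rw [Oc_top, H1.piCore_quotient_piCore], fun S hS => by
      rw [syl_card hS, ← fac_comap hs o, comap_top, card_top]; congr 1; omega⟩
  refine ⟨π.ker, S.comap π, inferInstance, inferInstance, ker_le_comap _ _, o, ?_, ?_⟩
  · rw [index_comap_of_surjective _ hs, ← relIndex_top_right, ← Nat.not_even_iff_odd, even_iff_two_dvd]
    exact s1.not_dvd Nat.prime_two
  · rw [relIndex_ker, map_comap_eq_self_of_surjective hs]
    exact s1.pi.exists_card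

theorem s1 : S1.{u} := by
  intro G _ _ h
  haveI : Fact (Nat.Prime 2) := ⟨Nat.prime_two⟩
  have pg : PG 2 (pCore 2 G) := pG_iff.2 H1.pCore_isPGroup
  refine ⟨pCore 2 G, syl_mk le_top pg fun d => ?_, inferInstance⟩
  rw [relIndex_top_right, index_eq_card] at d
  obtain ⟨τ, hτ⟩ := exists_prime_orderOf_dvd_card' 2 d
  obtain ⟨ξ, x1, x2, x3⟩ := H1.exists_odd_inverted (t := τ) (by rw [← sq]; exact orderOf_dvd_iff_pow_eq_one.1 hτ.dvd) (by
    rw [H1.pCore_quotient_pCore, mem_bot]; rintro rfl; simp at hτ)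
  obtain ⟨t, rfl⟩ := QuotientGroup.mk'_surjective _ τ
  obtain ⟨y, rfl⟩ := QuotientGroup.mk'_surjective _ ξ
  have k : ∀ {g}, QuotientGroup.mk' (pCore 2 G) g = 1 ↔ g ∈ pCore 2 G := QuotientGroup.eq_one_iff _
  have nR : ∀ X : Subgroup G, X ≤ N(pCore 2 G) := fun X => le_top.trans (normalizer_eq_top _).ge
  generalize QuotientGroup.mk' (pCore 2 G) = π at *
  let R := pCore 2 G
  obtain ⟨j, hj⟩ := pg.exists_card
  obtain ⟨x, hx⟩ : ∃ x, x = y ^ 2 ^ j := ⟨_, rfl⟩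
  have ox : Odd (orderOf x) := x2.of_dvd_nat (orderOf_dvd_of_pow_eq_one (by
    rw [hx, ← pow_mul, mul_comm, pow_mul]
    exact congrArg Subtype.val (hj ▸ pow_card_eq_one' (x := (⟨y ^ orderOf (π y), k.1 (by rw [map_pow, pow_orderOf_eq_one])⟩ : R)))))
  have nx : x ≠ 1 := fun e => x1 (orderOf_eq_one_iff.1 (Nat.Coprime.eq_one_of_dvd
    ((Nat.coprime_two_right.2 x2).pow_right j) (orderOf_dvd_of_pow_eq_one (by rw [← map_pow, ← hx, e, map_one]))))
  have ix : π t * π x * (π t)⁻¹ = (π x)⁻¹ := by rw [hx, map_pow, ← conj_pow, x3, inv_pow]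
  have og : OG (zpowers x) := og_iff.2 (by rwa [Nat.card_zpowers])
  have i0 : R ⊓ zpowers x = ⊥ := pg.inf_eq_bot og
  have hl : Hall {2}ᶜ (zpowers x) (R ⊔ zpowers x) := ⟨le_sup_right, og, by
    have := card_sup_mul_inf (nR (zpowers x))
    rw [i0, card_bot, mul_one, ← card_mul_relIndex le_sup_right, mul_comm] at this
    rw [compl_compl, Nat.eq_of_mul_eq_mul_right (card_pos _) this]
    exact pg⟩
  have tn : t ∈ N(R ⊔ zpowers x) := mem_norm_of_cj_le (by
    rw [cj_sup, cj_of_mem_norm (nR ⊤ (mem_top t)), cj_zpowers]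
    refine sup_le le_sup_left (zpowers_le.2 ?_)
    have : t * x * t⁻¹ * x ∈ R := k.1 (by simp only [map_mul, map_inv]; rw [ix, inv_mul_cancel])
    simpa using mul_mem (mem_sup_left this) (mem_sup_right (inv_mem (mem_zpowers x))))
  have hl' := hl.J t
  rw [cj_of_mem_norm tn] at hl'
  obtain ⟨g, hg, e⟩ := hl'.conj hl (sol_sup pg.sol (sol_of_cyc inferInstance) (nR _))
  obtain ⟨r, hr, z, ⟨i, rfl⟩, rfl⟩ := (mem_sup_of_norm (nR _)).1 hg
  rw [cj_cj] at e
  refine h x (r * x ^ i * t) ⟨nx, ox, mul_eq_one_iff_eq_inv.1 (mem_bot.1 (i0.le ⟨k.1 ?_,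
    mul_mem (conj_mem_of_norm (mem_norm_iff_cj.2 e) (mem_zpowers x)) (mem_zpowers x)⟩))⟩
  simp only [map_mul, map_inv, map_zpow, k.2 hr, one_mul]
  rw [show π x ^ i * π t * π x * (π x ^ i * π t)⁻¹ = π x ^ i * (π t * π x * (π t)⁻¹) * (π x ^ i)⁻¹ by group, ix]
  group

end H23.RL
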