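import Cfsg.Agent.H11.RS1

/-! S2195, chunk `GEL`: Gelfand's trick against a rank 3 action. -/

set_option autoImplicit false
set_option linter.unusedSectionVars false

open Matrix H13.R3 H11.RS
open scoped ComplexOrder

namespace H23.RS

universe u

section alg
variable {X G : Type*} [Fintype X] [Fintype G] {W : Submodule ℂ (Matrix X G ℂ)}

theorem orth_of (hc : ∀ A ∈ W, ∀ B ∈ W, A * Bᴴ * (B * Aᴴ) = B * Aᴴ * (A * Bᴴ))
    {A B : Matrix X G ℂ} (hA : A ∈ W) (hB : B ∈ W) (h : Aᴴ * B = 0) : B * Aᴴ = 0 := by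
  have h1 : Aᴴ * (A * Bᴴ * (B * Aᴴ)) * A = 0 := by
    rw [hc A hA B hB, ← Matrix.mul_assoc, ← Matrix.mul_assoc Aᴴ B, h]; simp
  have h2 : (B * (Aᴴ * A))ᴴ * (B * (Aᴴ * A)) = 0 := by
    rw [← h1]; simp only [conjTranspose_mul, conjTranspose_conjTranspose, Matrix.mul_assoc]
  rwa [conjTranspose_mul_self_eq_zero, mul_conjTranspose_mul_self_eq_zero] at h2

theorem cube {A : Matrix X G ℂ} (h : A * (Aᴴ * A) = 0) : A = 0 := by
  rwa [mul_conjTranspose_mul_self_eq_zero, self_mul_conjTranspose_eq_zero] at h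

theorem ct0 {m n k : Type*} [Fintype n] {A : Matrix m n ℂ} {B : Matrix k n ℂ} (h : A * Bᴴ = 0) :
    B * Aᴴ = 0 := by
  rw [← conjTranspose_eq_zero, conjTranspose_mul, conjTranspose_conjTranspose, h]

theorem ct1 {m n k : Type*} [Fintype n] {A : Matrix n m ℂ} {B : Matrix n k ℂ} (h : Aᴴ * B = 0) :
    Bᴴ * A = 0 := by
  rw [← conjTranspose_eq_zero, conjTranspose_mul, conjTranspose_conjTranspose, h]

/-- any three products `Aᴴ B` are linearly dependent -/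
def Dep (W : Submodule ℂ (Matrix X G ℂ)) : Prop :=
  ∀ A ∈ W, ∀ B ∈ W, ∀ C ∈ W, ∀ D ∈ W, ∀ E ∈ W, ∀ K ∈ W, ∃ x y z : ℂ, ¬ (x = 0 ∧ y = 0 ∧ z = 0) ∧
    x • (Aᴴ * B) + y • (Cᴴ * D) + z • (Eᴴ * K) = 0

theorem proj (hd : Dep W) {A D E : Matrix X G ℂ} (hA : A ∈ W) (hD : D ∈ W) (hE : E ∈ W)
    (hA0 : A ≠ 0) (hD0 : D ≠ 0) (h : D * Aᴴ = 0) : ∃ a : ℂ, Aᴴ * (E - a • A) = 0 := by
  obtain ⟨x, y, z, hn, e⟩ := hd A hA E hE A hA A hA D hD D hD
  have hz : z = 0 := by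
    have := congrArg (D * ·) e
    simp only [Matrix.mul_add, Matrix.mul_smul, ← Matrix.mul_assoc, h, Matrix.zero_mul, smul_zero,
      zero_add, Matrix.mul_zero] at this
    rw [Matrix.mul_assoc] at this
    exact (smul_eq_zero.1 this).resolve_right fun k => hD0 (cube k)
  subst hz
  have hx : x ≠ 0 := by
    rintro rfl
    simp only [zero_smul, zero_add, add_zero, true_and, and_true] at e hn
    exact hA0 (conjTranspose_mul_self_eq_zero.1 ((smul_eq_zero.1 e).resolve_left hn))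
  refine ⟨-y / x, ?_⟩
  have : x • (Aᴴ * (E - (-y / x) • A)) = 0 := by
    rw [← e, Matrix.mul_sub, Matrix.mul_smul, smul_sub, smul_smul, mul_div_cancel₀ _ hx]; simp
  exact (smul_eq_zero.1 this).resolve_left hx

theorem span2 (hc : ∀ A ∈ W, ∀ B ∈ W, A * Bᴴ * (B * Aᴴ) = B * Aᴴ * (A * Bᴴ)) (hd : Dep W)
    {A D E : Matrix X G ℂ} (hA : A ∈ W) (hD : D ∈ W) (hE : E ∈ W)
    (hA0 : A ≠ 0) (hD0 : D ≠ 0) (h : Aᴴ * D = 0) : ∃ a d : ℂ, E = a • A + d • D := by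
  have h1 := orth_of hc hA hD h
  have h2 := ct0 h1
  obtain ⟨a, ha⟩ := proj hd hA hD hE hA0 hD0 h1
  obtain ⟨d, hd'⟩ := proj hd hD hA hE hD0 hA0 h2
  set K := E - a • A - d • D with hK
  have hKW : K ∈ W := W.sub_mem (W.sub_mem hE (W.smul_mem _ hA)) (W.smul_mem _ hD)
  have k1 : Aᴴ * K = 0 := by rw [hK, Matrix.mul_sub, ha, Matrix.mul_smul, h]; simp
  have k2 : Dᴴ * K = 0 := by
    rw [hK, sub_right_comm, Matrix.mul_sub, hd', Matrix.mul_smul, ct1 h]; simp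
  have k3 := ct0 (orth_of hc hA hKW k1)
  have k4 := ct0 (orth_of hc hD hKW k2)
  obtain ⟨x, y, z, hn, e⟩ := hd A hA A hA D hD D hD K hKW K hKW
  have hx : x = 0 := by
    have := congrArg (A * ·) e
    simp only [Matrix.mul_add, Matrix.mul_smul, ← Matrix.mul_assoc, h2, k3, Matrix.zero_mul,
      smul_zero, add_zero, Matrix.mul_zero] at this
    rw [Matrix.mul_assoc] at this
    exact (smul_eq_zero.1 this).resolve_right fun k => hA0 (cube k)
  have hy : y = 0 := by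
    have := congrArg (D * ·) e
    simp only [Matrix.mul_add, Matrix.mul_smul, ← Matrix.mul_assoc, h1, k4, Matrix.zero_mul,
      smul_zero, add_zero, zero_add, Matrix.mul_zero] at this
    rw [Matrix.mul_assoc] at this
    exact (smul_eq_zero.1 this).resolve_right fun k => hD0 (cube k)
  subst hx hy
  simp only [zero_smul, zero_add, true_and] at e hn
  have : K = 0 := conjTranspose_mul_self_eq_zero.1 ((smul_eq_zero.1 e).resolve_left hn)
  exact ⟨a, d, by rw [← sub_eq_zero, ← this, hK]; abel⟩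

theorem alg (hc : ∀ A ∈ W, ∀ B ∈ W, A * Bᴴ * (B * Aᴴ) = B * Aᴴ * (A * Bᴴ)) (hd : Dep W)
    (A : Fin 3 → Matrix X G ℂ) (hA : ∀ i, A i ∈ W) : ¬ LinearIndependent ℂ A := fun li => by
  obtain ⟨x, y, z, hn, e⟩ := hd _ (hA 0) _ (hA 0) _ (hA 0) _ (hA 1) _ (hA 0) _ (hA 2)
  set D := x • A 0 + y • A 1 + z • A 2 with hD
  have hDW : D ∈ W :=
    W.add_mem (W.add_mem (W.smul_mem _ (hA 0)) (W.smul_mem _ (hA 1))) (W.smul_mem _ (hA 2))
  have hD0 : D ≠ 0 := fun h => by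
    have := Fintype.linearIndependent_iff.1 li ![x, y, z] (by
      rw [Fin.sum_univ_three]; exact h)
    exact hn ⟨this 0, this 1, this 2⟩
  have h : (A 0)ᴴ * D = 0 := by rw [← e, hD]; simp only [Matrix.mul_add, Matrix.mul_smul]
  have h1 : Submodule.span ℂ (Set.range A) ≤ Submodule.span ℂ {A 0, D} := by
    rw [Submodule.span_le]; rintro _ ⟨i, rfl⟩
    obtain ⟨a, d, k⟩ := span2 hc hd (hA 0) hDW (hA i) (li.ne_zero 0) hD0 h
    exact Submodule.mem_span_pair.2 ⟨a, d, k.symm⟩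
  have h2 := Submodule.finrank_mono h1
  rw [finrank_span_eq_card li, Fintype.card_fin] at h2
  classical
  have h3 := finrank_span_finset_le_card (R := ℂ) ({A 0, D} : Finset (Matrix X G ℂ))
  have h4 := Finset.card_le_two (a := A 0) (b := D)
  rw [Set.finrank, Finset.coe_pair] at h3
  omega

end alg

section gel
variable {G X : Type u} [Group G] [Fintype G] [Fintype X] [MulAction G X] {H : Subgroup G}
  {M : Submodule ℂ (X → ℂ)} {σ : X → X}

/-- invariant kernels with rows and columns in `M` -/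
def Kr (G : Type u) [Group G] [MulAction G X] (M : Submodule ℂ (X → ℂ)) (K : Matrix X X ℂ) : Prop :=
  (∀ (g : G) b b', K (g • b) (g • b') = K b b') ∧ (∀ b, K b ∈ M) ∧ ∀ b', (fun b => K b b') ∈ M

theorem Kr.mul {K L : Matrix X X ℂ} (hK : Kr G M K) (hL : Kr G M L) : Kr G M (K * L) := by
  refine ⟨fun g b b' => ?_, fun b => ?_, fun b' => ?_⟩
  · rw [mul_apply, mul_apply, ← Equiv.sum_comp (MulAction.toPerm g) fun c => K (g • b) c * L c (g • b')]
    exact Finset.sum_congr rfl fun c _ => by rw [MulAction.toPerm_apply, hK.1, hL.1]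
  · rw [show (K * L) b = ∑ c, K b c • L c by ext; simp [mul_apply]]
    exact M.sum_mem fun c _ => M.smul_mem _ (hL.2.1 c)
  · rw [show (fun b => (K * L) b b') = ∑ c, L c b' • fun b => K b c by
      ext; simp [mul_apply, mul_comm]]
    exact M.sum_mem fun c _ => M.smul_mem _ (hK.2.2 c)

theorem Kr.comm (hσ : Function.Bijective σ) (sy : Sym G M σ) {K L : Matrix X X ℂ} (hK : Kr G M K)
    (hL : Kr G M L) : K * L = L * K := by
  ext b b'
  have h := hK.mul hL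
  rw [sy _ h.1 h.2.1 h.2.2 b b', mul_apply, mul_apply, ← (Equiv.ofBijective σ hσ).sum_comp]
  refine Finset.sum_congr rfl fun c _ => ?_
  rw [Equiv.ofBijective_apply, ← sy _ hK.1 hK.2.1 hK.2.2, ← sy _ hL.1 hL.2.1 hL.2.2, mul_comm]

variable (G) in
/-- the matrix of translates -/
def ph : (X → ℂ) →ₗ[ℂ] Matrix X G ℂ where
  toFun Φ := Matrix.of fun b g => Φ (g • b)
  map_add' _ _ := rfl
  map_smul' _ _ := rfl

theorem ph_apply (Φ : X → ℂ) (b : X) (g : G) : ph G Φ b g = Φ (g • b) := rfl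

theorem kr_ph (h1 : ∀ Φ ∈ M, ∀ g : G, (fun b => Φ (g • b)) ∈ M) (h2 : ∀ Φ ∈ M, star Φ ∈ M)
    {Φ Ψ : X → ℂ} (hΦ : Φ ∈ M) (hΨ : Ψ ∈ M) : Kr G M (ph G Φ * (ph G Ψ)ᴴ) := by
  refine ⟨fun g b b' => ?_, fun b => ?_, fun b' => ?_⟩
  · rw [mul_apply, mul_apply, ← Equiv.sum_comp (Equiv.mulRight g) fun y => ph G Φ b y * _]
    exact Finset.sum_congr rfl fun c _ => by simp [ph_apply, mul_smul]
  · rw [show (ph G Φ * (ph G Ψ)ᴴ) b = ∑ g : G, Φ (g • b) • star fun c => Ψ (g • c) by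
      ext; simp [mul_apply, ph_apply]]
    exact M.sum_mem fun g _ => M.smul_mem _ (h2 _ (h1 _ hΨ g))
  · rw [show (fun b => (ph G Φ * (ph G Ψ)ᴴ) b b') =
        ∑ g : G, star (Ψ (g • b')) • fun c => Φ (g • c) by
      ext; simp [mul_apply, ph_apply, mul_comm]]
    exact M.sum_mem fun g _ => M.smul_mem _ (h1 _ hΦ g)

/-- bi-invariant functions of sum zero are determined by two values -/
theorem bi_zero (h3 : dc H H = 3) {t : G} (ht : t ∉ H) {n : G → ℂ}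
    (hn : ∀ g g', DC H H g g' → n g = n g') (hs : ∑ g, n g = 0) (h1 : n 1 = 0) (h2 : n t = 0)
    (g : G) : n g = 0 := by
  classical
  by_contra hg
  have hgH : g ∉ H := fun h => hg (by rw [← hn _ _ (dc_one.2 h), h1])
  have htg : ¬ DC H H t g := fun h => hg (by rw [← hn _ _ h, h2])
  have : ∑ y, n y = ∑ y, if DC H H g y then n g else 0 := Finset.sum_congr rfl fun y _ => by
    split_ifs with h
    · exact (hn _ _ h).symm
    · rcases dc_two h3.le ht hgH htg y with k | k | k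
      · rw [← hn _ _ (dc_one.2 k), h1]
      · rw [← hn _ _ k, h2]
      · exact absurd k h
  rw [hs, Finset.sum_ite, Finset.sum_const_zero, add_zero, Finset.sum_const, nsmul_eq_mul] at this
  refine mul_ne_zero ?_ hg this.symm
  exact Nat.cast_ne_zero.2 (Finset.card_ne_zero.2 ⟨g, by simp [DC.refl]⟩)

theorem dep3 (v : Fin 3 → ℂ × ℂ) : ∃ x y z : ℂ, ¬ (x = 0 ∧ y = 0 ∧ z = 0) ∧
    x • v 0 + y • v 1 + z • v 2 = 0 := by
  have : ¬ LinearIndependent ℂ v := fun h => by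
    have := h.fintype_card_le_finrank
    simp at this
  obtain ⟨c, h, i, hi⟩ := Fintype.not_linearIndependent_iff.1 this
  refine ⟨c 0, c 1, c 2, fun ⟨a, b, d⟩ => hi ?_, by rw [← h, Fin.sum_univ_three]⟩
  fin_cases i <;> assumption

/-- the matrices `φᴴ ψ` -/
def Ty (H : Subgroup G) : Submodule ℂ (Matrix G G ℂ) where
  carrier := {N | (∀ g g', N g g' = N 1 (g' * g⁻¹)) ∧ (∀ g g', DC H H g g' → N 1 g = N 1 g') ∧
    ∑ g, N 1 g = 0}
  zero_mem' := ⟨fun _ _ => rfl, fun _ _ _ => rfl, by simp⟩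
  add_mem' {A B} h k := ⟨fun g g' => by rw [Matrix.add_apply, Matrix.add_apply, h.1, k.1 g],
    fun g g' e => by rw [Matrix.add_apply, Matrix.add_apply, h.2.1 _ _ e, k.2.1 _ _ e], by
      simp only [Matrix.add_apply, Finset.sum_add_distrib, h.2.2, k.2.2, add_zero]⟩
  smul_mem' c {A} h := ⟨fun g g' => by rw [Matrix.smul_apply, Matrix.smul_apply, h.1],
    fun g g' e => by rw [Matrix.smul_apply, Matrix.smul_apply, h.2.1 _ _ e], by
      simp only [Matrix.smul_apply, ← Finset.smul_sum, h.2.2, smul_zero]⟩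

theorem ty_ph (h1 : ∀ Φ ∈ M, ∀ g : G, (fun b => Φ (g • b)) ∈ M)
    (h3 : ∀ Φ ∈ M, (∀ (g : G) b, Φ (g • b) = Φ b) → Φ = 0) {Φ Ψ : X → ℂ} (hΨ : Ψ ∈ M)
    (iΦ : ∀ h ∈ H, ∀ b, Φ (h • b) = Φ b) (iΨ : ∀ h ∈ H, ∀ b, Ψ (h • b) = Ψ b) :
    (ph G Φ)ᴴ * ph G Ψ ∈ Ty H := by
  have k1 : ∀ g g' : G, ((ph G Φ)ᴴ * ph G Ψ) g g' = ((ph G Φ)ᴴ * ph G Ψ) 1 (g' * g⁻¹) :=
    fun g g' => by
    rw [mul_apply, mul_apply, 
      ← Equiv.sum_comp (MulAction.toPerm g) fun b => (ph G Φ)ᴴ 1 b * _]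
    exact Finset.sum_congr rfl fun c _ => by simp [ph_apply, mul_smul]
  refine ⟨k1, ?_, ?_⟩
  · rintro g _ ⟨a, ha, b, hb, rfl⟩
    have : ((ph G Φ)ᴴ * ph G Ψ) 1 (a * g * b) = ((ph G Φ)ᴴ * ph G Ψ) b⁻¹ g := by
      rw [k1 b⁻¹, inv_inv, mul_apply, mul_apply]
      exact Finset.sum_congr rfl fun c _ => by simp [ph_apply, mul_smul, iΨ a ha]
    rw [this, mul_apply, mul_apply]
    exact Finset.sum_congr rfl fun c _ => by simp [ph_apply, iΦ _ (H.inv_mem hb)]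
  · have k2 : (∑ g : G, fun b => Ψ (g • b)) = 0 :=
      h3 _ (M.sum_mem fun g _ => h1 _ hΨ g) fun g b => by
        simp only [Finset.sum_apply, ← mul_smul]
        exact Equiv.sum_comp (Equiv.mulRight g) fun y => Ψ (y • b)
    simp only [mul_apply]
    rw [Finset.sum_comm]
    refine Finset.sum_eq_zero fun b _ => ?_
    have := congrFun k2 b
    simp only [Finset.sum_apply, Pi.zero_apply] at this
    simp only [← Finset.mul_sum, ph_apply, this, mul_zero]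

theorem ty_dep (h3 : dc H H = 3) {A B C : Matrix G G ℂ} (hA : A ∈ Ty H) (hB : B ∈ Ty H)
    (hC : C ∈ Ty H) : ∃ x y z : ℂ, ¬ (x = 0 ∧ y = 0 ∧ z = 0) ∧ x • A + y • B + z • C = 0 := by
  obtain ⟨t, ht⟩ : ∃ t, t ∉ H := by
    by_contra! h
    rw [(Subgroup.eq_top_iff' H).2 h, dc_top_right] at h3; omega
  obtain ⟨x, y, z, hn, e⟩ := dep3 ![(A 1 1, A 1 t), (B 1 1, B 1 t), (C 1 1, C 1 t)]
  refine ⟨x, y, z, hn, ?_⟩
  have hN : x • A + y • B + z • C ∈ Ty H :=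
    add_mem (add_mem ((Ty H).smul_mem _ hA) ((Ty H).smul_mem _ hB)) ((Ty H).smul_mem _ hC)
  ext g g'
  rw [hN.1]
  exact bi_zero h3 ht hN.2.1 hN.2.2 (congrArg Prod.fst e) (congrArg Prod.snd e) _

end gel

theorem gel : GEL.{u} := by
  intro G X _ _ _ _ H M σ h3 hσ h1 h2 h0 sy Φ hΦ iΦ li
  have := Fintype.ofFinite G
  have := Fintype.ofFinite X
  let U : Submodule ℂ (X → ℂ) := M ⊓
    { carrier := {Φ | ∀ h ∈ H, ∀ b, Φ (h • b) = Φ b}
      zero_mem' := fun _ _ _ => rfl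
      add_mem' := fun a b h hh c => by rw [Pi.add_apply, Pi.add_apply, a h hh, b h hh]
      smul_mem' := fun c _ a h hh b => by rw [Pi.smul_apply, Pi.smul_apply, a h hh] }
  refine alg (W := U.map (ph G)) ?_ ?_ (fun i => ph G (Φ i)) (fun i => ⟨_, ⟨hΦ i, iΦ i⟩, rfl⟩)
    (li.map' (ph G) (LinearMap.ker_eq_bot'.2 fun Ψ h => funext fun b => ?_))
  · rintro _ ⟨A, hA, rfl⟩ _ ⟨B, hB, rfl⟩
    exact (kr_ph h1 h2 hA.1 hB.1).comm hσ sy (kr_ph h1 h2 hB.1 hA.1)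
  · rintro _ ⟨A, hA, rfl⟩ _ ⟨B, hB, rfl⟩ _ ⟨C, hC, rfl⟩ _ ⟨D, hD, rfl⟩ _ ⟨E, hE, rfl⟩ _ ⟨K, hK, rfl⟩
    exact ty_dep h3 (ty_ph h1 h0 hB.1 hA.2 hB.2) (ty_ph h1 h0 hD.1 hC.2 hD.2)
      (ty_ph h1 h0 hK.1 hE.2 hK.2)
  · simpa [ph_apply] using congrFun (congrFun h b) 1

end H23.RS
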