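import Cfsg.Agent.H23.RS1

/-! S2195, chunk `L3`: at most three orbits on totally isotropic lines. -/

set_option autoImplicit false
set_option linter.unusedSectionVars false

open Module H13.R3 H11.RS

namespace H23.RS

universe u

section gen
variable {X : Type*}

theorem tri3 {Φ : Fin 3 → X → ℂ} (p : Fin 3 → X) (h0 : ∀ i, Φ i (p i) ≠ 0) (h1 : Φ 0 (p 2) = 0)
    (h2 : Φ 1 (p 2) = 0) (h3 : Φ 0 (p 1) = 0) : LinearIndependent ℂ Φ := by
  rw [Fintype.linearIndependent_iff]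
  intro c hc
  have e := fun i => congrFun hc (p i)
  simp only [Fin.sum_univ_three, Pi.add_apply, Pi.smul_apply, smul_eq_mul, Pi.zero_apply] at e
  have c2 : c 2 = 0 := by simpa [h1, h2, h0 2] using e 2
  have c1 : c 1 = 0 := by simpa [h3, c2, h0 1] using e 1
  have c0 : c 0 = 0 := by simpa [c1, c2, h0 0] using e 0
  intro i; fin_cases i <;> assumption

open Classical in
/-- indicator function -/
noncomputable def ind (S : Set X) : X → ℂ := fun a => if a ∈ S then 1 else 0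

theorem ind_of {S : Set X} {a : X} (h : a ∈ S) : ind S a = 1 := if_pos h
theorem ind_not {S : Set X} {a : X} (h : a ∉ S) : ind S a = 0 := if_neg h
theorem ind_congr {Y : Type*} {S : Set X} {T : Set Y} {a : X} {b : Y} (h : a ∈ S ↔ b ∈ T) :
    ind S a = ind T b := by
  by_cases k : a ∈ S
  · rw [ind_of k, ind_of (h.1 k)]
  · rw [ind_not k, ind_not fun k' => k (h.2 k')]
theorem sum_ind [Fintype X] (S : Set X) : ∑ a, ind S a = S.ncard := by
  classical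
  simp only [ind]
  rw [Finset.sum_boole, Set.ncard_eq_toFinset_card']; congr 2; ext; simp
theorem sum_const_on [Fintype X] {S : Set X} {Φ : X → ℂ} {c : ℂ} (h1 : ∀ a ∈ S, Φ a = c)
    (h2 : ∀ a ∉ S, Φ a = 0) : ∑ a, Φ a = S.ncard * c := by
  rw [← sum_ind, Finset.sum_mul]
  refine Finset.sum_congr rfl fun a _ => ?_
  by_cases k : a ∈ S
  · rw [ind_of k, h1 a k, one_mul]
  · rw [ind_not k, h2 a k, zero_mul]
theorem const_zero [Fintype X] {S : Set X} {Φ : X → ℂ} {c : ℂ} (h1 : ∀ a ∈ S, Φ a = c)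
    (h2 : ∀ a ∉ S, Φ a = 0) (h3 : ∑ a, Φ a = 0) (hS : S.Nonempty) : c = 0 := by
  rw [sum_const_on h1 h2] at h3
  exact (mul_eq_zero.1 h3).resolve_left
    (Nat.cast_ne_zero.2 ((Set.ncard_pos (Set.toFinite S)).2 hS).ne')

end gen

variable {F : Type u} [Field F] {V : Type u} [AddCommGroup V] [Module F V]
  {G : Type u} [Group G] [DistribMulAction G V] [SMulCommClass G F V]
  {B : LinearMap.BilinForm F V} {H : Subgroup G}

theorem awitt [Fintype F] [Finite V] (sy : Sy B G) {σ : V ≃ₗ[F] V}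
    (hσ : ∀ u v, B (σ u) (σ v) = -B u v) (u w : Fin 4 → V) (hB : ∀ i j, B (w j) (w i) = B (u i) (u j))
    (h1 : ∀ c : Fin 4 → F, ∑ i, c i • u i = 0 ↔ ∑ i, c i • w i = 0) :
    ∃ g : G, ∀ i, g • u i = σ (w i) :=
  sy.witt u (fun i => σ (w i)) (fun i j => by rw [hσ, ← hB, sy.skew (w j)]) fun c => by
    rw [h1, ← σ.map_eq_zero_iff (x := ∑ i, c i • w i), map_sum]; simp only [map_smul]

theorem sw4 [Fintype F] [Finite V] (sy : Sy B G) {σ : V ≃ₗ[F] V}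
    (hσ : ∀ u v, B (σ u) (σ v) = -B u v) {c₁ c₂ d₁ d₂ : V} (hc : B c₁ c₂ = 0) (hd : B d₁ d₂ = 0)
    (hs : B c₁ d₂ = B c₂ d₁) (hr : ∀ a b a' b' : F, a • c₁ + b • c₂ + a' • d₁ + b' • d₂ = 0 →
      a • d₁ + b • d₂ + a' • c₁ + b' • c₂ = 0) :
    ∃ g : G, g • c₁ = σ d₁ ∧ g • c₂ = σ d₂ ∧ g • d₁ = σ c₁ ∧ g • d₂ = σ c₂ := by
  obtain ⟨g, hg⟩ := awitt sy hσ ![c₁, c₂, d₁, d₂] ![d₁, d₂, c₁, c₂] (by
    simp [Fin.forall_fin_succ, sy.alt, hc, hd, hs, sy.swap hc, sy.swap hd, sy.skew d₂ c₁,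
      sy.skew d₁ c₂]) fun c => by
    simp only [Fin.sum_univ_four]
    refine ⟨hr _ _ _ _, fun h => ?_⟩
    have := hr (c 2) (c 3) (c 0) (c 1) (by rw [← h]; simp; abel)
    rw [← this]; simp; abel
  exact ⟨g, hg 0, hg 1, hg 2, hg 3⟩

variable (B) in
/-- frames of totally isotropic lines -/
def TL (a : V × V) : Prop := Ind F a.1 a.2 ∧ B a.1 a.2 = 0

theorem ti_ln (al : Al B) {x y a b : V} (h : B x y = 0) (ha : a ∈ ln F x y) (hb : b ∈ ln F x y) :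
    B a b = 0 := by
  obtain ⟨p, q, rfl⟩ := mem_ln.1 ha
  obtain ⟨r, s, rfl⟩ := mem_ln.1 hb
  simp [al.alt, h, al.swap h]

theorem ex_ind [Finite V] {x y e : V} (h : Ind F x y) (he : e ≠ 0) :
    ∃ z ∈ ln F x y, Ind F e z := by
  obtain ⟨z, h1, h2⟩ := ex_notMem (A := F ∙ e) (B := ln F x y) (by
    rw [finrank_span_singleton he, h.finrank]; omega)
  exact ⟨z, h1, he, h2⟩

theorem ex_perp {x y : V} (h : Ind F x y) (w : V) : ∃ e ∈ ln F x y, e ≠ 0 ∧ B e w = 0 := by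
  by_cases hx : B x w = 0
  · exact ⟨x, l_ln, h.1, hx⟩
  refine ⟨B y w • x + (-B x w) • y, mem_ln.2 ⟨_, _, rfl⟩, fun e => hx ?_, by simp; ring⟩
  simpa using (ind_iff.1 h _ _ e).2

theorem bases [Fintype F] [Finite V] (al : Al B) {a b : V × V} (ha : TL B a) (hb : TL B b) :
    ∃ c₁ c₂ d₁ d₂ : V, Ind F c₁ c₂ ∧ Ind F d₁ d₂ ∧ ln F c₁ c₂ = ln F a.1 a.2 ∧
      ln F d₁ d₂ = ln F b.1 b.2 ∧ B c₁ d₂ = B c₂ d₁ ∧
      ∀ p q p' q' : F, p • c₁ + q • c₂ + p' • d₁ + q' • d₂ = 0 →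
        p • d₁ + q • d₂ + p' • c₁ + q' • c₂ = 0 := by
  obtain ⟨a1, a2⟩ := a
  obtain ⟨b1, b2⟩ := b
  obtain ⟨ha, ha'⟩ := ha
  obtain ⟨hb, hb'⟩ := hb
  dsimp only at *
  by_cases h1 : ln F a1 a2 = ln F b1 b2
  · exact ⟨a1, a2, a1, a2, ha, ha, rfl, h1, by rw [ha', al.swap ha'], fun p q p' q' h => h⟩
  by_cases h2 : ∃ e, e ≠ 0 ∧ e ∈ ln F a1 a2 ∧ e ∈ ln F b1 b2
  · obtain ⟨e, he, ea, eb⟩ := h2
    obtain ⟨x, hx, ix⟩ := ex_ind ha he
    obtain ⟨y, hy, iy⟩ := ex_ind hb he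
    have lx := ln_eq ix ea hx
    have ly := ln_eq iy eb hy
    refine ⟨e, x, e, y, ix, iy, lx, ly, by rw [ti_ln al hb' eb hy, ti_ln al ha' hx ea],
      fun p q p' q' h => ?_⟩
    have hq : q' = 0 := by
      by_contra hq
      refine h1 (lx.symm.trans (Eq.trans (ln_eq iy l_ln ?_).symm ly))
      refine mem_ln.2 ⟨-(p + p') / q', -q / q', ?_⟩
      refine smul_right_injective V hq ?_
      rw [← sub_eq_zero, ← neg_eq_zero, ← h]; dsimp only; match_scalars <;> field_simp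
    subst hq
    obtain ⟨k1, k2⟩ := ind_iff.1 ix (p + p') q (by rw [← h]; module)
    subst k2
    rw [← h]; module
  push Not at h2
  have rel : ∀ c₁ c₂ d₁ d₂ : V, Ind F c₁ c₂ → Ind F d₁ d₂ → ln F c₁ c₂ = ln F a1 a2 →
      ln F d₁ d₂ = ln F b1 b2 → ∀ p q p' q' : F, p • c₁ + q • c₂ + p' • d₁ + q' • d₂ = 0 →
      p • d₁ + q • d₂ + p' • c₁ + q' • c₂ = 0 := fun c₁ c₂ d₁ d₂ ic id lc ld p q p' q' h => by
    have k : p • c₁ + q • c₂ = 0 := by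
      by_contra k
      exact h2 _ k (lc ▸ mem_ln.2 ⟨_, _, rfl⟩)
        (ld ▸ mem_ln.2 ⟨-p', -q', by rw [← sub_eq_zero, ← neg_eq_zero, ← h]; module⟩)
    obtain ⟨rfl, rfl⟩ := ind_iff.1 ic _ _ k
    obtain ⟨rfl, rfl⟩ := ind_iff.1 id p' q' (by rw [← h]; module)
    simp
  by_cases h3 : ∃ x ∈ ln F a1 a2, ∃ y ∈ ln F b1 b2, B x y ≠ 0
  · obtain ⟨x, hx, y, hy, n⟩ := h3
    obtain ⟨e, he, e0, ey⟩ := ex_perp (B := B) ha y
    obtain ⟨e', he', e0', ex⟩ := ex_perp (B := B) hb x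
    have ix : Ind F e x := ⟨e0, fun k => n (by
      obtain ⟨c, rfl⟩ := Submodule.mem_span_singleton.1 k; simp [ey])⟩
    have iy : Ind F e' y := ⟨e0', fun k => n (by
      obtain ⟨c, rfl⟩ := Submodule.mem_span_singleton.1 k; simp [al.swap ex])⟩
    exact ⟨e, x, e', y, ix, iy, ln_eq ix he hx, ln_eq iy he' hy, by rw [ey, al.swap ex],
      rel _ _ _ _ ix iy (ln_eq ix he hx) (ln_eq iy he' hy)⟩
  · push Not at h3
    exact ⟨a1, a2, b1, b2, ha, hb, rfl, rfl, by rw [h3 _ l_ln _ r_ln, h3 _ r_ln _ l_ln],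
      rel _ _ _ _ ha hb rfl rfl⟩

variable (B) in
/-- functions on totally isotropic lines with sum zero -/
def ML [Fintype V] : Submodule ℂ (V × V → ℂ) where
  carrier := {Φ | (∀ a, ¬ TL B a → Φ a = 0) ∧
    (∀ a b, TL B a → TL B b → ln F a.1 a.2 = ln F b.1 b.2 → Φ a = Φ b) ∧ ∑ a, Φ a = 0}
  zero_mem' := ⟨fun _ _ => rfl, fun _ _ _ _ _ => rfl, by simp⟩
  add_mem' {Φ Ψ} h k := ⟨fun a n => by simp [h.1 a n, k.1 a n],
    fun a b ha hb e => by rw [Pi.add_apply, Pi.add_apply, h.2.1 a b ha hb e, k.2.1 a b ha hb e], by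
      simp only [Pi.add_apply, Finset.sum_add_distrib, h.2.2, k.2.2, add_zero]⟩
  smul_mem' c {Φ} h := ⟨fun a n => by simp [h.1 a n],
    fun a b ha hb e => by rw [Pi.smul_apply, Pi.smul_apply, h.2.1 a b ha hb e], by
      simp only [Pi.smul_apply, ← Finset.smul_sum, h.2.2, smul_zero]⟩

theorem ind_map (σ : V ≃ₗ[F] V) {x y : V} : Ind F (σ x) (σ y) ↔ Ind F x y := by
  simp only [ind_iff, ← map_smul, ← map_add, σ.map_eq_zero_iff]

theorem ln_map (σ : V ≃ₗ[F] V) (x y : V) : ln F (σ x) (σ y) = (ln F x y).map σ.toLinearMap := by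
  simp [ln, Submodule.map_span, Set.image_pair]

theorem TL.smul_iff (sy : Sy B G) (g : G) {a : V × V} : TL B (g • a) ↔ TL B a := by
  simp only [TL, Prod.smul_fst, Prod.smul_snd, sy.iso]
  exact and_congr_left fun _ => ind_map (lin F V g)

theorem sym_ML [Fintype F] [Fintype V] (sy : Sy B G) {σ : V ≃ₗ[F] V}
    (hσ : ∀ u v, B (σ u) (σ v) = -B u v) : Sym G (ML B) (Prod.map σ σ) := by
  intro K h1 h2 h3 a b
  have hT : ∀ a : V × V, TL B (Prod.map σ σ a) ↔ TL B a := fun a => by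
    simp only [TL, Prod.map_fst, Prod.map_snd, ind_map, hσ, neg_eq_zero]
  by_cases ha : TL B a
  swap
  · exact ((h3 b).1 a ha).trans ((h2 _).1 _ fun k => ha ((hT a).1 k)).symm
  by_cases hb : TL B b
  swap
  · exact ((h2 a).1 b hb).trans ((h3 _).1 _ fun k => hb ((hT b).1 k)).symm
  obtain ⟨c₁, c₂, d₁, d₂, ic, id, lc, ld, hs, hr⟩ := bases sy.toAl ha hb
  have tc : TL B (c₁, c₂) := ⟨ic, ti_ln sy.toAl ha.2 (lc ▸ l_ln) (lc ▸ r_ln)⟩
  have td : TL B (d₁, d₂) := ⟨id, ti_ln sy.toAl hb.2 (ld ▸ l_ln) (ld ▸ r_ln)⟩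
  obtain ⟨g, g1, g2, g3, g4⟩ := sw4 sy hσ tc.2 td.2 hs hr
  have e1 : g • (c₁, c₂) = Prod.map σ σ (d₁, d₂) := Prod.ext g1 g2
  have e2 : g • (d₁, d₂) = Prod.map σ σ (c₁, c₂) := Prod.ext g3 g4
  calc K a b = K (c₁, c₂) (d₁, d₂) :=
        ((h3 b).2.1 a _ ha tc lc.symm).trans ((h2 _).2.1 b _ hb td ld.symm)
    _ = K (Prod.map σ σ (d₁, d₂)) (Prod.map σ σ (c₁, c₂)) := by rw [← h1 g, e1, e2]
    _ = _ := by
        rw [(h2 _).2.1 _ _ ((hT _).2 tc) ((hT _).2 ha)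
          (by simp only [Prod.map_fst, Prod.map_snd, ln_map, lc])]
        exact (h3 _).2.1 _ _ ((hT _).2 td) ((hT _).2 hb)
          (by simp only [Prod.map_fst, Prod.map_snd, ln_map, ld])

theorem l3 : L3.{u} := by
  intro F V G _ _ _ _ _ _ _ _ _ B H sy h3 a₀ a₁ a₂ a₃ t₀ t₁ t₂ t₃
  by_contra! hn
  obtain ⟨n01, n02, n03, n12, n13, n23⟩ := hn
  have := Fintype.ofFinite V
  obtain ⟨σ, hσ⟩ := sy.anti
  let O : V × V → Set (V × V) := fun a => {b | TL B b ∧ LE F H a b}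
  have hO : ∀ a, TL B a → a ∈ O a := fun a h => ⟨h, LE.of_mem l_ln r_ln⟩
  let Φ : V × V → V × V → ℂ := fun a =>
    ((O a₃).ncard : ℂ) • ind (O a) - ((O a).ncard : ℂ) • ind (O a₃)
  have iO : ∀ a, ∀ h ∈ H, ∀ b, ind (O a) (h • b) = ind (O a) b := fun a h hh b => by
    refine ind_congr (and_congr (TL.smul_iff sy h) ⟨fun k => k.trans ?_, fun k => k.trans ?_⟩)
    · exact ⟨h⁻¹, H.inv_mem hh, by simpa using l_ln, by simpa using r_ln⟩
    · exact ⟨h, hh, l_ln, r_ln⟩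
  have mO : ∀ a b c, TL B b → TL B c → ln F b.1 b.2 = ln F c.1 c.2 →
      ind (O a) b = ind (O a) c := fun a b c hb hc e =>
    ind_congr (by simp only [O, Set.mem_ofPred_eq, hb, hc, H13.R3.LE, e])
  have v1 : ∀ a, TL B a → ¬ LE F H a a₃ → Φ a a ≠ 0 := fun a h n => by
    simp only [Φ, Pi.sub_apply, Pi.smul_apply, ind_of (hO a h),
      ind_not (S := O a₃) fun k => n (k.2.symm t₃.1), smul_eq_mul, mul_one, mul_zero, sub_zero]
    exact Nat.cast_ne_zero.2 ((Set.ncard_pos (Set.toFinite _)).2 ⟨_, hO a₃ t₃⟩).ne'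
  have v0 : ∀ a b, ¬ LE F H a b → ¬ LE F H b a₃ → Φ a b = 0 := fun a b n n' => by
    simp only [Φ, Pi.sub_apply, Pi.smul_apply, ind_not (S := O a) fun k => n k.2,
      ind_not (S := O a₃) fun k => n' (k.2.symm t₃.1), smul_zero, sub_zero]
  refine gel G (V × V) H (ML B) (Prod.map σ σ) h3 (σ.bijective.prodMap σ.bijective)
    (fun Ψ h g => ⟨fun a n => h.1 _ fun k => n ((TL.smul_iff sy g).1 k), fun a b ha hb e =>
      h.2.1 _ _ ((TL.smul_iff sy g).2 ha) ((TL.smul_iff sy g).2 hb) ?_, ?_⟩)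
    (fun Ψ h => ⟨fun a n => by simp [h.1 a n], fun a b ha hb e => by simp [h.2.1 a b ha hb e], by
      simp only [Pi.star_apply, ← star_sum, h.2.2, star_zero]⟩) (fun Ψ h k => ?_) (sym_ML sy hσ)
    (fun i => Φ (![a₀, a₁, a₂] i)) (fun i => ⟨fun a n => ?_, fun a b ha hb e => ?_, ?_⟩)
    (fun i h hh b => by simp only [Φ, Pi.sub_apply, Pi.smul_apply, iO _ h hh])
    (tri3 ![a₀, a₁, a₂] (fun i => ?_) (v0 _ _ n02 n23) (v0 _ _ n12 n23) (v0 _ _ n01 n13))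
  · exact (ln_map (lin F V g) _ _).trans (e ▸ (ln_map (lin F V g) _ _).symm)
  · exact (Equiv.sum_comp (MulAction.toPerm g) Ψ).trans h.2.2
  · have k1 : ∀ a ∈ {a | TL B a}, Ψ a = Ψ a₀ := fun a ha => by
      obtain ⟨g, g1, g2⟩ := sy.witt2 t₀.1 ha.1 (ha.2.trans t₀.2.symm)
      rw [← k g a₀]; congr 1; exact Prod.ext g1.symm g2.symm
    have := const_zero k1 h.1 h.2.2 ⟨a₀, t₀⟩
    funext a
    by_cases ha : TL B a
    · exact (k1 a ha).trans this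
    · exact h.1 a ha
  · simp only [Φ, Pi.sub_apply, Pi.smul_apply, ind_not (S := O _) fun k => n k.1, smul_zero,
      sub_zero]
  · simp only [Φ, Pi.sub_apply, Pi.smul_apply, mO _ a b ha hb e]
  · simp only [Φ, Pi.sub_apply, Pi.smul_apply, Finset.sum_sub_distrib, smul_eq_mul,
      ← Finset.mul_sum, sum_ind]; ring
  · fin_cases i
    exacts [v1 _ t₀ n03, v1 _ t₁ n13, v1 _ t₂ n23]

end H23.RS
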