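import Cfsg.Agent.H23.RS2

/-! S2195, chunk `SY3`: kernels on (point, hyperbolic line) flags are symmetric. -/

set_option autoImplicit false
set_option linter.unusedSectionVars false

open Module H13.R3 H11.RS

namespace H23.RS

universe u

variable {F : Type u} [Field F] {V : Type u} [AddCommGroup V] [Module F V]
  {G : Type u} [Group G] [DistribMulAction G V] [SMulCommClass G F V]
  {B : LinearMap.BilinForm F V} {e f e' f' : V} {a c : F}

/-- matching linear relations -/
def Rl (e f e' f' : V) (a c : F) : Prop := ∀ α β γ δ : F, α • e + β • f + γ • e' + δ • f' = 0 ↔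
  (γ * c) • e + (-δ * c⁻¹) • f + (α * a) • e' + (-β * a⁻¹) • f' = 0

variable (F) in
/-- four independent vectors -/
def I4 (e f e' f' : V) : Prop := ∀ α β γ δ : F, α • e + β • f + γ • e' + δ • f' = 0 →
  α = 0 ∧ β = 0 ∧ γ = 0 ∧ δ = 0

theorem I4.rl (h : I4 F e f e' f') (ha : a ≠ 0) (hc : c ≠ 0) : Rl e f e' f' a c := fun α β γ δ =>
  ⟨fun k => by obtain ⟨rfl, rfl, rfl, rfl⟩ := h _ _ _ _ k; simp, fun k => by
    obtain ⟨h1, h2, h3, h4⟩ := h _ _ _ _ k
    simp only [mul_eq_zero, ha, hc, inv_eq_zero, or_false, neg_eq_zero] at h1 h2 h3 h4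
    simp [h1, h2, h3, h4]⟩

theorem I4.li (h : I4 F e f e' f') : LinearIndependent F ![e, f, e', f'] := by
  rw [Fintype.linearIndependent_iff]
  intro c hc i
  rw [Fin.sum_univ_four] at hc
  obtain ⟨h1, h2, h3, h4⟩ := h _ _ _ _ hc
  fin_cases i <;> assumption

theorem Rl.symm (h : Rl e f e' f' a c) : Rl e' f' e f c a := fun α β γ δ => by
  have := h γ δ α β
  rw [show α • e' + β • f' + γ • e + δ • f = γ • e + δ • f + α • e' + β • f' by abel, this]
  exact Eq.congr_left (by abel)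

theorem i4 (al : Al B) (h1 : B e f = 1) (h2 : B e' f' = 1) (h3 : B e e' = 0) (hi : Ind F e e')
    (hs : B e f' * B f e' ≠ -1) : I4 F e f e' f' := fun α β γ δ h => by
  have k1 := congrArg (B e) h
  have k2 := congrArg (B e') h
  simp only [map_add, map_smul, smul_eq_mul, al.alt, h1, h2, h3, al.swap h3, al.skew e' f,
    map_zero] at k1 k2
  have hβ : β = 0 := by
    have : β * (B e f' * B f e' + 1) = 0 := by linear_combination k1 - B e f' * k2
    exact (mul_eq_zero.1 this).resolve_right fun k => hs (by linear_combination k)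
  subst hβ
  have hδ : δ = 0 := by linear_combination k2
  subst hδ
  obtain ⟨k3, k4⟩ := ind_iff.1 hi α γ (by simpa using h)
  exact ⟨k3, rfl, k4, rfl⟩

variable [Fintype F] [Finite V]

variable (B G) in
/-- the properties of the antisymmetrised kernel -/
structure Gd (L : V × V → V × V → ℂ) : Prop where
  inv : ∀ (g : G) b b', L (g • b) (g • b') = L b b'
  row : ∀ b, L b ∈ M3 B
  col : ∀ b', (fun b => L b b') ∈ M3 B
  key : ∀ (e f e' f' : V) (a c : F), a ≠ 0 → c ≠ 0 → B e f = 1 → B e' f' = 1 →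
    a * c * B e e' = B e e' → a * B f e' = -c * B e f' → a * c * B f f' = B f f' →
    Rl e f e' f' a c → L (e, f) (e', f') = 0

variable {L : V × V → V × V → ℂ}

namespace Gd

theorem tr (h : Gd G B L) (sy : Sy B G) : Gd G B fun b b' => L b' b :=
  ⟨fun g b b' => h.inv g b' b, h.col, h.row, fun e f e' f' a c ha hc h1 h2 h3 h4 h5 r =>
    h.key e' f' e f c a hc ha h2 h1 (by rw [sy.skew e' e]; linear_combination -h3)
      (by rw [sy.skew f' e, sy.skew e' f]; linear_combination -h4)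
      (by rw [sy.skew f' f]; linear_combination -h5) r.symm⟩

variable (h : Gd G B L)
include h

theorem shl (s : F) (b : V × V) : L (e, f + s • e) b = L (e, f) b := by
  simpa using (h.col b).2.1 e f 1 s one_ne_zero
theorem shr (s : F) (b : V × V) : L b (e, f + s • e) = L b (e, f) := by
  simpa using (h.row b).2.1 e f 1 s one_ne_zero
theorem scl (ha : a ≠ 0) (b : V × V) : L (a • e, a⁻¹ • f) b = L (e, f) b := by
  simpa using (h.col b).2.1 e f a 0 ha
theorem scr (ha : a ≠ 0) (b : V × V) : L b (a • e, a⁻¹ • f) = L b (e, f) := by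
  simpa using (h.row b).2.1 e f a 0 ha

theorem colz {S : Set V} {b : V × V} (hf : f ∈ S) (h1 : ∀ x ∈ S, L (e, x) b = L (e, f) b)
    (h2 : ∀ x ∉ S, B e x = 1 → L (e, x) b = 0) : L (e, f) b = 0 := by
  have := Fintype.ofFinite V
  refine const_zero (Φ := fun x => L (e, x) b) h1 (fun x hx => ?_) ?_ ⟨f, hf⟩
  · by_cases k : B e x = 1
    · exact h2 x hx k
    · exact (h.col b).1 e x k
  · rw [← finsum_eq_sum_of_fintype]; exact (h.col b).2.2 e

variable (sy : Sy B G)
include sy

theorem c3 (h1 : B e f = 1) (h2 : B e f' = 1) : L (e, f) (e, f') = 0 := by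
  refine h.key _ _ _ _ 1 1 one_ne_zero one_ne_zero h1 h2 (by ring)
    (by rw [sy.skew f e, h1, h2]; ring) (by ring) fun α β γ δ => ?_
  rw [inv_one]
  constructor <;> intro k <;> have k1 := congrArg (B e) k <;>
    simp only [map_add, map_smul, smul_eq_mul, sy.alt, h1, h2, map_zero] at k1
  · obtain rfl : δ = -β := by linear_combination k1
    rw [← k]; module
  · obtain rfl : δ = -β := by linear_combination -k1
    rw [← k]; module

theorem c1 (h1 : B e f = 1) (h2 : B e' f' = 1) (h3 : B e e' = 1) (h4 : B f e' = 0)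
    (h5 : B e f' = 0) (hp : e + f' = 0 ↔ f - e' = 0) : L (e, f) (e', f') = 0 := by
  have rel : ∀ α β γ δ : F, α • e + β • f + γ • e' + δ • f' = 0 ↔
      δ = α ∧ γ = -β ∧ α • (e + f') + β • (f - e') = 0 := fun α β γ δ => by
    refine ⟨fun k => ?_, by rintro ⟨rfl, rfl, k⟩; rw [← k]; module⟩
    have k1 := congrArg (B e) k
    have k2 := congrArg (B e') k
    simp only [map_add, map_smul, smul_eq_mul, sy.alt, h1, h2, h3, h5, sy.swap h4, sy.skew e' e,
      map_zero] at k1 k2
    obtain rfl : δ = α := by linear_combination k2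
    obtain rfl : γ = -β := by linear_combination k1
    exact ⟨rfl, rfl, by rw [← k]; module⟩
  obtain ⟨a, ha, hr⟩ : ∃ a : F, a ≠ 0 ∧ ∀ α β : F, α • (e + f') + β • (f - e') = 0 ↔
      β • (e + f') + (α * a ^ 2) • (f - e') = 0 := by
    generalize e + f' = p at hp
    generalize f - e' = r at hp
    by_cases h0 : p = 0
    · exact ⟨1, one_ne_zero, fun α β => by simp [h0, hp.1 h0]⟩
    by_cases hi : r ∈ F ∙ p
    · obtain ⟨k, rfl⟩ := Submodule.mem_span_singleton.1 hi
      have hk : k ≠ 0 := by rintro rfl; exact h0 (hp.2 (zero_smul _ _))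
      refine ⟨k⁻¹, inv_ne_zero hk, fun α β => ?_⟩
      rw [smul_smul, smul_smul, ← add_smul, ← add_smul, smul_eq_zero_iff_left h0,
        smul_eq_zero_iff_left h0]
      constructor <;> intro k <;> field_simp at k ⊢ <;> linear_combination k
    · refine ⟨1, one_ne_zero, fun α β => ⟨fun k => ?_, fun k => ?_⟩⟩
      · obtain ⟨rfl, rfl⟩ := ind_iff.1 ⟨h0, hi⟩ _ _ k; simp
      · obtain ⟨rfl, k'⟩ := ind_iff.1 ⟨h0, hi⟩ _ _ k
        obtain rfl : α = 0 := by simpa using k'
        simp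
  refine h.key _ _ _ _ a a⁻¹ ha (inv_ne_zero ha) h1 h2 (by field_simp) (by simp [h4, h5])
    (by field_simp) fun α β γ δ => ?_
  rw [rel, rel, hr, inv_inv]
  constructor
  · rintro ⟨rfl, rfl, k⟩
    refine ⟨rfl, by ring, smul_right_injective V (neg_ne_zero.2 ha) ?_⟩
    dsimp only
    rw [smul_zero, ← k]; match_scalars <;> field_simp
  · rintro ⟨k1, k2, k⟩
    obtain rfl : γ = -β := (mul_right_cancel₀ (inv_ne_zero ha) k1).symm
    obtain rfl : δ = α := mul_right_cancel₀ ha (by linear_combination -k2)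
    refine ⟨rfl, rfl, ?_⟩
    have := congrArg ((-a) • ·) k
    simp only [smul_zero] at this
    rw [← this]; match_scalars <;> field_simp

theorem n1 (h1 : B e f = 1) (h3 : B e e' = 1) : L (e, f) (e', -e) = 0 := by
  have ie : Ind F e e' := sy.ind_of_ne (by rw [h3]; exact one_ne_zero)
  have z : ∀ x ∈ ln F e e', B e x = 1 → L (e, x) (e', -e) = 0 := fun x hx k => by
    obtain ⟨p, q, rfl⟩ := mem_ln.1 hx
    obtain rfl : q = 1 := by simpa [sy.alt, h3] using k
    rw [one_smul, add_comm, h.shl]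
    exact h.c1 sy h3 (by rw [map_neg, sy.skew, h3, neg_neg]) h3 (sy.alt _) (by simp [sy.alt])
      (by simp)
  by_cases hf : f ∈ ln F e e'
  · exact z f hf h1
  refine h.colz (S := {x | B e x = 1 ∧ x ∉ ln F e e'}) ⟨h1, hf⟩ (fun x hx => ?_) fun x hx k =>
    z x (by by_contra n; exact hx ⟨k, n⟩) k
  have i3 : ∀ y, y ∉ ln F e e' → Ind3 F e e' (y + B e' y • e) := fun y hy =>
    ⟨ie, fun k => hy (by simpa using sub_mem k (Submodule.smul_mem _ (B e' y) l_ln))⟩
  obtain ⟨g, g1, g2, g3⟩ := sy.witt3 (i3 f hf) (i3 x hx.2) rfl (by simp [sy.alt, h1, hx.1])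
    (by simp [sy.skew e' e, h3])
  rw [← h.shl (B e' x), ← h.shl (f := f) (B e' f), ← h.inv g (e, f + _)]
  simp only [Prod.smul_mk, smul_neg, g1, g2, g3]

theorem c1all (h1 : B e f = 1) (h2 : B e' f' = 1) (h3 : B e e' ≠ 0) : L (e, f) (e', f') = 0 := by
  suffices k : ∀ e' f', B e' f' = 1 → B e e' = 1 → L (e, f) (e', f') = 0 by
    rw [← h.scr (inv_ne_zero h3)]
    exact k _ _ (by simp [h2, h3]) (by simp [h3])
  intro e' f' h2 h3
  rw [← h.shl (-B f e'), ← h.shr (-B e f')]
  have k1 : B e (f + -B f e' • e) = 1 := by simp [sy.alt, h1]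
  have k2 : B e' (f' + -B e f' • e') = 1 := by simp [sy.alt, h2]
  have k4 : B (f + -B f e' • e) e' = 0 := by simp [h3]
  have k5 : B e (f' + -B e f' • e') = 0 := by simp [h3]
  generalize f + -B f e' • e = x at *
  generalize f' + -B e f' • e' = y at *
  by_cases hp : e + y = 0
  · obtain rfl : y = -e := eq_neg_of_add_eq_zero_right hp
    exact h.n1 sy k1 h3
  by_cases hr : x - e' = 0
  · obtain rfl : x = e' := sub_eq_zero.1 hr
    have := (h.tr sy).n1 sy (e' := -e) k2 (by rw [map_neg, sy.skew, h3, neg_neg])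
    rw [← h.scl (a := -1) (by simp)]
    simpa using this
  exact h.c1 sy k1 k2 h3 k4 k5 (iff_of_false hp hr)

theorem c2c (h1 : B e f = 1) (h2 : B e' f = 1) (h3 : B e e' = 0) (hi : Ind F e e') :
    L (e, f) (e', f) = 0 := by
  refine h.key _ _ _ _ 1 1 one_ne_zero one_ne_zero h1 h2 (by ring)
    (by rw [sy.skew f e', h1, h2]; ring) (by ring) fun α β γ δ => ?_
  have rel : ∀ α β γ δ : F, α • e + β • f + γ • e' + δ • f = 0 ↔ α = 0 ∧ γ = 0 ∧ δ = -β :=
    fun α β γ δ => by
    refine ⟨fun k => ?_, by rintro ⟨rfl, rfl, rfl⟩; module⟩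
    have k1 := congrArg (B e) k
    simp only [map_add, map_smul, smul_eq_mul, sy.alt, h1, h3, map_zero] at k1
    obtain rfl : δ = -β := by linear_combination k1
    obtain ⟨k3, k4⟩ := ind_iff.1 hi α γ (by rw [← k]; module)
    exact ⟨k3, k4, rfl⟩
  rw [rel, rel, inv_one]
  constructor <;> rintro ⟨k1, k2, k3⟩ <;>
    exact ⟨by linear_combination k2, by linear_combination k1, by linear_combination -k3⟩

theorem c2b (h1 : B e f = 1) (h2 : B e' f' = 1) (h3 : B e e' = 0) (hi : Ind F e e')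
    (h4 : B e f' ≠ 0) (h5 : B f e' ≠ 0) : L (e, f) (e', f') = 0 := by
  suffices k : ∀ f e' f', B e f = 1 → B e' f' = 1 → B e e' = 0 → Ind F e e' → B e f' = 1 →
      B f e' ≠ 0 → B f f' = 0 → L (e, f) (e', f') = 0 by
    rw [← h.scr h4, ← h.shl (-B f ((B e f')⁻¹ • f'))]
    exact k _ _ _ (by simp [sy.alt, h1]) (by simp [h2, h4]) (by simp [h3])
      (by simpa using hi.sml one_ne_zero h4) (by simp [h4]) (by simp [h3, h4, h5])
      (by simp; field_simp; simp)
  intro f e' f' h1 h2 h3 hi h4 h5 h6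
  by_cases k : I4 F e f e' f'
  · exact h.key _ _ _ _ (-(B f e')⁻¹) 1 (by simpa using h5) one_ne_zero h1 h2 (by simp [h3])
      (by simp [h4, h5]) (by simp [h6]) (k.rl (by simpa using h5) one_ne_zero)
  simp only [I4, not_forall] at k
  obtain ⟨α, β, γ, δ, k, n⟩ := k
  have k1 := congrArg (B e) k
  have k2 := congrArg (B e') k
  have k3 := congrArg (B f') k
  simp only [map_add, map_smul, smul_eq_mul, sy.alt, h1, h2, h3, h4, sy.swap h3, sy.swap h6,
    sy.skew f' e, sy.skew f' e', map_zero] at k1 k2 k3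
  obtain rfl : δ = -β := by linear_combination k1
  obtain rfl : γ = -α := by linear_combination -k3
  have hβ : β ≠ 0 := by
    rintro rfl
    obtain ⟨rfl, -⟩ := ind_iff.1 hi α (-α) (by rw [← k]; module)
    simp at n
  have : f + (α / β) • e = f' + (α / β) • e' := smul_right_injective V hβ (by
    dsimp only; rw [← sub_eq_zero, ← k]; match_scalars <;> field_simp)
  rw [← h.shl (α / β), ← h.shr (α / β), ← this]
  exact h.c2c sy (by simp [sy.alt, h1]) (by rw [this]; simp [sy.alt, h2]) h3 hi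

theorem n3 (h1 : B e f = 1) (h2 : B e' f' = 1) (h3 : B e e' = 0) (hi : Ind F e e')
    (h4 : B e f' = 0) : L (e, f) (e', f') = 0 := by
  have z : ∀ x, B x e' = 0 → B e x = 1 → L (e, x) (e', f') = 0 := fun x hx k =>
    h.key _ _ _ _ 1 1 one_ne_zero one_ne_zero k h2 (by ring) (by simp [hx, h4]) (by ring)
      ((i4 sy.toAl k h2 h3 hi (by simp [h4])).rl one_ne_zero one_ne_zero)
  by_cases hf : B f e' = 0
  · exact z f hf h1
  refine h.colz (S := {x | B e x = 1 ∧ B x e' ≠ 0}) ⟨h1, hf⟩ (fun x hx => ?_) fun x hx k =>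
    z x (by by_contra n; exact hx ⟨k, n⟩) k
  have nm : ∀ y, B e y = 1 → B y e' ≠ 0 → ∃ E Y F' : V, L (E, Y) (e', F') = L (e, y) (e', f') ∧
      B E Y = 1 ∧ B e' F' = 1 ∧ B E e' = 0 ∧ Ind F E e' ∧ B E F' = 0 ∧ B Y e' = 1 ∧
      B Y F' = 0 := fun y k n =>
    ⟨B y e' • e, (B y e')⁻¹ • y, f' + (-B ((B y e')⁻¹ • y) f') • e', by rw [h.shr, h.scl n],
      by simp [k, n], by simp [sy.alt, h2], by simp [h3], by simpa using hi.sml n one_ne_zero,
      by simp [h3, h4], by simp [n], by simp; field_simp; simp⟩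
  obtain ⟨E, Y, F', q0, q1, q2, q3, q4, q5, q6, q7⟩ := nm f h1 hf
  obtain ⟨E', Y', F'', r0, r1, r2, r3, r4, r5, r6, r7⟩ := nm x hx.1 hx.2
  obtain ⟨g, hg⟩ := sy.witt_li (i4 sy.toAl q1 q2 q3 q4 (by simp [q5])).li
    (i4 sy.toAl r1 r2 r3 r4 (by simp [r5])).li (by
      simp [Fin.forall_fin_succ, sy.alt, sy.skew Y E, sy.skew Y' E', sy.skew e' E, sy.skew e' E',
        sy.skew F' E, sy.skew F'' E', sy.skew e' Y, sy.skew e' Y', sy.skew F' Y, sy.skew F'' Y',
        sy.skew F' e', sy.skew F'' e', *])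
  rw [← q0, ← r0, ← h.inv g (E, Y)]
  exact congrArg₂ L (Prod.ext (hg 0).symm (hg 1).symm) (Prod.ext (hg 2).symm (hg 3).symm)

theorem zero (b b' : V × V) : L b b' = 0 := by
  obtain ⟨e, f⟩ := b
  obtain ⟨e', f'⟩ := b'
  by_cases h1 : B e f = 1
  swap; · exact (h.col _).1 e f h1
  by_cases h2 : B e' f' = 1
  swap; · exact (h.row _).1 e' f' h2
  by_cases h3 : B e e' = 0
  swap; · exact h.c1all sy h1 h2 h3
  have he : e ≠ 0 := by rintro rfl; simp at h1
  by_cases hi : e' ∈ F ∙ e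
  · obtain ⟨a, rfl⟩ := Submodule.mem_span_singleton.1 hi
    have ha : a ≠ 0 := by rintro rfl; simp at h2
    rw [show f' = a⁻¹ • a • f' by rw [inv_smul_smul₀ ha], h.scr ha]
    exact h.c3 sy h1 (by simpa using h2)
  by_cases h4 : B e f' = 0
  · exact h.n3 sy h1 h2 h3 ⟨he, hi⟩ h4
  by_cases h5 : B f e' = 0
  · exact (h.tr sy).n3 sy h2 h1 (sy.swap h3) (Ind.symm ⟨he, hi⟩) (sy.swap h5)
  exact h.c2b sy h1 h2 h3 ⟨he, hi⟩ h4 h5

end Gd

theorem sy3 : SY3.{u} := by
  intro F V G _ _ _ _ _ _ _ _ B sy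
  obtain ⟨σ, hσ⟩ := sy.anti
  let τ : V × V → V × V := Prod.map σ (σ.trans (LinearEquiv.neg F))
  have hτ : ∀ e f, τ (e, f) = (σ e, -σ f) := fun _ _ => rfl
  refine ⟨τ, σ.bijective.prodMap (σ.trans (LinearEquiv.neg F)).bijective, fun K h1 h2 h3 b b' => ?_⟩
  have hM : ∀ Φ ∈ M3 B, (fun b => Φ (τ b)) ∈ M3 B := fun Φ h =>
    ⟨fun e f n => h.1 _ _ (by simpa [hσ] using n), fun e f a s ha => by
      have := h.2.1 (σ e) (-σ f) a (-s) ha
      simp only [hτ, map_smul, map_add]
      rw [← this]; congr 2; module, fun e =>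
      (finsum_comp_equiv (σ.trans (LinearEquiv.neg F)).toEquiv (f := fun f => Φ (σ e, f))).trans
        (h.2.2 _)⟩
  have gd : Gd G B fun b b' => K b b' - K (τ b') (τ b) := by
    refine ⟨fun g b b' => ?_, fun b => sub_mem (h2 b) (hM _ (h3 (τ b))),
      fun b => sub_mem (h3 b) (hM _ (h2 (τ b))), fun e f e' f' a c ha hc k1 k2 k3 k4 k5 r => ?_⟩
    · obtain ⟨g', hg'⟩ := sy.full (σ.symm.trans ((lin F V g).trans σ)) fun u v => by
        simp only [LinearEquiv.trans_apply, hσ, lin_apply, sy.iso]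
        rw [← hσ]; simp
      have : ∀ b, τ (g • b) = g' • τ b := fun ⟨x, y⟩ => by
        simp [hτ, hg']
      rw [h1, this, this, h1]
    · obtain ⟨g, hg⟩ := awitt sy hσ ![e, f, e', f'] ![a • e', -a⁻¹ • f', c • e, -c⁻¹ • f] (by
        simp [Fin.forall_fin_succ, sy.alt, k1, k2, sy.skew f e, sy.skew f' e', sy.skew e' e,
          sy.skew f' e, sy.skew e' f, sy.skew f' f, ha, hc]
        refine ⟨⟨?_, ?_⟩, ⟨?_, ?_⟩, ⟨?_, ?_⟩, ?_, ?_⟩ <;> (try field_simp) <;>
          first | linear_combination k3 | linear_combination k4 | linear_combination -k4 |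
            linear_combination -k5) fun x => by
        rw [Fin.sum_univ_four, Fin.sum_univ_four]
        exact (r _ _ _ _).trans (Eq.congr_left (by simp; module))
      have g0 : g • e = a • σ e' := by simpa using hg 0
      have g1 : g • f = a⁻¹ • -σ f' := by simpa using hg 1
      have g2 : g • e' = c • σ e := by simpa using hg 2
      have g3 : g • f' = c⁻¹ • -σ f := by simpa using hg 3
      rw [sub_eq_zero, ← h1 g, Prod.smul_mk, Prod.smul_mk, g0, g1, g2, g3, hτ, hτ]
      have q1 := (h2 (a • σ e', a⁻¹ • -σ f')).2.1 (σ e) (-σ f) c 0 hc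
      have q2 := (h3 (σ e, -σ f)).2.1 (σ e') (-σ f') a 0 ha
      simp only [zero_smul, add_zero] at q1 q2
      rw [q1, q2]
  exact sub_eq_zero.1 (gd.zero sy b b')

end H23.RS
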