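import Cfsg.Agent.H23.RS3

/-! S2195, chunk `NL`: at most two splittings. -/

set_option autoImplicit false
set_option linter.unusedSectionVars false

open Module H13.R3 H11.RS

namespace H23.RS

universe u

variable {F : Type u} [Field F] [Fintype F] {V : Type u} [AddCommGroup V] [Module F V] [Fintype V]
  {G : Type u} [Group G] [DistribMulAction G V] [SMulCommClass G F V]
  {B : LinearMap.BilinForm F V} {H : Subgroup G} {Φ : V × V → ℂ} {a b e x y v : V}

variable (F) in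
/-- the sum over the points `≠ a` of the line `⟨a,b⟩` -/
noncomputable def Sl (Φ : V × V → ℂ) (a b : V) : ℂ := ∑ s : F, Φ (a, b + s • a)

variable (F) in
/-- invariance under scaling -/
def Sc2 (Φ : V × V → ℂ) : Prop := ∀ (a b : V) (c d : F), c ≠ 0 → d ≠ 0 → Φ (c • a, d • b) = Φ (a, b)

theorem Sl_shift (t : F) : Sl F Φ a (b + t • a) = Sl F Φ a b :=
  (Finset.sum_congr rfl fun s _ => by simp [add_smul, add_assoc]).trans
    (Equiv.sum_comp (Equiv.addLeft t) fun s => Φ (a, b + s • a))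

theorem Sl_sc (h : Sc2 F Φ) {c d : F} (hc : c ≠ 0) (hd : d ≠ 0) :
    Sl F Φ (c • a) (d • b) = Sl F Φ a b :=
  (Finset.sum_congr rfl fun s _ => by
    rw [← h a _ c d hc hd]; congr 2; simp only [Equiv.mulRight₀_apply]
    match_scalars <;> field_simp).trans
    (Equiv.sum_comp (Equiv.mulRight₀ (c / d) (div_ne_zero hc hd)) fun s => Φ (a, b + s • a))

theorem Sl_pe (h : Sc2 F Φ) (hi : ∀ h ∈ H, ∀ b, Φ (h • b) = Φ b) {s : F} (ha : a ≠ 0)
    (hb : b + s • a ≠ 0) (k : PE2 F H a (b + s • a) e x) : Sl F Φ a b = Sl F Φ e x := by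
  obtain ⟨g, hg, k1, k2⟩ := k
  obtain ⟨c, hc⟩ := Submodule.mem_span_singleton.1 k1
  obtain ⟨d, hd⟩ := Submodule.mem_span_singleton.1 k2
  have c0 : c ≠ 0 := by rintro rfl; exact ha (gsz.1 (by rw [← hc, zero_smul]))
  have d0 : d ≠ 0 := by rintro rfl; exact hb (gsz.1 (by rw [← hd, zero_smul]))
  rw [← Sl_sc h c0 d0 (a := e), hc, hd, ← Sl_shift s]
  refine Finset.sum_congr rfl fun t _ => ?_
  rw [← hi g hg, Prod.smul_mk, smul_add g _ (t • a), gsc]

variable (B) in
/-- functions on pairs of points of totally isotropic lines with zero sums along flags -/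
def MP : Submodule ℂ (V × V → ℂ) where
  carrier := {Φ | (∀ a, ¬ TL B a → Φ a = 0) ∧ Sc2 F Φ ∧ ∀ a b, Sl F Φ a b = 0}
  zero_mem' := ⟨fun _ _ => rfl, fun _ _ _ _ _ _ => rfl, by simp [Sl]⟩
  add_mem' {Φ Ψ} h k := ⟨fun a n => by simp [h.1 a n, k.1 a n],
    fun a b c d hc hd => by rw [Pi.add_apply, Pi.add_apply, h.2.1 a b c d hc hd, k.2.1 a b c d hc hd],
    fun a b => by
      have := h.2.2 a b
      have := k.2.2 a b
      simp_all only [Sl, Pi.add_apply, Finset.sum_add_distrib, add_zero]⟩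
  smul_mem' c {Φ} h := ⟨fun a n => by simp [h.1 a n],
    fun a b c d hc hd => by rw [Pi.smul_apply, Pi.smul_apply, h.2.1 a b c d hc hd], fun a b => by
      have := h.2.2 a b
      simp_all only [Sl, Pi.smul_apply, ← Finset.smul_sum, smul_zero]⟩

variable (B H) in
/-- the orbit of the pair `(e,x)` -/
def Om (e x : V) : Set (V × V) := {a | TL B a ∧ PE2 F H a.1 a.2 e x}

theorem om_inv (sy : Sy B G) (e x : V) : ∀ h ∈ H, ∀ b, ind (Om B H e x) (h • b) = ind (Om B H e x) b :=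
  fun h hh _ => ind_congr (and_congr (TL.smul_iff sy h)
    ⟨fun k => PE2.trans ⟨h, hh, Submodule.mem_span_singleton_self _,
      Submodule.mem_span_singleton_self _⟩ k,
    fun k => PE2.trans ⟨h⁻¹, H.inv_mem hh, by simp, by simp⟩ k⟩)

theorem om_sc (e x : V) : Sc2 F (ind (Om B H e x)) := fun a b c d hc hd => by
  have k : ∀ (a b : V) (c d : F), c ≠ 0 → d ≠ 0 → (a, b) ∈ Om B H e x →
      (c • a, d • b) ∈ Om B H e x := fun a b c d hc hd h =>
    ⟨⟨h.1.1.sml hc hd, by simp [show B a b = 0 from h.1.2]⟩, PE2.trans ⟨1, H.one_mem,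
      by simpa using Submodule.smul_mem _ c (Submodule.mem_span_singleton_self a),
      by simpa using Submodule.smul_mem _ d (Submodule.mem_span_singleton_self b)⟩ h.2⟩
  refine ind_congr ⟨fun h => ?_, k a b c d hc hd⟩
  simpa [hc, hd] using k _ _ c⁻¹ d⁻¹ (inv_ne_zero hc) (inv_ne_zero hd) h

variable (B H) in
/-- the function attached to a splitting -/
noncomputable def Pf (e x y : V) : V × V → ℂ :=
  Sl F (ind (Om B H e y)) e x • ind (Om B H e x) - Sl F (ind (Om B H e x)) e x • ind (Om B H e y)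

theorem spl_y (al : Al B) (h : Spl B H e x y) :
    TL B (e, y) ∧ ∃ s d : F, d ≠ 0 ∧ y = d • (x + s • e) := by
  obtain ⟨p, q, k⟩ := mem_ln.1 h.2.2.1
  have q0 : q ≠ 0 := by
    rintro rfl; exact h.2.2.2.1 (Submodule.mem_span_singleton.2 ⟨p, by simpa using k⟩)
  exact ⟨⟨⟨h.2.1.1, h.2.2.2.1⟩, ti_ln al h.1 l_ln h.2.2.1⟩, p / q, q, q0, by
    rw [← k]; match_scalars <;> field_simp⟩

theorem pf_mem (sy : Sy B G) (h : Spl B H e x y) : Pf B H e x y ∈ MP B := by
  refine ⟨fun a n => ?_, fun a b c d hc hd => ?_, fun a b => ?_⟩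
  · simp only [Pf, Pi.sub_apply, Pi.smul_apply, ind_not (S := Om B H _ _) fun k => n k.1,
      smul_zero, sub_zero]
  · simp only [Pf, Pi.sub_apply, Pi.smul_apply, om_sc _ _ a b c d hc hd]
  have e1 : Sl F (Pf B H e x y) a b = Sl F (ind (Om B H e y)) e x * Sl F (ind (Om B H e x)) a b -
      Sl F (ind (Om B H e x)) e x * Sl F (ind (Om B H e y)) a b := by
    simp only [Sl, Pf, Pi.sub_apply, Pi.smul_apply, smul_eq_mul, Finset.sum_sub_distrib,
      Finset.mul_sum]
  rw [e1]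
  by_cases k1 : ∃ s : F, (a, b + s • a) ∈ Om B H e x
  · obtain ⟨s, k⟩ := k1
    rw [Sl_pe (om_sc _ _) (om_inv sy _ _) k.1.1.1 k.1.1.ne0 k.2,
      Sl_pe (om_sc _ _) (om_inv sy _ _) k.1.1.1 k.1.1.ne0 k.2]; ring
  by_cases k2 : ∃ s : F, (a, b + s • a) ∈ Om B H e y
  · obtain ⟨s, k⟩ := k2
    obtain ⟨-, t, d, d0, hy⟩ := spl_y sy.toAl h
    have : ∀ z, Sl F (ind (Om B H e z)) a b = Sl F (ind (Om B H e z)) e x := fun z => by
      rw [Sl_pe (om_sc _ _) (om_inv sy _ _) k.1.1.1 k.1.1.ne0 k.2, ← Sl_shift (b := x) t,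
        ← Sl_sc (om_sc _ _) one_ne_zero d0 (a := e) (b := x + t • e), one_smul, ← hy]
    rw [this, this]; ring
  push Not at k1 k2
  simp only [Sl, ind_not (k1 _), ind_not (k2 _), Finset.sum_const_zero, mul_zero, sub_zero]

theorem pf_ne (sy : Sy B G) (h : Spl B H e x y) : Pf B H e x y (e, x) ≠ 0 := by
  have k1 : (e, x) ∈ Om B H e x := ⟨⟨h.2.1, h.1⟩, PE2.refl _ _⟩
  have k2 : (e, x) ∉ Om B H e y := fun k => h.2.2.2.2 k.2
  simp only [Pf, Pi.sub_apply, Pi.smul_apply, ind_of k1, ind_not k2, smul_eq_mul, mul_one,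
    mul_zero, sub_zero]
  obtain ⟨ty, t, d, d0, hy⟩ := spl_y sy.toAl h
  have : Sl F (ind (Om B H e y)) e x = ({s : F | (e, x + s • e) ∈ Om B H e y}.ncard : ℂ) := by
    rw [← sum_ind]; exact Finset.sum_congr rfl fun s _ => ind_congr Iff.rfl
  rw [this]
  refine Nat.cast_ne_zero.2 ((Set.ncard_pos (Set.toFinite _)).2 ⟨t, ?_⟩).ne'
  by_contra n
  have := om_sc (B := B) (H := H) e y e (x + t • e) 1 d one_ne_zero d0
  rw [one_smul, ← hy, ind_not (S := Om B H e y) n, 
    ind_of (S := Om B H e y) ⟨ty, PE2.refl _ _⟩] at this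
  exact one_ne_zero this

theorem pf_zero (h1 : ¬ PE2 F H a b e x) (h2 : ¬ PE2 F H a b e y) : Pf B H e x y (a, b) = 0 := by
  simp only [Pf, Pi.sub_apply, Pi.smul_apply, ind_not (S := Om B H _ _) (a := (a, b)) fun k => h1 k.2,
    ind_not (S := Om B H _ _) (a := (a, b)) fun k => h2 k.2, smul_zero, sub_zero]

variable (B) in
/-- the sum over a hyperplane -/
noncomputable def Ps (Φ : V × V → ℂ) (e v : V) : ℂ := ∑ x, ind {x | B x v = 0} x * Φ (e, x)

variable (B) in
/-- the Radon transform -/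
noncomputable def Rd : (V × V → ℂ) →ₗ[ℂ] (V × V → ℂ) where
  toFun Φ a := ind {f | B a.1 f = 1} a.2 * Ps B Φ a.1 a.2
  map_add' Φ Ψ := by ext a; simp only [Ps, Pi.add_apply, mul_add, Finset.sum_add_distrib]
  map_smul' c Φ := by
    ext a; simp only [Ps, Pi.smul_apply, smul_eq_mul, RingHom.id_apply, Finset.mul_sum]
    exact Finset.sum_congr rfl fun x _ => by ring

theorem Rd_apply (Φ : V × V → ℂ) (e f : V) :
    Rd B Φ (e, f) = ind {f | B e f = 1} f * Ps B Φ e f := rfl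

theorem ps_perp (h : Φ ∈ MP B) (hv : B e v = 0) : Ps B Φ e v = 0 := by
  have k : ∀ s : F, Ps B Φ e v = ∑ x, ind {x | B x v = 0} x * Φ (e, x + s • e) := fun s =>
    (Equiv.sum_comp (Equiv.addRight (s • e)) fun x => ind {x | B x v = 0} x * Φ (e, x)).symm.trans
      (Finset.sum_congr rfl fun x _ => by
        rw [Equiv.coe_addRight, ind_congr (T := {x | B x v = 0}) (b := x) (by simp [hv])])
  have : ∑ _s : F, Ps B Φ e v = 0 := by
    rw [Finset.sum_congr rfl fun s _ => k s, Finset.sum_comm]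
    refine Finset.sum_eq_zero fun x _ => ?_
    rw [← Finset.mul_sum]; exact mul_eq_zero_of_right _ (h.2.2 e x)
  simpa using this

theorem ps_tot (h : Φ ∈ MP B) (e : V) : ∑ x, Φ (e, x) = 0 := by
  rw [← ps_perp h (v := 0) (by simp)]
  exact Finset.sum_congr rfl fun x _ => by rw [ind_of (by simp), one_mul]

theorem sum_ps (S : Set V) (e : V) : ∑ v, ind S v * Ps B Φ e v =
    ∑ x, ({v | v ∈ S ∧ B x v = 0}.ncard : ℂ) * Φ (e, x) := by
  simp only [Ps, Finset.mul_sum]
  rw [Finset.sum_comm]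
  refine Finset.sum_congr rfl fun x _ => ?_
  rw [← sum_ind, Finset.sum_mul]
  refine Finset.sum_congr rfl fun v _ => ?_
  rw [← mul_assoc]; congr 1
  by_cases k : v ∈ S
  · rw [ind_of k, one_mul]; exact ind_congr (by simp [k])
  · rw [ind_not k, zero_mul, ind_not fun h => k h.1]

theorem qne : (Fintype.card F : ℂ) ≠ 0 := Nat.cast_ne_zero.2 Fintype.card_ne_zero

theorem rd_mem (al : Al B) (h : Φ ∈ MP B) : Rd B Φ ∈ M3 B := by
  refine ⟨fun e f n => by rw [Rd_apply, ind_not (S := {f | B e f = 1}) n, zero_mul], fun e f a s ha => ?_, fun e => ?_⟩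
  · rw [Rd_apply, Rd_apply, ind_congr (T := {f | B e f = 1}) (b := f) (by simp [al.alt, ha])]
    congr 1
    refine Finset.sum_congr rfl fun x _ => ?_
    have := h.2.1 e x a 1 ha one_ne_zero
    rw [one_smul] at this
    rw [this]
    by_cases k : TL B (e, x)
    · rw [ind_congr (T := {x | B x f = 0}) (b := x) (by simp [al.swap k.2, ha])]
    · rw [h.1 _ k, mul_zero, mul_zero]
  · rw [finsum_eq_sum_of_fintype]
    simp only [Rd_apply]
    rw [sum_ps]
    refine mul_left_cancel₀ (pow_ne_zero 2 (qne (F := F))) ?_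
    rw [mul_zero, Finset.mul_sum, ← mul_zero ((Fintype.card F : ℂ) ^ finrank F V), ← ps_tot h e,
      Finset.mul_sum]
    refine Finset.sum_congr rfl fun x _ => ?_
    by_cases k : TL B (e, x)
    · have := congrArg (Nat.cast : ℕ → ℂ) (al.ncard2 k.1 1 0)
      push_cast at this
      rw [← this]; simp only [Set.mem_ofPred_eq]; ring
    · rw [h.1 _ k, mul_zero, mul_zero, mul_zero]

theorem rd_inj (al : Al B) (h : Φ ∈ MP B) (h0 : Rd B Φ = 0) : Φ = 0 := by
  funext ⟨e, y⟩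
  by_cases ty : TL B (e, y)
  swap; · exact h.1 _ ty
  have y0 : y ≠ 0 := ty.1.ne0
  have z : ∀ v, Ps B Φ e v = 0 := fun v => by
    by_cases k : B e v = 0
    · exact ps_perp h k
    have := congrFun h0 (e, (B e v)⁻¹ • v)
    rw [Rd_apply, ind_of (by simp [k]), one_mul, Pi.zero_apply] at this
    rw [← this]
    exact Finset.sum_congr rfl fun x _ => by
      rw [ind_congr (T := {x | B x ((B e v)⁻¹ • v) = 0}) (b := x) (by simp [k])]
  have k1 := sum_ps (B := B) (Φ := Φ) {v | B y v = 0} e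
  simp only [z, mul_zero, Finset.sum_const_zero] at k1
  set q : ℂ := (Fintype.card F : ℂ) with hq
  have k2 : q ^ finrank F V * (∑ x, Φ (e, x) + (q - 1) * ∑ x, ind (F ∙ y : Submodule F V) x *
      Φ (e, x)) = 0 := by
    rw [← mul_zero (q ^ 2), k1, Finset.mul_sum, Finset.mul_sum, ← Finset.sum_add_distrib,
      Finset.mul_sum]
    refine Finset.sum_congr rfl fun x _ => ?_
    by_cases k : TL B (e, x)
    swap; · simp [h.1 _ k]
    by_cases hx : x ∈ F ∙ y
    · have := congrArg (Nat.cast : ℕ → ℂ) (al.ncard1 y0 0)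
      push_cast at this
      obtain ⟨c, rfl⟩ := Submodule.mem_span_singleton.1 hx
      rw [ind_of hx, ← this, show {v | v ∈ {v | B y v = 0} ∧ B (c • y) v = 0} = {v | B y v = 0} by
        ext v; simp +contextual]
      ring
    · have := congrArg (Nat.cast : ℕ → ℂ) (al.ncard2 ⟨y0, hx⟩ 0 0)
      push_cast at this
      rw [ind_not hx, ← this]; simp only [Set.mem_ofPred_eq]; ring
  have q1 : q - 1 ≠ 0 := sub_ne_zero.2 (by rw [hq]; exact_mod_cast (Fintype.one_lt_card).ne')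
  rw [ps_tot h, zero_add, mul_eq_zero, mul_eq_zero] at k2
  have k3 := (k2.resolve_left (pow_ne_zero _ qne)).resolve_left q1
  refine const_zero (S := {x | x ∈ F ∙ y ∧ x ≠ 0}) (fun x hx => ?_) (fun x hx => ?_) k3
    ⟨y, Submodule.mem_span_singleton_self y, y0⟩
  · obtain ⟨c, rfl⟩ := Submodule.mem_span_singleton.1 hx.1
    have := h.2.1 e y 1 c one_ne_zero (by rintro rfl; simp at hx)
    rw [one_smul] at this
    rw [ind_of hx.1, one_mul, this]
  · by_cases k : x ∈ F ∙ y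
    · rw [h.1 (e, x) fun t => hx ⟨k, t.1.ne0⟩, mul_zero]
    · rw [ind_not k, zero_mul]

theorem rd_inv (sy : Sy B G) (hi : ∀ h ∈ H, ∀ b, Φ (h • b) = Φ b) :
    ∀ h ∈ H, ∀ b, Rd B Φ (h • b) = Rd B Φ b := fun g hg ⟨e, f⟩ => by
  rw [Prod.smul_mk, Rd_apply, Rd_apply, ind_congr (T := {f | B e f = 1}) (b := f) (by simp [sy.iso])]
  congr 1
  refine (Equiv.sum_comp (MulAction.toPerm g) _).symm.trans (Finset.sum_congr rfl fun x _ => ?_)
  rw [MulAction.toPerm_apply, ← Prod.smul_mk, hi g hg,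
    ind_congr (T := {x | B x f = 0}) (b := x) (by simp [sy.iso])]

theorem nl : NL.{u} := by
  intro F V G _ _ _ _ _ _ _ _ _ B H sy h3 e₁ x₁ y₁ e₂ x₂ y₂ e₃ x₃ y₃ s₁ s₂ s₃ n1 n2
  by_contra! hn
  obtain ⟨n3, n4, n5, n6⟩ := hn
  have := Fintype.ofFinite V
  obtain ⟨σ, hσ, hs⟩ := sy3 F V G B sy
  let P : Fin 3 → V × V → ℂ := ![Pf B H e₁ x₁ y₁, Pf B H e₂ x₂ y₂, Pf B H e₃ x₃ y₃]
  have hP : ∀ i, P i ∈ MP B := fun i => by
    fin_cases i
    exacts [pf_mem sy s₁, pf_mem sy s₂, pf_mem sy s₃]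
  have iP : ∀ i, ∀ h ∈ H, ∀ b, P i (h • b) = P i b := fun i h hh b => by
    fin_cases i <;> simp [P, Pf, om_inv sy _ _ h hh]
  have li : LinearIndependent ℂ P := tri3 ![(e₁, x₁), (e₂, x₂), (e₃, x₃)] (fun i => by
    fin_cases i
    exacts [pf_ne sy s₁, pf_ne sy s₂, pf_ne sy s₃]) (pf_zero n3 n4) (pf_zero n5 n6) (pf_zero n1 n2)
  refine gel G (V × V) H (M3 B) σ h3 hσ (fun Ψ h g => ⟨fun e f n => h.1 (g • e) (g • f) (by rwa [sy.iso]),
    fun e f a s ha => ?_, fun e => ?_⟩) (fun Ψ h => ⟨fun e f n => by simp [h.1 e f n],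
      fun e f a s ha => by simp [h.2.1 e f a s ha], fun e => ?_⟩) (fun Ψ h k => ?_) hs
    (fun i => Rd B (P i)) (fun i => rd_mem sy.toAl (hP i)) (fun i => rd_inv sy (iP i)) ?_
  · simpa [gsc] using h.2.1 (g • e) (g • f) a s ha
  · exact (finsum_comp_equiv (MulAction.toPerm g) (f := fun f => Ψ (g • e, f))).trans (h.2.2 _)
  · have := h.2.2 e
    rw [finsum_eq_sum_of_fintype] at this ⊢
    simp only [Pi.star_apply, ← star_sum, this, star_zero]
  · funext ⟨e, f⟩
    by_cases hf : B e f = 1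
    swap; · exact h.1 e f hf
    have := h.2.2 e
    rw [finsum_eq_sum_of_fintype] at this
    refine const_zero (S := {x | B e x = 1}) (fun x hx => ?_) (h.1 e) this ⟨f, hf⟩
    obtain ⟨g, g1, g2⟩ := sy.witt2 (sy.ind_of_ne (by rw [hf]; exact one_ne_zero))
      (sy.ind_of_ne (x := e) (y := x) (by rw [hx]; exact one_ne_zero)) (hx.trans hf.symm)
    rw [← k g (e, f), Prod.smul_mk, g1, g2]
  · rw [Fintype.linearIndependent_iff] at li ⊢
    refine fun c hc => li c (rd_inj sy.toAl (Submodule.sum_mem _ fun i _ =>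
      Submodule.smul_mem _ _ (hP i)) ?_)
    rw [map_sum, ← hc]; simp only [map_smul]

end H23.RS
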