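import Cfsg.Agent.H11.RS1

/-! S2195, chunks `EA` and `II`. -/

set_option autoImplicit false
set_option linter.unusedSectionVars false

open Module H13.R3 H11.RS

namespace H23.RS

universe u

variable {F : Type u} [Field F] [Fintype F] {V : Type u} [AddCommGroup V] [Module F V] [Finite V]
  {G : Type u} [Group G] [DistribMulAction G V] [SMulCommClass G F V]
  {B : LinearMap.BilinForm F V} {H : Subgroup G} {g g' h : G} {a b b' e x y z v w : V} {c : F}

variable (B H) in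
/-- the span of `x` and `Mp x` -/
def MM (x : V) : Submodule F V := Submodule.span F (insert x (Mp B H x))

theorem mem_pp_MM : z ∈ pp B (MM B H x) ↔ B x z = 0 ∧ ∀ w ∈ Mp B H x, B w z = 0 :=
  ⟨fun h => ⟨h x (Submodule.subset_span (by simp)), fun w hw =>
    h w (Submodule.subset_span (by simp [hw]))⟩, fun h w hw => by
    have : MM B H x ≤ LinearMap.ker (B.flip z) := Submodule.span_le.2 (by
      rintro u (rfl | hu)
      exacts [h.1, h.2 u hu])
    exact this hw⟩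

theorem mp_image (sy : Sy B G) (hh : h ∈ H) (x : V) : Mp B H (h • x) = (h • ·) '' Mp B H x := by
  ext w
  exact ⟨fun k => ⟨h⁻¹ • w, by simpa using sy.mp_conj (H.inv_mem hh) k, by simp⟩,
    by rintro ⟨u, hu, rfl⟩; exact sy.mp_conj hh hu⟩

theorem mp_image' (hc : c ≠ 0) (x : V) : Mp B H x = (c • ·) '' Mp B H (c • x) := by
  ext w
  exact ⟨fun k => ⟨c⁻¹ • w, Mp.sml.2 (by simpa [hc] using k), by simp [hc]⟩,
    by rintro ⟨u, hu, rfl⟩; exact Mp.sml.1 hu⟩

theorem MM_smul (sy : Sy B G) (hh : h ∈ H) (x : V) :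
    MM B H (h • x) = (MM B H x).map (lin F V h).toLinearMap := by
  rw [MM, MM, Submodule.map_span, Set.image_insert_eq, mp_image sy hh]; rfl

theorem MM_sc (hc : c ≠ 0) (x : V) : MM B H (c • x) = MM B H x := by
  have k : ∀ (c : F) (x : V), c ≠ 0 → MM B H (c • x) ≤ MM B H x := fun c x hc =>
    Submodule.span_le.2 (by
      rintro u (rfl | hu)
      · exact Submodule.smul_mem _ _ (Submodule.subset_span (by simp))
      · rw [← inv_smul_smul₀ hc u]
        exact Submodule.smul_mem _ _ (Submodule.subset_span (Or.inr (Mp.sml.1 hu))))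
  refine le_antisymm (k c x hc) ?_
  simpa [hc] using k c⁻¹ (c • x) (inv_ne_zero hc)

theorem const_of {α : Type*} (pp : PP F V H) {φ : V → α} (h1 : ∀ h ∈ H, ∀ x, φ (h • x) = φ x)
    (h2 : ∀ c : F, c ≠ 0 → ∀ x, φ (c • x) = φ x) (hx : x ≠ 0) (hy : y ≠ 0) : φ x = φ y := by
  obtain ⟨k, hk, c, hc, e⟩ := (pp x y hx hy).ex hx
  rw [← h1 k hk, e, h2 c hc]

theorem ea : EA.{u} := by
  intro F V G _ _ _ _ _ _ _ _ _ B H sy hp nt ne
  simp only [E1, not_forall] at ne
  obtain ⟨x, w, hx, hw, w0⟩ := ne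
  have ix : Ind F x w := ⟨hx, fun k => w0 (sy.mp_sp nt hx hw k)⟩
  have m1 : x ∈ MM B H x := Submodule.subset_span (by simp)
  have m2 : ∀ u ∈ Mp B H x, u ∈ MM B H x := fun u hu => Submodule.subset_span (by simp [hu])
  have d2 := Submodule.finrank_mono (ln_le.2 ⟨m1, m2 w hw⟩)
  rw [ix.finrank] at d2
  obtain ⟨d, hd⟩ : ∃ d, finrank F (MM B H x) = d + 1 := ⟨_, (Nat.sub_add_cancel (by omega)).symm⟩
  have cd : ∀ y, y ≠ 0 → finrank F (MM B H y) = d + 1 := fun y hy => hd ▸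
    const_of hp (φ := fun y => finrank F (MM B H y))
      (fun h hh x => by rw [MM_smul sy hh, finrank_map_lin]) (fun c hc x => by rw [MM_sc hc]) hy hx
  have ti : MM B H x ≤ pp B (MM B H x) := Submodule.span_le.2 (by
    rintro u (rfl | hu)
    · exact mem_pp_MM.2 ⟨sy.alt _, fun w hw => sy.swap hw.1⟩
    · exact mem_pp_MM.2 ⟨hu.1, fun w hw => sy.mp_iso nt hx hw hu⟩)
  have q2 := q2 F
  refine ⟨d, (Mp B H x).ncard, by omega, hd ▸ sy.ti_le ti, ?_, ?_, fun y hy => ?_, fun z hz => ?_⟩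
  · rw [← Set.ncard_pair w0]
    exact Set.ncard_le_ncard (by rintro u (rfl | rfl); exacts [hw, sy.mp_zero x])
  · have := Set.ncard_le_ncard_of_injOn (s := Mp B H x ×ˢ (Set.univ : Set F)) (t := MM B H x)
      (fun a => a.1 + a.2 • x) (fun a ha => add_mem (m2 _ ha.1) (Submodule.smul_mem _ _ m1))
      (fun a ha b hb e => by
        have k := sub_eq_zero.1 (sy.mp_sp nt hx (sy.mp_sub nt hx ha.1 hb.1)
          (Submodule.mem_span_singleton.2 ⟨b.2 - a.2, by
            rw [← sub_eq_zero, ← neg_eq_zero, ← sub_eq_zero.2 e]; module⟩))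
        dsimp only at e
        rw [k, add_right_inj] at e
        exact Prod.ext k (smul_left_injective F hx e))
    rw [Set.ncard_prod, Set.ncard_univ, Nat.card_eq_fintype_card, ncard_sub, hd, pow_succ] at this
    exact Nat.le_of_mul_le_mul_right this (by omega)
  · exact const_of hp (φ := fun y => (Mp B H y).ncard)
      (fun h hh x => by rw [mp_image sy hh, Set.ncard_image_of_injective _ (MulAction.injective h)])
      (fun c hc x => by
        rw [mp_image' hc x, Set.ncard_image_of_injective _ (smul_right_injective V hc)]) hy hx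
  simp only [← mem_pp_MM]
  have := dcount {u : V | u ≠ 0} {u : V | u ≠ 0} (fun y u => u ∈ pp B (MM B H y))
    (m := Fintype.card F ^ (finrank F V - 1 - d) - 1)
    (n := {y | y ≠ 0 ∧ z ∈ pp B (MM B H y)}.ncard) (fun y hy => by
      have := sy.finrank_pp (MM B H y)
      rw [cd y hy] at this
      rw [show finrank F V - 1 - d = finrank F (pp B (MM B H y)) by omega, ← ncard_ne0]
      congr 1; ext; exact and_comm) fun u hu =>
    const_of hp (φ := fun z => {y | y ≠ 0 ∧ z ∈ pp B (MM B H y)}.ncard) (fun h hh x => by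
      rw [← Set.ncard_image_of_injective {y | y ≠ 0 ∧ x ∈ _} (MulAction.injective h)]
      congr 1; ext y
      refine ⟨fun k => ⟨h⁻¹ • y, ⟨fun n => k.1 (gsz.1 n), ?_⟩, by simp⟩, ?_⟩
      · rw [← sy.smul_pp (g := h), ← MM_smul sy hh, smul_inv_smul]; exact k.2
      · rintro ⟨y, k, rfl⟩
        exact ⟨fun n => k.1 (gsz.1 n), by rw [MM_smul sy hh, sy.smul_pp]; exact k.2⟩)
      (fun c hc x => by simp only [Submodule.smul_mem_iff _ hc]) hu hz
  exact (Nat.eq_of_mul_eq_mul_left ((Set.ncard_pos (Set.toFinite _)).2 ⟨z, hz⟩) this).symm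

/-! ### `II` -/

theorem iv_sub (sy : Sy B G) (hg : Iv B g a b) (u : V) : u - g • u ∈ ln F a b :=
  mem_ln.2 ⟨2 * B u b / B a b, 2 * B a u / B a b, by rw [sy.iv_apply hg u]; abel⟩

theorem iv_fix (sy : Sy B G) (hg : Iv B g a b) (h : g • w = w) : w ∈ pp B (ln F a b) := by
  have two := sy.two
  refine mem_pp_ln.2 ⟨?_, ?_⟩
  · have := sy.iso g a w
    rw [hg.2.1, h, map_neg, LinearMap.neg_apply] at this
    exact (mul_eq_zero.1 (by linear_combination -this : 2 * B a w = 0)).resolve_left two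
  · have := sy.iso g b w
    rw [hg.2.2.1, h, map_neg, LinearMap.neg_apply] at this
    exact (mul_eq_zero.1 (by linear_combination -this : 2 * B b w = 0)).resolve_left two

theorem ln_perp (al : Al B) (h : B a b ≠ 0) (hw : w ∈ ln F a b) (k : B a w = 0) : w ∈ F ∙ a := by
  obtain ⟨p, q, rfl⟩ := mem_ln.1 hw
  obtain rfl : q = 0 := by simpa [al.alt, h] using k
  simpa using Submodule.smul_mem _ p (Submodule.mem_span_singleton_self a)

theorem iv_uniq (sy : Sy B G) (e1 : E1 B H) (hg : g ∈ H) (hg' : g' ∈ H) (h : Iv B g e b)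
    (h' : Iv B g' e b') : b' ∈ ln F e b := by
  have he : e ≠ 0 := by rintro rfl; exact h.1 (by simp)
  have k : ∀ {g : G} {b : V}, Iv B g e b → ∀ w, B e w = 0 → w - g • w ∈ F ∙ e := fun h w hw =>
    ln_perp sy.toAl h.1 (iv_sub sy h w) (by
      rw [map_sub, hw, ← neg_neg e, ← h.2.1, map_neg, LinearMap.neg_apply, sy.iso, hw]; simp)
  obtain ⟨x, h1, h2⟩ := sy.uu_of (g := g * g') he (by rw [mul_smul, h'.2.1, smul_neg, h.2.1, neg_neg])
    fun w hw => by
      have k1 := k h' w hw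
      have k2 := k h (g' • w) (by
        rw [← neg_neg e, ← h'.2.1, map_neg, LinearMap.neg_apply, sy.iso, hw]; simp)
      have := neg_mem (add_mem k1 k2)
      rwa [sub_add_sub_cancel, neg_sub, ← mul_smul] at this
  obtain rfl := e1 e x he ⟨h1, _, H.mul_mem hg hg', h2⟩
  have k3 : g • b' = -b' := by
    have := h2 b'
    rw [mul_smul, h'.2.2.1, smul_neg] at this
    simpa [neg_eq_iff_eq_neg] using this
  have := Submodule.smul_mem _ (2 : F)⁻¹ (iv_sub sy h b')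
  rwa [k3, sub_neg_eq_add, ← two_smul F, inv_smul_smul₀ sy.two] at this

variable (B H) in
/-- vectors of `W^⊥` with `Mp x ∩ W = 0` -/
def Good (z b : V) : Set V :=
  {x | (x ∈ pp B (ln F z b) ∧ x ≠ 0) ∧ ∀ w ∈ ln F z b, w ∈ Mp B H x → w = 0}

theorem good_sub (sy : Sy B G) (nt : NoT B H) (hg : g ∈ H) (h : Iv B g z b) :
    Good B H z b ⊆ {x | x ≠ 0 ∧ B x z = 0 ∧ ∀ w ∈ Mp B H x, B w z = 0} := fun x hx => by
  obtain ⟨k1, k2⟩ := mem_pp_ln.1 hx.1.1
  refine ⟨hx.1.2, sy.swap k1, fun w hw => sy.swap (mem_pp_ln.1 (iv_fix sy h ?_)).1⟩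
  have := sy.mp_conj hg hw
  rw [h.2.2.2 x k1 k2] at this
  exact (sub_eq_zero.1 (hx.2 _ (iv_sub sy h w) (sy.mp_sub nt hx.1.2 hw this))).symm

theorem good_card (sy : Sy B G) {m : ℕ} (hm : ∀ x, x ≠ 0 → (Mp B H x).ncard = m) (h : B z b ≠ 0) :
    ∃ t, 2 * t ≤ Fintype.card F ^ 2 * m ∧
      Fintype.card F ^ (finrank F V - 2) ≤ (Good B H z b).ncard + t + 1 := by
  let Bad : Set V := {x | x ≠ 0 ∧ ∃ w ∈ ln F z b, w ≠ 0 ∧ w ∈ Mp B H x}
  have iz := (sy.ind_of_ne h).finrank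
  refine ⟨Bad.ncard, ?_, ?_⟩
  · have := dcount_le Bad {w | w ∈ ln F z b ∧ w ≠ 0} (fun x w => w ∈ Mp B H x) (m := 2) (n := m)
      (by
        rintro x ⟨-, w, h1, h2, h3⟩
        rw [← Set.ncard_pair (a := w) (b := -w) fun k => h2 (sy.half (eq_neg_iff_add_eq_zero.1 k))]
        exact Set.ncard_le_ncard (by
          rintro u (rfl | rfl)
          exacts [⟨⟨h1, h2⟩, h3⟩, ⟨⟨neg_mem h1, neg_ne_zero.2 h2⟩, sy.mp_neg h3⟩]))
      fun w hw => by
        rw [← hm w hw.2]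
        exact Set.ncard_le_ncard fun x hx => sy.mp_symm hx.2
    rw [ncard_ne0, iz, mul_comm] at this
    exact this.trans (Nat.mul_le_mul_right _ (Nat.sub_le _ _))
  · have k := sy.finrank_pp (ln F z b)
    have k1 := ncard_ne0 (pp B (ln F z b))
    rw [show finrank F (pp B (ln F z b)) = finrank F V - 2 by omega] at k1
    have k2 : {u | u ∈ pp B (ln F z b) ∧ u ≠ 0}.ncard ≤ (Good B H z b ∪ Bad).ncard :=
      Set.ncard_le_ncard fun x hx => by
        by_cases k : x ∈ Bad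
        · exact Or.inr k
        · exact Or.inl ⟨hx, fun w h1 h2 => by by_contra n; exact k ⟨hx.2, w, h1, n, h2⟩⟩
    have := Set.ncard_union_le (Good B H z b) Bad
    omega

theorem ar {q n d m s g₀ g₁ t₀ t₁ i : ℕ} (hq : 3 ≤ q) (hn : 6 ≤ n) (d1 : 1 ≤ d)
    (d2 : 2 * (d + 1) ≤ n) (hm : m ≤ q ^ d) (h0 : 2 * t₀ ≤ q ^ 2 * m) (h1 : 2 * t₁ ≤ q ^ 2 * m)
    (k0 : q ^ (n - 2) ≤ g₀ + t₀ + 1) (k1 : q ^ (n - 2) ≤ g₁ + t₁ + 1) (hi : i ≤ q ^ (n - 3) - 1)
    (hs : s ≤ q ^ (n - 1 - d) - 1) (e : s + i = g₀ + g₁) : False := by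
  have q0 : 0 < q := by omega
  have hN : 0 < q ^ (n - 3) := pow_pos q0 _
  have hS : 0 < q ^ (n - 1 - d) := pow_pos q0 _
  have e1 : q ^ (n - 2) = q * q ^ (n - 3) := by rw [← pow_succ']; congr 1; omega
  have e2 : 3 * q ^ (n - 3) ≤ q * q ^ (n - 3) := Nat.mul_le_mul_right _ hq
  have e3 : q ^ 2 * m ≤ q ^ (2 + d) := by rw [pow_add]; exact Nat.mul_le_mul_left _ hm
  rcases d1.eq_or_lt with rfl | d1
  · have : q ^ (2 + 1) ≤ q ^ (n - 3) := Nat.pow_le_pow_right q0 (by omega)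
    rw [show n - 1 - 1 = n - 2 by omega] at hs hS
    omega
  · have : q ^ (2 + d) ≤ q ^ (n - 2) := Nat.pow_le_pow_right q0 (by omega)
    have : q ^ (n - 1 - d) ≤ q ^ (n - 3) := Nat.pow_le_pow_right q0 (by omega)
    omega

theorem ii (sph : SPH.{u}) : II.{u} := by
  intro F V G _ _ _ _ _ _ _ _ _ B H sy hp nt ⟨g, hg, a, b, hi⟩
  have ha : a ≠ 0 := by rintro rfl; exact hi.1 (by simp)
  have ex : ∀ v : V, ∃ b, v ≠ 0 → ∃ g ∈ H, Iv B g v b := fun v => by
    by_cases hv : v = 0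
    · exact ⟨0, fun h => absurd hv h⟩
    obtain ⟨k, hk, c, hc, e⟩ := (hp a v ha hv).ex ha
    have := sy.iv_conj hi k
    rw [e] at this
    refine ⟨k • b, fun _ => ⟨_, H.mul_mem (H.mul_mem hk hg) (H.inv_mem hk), sy.iv_of this
      (mem_ln.2 ⟨c⁻¹, 0, by simp [hc]⟩) r_ln fun n => this.1 (by simp [n])⟩⟩
  choose β hβ using ex
  by_cases e1 : E1 B H
  · refine sph F V B (fun v => ln F v (β v)) sy.toAl sy.n6 (fun v hv => ?_) fun v y hv hy k => ?_
    · obtain ⟨g, -, h⟩ := hβ v hv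
      exact ⟨l_ln, (sy.ind_of_ne h.1).finrank, fun k => h.1 (sy.swap (mem_pp_ln.1 k).2)⟩
    obtain ⟨i, hi, h⟩ := hβ v hv
    obtain ⟨j, hj, h'⟩ := hβ y hy
    have k1 := sy.iv_conj h' i
    rw [h.2.2.2 y (mem_pp_ln.1 k).1 (mem_pp_ln.1 k).2] at k1
    have k2 := iv_uniq sy e1 hj (H.mul_mem (H.mul_mem hi hj) (H.inv_mem hi)) h' k1
    have k3 := iv_sub sy h (β y)
    obtain ⟨c, hc⟩ := Submodule.mem_span_singleton.1
      (ln_perp sy.toAl h'.1 (sub_mem r_ln k2) (sy.swap (k _ k3)))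
    refine ln_le.2 ⟨k, iv_fix sy h (sub_eq_zero.1 ?_).symm⟩
    have k4 : β y - i • β y ∈ pp B (ln F v (β v)) := hc ▸ Submodule.smul_mem _ _ k
    obtain ⟨c', hc'⟩ := Submodule.mem_span_singleton.1
      (ln_perp sy.toAl h.1 k3 (mem_pp_ln.1 k4).1)
    have k5 := (mem_pp_ln.1 k4).2
    rw [← hc'] at k5 ⊢
    rw [map_smul, smul_eq_mul, mul_eq_zero, sy.swap_iff] at k5
    rw [k5.resolve_right h.1, zero_smul]
  obtain ⟨d, m, d1, d2, m2, hm, cm, cs⟩ := ea F V G B H sy hp nt e1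
  obtain ⟨y, hy, y0⟩ := Set.exists_ne_of_one_lt_ncard (by rw [cm a ha]; omega : 1 < (Mp B H a).ncard) 0
  obtain ⟨hay, k, hk, hu⟩ := id hy
  have hi' := sy.iv_conj hi k
  rw [hu.fix (sy.alt a) hay] at hi'
  have i3 : Ind3 F a b (k • b) := ⟨sy.ind_of_ne hi.1, fun n => y0 (sy.mp_sp nt ha hy
    (ln_perp sy.toAl hi.1 ?_ hay))⟩
  · obtain ⟨t₀, h0, k0⟩ := good_card sy cm hi.1
    obtain ⟨t₁, h1, k1⟩ := good_card sy cm hi'.1
    have r3 := sy.finrank_pp (pl F a b (k • b))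
    rw [i3.finrank] at r3
    refine ar sy.three_le sy.n6 d1 d2 hm h0 h1 k0 k1 ?_ ?_
      (Set.ncard_union_add_ncard_inter (Good B H a b) (Good B H a (k • b)))
    · rw [show finrank F V - 3 = finrank F (pp B (pl F a b (k • b))) by omega, ← ncard_ne0]
      exact Set.ncard_le_ncard fun x hx => ⟨mem_pp_pl.2 ⟨(mem_pp_ln.1 hx.1.1.1).1,
        (mem_pp_ln.1 hx.1.1.1).2, (mem_pp_ln.1 hx.2.1.1).2⟩, hx.1.1.2⟩
    · rw [← cs a ha]
      exact Set.ncard_le_ncard (Set.union_subset (good_sub sy nt hg hi)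
        (good_sub sy nt (H.mul_mem (H.mul_mem hk hg) (H.inv_mem hk)) hi'))
  · have hb : B b a ≠ 0 := fun e => hi.1 (sy.swap e)
    rw [← Submodule.smul_mem_iff _ hb,
      show B b a • y = k • b - b - B b y • a by rw [hu b]; abel]
    exact sub_mem (sub_mem n r_ln) (Submodule.smul_mem _ _ l_ln)

end H23.RS
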