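import Cfsg.Agent.H0.RU5
import Cfsg.Agent.H16.RU3

/-! S2196: the chunk `FLP`. -/

set_option autoImplicit false
set_option linter.unusedSectionVars false
set_option linter.unusedVariables false

open Module MulAction H13.R3 H12
open H11 (hermT frob)
open H11.RS (PO)

namespace H23.RU
open H0.RU

universe u

attribute [-simp] H11.frob_apply

variable {F : Type u} [Field F] [Fintype F] {q : ℕ} {hF : Fintype.card F = q ^ 2}
  {V : Type u} [AddCommGroup V] [Module F V] [Fintype V] {C : CForm (hermT hF) V}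
  {G : Type u} [Group G] [Fintype G] [DistribMulAction G V] [SMulCommClass G F V] {H : Subgroup G}
  {x y : V} {φ : V × V → ℂ} {r : ℕ}

theorem ln_st {g : G} (hx : x ≠ 0) (hg : g ∈ St G (F ∙ x)) (y : V) : ln F (g • x) y = ln F x y := by
  rw [ln_eq_sup, ln_eq_sup, sp_eq (fun e => hx (gsz.1 e)) ((hg x).2 (Submodule.mem_span_singleton_self x))]

/-- the lines through `x` in a flag orbit -/
theorem orb_fl (un : Un C G) (hf : Fl C x y) : {z | Fl C x z ∧ Fq F H (x, y) (x, z)}.ncard ∣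
    Nat.card ↥(H ⊓ St G (F ∙ x)) * ((q ^ 2) ^ 2 - q ^ 2) := by
  have fg : ∀ g ∈ St G (F ∙ x), Fl C x (g • y) := fun g hg => by
    obtain ⟨c, e⟩ := Submodule.mem_span_singleton.1 ((hg x).2 (Submodule.mem_span_singleton_self x))
    have := un.fl_smul (g := g).2 hf
    refine (fl_tr 0 (a := c) (fun c0 => this.1.1 (by simp [← e, c0])) one_ne_zero).1 ?_
    simpa [e] using this
  have := dcount ((H ⊓ St G (F ∙ x) : Subgroup G) : Set G) {z | Fl C x z ∧ Fq F H (x, y) (x, z)} (fun g z => g • y ∈ ln F x z)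
    (m := (q ^ 2) ^ 2 - q ^ 2) (n := {g | g ∈ H ⊓ St G (F ∙ x) ∧ g • y ∈ ln F x y}.ncard) (fun g hg => ?_) fun z hz => ?_
  · exact ⟨_, this⟩
  · have f := fg g hg.2
    rw [← hF, ← f.ind.finrank, ← ncard_off hf.1.1 l_ln]
    refine congrArg _ (Set.ext fun z => ⟨fun ⟨⟨h1, _⟩, h2⟩ => ⟨ln_eq f.ind l_ln h2 ▸ r_ln, h1.2.2.2⟩, fun ⟨h1, h2⟩ => ?_⟩)
    have e := ln_eq (a := x) (b := z) ⟨hf.1.1, h2⟩ l_ln h1
    exact ⟨⟨f.of_mem l_ln h1 ⟨hf.1.1, h2⟩, g, hg.1, (hg.2 x).2 (Submodule.mem_span_singleton_self x), e ▸ r_ln⟩, e ▸ r_ln⟩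
  · obtain ⟨h1, k, hk, h2, h3⟩ := hz
    have m : k ∈ H ⊓ St G (F ∙ x) := ⟨hk, mem_St_sp h2⟩
    have e : ∀ g : G, (k * g) • y ∈ ln F x z ↔ g • y ∈ ln F x y := fun g => by
      rw [← ln_eq (fg k m.2).ind l_ln h3, ← ln_st hf.1.1 m.2, mul_smul, smul_mem_ln_iff]
    refine Eq.symm (Set.ncard_congr (fun g _ => k * g) (fun g hg => ⟨mul_mem m hg.1, (e g).2 hg.2⟩) (fun _ _ _ _ => mul_left_cancel)
      fun g hg => ⟨k⁻¹ * g, ⟨mul_mem (inv_mem m) hg.1, (e _).1 (by simpa using hg.2)⟩, by simp⟩)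

theorem sum_g (g : G) (f : V → ℂ) : ∑ v, f (g • v) = ∑ v, f v := Fintype.sum_equiv (MulAction.toPerm g) _ _ fun _ => rfl

theorem row0 (un : Un C G) (pp : PP C H) (h : φ ∈ EF C H) (hx : Is C x) : ∑ y, φ (x, y) = 0 := by
  classical
  have := h.2.2
  rw [Fintype.sum_prod_type, Finset.sum_congr rfl (g := fun v => if Is C v then ∑ y, φ (x, y) else 0) fun v _ => ?_,
    ← Finset.sum_filter, Finset.sum_const, nsmul_eq_mul] at this
  · exact (mul_eq_zero.1 this).resolve_left (Nat.cast_ne_zero.2 (Finset.card_ne_zero.2 ⟨x, by simpa⟩))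
  split_ifs with hv
  · obtain ⟨g, hg, c, hc, e⟩ := (pp x v hx hv).ex hx.1
    rw [← sum_g g]
    exact Finset.sum_congr rfl fun y _ => by rw [← H16.RU.ff1 h.1 v _ hc, ← e]; exact h.2.1 g hg (x, y)
  · exact Finset.sum_eq_zero fun y _ => h.1.1 _ _ fun f => hv f.1

theorem sum_ind (P : V × V → Prop) (R : V → Prop) [DecidablePred R] :
    ∑ z, (if R z then ind C P (x, z) else 0) = ({z | R z ∧ Fl C x z ∧ P (x, z)}.ncard : ℂ) := by
  classical
  simp only [ind, ← ite_and, Finset.sum_boole, Set.ncard_eq_toFinset_card', Set.toFinset_setOf]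

theorem px_e1 : Px C (e1 C) := fun _ _ _ h h' => (e1_pos h).trans (e1_pos h').symm

theorem key (un : Un C G) (pp : PP C H) (hf : Fl C x y) (c d : ℤ)
    (e : c * opA C (zs C (ind C (Fq F H (x, y)))) (x, y) + d * zs C (ind C (Fq F H (x, y))) (x, y) = 0) (hr : r.Prime)
    (h1 : (r : ℤ) ∣ aa q (finrank F V - 2) * aa q (finrank F V - 3)) (h2 : ¬ (r : ℤ) ∣ c * q ^ (2 * finrank F V - 7) + d)
    (h3 : ¬ r ∣ q) (h4 : ¬ (r : ℤ) ∣ (q : ℤ) ^ 2 - 1) : r ∣ Nat.card ↥(H ⊓ St G (F ∙ x)) := by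
  classical
  obtain ⟨m1, m2⟩ := un.ind_mem (H := H) (P := Fq F H (x, y)) fun _ _ _ e h => h.trans e
  have r0 := row0 un pp (un.zs_mem hf m1 m2) hf.1
  have a1 := sum_ind (C := C) (x := x) (Fq F H (x, y)) fun _ => True
  have a2 := sum_ind (C := C) (x := x) (fun _ => True) fun _ => True
  have a3 := sum_ind (C := C) (x := x) (Fq F H (x, y)) fun z => C.B z y = 1
  have a4 := congrArg (Int.cast : ℤ → ℂ) ((H16.RU.cnt un.nd (by have := un.n6; omega)).2.2.2.2 x hf.1)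
  rw [← H16.RU.opA_fl _ hf] at a3
  simp only [if_true, true_and, and_true, show ind C (fun _ => True) = e1 C by ext; simp [ind, e1]] at a1 a2
  simp only [zs, map_sub, map_smul, (H16.RU.fo2 un.toGe _ e1_mem).1 px_e1, Pi.sub_apply, Pi.smul_apply, smul_eq_mul, e1_pos hf,
    ind_pos hf (Fq.refl _), Finset.sum_sub_distrib, ← Finset.mul_sum, a1, a2] at e r0
  have d0 := orb_fl (H := H) un hf
  generalize {z | Fl C x z ∧ Fq F H (x, y) (x, z)}.ncard = a at *
  generalize {z | C.B z y = 1 ∧ Fl C x z ∧ Fq F H (x, y) (x, z)}.ncard = b at *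
  have k : (a : ℤ) * (c * q ^ (2 * finrank F V - 7) + d) = aa q (finrank F V - 2) * aa q (finrank F V - 3) * (c * b + d * q ^ 2) := by
    refine Int.cast_injective (α := ℂ) ?_
    push_cast at a4 ⊢
    rw [a4] at r0
    linear_combination (c * q ^ (2 * finrank F V - 7) + d) * r0 + c * (aa q (finrank F V - 2) * aa q (finrank F V - 3)) * a3 -
      q ^ 2 * (aa q (finrank F V - 2) * aa q (finrank F V - 3)) * e
  have p := Nat.prime_iff_prime_int.1 hr
  have := Int.natCast_dvd_natCast.1 ((p.dvd_or_dvd (k ▸ h1.mul_right _)).resolve_right h2)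
  refine ((Nat.Prime.dvd_mul hr).1 (this.trans d0)).resolve_right fun k => ?_
  rw [show (q ^ 2) ^ 2 - q ^ 2 = q ^ 2 * (q ^ 2 - 1) by rw [Nat.mul_sub_one, ← sq]] at k
  refine ((Nat.Prime.dvd_mul hr).1 k).elim (fun k => h3 (hr.dvd_of_dvd_pow k)) fun k => h4 ?_
  have := Int.natCast_dvd_natCast.2 k
  rwa [Nat.cast_sub (Nat.one_le_pow _ _ (by have := un.q3; omega)), Nat.cast_pow, Nat.cast_one] at this

theorem lx_e1 : Lx C (e1 C) := fun _ _ c h => (e1_pos (h.add c).symm).trans (e1_pos h).symm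

theorem zero_of (hf : Fl C x y) (h : φ ∈ EF C H) {c : ℂ} (e : ∀ x y, Fl C x y → φ (x, y) = c) : c = 0 := by
  have h6 : φ = c • e1 C := funext fun ⟨x, y⟩ => by
    by_cases hf : Fl C x y
    · rw [Pi.smul_apply, e1_pos hf, smul_eq_mul, mul_one, e x y hf]
    · simp [h.1.1 _ _ hf, e1, hf]
  have h7 := h.2.2
  rw [h6] at h7
  simpa only [Pi.smul_apply, smul_eq_mul, ← Finset.mul_sum, mul_eq_zero, sum_e1 hf, or_false] using h7

/-- some line stabilizer is transitive on the points of the line -/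
theorem ex_lx (un : Un C G) (hf : Fl C x y)
    (d : finrank ℂ (EF C H) = 2 * finrank ℂ ↥(EF C H ⊓ LinearMap.ker (opS C - (q : ℂ) ^ 2 • .id))) :
    ∃ x y, Fl C x y ∧ Lx C (ind C (Fq F H (x, y))) := by
  classical
  by_contra! hn
  set K := EF C H ⊓ LinearMap.ker (opS C - (q : ℂ) ^ 2 • .id) with hK
  have kl : ∀ f : K, Lx C f := fun f => (lx_iff f.2.1.1).1 (sub_eq_zero.1 f.2.2)
  let R : V × V → V × V → Prop := fun a b => ∀ f : K, f.1 a = f.1 b
  let p : V × V → V × V := fun b => Classical.epsilon fun a => Fl C a.1 a.2 ∧ R a b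
  have p1 : ∀ b, Fl C b.1 b.2 → Fl C (p b).1 (p b).2 ∧ R (p b) b := fun b hb =>
    Classical.epsilon_spec (p := fun a => Fl C a.1 a.2 ∧ R a b) ⟨b, hb, fun _ => rfl⟩
  have p2 : ∀ a b, R a b → p a = p b := fun a b h => congrArg Classical.epsilon (funext fun c => propext
    (and_congr_right' ⟨fun k f => (k f).trans (h f), fun k f => (k f).trans (h f).symm⟩))
  have p3 : ∀ a b, Fl C a.1 a.2 → Fq F H a b → R a b := fun a b ha e f => ef_fq f.2.1 ha e
  obtain ⟨m1, m2⟩ := un.ind_mem (H := H) (P := fun b => Fq F H (p b) b) fun a b ha e h => p2 a b (p3 a b ha e) ▸ h.trans e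
  set A := ind C fun b => Fq F H (p b) b with hA
  have mem : ∀ v : K × K × ℂ, zs C (v.1.1 * A + v.2.1.1 * (e1 C - A) + v.2.2 • A) ∈ EF C H := fun ⟨f, g, t⟩ => by
    refine un.zs_mem hf ⟨fun x y n => by simp [f.2.1.1.1 x y n, g.2.1.1.1 x y n, m1.1 x y n], fun a b c x y ha hb => ?_⟩ fun h hh b => ?_
    · simp only [Pi.add_apply, Pi.mul_apply, Pi.sub_apply, Pi.smul_apply, f.2.1.1.2 a b c x y ha hb, g.2.1.1.2 a b c x y ha hb,
        m1.2 a b c x y ha hb, (e1_mem (C := C)).2 a b c x y ha hb]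
    · have : e1 C (h • b) = e1 C b := if_congr un.fl_smul rfl rfl
      simp only [Pi.add_apply, Pi.mul_apply, Pi.sub_apply, Pi.smul_apply, f.2.1.2.1 h hh, g.2.1.2.1 h hh, m2 h hh, this]
  let Φ : (K × K × ℂ) →ₗ[ℂ] EF C H :=
    { toFun := fun v => ⟨_, mem v⟩
      map_add' := fun v w => by ext b; simp [zs, add_mul, Finset.sum_add_distrib]; ring
      map_smul' := fun c v => by ext b; simp [zs, Finset.sum_add_distrib, mul_assoc, ← Finset.mul_sum]; ring }
  have := LinearMap.finrank_le_finrank_of_injective (f := Φ) ((injective_iff_map_eq_zero _).2 fun ⟨f, g, t⟩ e => ?_)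
  · simp at this; omega
  obtain ⟨l, hl⟩ : ∃ l : ℂ, ∀ b, Fl C b.1 b.2 → f.1 b * A b + g.1 b * (1 - A b) + t * A b = l := ⟨_, fun b hb => by
    have := congrFun (congrArg Subtype.val e) b
    simpa [Φ, zs, e1_pos hb, sub_eq_zero] using this⟩
  have e1' : ∀ x y, Fl C x y → f.1 (x, y) = l - t := fun x y h => by
    have k := p1 (x, y) h
    have := hl _ k.1
    rw [show A (p (x, y)) = 1 from ind_pos k.1 (show Fq F H (p (p (x, y))) (p (x, y)) by rw [p2 _ _ k.2]; exact Fq.refl _), k.2 f] at this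
    linear_combination this
  have e2 : ∀ x y, Fl C x y → g.1 (x, y) = l := fun x y h => by
    have k := p1 (x, y) h
    obtain ⟨b, hb, h1, h2⟩ : ∃ b : V × V, Fl C b.1 b.2 ∧ R (p (x, y)) b ∧ ¬ Fq F H (p (x, y)) b := by
      by_contra! c
      refine hn _ _ k.1 fun u v s huv => ?_
      have z : R (v + s • u, u) (u, v) := fun f => kl f u v s huv
      by_cases i : Fq F H (p (x, y)) (u, v)
      · rw [ind_pos huv i, ind_pos (huv.add s).symm (c _ (huv.add s).symm fun f => (p3 _ _ k.1 i f).trans (z f).symm)]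
      · rw [ind_neg i, ind_neg fun j => i (c _ huv fun f => (p3 _ _ k.1 j f).trans (z f))]
    have := hl _ hb
    rw [show A b = 0 from ind_neg (by rwa [← p2 _ _ h1, p2 _ _ k.2]), ← h1 g, k.2 g] at this
    linear_combination this
  have l0 := zero_of hf g.2.1 e2
  have t0 := zero_of hf f.2.1 e1'
  have z : ∀ f : K, (∀ x y, Fl C x y → f.1 (x, y) = 0) → f = 0 := fun f h => Subtype.ext (funext fun b =>
    (em _).elim (h b.1 b.2) (f.2.1.1.1 b.1 b.2))
  rw [t0] at e1'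
  rw [l0] at e2 t0
  exact Prod.ext (z f e1') (Prod.ext (z g e2) (by simpa using t0))

theorem opA_ef (un : Un C G) (h : φ ∈ EF C H) : opA C φ ∈ EF C H := by
  classical
  refine ⟨opA_mem h.1, fun g hg ⟨x, y⟩ => ?_, by rw [(H16.RU.fo2 un.toGe _ h.1).2.1, h.2.2, mul_zero]⟩
  rw [Prod.smul_mk, H16.RU.opA_ap, H16.RU.opA_ap, ← sum_g g]
  refine Finset.sum_congr rfl fun z _ => ?_
  rw [un.iso, show φ (g • x, g • z) = φ (x, z) from h.2.1 g hg (x, z)]
  exact if_congr (and_congr_left' un.fl_smul) rfl rfl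

theorem zm (k : Od q r (finrank F V - 2) ∨ Od q r (finrank F V - 3)) :
    (r : ℤ) ∣ aa q (finrank F V - 2) * aa q (finrank F V - 3) :=
  k.elim (fun k => (k.dvd_aa.2 dvd_rfl).mul_right _) fun k => (k.dvd_aa.2 dvd_rfl).mul_left _

theorem nz {e i j : ℕ} (k : Od q r e) (he : 1 ≤ e) (n : ¬ e ∣ j) {z : ℤ} (h : (z : ZMod r) = -(-q) ^ i * ((-q) ^ j - 1)) :
    ¬ (r : ℤ) ∣ z := fun d => by
  have := Fact.mk k.1
  rw [(ZMod.intCast_zmod_eq_zero_iff_dvd z r).2 d, eq_comm, mul_eq_zero, neg_eq_zero, sub_eq_zero, k.pow_iff] at h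
  exact k.not_dvd he ((ZMod.natCast_eq_zero_iff q r).1 (neg_eq_zero.1 (eq_zero_of_pow_eq_zero (h.resolve_right n))))

theorem flp (ft : FT C H) : FLP C H := by
  intro un r3 qi pp
  obtain ⟨m, hm⟩ : ∃ m, finrank F V = m + 6 := ⟨finrank F V - 6, by have := un.n6; omega⟩
  have mm : ∀ {x y}, Fl C x y → zs C (ind C (Fq F H (x, y))) ∈ EF C H := fun {x y} hf =>
    let ⟨h1, h2⟩ := un.ind_mem (H := H) (P := Fq F H (x, y)) fun _ _ _ e h => h.trans e
    un.zs_mem hf h1 h2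
  have one : ∀ (i j e : ℕ), 3 ≤ e → e = finrank F V - 2 ∨ e = finrank F V - 3 → ¬ e ∣ j → i + j = 2 * finrank F V - 7 →
      (∀ φ ∈ EF C H, opA C φ = -(-q : ℂ) ^ i • φ) → Rd C H e := fun i j e e3 he n s h r k x hx => by
    obtain ⟨y, hf⟩ := ex_fl un.nd (by omega) hx
    refine key un pp hf 1 ((-q) ^ i) (by rw [h _ (mm hf)]; simp) k.1 (zm (he.imp (fun e => by rwa [← e]) fun e => by rwa [← e])) (nz (i := i) k (by omega) n ?_)
      (k.not_dvd (by omega)) (k.not_dvd_sq e3)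
    have o : Odd (i + j) := by rw [s, hm]; exact ⟨m + 2, by omega⟩
    push_cast
    rw [← s, mul_sub, neg_mul, ← pow_add, o.neg_pow]; ring
  have a2 := one (finrank F V - 5) (finrank F V - 2) (finrank F V - 3) (by omega) (.inr rfl)
    (by rw [hm]; exact fun d => absurd (Nat.le_of_dvd one_pos ((Nat.dvd_add_right dvd_rfl).1 (show m + 3 ∣ m + 3 + 1 from d))) (by omega)) (by omega)
  rcases ft un r3 qi with h | ⟨gd, h | h | ⟨-, h1, h2⟩⟩ | ⟨⟨φ, h1, h2, h3⟩, -⟩
  · exact .inl (a2 fun φ hφ => by rw [h] at hφ; simp [(Submodule.mem_bot ℂ).1 hφ])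
  · exact .inr ⟨one (finrank F V - 4) (finrank F V - 3) _ (by omega) (.inl rfl)
      (fun d => absurd (Nat.le_of_dvd (by omega) d) (by omega)) (by omega) h, gd⟩
  · exact .inl (a2 h)
  · refine .inr ⟨fun r k x hx => ?_, gd⟩
    obtain ⟨y, hf⟩ := ex_fl un.nd (by omega) hx
    obtain ⟨x0, y0, f0, l0⟩ := ex_lx un hf h1
    obtain ⟨g, hg, c, hc, e⟩ := (pp x0 x f0.1 hx).ex f0.1.1
    have f1 : Fl C x (g • y0) := (fl_tr 0 hc one_ne_zero).1 (by simpa [← e] using un.fl_smul (g := g).2 f0)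
    have q1 : Fq F H (x0, y0) (x, g • y0) := ⟨g, hg, Submodule.mem_span_singleton.2 ⟨c, e.symm⟩, r_ln⟩
    rw [show Fq F H (x0, y0) = Fq F H (x, g • y0) from funext fun b => propext ⟨(q1.symm f0.ind).trans, q1.trans⟩] at l0
    generalize g • y0 = y at f1 l0
    have l1 : Lx C (zs C (ind C (Fq F H (x, y)))) := fun u v s h => sub_eq_zero.1 (by rw [zs_sub (h.add s).symm h, l0 u v s h, sub_self])
    have s := congrFun (h2 _ (mm f1) l1 _ rfl) (x, y)
    have mψ := add_mem (Submodule.smul_mem _ ((q : ℂ) ^ 2 + 1) (opA_ef un (mm f1)))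
      (Submodule.smul_mem _ ((-q : ℂ) ^ (finrank F V - 4) + (-q : ℂ) ^ (finrank F V - 5)) (mm f1))
    rw [opS_eq mψ.1, Finset.sum_congr rfl fun c _ => (ef_fq mψ (a := (x, y)) f1 (by_contra fun n => one_ne_zero
      ((ind_pos f1 (Fq.refl _)).symm.trans ((l0 x y c f1).symm.trans (ind_neg n))))).symm, cardC hF, Pi.neg_apply, eq_neg_iff_add_eq_zero,
      ← add_one_mul, mul_eq_zero] at s
    refine key un pp f1 (q ^ 2 + 1) ((-q) ^ (finrank F V - 4) + (-q) ^ (finrank F V - 5)) (by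
      simpa using s.resolve_left (by exact_mod_cast Nat.succ_ne_zero (q ^ 2))) k.1 (zm (.inl k))
      (nz (i := m + 2) (j := 1) k (by omega) (fun d => absurd (Nat.le_of_dvd one_pos d) (by omega)) ?_)
      (k.not_dvd (by omega)) (k.not_dvd_sq (by omega))
    have := k.pow_iff.2 dvd_rfl
    rw [hm] at this ⊢
    rw [show 2 * (m + 6) - 7 = 2 * (m + 2) + 1 by omega, show m + 6 - 4 = m + 2 by omega, show m + 6 - 5 = m + 1 by omega]
    rw [show m + 6 - 2 = m + 4 by omega] at this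
    push_cast
    rw [show (q : ZMod r) ^ (2 * (m + 2) + 1) = -(-q) ^ (2 * (m + 2) + 1) by rw [Odd.neg_pow ⟨m + 2, rfl⟩, neg_neg]]
    linear_combination (-(-q : ZMod r) ^ (m + 1) * (q ^ 2 + 1)) * this
  · obtain ⟨b, hb⟩ := Function.ne_iff.1 h2
    have f : Fl C b.1 b.2 := by_contra fun n => hb (h1.1.1 _ _ n)
    exact (hb (zero_of f h1 fun x y h => ef_px un h1 h3 h f (pp _ _ h.1 f.1))).elim
end H23.RU
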