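import Cfsg.Agent.H5.Pairs

/-!
Squares of conjugacy classes: character bounds.
-/

namespace H23.RS

open Cfsg H5 Subgroup
open scoped ComplexConjugate

variable {G : Type*} [Group G]

/-- `g` is a product of two conjugates of `x` -/
def InSq (x g : G) : Prop := ∃ a b, IsConj x a ∧ IsConj x b ∧ a * b = g

theorem InSq.conj {x x' g g' : G} (h : InSq x g) (e : IsConj x x') (e' : IsConj g g') : InSq x' g' := by
  obtain ⟨a, b, ha, hb, rfl⟩ := h
  obtain ⟨c, rfl⟩ := isConj_iff.1 e'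
  exact ⟨c * a * c⁻¹, c * b * c⁻¹, e.symm.trans (ha.trans (isConj_iff.2 ⟨c, rfl⟩)),
    e.symm.trans (hb.trans (isConj_iff.2 ⟨c, rfl⟩)), by group⟩

theorem isConj_inv' {a b : G} (h : IsConj a b) : IsConj a⁻¹ b⁻¹ := by
  obtain ⟨c, rfl⟩ := isConj_iff.1 h
  exact isConj_iff.2 ⟨c, by group⟩

theorem InSq.inv {x g : G} (h : InSq x g) (e : IsConj x x⁻¹) : InSq x g⁻¹ := by
  obtain ⟨a, b, ha, hb, rfl⟩ := h
  exact ⟨b⁻¹, a⁻¹, e.trans (isConj_inv' hb), e.trans (isConj_inv' ha), by group⟩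

variable [Fintype G]

/-- the character sum -/
noncomputable def S (x g : G) : ℂ :=
  ∑ χ : IrrCharacter G, (Complex.normSq ((χ : G → ℂ) x) : ℂ) / (χ : G → ℂ) 1 * conj ((χ : G → ℂ) g)

theorem S_eq_zero {x g : G} (hx : IsConj x x⁻¹) (h : ¬ InSq x g) : S x g = 0 := by
  have h1 := (isClassFunction_classInd g).pairSum_eq x x
  rw [pairSum_eq_zero fun a b ha hb => classInd_of_not_isConj fun e =>
    h (InSq.conj ⟨a, b, ha, hb, rfl⟩ (IsConj.refl x) e.symm)] at h1
  have h2 : ((centralizer ({x} : Set G)).index : ℂ) ≠ 0 := Nat.cast_ne_zero.2 index_ne_zero_of_finite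
  have h3 := (mul_eq_zero.1 h1.symm).resolve_left (mul_ne_zero h2 h2)
  have h4 : (Nat.card (centralizer ({g} : Set G)) : ℂ) ≠ 0 := Nat.cast_ne_zero.2 Nat.card_pos.ne'
  rw [← mul_left_inj' (inv_ne_zero h4), zero_mul, ← h3, S, Finset.sum_mul]
  refine Finset.sum_congr rfl fun χ _ => ?_
  rw [classInner_classInd_left g χ.2.isClassFunction, Complex.normSq_eq_conj_mul_self,
    ← χ.2.isCharacter.apply_inv, ← χ.2.isClassFunction.eq_of_isConj hx]
  ring

theorem S_one (x : G) : S x 1 = Nat.card (centralizer ({x} : Set G)) := by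
  have := congrArg (fun r : ℝ => (r : ℂ)) (sum_irr_normSq x)
  simp only [Complex.ofReal_sum, Complex.ofReal_natCast] at this
  rw [← this, S]
  refine Finset.sum_congr rfl fun χ _ => ?_
  obtain ⟨n, hn, e⟩ := χ.2.exists_apply_one
  have : (n : ℂ) ≠ 0 := Nat.cast_ne_zero.2 hn.ne'
  rw [e, Complex.conj_natCast]
  field_simp

theorem norm_S_sub_one {D s : ℝ} (hD0 : 0 < D) (hD : ∀ χ : IrrCharacter G, χ ≠ irrOne G → D ≤ ((χ : G → ℂ) 1).re)
    (x : G) {g : G} (hs0 : 0 ≤ s) (hs : (Nat.card (centralizer ({g} : Set G)) : ℝ) ≤ s ^ 2) :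
    ‖S x g - 1‖ ≤ (Nat.card (centralizer ({x} : Set G)) - 1) * s / D := by
  classical
  have e1 : ∀ y : G, ((irrOne G : IrrCharacter G) : G → ℂ) y = 1 := fun _ => rfl
  have h1 := sum_irr_normSq x
  rw [← Finset.add_sum_erase _ _ (Finset.mem_univ (irrOne G)), e1, map_one] at h1
  rw [S, ← Finset.add_sum_erase _ _ (Finset.mem_univ (irrOne G)), e1, e1, e1, map_one, map_one]
  simp only [Complex.ofReal_one, div_one, mul_one, add_sub_cancel_left]
  rw [← h1, add_sub_cancel_left, mul_div_assoc, Finset.sum_mul]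
  refine (norm_sum_le _ _).trans (Finset.sum_le_sum fun χ hχ => ?_)
  obtain ⟨n, hn, e⟩ := χ.2.exists_apply_one
  have h2 := hD χ (Finset.ne_of_mem_erase hχ)
  rw [e, Complex.natCast_re] at h2
  have h3 : ‖(χ : G → ℂ) g‖ ≤ s := by
    have h4 := sum_irr_norm_sq g
    have h5 := Finset.single_le_sum (f := fun ψ : IrrCharacter G => ‖(ψ : G → ℂ) g‖ ^ 2)
      (fun _ _ => by positivity) (Finset.mem_univ χ)
    exact (pow_le_pow_iff_left₀ (norm_nonneg _) hs0 two_ne_zero).1 (by linarith)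
  rw [norm_mul, norm_div, e, Complex.norm_natCast, Complex.norm_real, Real.norm_of_nonneg (Complex.normSq_nonneg _),
    Complex.norm_conj, div_mul_eq_mul_div, mul_div_assoc]
  refine mul_le_mul_of_nonneg_left ?_ (Complex.normSq_nonneg _)
  exact div_le_div₀ hs0 h3 hD0 h2

theorem inSq_of_small {D s : ℝ} (hD0 : 0 < D) (hD : ∀ χ : IrrCharacter G, χ ≠ irrOne G → D ≤ ((χ : G → ℂ) 1).re)
    {x g : G} (hx : IsConj x x⁻¹) (hs0 : 0 ≤ s) (hs : (Nat.card (centralizer ({g} : Set G)) : ℝ) ≤ s ^ 2)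
    (h : (Nat.card (centralizer ({x} : Set G)) - 1) * s < D) : InSq x g := by
  by_contra h1
  have h2 := norm_S_sub_one hD0 hD x hs0 hs
  rw [S_eq_zero hx h1, zero_sub, norm_neg, norm_one, le_div_iff₀ hD0] at h2
  linarith

theorem card_le_sum_S (x : G) (Y : Subgroup G) [Fintype Y] : (Nat.card Y : ℝ) ≤ (∑ y : Y, S x y).re := by
  classical
  have e1 : ∀ y : G, ((irrOne G : IrrCharacter G) : G → ℂ) y = 1 := fun _ => rfl
  simp only [S]
  rw [Finset.sum_comm, Complex.re_sum, ← Finset.add_sum_erase _ _ (Finset.mem_univ (irrOne G))]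
  refine le_add_of_le_of_nonneg (le_of_eq ?_) (Finset.sum_nonneg fun χ _ => ?_)
  · simp [e1]
  · obtain ⟨n, hn, e⟩ := χ.2.exists_apply_one
    obtain ⟨m, ρ, hρ⟩ := (χ.2.isCharacter.restrict Y).star
    have h1 := classInner_character_one ρ
    rw [classInner_one_right, hρ, inv_mul_eq_iff_eq_mul₀ (card_ne_zero_complex Y)] at h1
    rw [← Finset.mul_sum, h1, e]
    have : ((Complex.normSq ((χ : G → ℂ) x) : ℂ) / n * ((Nat.card Y : ℂ) * (Module.finrank ℂ ρ.invariants : ℂ))) =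
        ((Complex.normSq ((χ : G → ℂ) x) / n * (Nat.card Y * Module.finrank ℂ ρ.invariants) : ℝ) : ℂ) := by
      push_cast; ring
    rw [this, Complex.ofReal_re]
    have := Complex.normSq_nonneg ((χ : G → ℂ) x)
    positivity

theorem pigeon {D s : ℝ} (hD0 : 0 < D) (hD : ∀ χ : IrrCharacter G, χ ≠ irrOne G → D ≤ ((χ : G → ℂ) 1).re)
    {x : G} (hx : IsConj x x⁻¹) {Y Z : Subgroup G} (hs0 : 0 ≤ s)
    (hs : ∀ z ∈ Z, z ≠ 1 → (Nat.card (centralizer ({z} : Set G)) : ℝ) ≤ s ^ 2)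
    (h : ∀ y ∈ Y, y ∉ Z → ¬ InSq x y) :
    (Nat.card Y : ℝ) ≤ Nat.card (centralizer ({x} : Set G)) +
      Nat.card Z * (1 + (Nat.card (centralizer ({x} : Set G)) - 1) * s / D) := by
  classical
  have h1 := card_le_sum_S x Y
  have hn : (1 : ℝ) ≤ Nat.card (centralizer ({x} : Set G)) := Nat.one_le_cast.2 Nat.card_pos
  set B := 1 + (Nat.card (centralizer ({x} : Set G)) - 1) * s / D
  have hB : 0 ≤ B := add_nonneg zero_le_one (div_nonneg (mul_nonneg (by linarith) hs0) hD0.le)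
  rw [Complex.re_sum, ← Finset.add_sum_erase _ _ (Finset.mem_univ (1 : Y)), OneMemClass.coe_one, S_one,
    Complex.natCast_re] at h1
  refine h1.trans (add_le_add le_rfl ?_)
  calc _ ≤ ∑ y ∈ Finset.univ.erase (1 : Y), if (y : G) ∈ Z then B else 0 := Finset.sum_le_sum fun y hy => ?_
    _ ≤ ∑ y : Y, if (y : G) ∈ Z then B else 0 :=
        Finset.sum_le_sum_of_subset_of_nonneg (Finset.subset_univ _) fun y _ _ => by split_ifs; exacts [hB, le_rfl]
    _ ≤ _ := ?_
  · split_ifs with h2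
    · have h3 := norm_S_sub_one hD0 hD x hs0 (hs y h2 fun e => Finset.ne_of_mem_erase hy (Subtype.ext e))
      have h4 := (Complex.re_le_norm (S x y - 1)).trans h3
      simp only [Complex.sub_re, Complex.one_re] at h4
      simp only [B]; linarith
    · rw [S_eq_zero hx (h y y.2 h2)]; simp
  · rw [← Finset.sum_filter, Finset.sum_const, nsmul_eq_mul]
    refine mul_le_mul_of_nonneg_right (Nat.cast_le.2 ?_) hB
    rw [← Nat.card_eq_finsetCard]
    exact Nat.card_le_card_of_injective (fun y => (⟨y.1.1, (Finset.mem_filter.1 y.2).2⟩ : Z))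
      fun a b e => Subtype.ext (Subtype.ext (congrArg (fun z : Z => (z : G)) e))

end H23.RS
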