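import Cfsg.Agent.H23.ReeSq1
import Cfsg.Agent.H24.ClassSize

/-!
Squares of conjugacy classes: a nilpotency argument in the group algebra and class counting.
-/

namespace H23.RS

open Subgroup

variable {G : Type*} [Group G] [Fintype G]

theorem sum_eq_zero_of_coset {M : Type*} [AddCommMonoid M] (U : Subgroup G) [Fintype U] {F : G → M}
    (h : ∀ c, ∑ u : U, F (c * u) = 0) : ∑ g, F g = 0 := by
  classical
  have := Fintype.ofFinite (G ⧸ U)
  rw [← Finset.sum_fiberwise Finset.univ (QuotientGroup.mk : G → G ⧸ U)]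
  refine Finset.sum_eq_zero fun c _ => ?_
  induction c using QuotientGroup.induction_on with | H c => ?_
  rw [← h c]
  symm
  refine Finset.sum_bij (fun u _ => c * u) (fun u _ => by simp) (fun a _ b _ e => Subtype.ext (mul_left_cancel e))
    (fun g hg => ⟨⟨c⁻¹ * g, QuotientGroup.eq.1 (Finset.mem_filter.1 hg).2.symm⟩, Finset.mem_univ _, by simp⟩) fun _ _ => rfl

theorem gow {p : ℕ} [Fact p.Prime] {U : Subgroup G} [Fintype U] (hU : IsPGroup p U) {w : G → ZMod p}
    (hw : ∀ g h, w (g * h) = w (h * g)) (h0 : ∀ g, ∑ u : U, w (g * u) = 0) (a x : G) :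
    ∑ g, w (a * (g * x * g⁻¹)) = 0 := by
  classical
  let f : Module.End (ZMod p) (G → ZMod p) := Matrix.toLin' (Matrix.of fun g h => w (g⁻¹ * h))
  let T : G → G → Module.End (ZMod p) (G → ZMod p) := fun a b => LinearMap.funLeft _ _ fun g => a * g * b
  have hf : ∀ v g, f v g = ∑ h, w (g⁻¹ * h) * v h := fun v g => rfl
  have hT : ∀ a b v g, T a b v g = v (a * g * b) := fun _ _ _ _ => rfl
  have c : ∀ a b, Commute (T a b) f := fun a b => LinearMap.ext fun v => funext fun g => by
    simp only [Module.End.mul_apply, hT, hf]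
    refine (Fintype.sum_equiv ((Equiv.mulLeft a).trans (Equiv.mulRight b)) _ _ fun h => ?_).symm
    simp only [Equiv.trans_apply, Equiv.coe_mulLeft, Equiv.coe_mulRight]
    rw [show (a * g * b)⁻¹ * (a * h * b) = b⁻¹ * (g⁻¹ * h * b) by group, hw b⁻¹, mul_inv_cancel_right]
  have hn : IsNilpotent f := by
    obtain ⟨n, hn⟩ := (LinearMap.eventually_isCompl_ker_pow_range_pow f).and (Filter.eventually_gt_atTop 0) |>.exists
    refine ⟨n, LinearMap.range_eq_bot.1 ?_⟩
    by_contra h1
    letI : MulAction U (LinearMap.range (f ^ n)) :=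
      { smul := fun u v => ⟨T 1 u v, by
          obtain ⟨_, v, rfl⟩ := v
          exact ⟨T 1 u v, (LinearMap.congr_fun ((c 1 u).pow_right n).eq v).symm⟩⟩
        one_smul := fun v => Subtype.ext (funext fun g => (hT ..).trans (by simp))
        mul_smul := fun a b v => Subtype.ext (funext fun g => (hT ..).trans
          (Eq.trans (by simp [mul_assoc]) ((hT 1 a (T 1 b v) g).trans (hT ..)).symm)) }
    have hd : p ∣ Nat.card (LinearMap.range (f ^ n)) := by
      rw [Module.natCard_eq_pow_finrank (K := ZMod p), Nat.card_zmod]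
      exact dvd_pow_self p fun h => h1 (Submodule.finrank_eq_zero.1 h)
    obtain ⟨v, hv, hne⟩ := hU.exists_fixed_point_of_prime_dvd_card_of_fixed_point _ hd (a := 0)
      fun a => Subtype.ext (map_zero _)
    have h2 : ∀ g (u : U), v.1 (g * u) = v.1 g := fun g u => by
      simpa using ((hT 1 u v g).symm.trans (congrFun (congrArg Subtype.val (hv u)) g))
    have h3 : f v = 0 := funext fun g => (hf ..).trans (sum_eq_zero_of_coset U fun c => by
      simp only [h2, ← Finset.sum_mul, ← mul_assoc, h0, zero_mul])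
    obtain ⟨m, rfl⟩ := Nat.exists_eq_succ_of_ne_zero hn.2.ne'
    exact hne (Subtype.ext (Submodule.disjoint_def.1 hn.1.disjoint v.1
      ((LinearMap.congr_fun (pow_succ f m) v.1).trans ((congrArg (f ^ m) h3).trans (map_zero _))) v.2).symm)
  have h1 := LinearMap.isNilpotent_trace_of_isNilpotent ((c x⁻¹ a⁻¹).isNilpotent_mul_left hn)
  rw [show T x⁻¹ a⁻¹ * f = Matrix.toLin' (Matrix.of fun g h => w ((x⁻¹ * g * a⁻¹)⁻¹ * h)) from rfl,
    Matrix.trace_toLin'_eq, isNilpotent_iff_eq_zero] at h1
  rw [← h1]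
  exact Fintype.sum_equiv (Equiv.inv G) _ _ fun g => congrArg w (by simp [mul_assoc])

theorem card_cent_eq {a b : G} (h : IsConj a b) :
    Nat.card (centralizer ({a} : Set G)) = Nat.card (centralizer ({b} : Set G)) :=
  Nat.eq_of_mul_eq_mul_left (H24.cs_pos a) (by rw [H24.cs_mul_card, H24.cs_eq_of_isConj h, H24.cs_mul_card])

theorem card_classes {Y S : Finset G} (h1 : ∀ y ∈ Y, ∀ g, IsConj y g → g ∈ S)
    (h2 : ∀ y ∈ Y, ∀ z ∈ Y, IsConj y z → y = z) :
    Y.card * Nat.card G ≤ ∑ g ∈ S, Nat.card (centralizer ({g} : Set G)) := by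
  classical
  have h3 : ∀ y, ∑ g with IsConj y g, Nat.card (centralizer ({g} : Set G)) = Nat.card G := fun y => by
    rw [Finset.sum_congr rfl fun g hg => (card_cent_eq (Finset.mem_filter.1 hg).2).symm, Finset.sum_const, smul_eq_mul,
      ← H24.cs_mul_card y, ← H24.card_isConj, Nat.card_eq_fintype_card (α := {g // IsConj y g}), Fintype.card_subtype]
  calc _ = ∑ y ∈ Y, ∑ g with IsConj y g, Nat.card (centralizer ({g} : Set G)) := by
        rw [Finset.sum_congr rfl fun y _ => h3 y, Finset.sum_const, smul_eq_mul]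
    _ = ∑ g ∈ Y.biUnion fun y => {g | IsConj y g}, Nat.card (centralizer ({g} : Set G)) :=
        (Finset.sum_biUnion fun y hy z hz h => Finset.disjoint_left.2 fun g a b =>
          h (h2 y hy z hz ((Finset.mem_filter.1 a).2.trans (Finset.mem_filter.1 b).2.symm))).symm
    _ ≤ _ := Finset.sum_le_sum_of_subset fun g hg => by
        obtain ⟨y, hy, e⟩ := Finset.mem_biUnion.1 hg
        exact h1 y hy g (Finset.mem_filter.1 e).2

end H23.RS
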