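import Cfsg.Agent.H23.ReeSq2
import Cfsg.Agent.H14.Ree8

/-!
Squares of conjugacy classes in small Ree groups: involutions.
-/

namespace H23.RS

open Subgroup H14 H14.Ree
open scoped Classical

theorem sum_eq_zero_three {Γ : Type*} [Group Γ] [Fintype Γ] {z : Γ} (hz : orderOf z = 3) {F : Γ → ZMod 3}
    (h : ∀ g, F (g * z) = F g) : ∑ g, F g = 0 := by
  refine sum_eq_zero_of_coset (zpowers z) fun c => ?_
  have h1 : ∀ n : ℕ, F (c * z ^ n) = F c := fun n => by
    induction n with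
    | zero => simp
    | succ n ih => rw [pow_succ, ← mul_assoc, h, ih]
  rw [Finset.sum_congr rfl fun (u : zpowers z) _ => show F (c * u) = F c from by
    obtain ⟨n, e⟩ := (mem_powers_iff_mem_zpowers.2 u.2); rw [← e]; exact h1 n]
  rw [Finset.sum_const, Finset.card_univ, Fintype.card_zpowers, hz, nsmul_eq_mul]
  exact mul_eq_zero_of_left rfl _

variable {K G : Type*} [Field K] [Group G] [Finite K] [Fintype G] (R : Ree K G)

omit [Finite K] [Fintype G] in
theorem order_z {c : K} (hc : c ≠ 0) : orderOf (R.T 0 0 c) = 3 :=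
  haveI := Fact.mk Nat.prime_three
  orderOf_eq_prime (pow_three_iff.2 rfl) (by simp [T_eq_one, hc])

include R in
omit [Fintype G] in
theorem card_cast : (Nat.card K : ZMod 3) = 0 := (ZMod.natCast_eq_zero_iff _ _).2 R.three_dvd

theorem sum_one : ∑ _ω : G ⧸ R.B, (1 : ZMod 3) = 1 := by
  rw [Finset.sum_const, Finset.card_univ, ← Nat.card_eq_fintype_card, ← index, R.index_B]
  simp [card_cast R]

theorem cnt_pair (a b a' b' : G ⧸ R.B) : ∑ g : G, (if g • a = b ∧ g • a' = b' then 1 else 0 : ZMod 3) =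
    -((if a = a' then 0 else 1) * if b = b' then 0 else 1) := by
  by_cases ha : a = a'
  · subst ha
    obtain ⟨a, rfl⟩ := QuotientGroup.mk_surjective a
    rw [if_pos rfl, zero_mul, neg_zero]
    refine sum_eq_zero_three (z := a * R.T 0 0 1 * a⁻¹) ((H24.orderOf_conj ..).trans (order_z R one_ne_zero)) fun g => ?_
    rw [mul_smul, smul_coe_iff.2 (by simpa [mul_assoc] using R.T_mem_B 0 0 1)]
  by_cases hb : b = b'
  · subst hb
    rw [if_pos rfl, mul_zero, neg_zero]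
    exact Finset.sum_eq_zero fun g _ => if_neg fun h => ha (MulAction.injective g (h.1.trans h.2.symm))
  obtain ⟨s, rfl, rfl⟩ := exists_smul_pair ha
  obtain ⟨t, rfl, rfl⟩ := exists_smul_pair hb
  rw [if_neg ha, if_neg hb, ← Equiv.sum_comp ((Equiv.inv G).trans ((Equiv.mulLeft t).trans (Equiv.mulRight s⁻¹)))]
  have : ∀ g : G, ((t * g⁻¹ * s⁻¹) • (s : G ⧸ R.B) = t ∧ (t * g⁻¹ * s⁻¹) • ((s * R.W : G) : G ⧸ R.B) = (t * R.W : G)) ↔
      g ∈ R.H := fun g => by
    simp [mem_H_iff, MulAction.Quotient.smul_mk, QuotientGroup.eq, mul_assoc]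
  simp only [Equiv.trans_apply, Equiv.inv_apply, Equiv.coe_mulLeft, Equiv.coe_mulRight, this]
  rw [Finset.sum_boole, ← Fintype.card_subtype, ← Nat.card_eq_fintype_card, R.card_H, Nat.cast_sub Nat.card_pos,
    card_cast R]
  simp

theorem cnt_U (a b : G ⧸ R.B) : ∑ u : R.U, (if (u : G) • a = b then 1 else 0 : ZMod 3) =
    (1 - if a = (1 : G) then 1 else 0) * (1 - if b = (1 : G) then 1 else 0) := by
  have h0 : ∀ u : R.U, (u : G) • ((1 : G) : G ⧸ R.B) = (1 : G) := fun u => smul_coe_iff.2 (by simpa using R.U_le_B u.2)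
  have h1 : ∀ a : G ⧸ R.B, a ≠ (1 : G) → ∃ u ∈ R.U, a = (u * R.W : G) := fun a ha => by
    obtain ⟨a, rfl⟩ := QuotientGroup.mk_surjective a
    obtain ⟨u, hu, b, hb, rfl⟩ := (R.bruhat a).resolve_left fun h => ha (QuotientGroup.eq.2 (by simpa using h))
    exact ⟨u, hu, QuotientGroup.mk_mul_of_mem _ hb⟩
  by_cases ha : a = (1 : G)
  · rw [ha, if_pos rfl, sub_self, zero_mul]
    refine sum_eq_zero_three (z := ⟨_, R.T_mem 0 0 1⟩) ((orderOf_mk _ (R.T_mem 0 0 1)).trans (order_z R one_ne_zero)) fun g => ?_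
    rw [h0, h0]
  by_cases hb : b = (1 : G)
  · rw [hb, if_pos rfl, sub_self, mul_zero]
    exact Finset.sum_eq_zero fun u _ => if_neg fun h => ha (MulAction.injective (u : G) (h.trans (h0 u).symm))
  obtain ⟨s, hs, rfl⟩ := h1 a ha
  obtain ⟨t, ht, rfl⟩ := h1 b hb
  rw [if_neg ha, if_neg hb, Finset.sum_eq_single ⟨t * s⁻¹, mul_mem ht (inv_mem hs)⟩ (fun u _ h => if_neg fun e => h ?_)
    (by simp), if_pos (by simp [MulAction.Quotient.smul_mk, mul_assoc])]
  · simp
  · have := eq_one_of_W (mul_mem (inv_mem (mul_mem u.2 hs)) ht) (by simpa [mul_assoc] using QuotientGroup.eq.1 e)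
    exact Subtype.ext (eq_mul_inv_of_mul_eq (inv_mul_eq_one.1 this))

/-- the number of fixed points -/
noncomputable def fx (g : G) : ZMod 3 := ∑ ω : G ⧸ R.B, if g • ω = ω then 1 else 0

omit [Finite K] in
theorem fx_conj (g h : G) : fx R (h * g * h⁻¹) = fx R g :=
  (Fintype.sum_equiv (MulAction.toPerm h) _ _ fun ω => by simp [mul_smul]).symm

theorem sum_fx_U (g : G) : ∑ u : R.U, fx R (g * u) = (if g ∈ R.B then 1 else 0) - 1 := by
  simp only [fx, mul_smul, ← eq_inv_smul_iff (g := g)]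
  rw [Finset.sum_comm]
  simp only [cnt_U, inv_smul_eq_iff, mul_sub, sub_mul, Finset.sum_sub_distrib, mul_one, one_mul, sum_one, ite_mul, zero_mul,
    Finset.sum_ite_eq', Finset.mem_univ, if_true]
  rw [MulAction.Quotient.smul_mk, if_congr QuotientGroup.eq rfl rfl]
  simp

theorem sum_fx (a x : G) : ∑ g, fx R (a * (g * x * g⁻¹)) = -((1 - fx R a) * (1 - fx R x)) := by
  have h1 : ∀ y : G, 1 - fx R y = ∑ ω : G ⧸ R.B, if y • ω = ω then 0 else 1 := fun y => by
    rw [eq_comm, eq_sub_iff_add_eq, fx, ← Finset.sum_add_distrib]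
    refine Eq.trans ?_ (sum_one R)
    exact Finset.sum_congr rfl fun ω _ => by split_ifs <;> simp
  have h2 : ∀ (g : G) (ω : G ⧸ R.B), (if (a * (g * x * g⁻¹)) • ω = ω then 1 else 0 : ZMod 3) =
      ∑ α, if g • x • α = a⁻¹ • ω ∧ g • α = ω then 1 else 0 := fun g ω => by
    rw [Finset.sum_eq_single (g⁻¹ • ω) (fun α _ h => if_neg fun e => h (eq_inv_smul_iff.2 e.2)) (by simp)]
    simp [mul_smul, eq_inv_smul_iff]
  simp only [fx, h2]
  rw [Finset.sum_comm, Finset.sum_congr rfl fun ω _ => Finset.sum_comm]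
  simp only [cnt_pair, inv_smul_eq_iff]
  change _ = -((1 - fx R a) * (1 - fx R x))
  rw [h1, h1, Finset.sum_mul_sum]
  simp [mul_comm, eq_comm]

omit [Finite K] in
theorem sum_inv_U (g : G) : ∑ u : R.U, (if g * u ≠ 1 ∧ g * u * (g * u) = 1 then 1 else 0 : ZMod 3) =
    1 - if g ∈ R.B then 1 else 0 := by
  have := Fact.mk Nat.prime_three
  split_ifs with hg
  · have key : ∀ h ∈ R.B, ∀ c, h ≠ 1 ∧ h * h = 1 → h * R.T 0 0 c ≠ 1 ∧ h * R.T 0 0 c * (h * R.T 0 0 c) = 1 := by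
      rintro h hh c ⟨h1, h2⟩
      have h3 := orderOf_eq_prime (p := 2) ((sq h).trans h2) h1
      refine ⟨fun e => ?_, ?_⟩
      · have := congrArg orderOf (eq_inv_of_mul_eq_one_left e)
        by_cases hc : c = 0
        · simp [hc, h1] at e
        · rw [orderOf_inv, h3, order_z R hc] at this; omega
      obtain ⟨_, ⟨a, b, d, rfl⟩, k, rfl⟩ := mem_B.1 hh
      have h4 : k * k = 1 := mul_M_mem_U (mul_mem (R.T_mem a b d) (M_conj_mem k (R.T_mem a b d))) (by
        rw [map_mul, show ∀ t m : G, t * (m * t * m⁻¹) * (m * m) = t * m * (t * m) by intros; group, h2]; exact one_mem _)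
      rcases R.M_sq_eq_one ((sq k).trans h4) with e | e <;> rw [e] at h2 h3 ⊢
      · have := orderOf_dvd_of_pow_eq_one (R.T_pow_nine a b d)
        rw [mul_one] at h3
        rw [h3] at this
        omega
      · have h5 : R.T 0 0 c * (R.T a b d * R.i * R.T 0 0 c) = R.T a b d * R.i := by
          rw [mul_assoc, R.i_T, ← mul_assoc, ← mul_assoc, R.T_mul, R.T_mul]; simp
        rw [mul_assoc, h5, h2]
    rw [sub_self]
    refine sum_eq_zero_three (z := ⟨_, R.T_mem 0 0 1⟩) ((orderOf_mk _ (R.T_mem 0 0 1)).trans (order_z R one_ne_zero)) fun u => ?_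
    have h1 := mul_mem hg (R.U_le_B u.2)
    refine if_congr ⟨fun h => ?_, fun h => by simpa only [coe_mul, mul_assoc] using key _ h1 1 h⟩ rfl rfl
    simpa [mul_assoc, R.T_mul] using key _ (mul_mem hg (R.U_le_B (u * ⟨_, R.T_mem 0 0 1⟩).2)) (-1) h
  · obtain ⟨u, hu, b, hb, rfl⟩ := (R.bruhat g).resolve_left hg
    obtain ⟨v, hv, k, rfl⟩ := mem_B.1 hb
    have h1 := M_conj_mem k⁻¹ hv
    have e : ∀ t, u * R.W * (v * R.M k) * t = u * (R.W * R.M k * (R.M k⁻¹ * v * (R.M k⁻¹)⁻¹ * t * u)) * u⁻¹ := fun t => by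
      rw [map_inv]; group
    generalize R.M k⁻¹ * v * (R.M k⁻¹)⁻¹ = y at e h1
    simp only [e, conj_mul, conj_eq_one_iff, Ne]
    rw [sub_zero, Finset.sum_eq_single ⟨_, inv_mem (mul_mem hu h1)⟩ (fun t _ h => if_neg fun e => h ?_) (by simp), if_pos]
    · simp only [mul_inv_rev, mul_inv_cancel_left, inv_mul_cancel, mul_one, mul_assoc y]
      exact ⟨fun e => R.W_notMem (eq_inv_of_mul_eq_one_left e ▸ inv_mem (R.M_mem_B k)), by
        rw [← mul_assoc, R.W_conj, ← map_mul, inv_mul_cancel, map_one]⟩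
    · have h2 := mul_mem (mul_mem h1 t.2) hu
      set s := y * t * u with hs
      have h3 := eq_one_of_W (M_conj_mem k h2) (by
        rw [show R.W * (R.M k * s * (R.M k)⁻¹) * R.W = R.W * R.M k * s * (R.W * R.M k * s) * (s⁻¹ * (R.M k)⁻¹ *
          (R.W⁻¹ * (R.M k)⁻¹ * R.W)) by group, e.2, one_mul, R.W_inv, ← map_inv, R.W_conj]
        exact mul_mem (mul_mem (R.U_le_B (inv_mem h2)) (R.M_mem_B _)) (R.M_mem_B _))
      rw [conj_eq_one_iff, hs] at h3
      exact Subtype.ext (eq_inv_of_mul_eq_one_left (by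
        rw [← conj_eq_one_iff (a := y), ← h3]; group))

theorem fx_ne {x : G} (h2 : ¬ orderOf x ∣ 2) (h3 : ¬ 3 ∣ orderOf x) : fx R x ≠ 1 := by
  by_cases h : ∃ ω : G ⧸ R.B, x • ω = ω
  swap
  · rw [fx, Finset.sum_eq_zero fun ω _ => if_neg fun e => h ⟨ω, e⟩]; decide
  obtain ⟨ω, h⟩ := h
  obtain ⟨s, rfl⟩ := QuotientGroup.mk_surjective ω
  have h4 : ∀ v : G, orderOf (v⁻¹ * x * v) = orderOf x := fun v => H24.orderOf_conj' v x
  rcases B_cases (smul_coe_iff.1 h) with ⟨a, b, c, e⟩ | ⟨v, b, e⟩ | ⟨v, k, hk, e⟩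
  · have := orderOf_dvd_of_pow_eq_one (R.T_pow_nine a b c)
    rw [← e, h4] at this
    rcases (Nat.dvd_prime_pow Nat.prime_three (m := 2)).1 this with ⟨_ | n, -, e⟩
    exacts [(h2 (e ▸ one_dvd _)).elim, (h3 (e ▸ dvd_pow_self 3 n.succ_ne_zero)).elim]
  · replace e : (s * v)⁻¹ * x * (s * v) = R.T 0 b 0 * R.i := by rw [← e]; group
    by_cases hb : b = 0
    · exact (h2 (h4 _ ▸ orderOf_dvd_of_pow_eq_one (by rw [e, hb, T_zero, one_mul, sq, R.i_sq]))).elim
    · exact (h3 (by rw [← h4, e, order_six hb]; decide)).elim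
  · have h5 : ((1 : G) : G ⧸ R.B) ≠ R.W := fun h => R.W_notMem (by simpa using QuotientGroup.eq.1 h)
    rw [show x = s * v * R.M k * (s * v)⁻¹ by rw [← e]; group, fx_conj, fx, Finset.sum_boole,
      show Finset.filter _ _ = {((1 : G) : G ⧸ R.B), (R.W : G ⧸ R.B)} from Finset.ext fun ω => ?_, Finset.card_pair h5]
    · decide
    obtain ⟨g, rfl⟩ := QuotientGroup.mk_surjective ω
    simp only [Finset.mem_filter, Finset.mem_univ, true_and, Finset.mem_insert, Finset.mem_singleton]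
    refine ⟨fun h => (fix_M (smul_coe_iff.1 h)).imp (fun h => QuotientGroup.eq.2 (by simpa using h)) ?_, ?_⟩
    · rintro ⟨u, hu, e, b, hb, rfl⟩
      rw [eq_one_of_comm hk hu e, one_mul, QuotientGroup.mk_mul_of_mem _ hb]
    · rintro (h | h) <;> rw [h, smul_coe_iff]
      exacts [by simpa using R.M_mem_B k, by rw [R.W_inv, R.W_conj]; exact R.M_mem_B _]

include R in
theorem inSq_inv {x : G} (h2 : ¬ orderOf x ∣ 2) (h3 : ¬ 3 ∣ orderOf x) : ∃ t, t ≠ 1 ∧ t * t = 1 ∧ InSq x t := by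
  have := Fact.mk Nat.prime_three
  have h1 := gow R.isPGroup_U (w := fun g => (if g ≠ 1 ∧ g * g = 1 then 1 else 0) + fx R g) (fun g h => by
    rw [show h * g = h * (g * h) * h⁻¹ by group, fx_conj]; simp only [conj_mul, conj_eq_one_iff, Ne])
    (fun g => by rw [Finset.sum_add_distrib, sum_inv_U, sum_fx_U]; ring) x x
  by_contra! h
  rw [Finset.sum_add_distrib, Finset.sum_eq_zero fun g _ => if_neg fun e => h _ e.1 e.2
    ⟨x, _, IsConj.refl x, isConj_iff.2 ⟨g, rfl⟩, rfl⟩, zero_add, sum_fx, neg_eq_zero, mul_self_eq_zero, sub_eq_zero] at h1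
  exact fx_ne R h2 h3 h1.symm

end H23.RS
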