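import Cfsg.Agent.H23.ReeSq3
import Cfsg.Agent.H14.ReeRep
import Cfsg.Agent.H5.Kernel

/-!
Squares of conjugacy classes in small Ree groups: centralizers and a cross-section.
-/

namespace H23.RS

open Subgroup H14 H14.Ree Cfsg H5
open scoped Classical

theorem card_le_of_surj {G α : Type*} [Group G] [Finite α] {H : Subgroup G} (F : α → G) (h : ∀ g ∈ H, ∃ a, F a = g) :
    Nat.card H ≤ Nat.card α := by
  choose f hf using h
  exact Nat.card_le_card_of_injective (fun g : H => f g g.2) fun a b e =>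
    Subtype.ext ((hf a a.2).symm.trans ((congrArg F e).trans (hf b b.2)))

theorem tr_card {G : Type*} [Group G] [Finite G] {A C : Subgroup G} (h : Tr A C) {g : G}
    (h1 : ∃ p, p.Prime ∧ p ∣ Nat.card A ∧ p ∣ orderOf g) : Nat.card (centralizer ({g} : Set G)) = Nat.card C := by
  have := Fintype.ofFinite G
  obtain ⟨p, hp, h1, h2⟩ := h1
  obtain ⟨x, hx⟩ := h.exists_conj hp h1 h2
  obtain ⟨y, hy, e⟩ := exists_prime_pow hp (H24.orderOf_conj' x g ▸ h2)
  have h3 := h.cent y (h.mem_of_pow (zpowers_le_of_mem hx hy) (e ▸ h1)) (ne_one_of_prime hp e)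
  rw [card_cent_eq (isConj_iff.2 ⟨x⁻¹, rfl⟩ : IsConj g _), inv_inv, le_antisymm ((H24.cent_le_cent_of_mem_zpowers hy).trans h3.le)
    fun c hc => H24.mem_cent.2 (h.comm c hc _ hx)]

theorem sum_ite_card {G : Type*} [Fintype G] (P : G → Prop) [DecidablePred P] (c : ℕ) :
    ∑ g, (if P g then c else 0) = {g | P g}.ncard * c := by
  rw [← Finset.sum_filter, Finset.sum_const, smul_eq_mul, Set.ncard_eq_toFinset_card', Set.toFinset_ofPred]

variable {K G : Type*} [Field K] [Group G] [Finite K] [Fintype G] {R : Ree K G}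

/-- regular semisimple elements -/
def Reg (g : G) : Prop := ¬ orderOf g ∣ 2 ∧ ¬ 3 ∣ orderOf g

omit [Finite K] [Fintype G] in
theorem comm_T {a b c : K} {g : G} (h1 : R.T a b c ≠ 1) (h : g ∈ centralizer {R.T a b c}) : ∃ x y w k, g = R.T x y w * R.M k ∧
    R.T x y w * R.T (k ^ 2 / R.σ k * a) (R.σ k / k * b) (k * c) = R.T a b c * R.T x y w := by
  obtain ⟨_, ⟨x, y, w, rfl⟩, k, rfl⟩ := mem_B.1 (cent_le_B (R.T_mem a b c) h1 h)
  refine ⟨x, y, w, k, rfl, ?_⟩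
  have := H24.mem_cent.1 h
  rwa [mul_assoc, R.M_T, ← mul_assoc, ← mul_assoc, mul_left_inj] at this

omit [Fintype G] in
theorem cent_nine {a b c : K} (ha : a ≠ 0) : Nat.card (centralizer {R.T a b c}) ≤ 3 * Nat.card K := by
  have t3 := R.three
  have h0 : R.T a b c ≠ 1 := by simp [T_eq_one, ha]
  have key : ∀ g ∈ centralizer {R.T a b c}, ∃ x y w, g = R.T x y w ∧ (x = 0 ∨ x = a ∨ x = -a) ∧ (x = 0 → y = 0) := fun g hg => by
    obtain ⟨x, y, w, k, rfl, e⟩ := comm_T h0 hg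
    rw [R.T_mul, R.T_mul, T_inj] at e
    obtain rfl : k = 1 := Units.ext (R.eq_one_of_σ k.ne_zero ((div_eq_one_iff_eq (R.σ_ne k)).1
      ((mul_eq_right₀ ha).1 (by linear_combination e.1))).symm)
    simp only [Units.val_one, map_one, one_pow, div_one, one_mul, mul_one] at e ⊢
    refine ⟨x, y, w, rfl, or_iff_not_imp_left.2 fun hx => ?_, fun hx => ?_⟩
    · have := R.sq_of_σ (div_ne_zero hx ha) (by
        rw [map_div₀, div_eq_div_iff (by simpa using ha) ha]; linear_combination e.2.1)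
      exact sq_eq_sq_iff_eq_or_eq_neg.1 ((div_eq_one_iff_eq (pow_ne_zero 2 ha)).1 (div_pow x a 2 ▸ this))
    · subst hx
      exact (mul_eq_zero.1 (by have := e.2.2; simp only [map_zero] at this; linear_combination -this : a * y = 0)).resolve_left ha
  refine (card_le_of_surj (fun p : Fin 3 × K => R.T a b c ^ p.1.val * R.T 0 0 p.2) fun g hg => ?_).trans (by simp)
  obtain ⟨j, y, w, e⟩ : ∃ j : Fin 3, ∃ y w, (R.T a b c ^ j.val)⁻¹ * g = R.T 0 y w := by
    obtain ⟨x, y, w, rfl, rfl | rfl | rfl, -⟩ := key g hg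
    · exact ⟨0, y, w, by simp⟩
    · exact ⟨1, _, _, by rw [Fin.val_one, pow_one, T_inv, R.T_mul, neg_add_cancel]⟩
    · exact ⟨2, _, _, by rw [Fin.val_two, sq, R.T_mul, T_inv, R.T_mul, show -(a + a) + -a = 0 by linear_combination -a * t3]⟩
  obtain ⟨x, y', w', e', -, h⟩ := key _ (mul_mem (inv_mem (pow_mem (H24.self_mem_cent _) j.val)) hg)
  rw [e, T_inj] at e'
  obtain rfl : y = 0 := e'.2.1.trans (h e'.1.symm)
  exact ⟨(j, w), by rw [← e, mul_inv_cancel_left]⟩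

omit [Fintype G] in
theorem cent_six {b : K} (hb : b ≠ 0) : Nat.card (centralizer {R.T 0 b 0 * R.i}) ≤ 3 * Nat.card K := by
  have h1 : ∀ n, (R.T 0 b 0 * R.i) ^ n = R.T 0 b 0 ^ n * R.i ^ n := (R.i_T0 b).mul_pow
  have h2 : R.T 0 b 0 ^ 3 = 1 := pow_three_iff.2 rfl
  have h3 : R.i ^ 2 = 1 := (sq _).trans R.i_sq
  refine (card_le_of_surj (fun p : Fin 3 × K => R.T 0 p.2 0 * R.i ^ p.1.val) fun g hg => ?_).trans (by simp)
  have h4 := H24.cent_le_cent_pow _ 3 hg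
  have h5 := H24.cent_le_cent_pow _ 4 hg
  rw [h1, h2, one_mul, pow_succ, h3, one_mul] at h4
  rw [h1, pow_succ, h2, one_mul, show 4 = 2 * 2 from rfl, pow_mul, h3, one_pow, mul_one] at h5
  obtain ⟨y, k, rfl⟩ := mem_B_inf.1 ⟨cent_le_B (R.T_mem ..) (by simp [T_eq_one, hb]) h5, h4⟩
  have := H24.mem_cent.1 h5
  rw [mul_assoc, R.M_T, ← mul_assoc, ← mul_assoc, mul_left_inj, R.T_mul, R.T_mul, T_inj] at this
  have h6 := R.sq_of_σ k.ne_zero ((div_eq_one_iff_eq k.ne_zero).1 ((mul_eq_right₀ hb).1 (by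
    have := this.2.1; simp only [zero_mul] at this; linear_combination this)))
  rcases R.M_sq_eq_one (k := k) (Units.ext (by simpa using h6)) with e | e <;> rw [e]
  exacts [⟨(0, y), by simp⟩, ⟨(1, y), by simp⟩]

omit [Fintype G] in
theorem cent_z {c : K} (hc : c ≠ 0) : Nat.card (centralizer {R.T 0 0 c}) ≤ Nat.card K ^ 3 := by
  have := R.finite
  refine R.card_U ▸ card_le_of_le fun g hg => ?_
  obtain ⟨x, y, w, k, rfl, e⟩ := comm_T (by simp [T_eq_one, hc]) hg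
  rw [R.T_mul, R.T_mul, T_inj] at e
  obtain rfl : k = 1 := Units.ext ((mul_eq_right₀ hc).1 (by have := e.2.2; simp only [mul_zero, map_zero, zero_mul, zero_pow two_ne_zero] at this; linear_combination this))
  simpa using R.T_mem x y w

variable {r : ℕ} (h : R.Big r)
include h

omit [Fintype G] in
theorem big_le : 27 ≤ Nat.card K ∧ 3 * r ≤ Nat.card K := by
  have h1 := h.hr
  obtain ⟨n, hn⟩ := R.exists_pow
  have h2 : 27 ≤ Nat.card K := by
    have := h.hq; have := h.h3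
    rcases n with _ | _ | n
    · omega
    · omega
    · rw [hn, show n + 1 + 1 + 1 = 3 + n by omega, pow_add]; exact Nat.le_mul_of_pos_right _ (by positivity)
  exact ⟨h2, by nlinarith⟩

theorem reg_sum : (∀ g : G, Reg g → Nat.card (centralizer {g}) ≤ Nat.card K + r + 1) ∧
    ∑ g : G with Reg g, Nat.card (centralizer {g}) ≤ (Nat.card K - 2) * Nat.card G := by
  obtain ⟨ρ, hρ⟩ := h.rep
  obtain ⟨A, B, tA, tB, cA, cB, nA, nB, hAB⟩ := tori R h.hq h.hp hρ h.h3 h.hr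
  obtain ⟨c, s, T⟩ := R.exists_tor' h.hq
  have hq := h.hq
  have b := big_le h
  have p1 : ∀ {A : Subgroup G} (g : G), orderOf g ≠ 1 ∧ orderOf g ∣ Nat.card A → ∃ p, p.Prime ∧ p ∣ Nat.card A ∧ p ∣ orderOf g :=
    fun g hg => have ⟨p, hp, e⟩ := Nat.exists_prime_and_dvd hg.1; ⟨p, hp, e.trans hg.2, e⟩
  have key : ∀ g : G, Reg g → (¬ orderOf g ∣ 2 ∧ orderOf g ∣ Nat.card K - 1) ∧ Nat.card (centralizer {g}) = Nat.card K - 1 ∨
      (¬ orderOf g ∣ 2 ∧ orderOf g ∣ Nat.card K + 1) ∧ Nat.card (centralizer {g}) = Nat.card K + 1 ∨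
      (orderOf g ≠ 1 ∧ orderOf g ∣ Nat.card A) ∧ Nat.card (centralizer {g}) = Nat.card A ∨
      (orderOf g ≠ 1 ∧ orderOf g ∣ Nat.card B) ∧ Nat.card (centralizer {g}) = Nat.card B := fun g hg => by
    have h1 : orderOf g ≠ 1 := fun e => hg.1 (e ▸ one_dvd 2)
    rcases R.order_cases' hq h.hp g with e | e | e | e | e
    exacts [(hg.1 e).elim, (hg.2 e).elim, .inl ⟨⟨hg.1, e⟩, (tr_card (trH hq) (R.exists_prime hq hg.1
      (e.trans (Dvd.intro 2 (by rw [card_H0 (R := R) hq]; omega))))).trans R.card_H⟩, .inr (.inl ⟨⟨hg.1, e⟩,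
      (tr_card (T.tr hq h.hp) (R.exists_prime hq hg.1 (e.trans (Dvd.intro 1 (by rw [T.card_A hq]; omega))))).trans T.card_D⟩),
      .inr (.inr ((hAB g e).imp (fun e => ⟨⟨h1, e⟩, tr_card tA (p1 g ⟨h1, e⟩)⟩) fun e => ⟨⟨h1, e⟩, tr_card tB (p1 g ⟨h1, e⟩)⟩))]
  refine ⟨fun g hg => by rcases key g hg with e | e | e | e <;> omega, ?_⟩
  have p2 : ∀ {A : Subgroup G}, Tr A A → Nat.card (normalizer (A : Set G)) = 6 * Nat.card A →
      6 * ({g : G | orderOf g ≠ 1 ∧ orderOf g ∣ Nat.card A}.ncard * Nat.card A) = (Nat.card A - 1) * Nat.card G := fun {A} tA nA => by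
    rw [tA.ncard_order (fun n => n ≠ 1 ∧ n ∣ Nat.card A) p1, ← index_mul_card (normalizer (A : Set G)), nA,
      ← ncard_ne_one A, show {c | c ∈ A ∧ orderOf c ≠ 1 ∧ orderOf c ∣ Nat.card A} = {c | c ∈ A ∧ c ≠ 1} from
        Set.ext fun c => and_congr_right fun hc => by rw [and_iff_left (orderOf_dvd_natCard A hc), Ne, orderOf_eq_one_iff]]
    ring
  have s1 := R.ncard_H' hq h.h3
  have s2 := T.ncard_D' hq h.hp h.h3
  have s3 := p2 tA nA
  have s4 := p2 tB nB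
  have s5 : ∑ g : G with Reg g, Nat.card (centralizer {g}) ≤ ∑ g : G,
      ((if ¬ orderOf g ∣ 2 ∧ orderOf g ∣ Nat.card K - 1 then Nat.card K - 1 else 0) +
      (if ¬ orderOf g ∣ 2 ∧ orderOf g ∣ Nat.card K + 1 then Nat.card K + 1 else 0) +
      (if orderOf g ≠ 1 ∧ orderOf g ∣ Nat.card A then Nat.card A else 0) +
      if orderOf g ≠ 1 ∧ orderOf g ∣ Nat.card B then Nat.card B else 0) := by
    rw [Finset.sum_filter]
    refine Finset.sum_le_sum fun g _ => ?_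
    by_cases hg : Reg g
    · rcases key g hg with e | e | e | e <;> rw [if_pos hg, if_pos e.1, e.2] <;> omega
    · rw [if_neg hg]; exact Nat.zero_le _
  simp only [Finset.sum_add_distrib, sum_ite_card] at s5
  have g1 := R.card_G
  have g2 := R.card_G'
  refine Nat.le_of_mul_le_mul_left ((Nat.mul_le_mul_left 6 s5).trans (le_of_eq ?_)) (show 0 < 6 by decide)
  rw [mul_add, mul_add, mul_add, s3, s4, cA, cB]
  obtain ⟨k, hk⟩ : ∃ k, Nat.card K = k + r + 3 := ⟨Nat.card K - r - 3, by omega⟩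
  rw [show Nat.card K - 3 = k + r by omega] at s1 s2
  rw [show Nat.card K - r + 1 - 1 = k + 3 by omega, show Nat.card K + r + 1 - 1 = k + 2 * r + 3 by omega,
    show Nat.card K - 2 = k + r + 1 by omega]
  linear_combination (3 * (k + r)) * g1.symm + (k + r) * g2.symm + 3 * (Nat.card K - 1) * s1 + (Nat.card K + 1) * s2

theorem cross {t : G → K} (t1 : ∀ g h, t (g * h) = t (h * g)) (t2 : ∀ g, t (g ^ Nat.card K) = t g)
    (t3 : ∀ τ, ∃ k c, t (R.W * R.M k * R.T 0 0 c) = τ) {x : G} (hx : Reg x) :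
    ∃ k c, c ≠ 0 ∧ IsConj x (R.W * R.M k * R.T 0 0 c) := by
  have := Fintype.ofFinite K
  have b := big_le h
  have t4 : ∀ {a b}, IsConj a b → t a = t b := fun e => by
    obtain ⟨c, rfl⟩ := isConj_iff.1 e
    rw [t1, inv_mul_cancel_left]
  have t5 : ∀ g, g * g = 1 → t g = t 1 ∨ t g = t R.i := fun g e => (eq_or_ne g 1).imp (congrArg t) fun h1 =>
    (t4 (isConj_iff.2 (conj_i h.hq h.hp h1 e))).symm
  have t6 : ∀ g, ¬ Reg g → t g = t 1 ∨ t g = t R.i := fun g hg => by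
    obtain ⟨n, hn⟩ := R.exists_pow
    obtain ⟨n, rfl⟩ : ∃ m, n = m + 1 := ⟨n - 1, by rcases n with _ | n <;> omega⟩
    refine t2 g ▸ t5 _ (by
      rw [← pow_add, ← orderOf_dvd_iff_pow_eq_one, hn, show 3 ^ (n + 1 + 1) + 3 ^ (n + 1 + 1) = 18 * 3 ^ n by ring]
      refine Dvd.dvd.mul_right ?_ _
      by_cases e : 3 ∣ orderOf g
      · rcases R.order_cases e with e | e | e <;> rw [e] <;> decide
      · exact (not_not.1 fun e' => hg ⟨e', e⟩).trans (by decide))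
  choose k c t3 using t3
  by_contra! h1
  have h2 : ∀ τ ∈ Finset.univ \ {t 1, t R.i}, ¬ IsConj x (R.W * R.M (k τ) * R.T 0 0 (c τ)) ∧
      Reg (R.W * R.M (k τ) * R.T 0 0 (c τ)) := fun τ hτ => by
    have h3 : ∀ g, t g = τ → ¬ (t g = t 1 ∨ t g = t R.i) := fun g e => by simpa [e] using hτ
    refine ⟨h1 _ _ fun e => h3 _ (t3 τ) (t5 _ ?_), not_not.1 fun e => h3 _ (t3 τ) (t6 _ e)⟩
    rw [e, T_zero, mul_one, ← mul_assoc, R.W_conj, ← map_mul, inv_mul_cancel, map_one]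
  have h3 := (card_classes (Y := insert x ((Finset.univ \ {t 1, t R.i}).image fun τ => R.W * R.M (k τ) * R.T 0 0 (c τ)))
    (fun y hy g e => ?_) fun y hy z hz e => ?_).trans (reg_sum h).2
  · rw [Finset.card_insert_of_notMem (fun e => have ⟨τ, hτ, e⟩ := Finset.mem_image.1 e; (h2 τ hτ).1 (e ▸ IsConj.refl _)),
      Finset.card_image_of_injective _ fun a b e => (t3 a).symm.trans ((congrArg t e).trans (t3 b)),
      Finset.card_univ_sdiff, ← Nat.card_eq_fintype_card] at h3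
    have := Nat.le_of_mul_le_mul_right h3 Nat.card_pos
    have := Finset.card_le_two (a := t 1) (b := t R.i)
    omega
  · obtain ⟨u, rfl⟩ := isConj_iff.1 e
    rw [Finset.mem_filter, Reg, H24.orderOf_conj]
    rcases Finset.mem_insert.1 hy with rfl | hy
    · exact ⟨Finset.mem_univ _, hx⟩
    · obtain ⟨τ, hτ, rfl⟩ := Finset.mem_image.1 hy
      exact ⟨Finset.mem_univ _, (h2 τ hτ).2⟩
  · simp only [Finset.mem_insert, Finset.mem_image] at hy hz
    rcases hy with rfl | ⟨a, ha, rfl⟩ <;> rcases hz with rfl | ⟨b, hb, rfl⟩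
    exacts [rfl, ((h2 b hb).1 e).elim, ((h2 a ha).1 e.symm).elim, by rw [(t3 a).symm.trans ((t4 e).trans (t3 b))]]

theorem deg [IsSimpleGroup G] (χ : IrrCharacter G) (h1 : χ ≠ irrOne G) :
    ((Nat.card K : ℝ) ^ 2 - Nat.card K + 1) ≤ ((χ : G → ℂ) 1).re := by
  have h2 := χ.2.charKer_eq_bot_of_simple fun e => h1 (Subtype.ext e)
  obtain ⟨n, ρ, -, e⟩ := χ.2
  rw [← e, charKer_character] at h2
  have := R.le_finrank h.hq h.hp ρ fun e => one_ne_zero (R.T_eq_one.1 (mem_bot.1 (h2.le e))).2.2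
  rw [← e, Representation.char_one, Complex.natCast_re]
  rw [nn, ← Nat.cast_le (α := ℝ), Nat.cast_add, Nat.cast_sub (Nat.le_self_pow two_ne_zero _)] at this
  exact_mod_cast this

theorem inSq [IsSimpleGroup G] {t : G → K} (t1 : ∀ g h, t (g * h) = t (h * g)) (t2 : ∀ g, t (g ^ Nat.card K) = t g)
    (t3 : ∀ τ, ∃ k c, t (R.W * R.M k * R.T 0 0 c) = τ) {x : G} (hx : Reg x) {g : G} (hg : g ≠ 1) : InSq x g := by
  obtain ⟨k, c, hc, e⟩ := cross h t1 t2 t3 hx
  have t3 := R.three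
  set n := R.W * R.M k
  have n1 : n * n = 1 := by rw [← mul_assoc, R.W_conj, ← map_mul, inv_mul_cancel, map_one]
  have n2 : R.i * n = n * R.i := by rw [← mul_assoc, i_comm R.W_mem_L, mul_assoc, mul_assoc, i, R.M_comm]
  have n3 : R.i * (n * R.T 0 0 c) * R.i⁻¹ = n * R.T 0 0 (-c) := by
    rw [← mul_assoc, n2, mul_assoc n, R.i_T, mul_assoc, mul_inv_cancel_right, neg_zero]
  have n4 : (n * R.T 0 0 c)⁻¹ = R.T 0 0 (-c) * n := by simp [inv_eq_of_mul_eq_one_right n1, T_inv]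
  have c1 : IsConj x (n * R.T 0 0 (-c)) := e.trans (isConj_iff.2 ⟨_, n3⟩)
  have c2 : IsConj x (R.T 0 0 (-c) * n) := c1.trans (isConj_iff.2 ⟨n⁻¹, by group⟩)
  have re : IsConj x x⁻¹ := c2.trans (n4 ▸ isConj_inv' e.symm)
  have b := big_le h
  have b1 : (27 : ℝ) ≤ Nat.card K := by exact_mod_cast b.1
  have b2 : 3 * (r : ℝ) ≤ Nat.card K := by exact_mod_cast b.2
  have b3 : (r : ℝ) ^ 2 = 3 * Nat.card K := by exact_mod_cast h.hr
  have b4 : (Nat.card (centralizer {x}) : ℝ) ≤ Nat.card K + r + 1 := by exact_mod_cast (reg_sum h).1 x hx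
  have b5 : (0 : ℝ) ≤ r := Nat.cast_nonneg r
  have b6 : (0 : ℝ) < (Nat.card K : ℝ) ^ 2 - Nat.card K + 1 := by nlinarith
  have sm : ∀ {y g : G}, y⁻¹ * g * y ∈ {g : G | Nat.card (centralizer {g}) ≤ 3 * Nat.card K} → InSq x g := fun {y g} e =>
    (inSq_of_small b6 (deg h) re b5 (by rw [b3]; exact_mod_cast e) (by nlinarith)).conj (IsConj.refl x)
      (isConj_iff.2 ⟨y, by group⟩)
  by_cases h2 : orderOf g ∣ 2
  · obtain ⟨s, s1, s2, s3⟩ := inSq_inv R hx.1 hx.2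
    exact s3.conj (IsConj.refl x) ((isConj_iff.2 (conj_i (R := R) h.hq h.hp s1 s2)).symm.trans
      (isConj_iff.2 (conj_i h.hq h.hp hg ((sq g).symm.trans (orderOf_dvd_iff_pow_eq_one.1 h2)))))
  by_cases h3 : 3 ∣ orderOf g
  swap
  · exact sm (y := 1) (by simpa using ((reg_sum h).1 g ⟨h2, h3⟩).trans (by omega))
  obtain ⟨y, a, b', c', e1⟩ | ⟨y, b', hb, e1⟩ := three_cases (R := R) h3
  swap
  · exact sm (e1 ▸ cent_six hb)
  by_cases ha : a = 0
  swap
  · exact sm (e1 ▸ cent_nine ha)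
  subst ha
  refine InSq.conj (g := R.T 0 b' c') ?_ (IsConj.refl x) (isConj_iff.2 ⟨y, by rw [← e1]; group⟩)
  by_cases hb : b' = 0
  · have hc' : c' ≠ 0 := fun e => hg (by simpa [hb, e, mul_assoc, inv_mul_eq_one] using e1)
    refine InSq.conj ⟨_, _, c2, c1, rfl⟩ (IsConj.refl x) (isConj_iff.2 ⟨R.M (Units.mk0 c' hc' / Units.mk0 c hc), ?_⟩)
    rw [mul_assoc (R.T ..), ← mul_assoc n, n1, one_mul, R.T_mul, R.M_conj, hb, T_inj]
    refine ⟨by simp, by simp, ?_⟩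
    simp only [Units.val_div_eq_div_val, Units.val_mk0, map_zero]
    field_simp
    linear_combination -c * t3
  have k1 : ∀ {b : K} (c : K), b ≠ 0 → IsConj (R.T 0 b 0) (R.T 0 b c) := fun {b} c hb => isConj_iff.2 ⟨R.T (c / b) 0 0, by
    rw [R.T_inv, R.T_mul, R.T_mul, T_inj]
    refine ⟨by simp, by simp, ?_⟩
    simp only [map_neg, map_zero]; linear_combination (c / b) ^ 2 * R.σ (c / b) * t3 + div_mul_cancel₀ c hb⟩
  have k2 : ∀ {b : K}, b ≠ 0 → IsConj (R.T 0 1 0) (R.T 0 b 0) ∨ IsConj (R.T 0 1 0)⁻¹ (R.T 0 b 0) := fun {b} hb => by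
    refine (isSquare_or h.hq (Units.mk0 b hb)).imp (fun ⟨s, e⟩ => ?_) (fun ⟨s, e⟩ => ?_) <;>
      refine isConj_iff.2 ⟨R.M (s * Units.map R.σ.toMonoidHom s), ?_⟩ <;> replace e := congrArg Units.val e <;>
      have := R.σ_ne s
    · simp only [Units.val_mk0, Units.val_mul] at e
      rw [R.M_conj, T_inj]; simp [R.σσ, e]; field_simp
    · simp only [Units.val_neg, Units.val_mk0, Units.val_mul, neg_eq_iff_eq_neg] at e
      rw [T_inv, R.M_conj, T_inj]; simp [R.σσ, e]; field_simp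
  have k3 : ∀ {b : K} (c : K), b ≠ 0 → (InSq x (R.T 0 b c) ↔ InSq x (R.T 0 1 0)) := fun c hb => by
    rcases k2 hb with e | e <;> replace e := e.trans (k1 c hb)
    · exact ⟨fun s => s.conj (IsConj.refl x) e.symm, fun s => s.conj (IsConj.refl x) e⟩
    · exact ⟨fun s => inv_inv (R.T 0 1 0) ▸ (s.conj (IsConj.refl x) e.symm).inv re, fun s => (s.inv re).conj (IsConj.refl x) e⟩
  by_contra h4
  let Z : Subgroup G := ⟨⟨⟨{g | ∃ c, R.T 0 0 c = g}, by rintro _ _ ⟨a, rfl⟩ ⟨b, rfl⟩; exact ⟨a + b, by simp [R.T_mul]⟩⟩,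
    0, R.T_zero⟩, by rintro _ ⟨a, rfl⟩; exact ⟨-a, by simp [T_inv]⟩⟩
  have h5 := pigeon b6 (deg h) re (Y := R.U1) (Z := Z) (s := Nat.card K * r) (by positivity) (by
    rintro _ ⟨c, rfl⟩ e
    have : (Nat.card (centralizer {R.T 0 0 c}) : ℝ) ≤ Nat.card K ^ 3 := by
      exact_mod_cast cent_z fun e' => e (by rw [e', T_zero])
    rw [mul_pow, b3]; nlinarith) (by
    rintro _ ⟨b, c, rfl⟩ e s
    exact h4 ((k3 c' hb).2 ((k3 c fun e' => e ⟨c, by rw [e']⟩).1 s)))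
  have h6 : (Nat.card Z : ℝ) ≤ Nat.card K := by exact_mod_cast card_le_of_surj (H := Z) _ fun g hg => hg
  have h7 : ((Nat.card (centralizer {x}) : ℝ) - 1) * (Nat.card K * r) / (Nat.card K ^ 2 - Nat.card K + 1) ≤ Nat.card K / 2 := by
    rw [div_le_iff₀ b6]
    have : ((Nat.card (centralizer {x}) : ℝ) - 1) * (Nat.card K * r) ≤ (4 / 3 * Nat.card K) * (Nat.card K * (Nat.card K / 3)) := by
      gcongr <;> linarith
    nlinarith
  rw [R.card_U1] at h5
  push_cast at h5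
  have : (Nat.card Z : ℝ) * (1 + ((Nat.card (centralizer {x}) : ℝ) - 1) * (Nat.card K * r) /
      (Nat.card K ^ 2 - Nat.card K + 1)) ≤ Nat.card K * (1 + Nat.card K / 2) :=
    (mul_le_mul_of_nonneg_left (by linarith) (Nat.cast_nonneg _)).trans (mul_le_mul_of_nonneg_right h6 (by linarith))
  nlinarith

end H23.RS
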