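import Cfsg.Agent.H23.ReeSq4
import Cfsg.Agent.H14.G2Spec

/-!
The trace on a cross-section of a small Ree group.
-/

namespace H23.RS

open Matrix H14 H14.G2 Cfsg.Lie PreSt St

set_option maxRecDepth 100000

theorem trace_surj {K G : Type*} [Field K] [Group G] (R : Ree K G) {φ : K →+* K} (h2 : ∀ t, φ (φ t) ^ 3 = t)
    {s : Kˣ} (hs : s ^ 4 ≠ 1) (ρ : G →* Matrix (Fin 7) (Fin 7) K)
    (hM : ∀ k : Kˣ, ρ (R.M k) = diagonal ![φ k, k / φ k, φ k ^ 2 / k, 1, k / φ k ^ 2, φ k / k, (φ k)⁻¹])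
    (hz : ρ (R.T 0 0 1) = !![1, 0, 0, -1, 0, -1, 1; 0, 1, 0, 0, 1, 0, -1; 0, 0, 1, 0, 0, 1, 0; 0, 0, 0, 1, 0, 0, -2;
      0, 0, 0, 0, 1, 0, 0; 0, 0, 0, 0, 0, 1, 0; 0, 0, 0, 0, 0, 0, 1]) (τ : K) :
    ∃ k c, trace (ρ (R.W * R.M k * R.T 0 0 c)) = τ := by
  have h0 : ∀ (k : Kˣ) a b, ![φ k, k / φ k, φ k ^ 2 / k, 1, k / φ k ^ 2, φ k / k, (φ k)⁻¹] a *
      ![φ k, k / φ k, φ k ^ 2 / k, 1, k / φ k ^ 2, φ k / k, (φ k)⁻¹] b ≠ 1 → ρ R.W a b = 0 := fun k a b h => by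
    have e : R.M k * R.W * R.M k = R.W := by rw [mul_assoc, R.W_M, ← mul_assoc, ← map_mul, mul_inv_cancel, map_one, one_mul]
    have := congrFun₂ (congrArg ρ e) a b
    rw [map_mul, map_mul, hM, mul_diagonal, diagonal_mul, mul_right_comm] at this
    exact not_not.1 fun e => h ((mul_eq_right₀ e).1 this)
  have s0 := s.ne_zero
  have s1 : φ s ≠ 0 := by simpa using s0
  obtain ⟨a1, a2, a3, a4, a5, a6⟩ := exists_tor (h2 := h2) (s := s) fun e => hs (by rw [show 4 = 2 * 2 from rfl, pow_mul, e, one_pow])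
  obtain ⟨b1, -, b3, b4, -, -⟩ := exists_tor (h2 := h2) (s := s ^ 2) fun e => hs (by rw [← e, ← pow_mul])
  simp only [Units.val_pow_eq_pow_val, map_pow] at b1 b3 b4
  have z00 := h0 s 0 0 fun e => b4 (by simpa [sq] using e)
  have z11 := h0 s 1 1 fun e => b3 (by simp at e; field_simp at e; exact e.symm)
  have z22 := h0 s 2 2 fun e => b1 (by simp at e; field_simp at e; linear_combination e)
  have z44 := h0 s 4 4 fun e => b1 (by simp at e; field_simp at e; linear_combination -e)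
  have z55 := h0 s 5 5 fun e => b3 (by simp at e; field_simp at e; exact e)
  have z66 := h0 s 6 6 fun e => b4 (by simp at e; field_simp at e; exact e.symm)
  have z10 := h0 s 1 0 fun e => a6 (by simpa [s1] using e)
  have z20 := h0 s 2 0 fun e => a5 (by simp at e; field_simp at e; exact e)
  have z30 := h0 s 3 0 fun e => a4 (by simpa using e)
  have z40 := h0 s 4 0 fun e => a3 (by simp at e; field_simp at e; exact e.symm)
  have z50 := h0 s 5 0 fun e => a1 (by simp at e; field_simp at e; exact e)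
  have z41 := h0 s 4 1 fun e => a2 (by simp at e; field_simp at e; exact e)
  have z61 := h0 s 6 1 fun e => a1 (by simp at e; field_simp at e; exact e.symm)
  have z52 := h0 s 5 2 fun e => a2 (by simp at e; field_simp at e; exact e.symm)
  have z63 := h0 s 6 3 fun e => a4 (by simpa using e)
  have z60 : ρ R.W 6 0 ≠ 0 := fun e => by
    have := congrFun₂ (congrArg ρ R.W_W) 0 0
    simp [mul_apply, Fin.sum_univ_seven, z00, z10, z20, z30, z40, z50, e] at this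
  by_cases h : τ = ρ R.W 3 3
  · exact ⟨1, 0, by simp [trace, Fin.sum_univ_seven, h, z00, z11, z22, z44, z55, z66]⟩
  refine ⟨Units.mk0 (φ ((τ - ρ R.W 3 3) / ρ R.W 6 0) ^ 3) (by simpa [z60, sub_eq_zero, -map_sub] using h), 1, ?_⟩
  rw [map_mul, map_mul, hM, hz]
  simp [trace, Fin.sum_univ_seven, mul_apply, diagonal_apply, z00, z11, z22, z44, z55, z66, z30, z50, z41, z61, z52, z63,
    -map_div₀, -map_sub, h2]
  field_simp
  ring

theorem exists_trace {K : Type*} [Field K] [CharP K 3] {φ : K →+* K} :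
    ∃ ρ : chevG2.group K →* Matrix (Fin 7) (Fin 7) K,
    (∀ k : Kˣ, ρ (tor φ k) = diagonal ![φ k, k / φ k, φ k ^ 2 / k, 1, k / φ k ^ 2, φ k / k, (φ k)⁻¹]) ∧
    ρ (up φ 0 0 1) = !![1, 0, 0, -1, 0, -1, 1; 0, 1, 0, 0, 1, 0, -1; 0, 0, 1, 0, 0, 1, 0; 0, 0, 0, 1, 0, 0, -2;
      0, 0, 0, 0, 1, 0, 0; 0, 0, 0, 0, 0, 1, 0; 0, 0, 0, 0, 0, 0, 1] := by
  obtain ⟨θ, hθ⟩ := goodG2.exists_rep kerG2 (repG2.hmul K)
  refine ⟨(Units.coeHom _).comp θ, fun k => ?_, ?_⟩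
  · rw [MonoidHom.comp_apply, tor_apply, (goodG2.SG_hmul _).map (repG2.hmul _) hθ, Units.coeHom_apply, Rep.coe_tor]
    congr 1; funext a
    rw [prod_vec (w := repG2.wt a) (H14.vec [] [[1, 0], [-1, 1], [2, -1], [0, 0], [-2, 1], [1, -1], [-1, 0]] a) rfl rfl]
    fin_cases a <;> simp [H14.vec, div_eq_mul_inv, mul_comm, zpow_ofNat]
  · have e : (repG2.X 9 (1 : ℤ) * repG2.X 11 (1 : ℤ)) = !![1, 0, 0, -1, 0, -1, 1; 0, 1, 0, 0, 1, 0, -1; 0, 0, 1, 0, 0, 1, 0;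
        0, 0, 0, 1, 0, 0, -2; 0, 0, 0, 0, 1, 0, 0; 0, 0, 0, 0, 0, 1, 0; 0, 0, 0, 0, 0, 0, 1] := by decide +kernel
    have := congrArg (cm K) e
    rw [map_mul, Rep.cm_X, Rep.cm_X, Int.cast_one] at this
    rw [show up φ 0 0 1 = (goodG2.SG K).x 9 1 * (goodG2.SG K).x 11 1 by simp [up], MonoidHom.comp_apply, map_mul, hθ, hθ,
      Units.coeHom_apply, Units.val_mul]
    refine this.trans ?_
    ext a b; fin_cases a <;> fin_cases b <;> simp

end H23.RS
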