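/-
S5806, chunk `DD`: cliques of size five.
-/
import Cfsg.Agent.H6.SP4
import Cfsg.Agent.S5712

set_option autoImplicit false
set_option linter.unusedSectionVars false

namespace H23.S6
open Matrix Cfsg Cfsg.Geo H27.Asch Module Submodule H11.SP H6.SP

universe u
variable {F : Type u} [Field F] [Fintype F] [CharP F 2] {G : Type*} [Group G] {P : Subgroup (G6 F)} {π : P →* G}
  {p x y z s : V6 F} {c : F} {n : ℕ}

/-- the full unipotent radical modulo transvections cannot occur -/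
theorem q4 (h : Rp P π) (hp : p ≠ 0) (k : Nat.card (Qp P p) = Fintype.card F ^ 4) : False := by
  have e : (fun u v : V6 F => ∑ i : Fin 3, (u (.inl i) * v (.inr i) + u (.inr i) * v (.inl i))) = fm := by
    ext u v; simp [fm_ap, CharTwo.sub_eq_add, add_comm]
  have := Agent.S5712.result (n := 3) (by omega) p hp ((Qp P p).map P.subtype)
  rw [e] at this
  have q : ∀ {Q : QuadraticForm F (V6 F)}, (∀ u v, QuadraticMap.polar Q u v = fm u v) → ¬ P ≤ isometryGroup F Q := fun {Q} a b =>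
    h.nq ⟨Q, fun c v => by simp [QuadraticMap.map_smul, sq], fun u v => by rw [← a, QuadraticMap.polar]; ring, fun g hg v => b hg v v⟩
  refine (fun t => ?_ : _ → False) (this ((Subgroup.map_subtype_le _).trans h.sp) (fun H hH => ?_)
    (by rw [Subgroup.card_map_of_injective P.subtype_injective, k]) (fun g hg => h.ntv g (Subgroup.map_subtype_le _ hg)) P
    (Subgroup.map_subtype_le _) h.sp (irr_of_alg h.top))
  · obtain t | ⟨Q, a, t | t⟩ | ⟨-, t, -⟩ := t
    · have m : (1 + E p p) * (1 + E p p) = 1 := by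
        simpa [N_zero_r, aa] using q_mul (p := p) (φ := 0) (ψ := 0) (by simp) (by simp) 1 1
      have s : (⟨_, _, m, m⟩ : G6 F) ∈ S6 F := mem_S6.2 fun a b => by simp [t_mv, fm_sy p b, mul_comm, add_assoc, aa]
      exact one_ne_zero (h.ntv.eq (c := 1) hp (t.ge s) (by simp))
    · exact q a t.le
    · exact q a fun g hg => ((t g).1 hg).1
    · omega
  rintro _ ⟨g, ⟨φ, c, a, e⟩, rfl⟩
  have hs : H ≤ S6 F := fun g hg => ((hH g).1 hg).1
  refine ⟨⟨g, (hH _).2 ⟨h.sp g.2, by rw [e, q_mv]; simp [a]⟩⟩, (le_sSup (a := Qp H p) ⟨⟨fun b ⟨φ, c, a, e⟩ g => ?_⟩,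
    fun g => ⟨1, Subtype.ext (by simpa [sq] using Qp_sq g.2)⟩⟩ : _ ≤ pCore 2 H) ⟨φ, c, a, e⟩, rfl⟩
  have f := ((hH _).1 g.2).2
  refine ⟨g.1.val *ᵥ φ, c, by rw [← a, ← fm_iso (hs g.2) p φ, f], ?_⟩
  rw [Subgroup.coe_mul, Subgroup.coe_mul, Subgroup.coe_inv, Units.val_mul, Units.val_mul, e, mul_add, mul_add, add_mul, add_mul,
    N_cj (hs g.2), Matrix.mul_smul, Matrix.smul_mul, E_cj (hs g.2), f, mul_one, Units.mul_inv]

theorem Cq_cj (hP : P ≤ S6 F) {w : Fin n → V6 F} (c : Cq P p w) {g : G6 F} (hg : g ∈ P) : Cq P (g.val *ᵥ p) fun i => g.val *ᵥ w i :=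
  ⟨fun i => (c.1 i).cj hP hg, fun i j e => (fm_iso (hP hg) _ _).trans (c.2.1 i j e), fun y a => by
    obtain ⟨i, d, e⟩ := c.ex (inv_mv g p ▸ a.cj hP (inv_mem hg))
    exact ⟨i, by rw [← mv_inv g y, e, mulVec_add, mulVec_smul, N_shift]⟩⟩

theorem Cq_val {w : Fin n → V6 F} (c : Cq P p w) (a : A2 P p x) (b : A2 P p y) : fm x y = 0 ∨ fm x y = 1 := by
  obtain ⟨i, d, rfl⟩ := c.ex a
  obtain ⟨j, e, rfl⟩ := c.ex b
  by_cases k : i = j <;> simp [k, (c.1 _).1, fm_sy _ p, c.2.1]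

theorem Cq_one {w w' : Fin (n + 2) → V6 F} (k : Cq P p w) (k' : Cq P (c • p) w') : c = 1 := by
  have c0 := left_ne_zero_of_smul (k'.1 0).ne_l
  have := Cq_val k ((k'.1 0).move c0) ((k'.1 1).move c0)
  simp only [fm_smul_l, fm_smul_r, k'.2.1 0 1 (by simp), mul_one, mul_self_eq_zero, c0, false_or] at this
  exact (add_eq (k := F)).1 (pow_eq_zero_iff two_ne_zero |>.1 (by linear_combination this + (c + 1) * two (k := F)))

/-- the pairing at a second special point -/
theorem Cq_m (hP : P ≤ S6 F) (cg : CG P) {w : Fin (n + 3) → V6 F} (k : Cq P p w) (a : A2 P p x) (b : A2 P x z) (m : fm p z ≠ 0) :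
    fm p z = 1 := by
  obtain ⟨i, d, e⟩ := k.ex a
  obtain ⟨j, l, h1, h2, h3⟩ : ∃ j l, i ≠ j ∧ i ≠ l ∧ j ≠ l :=
    ⟨i.succAbove 0, i.succAbove 1, (Fin.succAbove_ne _ _).symm, (Fin.succAbove_ne _ _).symm, by simp⟩
  obtain ⟨f, g, hg, t⟩ := (k.1 j).qm.mul (k.1 l).qm
  have := b.cj hP hg
  have f1 : ∀ j, i ≠ j → fm x (w j) = 1 := fun j h => by simp [e, k.2.1 i j h, (k.1 j).1]
  rw [t, q_mv, q_mv, fm_sy x p, a.1, fm_add_r, f1 j h1, f1 l h2, aa, k.2.1 j l h3] at this
  simp only [mul_zero, zero_smul, add_zero, zero_add, one_mul] at this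
  have t : fm z (z + (fm z (w j + w l) + fm z p) • p + fm z p • (w j + w l)) = fm z p * fm z p := by
    simp only [fm_add_r _ _ z, fm_smul_r, fm_self]
    linear_combination fm z p * (fm z (w j) + fm z (w l)) * two (k := F)
  rw [fm_sy] at m ⊢
  exact mul_left_cancel₀ m (by rw [mul_one]; exact (t.symm.trans (cg x z p _ b a.symm this m (t ▸ mul_ne_zero m m)).symm))

theorem dd : DD.{u} := fun F G _ _ _ _ P π h hF K _ _ t3 _ cg p w k => by
  have p0 := (k.1 0).ne_l
  obtain ⟨v, hv⟩ := ex_one p0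
  have gr : ∀ a : Fin 4 → F, (∀ j : Fin 4, fm (∑ i, a i • w i.castSucc) (w j.castSucc) = 0) → a = 0 := fun a e => by
    have e0 := e 0; have e1 := e 1; have e2 := e 2; have e3 := e 3
    simp [Fin.sum_univ_four, k.2.1] at e0 e1 e2 e3
    have := two (k := F)
    ext i; fin_cases i <;> simp <;> grind
  have wp : ∀ a : Fin 4 → F, fm p (∑ i, a i • w i.castSucc) = 0 := fun a => by simp [Fin.sum_univ_four, (k.1 _).1]
  have sp : ∀ φ, fm p φ = 0 → ∃ (a : Fin 4 → F) (c : F), φ = ∑ i, a i • w i.castSucc + c • p := fun φ hφ => by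
    let L : ((Fin 4 → F) × F) × F →ₗ[F] V6 F := ((Fintype.linearCombination F fun i => w i.castSucc).coprod
      (LinearMap.toSpanSingleton F _ p)).coprod (LinearMap.toSpanSingleton F _ v)
    have Lv : ∀ a c d, L ((a, c), d) = ∑ i, a i • w i.castSucc + c • p + d • v := fun _ _ _ => rfl
    obtain ⟨⟨⟨a, c⟩, d⟩, e⟩ := (LinearMap.injective_iff_surjective_of_finrank_eq_finrank (f := L) (by simp)).1
      ((injective_iff_map_eq_zero _).2 fun ⟨⟨a, c⟩, d⟩ e => by
        rw [Lv] at e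
        obtain rfl : d = 0 := by simpa [wp, hv] using congrArg (fm p) e
        obtain rfl := gr a fun j => by simpa [(k.1 _).1] using congrArg (fm · (w j.castSucc)) e
        simpa [p0] using e) φ
    rw [Lv] at e
    obtain rfl : d = 0 := by simpa [wp, hv, hφ] using congrArg (fm p) e
    exact ⟨a, c, by simp [← e]⟩
  obtain ⟨κ, hκ⟩ : ∃ κ : F, ∑ i, w i = κ • p := by
    obtain ⟨a, c, e⟩ := sp (∑ i, w i) (by simp [Fin.sum_univ_five, (k.1 _).1])
    obtain rfl := gr a fun j => by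
      have := k.sum j.castSucc
      rw [e] at this
      simp [(k.1 _).1] at this
      rw [this]; linear_combination 3 * two (k := F)
    exact ⟨c, by simpa using e⟩
  have mt : ∀ x y, A2 P x y → ∃ i, pr p (w i) x y = 0 := fun x y b => by
    by_contra! n
    choose g hg ν h1 h2 _ using fun i => K.sw p (w i) x y (k.1 i) b (n i)
    have ν0 : ∀ i, ν i ≠ 0 := fun i e => by simpa [e] using h1 i
    have : ∀ i, pr p (w i) x y = pr p (w 0) x y := fun i => by
      have a := Cq_cj h.sp k (hg 0)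
      have b := Cq_cj h.sp k (hg i)
      rw [h2, ← div_mul_cancel₀ (ν i) (ν0 0), mul_smul, ← h2] at b
      have := Cq_one a b
      rw [div_eq_one_iff_eq (ν0 0)] at this
      exact mul_left_cancel₀ (pow_ne_zero 2 (ν0 0)) ((this ▸ h1 i).trans (h1 0).symm)
    have e : ∑ i, pr p (w i) x y = 0 := by
      simp only [pr_N, ← fl_ap, ← map_sum, hκ]
      simp [N_mv, fm_sy x p, fm_sy y p, mul_comm, aa]
    rw [Finset.sum_congr rfl fun i _ => this i] at e
    simp at e
    exact e.elim (fun e => one_ne_zero (α := F) (by linear_combination e - 2 * two (k := F))) (n 0)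
  have pv : ∀ g ∈ P, fm p (g.val *ᵥ p) = 0 ∨ fm p (g.val *ᵥ p) = 1 := fun g hg => by
    refine or_iff_not_imp_left.2 fun n => ?_
    have k' := Cq_cj h.sp k hg
    generalize g.val *ᵥ p = s at *
    obtain ⟨i, e⟩ := mt _ _ (k'.1 0)
    obtain ⟨a, b, b', a1, a2, e1, e2⟩ := meet K t3 (k.1 i) (k'.1 0) e
    obtain ⟨α, β, rfl⟩ := mem_span_pair.1 (mem_of_N (k.1 i).2.1 e1).1
    obtain ⟨α', β', rfl⟩ := mem_span_pair.1 (mem_of_N (k'.1 0).2.1 e2).1
    have f : ∀ {b b' : V6 F} {α β : F} {w : Fin 5 → V6 F}, A2 P a b → A2 P a b' → Cq P (α • a + β • b) w → β ≠ 0 → fm b b' ≠ 0 →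
        β ^ 2 * fm b b' = 1 := fun {b b' α β w} a1 a2 k β0 n => by
      have := Cq_m h.sp cg k (x := β⁻¹ • a) (z := β • b') (a1.congr (by
        rw [N_smul_r, N_add_l, N_smul_l, N_smul_l, N_self, smul_zero, zero_add, smul_smul, inv_mul_cancel₀ β0, one_smul, N_comm])
        (by simp [fm_sy b a, a1.1])) (by simpa using a2.scale (inv_ne_zero β0)) (by simp [a2.1, *])
      simpa [a2.1, sq, mul_assoc] using this
    simp only [fm_add_l, fm_add_r, fm_smul_l, fm_smul_r, fm_self, fm_sy b a, a1.1, a2.1, mul_zero, zero_add, mul_eq_zero, not_or] at n ⊢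
    have h1 := f a1 a2 k n.2.1 n.2.2
    have h2 := f a2 a1 k' n.1 (fm_sy b b' ▸ n.2.2)
    exact (add_eq (k := F)).1 (pow_eq_zero_iff two_ne_zero |>.1 (by
      rw [fm_sy b'] at h2
      linear_combination β' ^ 2 * fm b b' * h1 + h2 + (1 + β' * β * fm b b') * two (k := F)))
  have c01 : ∀ c : F, c = 0 ∨ c = 1 := fun c => by
    have : c ∈ (⊥ : Subfield F) := (kf hF ⊥ one_ne_zero {s | ∃ g ∈ P, g.val *ᵥ p = s} ((irr_of_alg h.top _ fun g hg x hx =>
      (span_le (p := comap g.val.mulVecLin _)).2 (by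
        rintro _ ⟨g', hg', rfl⟩; exact subset_span ⟨_, mul_mem hg hg', mul_mv ..⟩) hx).resolve_left fun e =>
          p0 ((mem_bot F).1 (e ▸ subset_span ⟨1, one_mem _, by simp⟩))) (by
      rintro g hg _ ⟨a, ha, rfl⟩ _ ⟨b, hb, rfl⟩
      rw [one_mul, ← mul_mv, ← fm_iso (h.sp (inv_mem (mul_mem hg ha))), inv_mv, ← mul_mv]
      rcases pv _ (mul_mem (inv_mem (mul_mem hg ha)) hb) with e | e <;> rw [e] <;> simp)).ge trivial
    rw [← Subfield.closure_empty] at this
    induction this using Subfield.closure_induction with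
    | mem _ a => exact a.elim
    | one => simp
    | add _ _ _ _ a b => rcases a with rfl | rfl <;> rcases b with rfl | rfl <;> simp [aa]
    | neg _ _ a => rwa [CharTwo.neg_eq]
    | inv _ _ a => rcases a with rfl | rfl <;> simp
    | mul _ _ _ _ a b => rcases a with rfl | rfl <;> simp [b]
  have ex : ∀ a : Fin 4 → F, ∃ c, Qm P p (∑ i, a i • w i.castSucc) c := fun a =>
    Finset.sum_induction _ (fun φ => ∃ c, Qm P p φ c) (fun _ _ ⟨_, a⟩ ⟨_, b⟩ => ⟨_, a.mul b⟩) ⟨_, Qm.zero⟩ fun i _ => by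
      rcases c01 (a i) with e | e <;> rw [e]
      exacts [⟨0, by simpa using Qm.zero⟩, ⟨0, by simpa using (k.1 _).qm⟩]
  choose c hc using ex
  choose g hg e using fun a => (hc a).2
  refine q4 h p0 ((Nat.card_eq_of_bijective (fun a => (⟨⟨g a, hg a⟩, _, _, wp a, e a⟩ : Qp P p)) ⟨fun a b t => ?_, ?_⟩).symm.trans
    (by simp))
  · have := congrArg (fun g : Qp P p => g.1.1.val *ᵥ v) t
    simp only [e, q_mv, fm_sy v p, hv, one_smul] at this
    refine sub_eq_zero.1 (gr _ fun j => ?_)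
    have := congrArg (fm · (w j.castSucc)) this
    simpa [(k.1 _).1, sub_smul, sub_eq_zero] using this
  · rintro ⟨b, φ, d, f, t⟩
    obtain ⟨a, l, rfl⟩ := sp φ f
    rw [N_shift] at t
    have := Qm.tv h.ntv p0 ((hc a).mul ⟨wp a, b, b.2, t⟩) (by simp [vv (k := F)])
    rw [fm_self, add_zero, add_eq (k := F)] at this
    exact ⟨a, Subtype.ext (Subtype.ext (Units.ext (by rw [e, t, this])))⟩

end H23.S6
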