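/-
Point stabilizers, linear or unitary socle: `p`-elements centralizing an invariant set.
-/
import Cfsg.Agent.H22.SB3
import Cfsg.Agent.H2.CoprimeAbelian

set_option autoImplicit false
set_option linter.unusedSectionVars false

namespace H23.SB
open Matrix H22.SB

universe u
variable {F : Type} [Field F] [Fintype F] {n k : ℕ} {Φ : Fm F} {G : Type u} [Group G]

/-- the centralizer of a set of matrices in `S` -/
def Cs (Φ : Fm F) (𝒳 : Set (Mat n F)) : Subgroup (Φ.S (Fin n)) where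
  carrier := {t | ∀ x ∈ 𝒳, mt t * x = x * mt t}
  one_mem' := fun x _ => by simp [mt_one]
  mul_mem' := fun {a b} ha hb x hx => by
    rw [mt_mul, Matrix.mul_assoc, hb x hx, ← Matrix.mul_assoc, ha x hx, Matrix.mul_assoc]
  inv_mem' := fun {a} ha x hx => by
    have := congrArg (fun y => mt a⁻¹ * y * mt a⁻¹) (ha x hx)
    simp only [← Matrix.mul_assoc, mt_inv_mul, Matrix.one_mul] at this
    rw [this, Matrix.mul_assoc, mt_mul_inv, Matrix.mul_one]

theorem conj_Cs {𝒳 : Set (Mat n F)} {s t : Φ.S (Fin n)} (hs : (s : GL (Fin n) F) ∈ St 𝒳)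
    (ht : t ∈ Cs Φ 𝒳) : s * t * s⁻¹ ∈ Cs Φ 𝒳 := by
  intro x hx
  have h1 := ht _ ((mem_St.1 (inv_mem hs) x).1 hx)
  rw [inv_inv] at h1
  change mt t * (mt s⁻¹ * x * mt s) = mt s⁻¹ * x * mt s * mt t at h1
  have := congrArg (fun y => mt s * y * mt s⁻¹) h1
  simp only [← Matrix.mul_assoc, mt_mul_inv, Matrix.one_mul] at this
  rw [Matrix.mul_assoc _ (mt s), mt_mul_inv, Matrix.mul_one] at this
  rw [mt_mul, mt_mul, this]; simp only [Matrix.mul_assoc]

theorem kp : KP.{u} := by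
  intro F _ _ Φ G _ _ n X hr 𝒳 hi hp t htx htp hc
  have hH : X.π t ∈ X.H := (X.MX hi hp t).2 (mem_St_of_comm htx)
  have key : ∀ x ∈ X.R, x * t = t * x := fun x hx => by
    have h1 : x * t * x⁻¹ * t⁻¹ ∈ X.R := by
      have := mul_mem hx (X.conjR hH (inv_mem hx)); simpa only [mul_assoc] using this
    have h2 : x * t * x⁻¹ * t⁻¹ ∈ Cs Φ 𝒳 :=
      mul_mem (conj_Cs ((X.MX hi hp x).1 (X.RH x hx)) htx) (inv_mem (show t ∈ Cs Φ 𝒳 from htx))
    have h3 : Commute (x * t * x⁻¹ * t⁻¹) t := hc _ h1 h2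
    have h4 := h3.mul_pow Φ.p
    rw [inv_mul_cancel_right, conj_pow, htp, mul_one, mul_one, mul_inv_cancel] at h4
    have h5 := X.RP hr h1 h4.symm
    rw [mul_inv_eq_one, mul_inv_eq_iff_eq_mul] at h5; exact h5
  exact X.RP hr (X.SC t fun y hy => by rw [← map_mul, ← map_mul, key y hy]) htp

theorem kq : KQ.{u} := by
  intro F _ _ Φ G _ _ n X hr 𝒳 hi hp U T hx hpw hcm hc hT y hy hyx
  have := Fact.mk Φ.pp
  have : IsMulCommutative U := ⟨⟨fun a b => Subtype.ext (hcm a a.2 b b.2)⟩⟩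
  have hnc : ¬ IsCyclic U := fun h => by
    have h1 : Monoid.exponent U ∣ Φ.p :=
      Monoid.exponent_dvd_of_forall_pow_eq_one fun a => Subtype.ext (hpw a a.2)
    rw [IsCyclic.exponent_eq_card] at h1
    exact absurd (Nat.le_of_dvd Φ.pp.pos h1) (not_le.2 hc)
  have hn : U ≤ Subgroup.normalizer ((X.R ⊓ Cs Φ 𝒳 : Subgroup _) : Set (Φ.S (Fin n))) := by
    intro t ht
    have key : ∀ t ∈ U, ∀ y ∈ X.R ⊓ Cs Φ 𝒳, t * y * t⁻¹ ∈ X.R ⊓ Cs Φ 𝒳 := fun t ht y hy =>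
      ⟨X.conjR ((X.MX hi hp t).2 (mem_St_of_comm (hx t ht))) hy.1,
        conj_Cs (mem_St_of_comm (hx t ht)) hy.2⟩
    refine Subgroup.mem_normalizer_iff.2 fun y => ⟨key t ht y, fun h => ?_⟩
    simpa [mul_assoc] using key t⁻¹ (inv_mem ht) _ h
  have hcop : (Nat.card U).Coprime (Nat.card (X.R ⊓ Cs Φ 𝒳 : Subgroup _)) := by
    obtain ⟨j, hj⟩ := (IsPGroup.iff_card (p := Φ.p) (G := U)).1 fun a =>
      ⟨1, by rw [pow_one]; exact Subtype.ext (hpw a a.2)⟩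
    rw [hj]
    exact ((X.R_cop hr).coprime_dvd_right (Subgroup.card_dvd_of_le inf_le_left)).pow_left _
  refine H2.le_of_centralizer_le hnc hn hcop (J := T) ?_ (⟨hy, hyx⟩ : y ∈ X.R ⊓ Cs Φ 𝒳)
  intro t ht h1 z hz
  exact hT t ht h1 z hz.1.1 hz.1.2 (Subgroup.mem_centralizer_iff.1 hz.2 t rfl).symm

theorem det_one_of_pow (Φ : Fm F) {x : Mat n F} (h : x ^ Φ.p = 1) : x.det = 1 := by
  have := Φ.ch
  have := Fact.mk Φ.pp
  apply frobenius_inj F Φ.p
  rw [frobenius_def, ← det_pow, h, det_one, map_one]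

theorem nsmul_p (Φ : Fm F) {V : Type} [AddCommGroup V] [Module F V] (v : V) : Φ.p • v = 0 := by
  have := Φ.ch
  rw [← Nat.cast_smul_eq_nsmul F, CharP.cast_eq_zero, zero_smul]

theorem pow_of_sq {N : Mat n F} (h : N * N = 0) (m : ℕ) : (1 + N) ^ m = 1 + m • N := by
  induction m with
  | zero => simp
  | succ m ih =>
    rw [pow_succ, ih, add_mul, mul_add, mul_add, smul_mul_assoc, smul_mul_assoc, h, succ_nsmul]
    simp only [Matrix.one_mul, Matrix.mul_one, smul_zero]; abel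

variable [Finite G]

/-- no square zero matrix commutes with `𝒳` and its centralizer in `R` -/
theorem kn (X : Cx Φ G n) (hr : X.r ≠ Φ.p) {𝒳 : Set (Mat n F)} (hi : X.Inv 𝒳) (hp : Pr Φ 𝒳)
    {N : Mat n F} (h0 : N ≠ 0) (h2 : N * N = 0) (hu : Φ.u → Φ.adj N = -N)
    (hx : ∀ x ∈ 𝒳, N * x = x * N)
    (hy : ∀ y ∈ X.R, (∀ x ∈ 𝒳, mt y * x = x * mt y) → mt y * N = N * mt y) : False := by
  have hpw : (1 + N) ^ Φ.p = 1 := by rw [pow_of_sq h2, nsmul_p, add_zero]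
  let t : Φ.S (Fin n) := Φ.mkS (1 + N) (det_one_of_pow Φ hpw) fun h => by
    rw [Φ.adj_add, Φ.adj_one, hu h, add_mul, mul_add, mul_add, neg_mul, neg_mul, h2]; simp
  have ht : mt t = 1 + N := rfl
  have := kp F Φ G n X hr 𝒳 hi hp t (fun x h => by rw [ht, add_mul, mul_add, hx x h]; simp)
    (mt_inj (by rw [mt_pow, ht, hpw, mt_one])) fun y h h' =>
      mt_comm.2 (by rw [ht, add_mul, mul_add, hy y h h']; simp)
  rw [this, mt_one] at ht
  exact h0 (by simpa using ht)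

/-- generation by centralizers of a noncyclic family of unipotent matrices -/
theorem kw (X : Cx Φ G n) (hr : X.r ≠ Φ.p) {𝒳 : Set (Mat n F)} (hi : X.Inv 𝒳) (hp : Pr Φ 𝒳)
    {A : Type} [AddCommGroup A] (φ : A → Mat n F) (h0 : φ 0 = 1)
    (hm : ∀ a b, φ (a + b) = φ a * φ b) (hinj : ∀ a, φ a = 1 → a = 0) (hpA : ∀ a : A, Φ.p • a = 0)
    (hc : Φ.p < Nat.card A) (hu : Φ.u → ∀ a, Φ.adj (φ a) = φ (-a))
    (hx : ∀ a, ∀ x ∈ 𝒳, φ a * x = x * φ a) (P : Mat n F → Prop) (P1 : P 1)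
    (Pm : ∀ x y, P x → P y → P (x * y))
    (hP : ∀ a, a ≠ 0 → ∀ y, (∀ x ∈ 𝒳, y * x = x * y) → y * φ a = φ a * y → P y) :
    ∀ y ∈ X.R, (∀ x ∈ 𝒳, mt y * x = x * mt y) → P (mt y) := by
  have hpw : ∀ a (m : ℕ), φ a ^ m = φ (m • a) := fun a m => by
    induction m with
    | zero => simp [h0]
    | succ m ih => rw [pow_succ, ih, succ_nsmul, hm]
  let s : A → Φ.S (Fin n) := fun a => Φ.mkS (φ a) (det_one_of_pow Φ (by rw [hpw, hpA, h0]))
    fun h => by rw [hu h, ← hm, neg_add_cancel, h0]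
  have hs : ∀ a, mt (s a) = φ a := fun _ => rfl
  let ψ : Multiplicative A →* Φ.S (Fin n) :=
    { toFun := fun a => s a.toAdd
      map_one' := mt_inj h0
      map_mul' := fun a b => mt_inj (hm _ _) }
  have hψ : Function.Injective ψ := (injective_iff_map_eq_one ψ).2 fun a h =>
    toAdd_eq_zero.1 (hinj _ (congrArg H22.SB.mt h))
  have Pw : ∀ x (m : ℕ), P x → P (x ^ m) := fun x m h => by
    induction m with
    | zero => simpa using P1
    | succ m ih => rw [pow_succ]; exact Pm _ _ ih h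
  let T : Subgroup (Φ.S (Fin n)) :=
    { carrier := {y | P (mt y)}
      one_mem' := P1
      mul_mem' := fun {a b} ha hb => Pm _ _ ha hb
      inv_mem' := fun {a} ha => by
        obtain ⟨m, hm⟩ := mem_powers_iff_mem_zpowers.2 (inv_mem (Subgroup.mem_zpowers a))
        change P (mt a⁻¹)
        rw [← hm]; change P (mt (a ^ m)); rw [mt_pow]; exact Pw _ _ ha }
  refine kq F Φ G n X hr 𝒳 hi hp ψ.range T ?_ ?_ ?_ ?_ ?_
  · rintro _ ⟨a, rfl⟩; exact hx _
  · rintro _ ⟨a, rfl⟩; exact mt_inj (by rw [mt_pow]; exact (hpw _ _).trans (by rw [hpA, h0]; rfl))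
  · rintro _ ⟨a, rfl⟩ _ ⟨b, rfl⟩; rw [← map_mul, mul_comm, map_mul]
  · rw [← Nat.card_congr (MonoidHom.ofInjective hψ).toEquiv]; exact hc
  · rintro _ ⟨a, rfl⟩ h1 y - hy hc
    exact hP a.toAdd (fun e => h1 (by rw [toAdd_eq_zero.1 e, map_one])) _ hy (mt_comm.1 hc)

end H23.SB
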