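/-
Point stabilizers, linear or unitary socle: dyads and families of unipotent elements.
-/
import Cfsg.Agent.H23.SB1
import Cfsg.Agent.H11.QuadExt

set_option autoImplicit false
set_option linter.unusedSectionVars false

namespace H23.SB
open Matrix H22.SB

universe u
variable {F : Type} [Field F] [Fintype F] {n k : ℕ} {Φ : Fm F} {G : Type u} [Group G]
  {w v w' v' l₁ l₂ x₁ x₂ : Fin n → F} {y : Mat n F}

/-- the dyad `w v*` -/
def Dy (Φ : Fm F) (w v : Fin n → F) : Mat n F := vecMulVec w (Φ.c ∘ v)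

theorem Dy_mulVec (x : Fin n → F) : Dy Φ w v *ᵥ x = Φ.B x v • w := Φ.vmv_mulVec _ _ _
theorem mul_Dy (y : Mat n F) : y * Dy Φ w v = Dy Φ (y *ᵥ w) v := mul_vecMulVec _ _ _
theorem adj_Dy : Φ.adj (Dy Φ w v) = Dy Φ v w := by
  ext; simp [Dy, Fm.adj_apply, vecMulVec_apply, Φ.c_c, mul_comm]
theorem Dy_mul (y : Mat n F) : Dy Φ w v * y = Dy Φ w (Φ.adj y *ᵥ v) := by
  rw [← Φ.adj_adj (Dy Φ w v * y), Φ.adj_mul, adj_Dy, mul_Dy, adj_Dy]
theorem Dy_smul_left (a : F) : Dy Φ (a • w) v = a • Dy Φ w v := by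
  ext; simp [Dy, vecMulVec_apply, mul_assoc]
theorem Dy_smul_right (a : F) : Dy Φ w (a • v) = Φ.c a • Dy Φ w v := by
  ext; simp [Dy, vecMulVec_apply, mul_left_comm]
theorem Dy_add_left : Dy Φ (w + w') v = Dy Φ w v + Dy Φ w' v := by
  ext; simp [Dy, vecMulVec_apply, add_mul]
theorem Dy_add_right : Dy Φ w (v + v') = Dy Φ w v + Dy Φ w v' := by
  ext; simp [Dy, vecMulVec_apply, mul_add]
theorem Dy_zero_left : Dy Φ 0 v = 0 := by ext; simp [Dy]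
theorem Dy_zero_right : Dy Φ w 0 = 0 := by ext; simp [Dy, vecMulVec_apply]
theorem Dy_Dy : Dy Φ w v * Dy Φ w' v' = Φ.B w' v • Dy Φ w v' := by
  rw [mul_Dy, Dy_mulVec, Dy_smul_left]
theorem exists_B (Φ : Fm F) (hv : v ≠ 0) : ∃ x, Φ.B x v = 1 := by
  by_contra! h
  refine hv (Φ.B_nd fun x => ?_)
  by_contra h0
  have h1 : Φ.B x v ≠ 0 := by rw [← Φ.B_symm]; simpa using h0
  exact h ((Φ.B x v)⁻¹ • x) (by rw [Φ.B_smul_left, inv_mul_cancel₀ h1])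
theorem Dy_ne (hw : w ≠ 0) (hv : v ≠ 0) : Dy Φ w v ≠ 0 := fun h => by
  obtain ⟨x, hx⟩ := exists_B Φ hv
  have := Dy_mulVec (Φ := Φ) (w := w) (v := v) x
  rw [h, hx, one_smul, zero_mulVec] at this; exact hw this.symm
theorem eig_left (hv : v ≠ 0) (h : y * Dy Φ w v = Dy Φ w v * y) : ∃ a : F, y *ᵥ w = a • w := by
  obtain ⟨x, hx⟩ := exists_B Φ hv
  have := congrArg (· *ᵥ x) h
  simp only [mul_Dy, Dy_mul, Dy_mulVec, hx, one_smul] at this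
  exact ⟨_, this⟩
theorem eig_right (hw : w ≠ 0) (h : y * Dy Φ w v = Dy Φ w v * y) :
    ∃ a : F, Φ.adj y *ᵥ v = a • v := by
  refine eig_left (Φ := Φ) hw ?_
  rw [← adj_Dy, ← Φ.adj_mul, ← h, Φ.adj_mul]
theorem comm_one_add {N : Mat n F} : y * (1 + N) = (1 + N) * y ↔ y * N = N * y := by
  rw [mul_add, add_mul, Matrix.mul_one, Matrix.one_mul, add_right_inj]
theorem comm_smul {N : Mat n F} {a : F} (ha : a ≠ 0) : y * (a • N) = (a • N) * y ↔ y * N = N * y := by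
  rw [mul_smul_comm, smul_mul_assoc, smul_right_inj ha]
theorem q_le_card (Φ : Fm F) : Φ.q ≤ Fintype.card F := by
  by_cases h : Φ.u
  · rw [Φ.cU h]; exact Nat.le_self_pow two_ne_zero _
  · rw [Φ.cL h]
theorem p_lt_sq (Φ : Fm F) : Φ.p < Nat.card (F × F) := by
  have h1 := q_le_card Φ; have h2 := Φ.q2; have h3 := Φ.p_le_q
  rw [Nat.card_prod, Nat.card_eq_fintype_card]; nlinarith

/-- the trace zero elements -/
def A0 (Φ : Fm F) : AddSubgroup F where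
  carrier := {a | Φ.c a = -a}
  zero_mem' := by simp
  add_mem' := fun {a b} ha hb => by
    change Φ.c _ = _; rw [map_add, show Φ.c a = -a from ha, show Φ.c b = -b from hb, neg_add]
  neg_mem' := fun {a} ha => by change Φ.c _ = _; rw [map_neg, show Φ.c a = -a from ha]
theorem card_A0 (hu : Φ.u) : Nat.card (A0 Φ) = Φ.q := by
  rw [← H11.card_ker_hermT (Φ.cU hu)]
  refine Nat.card_congr (Equiv.subtypeEquivRight fun a => ?_)
  rw [AddMonoidHom.mem_ker, H11.hermT_tau, ← Φ.cq, add_comm, add_eq_zero_iff_eq_neg]; rfl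
theorem ex_delta (hu : Φ.u) : ∃ a : F, a ≠ 0 ∧ Φ.c a = -a := by
  obtain ⟨a, h0, h⟩ := H11.exists_trace_zero (Φ.cU hu)
  exact ⟨a, h0, by rw [Φ.cq]; linear_combination h⟩
theorem ex_iso (hu : Φ.u) : ∃ t : F, t * Φ.c t = -1 := by
  obtain ⟨a, h⟩ := H11.exists_norm_eq (Φ.cU hu) (c := -1) (by rw [← Φ.cq, map_neg, map_one])
  exact ⟨a, by rw [Φ.cq, h]⟩

variable [Finite G] (X : Cx Φ G n) (hr : X.r ≠ Φ.p) {𝒳 : Set (Mat n F)} (hi : X.Inv 𝒳)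
  (hp : Pr Φ 𝒳)
include hr hi hp

/-- a long root subgroup of order greater than `p` -/
theorem ks (A : AddSubgroup F) (hA : Φ.p < Nat.card A) {N : Mat n F} (h0 : N ≠ 0) (h2 : N * N = 0)
    (hu : Φ.u → ∀ a ∈ A, Φ.adj (a • N) = -(a • N)) (hx : ∀ x ∈ 𝒳, N * x = x * N) : False := by
  have key := kw X hr hi hp (fun a : A => 1 + (a : F) • N) (by simp)
    (fun a b => by simp [add_mul, mul_add, h2, add_smul]; abel)
    (fun a h => by simpa [h0] using h) (fun a => Subtype.ext (by simpa using nsmul_p Φ (a : F))) hA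
    (fun h a => by rw [Φ.adj_add, Φ.adj_one, hu h a a.2]; simp)
    (fun a x h => (comm_one_add.2 (by rw [mul_smul_comm, smul_mul_assoc, hx x h])).symm)
    (fun y => y * N = N * y) (by simp)
    (fun x y h h' => by rw [Matrix.mul_assoc, h', ← Matrix.mul_assoc, h, Matrix.mul_assoc])
    fun a ha y _ h => (comm_smul fun e => ha (Subtype.ext e)).1 (comm_one_add.1 h)
  have : Nontrivial A := Finite.one_lt_card_iff_nontrivial.1 (Φ.pp.one_lt.trans hA)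
  obtain ⟨a, ha⟩ := exists_ne (0 : A)
  have ha' : (a : F) ≠ 0 := fun e => ha (Subtype.ext e)
  exact kn X hr hi hp (smul_ne_zero ha' h0) (by simp [h2]) (fun h => hu h a a.2)
    (fun x h => by rw [mul_smul_comm, smul_mul_assoc, hx x h])
    fun y h h' => (comm_smul ha').2 (key y h h')

theorem kline (hu : ¬ Φ.u) (hw : w ≠ 0) (h1 : Φ.B w l₁ = 0) (h2 : Φ.B w l₂ = 0)
    (hind : ∀ s t : F, s • l₁ + t • l₂ = 0 → s = 0 ∧ t = 0)
    (c1 : ∀ x ∈ 𝒳, Dy Φ w l₁ * x = x * Dy Φ w l₁) (c2 : ∀ x ∈ 𝒳, Dy Φ w l₂ * x = x * Dy Φ w l₂) :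
    ∀ y ∈ X.R, (∀ x ∈ 𝒳, mt y * x = x * mt y) → ∃ a : F, mt y *ᵥ w = a • w := by
  have hne : ∀ a : F × F, a ≠ 0 → a.1 • l₁ + a.2 • l₂ ≠ 0 := fun a h e =>
    h (Prod.ext (hind _ _ e).1 (hind _ _ e).2)
  refine kw X hr hi hp (fun a : F × F => 1 + Dy Φ w (a.1 • l₁ + a.2 • l₂)) (by simp [Dy_zero_right])
    (fun a b => ?_) (fun a h => ?_) (nsmul_p Φ) (p_lt_sq Φ) (fun h => absurd h hu)
    (fun a x h => (comm_one_add.2 ?_).symm) (fun y => ∃ a : F, y *ᵥ w = a • w) ⟨1, by simp⟩ ?_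
    fun a ha y _ h => eig_left (hne a ha) (comm_one_add.1 h)
  · rw [add_mul, mul_add, mul_add, Dy_Dy, Φ.B_add_right, Φ.B_smul_right, Φ.B_smul_right, h1, h2]
    simp only [Prod.fst_add, Prod.snd_add, add_smul, Dy_add_right, Matrix.one_mul, Matrix.mul_one,
      mul_zero, zero_smul]
    abel
  · by_contra h0; exact Dy_ne hw (hne a h0) (by simpa using h)
  · simp only [Dy_add_right, Dy_smul_right, mul_add, add_mul, mul_smul_comm, smul_mul_assoc,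
      c1 x h, c2 x h]
  · rintro x y ⟨a, ha⟩ ⟨b, hb⟩
    exact ⟨b * a, by rw [← mulVec_mulVec, hb, mulVec_smul, ha, smul_smul]⟩

theorem krow (hu : ¬ Φ.u) (hw : w ≠ 0) (h1 : Φ.B l₁ w = 0) (h2 : Φ.B l₂ w = 0)
    (hind : ∀ s t : F, s • l₁ + t • l₂ = 0 → s = 0 ∧ t = 0)
    (c1 : ∀ x ∈ 𝒳, Dy Φ l₁ w * x = x * Dy Φ l₁ w) (c2 : ∀ x ∈ 𝒳, Dy Φ l₂ w * x = x * Dy Φ l₂ w) :
    ∀ y ∈ X.R, (∀ x ∈ 𝒳, mt y * x = x * mt y) → ∃ a : F, Φ.adj (mt y) *ᵥ w = a • w := by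
  have hne : ∀ a : F × F, a ≠ 0 → a.1 • l₁ + a.2 • l₂ ≠ 0 := fun a h e =>
    h (Prod.ext (hind _ _ e).1 (hind _ _ e).2)
  refine kw X hr hi hp (fun a : F × F => 1 + Dy Φ (a.1 • l₁ + a.2 • l₂) w) (by simp [Dy_zero_left])
    (fun a b => ?_) (fun a h => ?_) (nsmul_p Φ) (p_lt_sq Φ) (fun h => absurd h hu)
    (fun a x h => (comm_one_add.2 ?_).symm) (fun y => ∃ a : F, Φ.adj y *ᵥ w = a • w)
    ⟨1, by simp [Φ.adj_one]⟩ ?_ fun a ha y _ h => eig_right (hne a ha) (comm_one_add.1 h)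
  · rw [add_mul, mul_add, mul_add, Dy_Dy, Φ.B_add_left, Φ.B_smul_left, Φ.B_smul_left, h1, h2]
    simp only [Prod.fst_add, Prod.snd_add, add_smul, Dy_add_left, Matrix.one_mul, Matrix.mul_one,
      mul_zero, zero_smul]
    abel
  · by_contra h0; exact Dy_ne (hne a h0) hw (by simpa using h)
  · simp only [Dy_add_left, Dy_smul_left, mul_add, add_mul, mul_smul_comm, smul_mul_assoc,
      c1 x h, c2 x h]
  · rintro x y ⟨a, ha⟩ ⟨b, hb⟩
    exact ⟨a * b, by rw [Φ.adj_mul, ← mulVec_mulVec, ha, mulVec_smul, hb, smul_smul]⟩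

omit hr hi hp in
/-- the skew dyad -/
def Nf (Φ : Fm F) (w v : Fin n → F) (a : F) : Mat n F := a • Dy Φ w v - Φ.c a • Dy Φ v w

omit hr hi hp in
theorem Nf_mulVec (a : F) (x : Fin n → F) :
    Nf Φ w v a *ᵥ x = (a * Φ.B x v) • w - (Φ.c a * Φ.B x w) • v := by
  simp only [Nf, sub_mulVec, smul_mulVec, Dy_mulVec, smul_smul]
omit hr hi hp in
theorem adj_Nf (a : F) : Φ.adj (Nf Φ w v a) = -Nf Φ w v a := by
  simp [Nf, Φ.adj_sub, Φ.adj_smul, adj_Dy, Φ.c_c]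
omit hr hi hp in
theorem Nf_Nf (hww : Φ.B w w = 0) (hvv : Φ.B v v = 0) (hwv : Φ.B w v = 0) (a b : F) :
    Nf Φ w v a * Nf Φ w v b = 0 := by
  have : Φ.B v w = 0 := by rw [← Φ.B_symm, hwv, map_zero]
  simp [Nf, sub_mul, mul_sub, Dy_Dy, *]
omit hr hi hp in
theorem Nf_ne (hw : w ≠ 0) (b1 : Φ.B x₂ w = 0) (b2 : Φ.B x₂ v = 1) {a : F} (ha : a ≠ 0) :
    Nf Φ w v a ≠ 0 := fun h => by
  have := Nf_mulVec (Φ := Φ) (w := w) (v := v) a x₂
  rw [h, b1, b2] at this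
  exact hw (by simpa [ha] using this.symm)

theorem kpl (hu : Φ.u) (hw : w ≠ 0) (hww : Φ.B w w = 0) (hvv : Φ.B v v = 0) (hwv : Φ.B w v = 0)
    (b1 : Φ.B x₂ w = 0) (b2 : Φ.B x₂ v = 1) (c1 : ∀ x ∈ 𝒳, Dy Φ w v * x = x * Dy Φ w v)
    (c2 : ∀ x ∈ 𝒳, Dy Φ v w * x = x * Dy Φ v w) (P : Mat n F → Prop) (P1 : P 1)
    (Pm : ∀ x y, P x → P y → P (x * y)) (hP : ∀ a, a ≠ 0 → ∀ y, (∀ x ∈ 𝒳, y * x = x * y) →
      y * Nf Φ w v a = Nf Φ w v a * y → P y) :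
    ∀ y ∈ X.R, (∀ x ∈ 𝒳, mt y * x = x * mt y) → P (mt y) := by
  refine kw X hr hi hp (fun a : F => 1 + Nf Φ w v a) (by simp [Nf]) (fun a b => ?_)
    (fun a h => ?_) (nsmul_p Φ) ?_ (fun _ a => ?_) (fun a x h => (comm_one_add.2 ?_).symm) P P1 Pm
    fun a ha y hy h => hP a ha y hy (comm_one_add.1 h)
  · rw [add_mul, mul_add, mul_add, Nf_Nf hww hvv hwv]
    simp only [Nf, map_add, add_smul, Matrix.one_mul, Matrix.mul_one]; abel
  · by_contra h0; exact Nf_ne hw b1 b2 h0 (by simpa using h)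
  · have h2 := Φ.q2; have h3 := Φ.p_le_q
    rw [Nat.card_eq_fintype_card, Φ.cU hu]; nlinarith
  · rw [Φ.adj_add, Φ.adj_one, adj_Nf]; simp [Nf]; abel
  · simp only [Nf, mul_sub, sub_mul, mul_smul_comm, smul_mul_assoc, c1 x h, c2 x h]

theorem kplane (hu : Φ.u) (hw : w ≠ 0) (hww : Φ.B w w = 0) (hvv : Φ.B v v = 0) (hwv : Φ.B w v = 0)
    (a1 : Φ.B x₁ w = 1) (a2 : Φ.B x₁ v = 0) (b1 : Φ.B x₂ w = 0) (b2 : Φ.B x₂ v = 1)
    (c1 : ∀ x ∈ 𝒳, Dy Φ w v * x = x * Dy Φ w v) (c2 : ∀ x ∈ 𝒳, Dy Φ v w * x = x * Dy Φ v w) :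
    ∀ y ∈ X.R, (∀ x ∈ 𝒳, mt y * x = x * mt y) → ∃ a b : F, mt y *ᵥ w = a • w + b • v := by
  intro y hy hy'
  refine kpl X hr hi hp hu hw hww hvv hwv b1 b2 c1 c2
    (fun y => ∀ z, (∃ a b : F, z = a • w + b • v) → ∃ a b : F, y *ᵥ z = a • w + b • v)
    (by simp) (fun x y h h' z hz => by rw [← mulVec_mulVec]; exact h _ (h' z hz)) ?_ y hy hy' w
    ⟨1, 0, by simp⟩
  rintro c hc y - h _ ⟨a, b, rfl⟩
  have hc' : Φ.c c ≠ 0 := by simpa using hc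
  have : a • w + b • v = Nf Φ w v c *ᵥ ((a / c) • x₂ - (b / Φ.c c) • x₁) := by
    rw [Nf_mulVec, Φ.B_sub_left, Φ.B_sub_left]
    simp only [Φ.B_smul_left, a1, a2, b1, b2]
    rw [sub_eq_add_neg, ← neg_smul]; congr 2 <;> field_simp <;> ring
  rw [this, mulVec_mulVec, h, ← mulVec_mulVec, Nf_mulVec, sub_eq_add_neg, ← neg_smul]
  exact ⟨_, _, rfl⟩

end H23.SB
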