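/-
Point stabilizers, linear or unitary socle: sizes of invariant blocks.
-/
import Cfsg.Agent.H23.SB2

set_option autoImplicit false
set_option linter.unusedSectionVars false

namespace H23.SB
open Matrix H22.SB

universe u
variable {F : Type} [Field F] [Fintype F] {n k : ℕ} {Φ : Fm F} {G : Type u} [Group G]
  {β : Fin n → Fin k} {i : Fin k} {w v : Fin n → F}

/-- vectors supported in the block `i` -/
def In (F : Type) [Field F] (β : Fin n → Fin k) (i : Fin k) : Submodule F (Fin n → F) where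
  carrier := {w | ∀ j, β j ≠ i → w j = 0}
  add_mem' := fun {a b} ha hb j h => by simp [ha j h, hb j h]
  zero_mem' := fun _ _ => rfl
  smul_mem' := fun c a ha j h => by simp [ha j h]

theorem eb_mulVec (hw : w ∈ In F β i) (j : Fin k) : eb F β j *ᵥ w = if j = i then w else 0 := by
  ext l
  rw [eb, mulVec_diagonal]
  by_cases h : β l = i
  · by_cases h' : j = i
    · simp [h, h']
    · simp [h, h', Ne.symm h']
  · by_cases h' : j = i <;> simp [hw l h, h']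
theorem adj_eb (j : Fin k) : Φ.adj (eb F β j) = eb F β j := by
  ext a b
  by_cases h : a = b
  · subst h; simp [Fm.adj_apply, eb]
  · simp [Fm.adj_apply, eb, h, Ne.symm h]
theorem Dy_eb (hw : w ∈ In F β i) (hv : v ∈ In F β i) :
    ∀ x ∈ Set.range (eb F β), Dy Φ w v * x = x * Dy Φ w v := by
  rintro _ ⟨j, rfl⟩
  rw [Dy_mul, mul_Dy, adj_eb, eb_mulVec hw, eb_mulVec hv]
  split_ifs
  · rfl
  · rw [Dy_zero_left, Dy_zero_right]

theorem exists_on (Φ : Fm F) {m : ℕ} (h : m ≤ fib β i) : ∃ e : Fin m → Fin n → F,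
    (∀ a, e a ∈ In F β i) ∧ ∀ a b, Φ.B (e a) (e b) = if a = b then 1 else 0 := by
  obtain ⟨f⟩ := Function.Embedding.nonempty_of_card_le (α := Fin m) (β := Fb β i) (by simpa using h)
  refine ⟨fun a => Pi.single (f a).1 1, fun a j hj => Pi.single_eq_of_ne ?_ _, fun a b => ?_⟩
  · rintro rfl; exact hj (f a).2
  · rw [Φ.B_single_left]
    simp [Pi.single_apply, Subtype.ext_iff.symm]

theorem ne_of_B {x : Fin n → F} (h : Φ.B w x ≠ 0) : w ≠ 0 := by
  rintro rfl; exact h (Φ.B_zero_left _)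

theorem p_lt_q (h : Φ.f ≠ 1) : Φ.p < Φ.q := by
  rw [Φ.hq]
  have := Φ.f1
  calc Φ.p = Φ.p ^ 1 := (pow_one _).symm
    _ < _ := Nat.pow_lt_pow_right Φ.pp.one_lt (by omega)

theorem kl (ps : PS) : KL.{u} := by
  intro F _ _ Φ G _ _ n X hr hu k β hb i
  have hp := ps F Φ n k β (fun h => absurd h hu) hb.sj hb.two
  have h1 : 1 ≤ fib β i := by
    obtain ⟨j, hj⟩ := hb.sj i; exact Fintype.card_pos_iff.2 ⟨⟨j, hj⟩⟩
  by_contra! H
  by_cases h3 : 3 ≤ fib β i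
  · obtain ⟨e, he, hB⟩ := exists_on Φ h3
    have n0 : ∀ a, e a ≠ 0 := fun a => ne_of_B (x := e a) (Φ := Φ) (by simp [hB])
    have ind : ∀ a b, a ≠ b → ∀ s t : F, s • e a + t • e b = 0 → s = 0 ∧ t = 0 := fun a b h s t H => by
      have h1 := congrArg (Φ.B · (e a)) H
      have h2 := congrArg (Φ.B · (e b)) H
      simp only [Φ.B_add_left, Φ.B_smul_left, hB, Φ.B_zero_left] at h1 h2
      exact ⟨by simpa [h.symm] using h1, by simpa [h] using h2⟩
    refine kn X hr hb.inv hp (Dy_ne (Φ := Φ) (n0 0) (n0 1)) (by simp [Dy_Dy, hB])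
      (fun h => absurd h hu) (Dy_eb (he 0) (he 1)) fun y hy hy' => ?_
    obtain ⟨a, ha⟩ := kline X hr hb.inv hp hu (n0 0) (by simp [hB]) (by simp [hB])
      (ind 1 2 (by decide)) (Dy_eb (he 0) (he 1)) (Dy_eb (he 0) (he 2)) y hy hy'
    obtain ⟨b, hb'⟩ := kline X hr hb.inv hp hu (n0 1) (by simp [hB]) (by simp [hB])
      (ind 0 2 (by decide)) (Dy_eb (he 1) (he 0)) (Dy_eb (he 1) (he 2)) y hy hy'
    obtain ⟨c, hc⟩ := kline X hr hb.inv hp hu (w := e 0 + e 1) (l₁ := e 0 - e 1) (l₂ := e 2)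
      (ne_of_B (x := e 0) (Φ := Φ) (by simp [Φ.B_add_left, hB]))
      (by simp [Φ.B_add_left, Φ.B_sub_right, hB]) (by simp [Φ.B_add_left, hB])
      (fun s t H => by
        have h1 := congrArg (Φ.B · (e 0)) H
        have h2 := congrArg (Φ.B · (e 2)) H
        simp [Φ.B_add_left, Φ.B_sub_left, Φ.B_smul_left, hB, Φ.B_zero_left] at h1 h2
        exact ⟨h1, h2⟩)
      (Dy_eb (add_mem (he 0) (he 1)) (sub_mem (he 0) (he 1)))
      (Dy_eb (add_mem (he 0) (he 1)) (he 2)) y hy hy'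
    obtain ⟨d, hd⟩ := krow X hr hb.inv hp hu (n0 1) (by simp [hB]) (by simp [hB])
      (ind 0 2 (by decide)) (Dy_eb (he 0) (he 1)) (Dy_eb (he 2) (he 1)) y hy hy'
    rw [mulVec_add, ha, hb'] at hc
    have h1 := congrArg (Φ.B · (e 0)) hc
    have h2 := congrArg (Φ.B · (e 1)) hc
    have h4 := Φ.B_mulVec (mt y) (e 1) (e 1)
    simp [Φ.B_add_left, Φ.B_smul_left, hB] at h1 h2
    rw [hb', hd, Φ.B_smul_left, Φ.B_smul_right] at h4
    simp [hB] at h4
    rw [mul_Dy, Dy_mul, ha, hd, Dy_smul_left, Dy_smul_right, ← h4, h1, h2]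
  · have h2 : fib β i = 2 := by have := H.1; omega
    obtain ⟨e, he, hB⟩ := exists_on Φ h2.ge
    have n0 : ∀ a, e a ≠ 0 := fun a => ne_of_B (x := e a) (Φ := Φ) (by simp [hB])
    refine ks X hr hb.inv hp ⊤ ?_ (Dy_ne (Φ := Φ) (n0 0) (n0 1)) (by simp [Dy_Dy, hB])
      (fun h => absurd h hu) (Dy_eb (he 0) (he 1))
    rw [AddSubgroup.card_top, Nat.card_eq_fintype_card, Φ.cL hu]; exact p_lt_q (H.2 h2)

theorem ku1 (ps : PS) : KU1.{u} := by
  intro F _ _ Φ G _ _ n X hr hu k β hb i h2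
  have hp := ps F Φ n k β (fun h => X.u3 h) hb.sj hb.two
  obtain ⟨e, he, hB⟩ := exists_on Φ h2
  obtain ⟨t, ht⟩ := ex_iso hu
  have hw : e 0 + t • e 1 ∈ In F β i := add_mem (he 0) (Submodule.smul_mem _ _ (he 1))
  have n0 : e 0 + t • e 1 ≠ 0 :=
    ne_of_B (x := e 0) (Φ := Φ) (by simp [Φ.B_add_left, Φ.B_smul_left, hB])
  have hww : Φ.B (e 0 + t • e 1) (e 0 + t • e 1) = 0 := by
    simp [Φ.B_add_left, Φ.B_add_right, Φ.B_smul_left, Φ.B_smul_right, hB]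
    linear_combination ht
  by_contra H
  refine ks X hr hb.inv hp (A0 Φ) (by rw [card_A0 hu]; exact p_lt_q H) (Dy_ne (Φ := Φ) n0 n0)
    (by rw [Dy_Dy, hww, zero_smul]) (fun _ a ha => ?_) (Dy_eb hw hw)
  rw [Φ.adj_smul, adj_Dy, show Φ.c a = -a from ha, neg_smul]

/-- the fixed elements -/
def L0 (Φ : Fm F) : AddSubgroup F where
  carrier := {a | Φ.c a = a}
  zero_mem' := by simp
  add_mem' := fun {a b} ha hb => by
    change Φ.c _ = _; rw [map_add, show Φ.c a = a from ha, show Φ.c b = b from hb]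
  neg_mem' := fun {a} ha => by change Φ.c _ = _; rw [map_neg, show Φ.c a = a from ha]

theorem ku3 (ps : PS) : KU3.{u} := by
  intro F _ _ Φ G _ _ n X hr hu k β hb i h3
  have hp := ps F Φ n k β (fun h => X.u3 h) hb.sj hb.two
  obtain ⟨e, he, hB⟩ := exists_on Φ h3
  obtain ⟨t, ht⟩ := ex_iso hu
  obtain ⟨w, hw, n0, hww, hwv⟩ : ∃ w ∈ In F β i, w ≠ 0 ∧ Φ.B w w = 0 ∧ Φ.B w (e 2) = 0 := by
    refine ⟨e 0 + t • e 1, add_mem (he 0) (Submodule.smul_mem _ _ (he 1)),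
      ne_of_B (x := e 0) (Φ := Φ) (by simp [Φ.B_add_left, Φ.B_smul_left, hB]), ?_,
      by simp [Φ.B_add_left, Φ.B_smul_left, hB]⟩
    simp [Φ.B_add_left, Φ.B_add_right, Φ.B_smul_left, Φ.B_smul_right, hB]
    linear_combination ht
  have hvw : Φ.B (e 2) w = 0 := by rw [← Φ.B_symm, hwv, map_zero]
  have hvv : Φ.B (e 2) (e 2) = 1 := by simp [hB]
  by_contra H
  have h2 : (2 : F) ≠ 0 := fun h => by
    have := Φ.ch
    exact H ((Nat.prime_dvd_prime_iff_eq Φ.pp Nat.prime_two).1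
      ((CharP.cast_eq_zero_iff F Φ.p 2).1 (by exact_mod_cast h)))
  obtain ⟨N, hN⟩ : ∃ N, N = Dy Φ (e 2) w - Dy Φ w (e 2) := ⟨_, rfl⟩
  obtain ⟨Z, hZ⟩ : ∃ Z, Z = Dy Φ w w := ⟨_, rfl⟩
  have NN : N * N = -Z := by simp [hN, hZ, sub_mul, mul_sub, Dy_Dy, hww, hwv, hvw, hvv]
  have NZ : N * Z = 0 := by simp [hN, hZ, sub_mul, Dy_Dy, hww, hwv]
  have ZN : Z * N = 0 := by simp [hN, hZ, mul_sub, Dy_Dy, hww, hvw]
  have ZZ : Z * Z = 0 := by simp [hZ, Dy_Dy, hww]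
  have aN : Φ.adj N = -N := by simp [hN, Φ.adj_sub, adj_Dy]
  have aZ : Φ.adj Z = Z := by simp [hZ, adj_Dy]
  have Z0 : Z ≠ 0 := hZ ▸ Dy_ne n0 n0
  have xN : ∀ x ∈ Set.range (eb F β), N * x = x * N := fun x h => by
    rw [hN, sub_mul, mul_sub, Dy_eb (he 2) hw x h, Dy_eb hw (he 2) x h]
  have xZ : ∀ x ∈ Set.range (eb F β), Z * x = x * Z := hZ ▸ Dy_eb hw hw
  have sq : ∀ s r : F, (s • N + r • Z) * (s • N + r • Z) = (-s ^ 2) • Z := fun s r => by
    simp [add_mul, mul_add, NN, NZ, ZN, ZZ, smul_smul, sq]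
  have key := kw X hr hb.inv hp
    (fun a : L0 Φ × A0 Φ => 1 + ((a.1 : F) • N + ((a.2 : F) - (a.1 : F) ^ 2 / 2) • Z)) (by simp)
    (fun a b => ?_) (fun a h => ?_) (fun a => Prod.ext (Subtype.ext (by simpa using nsmul_p Φ (a.1 : F)))
      (Subtype.ext (by simpa using nsmul_p Φ (a.2 : F)))) ?_ (fun _ a => ?_)
    (fun a x h => (comm_one_add.2 ?_).symm) (fun y => y * Z = Z * y) (by simp)
    (fun x y h h' => by rw [Matrix.mul_assoc, h', ← Matrix.mul_assoc, h, Matrix.mul_assoc])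
    fun a ha y _ h => ?_
  · obtain ⟨a, ha, ha'⟩ := ex_delta hu
    exact kn X hr hb.inv hp (smul_ne_zero ha Z0) (by simp [ZZ])
      (fun _ => by rw [Φ.adj_smul, aZ, ha', neg_smul])
      (fun x h => by rw [mul_smul_comm, smul_mul_assoc, xZ x h])
      fun y h h' => (comm_smul ha).2 (key y h h')
  · simp only [add_mul, mul_add, Matrix.one_mul, Matrix.mul_one, smul_mul_smul_comm, NN, NZ, ZN, ZZ,
      Prod.fst_add, Prod.snd_add, AddSubgroup.coe_add]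
    match_scalars <;> field_simp <;> ring
  · have h1 := add_eq_left.1 h
    have h4 := sq a.1 ((a.2 : F) - (a.1 : F) ^ 2 / 2)
    rw [h1] at h4
    have h5 : (a.1 : F) = 0 := by simpa [Z0] using h4.symm
    exact Prod.ext (Subtype.ext h5) (Subtype.ext (by simpa [h5, Z0] using h1))
  · have : Nontrivial (L0 Φ) := ⟨⟨0, ⟨1, map_one Φ.c⟩, by simp [Subtype.ext_iff]⟩⟩
    have h4 := Finite.one_lt_card (α := L0 Φ)
    have h5 := Φ.p_le_q; have h6 := Φ.q2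
    rw [Nat.card_prod, card_A0 hu]; nlinarith
  · have h4 : Φ.c a.1 = a.1 := a.1.2
    have h5 : Φ.c a.2 = -a.2 := a.2.2
    simp only [Φ.adj_add, Φ.adj_one, Φ.adj_smul, aN, aZ, map_sub, map_div₀, map_pow, h4, h5,
      map_ofNat, Prod.fst_neg, Prod.snd_neg, AddSubgroup.coe_neg]
    match_scalars <;> ring
  · simp only [mul_add, add_mul, mul_smul_comm, smul_mul_assoc, xN x h, xZ x h]
  · have h1 := comm_one_add.1 h
    by_cases h5 : (a.1 : F) = 0
    · have h6 : (a.2 : F) ≠ 0 := fun e => ha (Prod.ext (Subtype.ext h5) (Subtype.ext e))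
      exact (comm_smul h6).1 (by simpa [h5] using h1)
    · refine (comm_smul (a := -(a.1 : F) ^ 2) (by simpa using h5)).1 ?_
      rw [← sq _ ((a.2 : F) - (a.1 : F) ^ 2 / 2), ← Matrix.mul_assoc, h1, Matrix.mul_assoc, h1,
        Matrix.mul_assoc]

theorem ku2 (ps : PS) : KU2.{u} := by
  intro F _ _ Φ G _ _ n X hr hu k β hb i
  have hp := ps F Φ n k β (fun h => X.u3 h) hb.sj hb.two
  by_contra! H
  have hf := ku1 ps F Φ G n X hr hu k β hb i (by omega)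
  have hp2 := ku3 ps F Φ G n X hr hu k β hb i (by omega)
  have hq : Φ.q = 2 := by rw [Φ.hq, hf, hp2, pow_one]
  have h2 : (1 + 1 : F) = 0 := by
    have := Φ.ch
    have h := CharP.cast_eq_zero F Φ.p
    rw [hp2] at h; exact_mod_cast h
  obtain ⟨e, he, hB⟩ := exists_on Φ (show 4 ≤ _ from H)
  obtain ⟨o, ho⟩ := Φ.exists_gen
  have o1 : o ≠ 1 := ho.ne_one (by rw [Φ.zU hu, hq]; norm_num)
  have o2 : o * Φ.c o = 1 := (Φ.mu_U hu).1 ho.pow_eq_one
  have o0 : o ≠ 0 := left_ne_zero_of_mul_eq_one o2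
  have hw : e 0 + e 1 ∈ In F β i := add_mem (he 0) (he 1)
  have n0 : e 0 + e 1 ≠ 0 := ne_of_B (x := e 0) (Φ := Φ) (by simp [Φ.B_add_left, hB])
  have hww : Φ.B (e 0 + e 1) (e 0 + e 1) = 0 := by simp [Φ.B_add_left, Φ.B_add_right, hB, h2]
  have pl : ∀ t : F, t * Φ.c t = 1 → ∀ y ∈ X.R, (∀ x ∈ Set.range (eb F β), mt y * x = x * mt y) →
      ∃ a b : F, mt y *ᵥ (e 0 + e 1) = a • (e 0 + e 1) + b • (e 2 + t • e 3) := fun t ht => by
    have hv : e 2 + t • e 3 ∈ In F β i := add_mem (he 2) (Submodule.smul_mem _ _ (he 3))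
    refine kplane X hr hb.inv hp hu (x₁ := e 0) (x₂ := e 2) n0 hww ?_ ?_ ?_ ?_ ?_ ?_ (Dy_eb hw hv)
      (Dy_eb hv hw) <;> simp [Φ.B_add_left, Φ.B_add_right, Φ.B_smul_left, Φ.B_smul_right, hB]
    linear_combination h2 + ht
  obtain ⟨d, hd, hd'⟩ := ex_delta hu
  refine kn X hr hb.inv hp (smul_ne_zero hd (Dy_ne (Φ := Φ) n0 n0)) (by simp [Dy_Dy, hww])
    (fun _ => by rw [Φ.adj_smul, adj_Dy, hd', neg_smul])
    (fun x h => by rw [mul_smul_comm, smul_mul_assoc, Dy_eb hw hw x h])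
    fun y hy hy' => (comm_smul hd).2 ?_
  obtain ⟨a, b, h1⟩ := pl 1 (by simp) y hy hy'
  obtain ⟨a', b', h3⟩ := pl o o2 y hy hy'
  have h4 := congrArg (Φ.B · (e 2)) (h1.symm.trans h3)
  have h5 := congrArg (Φ.B · (e 3)) (h1.symm.trans h3)
  simp [Φ.B_add_left, Φ.B_smul_left, hB] at h4 h5
  have h6 : b = 0 := by
    have : b * (1 - o) = 0 := by rw [← h4] at h5; linear_combination h5
    exact (mul_eq_zero.1 this).resolve_right (sub_ne_zero.2 o1.symm)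
  rw [h6, zero_smul, add_zero] at h1
  have h7 : mt y⁻¹ *ᵥ (a • (e 0 + e 1)) = e 0 + e 1 := by
    rw [← h1, mulVec_mulVec, mt_inv_mul, one_mulVec]
  have a0 : a ≠ 0 := by rintro rfl; exact n0 (by simpa using h7.symm)
  have a1 : a * Φ.c a = 1 := by
    have := FiniteField.pow_card_sub_one_eq_one a a0
    rw [Φ.cU hu, hq] at this
    rw [Φ.cq, hq, ← this]; ring
  have h8 : mt y⁻¹ *ᵥ (e 0 + e 1) = Φ.c a • (e 0 + e 1) := by
    rw [← h7, mulVec_smul, smul_smul, mul_comm, a1, one_smul, ← mulVec_smul, h7]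
  rw [mul_Dy, Dy_mul, mt_adj hu, h1, h8, Dy_smul_left, Dy_smul_right, Φ.c_c]

theorem kc : KC.{u} := by
  intro F _ _ Φ G _ _ n X hr hu e ee ae hi
  have ae' : Φ.adj (1 - e) = e := by rw [← ae, Φ.adj_adj]
  have e1 : e * (1 - e) = 0 := by rw [mul_sub, ee, Matrix.mul_one, sub_self]
  have e2 : (1 - e) * e = 0 := by rw [sub_mul, ee, Matrix.one_mul, sub_self]
  have := X.ne
  have ex : ∀ x : Mat n F, x ≠ 0 → ∃ z, x *ᵥ z ≠ 0 := fun x h => by
    by_contra! H; exact h (ext_of_mulVec_single fun j => by rw [H, zero_mulVec])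
  obtain ⟨w, v, w0, v0, hw, hv, hwv⟩ : ∃ w v, w ≠ 0 ∧ v ≠ 0 ∧ e *ᵥ w = w ∧ e *ᵥ v = 0 ∧
      Φ.B w v = 0 := by
    obtain ⟨w, hw⟩ := ex e (by rintro rfl; simp [Φ.adj_zero] at ae)
    obtain ⟨v, hv⟩ := ex (1 - e) fun h => by
      rw [h, Φ.adj_zero] at ae'; rw [← ae'] at h; simp at h
    have hw' : e *ᵥ (e *ᵥ w) = e *ᵥ w := by rw [mulVec_mulVec, ee]
    have hv' : e *ᵥ ((1 - e) *ᵥ v) = 0 := by rw [mulVec_mulVec, e1, zero_mulVec]
    let L : (Fin n → F) →ₗ[F] F × F :=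
      { toFun := fun z => (Φ.B z (e *ᵥ w), Φ.B z ((1 - e) *ᵥ v))
        map_add' := fun a b => by simp only [Φ.B_add_left, Prod.mk_add_mk]
        map_smul' := fun a b => by simp [Φ.B_smul_left] }
    obtain ⟨z, hz, z0⟩ := (Submodule.ne_bot_iff _).1 (LinearMap.ker_ne_bot_of_finrank_lt (f := L)
      (by have := X.u3 hu; simp; omega))
    have z1 : Φ.B z (e *ᵥ w) = 0 := congrArg Prod.fst hz
    have z2 : Φ.B z ((1 - e) *ᵥ v) = 0 := congrArg Prod.snd hz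
    by_cases h : e *ᵥ z = 0
    · exact ⟨_, z, hw, z0, hw', h, by rw [← Φ.B_symm, z1, map_zero]⟩
    · refine ⟨_, _, h, hv, by rw [mulVec_mulVec, ee], hv', ?_⟩
      rw [Φ.B_mulVec, ae, sub_mulVec, hv', one_mulVec, sub_zero, z2]
  have hw' : (1 - e) *ᵥ w = 0 := by rw [sub_mulVec, hw, one_mulVec, sub_self]
  have hv' : (1 - e) *ᵥ v = v := by rw [sub_mulVec, hv, one_mulVec, sub_zero]
  have hww : Φ.B w w = 0 := by
    rw [← hw, Φ.B_mulVec, ae, hw, hw', Φ.B_zero_right]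
  have hvv : Φ.B v v = 0 := by
    rw [← hv', Φ.B_mulVec, ae', hv', hv, Φ.B_zero_right]
  obtain ⟨x, hx⟩ := exists_B Φ v0
  have b1 : Φ.B (e *ᵥ x) w = 0 := by rw [Φ.B_mulVec, ae, hw', Φ.B_zero_right]
  have b2 : Φ.B (e *ᵥ x) v = 1 := by rw [Φ.B_mulVec, ae, hv', hx]
  have cm : ∀ N : Mat n F, N * e = e * N → ∀ x ∈ ({e, 1 - e} : Set (Mat n F)), N * x = x * N := by
    rintro N h _ (rfl | rfl)
    · exact h
    · rw [mul_sub, sub_mul, h, Matrix.mul_one, Matrix.one_mul]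
  have c1 := cm (Dy Φ w v) (by rw [Dy_mul, mul_Dy, ae, hw, hv'])
  have c2 := cm (Dy Φ v w) (by rw [Dy_mul, mul_Dy, ae, hw', hv, Dy_zero_left, Dy_zero_right])
  have hp : Pr Φ ({e, 1 - e} : Set (Mat n F)) := by
    obtain ⟨d, hd, hd'⟩ := ex_delta hu
    have hN : (d • Dy Φ w w) * (d • Dy Φ w w) = 0 := by simp [Dy_Dy, hww]
    let s : Φ.S (Fin n) := Φ.mkS (1 + d • Dy Φ w w)
      (det_one_of_pow Φ (by rw [pow_of_sq hN, nsmul_p, add_zero])) fun h => by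
        rw [Φ.adj_add, Φ.adj_one, Φ.adj_smul, adj_Dy, hd', neg_smul, add_mul, mul_add, mul_add,
          neg_mul, neg_mul, hN]; simp
    have hs : mt s = 1 + d • Dy Φ w w := rfl
    refine ⟨s, fun h => ?_⟩
    have h1 : mt s * e * mt s⁻¹ * mt s = e := by
      rw [Matrix.mul_assoc, mt_inv_mul, Matrix.mul_one, hs, add_mul, smul_mul_assoc, Dy_mul, ae, hw',
        Dy_zero_right, smul_zero, add_zero, Matrix.one_mul]
    rcases (mem_St.1 h e).1 (Or.inl rfl) with h2 | h2 <;> rw [← mt_inv] at h2 <;> rw [h2, hs] at h1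
    · rw [mul_add, mul_smul_comm, mul_Dy, hw, Matrix.mul_one, add_eq_left] at h1
      exact smul_ne_zero hd (Dy_ne w0 w0) h1
    · rw [mul_add, mul_smul_comm, mul_Dy, hw', Dy_zero_left, smul_zero, add_zero,
        Matrix.mul_one] at h1
      rw [h1, hw] at hw'; exact w0 hw'
  refine kn X hr hi hp (Nf_ne w0 b1 b2 one_ne_zero) (Nf_Nf hww hvv hwv 1 1) (fun _ => adj_Nf 1)
    (fun x h => by simp only [Nf, mul_sub, sub_mul, mul_smul_comm, smul_mul_assoc, c1 x h, c2 x h])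
    (kpl X hr hi hp hu w0 hww hvv hwv b1 b2 c1 c2 (fun y => y * Nf Φ w v 1 = Nf Φ w v 1 * y)
      (by simp) (fun x y h h' => by
        rw [Matrix.mul_assoc, h', ← Matrix.mul_assoc, h, Matrix.mul_assoc]) fun a ha y hy h => ?_)
  have f1 : e * Nf Φ w v a = a • Dy Φ w v := by
    simp [Nf, mul_sub, mul_Dy, hw, hv, Dy_zero_left]
  have f2 : (1 - e) * Nf Φ w v a = (-Φ.c a) • Dy Φ v w := by
    simp only [Nf, mul_sub, mul_smul_comm, mul_Dy, hw', hv', Dy_zero_left]; simp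
  have g1 : y * Dy Φ w v = Dy Φ w v * y := (comm_smul ha).1 (by
    rw [← f1, ← Matrix.mul_assoc, hy e (Or.inl rfl), Matrix.mul_assoc, h, Matrix.mul_assoc])
  have g2 : y * Dy Φ v w = Dy Φ v w * y := (comm_smul (a := -Φ.c a) (by simpa using ha)).1 (by
    rw [← f2, ← Matrix.mul_assoc, hy (1 - e) (Or.inr rfl), Matrix.mul_assoc, h, Matrix.mul_assoc])
  simp only [Nf, mul_sub, sub_mul, mul_smul_comm, smul_mul_assoc, g1, g2]

end H23.SB
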