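/-
Point stabilizers, linear or unitary socle: invariant systems of idempotents and invariant fields.
-/
import Cfsg.Agent.H22.SB3

set_option autoImplicit false
set_option linter.unusedSectionVars false

namespace H23.SB
open Matrix H22.SB

universe u
variable {F : Type} [Field F] [Fintype F] {n : ℕ} {Φ : Fm F} {G : Type u} [Group G]

section atoms
variable {𝔄 : Subalgebra F (Mat n F)}

/-- minimal idempotents -/
def Atom (𝔄 : Subalgebra F (Mat n F)) (e : Mat n F) : Prop :=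
  e ∈ 𝔄 ∧ e * e = e ∧ e ≠ 0 ∧ ∀ f ∈ 𝔄, f * f = f → e * f = 0 ∨ e * f = e

theorem exists_atom (hc : ∀ x ∈ 𝔄, ∀ y ∈ 𝔄, x * y = y * x) {f : Mat n F} (hf : f ∈ 𝔄)
    (ff : f * f = f) (f0 : f ≠ 0) : ∃ e, Atom 𝔄 e ∧ e * f = e := by
  obtain ⟨e, ⟨h1, h2, h3, h4⟩, hm⟩ := Set.exists_min_image
    {e | e ∈ 𝔄 ∧ e * e = e ∧ e ≠ 0 ∧ e * f = e} (fun e => {h | h * e = h}.ncard) (Set.toFinite _)
    ⟨f, hf, ff, f0, ff⟩
  refine ⟨e, ⟨h1, h2, h3, fun g hg gg => ?_⟩, h4⟩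
  by_contra! H
  have a1 : e * g * e = e * g := by
    rw [Matrix.mul_assoc, hc g hg e h1, ← Matrix.mul_assoc, h2]
  refine absurd (hm (e * g) ⟨mul_mem h1 hg, ?_, H.1, ?_⟩) (not_le.2 (Set.ncard_lt_ncard ⟨?_, ?_⟩))
  · rw [← Matrix.mul_assoc, a1, Matrix.mul_assoc, gg]
  · rw [Matrix.mul_assoc, hc g hg f hf, ← Matrix.mul_assoc, h4]
  · intro h (hh : h * (e * g) = h)
    change h * e = h
    rw [← hh, Matrix.mul_assoc, a1]
  · intro hs
    have : e * (e * g) = e := hs h2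
    rw [← Matrix.mul_assoc, h2] at this; exact H.2 this

theorem Atom.map {φ ψ : Mat n F → Mat n F} (hφ : ∀ x ∈ 𝔄, φ x ∈ 𝔄) (hψ : ∀ x ∈ 𝔄, ψ x ∈ 𝔄)
    (mφ : ∀ x ∈ 𝔄, ∀ y ∈ 𝔄, φ (x * y) = φ x * φ y) (mψ : ∀ x ∈ 𝔄, ∀ y ∈ 𝔄, ψ (x * y) = ψ x * ψ y)
    (h1 : ∀ x, φ (ψ x) = x) (h2 : ∀ x, ψ (φ x) = x) (φ0 : φ 0 = 0) {e : Mat n F} (he : Atom 𝔄 e) :
    Atom 𝔄 (φ e) := by
  obtain ⟨a1, a2, a3, a4⟩ := he
  refine ⟨hφ e a1, by rw [← mφ e a1 e a1, a2], fun h => a3 ?_, fun f hf ff => ?_⟩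
  · have := h2 0
    rw [φ0] at this; rw [← h2 e, h, this]
  · rw [← h1 f, ← mφ e a1 _ (hψ f hf)]
    rcases a4 (ψ f) (hψ f hf) (by rw [← mψ f hf f hf, ff]) with h | h
    · exact Or.inl (by rw [h, φ0])
    · exact Or.inr (by rw [h])

theorem sys_atoms (hc : ∀ x ∈ 𝔄, ∀ y ∈ 𝔄, x * y = y * x) {f : Mat n F} (hf : f ∈ 𝔄)
    (ff : f * f = f) (f0 : f ≠ 0) (f1 : f ≠ 1) {𝒟 : Finset (Mat n F)}
    (hD : ∀ e, e ∈ 𝒟 ↔ Atom 𝔄 e) : Sys 𝒟 := by
  have orth : ∀ e ∈ 𝒟, ∀ e' ∈ 𝒟, e ≠ e' → e * e' = 0 := fun e he e' he' hne => by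
    obtain ⟨a1, a2, -, a4⟩ := (hD e).1 he
    obtain ⟨b1, b2, -, b4⟩ := (hD e').1 he'
    refine (a4 e' b1 b2).resolve_right fun h => ?_
    rcases b4 e a1 a2 with h' | h'
    · exact ((hD e).1 he).2.2.1 (by rw [← h, hc e a1 e' b1, h'])
    · exact hne (by rw [← h, hc e a1 e' b1, h'])
  have cpl : ∀ g : Mat n F, g * g = g → (1 - g) * (1 - g) = 1 - g := fun g h => by
    rw [sub_mul, mul_sub, mul_sub, h]; simp
  refine ⟨fun e he => ((hD e).1 he).2.1, fun e he => ((hD e).1 he).2.2.1, orth, ?_, ?_⟩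
  · have hs : ∀ e ∈ 𝒟, e * ∑ x ∈ 𝒟, x = e := fun e he => by
      rw [Finset.mul_sum, Finset.sum_eq_single_of_mem e he fun x hx h => orth e he x hx h.symm,
        ((hD e).1 he).2.1]
    by_contra H
    obtain ⟨e, he, h⟩ := exists_atom hc (f := 1 - ∑ x ∈ 𝒟, x)
      (sub_mem (one_mem _) (sum_mem fun x hx => ((hD x).1 hx).1))
      (cpl _ (by rw [Finset.sum_mul]; exact Finset.sum_congr rfl hs)) (sub_ne_zero.2 (Ne.symm H))
    rw [mul_sub, hs e ((hD e).2 he), Matrix.mul_one, sub_self] at h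
    exact he.2.2.1 h.symm
  · obtain ⟨e, he, h⟩ := exists_atom hc hf ff f0
    obtain ⟨e', he', h'⟩ := exists_atom hc (sub_mem (one_mem _) hf) (cpl f ff)
      (sub_ne_zero.2 f1.symm)
    refine Finset.one_lt_card.2 ⟨e, (hD e).2 he, e', (hD e').2 he', ?_⟩
    rintro rfl
    rw [mul_sub, h, Matrix.mul_one, sub_self] at h'
    exact he.2.2.1 h'.symm
end atoms

theorem di1 : DI1.{u} := by
  intro F _ _ Φ G _ _ n X hr hA
  classical
  simp only [Cx.NoA, not_forall] at hA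
  obtain ⟨A, hAR, hAi, hAc, a, ha, has⟩ := hA
  have := X.ne
  have := Φ.ch
  have := Fact.mk Φ.pp
  let 𝔄 : Subalgebra F (Mat n F) := Algebra.adjoin F ((fun s => mt s) '' (A : Set (Φ.S (Fin n))))
  have hc : ∀ x ∈ 𝔄, ∀ y ∈ 𝔄, x * y = y * x := fun x hx y hy =>
    Algebra.commute_of_mem_adjoin_of_forall_mem_commute hy fun b hb =>
      (Algebra.commute_of_mem_adjoin_of_forall_mem_commute hx fun c hc => by
        obtain ⟨b, hb, rfl⟩ := hb; obtain ⟨c, hc, rfl⟩ := hc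
        exact mt_comm.1 (hAc b hb c hc)).symm
  have hi : X.Inv 𝔄 := fun h hh x hx => by
    induction hx using Algebra.adjoin_induction with
    | mem x hx =>
      obtain ⟨b, hb, rfl⟩ := hx
      obtain ⟨c, hc, e⟩ := hAi h hh b hb
      exact Algebra.subset_adjoin ⟨c, hc, e⟩
    | algebraMap r =>
      rw [Algebra.algebraMap_eq_smul_one, Tx.th_smul, Tx.th_one]; exact 𝔄.smul_mem (one_mem _) _
    | add x y _ _ hx hy => rw [Tx.th_add]; exact add_mem hx hy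
    | mul x y _ _ hx hy =>
      by_cases e : X.ε h = 1
      · rw [Tx.th_mul _ e]; exact mul_mem hx hy
      · rw [Tx.th_anti _ e]; exact mul_mem hy hx
  have hm : ∀ h ∈ X.H, ∀ x ∈ 𝔄, ∀ y ∈ 𝔄, X.th h (x * y) = X.th h x * X.th h y :=
    fun h _ x hx y hy => by
      by_cases e : X.ε h = 1
      · rw [Tx.th_mul _ e]
      · rw [hc x hx y hy, Tx.th_anti _ e]
  have hj : Φ.u → ∀ x ∈ 𝔄, Φ.adj x ∈ 𝔄 := fun hu x hx => by
    induction hx using Algebra.adjoin_induction with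
    | mem x hx =>
      obtain ⟨b, hb, rfl⟩ := hx
      exact Algebra.subset_adjoin ⟨b⁻¹, inv_mem hb, (mt_adj hu b).symm⟩
    | algebraMap r =>
      rw [Algebra.algebraMap_eq_smul_one, Φ.adj_smul, Φ.adj_one]; exact 𝔄.smul_mem (one_mem _) _
    | add x y _ _ hx hy => rw [Φ.adj_add]; exact add_mem hx hy
    | mul x y _ _ hx hy => rw [Φ.adj_mul]; exact mul_mem hy hx
  by_cases H : ∃ f ∈ 𝔄, f * f = f ∧ f ≠ 0 ∧ f ≠ 1
  · obtain ⟨f, hf, ff, f0, f1⟩ := H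
    have hD : ∀ e, e ∈ Finset.univ.filter (Atom 𝔄) ↔ Atom 𝔄 e := fun e => by simp
    refine Or.inl ⟨_, sys_atoms hc hf ff f0 f1 hD, fun h hh e he => (hD _).2 ?_,
      fun hu e he => (hD _).2 ?_⟩
    · exact ((hD e).1 he).map (hi h hh) (hi h⁻¹ (inv_mem hh)) (hm h hh) (hm h⁻¹ (inv_mem hh))
        (X.th_inv' h) (X.th_inv h) (X.th_zero h)
    · have : ∀ x ∈ 𝔄, ∀ y ∈ 𝔄, Φ.adj (x * y) = Φ.adj x * Φ.adj y := fun x hx y hy => by
        rw [hc x hx y hy, Φ.adj_mul]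
      exact ((hD e).1 he).map (hj hu) (hj hu) this this Φ.adj_adj Φ.adj_adj Φ.adj_zero
  push Not at H
  refine Or.inr ⟨𝔄, ⟨⟨0, 1, zero_ne_one⟩, fun x y => Subtype.ext (hc _ x.2 _ y.2), ?_⟩, ?_, hi, hj⟩
  · obtain ⟨m, -, hm⟩ := FiniteField.card F Φ.p
    obtain ⟨j, hj⟩ : ∃ j, j = (Nat.card X.R).totient := ⟨_, rfl⟩
    have j0 : 0 < j := hj ▸ Nat.totient_pos.2 Nat.card_pos
    have hmod : Fintype.card F ^ j ≡ 1 [MOD Nat.card X.R] :=
      hj ▸ Nat.ModEq.pow_totient (hm ▸ (X.R_cop hr).pow_left _)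
    have hM : ∀ x ∈ 𝔄, x ^ Fintype.card F ^ j = x := fun x hx => by
      induction hx using Algebra.adjoin_induction with
      | mem x hx =>
        obtain ⟨b, hb, rfl⟩ := hx
        have h1 : (⟨b, hAR hb⟩ : X.R) ^ Fintype.card F ^ j = ⟨b, hAR hb⟩ ^ 1 :=
          pow_eq_pow_iff_modEq.2 (hmod.of_dvd (orderOf_dvd_natCard _))
        rw [← mt_pow]
        exact congrArg H22.SB.mt (by simpa using congrArg Subtype.val h1)
      | algebraMap r => rw [← map_pow, FiniteField.pow_card_pow]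
      | add x y hx hy h1 h2 =>
        rw [hm, ← pow_mul] at h1 h2 ⊢
        rw [add_pow_char_pow_of_commute _ _ (hc x hx y hy), h1, h2]
      | mul x y hx hy h1 h2 => rw [Commute.mul_pow (hc x hx y hy), h1, h2]
    obtain ⟨M, hM2⟩ : ∃ M, Fintype.card F ^ j = M + 2 :=
      Nat.exists_eq_add_of_le' (Nat.one_lt_pow j0.ne' Fintype.one_lt_card)
    intro x x0
    have h1 := hM x x.2
    rw [hM2] at h1
    refine ⟨x ^ M, Subtype.ext ?_⟩
    change x.1 * x.1 ^ M = 1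
    rw [← pow_succ']
    refine H _ (pow_mem x.2 _) ?_ fun h => x0 (Subtype.ext ?_)
    · rw [← pow_add, show M + 1 + (M + 1) = M + 2 + M by ring, pow_add, h1, pow_succ']
    · rw [← h1, pow_succ, h, zero_mul]; rfl
  · intro h
    have : mt a ∈ 𝔄 := Algebra.subset_adjoin ⟨a, ha, rfl⟩
    rw [h, Algebra.mem_bot] at this
    obtain ⟨r, hr⟩ := this
    exact has ⟨r, by rw [← hr, Algebra.algebraMap_eq_smul_one]⟩

section merge
variable {𝒟 : Finset (Mat n F)} {T : Type} {l : Mat n F → T} {e e' f : Mat n F}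

open Classical in
/-- the sum of the idempotents with the label of `e` -/
noncomputable def mg (𝒟 : Finset (Mat n F)) (l : Mat n F → T) (e : Mat n F) : Mat n F :=
  ∑ f ∈ 𝒟.filter fun f => l f = l e, f

open Classical in
theorem mg_mul (h : Sys 𝒟) (hf : f ∈ 𝒟) : mg 𝒟 l e * f = if l f = l e then f else 0 := by
  rw [mg, Finset.sum_mul, Finset.sum_filter, Finset.sum_eq_single_of_mem f hf fun x hx hne => by
    rw [h.orth x hx f hf hne, ite_self], h.idem f hf]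

theorem sys_ext (h : Sys 𝒟) {x y : Mat n F} (H : ∀ f ∈ 𝒟, x * f = y * f) : x = y := by
  rw [← Matrix.mul_one x, ← Matrix.mul_one y, ← h.sum, Finset.mul_sum, Finset.mul_sum]
  exact Finset.sum_congr rfl H

open Classical in
theorem adj_mg (h : ∀ f ∈ 𝒟, Φ.adj f = f) : Φ.adj (mg 𝒟 l e) = mg 𝒟 l e := by
  rw [mg, Φ.adj_sum]
  exact Finset.sum_congr rfl fun f hf => h f (Finset.mem_filter.1 hf).1

theorem mg_congr (h : l e = l e') : mg 𝒟 l e = mg 𝒟 l e' := by unfold mg; rw [h]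

theorem mg_inj (h : Sys 𝒟) (he : e ∈ 𝒟) (H : mg 𝒟 l e = mg 𝒟 l e') : l e = l e' := by
  have h1 := mg_mul (l := l) (e := e) h he
  rw [H, mg_mul h he, if_pos rfl] at h1
  by_contra h0
  rw [if_neg h0] at h1; exact h.ne e he h1.symm

open Classical in
theorem sys_mg (h : Sys 𝒟) (he : e ∈ 𝒟) (he' : e' ∈ 𝒟) (hl : l e ≠ l e') :
    Sys (𝒟.image (mg 𝒟 l)) := by
  have orth : ∀ a b, mg 𝒟 l a ≠ mg 𝒟 l b → mg 𝒟 l a * mg 𝒟 l b = 0 := fun a b hne =>
    sys_ext h fun f hf => by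
      rw [Matrix.mul_assoc, mg_mul h hf, Matrix.zero_mul]
      split_ifs with h1
      · rw [mg_mul h hf, if_neg fun h2 => hne (mg_congr (h2.symm.trans h1))]
      · exact Matrix.mul_zero _
  refine ⟨?_, ?_, ?_, sys_ext h fun f hf => ?_, Finset.one_lt_card.2
    ⟨_, Finset.mem_image_of_mem _ he, _, Finset.mem_image_of_mem _ he', fun H => hl (mg_inj h he H)⟩⟩
  · simp only [Finset.forall_mem_image]
    refine fun a _ => sys_ext h fun f hf => ?_
    rw [Matrix.mul_assoc, mg_mul h hf]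
    split_ifs with h1
    · rw [mg_mul h hf, if_pos h1]
    · exact Matrix.mul_zero _
  · simp only [Finset.forall_mem_image]
    intro a ha H
    have := mg_mul (l := l) (e := a) h ha
    rw [H, if_pos rfl, Matrix.zero_mul] at this; exact h.ne a ha this.symm
  · simp only [Finset.forall_mem_image]
    exact fun a _ b _ => orth a b
  · have h1 : mg 𝒟 l f * f = f := by rw [mg_mul h hf, if_pos rfl]
    rw [Finset.sum_mul, Finset.sum_eq_single_of_mem _ (Finset.mem_image_of_mem _ hf), h1,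
      Matrix.one_mul]
    simp only [Finset.forall_mem_image]
    intro a _ hne
    rw [← h1, ← Matrix.mul_assoc, orth _ _ hne, Matrix.zero_mul]

theorem mg_map (φ : Mat n F →+ Mat n F) (hi : Function.Injective φ) (hD : ∀ f ∈ 𝒟, φ f ∈ 𝒟)
    (hl : ∀ f, l (φ f) = l (φ e) ↔ l f = l e) : φ (mg 𝒟 l e) = mg 𝒟 l (φ e) := by
  classical
  rw [mg, map_sum, mg]
  refine Finset.sum_bij (fun f _ => φ f) (fun f hf => ?_) (fun _ _ _ _ h => hi h) (fun g hg => ?_)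
    fun _ _ => rfl
  · rw [Finset.mem_filter] at hf ⊢; exact ⟨hD f hf.1, (hl f).2 hf.2⟩
  · rw [Finset.mem_filter] at hg
    obtain ⟨f, hf, rfl⟩ := Finset.surjOn_of_injOn_of_card_le φ hD hi.injOn le_rfl hg.1
    exact ⟨f, Finset.mem_filter.2 ⟨hf, (hl f).1 hg.2⟩, rfl⟩
end merge

theorem di2a (X : Cx Φ G n) {𝒟 : Finset (Mat n F)} (h : Sys 𝒟) (hi : X.Inv 𝒟)
    (ha : Φ.u → ∀ e ∈ 𝒟, Φ.adj e = e) : ∃ 𝒟' : Finset (Mat n F), Sys 𝒟' ∧ X.Inv 𝒟' ∧
    (Φ.u → ∀ e ∈ 𝒟', Φ.adj e = e) ∧ (𝒟'.card = 2 ∨ ∃ m, ∀ e ∈ 𝒟', e.rank = m) := by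
  classical
  obtain ⟨e, he⟩ := Finset.card_pos.1 (zero_lt_two.trans_le h.two)
  by_cases H : ∀ f ∈ 𝒟, f.rank = e.rank
  · exact ⟨𝒟, h, hi, ha, Or.inr ⟨_, H⟩⟩
  push Not at H
  obtain ⟨e', he', hne⟩ := H
  let l : Mat n F → Prop := fun f => f.rank = e.rank
  have hs := sys_mg (l := l) h he he' (by simp [l, hne])
  refine ⟨_, hs, fun g hg x hx => ?_, fun hu x hx => ?_, Or.inl (le_antisymm ?_ hs.two)⟩
  · obtain ⟨a, ha, rfl⟩ := Finset.mem_image.1 hx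
    have : ∀ f, l (X.thA g f) = l f := fun f => congrArg (· = e.rank) (X.th_rank g f)
    exact Finset.mem_coe.2 (Finset.mem_image.2 ⟨_, hi g hg a ha,
      (mg_map (X.thA g) (X.th_inj g) (hi g hg) fun f => by rw [this, this]).symm⟩)
  · obtain ⟨a, -, rfl⟩ := Finset.mem_image.1 hx
    exact adj_mg (ha hu)
  · refine (Finset.card_le_card (t := {mg 𝒟 l e, mg 𝒟 l e'}) fun x hx => ?_).trans
      Finset.card_le_two
    obtain ⟨a, -, rfl⟩ := Finset.mem_image.1 hx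
    by_cases h1 : l a
    · exact Finset.mem_insert.2 (Or.inl (mg_congr (by simpa [l] using h1)))
    · exact Finset.mem_insert.2 (Or.inr (Finset.mem_singleton.2
        (mg_congr (propext (iff_of_false h1 hne)))))

theorem di2 : DI2.{u} := by
  intro F _ _ Φ G _ _ n X 𝒟 h hi ha
  classical
  by_cases hu : Φ.u
  swap
  · exact Or.inl (di2a X h hi fun h => absurd h hu)
  let l : Mat n F → Set (Mat n F) := fun e => {e, Φ.adj e}
  have la : ∀ e, l (Φ.adj e) = l e := fun e => by simp only [l, Φ.adj_adj, Set.pair_comm]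
  by_cases H : ∃ e ∈ 𝒟, ∃ e' ∈ 𝒟, l e ≠ l e'
  · obtain ⟨e, he, e', he', hne⟩ := H
    refine Or.inl (di2a X (sys_mg h he he' hne) (fun g hg x hx => ?_) fun _ x hx => ?_)
    · obtain ⟨a, ha, rfl⟩ := Finset.mem_image.1 hx
      refine Finset.mem_image.2 ⟨_, hi g hg a ha, (mg_map (X.thA g) (X.th_inj g) (hi g hg)
        fun f => ?_).symm⟩
      have : ∀ f, l (X.thA g f) = X.th g '' l f := fun f => by
        simp only [l, Set.image_pair, X.th_adj hu]; rfl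
      rw [this, this, (X.th_inj g).image_injective.eq_iff]
    · obtain ⟨a, -, rfl⟩ := Finset.mem_image.1 hx
      let φ : Mat n F →+ Mat n F := ⟨⟨Φ.adj, Φ.adj_zero⟩, Φ.adj_add⟩
      exact (mg_map φ (fun x y e => by rw [← Φ.adj_adj x, ← Φ.adj_adj y]; exact congrArg _ e)
        (ha hu) fun f => by erw [la, la]).trans (mg_congr (la a))
  push Not at H
  obtain ⟨e, he, e', he', hne⟩ := Finset.one_lt_card.1 h.two
  have hsub : ∀ f ∈ 𝒟, f = e ∨ f = Φ.adj e := fun f hf =>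
    (H f hf e he).le (Or.inl rfl : f ∈ l f)
  have h1 : e' = Φ.adj e := (hsub e' he').resolve_left hne.symm
  have hD : 𝒟 = {e, e'} := by
    ext f
    rw [Finset.mem_insert, Finset.mem_singleton]
    exact ⟨fun hf => h1 ▸ hsub f hf, by rintro (rfl | rfl) <;> assumption⟩
  have h2 : e' = 1 - e := by rw [← h.sum, hD, Finset.sum_pair hne, add_sub_cancel_left]
  refine Or.inr ⟨hu, e, h.idem e he, h1.symm.trans h2, ?_⟩
  rw [← h2, ← Finset.coe_pair, ← hD]; exact hi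

end H23.SB
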