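import Cfsg.Agent.H3.Frobenius
import Cfsg.Agent.H3.NPC
import Cfsg.Agent.H2.Action
import Cfsg.Agent.H2.CoprimeAbelian
import Cfsg.Agent.H23.Ito

/-!
# Actions on abelian groups that are semiregular off the global fixed points
-/

open Subgroup H24
open scoped Pointwise commutatorElement

namespace H23

variable {G : Type*} [Group G] [Finite G] {W P Q K : Subgroup G}

/-- `W` acts nontrivially on the abelian group `P`, and nontrivial elements of `W` fix only
the fixed points of `W`. -/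
structure SR (W P : Subgroup G) : Prop where
  norm : W ≤ normalizer (P : Set G)
  comm : IsMulCommutative P
  fix : ∀ w ∈ W, w ≠ 1 → P ⊓ centralizer {w} ≤ centralizer (W : Set G)
  ne : ¬ P ≤ centralizer (W : Set G)

theorem SR.fpf (h : SR W P) (hK : K ≤ W) (h1 : K ≠ ⊥) (hc : (Nat.card K).Coprime (Nat.card P)) :
    ⁅P, K⁆ ≠ ⊥ ∧ ∀ w ∈ W, w ≠ 1 → ⁅P, K⁆ ⊓ centralizer {w} = ⊥ := by
  haveI := h.comm
  refine ⟨fun e => h.ne ?_, fun w hw hw1 => ?_⟩
  · obtain ⟨⟨k, hk⟩, hk1⟩ := ne_bot_iff_exists_ne_one.1 h1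
    refine (le_inf le_rfl ((commutator_eq_bot_iff_le_centralizer.1 e).trans
      (centralizer_le (Set.singleton_subset_iff.2 hk)))).trans
      (h.fix k (hK hk) fun e' => hk1 (Subtype.ext e'))
  · rw [eq_bot_iff, ← H2.centralizer_inf_commutator_eq_bot (hK.trans h.norm) hc]
    exact le_inf (((inf_le_inf_right _ (H1.commutator_le_of_le_normalizer_left
      (hK.trans h.norm))).trans (h.fix w hw hw1)).trans (centralizer_le hK)) inf_le_left

theorem SR.false_of_normalizes {s : ℕ} [Fact s.Prime] (h : SR W P) (hP : IsPGroup s P)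
    (hK : K ≤ W) (h1 : K ≠ ⊥) (hc : (Nat.card K).Coprime s) {g : G} (hg : g ∈ W) (hg1 : g ≠ 1)
    (hn : g ∈ normalizer (K : Set G)) (hgs : IsPGroup s (zpowers g)) : False := by
  obtain ⟨k, hk⟩ := hP.exists_card_eq
  obtain ⟨h2, h3⟩ := h.fpf hK h1 (hk ▸ hc.pow_right k)
  refine H1.inf_centralizer_ne_bot_of_isPGroup hgs
    (hP.to_le (H1.commutator_le_of_le_normalizer_left (hK.trans h.norm)))
    (H1.le_normalizer_commutator (zpowers_le.2 (h.norm hg)) (zpowers_le.2 hn)) h2 ?_
  rw [eq_bot_iff, ← h3 g hg hg1]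
  exact inf_le_inf_left _ (centralizer_le (Set.singleton_subset_iff.2 (mem_zpowers g)))

theorem exists_prime_mem_zpowers {g : G} (hg : g ≠ 1) : ∃ x ∈ zpowers g, (orderOf x).Prime := by
  obtain ⟨q, hq, hd⟩ := Nat.exists_prime_and_dvd (mt orderOf_eq_one_iff.1 hg)
  haveI := Fact.mk hq
  obtain ⟨x, hx⟩ := exists_prime_orderOf_dvd_card' (G := zpowers g) q (by rwa [Nat.card_zpowers])
  exact ⟨x, x.2, by rwa [orderOf_coe, hx]⟩

/-- If `W` acts in this way on an `r`-group and on a `p`-group and `r ∣ |W|`, then `W` is an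
`r`-group. -/
theorem SR.isPGroup {r p : ℕ} [hr : Fact r.Prime] [hp : Fact p.Prime] (hrp : r ≠ p)
    (h : SR W P) (hP : IsPGroup r P) (h' : SR W Q) (hQ : IsPGroup p Q) (hd : r ∣ Nat.card W) :
    IsPGroup r W := by
  obtain ⟨S, M, hM, hc⟩ : Cfsg.HasNormalPComplement r W := by
    refine H3.frobenius_npc_subgroup fun T hT hTr hT1 g hg hn hc => ?_
    rcases eq_or_ne g 1 with rfl | hg1
    · exact one_mem _
    exfalso
    obtain ⟨x, hx, hq⟩ := exists_prime_mem_zpowers hg1
    have hxW := zpowers_le.2 hg hx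
    have hxn := zpowers_le.2 hn hx
    have hx1 : x ≠ 1 := fun e => by rw [e, orderOf_one] at hq; exact Nat.not_prime_one hq
    have hxr : (orderOf x).Coprime r := hc.coprime_dvd_left (orderOf_dvd_of_mem_zpowers hx)
    obtain ⟨k, hk⟩ := hTr.exists_card_eq
    have hrp' : (r ^ k).Coprime p := ((Nat.coprime_primes hr.out hp.out).2 hrp).pow_left k
    by_cases hxp : orderOf x = p
    · exact h'.false_of_normalizes hQ hT hT1 (hk ▸ hrp') hxW hx1 hxn
        (H24.isPGroup_zpowers (k := 1) (by rw [hxp, pow_one]))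
    have hU : zpowers x ⊔ T ≤ W := sup_le (zpowers_le.2 hxW) hT
    have hdU := H1.card_sup_dvd (zpowers_le.2 hxn)
    rw [Nat.card_zpowers, hk] at hdU
    obtain ⟨l, hl⟩ := hQ.exists_card_eq
    obtain ⟨h2, h3⟩ := h'.fpf hU (fun e => hT1 (le_bot_iff.1 (e ▸ le_sup_right)))
      (hl ▸ ((Nat.Coprime.mul_left ((Nat.coprime_primes hq hp.out).2 hxp) hrp').coprime_dvd_left
        hdU).pow_right l)
    obtain ⟨⟨z, hz⟩, hz1⟩ := ne_bot_iff_exists_ne_one.1 (H3.center_complement_ne_bot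
      (H1.le_normalizer_commutator (hU.trans h'.norm) le_normalizer) h2
      (fun e => hT1 (le_bot_iff.1 (e ▸ le_sup_right))) fun a ha => h3 a (hU ha))
    obtain ⟨y, hy, hy'⟩ := exists_prime_mem_zpowers (g := z) fun e => hz1 (Subtype.ext e)
    have hyc : ∀ u ∈ zpowers x ⊔ T, u * y = y * u := fun u hu =>
      congrArg Subtype.val (mem_center_iff.1 (zpowers_le.2 hz hy) ⟨u, hu⟩)
    have hy1 : (y : G) ≠ 1 := fun e => by
      rw [← orderOf_coe, e, orderOf_one] at hy'; exact Nat.not_prime_one hy'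
    have hnz : ∀ a b : G, a * b = b * a → a ∈ normalizer (zpowers b : Set G) := fun a b e =>
      centralizer_le_normalizer _ (mem_centralizer_iff.2 fun c hc =>
        (Commute.zpow_left (show Commute b a from e.symm) hc.choose).eq |> (hc.choose_spec ▸ ·))
    by_cases hyr : orderOf y = r
    · exact h.false_of_normalizes hP (zpowers_le.2 hxW) (mt zpowers_eq_bot.1 hx1)
        (by rwa [Nat.card_zpowers]) (hU y.2) hy1
        (hnz _ _ (hyc x (mem_sup_left (mem_zpowers x))).symm)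
        (H24.isPGroup_zpowers (k := 1) (by rw [orderOf_coe, hyr, pow_one]))
    · obtain ⟨⟨t, ht⟩, ht1⟩ := ne_bot_iff_exists_ne_one.1 hT1
      exact h.false_of_normalizes hP (zpowers_le.2 (hU y.2)) (mt zpowers_eq_bot.1 hy1)
        (by rw [Nat.card_zpowers, orderOf_coe]; exact (Nat.coprime_primes hy' hr.out).2 hyr)
        (hT ht) (fun e => ht1 (Subtype.ext e)) (hnz _ _ (hyc t (mem_sup_right ht)))
        (hTr.to_le (zpowers_le.2 ht))
  by_cases hM1 : M = ⊥
  · subst hM1
    exact S.isPGroup'.of_equiv ((MulEquiv.subgroupCongr (isComplement'_bot_left.1 hc)).trans topEquiv)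
  exfalso
  obtain ⟨t, ht⟩ := exists_prime_orderOf_dvd_card' r hd
  refine h.false_of_normalizes hP (map_subtype_le M) (mt (Subgroup.map_eq_bot_iff_of_injective _
    W.subtype_injective).1 hM1) ?_ t.2 (fun e => ?_) ?_
    (H24.isPGroup_zpowers (k := 1) (by rw [orderOf_coe, ht, pow_one]))
  · rw [card_map_of_injective W.subtype_injective, ← hc.index_eq_card]
    exact (hr.out.coprime_iff_not_dvd.2 S.not_dvd_index).symm
  · rw [← orderOf_coe, e, orderOf_one] at ht; exact hr.out.one_lt.ne ht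
  · exact le_normalizer_map W.subtype ⟨t, by simp [normalizer_eq_top], rfl⟩

/-- The same for an abstract action on an abelian group. -/
theorem isPGroup_of_semireg {A B : Type*} [CommGroup A] [Finite A] [Group B] [Finite B]
    (φ : B →* MulAut A) (h : ∀ w : B, w ≠ 1 → ∀ a, φ w a = a → ∀ v, φ v a = a) {r p : ℕ}
    [hr : Fact r.Prime] [hp : Fact p.Prime] (hrp : r ≠ p) {a b : A} {i j : ℕ}
    (ha : orderOf a = r ^ i) (hb : orderOf b = p ^ j) (ha' : ¬ ∀ v, φ v a = a)
    (hb' : ¬ ∀ v, φ v b = b) (hd : r ∣ Nat.card B) : IsPGroup r B := by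
  have key : ∀ (s : ℕ) [Fact s.Prime] (c : A) (k : ℕ), orderOf c = s ^ k → (¬ ∀ v, φ v c = c) →
      SR (H2.sdA φ) (H2.sdK φ (CommGroup.primaryComponent A s)) := fun s _ c k hc hc' => by
    refine ⟨H2.sdA_le_normalizer_iff.2 fun w x hx => ?_, H2.isMulCommutative_sdK _,
      H2.forall_mem_sdA.2 fun w hw x hx => ?_, fun e => hc' (H2.sdK_le_centralizer_iff.1 e
        ⟨k, hc ▸ pow_orderOf_eq_one c⟩)⟩
    · obtain ⟨l, hl⟩ := hx
      exact ⟨l, by rw [← map_pow, hl, map_one]⟩
    · obtain ⟨y, -, rfl⟩ := hx.1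
      refine H2.inl_mem_centralizer_sdA.2 (h w (fun e => hw (by rw [e, map_one])) y ?_)
      apply SemidirectProduct.inl_injective (φ := φ)
      rw [← H2.inr_mul_inl_mul_inv, mul_inv_eq_iff_eq_mul]
      exact mem_centralizer_iff.1 hx.2 _ rfl
  exact ((key r a i ha ha').isPGroup hrp (H2.isPGroup_sdK.2 CommGroup.primaryComponent.isPGroup)
    (key p b j hb hb') (H2.isPGroup_sdK.2 CommGroup.primaryComponent.isPGroup)
    (H2.card_sdA (φ := φ) ▸ hd)).of_equiv (H2.sdAEquiv φ).symm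

end H23
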