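import Cfsg.Agent.H23.SpOre1
import Cfsg.Agent.H23.ReeSq1

/-!
Squares of conjugacy classes in four-dimensional symplectic groups.
-/

namespace H23.SO

open Matrix SymplecticGroup RS

variable {F : Type*} [Field F]

section moves
variable {n : Type*} [Fintype n] [DecidableEq n] (g : symplecticGroup n F)

theorem mv_upp {S : Matrix n n F} (h : Sᵀ = S) : ∃ g' : symplecticGroup n F, IsConj g' g ∧
    g'.1.toBlocks₁₁ = g.1.toBlocks₁₁ + S * g.1.toBlocks₂₁ ∧ g'.1.toBlocks₂₁ = g.1.toBlocks₂₁ := by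
  refine ⟨upp S h * g * upp (-S) (by simp [h]), isConj_of (upp (-S) (by simp [h])) ?_, ?_⟩
  · rw [← mul_assoc, ← mul_assoc, show upp (-S) _ * upp S h = 1 from Subtype.ext (by simp [upp, fromBlocks_multiply]), one_mul]
  · rw [Submonoid.coe_mul, Submonoid.coe_mul, ← fromBlocks_toBlocks g.1]
    simp [upp, fromBlocks_multiply]

theorem mv_low {S : Matrix n n F} (h : Sᵀ = S) : ∃ g' : symplecticGroup n F, IsConj g' g ∧
    g'.1.toBlocks₂₁ = g.1.toBlocks₂₁ + S * g.1.toBlocks₁₁ - (S * g.1.toBlocks₁₂ + g.1.toBlocks₂₂) * S := by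
  refine ⟨low S h * g * low (-S) (by simp [h]), isConj_of (low (-S) (by simp [h])) ?_, ?_⟩
  · rw [← mul_assoc, ← mul_assoc, show low (-S) _ * low S h = 1 from Subtype.ext (by simp [low, fromBlocks_multiply]), one_mul]
  · rw [Submonoid.coe_mul, Submonoid.coe_mul, ← fromBlocks_toBlocks g.1]
    simp [low, fromBlocks_multiply, sub_eq_add_neg, add_comm]

theorem mv_J : ∃ g' : symplecticGroup n F, IsConj g' g ∧ g'.1.toBlocks₂₁ = -g.1.toBlocks₁₂ := by
  refine ⟨_, (isConj_iff.2 ⟨symJ n F, rfl⟩ : IsConj g _).symm, ?_⟩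
  rw [Submonoid.coe_mul, Submonoid.coe_mul, ← fromBlocks_toBlocks g.1, coe_inv]
  simp [J, fromBlocks_multiply, fromBlocks_transpose, fromBlocks_neg]

theorem mv_lev (T : GL n F) : ∃ g' : symplecticGroup n F, IsConj g' g ∧ g'.1.toBlocks₂₁ = T.1ᵀ * g.1.toBlocks₂₁ * T.1 := by
  refine ⟨_, (isConj_iff.2 ⟨lev T⁻¹, rfl⟩ : IsConj g _).symm, ?_⟩
  rw [← map_inv, Submonoid.coe_mul, Submonoid.coe_mul, ← fromBlocks_toBlocks g.1]
  simp only [coe_lev, fromBlocks_multiply, inv_inv, toBlocks_fromBlocks₂₁, Matrix.zero_mul, Matrix.mul_zero, zero_add,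
    add_zero]

end moves

/-- companion matrices -/
noncomputable def cmp (s : F) {d : F} (hd : d ≠ 0) : GL (Fin 2) F :=
  GeneralLinearGroup.mkOfDetNeZero !![0, -d; 1, s] (by simpa using hd)

theorem isConj_cmp {s d : F} (hd : d ≠ 0) {P : GL (Fin 2) F} (h : P.1 1 0 ≠ 0) (h1 : P.1.trace = s) (h2 : P.1.det = d) :
    IsConj (cmp s hd) P := by
  refine isConj_of (GeneralLinearGroup.mkOfDetNeZero !![1, P.1 0 0; 0, P.1 1 0] (by simpa using h)) (Units.ext ?_)
  rw [trace_fin_two] at h1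
  rw [det_fin_two] at h2
  ext i j
  fin_cases i <;> fin_cases j <;> simp [cmp, mul_apply, Fin.sum_univ_two, ← h1, ← h2] <;> ring

variable (t ν : F)

/-- the admissible classes -/
def Cl (P : Matrix (Fin 2) (Fin 2) F) : Prop := P.trace = t ∧ P.det = ν ∨ P.trace * ν = t ∧ P.det * ν = 1

/-- products of two admissible matrices -/
def InA (A : Matrix (Fin 2) (Fin 2) F) : Prop := ∃ P Q : GL (Fin 2) F, Cl t ν P.1 ∧ Cl t ν Q.1 ∧ A = P.1 * Q.1

/-- the conditions on the parameters -/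
structure Par : Prop where
  irr : ∀ y, y ^ 2 - t * y + ν ≠ 0
  one : ν ≠ 1
  tr : t ≠ 0

variable {t ν}

theorem exists_par [Finite F] (h : 3 ≤ Nat.card F) : ∃ t ν : F, Par t ν := by
  have := Fintype.ofFinite F
  classical
  obtain ⟨ν, h0, h1⟩ : ∃ ν : F, ν ≠ 0 ∧ ν ≠ 1 := by
    by_contra! H
    have : (Finset.univ : Finset F) ⊆ {0, 1} := fun t _ => by have := H t; grind
    have := (Finset.card_le_card this).trans Finset.card_le_two
    rw [Finset.card_univ, ← Nat.card_eq_fintype_card] at this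
    omega
  obtain ⟨t, ht⟩ := not_forall.1 fun e : Function.Surjective fun y : F => y + ν / y =>
    h1 (Finite.injective_iff_surjective.2 e (by simp [h0, add_comm]))
  refine ⟨t, ν, fun y e => ?_, h1, fun e => ht ⟨0, by simp [e]⟩⟩
  have : y ≠ 0 := by rintro rfl; exact h0 (by simpa using e)
  exact ht ⟨y, by field_simp; linear_combination e⟩

namespace Par

variable (h : Par t ν)
include h

theorem ne : ν ≠ 0 := by simpa using h.irr 0

theorem inv : Par (t / ν) ν⁻¹ := by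
  have := h.ne
  refine ⟨fun y e => h.irr (ν * y) ?_, by simpa using h.one, div_ne_zero h.tr this⟩
  field_simp at e
  linear_combination ν * e

theorem quad {x y : F} (e : x ^ 2 - t * x * y + ν * y ^ 2 = 0) : x = 0 ∧ y = 0 := by
  have : y = 0 := not_not.1 fun hy => h.irr (x / y) (by field_simp; linear_combination e)
  exact ⟨by simpa [this] using e, this⟩

theorem fpf' {P : Matrix (Fin 2) (Fin 2) F} (h1 : P.trace = t) (h2 : P.det = ν) : P 1 0 ≠ 0 ∧ Fpf P := by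
  rw [trace_fin_two] at h1
  rw [det_fin_two] at h2
  refine ⟨fun e => h.irr (P 0 0) (by rw [← h1, ← h2, e]; ring), fun S hS e => ?_⟩
  have s := congrFun₂ hS 0 1
  have e0 := congrFun₂ e 0 0
  have e1 := congrFun₂ e 0 1
  have e2 := congrFun₂ e 1 1
  simp only [mul_apply, Fin.sum_univ_two, transpose_apply] at s e0 e1 e2
  rw [s] at e0 e2
  rw [s] at e1
  have k : (1 - ν) * ((1 + ν) ^ 2 - t ^ 2) ≠ 0 := mul_ne_zero (sub_ne_zero.2 h.one.symm) fun e =>
    (sq_eq_sq_iff_eq_or_eq_neg.1 (sub_eq_zero.1 e)).elim (fun e => h.irr 1 (by linear_combination e))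
      fun e => h.irr (-1) (by linear_combination e)
  rw [← h1, ← h2] at k
  set a := P 0 0; set b := P 0 1; set c := P 1 0; set d := P 1 1
  have z0 : S 0 0 = 0 := mul_left_cancel₀ k (by
    linear_combination (-((1 - a * d - b * c) * (1 - d ^ 2) - 2 * c * d * b * d)) * e0 - (2 * a * b * (1 - d ^ 2) + 2 * b ^ 2 * c * d) * e1
      - (2 * a * b * b * d + b ^ 2 * (1 - a * d - b * c)) * e2)
  have z1 : S 0 1 = 0 := mul_left_cancel₀ k (by
    linear_combination (-(a * c * (1 - d ^ 2) + b * d * c ^ 2)) * e0 - ((1 - a ^ 2) * (1 - d ^ 2) - b ^ 2 * c ^ 2) * e1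
      - (b * d * (1 - a ^ 2) + a * b ^ 2 * c) * e2)
  have z2 : S 1 1 = 0 := mul_left_cancel₀ k (by
    linear_combination (-(2 * a * c ^ 2 * d + c ^ 2 * (1 - a * d - b * c))) * e0 - (2 * c * d * (1 - a ^ 2) + 2 * a * b * c ^ 2) * e1
      - ((1 - a ^ 2) * (1 - a * d - b * c) - 2 * a * b * a * c) * e2)
  ext i j
  fin_cases i <;> fin_cases j <;> simp [z0, z1, z2, s]

theorem fpf {P : Matrix (Fin 2) (Fin 2) F} (hP : Cl t ν P) : Fpf P :=
  hP.elim (fun e => (h.fpf' e.1 e.2).2) fun e => (h.inv.fpf' (eq_div_of_mul_eq h.ne e.1) (eq_inv_of_mul_eq_one_left e.2)).2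

theorem conj {P : GL (Fin 2) F} (hP : Cl t ν P.1) : IsConj (lev (cmp t h.ne)) (lev P) := by
  rcases hP with e | e
  · exact lev_conj (isConj_cmp _ (h.fpf' e.1 e.2).1 e.1 e.2)
  · have h1 : (trG P⁻¹).1.trace = t ∧ (trG P⁻¹).1.det = ν := by
      simp only [trG, trace_transpose, det_transpose, coe_units_inv, det_nonsing_inv, Ring.inverse_eq_inv',
        ← eq_inv_of_mul_eq_one_right e.2, and_true]
      rw [inv_def, Ring.inverse_eq_inv', ← eq_inv_of_mul_eq_one_right e.2, ← e.1, trace_smul, adjugate_fin_two,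
        trace_fin_two, trace_fin_two]
      simp; ring
    exact (lev_conj (isConj_cmp _ (h.fpf' h1.1 h1.2).1 h1.1 h1.2)).trans (by simpa using (lev_trG P⁻¹).symm)

theorem good [Finite F] {g : symplecticGroup (Fin 2) F} (hg : InA t ν g.1.toBlocks₁₁) : InSq (lev (cmp t h.ne)) g := by
  obtain ⟨P, Q, hP, hQ, e⟩ := hg
  obtain ⟨a, b, ha, hb, e⟩ := gauss (h.fpf (by simpa [Cl] using hP)) (h.fpf hQ) e
  exact ⟨a, b, (h.conj hP).trans ha, (h.conj hQ).trans hb, e⟩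

theorem mkA {a b c α β γ δ : F} (h1 : a * (t - a) - b * c = ν) (h2 : α * δ - β * γ = ν ^ 2 ∧
    (t - a) * α - b * γ - c * β + a * δ = t * ν ∨ α * δ - β * γ = 1 ∧ (t - a) * α - b * γ - c * β + a * δ = t) :
    InA t ν !![α, β; γ, δ] := by
  have := h.ne
  have e : (ν⁻¹ • (!![t - a, -b; -c, a] * !![α, β; γ, δ])).det = (α * δ - β * γ) / ν := by
    simp [det_fin_two]; field_simp; linear_combination (α * δ - β * γ) * h1
  refine ⟨GeneralLinearGroup.mkOfDetNeZero !![a, b; c, t - a] (by simpa [h1] using this),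
    GeneralLinearGroup.mkOfDetNeZero (ν⁻¹ • (!![t - a, -b; -c, a] * !![α, β; γ, δ])) (by
      rw [e]; rcases h2 with e | e <;> simp [e.1, this]), .inl ⟨by simp, by simp [h1]⟩, h2.imp (fun e' => ?_) fun e' => ?_, ?_⟩
  · refine ⟨?_, e.trans (by rw [e'.1]; field_simp)⟩
    simp; field_simp; linear_combination e'.2
  · refine ⟨?_, (congrArg (· * ν) e).trans (by rw [e'.1]; field_simp)⟩
    simp; field_simp; linear_combination e'.2
  · ext i j
    fin_cases i <;> fin_cases j <;> simp [mul_apply, Fin.sum_univ_two] <;> field_simp <;> rw [← h1] <;> ring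

theorem tri {γ : F} (hγ : γ ≠ 0) : ∃ α, ∀ β, InA t ν !![α, β; 0, γ] := by
  have k : ∀ {α τ : F}, α ≠ γ → (α * γ = ν ^ 2 ∧ τ = t * ν ∨ α * γ = 1 ∧ τ = t) → ∀ β, InA t ν !![α, β; 0, γ] :=
    fun {α τ} e e' β => by
      have := sub_ne_zero.2 e.symm
      have k : (t - (τ + β - t * α) / (γ - α)) * α - 1 * β + (τ + β - t * α) / (γ - α) * γ = τ := by field_simp; ring
      refine h.mkA (a := (τ + β - t * α) / (γ - α)) (c := 1) (b := _ - ν) (by rw [mul_one, sub_sub_cancel]) ?_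
      simpa only [mul_zero, sub_zero, k] using e'
  by_cases h1 : γ⁻¹ ≠ γ
  · exact ⟨_, k h1 (.inr ⟨inv_mul_cancel₀ hγ, rfl⟩)⟩
  replace h1 : γ * γ = 1 := by rw [not_not] at h1; nth_rw 1 [← h1]; exact inv_mul_cancel₀ hγ
  by_cases h2 : ν ^ 2 * γ ≠ γ
  · exact ⟨_, k h2 (.inl ⟨by rw [mul_assoc, h1, mul_one], rfl⟩)⟩
  obtain rfl : ν = -1 := (sq_eq_one_iff.1 ((mul_eq_right₀ hγ).1 (not_not.1 h2))).resolve_left h.one
  have h3 : (2 : F) ≠ 0 := fun e => h.one (by linear_combination -e)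
  have := h.tr
  refine ⟨γ, fun β => ?_⟩
  by_cases hβ : β = 0
  · refine h.mkA (a := 0) (b := 1) (c := 1) (by ring) ?_
    rcases mul_self_eq_one_iff.1 h1 with rfl | rfl <;> simp [hβ]
  · refine h.mkA (a := 0) (b := β / (2 * t * γ)) (c := 2 * t * γ / β) (by field_simp; ring) ?_
    rcases mul_self_eq_one_iff.1 h1 with rfl | rfl 
    · exact .inl ⟨by ring, by field_simp; ring⟩
    · exact .inr ⟨by ring, by field_simp; ring⟩

theorem zero [Finite F] : ∃ A, InA t ν A ∧ A.trace = 0 := by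
  have := Fintype.ofFinite F
  by_cases h2 : ringChar F = 2
  · exact ⟨_, h.mkA (α := 1) (β := 0) (γ := 0) (δ := 1) (a := 0) (b := -ν) (c := 1) (by ring) (.inr (by simp)), by
      simpa [one_add_one_eq_two] using (ringChar.spec F 2).2 (h2 ▸ dvd_rfl)⟩
  · obtain ⟨a, c, e⟩ := FiniteField.exists_root_sum_quadratic (f := .C 1 * .X ^ 2 + .C (-t) * .X + .C ν)
      (g := .C 1 * .X ^ 2 + .C (-t) * .X + .C 0) (Polynomial.degree_quadratic one_ne_zero)
      (Polynomial.degree_quadratic one_ne_zero) (FiniteField.odd_card_of_char_ne_two h2)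
    simp at e
    exact ⟨_, h.mkA (α := 0) (β := -1) (γ := 1) (δ := 0) (a := a) (b := c - t) (c := c) (by linear_combination -e)
      (.inr (by simp)), by simp⟩

theorem case1 [Finite F] {g : symplecticGroup (Fin 2) F} (h0 : g.1.toBlocks₂₁ 0 0 ≠ 0) (h1 : g.1.toBlocks₂₁ 0 1 = 0) :
    InSq (lev (cmp t h.ne)) g := by
  have k : ∀ s (A : Matrix (Fin 2) (Fin 2) F), InA t ν A → ∀ y, A 0 1 = g.1.toBlocks₁₁ 0 1 + y * g.1.toBlocks₂₁ 1 1 →
      A 1 0 = g.1.toBlocks₁₁ 1 0 + y * g.1.toBlocks₂₁ 0 0 + s * g.1.toBlocks₂₁ 1 0 →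
      A 1 1 = g.1.toBlocks₁₁ 1 1 + s * g.1.toBlocks₂₁ 1 1 → InSq (lev (cmp t h.ne)) g := fun s A hA y e1 e2 e3 => by
    obtain ⟨g', c, e, -⟩ := mv_upp g (S := !![(A 0 0 - g.1.toBlocks₁₁ 0 0 - y * g.1.toBlocks₂₁ 1 0) / g.1.toBlocks₂₁ 0 0, y; y, s])
      (by ext i j; fin_cases i <;> fin_cases j <;> rfl)
    refine (h.good ((show A = _ from Eq.trans ?_ e.symm) ▸ hA)).conj (IsConj.refl _) c
    ext i j
    fin_cases i <;> fin_cases j <;> simp [vecMul, dotProduct, Fin.sum_univ_two, h1, e1, e2, e3, add_assoc]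
    field_simp; ring
  have k' : ∀ s, g.1.toBlocks₁₁ 1 1 + s * g.1.toBlocks₂₁ 1 1 ≠ 0 → InSq (lev (cmp t h.ne)) g := fun s e =>
    have ⟨α, hα⟩ := h.tri e
    k s _ (hα _) (-(g.1.toBlocks₁₁ 1 0 + s * g.1.toBlocks₂₁ 1 0) / g.1.toBlocks₂₁ 0 0) rfl (by simp; field_simp; ring) rfl
  by_contra h2
  have a1 : g.1.toBlocks₁₁ 1 1 = 0 := not_not.1 fun e => h2 (k' 0 (by simpa using e))
  have a2 : g.1.toBlocks₂₁ 1 1 = 0 := not_not.1 fun e => h2 (k' 1 (by simpa [a1] using e))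
  have a3 : g.1.toBlocks₁₁ 0 1 ≠ 0 := fun e => by
    have := congrFun₂ (fromBlocks_mem_iff.1 (fromBlocks_toBlocks g.1 ▸ g.2)).2.2 1 1
    simp [mul_apply, Fin.sum_univ_two, a1, a2, e, h1] at this
  have := h.tr
  set ρ := g.1.toBlocks₁₁ 0 1
  refine h2 (k 0 _ (h.mkA (a := 0) (c := 1) (b := -ν) (α := (t + ν / ρ + ρ) / t) (β := ρ) (γ := -ρ⁻¹) (δ := 0) (by ring)
    (.inr ⟨by field_simp; ring, by field_simp; ring⟩)) ((-ρ⁻¹ - g.1.toBlocks₁₁ 1 0) / g.1.toBlocks₂₁ 0 0) (by simp [a2])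
    (by simp; field_simp; ring) (by simp [a1]))

theorem case2 [Finite F] {g : symplecticGroup (Fin 2) F} (h0 : g.1.toBlocks₂₁ ≠ 0) : InSq (lev (cmp t h.ne)) g := by
  have k : ∀ {g : symplecticGroup (Fin 2) F}, g.1.toBlocks₂₁ 0 0 ≠ 0 → InSq (lev (cmp t h.ne)) g := fun {g} e => by
    obtain ⟨g', c, e'⟩ := mv_lev g (GeneralLinearGroup.mkOfDetNeZero
      !![1, -g.1.toBlocks₂₁ 0 1 / g.1.toBlocks₂₁ 0 0; 0, 1] (by simp))
    refine (h.case1 ?_ ?_).conj (IsConj.refl _) c <;> simp [e', mul_apply, Fin.sum_univ_two, vecMul, dotProduct, e]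
    field_simp; ring
  by_contra h2
  have k' : ∀ (T : Matrix (Fin 2) (Fin 2) F), T.det ≠ 0 → (Tᵀ * g.1.toBlocks₂₁ * T) 0 0 = 0 := fun T hT => by
    obtain ⟨g', c, e'⟩ := mv_lev g (GeneralLinearGroup.mkOfDetNeZero T hT)
    exact not_not.1 fun e => h2 ((k (e' ▸ e)).conj (IsConj.refl _) c)
  have c0 := k' 1 (by simp)
  have c1 := k' !![0, 1; 1, 0] (by simp)
  have c2 := k' !![1, 0; 1, 1] (by simp)
  simp [mul_apply, Fin.sum_univ_two, vecMul, dotProduct] at c0 c1 c2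
  have c3 : g.1.toBlocks₂₁ 1 0 = -g.1.toBlocks₂₁ 0 1 := by linear_combination c2 - c0 - c1
  have c4 : g.1.toBlocks₂₁ 0 1 ≠ 0 := fun e => h0 (by ext i j; fin_cases i <;> fin_cases j <;> simp [c0, c1, c3, e])
  have c5 := congrFun₂ (fromBlocks_mem_iff.1 (fromBlocks_toBlocks g.1 ▸ g.2)).1 0 1
  simp only [mul_apply, Fin.sum_univ_two, transpose_apply, c0, c1, c3] at c5
  obtain ⟨A, hA, e⟩ := h.zero
  rw [trace_fin_two] at e
  set c := g.1.toBlocks₂₁ 0 1
  obtain ⟨g', c', e', -⟩ := mv_upp g (S := !![(A 0 1 - g.1.toBlocks₁₁ 0 1) / c, (g.1.toBlocks₁₁ 0 0 - A 0 0) / c;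
    (g.1.toBlocks₁₁ 0 0 - A 0 0) / c, (g.1.toBlocks₁₁ 1 0 - A 1 0) / c]) (by ext i j; fin_cases i <;> fin_cases j <;> rfl)
  refine h2 ((h.good ((show A = _ from Eq.trans ?_ e'.symm) ▸ hA)).conj (IsConj.refl _) c')
  ext i j
  have c6 : g.1.toBlocks₁₁ 1 1 = -g.1.toBlocks₁₁ 0 0 := mul_left_cancel₀ c4 (by linear_combination c5)
  fin_cases i <;> fin_cases j <;> simp [vecMul, dotProduct, Fin.sum_univ_two, c0, c1, c3, c4, c6, ← neg_div]
  · rw [div_mul_cancel₀ _ c4]; ring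
  · rw [div_mul_cancel₀ _ c4]; linear_combination e

theorem main [Finite F] {g : symplecticGroup (Fin 2) F} (h0 : g ∉ Subgroup.center _) : InSq (lev (cmp t h.ne)) g := by
  by_contra h2
  have k : ∀ {g'}, IsConj g' g → g'.1.toBlocks₂₁ = 0 := fun c => not_not.1 fun e => h2 ((h.case2 e).conj (IsConj.refl _) c)
  have c0 := k (IsConj.refl g)
  obtain ⟨_, c, e⟩ := mv_J g
  have c1 := neg_eq_zero.1 (e.symm.trans (k c))
  have k' : ∀ S : Matrix (Fin 2) (Fin 2) F, Sᵀ = S → S * g.1.toBlocks₁₁ = g.1.toBlocks₂₂ * S := fun S hS => by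
    obtain ⟨_, c, e⟩ := mv_low g hS
    simpa [c0, c1, sub_eq_zero] using e.symm.trans (k c)
  have c2 := k' 1 transpose_one
  have c3 := k' !![1, 0; 0, 0] (by ext i j; fin_cases i <;> fin_cases j <;> rfl)
  have c4 := congrFun₂ (k' !![0, 1; 1, 0] (by ext i j; fin_cases i <;> fin_cases j <;> rfl)) 0 1
  rw [Matrix.one_mul, Matrix.mul_one] at c2
  rw [← c2] at c3 c4
  have c5 := congrFun₂ c3 0 1
  have c6 := congrFun₂ c3 1 0
  simp [mul_apply, vecMul, dotProduct, Fin.sum_univ_two] at c4 c5 c6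
  have e : g.1 = g.1.toBlocks₁₁ 0 0 • 1 := by
    rw [← fromBlocks_one, fromBlocks_smul, smul_zero]
    refine (fromBlocks_toBlocks g.1).symm.trans ?_
    rw [← c2, c0, c1]
    congr 1 <;> ext i j <;> fin_cases i <;> fin_cases j <;> simp [c4, c5, c6.symm]
  exact h0 (Subgroup.mem_center_iff.2 fun y => Subtype.ext (by rw [Submonoid.coe_mul, Submonoid.coe_mul, e]; simp))

theorem order [Finite F] (p : ℕ) [Fact p.Prime] [CharP F p] : ¬ p ∣ orderOf (cmp t h.ne) := fun e => by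
  have k : ∀ m : ℕ, ∃ a b : F, (cmp t h.ne ^ m).1 = !![a, -ν * b; b, a + t * b] := fun m => by
    induction m with
    | zero => exact ⟨1, 0, by simp [one_fin_two]⟩
    | succ m ih =>
      obtain ⟨a, b, e⟩ := ih
      exact ⟨-ν * b, a + t * b, by rw [pow_succ, Units.val_mul, e]; simp [cmp]; constructor <;> ring⟩
  have h1 := orderOf_pow_orderOf_div (orderOf_pos (cmp t h.ne)).ne' e
  obtain ⟨a, b, e⟩ := k (orderOf (cmp t h.ne) / p)
  generalize cmp t h.ne ^ _ = u at e h1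
  have h2 : (u.1 - 1) ^ p = 0 := by
    rw [sub_pow_char_of_commute _ (Commute.one_right _), ← Units.val_pow_eq_pow_val, ← h1, pow_orderOf_eq_one]; simp
  have h3 := pow_eq_zero_iff (Fact.out : p.Prime).ne_zero |>.1 ((det_pow ..).symm.trans ((congrArg det h2).trans det_zero))
  have h4 := h.quad (x := 1 - a) (y := b) (by rw [← h3, e, det_fin_two]; simp; ring)
  obtain rfl : u = 1 := Units.ext (by rw [e, ← sub_eq_zero.1 h4.1, h4.2]; simp [one_fin_two])
  exact (Fact.out : p.Prime).ne_one (h1.symm.trans orderOf_one)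

end Par

end H23.SO
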