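import Mathlib

/-!
Isometries of symplectic spaces: invariant pieces.
-/

namespace H23.SO

open Module Polynomial

variable {F V : Type*} [Field F] [AddCommGroup V] [Module F V] (ω : LinearMap.BilinForm F V)

/-- nondegenerate subspaces -/
def Nd (U : Submodule F V) : Prop := ∀ u ∈ U, (∀ w ∈ U, ω u w = 0) → u = 0

/-- orthogonal subspaces -/
def Ort (X Y : Submodule F V) : Prop := ∀ x ∈ X, ∀ y ∈ Y, ω x y = 0

/-- invariant subspaces -/
def Inv (G : End F V) (U : Submodule F V) : Prop := ∀ u ∈ U, G u ∈ U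

/-- a pair of Lagrangians adapted to `G` -/
def SG (G : End F V) (U : Submodule F V) : Prop :=
  ∃ X Y, X ⊔ Y = U ∧ Ort ω X X ∧ Ort ω Y Y ∧ ∀ x ∈ X, G x - x ∈ Y

/-- isometric on a subspace -/
def IsoOn (a : End F V) (U : Submodule F V) : Prop := Inv a U ∧ ∀ u ∈ U, ∀ w ∈ U, ω (a u) (a w) = ω u w

/-- `G` is a commutator on `U` -/
def Com (G : End F V) (U : Submodule F V) : Prop :=
  ∃ a b, IsoOn ω a U ∧ IsoOn ω b U ∧ ∀ u ∈ U, a (b u) = G (b (a u))

/-- an isometry with its inverse -/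
structure Iso (G G' : End F V) : Prop where
  alt : ∀ x, ω x x = 0
  l : G' * G = 1
  r : G * G' = 1
  iso : ∀ x y, ω (G x) (G y) = ω x y

/-- cyclic subspaces -/
noncomputable def cyc (T : End F V) (x : V) : Submodule F V :=
  LinearMap.range (LinearMap.applyₗ x ∘ₗ (aeval T).toLinearMap)

variable {ω} {G G' T : End F V} {U U' X Y : Submodule F V} {x y : V}

theorem mem_cyc : y ∈ cyc T x ↔ ∃ p : F[X], aeval T p x = y := Iff.rfl

theorem self_mem_cyc : x ∈ cyc T x := ⟨1, by simp⟩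

theorem Inv.aeval (h : Inv T U) (p : F[X]) : Inv (aeval T p) U := fun u hu =>
  aeval_apply_smul_mem_of_le_comap hu p T h

theorem Inv.pow (h : Inv T U) (n : ℕ) : Inv (T ^ n) U := by simpa using h.aeval (.X ^ n)

theorem cyc_le (h : Inv T U) (hx : x ∈ U) : cyc T x ≤ U := by rintro _ ⟨p, rfl⟩; exact h.aeval p x hx

theorem aeval_comm {S : End F V} (h : Commute T S) (p : F[X]) (x : V) : aeval T p (S x) = S (aeval T p x) :=
  LinearMap.congr_fun (((Algebra.commute_of_mem_adjoin_singleton_of_commute (aeval_mem_adjoin_singleton F T) h.symm)).symm.eq) x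

theorem inv_cyc : Inv T (cyc T x) := by rintro _ ⟨p, rfl⟩; exact ⟨.X * p, by simp⟩

theorem Inv.sup (h : Inv T U) (h' : Inv T U') : Inv T (U ⊔ U') := fun u hu => by
  obtain ⟨a, ha, b, hb, rfl⟩ := Submodule.mem_sup.1 hu
  exact map_add T a b ▸ Submodule.add_mem_sup (h a ha) (h' b hb)

theorem Inv.neg (h : Inv T U) : Inv (-T) U := fun u hu => neg_mem (h u hu)

theorem Inv.cyc_of {S : End F V} (h : Commute T S) (hx : S x ∈ cyc T x) : Inv S (cyc T x) := by
  rintro _ ⟨p, rfl⟩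
  exact (aeval_comm h p x) ▸ inv_cyc.aeval p _ hx

theorem cyc_neg : cyc (-T) x = cyc T x :=
  le_antisymm (cyc_le inv_cyc.neg self_mem_cyc) (cyc_le (by simpa using (inv_cyc (T := -T)).neg) self_mem_cyc)

theorem Ort.sup_left {Z : Submodule F V} (h : Ort ω X Z) (h' : Ort ω Y Z) : Ort ω (X ⊔ Y) Z := fun u hu z hz => by
  obtain ⟨a, ha, b, hb, rfl⟩ := Submodule.mem_sup.1 hu
  simp [h a ha z hz, h' b hb z hz]

theorem Ort.sup_right {Z : Submodule F V} (h : Ort ω Z X) (h' : Ort ω Z Y) : Ort ω Z (X ⊔ Y) := fun z hz u hu => by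
  obtain ⟨a, ha, b, hb, rfl⟩ := Submodule.mem_sup.1 hu
  simp [h z hz a ha, h' z hz b hb]

theorem Ort.mono {X' Y' : Submodule F V} (h : Ort ω X Y) (h1 : X' ≤ X) (h2 : Y' ≤ Y) : Ort ω X' Y' :=
  fun x hx y hy => h x (h1 hx) y (h2 hy)

theorem Nd.disjoint (h : Nd ω U) (h' : Ort ω U' U) : Disjoint U U' :=
  Submodule.disjoint_def.2 fun u a b => h u a (h' u b)

theorem adj_aeval {S : End F V} (h : ∀ x y, ω (T x) y = ω x (S y)) (p : F[X]) (x y : V) :
    ω (aeval T p x) y = ω x (aeval S p y) := by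
  induction p using Polynomial.induction_on generalizing x y with
  | C a => simp
  | add p q hp hq => simp [hp, hq]
  | monomial n a ih =>
    rw [pow_succ, ← mul_assoc, map_mul, aeval_X, End.mul_apply, ih, h, mul_comm _ (Polynomial.X : F[X]), map_mul _ Polynomial.X, aeval_X,
      End.mul_apply]

theorem adj_pow {S : End F V} (h : ∀ x y, ω (T x) y = ω x (S y)) (n : ℕ) (x y : V) : ω ((T ^ n) x) y = ω x ((S ^ n) y) := by
  simpa using adj_aeval h (.X ^ n) x y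

theorem nd_of_nil {π π' : End F V} (h : ∀ x y, ω (π x) y = ω x (π' y)) (h1 : Inv π' U) {k : ℕ} (h2 : ∀ u ∈ U, (π ^ (k + 1)) u = 0)
    (h3 : ∀ w ∈ U, (∀ y ∈ U, ω ((π ^ k) w) y = 0) → ∃ w' ∈ U, w = π w') : Nd ω U := fun u hu h0 => by
  have : ∀ i ≤ k + 1, ∃ w ∈ U, u = (π ^ i) w := fun i hi => by
    induction i with
    | zero => exact ⟨u, hu, rfl⟩
    | succ i ih =>
      obtain ⟨w, hw, rfl⟩ := ih (by omega)
      obtain ⟨w', hw', rfl⟩ := h3 w hw fun y hy => by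
        rw [show k = k - i + i by omega, pow_add, End.mul_apply, adj_pow h, h0 _ (h1.pow _ y hy)]
      exact ⟨w', hw', by rw [pow_succ, End.mul_apply]⟩
  obtain ⟨w, hw, rfl⟩ := this _ le_rfl
  exact h2 w hw

theorem com_of_one (h : ∀ u ∈ U, G u = u) : Com ω G U :=
  ⟨1, 1, ⟨fun _ h => h, fun _ _ _ _ => rfl⟩, ⟨fun _ h => h, fun _ _ _ _ => rfl⟩, fun u hu => (h u hu).symm⟩

theorem exists_min {π : End F V} (h0 : U ≠ ⊥) {n : ℕ} (h : ∀ u ∈ U, (π ^ n) u = 0) :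
    ∃ k, (∀ u ∈ U, (π ^ (k + 1)) u = 0) ∧ ∃ u ∈ U, (π ^ k) u ≠ 0 := by
  induction n with
  | zero => exact (h0 ((Submodule.eq_bot_iff _).2 h)).elim
  | succ n ih =>
    by_cases e : ∀ u ∈ U, (π ^ n) u = 0
    exacts [ih e, ⟨n, h, by simpa using e⟩]

namespace Iso

variable (h : Iso ω G G')
include h

theorem skew (x y : V) : ω x y = -ω y x := (LinearMap.IsAlt.neg h.alt y x).symm

theorem ll (x : V) : G' (G x) = x := LinearMap.congr_fun h.l x

theorem rr (x : V) : G (G' x) = x := LinearMap.congr_fun h.r x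

theorem adj (x y : V) : ω (G x) y = ω x (G' y) := by rw [← h.iso x, h.rr]

theorem symm : Iso ω G' G := ⟨h.alt, h.r, h.l, fun x y => by rw [← h.iso, h.rr, h.rr]⟩

theorem neg : Iso ω (-G) (-G') := ⟨h.alt, by simp [h.l], by simp [h.r], by simp [h.iso]⟩

theorem comm : Commute G G' := h.r.trans h.l.symm

theorem ort_symm (e : Ort ω X Y) : Ort ω Y X := fun y hy x hx => by rw [h.skew, e x hx y hy, neg_zero]

theorem adj_s (x y : V) : ω ((G + G') x) y = ω x ((G + G') y) := by simp [h.adj, h.symm.adj, add_comm]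

theorem comm_s : Commute (G + G') G := (Commute.refl G).add_left h.comm.symm

theorem alt_s (p : F[X]) (x : V) : ω x (aeval (G + G') p x) = 0 := by
  have : ∀ n x, ω x (((G + G') ^ n) x) = 0 := fun n => by
    induction n using Nat.twoStepInduction with
    | zero => exact h.alt
    | one => intro x; simp [← h.adj, h.skew (G x)]
    | more n ih _ => intro x; rw [pow_succ, pow_succ', End.mul_apply, End.mul_apply, ← h.adj_s, ih]
  rw [aeval_eq_sum_range]
  simp [this]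

theorem ort_cyc (e : ∀ w ∈ cyc (G + G') x, ω w y = 0) : Ort ω (cyc (G + G') x) (cyc (G + G') y) := by
  rintro _ ⟨p, rfl⟩ _ ⟨q, rfl⟩
  exact (adj_aeval h.adj_s q _ _).symm.trans (e _ (inv_cyc.aeval q _ ⟨p, rfl⟩))

theorem ort_self (x : V) : Ort ω (cyc (G + G') x) (cyc (G + G') x) :=
  h.ort_cyc (by rintro _ ⟨p, rfl⟩; exact (adj_aeval h.adj_s ..).trans (h.alt_s ..))

theorem nd_sup (h1 : Nd ω U) (h2 : Nd ω U') (e : Ort ω U U') : Nd ω (U ⊔ U') := fun u hu h0 => by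
  obtain ⟨a, ha, b, hb, rfl⟩ := Submodule.mem_sup.1 hu
  rw [h1 a ha fun w hw => by simpa [h.ort_symm e b hb w hw] using h0 w (Submodule.mem_sup_left hw),
    h2 b hb fun w hw => by simpa [e a ha w hw] using h0 w (Submodule.mem_sup_right hw), add_zero]

theorem sg_sup (h1 : SG ω T U) (h2 : SG ω T U') (e : Ort ω U U') : SG ω T (U ⊔ U') := by
  obtain ⟨X, Y, rfl, a1, a2, a3⟩ := h1
  obtain ⟨X', Y', rfl, b1, b2, b3⟩ := h2
  have e' := h.ort_symm e
  refine ⟨X ⊔ X', Y ⊔ Y', sup_sup_sup_comm .., (a1.sup_right (e.mono le_sup_left le_sup_left)).sup_left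
    ((e'.mono le_sup_left le_sup_left).sup_right b1), (a2.sup_right (e.mono le_sup_right le_sup_right)).sup_left
    ((e'.mono le_sup_right le_sup_right).sup_right b2), fun u hu => ?_⟩
  obtain ⟨a, ha, b, hb, rfl⟩ := Submodule.mem_sup.1 hu
  rw [map_add, add_sub_add_comm]
  exact Submodule.add_mem_sup (a3 a ha) (b3 b hb)

theorem com_sup (h0 : Nd ω U) (h1 : Com ω T U) (h2 : Com ω T U') (e : Ort ω U U') : Com ω T (U ⊔ U') := by
  obtain ⟨a, b, a1, a2, a3⟩ := h1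
  obtain ⟨a', b', b1, b2, b3⟩ := h2
  obtain ⟨W, hW, hc⟩ := (h0.disjoint (h.ort_symm e)).symm.exists_isCompl
  let p : End F V := U.projection W hc.symm
  have k : ∀ (a a' : End F V), ∀ u ∈ U, ∀ u' ∈ U', (a * p + a' * (1 - p)) (u + u') = a u + a' u' := fun a a' u hu u' hu' => by
    simp [p, Submodule.projection_apply_of_mem_left hc.symm hu, (Submodule.projection_apply_eq_zero_iff hc.symm).2 (hW hu')]
  have k' : ∀ {a a' : End F V}, IsoOn ω a U → IsoOn ω a' U' → IsoOn ω (a * p + a' * (1 - p)) (U ⊔ U') := fun {a a'} h1 h2 => by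
    refine ⟨fun u hu => ?_, fun u hu w hw => ?_⟩ <;> obtain ⟨x, hx, y, hy, rfl⟩ := Submodule.mem_sup.1 hu
    · exact k a a' x hx y hy ▸ Submodule.add_mem_sup (h1.1 x hx) (h2.1 y hy)
    · obtain ⟨x', hx', y', hy', rfl⟩ := Submodule.mem_sup.1 hw
      rw [k a a' x hx y hy, k a a' x' hx' y' hy']
      simp [h1.2 x hx x' hx', h2.2 y hy y' hy', e _ hx _ hy', e _ (h1.1 x hx) _ (h2.1 _ hy'), h.ort_symm e _ hy _ hx',
        h.ort_symm e _ (h2.1 y hy) _ (h1.1 _ hx')]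
  refine ⟨_, _, k' a1 b1, k' a2 b2, fun u hu => ?_⟩
  obtain ⟨x, hx, y, hy, rfl⟩ := Submodule.mem_sup.1 hu
  rw [k _ _ x hx y hy, k _ _ x hx y hy, k _ _ _ (a2.1 x hx) _ (b2.1 y hy), k _ _ _ (a1.1 x hx) _ (b1.1 y hy), map_add,
    a3 x hx, b3 y hy]

theorem ss (x : V) : G (G x) = (G + G') (G x) - x := by simp [h.ll]

theorem inv_two {Z : Submodule F V} (h1 : Inv (G + G') Z) (hx : x ∈ Z) (hy : G x ∈ Z) : cyc G x ≤ Z := by
  have c : ∀ p y, G (aeval (G + G') p y) = aeval (G + G') p (G y) := fun p y => (aeval_comm h.comm_s p y).symm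
  refine (cyc_le (U := cyc (G + G') x ⊔ cyc (G + G') (G x)) (fun u hu => ?_)
    (Submodule.mem_sup_left self_mem_cyc)).trans (sup_le (cyc_le h1 hx) (cyc_le h1 hy))
  obtain ⟨_, ⟨p, rfl⟩, _, ⟨q, rfl⟩, rfl⟩ := Submodule.mem_sup.1 hu
  change G (aeval (G + G') p x + aeval (G + G') q (G x)) ∈ _
  rw [map_add, c, c, h.ss, map_sub]
  exact add_mem (Submodule.mem_sup_right ⟨p, rfl⟩) (sub_mem (Submodule.mem_sup_right (inv_cyc.aeval q _
    (inv_cyc _ self_mem_cyc))) (Submodule.mem_sup_left ⟨q, rfl⟩))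

theorem sub_mem_cyc {z : V} (hz : z ∈ cyc (G + G') x) : G z - z ∈ cyc (G + G') (G x - x) := by
  obtain ⟨p, rfl⟩ := hz
  exact ⟨p, aeval_comm (h.comm_s.sub_right (Commute.one_right _)) p x⟩

variable [FiniteDimensional F V]

theorem inv' (e : Inv G U) : Inv G' U := fun u hu => by
  obtain ⟨w, hw⟩ := (LinearMap.injective_iff_surjective (f := G.restrict e)).1 (fun a b e =>
    Subtype.ext (by rw [← h.ll a, ← h.ll b]; exact congrArg (G' ·.1) e)) ⟨u, hu⟩
  rw [← show G w = u from congrArg Subtype.val hw, h.ll]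
  exact w.2

theorem inv_s (e : Inv G U) : Inv (G + G') U := fun u hu => add_mem (e u hu) (h.inv' e u hu)

theorem sg_cyc (x : V) : SG ω G (cyc G x) := by
  refine ⟨_, _, le_antisymm (sup_le (cyc_le (h.inv_s inv_cyc) self_mem_cyc) (cyc_le (h.inv_s inv_cyc)
    (sub_mem (inv_cyc _ self_mem_cyc) self_mem_cyc))) (h.inv_two (inv_cyc.sup inv_cyc) (Submodule.mem_sup_left self_mem_cyc) ?_),
    h.ort_self x, h.ort_self (G x - x), fun z => h.sub_mem_cyc⟩
  simpa using Submodule.add_mem_sup (self_mem_cyc (T := G + G') (x := x)) (self_mem_cyc (T := G + G') (x := G x - x))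

theorem rep (h1 : Nd ω U) (φ : V →ₗ[F] F) : ∃ f ∈ U, ∀ u ∈ U, ω u f = φ u := by
  obtain ⟨f, hf⟩ := (LinearMap.injective_iff_surjective_of_finrank_eq_finrank (f := (ω.restrict U).flip)
    Subspace.dual_finrank_eq.symm).1 ((injective_iff_map_eq_zero _).2 fun a e => Subtype.ext (h1 a a.2 fun w hw => by
      rw [h.skew, neg_eq_zero]; exact LinearMap.congr_fun e ⟨w, hw⟩)) (φ.domRestrict U)
  exact ⟨f, f.2, fun u hu => LinearMap.congr_fun hf ⟨u, hu⟩⟩

theorem dual (h1 : Nd ω U) (h2 : X ≤ U) (hx : x ∈ U) (h3 : x ∉ X) : ∃ f ∈ U, (∀ w ∈ X, ω w f = 0) ∧ ω x f ≠ 0 := by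
  obtain ⟨φ, h4, h5⟩ := X.exists_dual_map_eq_bot_of_notMem h3 inferInstance
  obtain ⟨f, hf, e⟩ := h.rep h1 φ
  exact ⟨f, hf, fun w hw => (e w (h2 hw)).trans (h5.le ⟨w, hw, rfl⟩), e x hx ▸ h4⟩

theorem compl (h1 : Nd ω U) (h2 : Inv G U) (h3 : X ≤ U) (h4 : Nd ω X) (h5 : Inv G X) :
    ∃ Y, X ⊔ Y = U ∧ Ort ω X Y ∧ Nd ω Y ∧ Inv G Y := by
  let Y : Submodule F V := U ⊓ ⨅ x : X, LinearMap.ker (ω x)
  have m : ∀ {y}, y ∈ Y ↔ y ∈ U ∧ ∀ x ∈ X, ω x y = 0 := by simp [Y]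
  have e : X ⊔ Y = U := le_antisymm (sup_le h3 inf_le_left) fun u hu => by
    obtain ⟨f, hf, e⟩ := h.rep h4 (ω.flip u)
    exact add_sub_cancel f u ▸ Submodule.add_mem_sup hf (m.2 ⟨sub_mem hu (h3 hf), fun x hx => by simp [e x hx]⟩)
  refine ⟨Y, e, fun x hx y hy => (m.1 hy).2 x hx, fun y hy h0 => h1 y hy.1 fun w hw => ?_, fun y hy =>
    m.2 ⟨h2 y hy.1, fun x hx => by rw [← h.symm.adj, (m.1 hy).2 _ (h.inv' h5 x hx)]⟩⟩
  obtain ⟨a, ha, b, hb, rfl⟩ := Submodule.mem_sup.1 (e.ge hw)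
  rw [map_add, h0 b hb, h.skew, (m.1 hy).2 a ha, neg_zero, add_zero]

theorem primary (h0 : U ≠ ⊥) (h1 : Nd ω U) (h2 : Inv G U) : ∃ Z ≤ U, Z ≠ ⊥ ∧ Nd ω Z ∧ Inv G Z ∧
    ∃ (p : F[X]) (n : ℕ), Irreducible p ∧ ∀ z ∈ Z, (aeval (G + G') p ^ n) z = 0 := by
  obtain ⟨p, hp, u, hu, u0, e⟩ : ∃ p : F[X], Irreducible p ∧ ∃ u ∈ U, u ≠ 0 ∧ aeval (G + G') p u = 0 := by
    by_contra! H
    have : ∀ q : F[X], q ≠ 0 → ∀ u ∈ U, aeval (G + G') q u = 0 → u = 0 := fun q => by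
      induction q using WfDvdMonoid.induction_on_irreducible with
      | zero => simp
      | unit q hq =>
        obtain ⟨c, hc, rfl⟩ := isUnit_iff.1 hq
        simp [hc.ne_zero]
      | mul q p hq hp ih =>
        exact fun _ u hu e => ih hq u hu (not_not.1 fun e' => H p hp _ ((h.inv_s h2).aeval q u hu) e' (by simpa using e))
    exact h0 ((Submodule.eq_bot_iff _).2 fun u hu => this _ (G + G').charpoly_monic.ne_zero u hu (by
      rw [LinearMap.aeval_self_charpoly]; rfl))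
  have h3 : ∀ u ∈ U, aeval (G + G') p u ∈ U := (h.inv_s h2).aeval p
  obtain ⟨n, hn, n0⟩ := ((LinearMap.eventually_isCompl_ker_pow_range_pow ((aeval (G + G') p).restrict h3)).and
    (Filter.eventually_gt_atTop 0)).exists
  have c : ∀ u : U, (((aeval (G + G') p).restrict h3 ^ n) u : V) = (aeval (G + G') p ^ n) u := fun u => by
    rw [Module.End.pow_restrict]; rfl
  refine ⟨U ⊓ LinearMap.ker (aeval (G + G') p ^ n), inf_le_left, fun e' => u0 ((Submodule.eq_bot_iff _).1 e' u ⟨hu, ?_⟩),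
    fun z hz e' => h1 z hz.1 fun w hw => ?_, fun z hz => ⟨h2 z hz.1, ?_⟩, p, n, hp, fun z hz => hz.2⟩
  · obtain ⟨m, rfl⟩ := Nat.exists_eq_succ_of_ne_zero n0.ne'
    change (_ ^ (m + 1) : End F V) u = 0
    rw [pow_succ, End.mul_apply, e, map_zero]
  · obtain ⟨a, ha, _, ⟨b, rfl⟩, e⟩ := Submodule.mem_sup.1 (hn.sup_eq_top.ge (Submodule.mem_top (x := (⟨w, hw⟩ : U))))
    rw [← show a + _ = w from congrArg Subtype.val e, map_add, c, ← adj_pow (adj_aeval h.adj_s p), show _ = (0 : V) from hz.2,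
      e' a ⟨a.2, (c a).symm.trans (congrArg Subtype.val ha)⟩]
    simp
  · change (_ ^ n : End F V) (G z) = 0
    rw [← map_pow, aeval_comm h.comm_s, map_pow, show _ = (0 : V) from hz.2, map_zero]

theorem etale {Z : Submodule F V} (h0 : Z ≠ ⊥) (h1 : Nd ω Z) (h2 : Inv G Z) {p : F[X]} {n : ℕ} (hp : Irreducible p)
    (h3 : ∀ z ∈ Z, (aeval (G + G') p ^ n) z = 0) (h4 : IsCoprime p (.X ^ 2 - 4)) : ∃ x ∈ Z, x ≠ 0 ∧ Nd ω (cyc G x) := by
  obtain ⟨k, k1, u, hu, k2⟩ := exists_min h0 h3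
  have s := h.inv_s h2
  have a := adj_aeval h.adj_s
  have kill : ∀ (c : F[X]), ∀ z ∈ Z, aeval (G + G') (p ^ k * (c * p)) z = 0 := fun c z hz => by
    rw [mul_left_comm, ← pow_succ, map_mul, map_pow, End.mul_apply, k1 z hz, map_zero]
  obtain ⟨x, hx, e⟩ : ∃ x ∈ Z, ω (aeval (G + G') (p ^ k) x) (G x) ≠ 0 := by
    by_contra! H
    have h5 : ∀ y ∈ Z, aeval (G + G') (p ^ k) ((G - G') y) = 0 := fun y hy =>
      h1 _ (s.aeval _ _ (sub_mem (h2 y hy) (h.inv' h2 y hy))) fun x hx => by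
        have := H _ (add_mem hx hy)
        simp only [map_add, LinearMap.add_apply, H x hx, H y hy] at this
        rw [a, h.skew, LinearMap.sub_apply, map_sub, ← h.adj, ← aeval_comm h.comm_s, a _ (G x), h.skew (G x)]
        linear_combination -this
    obtain ⟨c, d, e⟩ := h4
    refine k2 ?_
    have e1 : aeval (G + G') (.X ^ 2 - 4 : F[X]) = (G - G') * (G - G') := by
      simp only [map_sub, map_mul, aeval_X, map_ofNat, sq, mul_add, add_mul, mul_sub, sub_mul, h.l, h.r]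
      rw [show (4 : End F V) = 1 + 1 + 1 + 1 by norm_num]; abel
    rw [← map_pow, ← mul_one (p ^ k), ← e, mul_add, map_add, LinearMap.add_apply, kill c u hu, mul_left_comm, map_mul,
      map_mul, e1, End.mul_apply, End.mul_apply, End.mul_apply, h5 ((G - G') u) (sub_mem (h2 u hu) (h.inv' h2 u hu)), map_zero, add_zero]
  have le := cyc_le h2 hx
  refine ⟨x, hx, by rintro rfl; simp at e, nd_of_nil (a p) ((h.inv_s inv_cyc).aeval p) (fun u hu => k1 u (le hu)) fun w hw h5 => ?_⟩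
  obtain ⟨_, ⟨b, rfl⟩, _, ⟨c, rfl⟩, rfl⟩ := Submodule.mem_sup.1 (h.inv_two (inv_cyc.sup inv_cyc)
    (Submodule.mem_sup_left self_mem_cyc) (Submodule.mem_sup_right self_mem_cyc) hw)
  have m : ∀ d : F[X], aeval (G + G') d x ∈ cyc G x ∧ aeval (G + G') d (G x) ∈ cyc G x := fun d =>
    ⟨(h.inv_s inv_cyc).aeval d _ self_mem_cyc, (h.inv_s inv_cyc).aeval d _ (inv_cyc _ self_mem_cyc)⟩
  have k3 : ∀ (b : F[X]) (y : V), (aeval (G + G') p ^ k) (aeval (G + G') b y) = aeval (G + G') (p ^ k * b) y := by simp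
  have k4 : ∀ b : F[X], (∀ d, ω (aeval (G + G') (p ^ k * (d * b)) x) (G x) = 0) → p ∣ b := fun b hb => by
    by_contra h6
    obtain ⟨c, d, e'⟩ := hp.coprime_iff_not_dvd.2 h6
    exact e (by rw [← mul_one (p ^ k), ← e', mul_add, map_add, LinearMap.add_apply, kill c x hx, zero_add, hb])
  have k5 : ∀ (b d : F[X]) (y z : V), ω (aeval (G + G') (p ^ k * b) y) (aeval (G + G') d z) =
      ω (aeval (G + G') (p ^ k * (d * b)) y) z := fun b d y z => by
    rw [← a, mul_left_comm, map_mul _ d, End.mul_apply]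
  change ∀ y ∈ _, ω ((_ ^ k : End F V) (aeval (G + G') b x + aeval (G + G') c (G x))) y = 0 at h5
  simp only [map_add, k3, LinearMap.add_apply] at h5
  obtain ⟨b, rfl⟩ := k4 b fun d => by
    have := h5 _ (m d).2
    rwa [k5, k5, a _ (G x), h.alt_s, add_zero] at this
  obtain ⟨c, rfl⟩ := k4 c fun d => by
    have := h5 _ (m d).1
    rw [k5, k5, a _ x, h.alt_s, zero_add, a, h.skew] at this
    exact neg_eq_zero.1 this
  exact ⟨_, add_mem (m b).1 (m c).2, by simp⟩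

theorem two (h1 : Nd ω U) (h2 : Inv G U) (h3 : finrank F U = 2) : SG ω (-G) U ∨ Com ω G U := by
  have k : ∀ x ∈ U, ∀ y ∈ U, y ∉ F ∙ x → x ≠ 0 → (F ∙ x) ⊔ (F ∙ y) = U := fun x hx y hy e x0 =>
    Submodule.eq_of_le_of_finrank_le (sup_le ((Submodule.span_singleton_le_iff_mem ..).2 hx)
      ((Submodule.span_singleton_le_iff_mem ..).2 hy)) (by
      rw [h3, Submodule.finrank_sup_span_singleton e, finrank_span_singleton x0])
  by_cases e : ∃ x ∈ U, G x ∉ F ∙ x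
  · obtain ⟨x, hx, e⟩ := e
    refine .inl (le_antisymm (cyc_le h2.neg hx) ((k x hx _ (h2 x hx) e (by rintro rfl; simp at e)).ge.trans (sup_le ?_ ?_)) ▸
      h.neg.sg_cyc x) <;> rw [Submodule.span_singleton_le_iff_mem, cyc_neg]
    exacts [self_mem_cyc, inv_cyc _ self_mem_cyc]
  replace e : ∀ x ∈ U, ∃ a : F, a • x = G x := fun x hx => Submodule.mem_span_singleton.1 (not_not.1 fun e' => e ⟨x, hx, e'⟩)
  obtain ⟨x, hx, x0⟩ := (Submodule.ne_bot_iff U).1 (by rintro rfl; simp at h3)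
  obtain ⟨y, hy, e1⟩ : ∃ y ∈ U, ω x y ≠ 0 := by simpa using mt (h1 x hx) x0
  have e2 := k x hx y hy (fun e => by obtain ⟨c, rfl⟩ := Submodule.mem_span_singleton.1 e; simp [h.alt] at e1) x0
  obtain ⟨a, ha⟩ := e x hx
  obtain ⟨b, hb⟩ := e y hy
  obtain ⟨c, hc⟩ := e _ (add_mem hx hy)
  rw [map_add, ← ha, ← hb] at hc
  have c1 := congrArg (ω x) hc
  have c2 := congrArg (ω · y) hc
  have c3 := h.iso x y
  simp [h.alt, e1, ← ha, ← hb] at c1 c2 c3
  subst c1 c2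
  have o : ∀ x, Ort ω (F ∙ x) (F ∙ x) := fun x _ ha _ hb => by
    obtain ⟨a, rfl⟩ := Submodule.mem_span_singleton.1 ha
    obtain ⟨b, rfl⟩ := Submodule.mem_span_singleton.1 hb
    simp [h.alt]
  rcases mul_self_eq_one_iff.1 (mul_right_cancel₀ e1 (by linear_combination c3 : c * c * _ = 1 * _)) with rfl | rfl
  · refine .inr (com_of_one fun u hu => ?_)
    obtain ⟨_, ha', _, hb', rfl⟩ := Submodule.mem_sup.1 (e2.ge hu)
    obtain ⟨a, rfl⟩ := Submodule.mem_span_singleton.1 ha'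
    obtain ⟨b, rfl⟩ := Submodule.mem_span_singleton.1 hb'
    simp [← ha, ← hb]
  · refine .inl ⟨_, _, e2, o x, o y, fun z hz => ?_⟩
    obtain ⟨a, rfl⟩ := Submodule.mem_span_singleton.1 hz
    simp [← ha]

end Iso

end H23.SO
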