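import Cfsg.Agent.H23.SpOre3
import Cfsg.Agent.H12.Unip

/-!
Isometries of symplectic spaces: unipotent pieces.
-/

namespace H23.SO

open Module Polynomial

variable {F V : Type*} [Field F] [AddCommGroup V] [Module F V] {ω : LinearMap.BilinForm F V}
  {G G' T S : End F V} {Z : Submodule F V} {x y e f : V} {k : ℕ}

theorem dec (a : F) (hy : y ∈ cyc T x) : ∃ c : F, ∃ w ∈ cyc T x, y = c • x + (T - a • 1) w := by
  obtain ⟨p, rfl⟩ := hy
  obtain ⟨q, e⟩ := X_sub_C_dvd_sub_C_eval (p := p) (a := a)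
  refine ⟨p.eval a, _, ⟨q, rfl⟩, ?_⟩
  generalize p.eval a = c at e
  obtain rfl := sub_eq_iff_eq_add'.1 e
  simp [Algebra.algebraMap_eq_smul_one]

theorem dec1 (hy : y ∈ cyc T x) : ∃ c : F, ∃ w ∈ cyc T x, y = c • x + (T - 1) w := by simpa using dec 1 hy

theorem map_mem_cyc (h : Commute T S) (hy : y ∈ cyc T x) : S y ∈ cyc T (S x) := by
  obtain ⟨p, rfl⟩ := hy
  exact ⟨p, aeval_comm h p x⟩

theorem comm_on {S' : End F V} (h1 : Inv S Z) (h : ∀ z ∈ Z, T (S z) = S' (T z)) (p : F[X]) :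
    ∀ z ∈ Z, T (aeval S p z) = aeval S' p (T z) := by
  induction p using Polynomial.induction_on with
  | C a => simp
  | add p q hp hq => intro z hz; simp [hp z hz, hq z hz]
  | monomial n a ih =>
    intro z hz
    rw [pow_succ, ← mul_assoc, map_mul, map_mul _ _ Polynomial.X, aeval_X, aeval_X, End.mul_apply, End.mul_apply,
      ih _ (h1 z hz), h z hz]

theorem pow_pow (a b : ℕ) (x : V) : (T ^ a) ((T ^ b) x) = (T ^ (a + b)) x := by rw [pow_add, End.mul_apply]

theorem pow_zero_of_le {a b : ℕ} (h : (T ^ a) x = 0) (e : a ≤ b) : (T ^ b) x = 0 := by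
  rw [← Nat.sub_add_cancel e, ← pow_pow, h, map_zero]

theorem indep (h1 : (T ^ (k + 1)) e = 0) (h2 : (T ^ (k + 1)) f = 0)
    (h3 : ∀ a b : F, a • (T ^ k) e + b • (T ^ k) f = 0 → a = 0 ∧ b = 0) :
    LinearIndependent F (Sum.elim (fun i : Fin (k + 1) => (T ^ i.1) e) fun i : Fin (k + 1) => (T ^ i.1) f) := by
  refine Fintype.linearIndependent_iff.2 fun c hc => ?_
  have : ∀ n, ∀ i : Fin (k + 1), i.1 = n → c (.inl i) = 0 ∧ c (.inr i) = 0 := fun n => by
    induction n using Nat.strong_induction_on with | h n ih => ?_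
    rintro i rfl
    refine h3 _ _ ?_
    have := congrArg (T ^ (k - i)) hc
    simp only [Fintype.sum_sum_type, Sum.elim_inl, Sum.elim_inr, map_add, map_sum, map_smul, pow_pow, map_zero] at this
    rwa [Finset.sum_eq_single i (fun j _ hj => ?_) (by simp), Finset.sum_eq_single i (fun j _ hj => ?_) (by simp),
      Nat.sub_add_cancel (Nat.lt_succ_iff.1 i.2)] at this <;> rcases lt_or_gt_of_ne (Fin.val_ne_of_ne hj) with h | h
    exacts [by rw [(ih j h j rfl).2, zero_smul], by rw [pow_zero_of_le h2 (by omega), smul_zero],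
      by rw [(ih j h j rfl).1, zero_smul], by rw [pow_zero_of_le h1 (by omega), smul_zero]]
  rintro (i | i)
  exacts [(this _ i rfl).1, (this _ i rfl).2]

theorem aeval_shift (T : End F V) (p : F[X]) (x : V) :
    aeval T p x = ∑ i ∈ Finset.range ((p.comp (.X + 1)).natDegree + 1), (p.comp (.X + 1)).coeff i • ((T - 1) ^ i) x := by
  have : aeval T p = aeval (T - 1) (p.comp (.X + 1)) := by simp [aeval_comp]
  rw [this, aeval_eq_sum_range]; simp

variable (ω G) in
/-- unipotent subspaces with alternating top form -/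
structure Un (Z : Submodule F V) (k : ℕ) : Prop where
  inv : Inv G Z
  nil : ∀ z ∈ Z, ((G - 1) ^ (k + 1)) z = 0
  alt : ∀ z ∈ Z, ω (((G - 1) ^ k) z) z = 0

namespace Iso

variable (h : Iso ω G G')
include h

theorem adj_N (x y : V) : ω ((G - 1) x) y = ω x ((G' - 1) y) := by simp [h.adj]

theorem comm_N : Commute G' (G - 1) := h.comm.symm.sub_right (Commute.one_right _)

theorem comm_pow (a b : ℕ) (x : V) : ((G - 1) ^ a) ((G' ^ b) x) = (G' ^ b) (((G - 1) ^ a) x) :=
  LinearMap.congr_fun (h.comm_N.pow_pow b a).symm.eq x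

theorem N'_pow (n : ℕ) (x : V) : ((G' - 1) ^ n) x = (-1 : F) ^ n • (G' ^ n) (((G - 1) ^ n) x) := by
  rw [show G' - 1 = (-1 : F) • (G' * (G - 1)) by simp [mul_sub, h.l], _root_.smul_pow, h.comm_N.mul_pow]; rfl

theorem fix (e : ((G - 1) ^ (k + 1)) x = 0) (n : ℕ) : (G' ^ n) (((G - 1) ^ k) x) = ((G - 1) ^ k) x := by
  rw [pow_succ', End.mul_apply, LinearMap.sub_apply, sub_eq_zero] at e
  induction n with
  | zero => rfl
  | succ n ih => rw [pow_succ', End.mul_apply, ih, ← show _ = ((G - 1) ^ k) x from e, h.ll]; exact e.symm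

theorem cross (a d : ℕ) (x y : V) :
    ω (((G - 1) ^ a) x) (((G - 1) ^ d) y) = (-1) ^ d * ω ((G' ^ d) (((G - 1) ^ (d + a)) x)) y := by
  rw [← adj_pow h.symm.adj_N, h.N'_pow, pow_pow]; simp

theorem flip (e : ((G - 1) ^ (k + 1)) x = 0) (y : V) : ω (((G - 1) ^ k) y) x = -((-1) ^ k * ω (((G - 1) ^ k) x) y) := by
  rw [h.skew, neg_inj]
  simpa [h.fix e] using h.cross 0 k x y

theorem s_two : G + G' - (2 : F) • 1 = G' * (G - 1) ^ 2 := by
  simp only [sq, mul_sub, sub_mul, ← mul_assoc, h.l, two_smul, one_mul, mul_one]; abel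

theorem notMem (h1 : ((G - 1) ^ (k + 1)) e = 0) (h2 : ((G - 1) ^ k) e ≠ 0) (d : ℕ) : ∀ c b, k < c + 2 * d → Odd (c + k) →
    ((G - 1) ^ k) e ∉ cyc (G + G') ((G' ^ b) (((G - 1) ^ c) e)) := by
  have k0 : ∀ c b, k < c → ((G - 1) ^ k) e ∉ cyc (G + G') ((G' ^ b) (((G - 1) ^ c) e)) := fun c b hc ⟨p, hp⟩ =>
    h2 (by simpa [pow_zero_of_le h1 hc] using hp.symm)
  induction d with
  | zero => exact fun c b hc _ => k0 c b hc
  | succ d ih =>
    intro c b hc ho hm
    refine (lt_or_ge k c).elim (fun hc => k0 c b hc hm) fun hc' => ?_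
    obtain ⟨l, _, ⟨p, rfl⟩, e1⟩ := dec 2 hm
    have cs : Commute (G + G') (G - 1) := h.comm_s.sub_right (Commute.one_right _)
    have e2 : (G + G' - (2 : F) • 1) (aeval (G + G') p ((G' ^ b) (((G - 1) ^ c) e))) =
        aeval (G + G') p ((G' ^ (b + 1)) (((G - 1) ^ (c + 2)) e)) := by
      rw [← aeval_comm ((Commute.refl _).sub_right ((Commute.one_right _).smul_right _)), h.s_two, End.mul_apply, h.comm_pow,
        pow_pow, pow_succ' G', End.mul_apply, add_comm 2]
    have hc2 : c < k := lt_of_le_of_ne hc' (by rintro rfl; exact Nat.not_odd_iff_even.2 (Even.add_self _) ho)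
    replace e1 := e1.trans (congrArg _ e2)
    have e3 := congrArg (fun v => ((G - 1) ^ (k - c) : End F V) v) e1
    rw [map_add, map_smul, ← aeval_comm (cs.pow_right _), h.comm_pow, h.comm_pow, pow_pow, pow_pow, pow_pow,
      pow_zero_of_le h1 (by omega), pow_zero_of_le h1 (b := k - c + (c + 2)) (by omega), Nat.sub_add_cancel hc', h.fix h1] at e3
    obtain rfl : l = 0 := by simpa [h2] using e3.symm
    exact ih (c + 2) (b + 1) (by omega) (by rw [add_right_comm]; exact ho.add_even even_two) ⟨p, by simpa using e1.symm⟩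

variable [FiniteDimensional F V]

theorem nd_cyc (h1 : Inv G Z) (h2 : ∀ z ∈ Z, ((G - 1) ^ (k + 1)) z = 0) (hx : x ∈ Z) (h3 : ω (((G - 1) ^ k) x) x ≠ 0) :
    Nd ω (cyc G x) := by
  refine nd_of_nil h.adj_N (fun u hu => sub_mem (h.inv' inv_cyc u hu) hu) (fun u hu => h2 u (cyc_le h1 hx hu)) fun w hw e => ?_
  obtain ⟨c, v, hv, rfl⟩ := dec1 hw
  have := e x self_mem_cyc
  rw [map_add, ← End.mul_apply _ _ v, ← pow_succ, h2 v (cyc_le h1 hx hv)] at this
  exact ⟨v, hv, by simp [show c = 0 by simpa [h3] using this]⟩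

theorem pow_dec (x : V) (j : ℕ) : ∃ w ∈ cyc G x, (G' ^ j) x = x + (G - 1) w := by
  induction j with
  | zero => exact ⟨0, zero_mem _, by simp⟩
  | succ j ih =>
    obtain ⟨w, hw, e⟩ := ih
    exact ⟨G' (w - x), h.inv' inv_cyc _ (sub_mem hw self_mem_cyc), by
      rw [pow_succ', End.mul_apply, e]; simp [h.ll, h.rr]; abel⟩

variable (u : Un ω G Z k) (he : e ∈ Z) (hf : f ∈ Z) (b : ω (((G - 1) ^ k) e) f ≠ 0)
include u he hf b

omit [FiniteDimensional F V] in
theorem top (a c : F) (e1 : a • ((G - 1) ^ k) e + c • ((G - 1) ^ k) f = 0) : a = 0 ∧ c = 0 := by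
  have h1 := congrArg (ω · f) e1
  have h2 := congrArg (ω · e) e1
  simp [u.alt e he, u.alt f hf, b, h.flip (u.nil e he) f] at h1 h2
  exact ⟨h1, h2⟩

theorem nd_pair : Nd ω (cyc G e ⊔ cyc G f) := by
  have le := sup_le (cyc_le u.inv he) (cyc_le u.inv hf)
  refine nd_of_nil h.adj_N (fun u hu => sub_mem (h.inv' (inv_cyc.sup inv_cyc) u hu) hu) (fun z hz => u.nil z (le hz))
    fun w hw e1 => ?_
  obtain ⟨_, h1, _, h2, rfl⟩ := Submodule.mem_sup.1 hw
  obtain ⟨a, x, hx, rfl⟩ := dec1 h1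
  obtain ⟨c, y, hy, rfl⟩ := dec1 h2
  have n : ∀ z ∈ Z, ((G - 1) ^ k) ((G - 1) z) = 0 := fun z hz => by rw [← End.mul_apply, ← pow_succ, u.nil z hz]
  have h1 := e1 e (Submodule.mem_sup_left self_mem_cyc)
  have h2 := e1 f (Submodule.mem_sup_right self_mem_cyc)
  simp only [map_add, n x (cyc_le u.inv he hx), n y (cyc_le u.inv hf hy)] at h1 h2
  simp [u.alt e he, u.alt f hf, b, h.flip (u.nil e he) f] at h1 h2
  exact ⟨x + y, Submodule.add_mem_sup hx hy, by simp [h1, h2, add_sub_add_comm]⟩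

omit [FiniteDimensional F V] in
theorem rank_pair : finrank F ↥(cyc G e ⊔ cyc G f) = 2 * (k + 1) := by
  have i := indep (u.nil e he) (u.nil f hf) (h.top u he hf b)
  have m : ∀ {x}, x ∈ Z → ∀ {W : Submodule F V}, (∀ i : Fin (k + 1), ((G - 1) ^ i.1) x ∈ W) → cyc G x ≤ W := by
    rintro x hx W hW _ ⟨p, rfl⟩
    change aeval G p x ∈ W
    rw [aeval_shift]
    refine Submodule.sum_mem _ fun i _ => Submodule.smul_mem _ _ ?_
    by_cases hi : i < k + 1
    exacts [hW ⟨i, hi⟩, by simp [pow_zero_of_le (u.nil x hx) (not_lt.1 hi)]]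
  have n : ∀ x : V, ∀ i : ℕ, ((G - 1) ^ i) x ∈ cyc G x := fun x i => ⟨(.X - 1) ^ i, by simp⟩
  refine ((congrArg (fun W : Submodule F V => finrank F W) (le_antisymm ?_ ?_)).trans
    (finrank_span_eq_card i)).trans (by simp [two_mul])
  · exact sup_le (m he fun i => Submodule.subset_span ⟨.inl i, rfl⟩) (m hf fun i => Submodule.subset_span ⟨.inr i, rfl⟩)
  rw [Submodule.span_le]
  rintro _ ⟨i | i, rfl⟩
  exacts [Submodule.mem_sup_left (n ..), Submodule.mem_sup_right (n ..)]

omit [FiniteDimensional F V] in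
theorem exists_map {M : End F V} {x y : V} (hx : ((M - 1) ^ (k + 1)) x = 0) (hy : ((M - 1) ^ (k + 1)) y = 0) :
    ∃ T : End F V, ∀ p : F[X], T (aeval G p e) = aeval M p x ∧ T (aeval G p f) = aeval M p y := by
  have i := indep (u.nil e he) (u.nil f hf) (h.top u he hf b)
  obtain ⟨T, hT⟩ := LinearMap.exists_extend ((Finsupp.linearCombination F
    (Sum.elim (fun i : Fin (k + 1) => ((M - 1) ^ i.1) x) fun i : Fin (k + 1) => ((M - 1) ^ i.1) y)).comp i.repr)
  have t := fun j => (LinearMap.congr_fun hT ⟨_, Submodule.subset_span ⟨j, rfl⟩⟩).trans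
    ((congrArg _ (i.repr_eq_single j _ rfl)).trans ((Finsupp.linearCombination_single ..).trans (one_smul ..)))
  have t' : ∀ j : ℕ, T (((G - 1) ^ j) e) = ((M - 1) ^ j) x ∧ T (((G - 1) ^ j) f) = ((M - 1) ^ j) y := fun j => by
    by_cases hj : j < k + 1
    · exact ⟨t (.inl ⟨j, hj⟩), t (.inr ⟨j, hj⟩)⟩
    · simp [pow_zero_of_le (u.nil e he) (not_lt.1 hj), pow_zero_of_le (u.nil f hf) (not_lt.1 hj),
        pow_zero_of_le hx (not_lt.1 hj), pow_zero_of_le hy (not_lt.1 hj)]
  exact ⟨T, fun p => by simp only [aeval_shift, map_sum, map_smul, t', and_self]⟩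

theorem eq_pair (r : finrank F Z = 2 * (k + 1)) : cyc G e ⊔ cyc G f = Z :=
  Submodule.eq_of_le_of_finrank_eq (sup_le (cyc_le u.inv he) (cyc_le u.inv hf)) ((h.rank_pair u he hf b).trans r.symm)

omit [FiniteDimensional F V] in
theorem even (h2 : (2 : F) ≠ 0) : Even k := by
  by_contra ho
  have := u.alt _ (add_mem he hf)
  simp only [map_add, LinearMap.add_apply, u.alt e he, u.alt f hf, h.flip (u.nil e he) f,
    (Nat.not_even_iff_odd.1 ho).neg_one_pow] at this
  exact mul_ne_zero h2 b (by linear_combination this)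

theorem isotropic (h2 : (2 : F) ≠ 0) : ∃ e', e' - e ∈ cyc G f ∧ ω (((G - 1) ^ k) e') f = ω (((G - 1) ^ k) e) f ∧
    Ort ω (cyc G e') (cyc G e') := by
  have ev := h.even u he hf b h2
  have key : ∀ d j, j + d = k + 1 → ∃ e', e' - e ∈ cyc G f ∧ ω (((G - 1) ^ k) e') f = ω (((G - 1) ^ k) e) f ∧
      ∀ w ∈ cyc G e', ω (((G - 1) ^ j) w) e' = 0 := fun d => by
    induction d with
    | zero => exact fun j hj => ⟨e, by simp, rfl, fun w hw => by simp [show j = k + 1 from hj, u.nil w (cyc_le u.inv he hw)]⟩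
    | succ d ih =>
      intro j hj
      obtain ⟨e', a1, a2, a3⟩ := ih (j + 1) (by omega)
      have m : e' ∈ Z := by simpa using add_mem (cyc_le u.inv hf a1) he
      have n : ∀ i : ℕ, ((G - 1) ^ i) f ∈ cyc G f := fun i => ⟨(.X - 1) ^ i, by simp⟩
      have z : ω (((G - 1) ^ k) f) (((G - 1) ^ d) f) = 0 := by
        rcases d with _ | d
        exacts [u.alt f hf, by simp [h.cross, pow_zero_of_le (u.nil f hf) (show k + 1 ≤ d + 1 + k by omega)]]
      obtain ⟨l, hl⟩ : ∃ l : F, ω (((G - 1) ^ j) e') e' + l * (((-1) ^ d - 1) * ω (((G - 1) ^ k) e) f) = 0 := by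
        rcases Nat.even_or_odd d with hd | hd
        · obtain ⟨w, hw, e1⟩ := h.pow_dec e' j
          have := h.cross 0 j e' e'
          rw [(show Even j by rw [Nat.even_iff] at *; omega).neg_one_pow, add_zero, ← h.comm_pow, e1, map_add, map_add,
            LinearMap.add_apply, ← End.mul_apply, ← pow_succ, a3 w hw, pow_zero, End.one_apply, h.skew] at this
          exact ⟨0, mul_left_cancel₀ h2 (by linear_combination -this)⟩
        · exact ⟨ω (((G - 1) ^ j) e') e' / (2 * ω (((G - 1) ^ k) e) f), by rw [hd.neg_one_pow]; field_simp; ring⟩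
      refine ⟨e' + l • ((G - 1) ^ d) f, by simpa [add_sub_right_comm] using add_mem a1 (Submodule.smul_mem _ l (n d)), ?_,
        fun w hw => ?_⟩
      · rw [← a2, map_add, map_smul, pow_pow, map_add, map_smul, LinearMap.add_apply, LinearMap.smul_apply,
          show ω (((G - 1) ^ (k + d)) f) f = 0 from ?_, smul_zero, add_zero]
        rcases d with _ | d
        exacts [u.alt f hf, by simp [pow_zero_of_le (u.nil f hf) (show k + 1 ≤ k + (d + 1) by omega)]]
      obtain ⟨c, _, ⟨p, rfl⟩, rfl⟩ := dec1 hw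
      have cN : ∀ (i : ℕ) x, ((G - 1) ^ i) (aeval G p x) = aeval G p (((G - 1) ^ i) x) := fun i x =>
        (aeval_comm (((Commute.refl G).sub_right (Commute.one_right _)).pow_right i) p x).symm
      have e1 : ((G - 1) ^ j) ((G - 1) (aeval G p (e' + l • ((G - 1) ^ d) f))) = ((G - 1) ^ (j + 1)) (aeval G p e') := by
        rw [← End.mul_apply, ← pow_succ, map_add, map_add, map_smul, map_smul, cN _ (((G - 1) ^ d) f), pow_pow,
          pow_zero_of_le (u.nil f hf) (by omega), map_zero, smul_zero, add_zero]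
      change ω (((G - 1) ^ j) (c • _ + (G - 1) (aeval G p _))) _ = 0
      rw [map_add ((G - 1) ^ j), e1, map_smul, map_add ((G - 1) ^ j), map_smul, pow_pow, show j + d = k by omega]
      simp only [map_add, map_smul, LinearMap.add_apply, LinearMap.smul_apply, z, h.cross _ d, a3 (aeval G p e') ⟨p, rfl⟩, smul_eq_mul,
        show d + j = k by omega, h.fix (u.nil e' m), h.flip (u.nil e' m) f, ev.neg_one_pow, a2,
        pow_zero_of_le (u.nil _ (u.inv.aeval p e' m)) (show k + 1 ≤ d + (j + 1) by omega), map_zero, LinearMap.zero_apply]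
      linear_combination c * hl
  obtain ⟨e', a1, a2, a3⟩ := key _ 0 (zero_add _)
  refine ⟨e', a1, a2, ?_⟩
  rintro w hw _ ⟨p, rfl⟩
  exact (adj_aeval h.symm.adj p _ _).symm.trans (a3 _ ((h.inv' inv_cyc).aeval p w hw))

end Iso

end H23.SO
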