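import Cfsg.Agent.H23.OrOre2
import Cfsg.Agent.H12.Spec

/-!
Hyperbolic frames of Hermitian spaces, their parabolic subgroups and the Gauss decomposition.
-/

namespace H23.UO

open Module Matrix H12 H11 H12.CForm

variable {F V : Type*} {n : Type} [Field F] [AddCommGroup V] [Module F V] [Fintype n] [DecidableEq n]
  {σ : F →+* F} {hσ2 : ∀ a, σ (σ a) = a}

variable (σ) in
/-- the standard sesquilinear form -/
def sd : (n → F) →ₛₗ[σ] (n → F) →ₗ[F] F :=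
  LinearMap.mk₂'ₛₗ σ (RingHom.id F) (fun u v => (σ ∘ u) ⬝ᵥ v)
    (fun u u' v => by rw [← add_dotProduct]; congr 1; ext i; exact map_add _ _ _)
    (fun c u v => by rw [← smul_dotProduct]; congr 1; ext i; exact map_mul _ _ _)
    (fun u v v' => dotProduct_add ..) fun c u v => dotProduct_smul ..

omit [DecidableEq n] in
theorem sd_apply (x y : n → F) : sd σ x y = (σ ∘ x) ⬝ᵥ y := rfl

@[simp] theorem sd_single (i : n) (a : F) (y : n → F) : sd σ (Pi.single i a) y = σ a * y i := by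
  rw [sd_apply, show σ ∘ Pi.single i a = Pi.single i (σ a) from funext fun j => by simp [Pi.single_apply, apply_ite σ],
    single_dotProduct]

theorem sd_mulVec (A : Matrix n n F) (x y : n → F) : sd σ (A *ᵥ x) y = sd σ x ((A.map σ)ᵀ *ᵥ y) := by
  rw [sd_apply, sd_apply, dotProduct_mulVec, vecMul_transpose]
  congr 1; ext i; exact σ.map_mulVec A x i

theorem sd_ext {a b : n → F} (h : ∀ x, sd σ x a = sd σ x b) : a = b := funext fun i => by simpa using h (Pi.single i 1)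

section
include hσ2

omit [DecidableEq n] in
theorem sd_symm (x y : n → F) : σ (sd σ x y) = sd σ y x := by simp [sd_apply, dotProduct, hσ2, mul_comm]

theorem exists_vec (φ : (n → F) →ₗ[F] F) : ∃ a : n → F, ∀ x, φ x = sd σ a x :=
  let ⟨a, h⟩ := OO.exists_vec φ
  ⟨σ ∘ a, fun x => by rw [h, sd_apply]; congr 1; ext; simp [hσ2]⟩

theorem exists_sd {a : n → F} (h : a ≠ 0) : ∃ x, sd σ x a = 1 := by
  obtain ⟨i, hi⟩ := Function.ne_iff.1 h
  exact ⟨Pi.single i (σ (a i)⁻¹), by simpa [hσ2] using inv_mul_cancel₀ hi⟩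

theorem exists_sd₂ {a b : n → F} (h : b ∉ F ∙ a) : ∃ x, sd σ x a = 0 ∧ sd σ x b = 1 := by
  obtain ⟨φ, h1, h2⟩ := exists_dual_eq_one h
  obtain ⟨x, hx⟩ := exists_vec (hσ2 := hσ2) φ
  exact ⟨x, hx a ▸ h1 a (Submodule.mem_span_singleton_self a), hx b ▸ h2⟩

end

variable (σ) in
/-- the inverse conjugate transpose -/
def dual : GL n F →* GL n F := OO.dual.comp (Units.map σ.mapMatrix.toMonoidHom)

theorem coe_dual (P : GL n F) : (dual σ P).1 = ((P⁻¹ : GL n F).1.map σ)ᵀ := rfl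

include hσ2 in
theorem dual_dual (P : GL n F) : dual σ (dual σ P) = P := Units.ext (by ext; exact hσ2 _)

theorem dual_sd (P : GL n F) (x y : n → F) : sd σ (P.1 *ᵥ x) ((dual σ P).1 *ᵥ y) = sd σ x y := by
  rw [coe_dual, ← sd_mulVec, mulVec_mulVec, Units.inv_mul, one_mulVec]

theorem det_dual (P : GL n F) : (dual σ P).1.det = (σ P.1.det)⁻¹ := by
  rw [coe_dual, det_transpose, ← RingHom.mapMatrix_apply, ← RingHom.map_det, ← map_inv₀, coe_units_inv, det_nonsing_inv,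
    Ring.inverse_eq_inv]

/-- the underlying sesquilinear form -/
def hb (C : CForm (hermType σ hσ2) V) : V →ₛₗ[σ] V →ₗ[F] F := C.B

/-- hyperbolic frames -/
structure Fr (C : CForm (hermType σ hσ2) V) (n : Type) [Fintype n] where
  E : (n → F) →ₗ[F] V
  Φ : (n → F) →ₗ[F] V
  cx : V →ₗ[F] (n → F)
  cy : V →ₗ[F] (n → F)
  pE : ∀ x v, hb C (E x) v = sd σ x (cy v)
  pΦ : ∀ y v, hb C (Φ y) v = sd σ y (cx v)
  xE : ∀ x, cx (E x) = x
  yΦ : ∀ y, cy (Φ y) = y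
  yE : ∀ x, cy (E x) = 0
  xΦ : ∀ y, cx (Φ y) = 0

variable {C : CForm (hermType σ hσ2) V}

theorem hb_symm (x y : V) : hb C y x = σ (hb C x y) := H12.herm_symm x y

theorem hb_self (x : V) : hb C x x = C.N x := H12.herm_B_self x

theorem rho_app {v w : V} {a : F} (hv : C.N v = 0) (hw : hb C v w = 0) (ha : a + σ a = C.N w) (x : V) :
    (rho C hv hw ha).1 x = x + hb C v x • w - (hb C w x + a * hb C v x) • v := rho_apply hv hw ha x

theorem tv_app {u : V} (hu : C.N u = 0) {c : F} (hc : TvOk (hermType σ hσ2) c) (x : V) :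
    (tv C hu hc).1 x = x + (c * hb C u x) • u := tv_apply hu hc x

theorem iso_B (g : C.isom) (x y : V) : hb C (g.1 x) (g.1 y) = hb C x y := g.2.1 x y

theorem inv_fix {g : C.isom} {v : V} (h : g.1 v = v) : (g⁻¹).1 v = v := by
  conv_lhs => rw [← h, isom_inv_apply']

/-- the determinant -/
noncomputable def dt : C.isom →* F := (Units.coeHom F).comp (LinearEquiv.det.comp C.isom.subtype)

theorem dt_apply (g : C.isom) : dt g = LinearMap.det g.1.toLinearMap := LinearEquiv.coe_det _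

theorem mem_iff {g : C.isom} : g ∈ sisom C ↔ dt g = 1 := Units.val_eq_one.symm

theorem det_comm [FiniteDimensional F V] (f : (n → F) →ₗ[F] V) (g : V →ₗ[F] (n → F)) :
    LinearMap.det (1 + f ∘ₗ g) = LinearMap.det (1 + g ∘ₗ f) := by
  let b := finBasis F V
  rw [← LinearMap.det_toMatrix b, ← LinearMap.det_toMatrix (Pi.basisFun F n), map_add, map_add, LinearMap.toMatrix_one,
    LinearMap.toMatrix_one, LinearMap.toMatrix_comp b (Pi.basisFun F n), LinearMap.toMatrix_comp _ b, det_one_add_mul_comm]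

namespace Fr

variable (fr : Fr C n)

attribute [simp] pE pΦ xE yΦ yE xΦ

/-- the opposite frame -/
@[simps] def swap : Fr C n := ⟨fr.Φ, fr.E, fr.cy, fr.cx, fr.pΦ, fr.pE, fr.yΦ, fr.xE, fr.xΦ, fr.yE⟩

@[simp] theorem pE' (x : n → F) (v : V) : hb C v (fr.E x) = sd σ (fr.cy v) x := by rw [hb_symm, fr.pE, sd_symm (hσ2 := hσ2)]

@[simp] theorem pΦ' (y : n → F) (v : V) : hb C v (fr.Φ y) = sd σ (fr.cx v) y := fr.swap.pE' y v

@[simp] theorem qE (x : n → F) : C.N (fr.E x) = 0 := by simp [← hb_self]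

@[simp] theorem qΦ (x : n → F) : C.N (fr.Φ x) = 0 := fr.swap.qE x

/-- the orthogonal complement -/
def W : Submodule F V := LinearMap.ker fr.cx ⊓ LinearMap.ker fr.cy

theorem mem_W {w : V} : w ∈ fr.W ↔ fr.cx w = 0 ∧ fr.cy w = 0 := Iff.rfl

@[simp] theorem swap_W : fr.swap.W = fr.W := inf_comm ..

/-- the projection to the complement -/
def p : End F V := 1 - fr.E ∘ₗ fr.cx - fr.Φ ∘ₗ fr.cy

theorem p_apply (v : V) : fr.p v = v - fr.E (fr.cx v) - fr.Φ (fr.cy v) := rfl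

@[simp] theorem swap_p : fr.swap.p = fr.p := sub_right_comm ..

@[simp] theorem xp (v : V) : fr.cx (fr.p v) = 0 := by simp [p_apply]

@[simp] theorem yp (v : V) : fr.cy (fr.p v) = 0 := by simp [p_apply]

theorem p_mem (v : V) : fr.p v ∈ fr.W := ⟨fr.xp v, fr.yp v⟩

theorem p_of {w : V} (h : w ∈ fr.W) : fr.p w = w := by simp [p_apply, (fr.mem_W.1 h).1, (fr.mem_W.1 h).2]

@[simp] theorem pp (v : V) : fr.p (fr.p v) = fr.p v := fr.p_of (fr.p_mem v)

@[simp] theorem p_E (x : n → F) : fr.p (fr.E x) = 0 := by simp [p_apply]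

@[simp] theorem p_Φ (x : n → F) : fr.p (fr.Φ x) = 0 := by simp [p_apply]

theorem dec (v : V) : fr.E (fr.cx v) + fr.p v + fr.Φ (fr.cy v) = v := by rw [p_apply]; abel

theorem ext {u v : V} (h1 : fr.cx u = fr.cx v) (h2 : fr.p u = fr.p v) (h3 : fr.cy u = fr.cy v) : u = v := by
  rw [← fr.dec u, h1, h2, h3, fr.dec]

theorem B_eq (u v : V) : hb C u v = sd σ (fr.cx u) (fr.cy v) + sd σ (fr.cy u) (fr.cx v) + hb C (fr.p u) (fr.p v) := by
  conv_lhs => rw [← fr.dec u, ← fr.dec v]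
  simp [add_comm, add_left_comm]

theorem B_W {w : V} (hw : w ∈ fr.W) (v : V) : hb C w v = hb C w (fr.p v) := by
  rw [fr.B_eq, (fr.mem_W.1 hw).1, (fr.mem_W.1 hw).2, fr.p_of hw]; simp

theorem hom_ext {g h : C.isom} (h1 : ∀ x, g.1 (fr.E x) = h.1 (fr.E x)) (h2 : ∀ w ∈ fr.W, g.1 w = h.1 w)
    (h3 : ∀ y, g.1 (fr.Φ y) = h.1 (fr.Φ y)) : g = h := isom_ext fun v => by
  rw [← fr.dec v, map_add, map_add, map_add, map_add, h1, h2 _ (fr.p_mem v), h3]

/-- Levi elements as linear maps -/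
def levL (A : GL n F) : End F V := fr.E ∘ₗ A.1.mulVecLin ∘ₗ fr.cx + fr.p + fr.Φ ∘ₗ (dual σ A).1.mulVecLin ∘ₗ fr.cy

theorem levL_mul (A B : GL n F) (v : V) : fr.levL A (fr.levL B v) = fr.levL (A * B) v := by simp [levL]

theorem levL_one (v : V) : fr.levL 1 v = v := by simp [levL, dec]

/-- the Levi factor -/
def lev : GL n F →* C.isom := MonoidHom.mk' (fun A => ⟨LinearEquiv.ofLinearMap (fr.levL A) (fr.levL A⁻¹)
  (LinearMap.ext fun v => by simp [levL_mul, levL_one]) (LinearMap.ext fun v => by simp [levL_mul, levL_one]),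
  herm_mem_isom fun u v => show hb C _ _ = hb C u v by
    rw [fr.B_eq, fr.B_eq u]
    simpa [levL, dual_sd] using (dual_dual (hσ2 := hσ2) A ▸ dual_sd (dual σ A) _ _ :)⟩) fun A B =>
  isom_ext fun v => (fr.levL_mul A B v).symm

theorem lev_apply (A : GL n F) (v : V) :
    (fr.lev A).1 v = fr.E (A.1 *ᵥ fr.cx v) + fr.p v + fr.Φ ((dual σ A).1 *ᵥ fr.cy v) := rfl

@[simp] theorem lev_E (A : GL n F) (x : n → F) : (fr.lev A).1 (fr.E x) = fr.E (A.1 *ᵥ x) := by simp [lev_apply]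

@[simp] theorem lev_Φ (A : GL n F) (x : n → F) : (fr.lev A).1 (fr.Φ x) = fr.Φ ((dual σ A).1 *ᵥ x) := by simp [lev_apply]

theorem lev_W (A : GL n F) {w : V} (h : w ∈ fr.W) : (fr.lev A).1 w = w := by
  simp [lev_apply, (fr.mem_W.1 h).1, (fr.mem_W.1 h).2, fr.p_of h]

theorem swap_lev (A : GL n F) : fr.swap.lev (dual σ A) = fr.lev A := isom_ext fun v => by
  simp [lev_apply, dual_dual (hσ2 := hσ2)]; abel

theorem dt_lev [FiniteDimensional F V] (A : GL n F) : dt (fr.lev A) = A.1.det * (σ A.1.det)⁻¹ := by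
  have k : ∀ (fr : Fr C n) (A : Matrix n n F), LinearMap.det (1 + fr.E ∘ₗ (toLin' (A - 1) ∘ₗ fr.cx)) = A.det := fun fr A => by
    rw [det_comm, ← LinearMap.det_toLin']; congr 1; exact LinearMap.ext (by simp)
  rw [← det_dual, ← k fr, ← k fr.swap, ← map_mul, dt_apply]
  congr 1; ext v
  simp [lev_apply, p_apply]; abel

theorem cy_of {g : C.isom} (h : ∀ x, g.1 (fr.E x) = fr.E x) (v : V) : fr.cy (g.1 v) = fr.cy v := sd_ext (σ := σ) fun x => by
  rw [← fr.pE, ← h, iso_B, fr.pE]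

/-- isometries of the complement -/
def O : Subgroup C.isom where
  carrier := {g | (∀ x, g.1 (fr.E x) = fr.E x) ∧ ∀ y, g.1 (fr.Φ y) = fr.Φ y}
  mul_mem' ha hb := ⟨fun x => by rw [isom_mul_apply, hb.1, ha.1], fun x => by rw [isom_mul_apply, hb.2, ha.2]⟩
  one_mem' := ⟨fun _ => rfl, fun _ => rfl⟩
  inv_mem' ha := ⟨fun x => inv_fix (ha.1 x), fun x => inv_fix (ha.2 x)⟩

theorem swap_O {δ : C.isom} (h : δ ∈ fr.O) : δ ∈ fr.swap.O := ⟨h.2, h.1⟩

theorem O_W {δ : C.isom} (h : δ ∈ fr.O) {w : V} (hw : w ∈ fr.W) : δ.1 w ∈ fr.W :=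
  ⟨(fr.swap.cy_of h.2 w).trans hw.1, (fr.cy_of h.1 w).trans hw.2⟩

theorem lev_comm (A : GL n F) {δ : C.isom} (h : δ ∈ fr.O) : Commute (fr.lev A) δ :=
  fr.hom_ext (fun x => by simp [isom_mul_apply, h.1]) (fun w hw => by
    simp [isom_mul_apply, fr.lev_W A hw, fr.lev_W A (fr.O_W h hw)]) fun x => by simp [isom_mul_apply, h.2]

/-- the unipotent radical -/
def U : Subgroup C.isom where
  carrier := {g | (∀ x, g.1 (fr.E x) = fr.E x) ∧ ∀ v, fr.cy v = 0 → ∃ x, g.1 v = v + fr.E x}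
  mul_mem' {a b} ha hb := ⟨fun x => by rw [isom_mul_apply, hb.1, ha.1], fun v hv => by
    obtain ⟨x, e⟩ := hb.2 v hv
    obtain ⟨y, e'⟩ := ha.2 v hv
    exact ⟨y + x, by rw [isom_mul_apply, e, map_add, e', ha.1, map_add, add_assoc]⟩⟩
  one_mem' := ⟨fun _ => rfl, fun _ _ => ⟨0, by simp [isom_one_apply]⟩⟩
  inv_mem' {a} ha := ⟨fun x => inv_fix (ha.1 x), fun v hv => by
    obtain ⟨x, e⟩ := ha.2 v hv
    exact ⟨-x, by rw [map_neg, ← sub_eq_add_neg, eq_sub_iff_add_eq, ← inv_fix (ha.1 x), ← map_add, ← e, isom_inv_apply']⟩⟩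

theorem conj_mem (A : GL n F) {δ : C.isom} (h : δ ∈ fr.O) {u : C.isom} (hu : u ∈ fr.U) :
    fr.lev A * δ * u * (fr.lev A * δ)⁻¹ ∈ fr.U := by
  have h' := inv_mem h
  rw [_root_.mul_inv_rev, ← map_inv]
  refine ⟨fun x => by simp only [isom_mul_apply, h.1, h'.1, hu.1, lev_E, mulVec_mulVec, A.mul_inv, one_mulVec], fun v hv => ?_⟩
  obtain ⟨x, e⟩ := hu.2 ((δ⁻¹).1 ((fr.lev A⁻¹).1 v)) (by rw [fr.cy_of h'.1, lev_apply]; simp [hv])
  refine ⟨A.1 *ᵥ x, ?_⟩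
  simp only [isom_mul_apply, e, map_add, isom_inv_apply, h.1, lev_E]
  rw [map_inv, isom_inv_apply]

theorem rho_mem (e : n → F) {w : V} (hw : fr.cy w = 0) {a : F} (ha : a + σ a = C.N w) :
    rho C (fr.qE e) (w := w) ((fr.pE ..).trans (by simp [hw])) ha ∈ fr.U :=
  ⟨fun x => by simp [rho_app, hw], fun v hv => ⟨-hb C w v • e, by simp [rho_app, hv, sub_eq_add_neg]⟩⟩

theorem tv_mem (e : n → F) {c : F} (hc : TvOk (hermType σ hσ2) c) : tv C (fr.qE e) hc ∈ fr.U :=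
  ⟨fun x => by simp [tv_app], fun v hv => ⟨0, by simp [tv_app, hv]⟩⟩

theorem tv_comm (e : n → F) {c : F} (hc : TvOk (hermType σ hσ2) c) {u : C.isom} (hu : u ∈ fr.U) :
    u * tv C (fr.qE e) hc = tv C (fr.qE e) hc * u :=
  mul_inv_eq_iff_eq_mul.1 ((tv_conj u _ hc).trans (by simp only [hu.1]))

theorem U_le [FiniteDimensional F V] : fr.U ≤ sisom C := fun u hu => mem_iff.2 (by
  have : IsNilpotent (1 - u.1.toLinearMap : End F V) := ⟨3, LinearMap.ext fun v => by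
    obtain ⟨x, e⟩ := hu.2 (v - u.1 v) (by simp [fr.cy_of hu.1])
    simp only [pow_succ, pow_zero, one_mul, End.mul_apply, LinearMap.sub_apply, End.one_apply, LinearEquiv.coe_coe, e]
    simp [hu.1]⟩
  have e := LinearMap.eval_charpoly (1 - u.1.toLinearMap : End F V) 1
  rw [this.charpoly_eq_X_pow_finrank, show algebraMap F (End F V) 1 = 1 from map_one _, sub_sub_cancel] at e
  simpa [dt_apply] using e.symm)

/-- the big cell -/
def Big (g y : C.isom) (A : GL n F) (δ : C.isom) : Prop :=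
  y ∈ fr.swap.U ∧ δ ∈ fr.O ∧ ∃ x ∈ fr.U, g = y * (fr.lev A * δ) * x

theorem Big.move {fr : Fr C n} {g y y' x δ δ' : C.isom} {A A' : GL n F} (h : fr.Big g y A δ) (hx : x ∈ fr.U)
    (h' : fr.Big (x * y) y' A' δ') : fr.Big (x * g * x⁻¹) y' (A' * A) (δ' * δ) := by
  obtain ⟨-, h2, x1, h3, rfl⟩ := h
  obtain ⟨k1, k2, x2, k3, e⟩ := h'
  refine ⟨k1, mul_mem k2 h2, _, mul_mem (fr.conj_mem A⁻¹ (inv_mem h2) k3) (mul_mem h3 (inv_mem hx)), ?_⟩
  rw [← mul_assoc, ← mul_assoc, e, map_mul, map_inv, (fr.lev_comm A h2).inv_inv.eq, (fr.lev_comm A k2).mul_mul_mul_comm]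
  group

theorem Big.apply {fr : Fr C n} {g y δ : C.isom} {A : GL n F} (h : fr.Big g y A δ) (x : n → F) :
    g.1 (fr.E x) = y.1 (fr.E (A.1 *ᵥ x)) := by
  obtain ⟨-, h2, x1, h3, rfl⟩ := h
  simp [isom_mul_apply, h3.1, h2.1]

theorem Big.dt [FiniteDimensional F V] {fr : Fr C n} {g y δ : C.isom} {A : GL n F} (h : fr.Big g y A δ) :
    dt g = A.1.det * (σ A.1.det)⁻¹ * dt δ := by
  obtain ⟨h1, -, x, h3, rfl⟩ := h
  simp [mem_iff.1 (fr.U_le h3), mem_iff.1 (fr.swap.U_le h1), dt_lev]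

theorem rank_eq [FiniteDimensional F V] : finrank F V = 2 * Fintype.card n + finrank F fr.W := by
  rw [← (fr.cx.prod fr.cy).finrank_range_add_finrank_ker, LinearMap.ker_prod, LinearMap.range_eq_top.2 fun x =>
    ⟨fr.E x.1 + fr.Φ x.2, by simp⟩]
  simp [two_mul]; rfl

variable (hC : C.Nondeg)
include hC

theorem eq_zero {w : V} (hw : w ∈ fr.W) (h : ∀ v ∈ fr.W, hb C w v = 0) : w = 0 := hC w fun v =>
  (fr.B_W hw v).trans (h _ (fr.p_mem v))

variable [FiniteDimensional F V]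

omit fr in
theorem exists_iso (f : End F V) (h : ∀ u v, hb C (f u) (f v) = hb C u v) : ∃ g : C.isom, ∀ v, g.1 v = f v := by
  obtain ⟨e, he, h'⟩ := hC.exists_isom f ⟨h, fun x => by rw [← hb_self, h, hb_self]⟩
  exact ⟨⟨e, he⟩, h'⟩

theorem big_of (g : C.isom) (A : GL n F) (h : ∀ x, fr.cx (g.1 (fr.E x)) = A.1 *ᵥ x) : ∃ y δ, fr.Big g y A δ := by
  let T : (n → F) →ₗ[F] V := g.1.toLinearMap ∘ₗ fr.E ∘ₗ (A⁻¹).1.mulVecLin
  have t1 : ∀ x, fr.cx (T x) = x := fun x => by simp [T, h, -coe_units_inv]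
  have t2 : ∀ x x', hb C (T x) (T x') = 0 := fun x x' => (iso_B g ..).trans (by simp)
  let τ : V →ₗ[F] (n → F) := LinearMap.pi fun i => hb C (T (Pi.single i 1))
  have t3 : ∀ x v, hb C (T x) v = sd σ x (τ v) := fun x v => by
    conv_lhs => rw [pi_eq_sum_univ' x]
    simp [τ, sd_apply, dotProduct]
  have t4 : ∀ x v, hb C v (T x) = sd σ (τ v) x := fun x v => by rw [hb_symm, t3, sd_symm (hσ2 := hσ2)]
  obtain ⟨y, hy⟩ := exists_iso hC (T ∘ₗ fr.cx + fr.p + fr.Φ ∘ₗ (fr.cy - τ ∘ₗ fr.p)) fun u v => by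
    rw [fr.B_eq u]
    simp only [LinearMap.add_apply, LinearMap.comp_apply, map_add, t2, pΦ, pΦ', t1, xp, xΦ, LinearMap.sub_apply]
    simp [t3, t4]; ring
  have y1 : ∀ x, (y⁻¹ * g).1 (fr.E x) = fr.E (A.1 *ᵥ x) := fun x => by
    rw [isom_mul_apply, ← isom_inv_apply' y (fr.E (A.1 *ᵥ x)), hy]; simp [T, -coe_units_inv]
  have y2 : ∀ v, fr.cy ((y⁻¹ * g).1 v) = (dual σ A).1 *ᵥ fr.cy v := fun v => sd_ext (σ := σ) fun x => by
    rw [← one_mulVec x, ← A.mul_inv, ← mulVec_mulVec, dual_sd, ← fr.pE, ← y1, iso_B, fr.pE]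
  obtain ⟨δ, hδ⟩ := exists_iso hC (fr.E ∘ₗ fr.cx + fr.p ∘ₗ (y⁻¹ * g).1.toLinearMap ∘ₗ fr.p + fr.Φ ∘ₗ fr.cy) fun u v => by
    rw [fr.B_eq, fr.B_eq u, ← iso_B (y⁻¹ * g) (fr.p u), fr.B_eq ((y⁻¹ * g).1 _), y2, y2]; simp
  have d : δ ∈ fr.O := ⟨fun x => by simp [hδ], fun x => by simp [hδ]⟩
  refine ⟨y, δ, ⟨fun x => by simp [hy], fun v hv => ⟨-τ (fr.p v), ?_⟩⟩, d, (fr.lev A * δ)⁻¹ * (y⁻¹ * g),
    ⟨fun x => ?_, fun v hv => ⟨(A⁻¹).1 *ᵥ fr.cx ((y⁻¹ * g).1 v) - fr.cx v, ?_⟩⟩, by group⟩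
  · have hv : fr.cx v = 0 := hv
    conv_rhs => rw [← fr.dec v]
    simp [hy, hv, sub_eq_add_neg, add_assoc]
  · rw [isom_mul_apply, y1, ← isom_inv_apply' (fr.lev A * δ) (fr.E x), isom_mul_apply, d.1, lev_E]
  · rw [isom_mul_apply, ← isom_inv_apply' (fr.lev A * δ) (v + _)]
    refine congrArg _ (fr.ext ?_ ?_ ?_)
    · simp [isom_mul_apply _ δ, lev_apply, hδ, -coe_units_inv]
    · conv_lhs => rw [← fr.dec v, map_add (y⁻¹ * g).1, map_add (y⁻¹ * g).1, y1, hv]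
      simp [isom_mul_apply _ δ, lev_apply, hδ]
    · rw [y2]; simp [isom_mul_apply _ δ, lev_apply, hδ]

end Fr

theorem exists_fr_of [FiniteDimensional F V] (hσ : σ ≠ RingHom.id F) (hC : C.Nondeg) (E : (n → F) →ₗ[F] V)
    (h1 : Function.Injective E) (h2 : ∀ x y, hb C (E x) (E y) = 0) : ∃ fr : Fr C n, fr.E = E := by
  have k : ∀ E : (n → F) →ₗ[F] V, ∃ c : V →ₗ[F] (n → F), ∀ x v, hb C (E x) v = sd σ x (c v) := fun E =>
    ⟨LinearMap.pi fun i => hb C (E (Pi.single i 1)), fun x v => by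
      conv_lhs => rw [pi_eq_sum_univ' x]
      simp [sd_apply, dotProduct]⟩
  obtain ⟨cy, hy⟩ := k E
  obtain ⟨φ, hφ⟩ := E.exists_leftInverse_of_injective (LinearMap.ker_eq_bot.2 h1)
  replace hφ : ∀ x, φ (E x) = x := LinearMap.congr_fun hφ
  choose f hf using fun i => show ∃ z, ∀ x, hb C z x = φ x i from hC.exists_rep (LinearMap.proj (R := F) (φ := fun _ => F) i ∘ₗ φ)
  let Φ := Fintype.linearCombination F f
  have a1 : ∀ y v, hb C (Φ y) v = sd σ y (φ v) := fun y v => by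
    simp [Φ, Fintype.linearCombination_apply, hf, sd_apply, dotProduct]
  have a2 : ∀ y, cy (Φ y) = y := fun y => sd_ext (σ := σ) fun x => by rw [← hy, hb_symm, a1, hφ, sd_symm (hσ2 := hσ2)]
  have a3 : ∀ y, cy (E y) = 0 := fun y => sd_ext (σ := σ) fun x => by rw [← hy, h2, map_zero]
  obtain ⟨a, ha⟩ := exists_trace_eq hσ hσ2 (map_one σ)
  obtain ⟨cx, hx⟩ := k (Φ - a • E ∘ₗ φ ∘ₗ Φ)
  refine ⟨⟨E, _, cx, cy, hy, hx, fun x => sd_ext (σ := σ) fun y => ?_, by simp [a2, a3], a3,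
    fun x => sd_ext (σ := σ) fun y => ?_⟩, rfl⟩
  · simp [← hx, a1, h2, hφ]
  · have e : sd σ (φ (Φ y)) x = sd σ y (φ (Φ x)) := by rw [← sd_symm (hσ2 := hσ2), ← a1, ← hb_symm, a1]
    simp [← hx, a1, hy, hφ, a2, a3, e]
    linear_combination -sd σ y (φ (Φ x)) * ha

theorem exists_fr [FiniteDimensional F V] [Finite F] (hσ : σ ≠ RingHom.id F) (hC : C.Nondeg) {T : Submodule F V}
    (h : ∀ x ∈ T, C.N x = 0) : ∃ fr : Fr C (Fin (finrank F V / 2)), finrank F fr.W ≤ 1 ∧ ∀ x ∈ T, ∃ a, x = fr.E a := by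
  induction T using WellFoundedGT.induction with | ind T ih => ?_
  by_cases h2 : 2 * finrank F T + 2 ≤ finrank F V
  · obtain ⟨P, p1, p2, p3⟩ := hC.exists_nondegOn_perp T
    obtain ⟨v, v1, v2, v3⟩ := herm_exists_iso (exists_norm_of_finite hσ2 hσ) C (W := P) (by omega)
    obtain ⟨fr, f1, f2⟩ := ih (T ⊔ F ∙ v) (left_lt_sup.2 fun e => v2 (p2 v v1 fun w hw =>
      p1 hw v (e (Submodule.mem_span_singleton_self v)))) (TS.sup ⟨h, fun x hx y hy =>
        herm_le_perp hσ h hy x hx⟩ (ts_singleton v3) ((Submodule.span_singleton_le_iff_mem ..).2 (p1 v1))).1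
    exact ⟨fr, f1, fun x hx => f2 x (Submodule.mem_sup_left hx)⟩
  have h3 := hC.two_mul_finrank_le (herm_le_perp hσ h)
  let e := (finBasisOfFinrankEq F T (by omega : _ = finrank F V / 2)).equivFun.symm
  obtain ⟨fr, hf⟩ := exists_fr_of hσ hC (T.subtype ∘ₗ e.toLinearMap) (T.injective_subtype.comp e.injective) fun x y =>
    herm_le_perp hσ h (e y).2 _ (e x).2
  exact ⟨fr, by have := fr.rank_eq; simp at this; omega, fun x hx => ⟨e.symm ⟨x, hx⟩, by simp [hf]⟩⟩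

end H23.UO
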