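import Cfsg.Agent.H23.UOre1

/-!
Centralizers of Levi elements in the unipotent radical, and normalization of the Levi component.
-/

namespace H23.UO

open Module Matrix H12 H11 H12.CForm Polynomial

theorem exists_conj₂ {G : Type*} [Group G] [Finite G] {U : Subgroup G} {l t : G} (h1 : ∀ u ∈ U, l * u * l⁻¹ ∈ U) (ht : t ∈ U)
    (hc : ∀ u ∈ U, u * t = t * u) (hl : l * t = t * l) (h2 : t * t = 1) (h3 : ∀ u ∈ U, u * l = l * u → u = 1 ∨ u = t)
    (h4 : ∀ u ∈ U, u * l ≠ t * l * u) {u : G} (hu : u ∈ U) : ∃ v ∈ U, v * l * v⁻¹ = u * l ∨ v * l * v⁻¹ = t * u * l := by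
  let s : Setoid U := ⟨fun a b => a.1 = b ∨ a.1 = t * b, fun _ => .inl rfl,
    fun h => h.imp .symm fun e => by rw [e, ← mul_assoc, h2, one_mul], by
      rintro a b c (h | h) (h' | h') <;> simp [h, h', ← mul_assoc, h2]⟩
  let f : U → U := fun v => ⟨v * (l * v.1⁻¹ * l⁻¹), mul_mem v.2 (h1 _ (inv_mem v.2))⟩
  have k : ∀ v : U, v.1 * l * v.1⁻¹ = f v * l := fun v => by simp [f, mul_assoc]
  obtain ⟨v, e⟩ := Finite.surjective_of_injective (f := Quotient.map' (s₁ := s) (s₂ := s) f fun a b h => h.elim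
    (fun e => by rw [Subtype.ext e]) fun e => .inl (mul_right_cancel (b := l) (by
      rw [← k, ← k, e, ← hc _ b.2, mul_assoc _ t, ← hl]; group))) (by
    rintro ⟨a⟩ ⟨b⟩ h
    have m := mul_mem (inv_mem b.2) a.2
    refine Quotient.sound ((Quotient.exact h).elim (fun e => (h3 _ m ?_).imp (fun e => (inv_mul_eq_one.1 e).symm) fun e => ?_)
      fun e => absurd ?_ (h4 _ m))
    · rw [show b.1⁻¹ * a * l = b.1⁻¹ * (a * l * a.1⁻¹) * a by group, k, e, ← k]; group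
    · rw [← hc _ b.2, ← e, mul_inv_cancel_left]
    · rw [show b.1⁻¹ * a * l = b.1⁻¹ * (a * l * a.1⁻¹) * a by group, k, e, mul_assoc t, ← k, ← mul_assoc _ t, hc _ (inv_mem b.2)]
      group) (Quotient.mk _ ⟨u, hu⟩)
  obtain ⟨v⟩ := v
  exact ⟨v, v.2, (Quotient.exact e).imp (fun e => (k v).trans (congrArg (· * l) e)) fun e => (k v).trans (congrArg (· * l) e)⟩

variable {F V : Type*} {n : Type} [Field F] [AddCommGroup V] [Module F V] [Fintype n] [DecidableEq n]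
  {σ : F →+* F} {hσ2 : ∀ a, σ (σ a) = a} {C : CForm (hermType σ hσ2) V}

instance finite_isom [Finite F] [FiniteDimensional F V] : Finite C.isom :=
  have := Module.finite_of_finite F (M := V)
  Finite.of_injective (fun g : C.isom => (g.1 : V → V)) fun _ _ e => isom_ext (congrFun e)

theorem rk_of {A B S : Matrix n n F} {φ : F[X]} {a b : n → F} (h : A * S = S * B) (h1 : aeval A φ = vecMulVec a b)
    (h2 : IsUnit (aeval B φ)) : ∃ c, S = vecMulVec a c := by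
  have e := SO.aeval_semi h φ
  obtain ⟨u, hu⟩ := h2
  rw [h1, ← hu, ← Units.mul_inv_eq_iff_eq_mul, Matrix.mul_assoc, vecMulVec_mul] at e
  exact ⟨_, e.symm⟩

theorem aeval_ct (A : Matrix n n F) (φ : F[X]) : aeval (A.map σ)ᵀ (φ.map σ) = ((aeval A φ).map σ)ᵀ := by
  rw [OO.aeval_tr, ← RingHom.mapMatrix_apply, ← RingHom.mapMatrix_apply]
  exact congrArg _ (map_aeval_eq_aeval_map (by ext; simp [algebraMap_eq_diagonal, diagonal_apply, apply_ite σ]) φ A).symm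

include hσ2 in
theorem sesq_zero (hσ : σ ≠ RingHom.id F) (β : V →ₛₗ[σ] V →ₗ[F] F) {S : Submodule F V} (h : ∀ x ∈ S, β x x = 0) {x y : V}
    (hx : x ∈ S) (hy : y ∈ S) : β x y = 0 := by
  obtain ⟨c, hc⟩ := exists_ne_of_ne_id hσ
  have e1 := h _ (add_mem hx hy)
  have e2 := h _ (add_mem hx (S.smul_mem c hy))
  simp [h x hx, h y hy] at e1 e2
  exact (mul_eq_zero.1 (by linear_combination σ c * e1 - e2 : (σ c - c) * β x y = 0)).resolve_left (sub_ne_zero.2 hc)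

/-- commutators in the special unitary group -/
def Com (g : C.isom) : Prop := ∃ a ∈ sisom C, ∃ b ∈ sisom C, g = a * b * a⁻¹ * b⁻¹

theorem Com.of_conj {g : C.isom} (x : C.isom) (h : Com (x * g * x⁻¹)) : Com g := by
  obtain ⟨a, ha, b, hb, e⟩ := h
  exact ⟨_, Subgroup.Normal.conj_mem' inferInstance a ha x, _, Subgroup.Normal.conj_mem' inferInstance b hb x, by
    rw [show g = x⁻¹ * (x * g * x⁻¹) * x by group, e]; group⟩

theorem com_of {l c u v : C.isom} (hl : l ∈ sisom C) (hc : c ∈ sisom C) (hu : u ∈ sisom C) (hv : v ∈ sisom C) :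
    Com (u * (c * l * c⁻¹) * u⁻¹ * (v * l * v⁻¹)⁻¹) :=
  ⟨_, mul_mem (mul_mem hu (mul_mem (mul_mem hc hl) (inv_mem hc))) (inv_mem hu), v * c⁻¹ * u⁻¹,
    mul_mem (mul_mem hv (inv_mem hc)) (inv_mem hu), by group⟩

namespace Fr

variable (fr : Fr C n)

/-- the centralizer in the unipotent radical consists of transvections with a fixed center -/
def Gd (l : C.isom) (ξ : n → F) : Prop :=
  (∀ u ∈ fr.U, l * u * l⁻¹ ∈ fr.U) ∧ ∀ u ∈ fr.U, u * l = l * u → ∃ c hc, u = tv C (fr.qE ξ) (c := c) hc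

/-- fixed-point-free action on the unipotent radical -/
def Fp (l : C.isom) : Prop := (∀ u ∈ fr.U, l * u * l⁻¹ ∈ fr.U) ∧ ∀ u ∈ fr.U, u * l = l * u → u = 1

theorem gd_of (hC : C.Nondeg) {D : GL n F} {δ : C.isom} (h0 : δ ∈ fr.O) {a : n → F}
    (h1 : ∀ S : Matrix n n F, D.1 * S = S * (dual σ D).1 → ∃ c, S = vecMulVec a c) {ψ : F[X]}
    (h2 : ∀ w ∈ fr.W, aeval δ.1.toLinearMap ψ w = 0) (h3 : IsUnit (aeval D.1 ψ)) : fr.Gd (fr.lev D * δ) a := by
  refine ⟨fun u hu => fr.conj_mem D h0 hu, fun u hu e => ?_⟩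
  replace e : ∀ v, u.1 ((fr.lev D).1 (δ.1 v)) = (fr.lev D).1 (δ.1 (u.1 v)) := fun v => congrArg (·.1 v) e
  have u1 : ∀ w ∈ fr.W, u.1 w = w + fr.E (fr.cx (u.1 w)) := fun w hw => by
    obtain ⟨x, e⟩ := hu.2 w hw.2
    simp [e, (fr.mem_W.1 hw).1]
  have u2 : ∀ k : ℕ, ∀ w ∈ fr.W, fr.cx (u.1 ((δ.1.toLinearMap ^ k) w)) = D.1 ^ k *ᵥ fr.cx (u.1 w) := fun k => by
    induction k with
    | zero => simp
    | succ k ih =>
      intro w hw
      have := congrArg fr.cx (e w)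
      rw [fr.lev_W D (fr.O_W h0 hw), u1 w hw, map_add δ.1, h0.1, map_add, fr.lev_W D (fr.O_W h0 hw), lev_E, map_add,
        (fr.O_W h0 hw).1, zero_add, xE] at this
      rw [pow_succ, End.mul_apply, ih (δ.1.toLinearMap w) (fr.O_W h0 hw), pow_succ, ← mulVec_mulVec, ← this]; rfl
  have u3 : ∀ w ∈ fr.W, u.1 w = w := fun w hw => by
    have := congrArg (fun v => fr.cx (u.1 v)) (h2 w hw)
    simp only [aeval_eq_sum_range, LinearMap.sum_apply, LinearMap.smul_apply, map_sum, map_smul, u2 _ w hw, map_zero,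
      ← smul_mulVec, ← sum_mulVec] at this
    rw [← aeval_eq_sum_range] at this
    rw [u1 w hw, mulVec_injective_of_isUnit h3 (this.trans (mulVec_zero _).symm), map_zero, add_zero]
  let S := LinearMap.toMatrix' (fr.cx ∘ₗ u.1.toLinearMap ∘ₗ fr.Φ)
  have u4 : ∀ y, u.1 (fr.Φ y) = fr.E (S *ᵥ y) + fr.Φ y := fun y => fr.ext (by simp [S]) (by
    simp only [map_add, p_E, p_Φ, add_zero]
    refine fr.eq_zero hC (fr.p_mem _) fun v hv => ?_
    have := iso_B u (fr.Φ y) v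
    rw [u3 v hv, fr.B_eq, fr.p_of hv] at this
    simpa [(fr.mem_W.1 hv).1, (fr.mem_W.1 hv).2] using this) (by simp [fr.cy_of hu.1])
  obtain ⟨c, hc⟩ := h1 S (matrix_ext_mulVec fun y => by simpa [h0.1, h0.2, u4] using (congrArg fr.cx (e (fr.Φ y))).symm)
  obtain ⟨κ, k1, k2⟩ : ∃ κ, κ + σ κ = 0 ∧ ∀ y, (c ⬝ᵥ y) • a = (κ * sd σ a y) • a := by
    by_cases a0 : a = 0
    · exact ⟨0, by simp, by simp [a0]⟩
    obtain ⟨y, hy⟩ := exists_sd (hσ2 := hσ2) a0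
    have hy' : sd σ a y = 1 := by rw [← sd_symm (hσ2 := hσ2), hy, map_one]
    have k : ∀ z, σ (c ⬝ᵥ y) * sd σ a z + c ⬝ᵥ z = 0 := fun z => by
      simpa [u4, hc, vecMulVec_mulVec, hy] using iso_B u (fr.Φ y) (fr.Φ z)
    have k' : c ⬝ᵥ y + σ (c ⬝ᵥ y) = 0 := by simpa [hy', add_comm] using k y
    exact ⟨_, k', fun z => congrArg (· • a) (by linear_combination k z - sd σ a z * k')⟩
  exact ⟨κ, tvOk_herm.2 k1, fr.hom_ext (fun x => by simp [hu.1, tv_app]) (fun w hw => by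
    simp [u3 w hw, tv_app, (fr.mem_W.1 hw).2]) fun y => by simp [u4, hc, vecMulVec_mulVec, k2, tv_app, add_comm]⟩

theorem gd_both (hC : C.Nondeg) {D : GL n F} {δ : C.isom} (h0 : δ ∈ fr.O) {φ ψ : F[X]} {a b : n → F}
    (h1 : aeval D.1 φ = vecMulVec a b) (h2 : IsUnit (aeval (dual σ D).1 φ)) (h3 : ∀ w ∈ fr.W, aeval δ.1.toLinearMap ψ w = 0)
    (h4 : IsUnit (aeval D.1 ψ)) (h5 : IsUnit (aeval (dual σ D).1 ψ)) :
    fr.Gd (fr.lev D * δ) a ∧ fr.swap.Gd (fr.lev D * δ) (σ ∘ b) := by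
  refine ⟨fr.gd_of hC h0 (fun S e => rk_of e h1 h2) h3 h4, ?_⟩
  rw [← fr.swap_lev]
  refine fr.swap.gd_of hC (fr.swap_O h0) (fun S e => rk_of (A := (D.1.map σ)ᵀ) (B := (D⁻¹).1) (φ := φ.map σ) (b := σ ∘ a)
    ?_ ?_ ?_) (by simpa using h3) h5
  · rw [dual_dual (hσ2 := hσ2)] at e
    rw [← Units.mul_inv_cancel_right ((D.1.map σ)ᵀ * S) D, Matrix.mul_assoc _ S, ← e, ← Matrix.mul_assoc]
    exact congrArg (· * S * _) (dual σ D).inv_mul |>.trans (by simp)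
  · rw [aeval_ct, h1]; ext; simp [vecMulVec_apply, mul_comm]
  · have := aeval_ct (σ := σ) (dual σ D).1 φ
    rw [show ((dual σ D).1.map σ)ᵀ = (D⁻¹).1 by ext; exact hσ2 _] at this
    exact this ▸ (isUnit_transpose _).2 (h2.map σ.mapMatrix)

theorem Gd.fp {fr : Fr C n} {l : C.isom} {ξ : n → F} (h : fr.Gd l ξ) {μ : F} (h1 : l.1 (fr.E ξ) = μ • fr.E ξ)
    (h2 : μ * σ μ ≠ 1) : fr.Fp l := ⟨h.1, fun u hu e => by
  obtain ⟨c, hc, rfl⟩ := h.2 u hu e
  have := (tv_conj l _ hc).symm.trans (mul_inv_eq_of_eq_mul e.symm)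
  refine isom_ext fun v => ?_
  replace := congrArg (·.1 v) this
  simp only [tv_app, h1, map_smulₛₗ, LinearMap.smul_apply, smul_smul, add_right_inj, smul_eq_mul] at this
  rw [tv_app, isom_one_apply, add_eq_left]
  exact (smul_eq_zero_iff_right (sub_ne_zero.2 h2)).1 (by linear_combination (norm := module) this)⟩

/-- the defect of being in the big cell -/
def K (g : C.isom) : Submodule F (n → F) := LinearMap.ker (fr.cx ∘ₗ g.1.toLinearMap ∘ₗ fr.E)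

theorem mem_K {g : C.isom} {x : n → F} : x ∈ fr.K g ↔ fr.cx (g.1 (fr.E x)) = 0 := Iff.rfl

/-- the maximal isotropic subspace is not invariant -/
def J (g : C.isom) : Prop := ∃ x, ∀ x', g.1 (fr.E x) ≠ fr.E x'

theorem J.conj {fr : Fr C n} {g u : C.isom} (h : fr.J g) (hu : u ∈ fr.U) : fr.J (u * g * u⁻¹) := by
  obtain ⟨z, hz⟩ := h
  have h' := (inv_mem hu).1
  exact ⟨z, fun z' e => hz z' (by rw [← h' z', ← e, isom_mul_apply, isom_mul_apply, h', isom_inv_apply'])⟩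

theorem U_cx {y : C.isom} (h : y ∈ fr.swap.U) (v : V) : fr.cx (y.1 v) = fr.cx v := fr.swap.cy_of h.1 v

variable [FiniteDimensional F V] [Finite F]

theorem Big.com {fr : Fr C n} {g y δ c : C.isom} {Z D : GL n F} (h : fr.Big g y (Z * D⁻¹) 1)
    (h1 : fr.swap.Fp (fr.lev Z * δ)) (h2 : fr.Fp (fr.lev D * δ)) (h3 : c ∈ sisom C)
    (h4 : c * (fr.lev D * δ) * c⁻¹ = fr.lev Z * δ) (h5 : fr.lev D * δ ∈ sisom C) : Com g := by
  obtain ⟨k1, -, x, k2, rfl⟩ := h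
  obtain ⟨u, hu, e1⟩ := OO.exists_conj h1.1 h1.2 k1
  obtain ⟨v, hv, e2⟩ := OO.exists_conj h2.1 h2.2 (inv_mem k2)
  convert com_of h5 h3 (fr.swap.U_le hu) (fr.U_le hv) using 1
  rw [h4, e1, e2, map_mul, map_inv]; group

variable (hσ : σ ≠ RingHom.id F) (hC : C.Nondeg) (hW : finrank F fr.W ≤ 1)
include hC hW

omit [Finite F] hC in
theorem exists_gen : ∃ w ∈ fr.W, ∀ v ∈ fr.W, ∃ c : F, c • w = v :=
  let ⟨w, h⟩ := finrank_le_one_iff.1 hW
  ⟨w, w.2, fun v hv => (h ⟨v, hv⟩).imp fun _ => congrArg Subtype.val⟩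

omit [Finite F] in
theorem an {w : V} (hw : w ∈ fr.W) (h : C.N w = 0) : w = 0 := by
  obtain ⟨u, -, hu⟩ := fr.exists_gen hW
  obtain ⟨a, rfl⟩ := hu w hw
  refine fr.eq_zero hC hw fun v hv => ?_
  obtain ⟨b, rfl⟩ := hu v hv
  rw [H12.herm_N_smul] at h
  by_cases a0 : a = 0 <;> simp_all [hb_self]

omit [Finite F] in
theorem O_eq_one {δ : C.isom} (h : δ ∈ fr.O) (h1 : fr.W = ⊥ ∨ dt δ = 1) : δ = 1 := by
  obtain ⟨w, hw, hu⟩ := fr.exists_gen hW
  obtain ⟨c, hc⟩ := hu _ (fr.O_W h hw)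
  suffices δ.1 w = w from fr.hom_ext h.1 (fun v hv => by obtain ⟨a, rfl⟩ := hu v hv; simp [this, isom_one_apply]) h.2
  by_cases w0 : w = 0
  · simp [w0]
  have n0 := mt (fr.an hC hW hw) w0
  obtain ⟨s, hs, s1, s2, s3⟩ := exists_qrefl_det n0 (d := c) (mul_right_cancel₀ n0 (by
    rw [← H12.herm_N_smul, hc, one_mul]; exact δ.2.2 w))
  obtain rfl : δ = ⟨s, hs⟩ := fr.hom_ext (fun x => (h.1 x).trans (s1 _ ((fr.pE' ..).trans (by simp [(fr.mem_W.1 hw).2]))).symm)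
    (fun v hv => by obtain ⟨a, rfl⟩ := hu v hv; simp [← hc, s2])
    fun x => (h.2 x).trans (s1 _ ((fr.pΦ' ..).trans (by simp [(fr.mem_W.1 hw).1]))).symm
  rw [← hc, ← s3, ← dt_apply ⟨s, hs⟩, h1.resolve_left fun e => w0 ((Submodule.eq_bot_iff _).1 e w hw), one_smul]

include hσ

omit [Finite F] in
theorem exists_big (g : C.isom) : ∃ x ∈ fr.U, ∃ A y δ, fr.Big (x * g * x⁻¹) y A δ := by
  obtain ⟨x, hx, e⟩ : ∃ x ∈ fr.U, fr.K (x * g) = ⊥ := by
    induction h : fr.K g using WellFoundedLT.induction generalizing g with | ind K ih => ?_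
    by_cases h0 : fr.K g = ⊥
    · exact ⟨1, one_mem _, by rwa [one_mul]⟩
    obtain ⟨a, ha, a0⟩ := (Submodule.ne_bot_iff _).1 h0
    have k1 : g.1 (fr.E a) = fr.Φ (fr.cy (g.1 (fr.E a))) := fr.ext (by simpa [mem_K] using ha) ((fr.an hC hW (fr.p_mem _) (by
      simpa [fr.mem_K.1 ha, hb_self, isom_N g.2] using (fr.B_eq (g.1 (fr.E a)) (g.1 (fr.E a))).symm)).trans (fr.p_Φ _).symm) (by simp)
    obtain ⟨e, he⟩ := exists_sd (hσ2 := hσ2) (a := fr.cy (g.1 (fr.E a))) fun e => a0 (by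
      simpa using congrArg fr.cx (g.1.map_eq_zero_iff.1 (k1.trans (by simp [e]))))
    obtain ⟨c, c0, hc⟩ := exists_trace_zero' (hσ2 := hσ2) hσ
    have H : ∀ b ∈ fr.K (tv C (fr.qE e) (tvOk_herm.2 hc) * g), b ∈ fr.K g ∧ sd σ e (fr.cy (g.1 (fr.E b))) = 0 := fun b hb => by
      rw [mem_K, isom_mul_apply, tv_app, map_add, map_smul, xE, pE] at hb
      have h1 := congrArg (sd σ (fr.cy (g.1 (fr.E a)))) hb
      rw [map_add, ← fr.pΦ, ← k1, iso_B, map_smul, ← sd_symm (hσ2 := hσ2) e, he] at h1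
      simp [c0] at h1
      exact ⟨by simpa [h1, mem_K] using hb, h1⟩
    obtain ⟨x', hx', e⟩ := ih _ (h ▸ (lt_of_le_of_ne (fun b hb => (H b hb).1) fun e => by
      simpa [he] using (H a (e.ge ha)).2 : fr.K (_ * g) < fr.K g)) _ rfl
    exact ⟨_, mul_mem hx' (fr.tv_mem ..), by rwa [mul_assoc]⟩
  replace e : fr.K (x * g * x⁻¹) = ⊥ := (Submodule.eq_bot_iff _).2 fun b hb => (Submodule.eq_bot_iff _).1 e b (by
    rwa [mem_K, isom_mul_apply, (inv_mem hx).1] at hb)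
  obtain ⟨A, hA⟩ := ((LinearMap.isUnit_iff_ker_eq_bot _).2 e).map LinearMap.toMatrixAlgEquiv'
  exact ⟨x, hx, A, fr.big_of hC _ A fun z => by
    rw [hA]; exact (LinearMap.toMatrix'_mulVec (fr.cx ∘ₗ (x * g * x⁻¹).1.toLinearMap ∘ₗ fr.E) z).symm⟩

omit [Finite F] in
theorem Big.exists_ne {g y δ : C.isom} {A : GL n F} (h : fr.Big g y A δ) (h' : fr.J g) {S : Submodule F (n → F)} (hS : S ≠ ⊤) :
    ∃ e ∉ S, sd σ e (fr.cy (y.1 (fr.E e))) ≠ 0 := by
  by_contra! H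
  obtain ⟨z, hz⟩ := h'
  obtain ⟨a, ha⟩ := exists_not_mem_of_ne_top hS
  obtain ⟨c, hc⟩ := exists_trace_eq hσ hσ2 (map_one σ)
  have k : ∀ e, fr.cy (y.1 (fr.E e)) = 0 := fun e => sd_ext (σ := σ) fun x => (sesq_zero (hσ2 := hσ2) hσ
    ((sd σ).compl₂ (fr.cy ∘ₗ y.1.toLinearMap ∘ₗ fr.E)) (S := ⊤) (fun e _ => by_contra fun e0 => by
      have m := not_not.1 (mt (H e) e0)
      have k := fun t : F => H (a + t • e) fun h => ha ((S.add_mem_iff_left (S.smul_mem t m)).1 h)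
      have k1 := k 1
      have k2 := k c
      have k3 := k (1 + c)
      simp [H a ha] at k1 k2 k3 e0
      exact e0 (by linear_combination k3 - k1 - k2 - sd σ e (fr.cy (y.1 (fr.E e))) * hc)) trivial trivial).trans (map_zero _).symm
  refine hz (A.1 *ᵥ z) ((h.apply z).trans (fr.ext (fr.U_cx h.1 _) ((fr.an hC hW (fr.p_mem _) ?_).trans (fr.p_E _).symm) (by simp [k])))
  simpa [k, isom_N y.2, hb_self] using (fr.B_eq (y.1 (fr.E (A.1 *ᵥ z))) (y.1 (fr.E (A.1 *ᵥ z)))).symm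

theorem mv {y : C.isom} (hy : y ∈ fr.swap.U) {e : n → F} (he : sd σ e (fr.cy (y.1 (fr.E e))) ≠ 0) {d : F} (d0 : d ≠ 0)
    (hd : fr.W = ⊥ → σ d = d) : ∃ x ∈ fr.U, ∃ A y' δ, fr.Big (x * y) y' A δ ∧ A.1.det = d ∧ A.1 *ᵥ e = d • e ∧
      ∃ b, ∀ z, A.1 *ᵥ z = z + (b ⬝ᵥ z) • e := by
  obtain ⟨w, hw, a, ha, e1⟩ : ∃ w ∈ fr.W, ∃ a, a + σ a = C.N w ∧
      1 - (hb C w (y.1 (fr.E e)) + a * sd σ e (fr.cy (y.1 (fr.E e)))) = d := by
    obtain ⟨w, hw, hu⟩ := fr.exists_gen hW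
    obtain ⟨α, hα⟩ := hu _ (fr.p_mem (y.1 (fr.E e)))
    have e1 := fr.B_eq (y.1 (fr.E e)) (y.1 (fr.E e))
    rw [iso_B, fr.U_cx hy, xE, ← sd_symm (hσ2 := hσ2) e, ← hα] at e1
    have e2 : ∀ t : F, hb C (t • w) (y.1 (fr.E e)) = σ t * α * C.N w := fun t => by
      rw [fr.B_W (fr.W.smul_mem t hw), ← hα]; simp [hb_self]; ring
    generalize sd σ e (fr.cy (y.1 (fr.E e))) = s at *
    have s0 : σ s ≠ 0 := (_root_.map_ne_zero σ).2 he
    by_cases w0 : w = 0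
    · refine ⟨0, zero_mem _, (1 - d) / s, ?_, by simp [he]⟩
      simp [w0] at e1
      simp [hd ((Submodule.eq_bot_iff _).2 fun v hv => by simpa [w0, eq_comm] using hu v hv),
        (neg_eq_of_add_eq_zero_right e1.symm).symm, div_neg]
    have n0 := mt (fr.an hC hW hw) w0
    obtain ⟨b, hb⟩ := exists_norm_of_finite hσ2 hσ (((1 - d) / s + σ ((1 - d) / s)) / C.N w + α / s * σ (α / s)) (by
      simp [hσ2, herm_σN, add_comm, mul_comm])
    refine ⟨_, fr.W.smul_mem (b - α / s) hw, (1 - d - σ (b - α / s) * α * C.N w) / s, ?_, by rw [e2]; field_simp; ring⟩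
    simp only [H12.herm_N_smul, map_div₀, map_sub, map_mul, hσ2, herm_σN, map_one] at hb ⊢
    linear_combination (norm := (field_simp; ring)) -C.N w * hb
  obtain ⟨b, hb'⟩ := OO.exists_vec (-(hb C w + a • hb C (fr.E e)) ∘ₗ y.1.toLinearMap ∘ₗ fr.E)
  replace hb' : ∀ z, -(hb C w (y.1 (fr.E z)) + a * sd σ e (fr.cy (y.1 (fr.E z)))) = b ⬝ᵥ z := by simpa using hb'
  rw [sub_eq_add_neg, hb'] at e1
  obtain ⟨y', δ, H⟩ := fr.big_of hC (rho C (fr.qE e) ((fr.pE ..).trans (by simp [(fr.mem_W.1 hw).2])) ha * y)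
    (OO.rk e b (e1.trans_ne d0)) fun z => by
    rw [isom_mul_apply, rho_app, OO.rk_mulVec, ← hb']
    simp [fr.U_cx hy, (fr.mem_W.1 hw).1, sub_eq_add_neg, add_smul, add_comm]
  exact ⟨_, fr.rho_mem e hw.2 ha, _, y', δ, H, (OO.rk_det ..).trans e1, by rw [OO.rk_mulVec, ← e1, add_smul, one_smul], b,
    OO.rk_mulVec _ _ _⟩

theorem Big.norm [Nonempty n] {g y δ : C.isom} {A : GL n F} (h : fr.Big g y A δ) (hg : g ∈ sisom C) (h' : fr.J g)
    {S : Submodule F (n → F)} (hS : S ≠ ⊤) : ∃ x ∈ fr.U, ∃ y', ∃ A' : GL n F, fr.Big (x * g * x⁻¹) y' (A' * A) 1 ∧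
      (A' * A).1.det = 1 ∧ ∃ e ∉ S, A'.1 *ᵥ e = A.1.det⁻¹ • e ∧ ∃ b, ∀ z, A'.1 *ᵥ z = z + (b ⬝ᵥ z) • e := by
  obtain ⟨e, e1, e2⟩ := h.exists_ne fr hσ hC hW h' hS
  obtain ⟨x, hx, A', y', δ', H, a1, a2⟩ := fr.mv hσ hC hW h.1 e2 (inv_ne_zero A.det_ne_zero) fun e => by
    have := h.dt
    rw [mem_iff.1 hg, fr.O_eq_one hC hW h.2.1 (.inl e), map_one, mul_one, eq_mul_inv_iff_mul_eq₀ (by simp [A.det_ne_zero]), one_mul] at this
    rw [map_inv₀, this]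
  have d : (A' * A).1.det = 1 := by simp [a1, A.det_ne_zero]
  have H' := h.move hx H
  have := H'.dt
  rw [mem_iff.1 (Subgroup.Normal.conj_mem inferInstance _ hg x), d, map_one, inv_one, one_mul, one_mul] at this
  exact ⟨x, hx, y', A', fr.O_eq_one hC hW H'.2.1 (.inr this.symm) ▸ H', d, e, e1, a2⟩

theorem exists_norm [Nonempty n] {g : C.isom} (hg : g ∈ sisom C) (h : fr.J g ∨ fr.W = ⊥ ∧ ∀ a, σ a = a → a ≠ 0 → a = 1) :
    ∃ x ∈ fr.U, ∃ y A, fr.Big (x * g * x⁻¹) y A 1 ∧ A.1.det = 1 := by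
  obtain ⟨x, hx, A, y, δ, H⟩ := fr.exists_big hσ hC hW g
  have hg' := Subgroup.Normal.conj_mem inferInstance _ hg x
  rcases h with h | h
  · obtain ⟨x', hx', y', A', H', d, -⟩ := H.norm fr hσ hC hW hg' (h.conj hx) bot_ne_top
    exact ⟨x' * x, mul_mem hx' hx, y', _, by simpa [mul_assoc] using H', d⟩
  obtain rfl := fr.O_eq_one hC hW H.2.1 (.inl h.1)
  have := H.dt
  rw [mem_iff.1 hg', map_one, mul_one, eq_mul_inv_iff_mul_eq₀ (by simp [A.det_ne_zero]), one_mul] at this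
  exact ⟨x, hx, y, A, H, h.2 _ this A.det_ne_zero⟩

theorem exists_norm₂ [Nonempty n] {g : C.isom} (hg : g ∈ sisom C) (h : fr.J g) {a : F} (ha : σ a = a) (a0 : a ≠ 0) (a1 : a ≠ 1) :
    ∃ x y A, fr.Big (x * g * x⁻¹) y A 1 ∧ A.1.det = 1 ∧ ((∀ c : F, A.1 ≠ c • 1) ∨ A = 1) := by
  obtain ⟨x, hx, y, A, H, d⟩ := fr.exists_norm hσ hC hW hg (.inl h)
  by_contra! N
  obtain ⟨⟨c, hc⟩, c1⟩ := N x y A H d
  have c2 : c ^ Fintype.card n = 1 := by simpa [hc] using d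
  replace c1 : c ≠ 1 := fun e => c1 (Units.ext (by simp [hc, e]))
  have n2 : 2 ≤ Fintype.card n := by_contra fun e => c1 (by simpa [show Fintype.card n = 1 by have := @Fintype.card_pos n _ _; omega] using c2)
  obtain ⟨e, -, e2⟩ := H.exists_ne fr hσ hC hW (h.conj hx) bot_ne_top
  obtain ⟨x1, hx1, A1, y1, δ1, H1, d1, b1, b, b2⟩ := fr.mv hσ hC hW H.1 e2 a0 fun _ => ha
  obtain ⟨x2, hx2, y2, A2, H2, d2, e', e3, b3, b', b4⟩ := (H.move hx1 H1).norm fr hσ hC hW (Subgroup.Normal.conj_mem inferInstance _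
    (Subgroup.Normal.conj_mem inferInstance _ hg x) x1) ((h.conj hx).conj hx1) (S := F ∙ e) fun e' => by
      have := finrank_span_le_card (R := F) {e}
      rw [e'] at this; simp at this; omega
  obtain ⟨⟨c', hc'⟩, c3⟩ := N (x2 * x1 * x) y2 _ (by simpa [mul_assoc] using H2) d2
  have c0 : c ≠ 0 := by rintro rfl; simp [zero_pow (by omega : Fintype.card n ≠ 0)] at c2
  have k : ∀ z, A2.1 *ᵥ (A1.1 *ᵥ z) = (c' / c) • z := fun z => smul_right_injective _ c0 (by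
    simpa [hc, smul_mulVec, smul_smul, mul_div_cancel₀ _ c0] using congrArg (· *ᵥ z) hc')
  have i : ∀ s t : F, s • e + t • e' = 0 → s = 0 ∧ t = 0 := fun s t h => LinearIndependent.pair_iff.1
    (linearIndependent_of_not_mem (by rintro rfl; simp at e2) e3) t s (by rwa [add_comm]) |>.symm
  have k1 := (i (a - c' / c) (a * b' ⬝ᵥ e) (by
    have := k e
    rw [b1, mulVec_smul, b4] at this
    linear_combination (norm := module) this)).1
  have k2 := (i (b ⬝ᵥ e') (a⁻¹ - c' / c + b ⬝ᵥ e' * b' ⬝ᵥ e) (by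
    have := k e'
    rw [b2, mulVec_add, b3, mulVec_smul, b4, Units.val_mul, det_mul, d1, d, mul_one] at this
    linear_combination (norm := module) this))
  rcases n2.eq_or_lt with n2 | n2
  · rw [← n2, sq, mul_self_eq_one_iff, or_iff_right c1] at c2
    have : a * a = 1 := by have := mul_inv_cancel₀ a0; grind
    refine c3 (Units.ext (hc'.trans ?_))
    rw [show c' = 1 by rw [mul_self_eq_one_iff, or_iff_right a1] at this; grind, one_smul, Units.val_one]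
  obtain ⟨z, -, z0, hz⟩ := exists_mem_ker_not_mem (W := ⊤) ![dotProductBilin F F b, dotProductBilin F F b'] ⊥ (by simp; omega)
  have := k z
  rw [b2, show b ⬝ᵥ z = 0 from hz 0, zero_smul, add_zero, b4, show b' ⬝ᵥ z = 0 from hz 1, zero_smul, add_zero,
    ← sub_eq_zero.1 k1] at this
  exact a1 (smul_left_injective F z0 (this.symm.trans (one_smul ..).symm))

end Fr

end H23.UO
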