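import Cfsg.Agent.H23.UOre2
import Cfsg.Agent.H22.Cyc1

/-!
Factorizations in the Levi subgroup of a unitary group.
-/

namespace H23.UO

universe u

section
open Module Submodule LinearMap H22.CY

variable {K : Type u} [Field K] {V V' W W' : Type u} [AddCommGroup V] [Module K V] [AddCommGroup V'] [Module K V']
  [AddCommGroup W] [Module K W] [AddCommGroup W'] [Module K W']

theorem fac_prod' [Finite K] [FiniteDimensional K W] [FiniteDimensional K V'] [FiniteDimensional K W'] {n : ℕ}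
    (hW : finrank K W = n) (hV' : finrank K V' = n + 1) (hW' : finrank K W' = n) {A : End K (W × K)}
    (h2 : Function.Injective (fst K _ K ∘ₗ A ∘ₗ inl K _ K)) (h3 : (A (0, 1)).1 ≠ 0) {Y : End K W'} {y : W'} {μ : K}
    (hY : Cyc Y y) (hY' : Function.Bijective (Y - μ • 1 : End K W'))
    {Z : End K V'} {z : V'} (hZ : Cyc Z z) (hd : Z.det = A.det * (Y.det * μ)) (h0 : Z.det ≠ 0) :
    ∃ (h₁ : (W' × K) ≃ₗ[K] W × K) (h₂ : V' ≃ₗ[K] W × K), h₁ (0, 1) = (0, 1) ∧
      ∀ u, A (h₁ (blk Y μ (h₁.symm (h₂ u)))) = h₂ (Z u) := by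
  have hμ : μ ≠ 0 := right_ne_zero_of_mul (right_ne_zero_of_mul (hd ▸ h0))
  let T := LinearEquiv.ofInjectiveEndo _ h2
  obtain ⟨R, r1, r2⟩ := exists_cyc (T.symm.map_ne_zero_iff.2 h3) h3 T
  obtain ⟨ε, l, -, r3⟩ := br n hW hW' r1 hY
  have c0 : (A * blk (ε.conj Y) μ).det = Z.det := by
    rw [map_mul, det_blk, hd, det_eq_of ε (X := ε.conj Y) (Y := Y) (by simp)]
  have c1 : Cyc (A * blk (ε.conj Y) μ) (0, 1) := Cyc.lift (by
    rw [show ((A * blk (ε.conj Y) μ) (0, 1)).1 = μ • (A (0, 1)).1 by simp [blk_apply, ← Prod.smul_fst, ← map_smul]]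
    refine (r2.fb fun w => ⟨l (ε.symm w), ?_⟩).smul hμ
    have := congrArg T (r3 (ε.symm w))
    rw [map_add, map_smul, T.apply_symm_apply, ε.apply_symm_apply] at this
    refine this.trans ?_
    simp [blk_apply, T])
  obtain ⟨δ, m, -, c2⟩ := br (n + 1) (by simp [hW]) hV'
    (c1.map (equivOfDetNeZero _ (c0 ▸ h0)) (Y := A * blk (ε.conj Y) μ) fun _ => rfl) hZ
  let ψ : Dual K (W × K) := -m ∘ₗ δ.symm.toLinearMap
  have c3 : ∀ u, (A * blk (ε.conj Y) μ * transvection ψ (0, 1)) (δ u) = δ (Z u) := fun u => by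
    rw [End.mul_apply, transvection.apply, map_add, map_smul, c2]; simp [ψ]
  clear_value ψ
  have c4 : ψ (0, 1) = 0 := by
    have := det_eq_of δ c3
    rw [map_mul, c0, transvection.det] at this
    simpa [h0] using this
  let S := LinearEquiv.ofBijective _ hY'
  let h₁ := ε.skewProd (.refl K K) (μ • ψ ∘ₗ inl K W K ∘ₗ ε.toLinearMap ∘ₗ S.symm.toLinearMap)
  refine ⟨h₁, δ, by simp [h₁, Prod.mk_zero_zero], fun u => (congrArg A ?_).trans (c3 u)⟩
  obtain ⟨⟨w, c⟩, e⟩ := h₁.surjective (δ u)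
  obtain ⟨w, rfl⟩ := S.surjective w
  have c5 : ∀ w c, ψ (w, c) = ψ (w, 0) := fun w c => by
    rw [show (w, c) = (w, 0) + c • ((0, 1) : _ × K) by simp, map_add, map_smul, c4]; simp
  have c6 : Y (S w) = S (Y w) := by simp [S]
  have c7 : ψ (ε (S w), 0) = ψ (ε (Y w), 0) - μ * ψ (ε w, 0) := by
    rw [← smul_eq_mul, ← map_smul, ← map_sub]; simp [S]
  rw [← e, h₁.symm_apply_apply, transvection.apply]
  ext
  · simp [h₁, blk_apply]
  · simp [h₁, blk_apply, c6, c5 _ (c + _), c7]; ring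

theorem fac' [Finite K] [FiniteDimensional K V] [FiniteDimensional K W'] {n : ℕ} (hV : finrank K V = n + 1)
    (hW' : finrank K W' = n) {A : End K V} {e : V} (he : A e ∉ K ∙ e) {Y : End K W'} {y : W'} {μ : K} (hY : Cyc Y y)
    (hY' : Function.Bijective (Y - μ • 1 : End K W')) (hd : A.det = 1) (h0 : Y.det * μ ≠ 0) :
    ∃ h₁ h₂ : (W' × K) ≃ₗ[K] V, h₁ (0, 1) = e ∧ (h₂.toLinearMap ∘ₗ h₁.symm.toLinearMap).det = 1 ∧
      ∀ u, A (h₁ (blk Y μ (h₁.symm (h₂ u)))) = h₂ (blk Y μ u) := by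
  obtain ⟨A, rfl⟩ : ∃ B : V ≃ₗ[K] V, B.toLinearMap = A := ⟨equivOfDetNeZero A (hd.trans_ne one_ne_zero), rfl⟩
  have he0 : e ≠ 0 := by rintro rfl; simp at he
  obtain ⟨φ, hφ, hφ'⟩ : ∃ φ : Dual K V, φ e = 1 ∧ φ (A.symm e) ≠ 0 := by
    obtain ⟨φ, h1⟩ := Projective.exists_dual_eq_one K he0
    obtain ⟨ψ, h2⟩ := Projective.exists_dual_eq_one K (A.symm.map_ne_zero_iff.2 he0)
    by_cases h3 : φ (A.symm e) = 0
    · exact ⟨ψ + (1 - ψ e) • φ, by simp [h1], by simp [h2, h3]⟩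
    · exact ⟨φ, h1, h3⟩
  have h1 : ∀ u, (spl hφ u).1 = 0 → u ∈ K ∙ e := fun u h =>
    mem_span_singleton.2 ⟨φ u, (sub_eq_zero.1 (Subtype.ext_iff.1 h)).symm⟩
  obtain ⟨h₁, h₂, h', h⟩ := fac_prod' (finrank_ker hφ hV) (by simp [hW']) hW' (A := (spl hφ).conj A.toLinearMap)
    ((injective_iff_map_eq_zero _).2 fun w hw => by
      obtain ⟨c, hc⟩ := mem_span_singleton.1 (h1 _ hw)
      have h3 : (w : V) = c • A.symm e := by simpa [spl, ← map_smul, A.eq_symm_apply] using hc.symm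
      have h4 := w.2
      rw [h3, mem_ker, map_smul, smul_eq_zero_iff_left hφ'] at h4
      exact Subtype.ext (by simp [h3, h4])) (fun h => he (h1 _ (by simpa [← spl_self hφ] using h))) hY hY' (hY.blk hY')
    (by rw [det_eq_of (spl hφ) (Y := A.toLinearMap) (by simp), hd, one_mul, det_blk]) (det_blk Y μ ▸ h0)
  have d0 := (h₁.symm.trans h₂).isUnit_det'.ne_zero
  let s := (LinearEquiv.refl K W').prodCongr (.smulOfNeZero K K _ (inv_ne_zero d0))
  refine ⟨h₁.trans (spl hφ).symm, s.trans (h₂.trans (spl hφ).symm), by simp [h', ← spl_self hφ], ?_,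
    fun u => (spl hφ).injective (by simpa [s, blk_apply, mul_left_comm] using h (s u))⟩
  rw [← det_eq_of (spl hφ) (X := (h₁.symm.trans h₂).toLinearMap * h₁.conj (blk 1 (LinearMap.det (h₁.symm.trans h₂).toLinearMap)⁻¹))
    (by simp [s, blk_apply]), map_mul, det_eq_of h₁ (X := h₁.conj _) fun _ => by rw [LinearEquiv.conj_apply_apply, h₁.symm_apply_apply], det_blk, map_one, one_mul,
    mul_inv_cancel₀ d0]

end

open Module Matrix H12 H11 H12.CForm Polynomial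

variable {F : Type u} {V : Type*} {n : Type} [Field F] [AddCommGroup V] [Module F V] [Fintype n] [DecidableEq n]
  {σ : F →+* F} {hσ2 : ∀ a, σ (σ a) = a} {C : CForm (hermType σ hσ2) V}

theorem exists_ext (σ : F →+* F) (K : Type*) [Field K] [Finite K] [Algebra F K] :
    ∃ ρ : K →+* K, ∀ a, ρ (algebraMap F K a) = algebraMap F K (σ a) := by
  haveI := Finite.of_injective _ (algebraMap F K).injective
  obtain ⟨p, _⟩ := CharP.exists F
  haveI : Fact p.Prime := ⟨CharP.char_is_prime F p⟩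
  letI := ZMod.algebra F p
  haveI := charP_of_injective_algebraMap (algebraMap F K).injective p
  obtain ⟨i, hi⟩ := FiniteField.exists_forall_apply_eq_pow (ZMod p) p F (.ofBijective ⟨σ, fun r =>
    RingHom.congr_fun (Subsingleton.elim (σ.comp (algebraMap (ZMod p) F)) _) r⟩ (Finite.injective_iff_bijective.1 σ.injective))
  exact ⟨iterateFrobenius K p i, fun a => by rw [iterateFrobenius_def, ← map_pow, show σ a = _ from hi a, Nat.card_zmod]⟩

theorem minpoly_inv {K : Type*} [Field K] [Finite K] [Algebra F K] (hq : 5 ≤ Nat.card K) {θ : Kˣ}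
    (hθ : ∀ x, x ∈ Submonoid.powers θ) : aeval (θ⁻¹).1 ((minpoly F θ.1).map σ) ≠ 0 := fun e => by
  haveI := Finite.of_injective _ (algebraMap F K).injective
  obtain ⟨ρ, hρ⟩ := exists_ext σ K
  obtain ⟨y, hy⟩ := Finite.surjective_of_injective ρ.injective (θ⁻¹).1
  rw [← hy, ← map_aeval_eq_aeval_map (RingHom.ext fun a => (hρ a).symm), map_eq_zero_iff _ ρ.injective] at e
  obtain ⟨s, hs⟩ := minpoly.exists_algEquiv_of_root' (Algebra.IsAlgebraic.isAlgebraic _) e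
  have k : ∀ x, x ≠ 0 → ρ (s x) * x = 1 := fun x hx => by
    obtain ⟨j, hj⟩ := hθ (Units.mk0 x hx)
    obtain rfl : θ.1 ^ j = x := congrArg Units.val hj
    rw [map_pow, hs, map_pow, hy, ← mul_pow, Units.inv_mul, one_pow]
  refine absurd (hq.trans (SO.card_le_deg (q := X ^ 4 + 2 * X ^ 3 + 2 * X ^ 2 + X) (by monicity!) fun x => ?_))
    (not_le.2 (by compute_degree!))
  simp only [eval_add, eval_mul, eval_pow, eval_X, eval_ofNat]
  by_cases hx : x = 0
  · simp [hx]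
  by_cases hx' : x + 1 = 0
  · linear_combination (x ^ 3 + x ^ 2 + x) * hx'
  have e1 := k x hx
  have e2 := k _ hx'
  rw [map_add, map_one, map_add, map_one] at e2
  linear_combination (x ^ 2 + x) * (x * e2 - (x + 1) * e1)

include hσ2 in
theorem unit_dual {D : GL n F} {φ : F[X]} (h : IsUnit (aeval (D⁻¹).1 (φ.map σ))) : IsUnit (aeval (dual σ D).1 φ) := by
  have := aeval_ct (σ := σ) (D⁻¹).1 (φ.map σ)
  rw [Polynomial.map_map, show σ.comp σ = .id F from RingHom.ext hσ2, Polynomial.map_id] at this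
  exact coe_dual D ▸ this ▸ (isUnit_transpose _).2 (h.map σ.mapMatrix)

namespace Fr

variable (fr : Fr C n)

/-- Levi elements with a single rational eigenvalue -/
def Md (μ : F) (D : GL n F) (ξ : n → F) : Prop := D.1.det = 1 ∧ D.1 *ᵥ ξ = μ • ξ ∧ fr.Gd (fr.lev D) ξ ∧
  ∃ η, fr.swap.Gd (fr.lev D) η ∧ sd σ η ξ ≠ 0 ∧ (dual σ D).1 *ᵥ η = (σ μ)⁻¹ • η

variable [Finite F] (hσ : σ ≠ RingHom.id F) (hC : C.Nondeg)
include hσ hC

theorem md_field {K : Type u} [Field K] [Finite K] [Algebra F K] (h1 : finrank F K + 1 = Fintype.card n) (hq : 5 ≤ Nat.card K) :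
    ∃ μ : F, (∀ x ≠ 0, ∃ j : ℕ, μ ^ j = x) ∧ (∃ D ξ, fr.Md μ D ξ) ∧ ∀ (A : GL n F) e, A.1.det = 1 → A.1 *ᵥ e ∉ F ∙ e →
      ∃ D T, fr.Md μ D e ∧ fr.Md μ (T * D * T⁻¹) (T.1 *ᵥ e) ∧ T.1.det = 1 ∧ A = T * D * T⁻¹ * D⁻¹ := by
  obtain ⟨θ, hθ⟩ := IsCyclic.exists_monoid_generator (α := Kˣ)
  replace hθ' : ∀ x ≠ 0, ∃ j : ℕ, θ.1 ^ j = x := fun x hx => (hθ (Units.mk0 x hx)).imp fun _ => congrArg Units.val
  have cy : H22.CY.Cyc (Algebra.lmul F K θ.1) 1 := fun p e1 e2 => eq_top_iff.2 fun x _ => by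
    by_cases hx : x = 0
    · simp [hx]
    obtain ⟨j, rfl⟩ := hθ' x hx
    clear hx
    induction j with
    | zero => simpa
    | succ j ih => exact pow_succ' θ.1 j ▸ e2 _ (ih trivial)
  have n0 : Algebra.norm F θ.1 ≠ 0 := Algebra.norm_ne_zero_iff.2 θ.ne_zero
  have gen : ∀ x ≠ 0, ∃ j : ℕ, (Algebra.norm F θ.1)⁻¹ ^ j = x := fun x hx => by
    obtain ⟨y, hy⟩ := FiniteField.norm_surjective F K x⁻¹
    obtain ⟨j, rfl⟩ := hθ' y (by rintro rfl; simp [eq_comm, hx] at hy)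
    exact ⟨j, by rw [inv_pow, ← map_pow, hy, inv_inv]⟩
  have n1 : σ (Algebra.norm F θ.1) ≠ Algebra.norm F θ.1 := fun e => hσ (RingHom.ext fun x => by
    by_cases hx : x = 0
    · simp [hx]
    obtain ⟨j, rfl⟩ := gen x hx
    simp [e])
  have n2 : Algebra.norm F θ.1 * Algebra.norm F θ.1 ≠ 1 := fun e => n1 (by
    rcases mul_self_eq_one_iff.1 e with e | e <;> simp [e])
  have nf : ∀ a : F, θ.1 = algebraMap F K a → a = Algebra.norm F θ.1 := fun a e => by
    have := congrArg (fun p : Submodule F K => finrank F p) (cy (F ∙ 1) (Submodule.mem_span_singleton_self _) fun u hu => by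
      change θ.1 * u ∈ _
      rw [e, ← Algebra.smul_def]; exact Submodule.smul_mem _ a hu)
    simp only [finrank_span_singleton one_ne_zero, finrank_top] at this
    rw [e, Algebra.norm_algebraMap, ← this, pow_one]
  have nr : ∀ a : F, a ≠ Algebra.norm F θ.1 → aeval a (minpoly F θ.1) ≠ 0 := fun a ha e => by
    obtain ⟨s, hs⟩ := minpoly.exists_algEquiv_of_root (K := F) (x := algebraMap F K a) (Algebra.IsAlgebraic.isAlgebraic θ.1) (by
      rw [aeval_algebraMap_apply K a, e, map_zero])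
    exact ha (nf a (hs.symm.trans (s.commutes a)))
  have n3 : (Algebra.norm F θ.1)⁻¹ ≠ Algebra.norm F θ.1 := fun e => n2 (by nth_rw 1 [← e]; exact inv_mul_cancel₀ n0)
  have n4 : Algebra.norm F θ.1 ≠ 1 := fun e => n2 (by simp [e])
  have n5 : θ ≠ 1 := fun e => n4 (by simp [e])
  let Λ : ((K × F) ≃ₗ[F] (n → F)) → (K × F →ₐ[F] Matrix n n F) := fun h =>
    (LinearMap.toMatrixAlgEquiv'.toAlgHom.comp (h.conjAlgEquiv F).toAlgHom).comp (Algebra.lmul F (K × F))
  have l1 : ∀ h r x, Λ h r *ᵥ x = h (r * h.symm x) := fun h r x =>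
    LinearMap.toMatrix'_mulVec (h.conj (Algebra.lmul F (K × F) r)) x
  let D : ((K × F) ≃ₗ[F] (n → F)) → GL n F := fun h => Units.map (Λ h).toMonoidHom
    ⟨(θ.1, (Algebra.norm F θ.1)⁻¹), ((θ⁻¹).1, Algebra.norm F θ.1), by simp [n0], by simp [n0]⟩
  have l2 : ∀ h x, (D h).1 *ᵥ x = h ((θ.1, (Algebra.norm F θ.1)⁻¹) * h.symm x) := fun h x => l1 ..
  have l4 : ∀ h (a : K) (b : F) (φ : F[X]), aeval a φ ≠ 0 → aeval b φ ≠ 0 → IsUnit (aeval (Λ h (a, b)) φ) := fun h a b φ e1 e2 => by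
    rw [aeval_algHom_apply, aeval_prod_apply]
    exact (Prod.isUnit_iff.2 ⟨e1.isUnit, e2.isUnit⟩).map _
  have md : ∀ h, fr.Md (Algebra.norm F θ.1)⁻¹ (D h) (h (0, 1)) := fun h => by
    obtain ⟨b, hb⟩ := OO.exists_vec (aeval (Algebra.norm F θ.1)⁻¹ (minpoly F θ.1) • LinearMap.snd F K F ∘ₗ h.symm.toLinearMap)
    have hb' : ∀ x, sd σ (σ ∘ b) x = aeval (Algebra.norm F θ.1)⁻¹ (minpoly F θ.1) * (h.symm x).2 := fun x =>
      Eq.trans (by simp [sd_apply, dotProduct, hσ2]) (hb x).symm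
    have := fr.gd_both hC (D := D h) (one_mem _) (φ := minpoly F θ.1) (ψ := X - 1) (a := h (0, 1)) (b := b) (by
      refine (aeval_algHom_apply (Λ h) _ _).trans (matrix_ext_mulVec fun x => ?_)
      rw [aeval_prod_apply, minpoly.aeval, l1, vecMulVec_mulVec, op_smul_eq_smul, ← map_smul, ← hb]
      simp [Prod.ext_iff]) (unit_dual (hσ2 := hσ2) (l4 h _ _ _ (minpoly_inv hq hθ) (by
        rw [← hσ2 (Algebra.norm F θ.1), coe_aeval_eq_eval, eval_map, eval₂_hom]
        exact (_root_.map_ne_zero σ).2 (nr _ n1)))) (by simp [End.one_eq_id]) (l4 h _ _ _ (by simpa [sub_eq_zero]) (by simpa [sub_eq_zero]))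
      (unit_dual (hσ2 := hσ2) (l4 h _ _ _ (by simpa [sub_eq_zero]) (by simpa [sub_eq_zero])))
    rw [mul_one] at this
    refine ⟨(LinearMap.det_toMatrix' (h.conj (Algebra.lmul F (K × F) _))).trans ((LinearMap.det_conj (Algebra.lmul F (K × F) _) h).trans
      ((H22.CY.det_blk (Algebra.lmul F K θ.1) _).trans (mul_inv_cancel₀ n0))), by simp [l2, ← map_smul], this.1, _, this.2,
      by simpa [hb'] using nr _ n3, sd_ext (σ := σ) fun x => ?_⟩
    rw [← one_mulVec x, ← (D h).mul_inv, ← mulVec_mulVec, dual_sd, map_smul, ← sd_symm (hσ2 := hσ2), hb',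
      ← sd_symm (hσ2 := hσ2) (σ ∘ b), hb', l2]
    simp [n0, mul_left_comm]
  refine ⟨_, gen, ⟨_, _, md (LinearEquiv.ofFinrankEq _ _ (by simpa using h1))⟩, fun A e hA he => ?_⟩
  obtain ⟨h₁, h₂, rfl, t1, e⟩ := fac' (V := n → F) (by simpa using h1.symm) rfl (A := toLin' A.1) he cy
    (μ := (Algebra.norm F θ.1)⁻¹) (by
      have := (End.isUnit_iff _).1 ((sub_ne_zero.2 (mt (nf _) n3)).isUnit.map (Algebra.lmul F K))
      rwa [map_sub, AlgHom.commutes, Algebra.algebraMap_eq_smul_one] at this) (by rwa [LinearMap.det_toLin'])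
    ((mul_inv_cancel₀ n0).trans_ne one_ne_zero)
  rw [← LinearMap.det_toMatrix'] at t1
  let T := GeneralLinearGroup.mkOfDetNeZero _ (t1.trans_ne one_ne_zero)
  have t2 : ∀ x, T.1 *ᵥ x = h₂ (h₁.symm x) := LinearMap.toMatrix'_mulVec _
  have t3 : T * D h₁ * T⁻¹ = D h₂ := mul_inv_eq_of_eq_mul (Units.ext (matrix_ext_mulVec fun x => by simp [← mulVec_mulVec, l2, t2]))
  refine ⟨D h₁, T, md h₁, by simpa [t2, t3] using md h₂, t1, t3 ▸ eq_mul_inv_of_mul_eq (Units.ext (matrix_ext_mulVec fun x => ?_))⟩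
  have := e (h₂.symm x)
  rw [h₂.apply_symm_apply] at this
  rw [Units.val_mul, ← mulVec_mulVec, l2, l2]; exact this

theorem exists_md (h2 : 2 ≤ Fintype.card n) (hq : 5 ≤ Nat.card F ∨ 3 ≤ Fintype.card n) :
    ∃ μ : F, (∀ x ≠ 0, ∃ j : ℕ, μ ^ j = x) ∧ (∃ D ξ, fr.Md μ D ξ) ∧ ∀ (A : GL n F) e, A.1.det = 1 → A.1 *ᵥ e ∉ F ∙ e →
      ∃ D T, fr.Md μ D e ∧ fr.Md μ (T * D * T⁻¹) (T.1 *ᵥ e) ∧ T.1.det = 1 ∧ A = T * D * T⁻¹ * D⁻¹ := by
  obtain ⟨p, _⟩ := CharP.exists F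
  haveI : Fact p.Prime := ⟨CharP.char_is_prime F p⟩
  haveI : NeZero (Fintype.card n - 1) := ⟨by omega⟩
  refine fr.md_field hσ hC (K := ULift.{u} (FiniteField.Extension F p (Fintype.card n - 1)))
    (by rw [finrank_ulift, FiniteField.finrank_extension]; omega) ?_
  rw [Nat.card_ulift, FiniteField.natCard_extension]
  rcases hq with hq | hq
  · exact hq.trans (Nat.le_self_pow (by omega) _)
  obtain ⟨c, hc⟩ := exists_ne_of_ne_id hσ
  have : 2 < Nat.card F := by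
    haveI := Fintype.ofFinite F
    exact Nat.card_eq_fintype_card (α := F) ▸ Fintype.two_lt_card_iff.2 ⟨0, 1, c, zero_ne_one, by rintro rfl; simp at hc,
      by rintro rfl; simp at hc⟩
  exact (by norm_num : 5 ≤ 3 ^ 2).trans ((Nat.pow_le_pow_left this 2).trans (Nat.pow_le_pow_right (by omega) (by omega)))

variable [FiniteDimensional F V] {g y : C.isom} {A : GL n F}

omit hσ hC [Finite F] in
theorem lev_mem {A : GL n F} (h : A.1.det = 1) : fr.lev A ∈ sisom C := mem_iff.2 (by simp [dt_lev, h])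

theorem com_three (H : fr.Big g y A 1) (h1 : A.1.det = 1) (h2 : (∀ c : F, A.1 ≠ c • 1) ∨ A = 1) (hk : 2 ≤ Fintype.card n)
    {a : F} (ha : σ a = a) (a0 : a ≠ 0) (a1 : a ≠ 1) : Com g := by
  have n1 : ∀ μ : F, (∀ x ≠ 0, ∃ j : ℕ, μ ^ j = x) → μ * σ μ ≠ 1 := fun μ h e => by
    obtain ⟨b, rfl⟩ := exists_norm_of_finite hσ2 hσ a ha
    obtain ⟨j, rfl⟩ := h b (left_ne_zero_of_mul a0)
    exact a1 (by rw [map_pow, ← mul_pow, e, one_pow])
  obtain ⟨μ, m1, ⟨D, ξ, m2⟩, m3⟩ := fr.exists_md hσ hC hk (.inl (by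
    obtain ⟨c, hc⟩ := exists_ne_of_ne_id hσ
    have k : ∀ x y : F, σ x = x → σ y = y → c + x ≠ y := fun x y hx hy e => hc (by
      rw [eq_sub_of_add_eq e, map_sub, hx, hy])
    haveI := Fintype.ofFinite F
    classical
    have := Finset.card_le_univ ({0, c + 0, c + 1, c + a, 1} : Finset F)
    rwa [Finset.card_insert_of_notMem (by simp [(k _ _ _ (map_zero σ)).symm, ha, -add_zero]), Finset.card_insert_of_notMem (by
      simp [a0.symm, k 0 1, -add_zero]), Finset.card_insert_of_notMem (by simp [a1.symm, k 1 1, -add_eq_right]),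
      Finset.card_pair (k _ _ ha (map_one σ)), ← Nat.card_eq_fintype_card] at this))
  have k : ∀ {D ξ}, fr.Md μ D ξ → fr.Fp (fr.lev D * 1) ∧ fr.swap.Fp (fr.lev D * 1) := fun ⟨_, d1, d2, η, d3, _, d4⟩ => by
    rw [mul_one]
    exact ⟨d2.fp (by rw [lev_E, d1, map_smul]) (n1 μ m1), d3.fp (by rw [swap_E, lev_Φ, d4, map_smul]) (by
      rw [map_inv₀, hσ2, ← mul_inv, mul_comm, Ne, inv_eq_one]; exact n1 μ m1)⟩
  rcases h2 with h2 | rfl
  · obtain ⟨e, he⟩ : ∃ e, A.1 *ᵥ e ∉ F ∙ e := by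
      by_contra! H
      obtain ⟨c, hc⟩ := LinearMap.exists_eq_smul_id_of_forall_notLinearIndependent (f := toLin' A.1) fun v h => by
        obtain ⟨c, e⟩ := Submodule.mem_span_singleton.1 (H v)
        simpa using (LinearIndependent.pair_iff.1 h c (-1) (by simp [e])).2
      exact h2 c (toLin'.injective (by simpa [End.one_eq_id] using hc))
    obtain ⟨D, T, d1, d2, d3, rfl⟩ := m3 A e h1 he
    exact H.com (k d2).2 (k d1).1 (fr.lev_mem d3) (by simp) (by simpa using fr.lev_mem d1.1)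
  · exact Big.com (Z := D) (D := D) (by simpa using H) (k m2).2 (k m2).1 (one_mem _) (by simp) (by simpa using fr.lev_mem m2.1)

theorem com_one [Unique n] (hW : finrank F fr.W = 1) (H : fr.Big g y A 1) (h1 : A.1.det = 1)
    {a : F} (ha : σ a = a) (a0 : a ≠ 0) (a1 : a ≠ 1) : Com g := by
  obtain rfl : A = 1 := Units.ext (by ext i j; simpa [Subsingleton.elim i default, Subsingleton.elim j default] using h1)
  obtain ⟨θ, hθ⟩ := IsCyclic.exists_monoid_generator (α := Fˣ)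
  have k : ∀ i j, σ θ ^ i = θ ^ j → ∀ x ≠ 0, σ x ^ i = x ^ j := fun i j e x hx => by
    obtain ⟨m, hm⟩ := hθ (Units.mk0 x hx)
    rw [← show θ.1 ^ m = x from congrArg Units.val hm, map_pow, pow_right_comm, e, pow_right_comm]
  have t0 := θ.ne_zero
  have t1 : σ θ ≠ 0 := (_root_.map_ne_zero σ).2 t0
  have k1 : σ θ ≠ θ ^ 2 := fun e => a1 (mul_left_cancel₀ a0 (by simpa [ha, sq, eq_comm] using k 1 2 (by simpa) a a0))
  have k2 : (σ θ)⁻¹ ≠ θ := fun e => by
    obtain ⟨b, rfl⟩ := exists_norm_of_finite hσ2 hσ a ha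
    obtain ⟨m, hm⟩ := hθ (Units.mk0 b (left_ne_zero_of_mul a0))
    exact a1 (by rw [← show θ.1 ^ m = b from congrArg Units.val hm, map_pow, ← mul_pow, ← e, map_inv₀, hσ2, e, mul_inv_cancel₀ t0,
      one_pow])
  obtain ⟨w, hw, hu⟩ := fr.exists_gen hW.le
  obtain ⟨s, hs, s1, s2, s3⟩ := exists_qrefl_det (mt (fr.an hC hW.le hw) (by
    rintro rfl; rw [(Submodule.eq_bot_iff fr.W).2 fun v hv => by simpa [eq_comm] using hu v hv] at hW; simp at hW))
    (d := σ θ / θ) (by simp [hσ2, t0, t1])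
  have u : ∀ a b : F, a ≠ b → IsUnit (aeval (scalar n a) (X - Polynomial.C b)) := fun a b h => by
    simpa [algebraMap_eq_diagonal] using (sub_ne_zero.2 h).isUnit.map (scalar n)
  have d : (dual σ (GeneralLinearGroup.scalar n θ)).1 = scalar n (σ θ)⁻¹ := by
    ext i j; simpa [Subsingleton.elim i default, Subsingleton.elim j default] using det_dual (σ := σ) (GeneralLinearGroup.scalar n θ)
  have := fr.gd_both hC (D := GeneralLinearGroup.scalar n θ) (δ := ⟨s, hs⟩) ⟨fun x => s1 _ ((fr.pE' ..).trans (by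
    simp [(fr.mem_W.1 hw).2])), fun x => s1 _ ((fr.pΦ' ..).trans (by simp [(fr.mem_W.1 hw).1]))⟩ (φ := X - Polynomial.C θ.1)
    (ψ := X - Polynomial.C (σ θ / θ)) (a := 0) (b := 0) (by simp [algebraMap_eq_diagonal]) (d ▸ u _ _ k2)
    (fun v hv => by obtain ⟨c, rfl⟩ := hu v hv; simp [s2]) (u _ _ fun e => k1 (by field_simp at e; exact e.symm))
    (d ▸ u _ _ fun e => k1 (by field_simp at e; simpa [hσ2] using congrArg σ e))
  exact Big.com (D := GeneralLinearGroup.scalar n θ) (by simpa using H) (this.2.fp (μ := 0) (by simp) (by simp))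
    (this.1.fp (μ := 0) (by simp) (by simp)) (one_mem _) (by simp) (mem_iff.2 (by simp [dt_lev, dt_apply ⟨s, hs⟩, s3]; field_simp))

end Fr

end H23.UO
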