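import Cfsg.Agent.H23.UOre3
import Cfsg.Agent.H23.UOre4

/-!
Unitary groups over the field with four elements: the big cell.
-/

namespace H23.UO

universe u

open Module Matrix H12 H11 H12.CForm Polynomial

theorem flip_aux {G : Type*} [Group G] {U : Subgroup G} {l t s : G} (h1 : ∀ u ∈ U, u * t = t * u) (h2 : t * t = 1) (ht : t ∈ U)
    (hs : s ∈ U) (h3 : ∀ u ∈ U, u * s = s * u) (hA : ∀ u ∈ U, ∃ v ∈ U, v * l * v⁻¹ = u * l ∨ v * l * v⁻¹ = t * u * l)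
    (hB : ∀ r ∈ U, r * l ≠ s * l * r) {u : G} (hu : u ∈ U) : (∃ v ∈ U, v * l * v⁻¹ = u * l ∨ v * l * v⁻¹ = s * u * l) ∧
      ∃ v ∈ U, v * (t * l) * v⁻¹ = u * l ∨ v * (t * l) * v⁻¹ = s * u * l := by
  have k : ∀ {a b c : G}, a ∈ U → b ∈ U → a * l * a⁻¹ = c * l → b * l * b⁻¹ ≠ s * c * l := fun {a b c} ha hb e1 e2 =>
    hB _ (mul_mem (inv_mem ha) hb) (by
      rw [mul_assoc s, ← e1, mul_inv_eq_iff_eq_mul] at e2
      rw [mul_assoc, e2, ← mul_assoc, ← mul_assoc, h3 _ (inv_mem ha)]; group)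
  have k' : ∀ {a c : G}, a ∈ U → a * l * a⁻¹ = t * c * l → a * (t * l) * a⁻¹ = c * l := fun {a c} ha e => by
    rw [← mul_assoc a, h1 a ha, mul_assoc t, mul_assoc t, e, ← mul_assoc, ← mul_assoc, h2, one_mul]
  obtain ⟨v, hv, e | e⟩ := hA u hu <;> obtain ⟨w, hw, e' | e'⟩ := hA _ (mul_mem hs hu)
  · exact absurd e' (k hv hw e)
  · exact ⟨⟨v, hv, .inl e⟩, w, hw, .inr (k' hw e')⟩
  · exact ⟨⟨w, hw, .inr e'⟩, v, hv, .inl (k' hv e)⟩
  · exact absurd (by rw [e', ← mul_assoc, h3 t ht, mul_assoc s]) (k hv hw e)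

variable {F : Type u} {V : Type*} {n : Type} [Field F] [AddCommGroup V] [Module F V] [Fintype n] [DecidableEq n]
  {σ : F →+* F} {hσ2 : ∀ a, σ (σ a) = a} {C : CForm (hermType σ hσ2) V}

theorem tv_smul {u : V} (hu : C.N u = 0) {a c : F} (hc : TvOk (hermType σ hσ2) c) (h : a * σ a = 1) (hu' : C.N (a • u) = 0) :
    tv C hu' hc = tv C hu hc := isom_ext fun x => by
  simp only [tv_app, map_smulₛₗ, LinearMap.smul_apply, smul_eq_mul, smul_smul]
  rw [show c * (σ a * hb C u x) * a = c * hb C u x by linear_combination c * hb C u x * h]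

namespace Fr

variable (fr : Fr C n)

theorem not_comm {D : GL n F} {η ζ : n → F} {μ : F} (h : (dual σ D).1 *ᵥ η = μ • η) (h1 : μ * σ μ = 1) {r s : C.isom}
    (hr : r ∈ fr.U) (e : r * fr.lev D = s * fr.lev D * r) (hs : (s⁻¹).1 (fr.Φ η) = fr.Φ η + fr.E ζ) : sd σ ζ η = 0 := by
  have e1 := congrArg (fun g : C.isom => hb C (fr.Φ η) (g.1 (fr.Φ η))) e
  have e2 : (fr.lev D).1 (σ μ • fr.Φ η + fr.E ((D⁻¹).1 *ᵥ ζ)) = fr.Φ η + fr.E ζ := by
    simp [h, smul_smul, mul_comm (σ μ), h1, -coe_units_inv]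
  have e3 := dual_sd (σ := σ) D ((D⁻¹).1 *ᵥ ζ) η
  simp only [isom_mul_apply, lev_Φ, h, map_smul] at e1
  rw [← iso_B s⁻¹ _ (s.1 _), isom_inv_apply', hs, ← e2, iso_B] at e1
  simp [h, hσ2, fr.cy_of hr.1, -coe_units_inv] at e1 e3
  exact (mul_eq_zero.1 (e3.trans e1)).resolve_left (left_ne_zero_of_mul_eq_one h1)

variable [FiniteDimensional F V] [Finite F] (h2 : (2 : F) = 0) (h4 : ∀ x : F, x ≠ 0 → x * σ x = 1)
  (ok : TvOk (hermType σ hσ2) 1)
include h2 h4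

omit [FiniteDimensional F V] [Finite F] h4 in
theorem tv_sq {u : V} (hu : C.N u = 0) : tv C hu ok * tv C hu ok = 1 := isom_ext fun x => by
  simp [isom_mul_apply, isom_one_apply, tv_app, hb_self, hu, add_assoc, ← two_smul F, h2]

theorem two {D : GL n F} {ξ η : n → F} {μ μ' : F} (h : fr.Gd (fr.lev D) ξ) (e1 : D.1 *ᵥ ξ = μ • ξ) (m1 : μ ≠ 0)
    (e2 : (dual σ D).1 *ᵥ η = μ' • η) (m2 : μ' ≠ 0) (e3 : sd σ η ξ ≠ 0) {u : C.isom} (hu : u ∈ fr.U) :
    ∃ v ∈ fr.U, v * fr.lev D * v⁻¹ = u * fr.lev D ∨ v * fr.lev D * v⁻¹ = tv C (fr.qE ξ) ok * u * fr.lev D := by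
  refine exists_conj₂ h.1 (fr.tv_mem ..) (fun u hu => fr.tv_comm _ _ hu) (mul_inv_eq_iff_eq_mul.1 ((tv_conj ..).trans ?_))
    (tv_sq h2 ok _) (fun u hu e => ?_) (fun u hu e => ?_) hu
  · simp only [lev_E, e1, map_smul]; exact tv_smul _ _ (h4 μ m1) _
  · obtain ⟨c, hc, rfl⟩ := h.2 u hu e
    by_cases c0 : c = 0
    · exact .inl (isom_ext (by simp [tv_app, c0, isom_one_apply]))
    obtain rfl : c = 1 := pow_eq_zero_iff two_ne_zero |>.1 (by
      linear_combination c * tvOk_herm.1 hc - h4 c c0 - c * h2 : (c - 1) ^ 2 = 0) |> sub_eq_zero.1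
    exact .inr rfl
  · have := fr.not_comm e2 (h4 μ' m2) hu e (ζ := sd σ ξ η • ξ) (by
      rw [inv_eq_of_mul_eq_one_right (tv_sq h2 ok _)]; simp [tv_app])
    simp [← sd_symm (hσ2 := hσ2) η ξ, e3] at this

omit ok in
theorem com_par (hσ : σ ≠ RingHom.id F) (hC : C.Nondeg) (h3 : 3 ≤ Fintype.card n) {g y : C.isom} {A : GL n F}
    (H : fr.Big g y A 1) (hA : A.1.det = 1) {z e : n → F} (h5 : g.1 (fr.E z) = fr.E e) (h6 : e ∉ F ∙ z) : Com g := by
  have ok : TvOk (hermType σ hσ2) 1 := tvOk_herm.2 (by rw [map_one, one_add_one_eq_two, h2])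
  rw [H.apply] at h5
  obtain rfl : A.1 *ᵥ z = e := by simpa [fr.U_cx H.1] using congrArg fr.cx h5
  obtain ⟨η, η1, η2⟩ := exists_sd₂ (hσ2 := hσ2) (a := A.1 *ᵥ z) (b := z) fun h => by
    obtain ⟨c, hc⟩ := Submodule.mem_span_singleton.1 h
    by_cases c0 : c = 0
    · simp [← show 0 = z by simpa [c0] using hc] at h6
    exact h6 (Submodule.mem_span_singleton.2 ⟨c⁻¹, by rw [inv_smul_eq_iff₀ c0, hc]⟩)
  rw [← map_eq_zero_iff σ σ.injective, sd_symm (hσ2 := hσ2)] at η1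
  replace η2 : sd σ z η = 1 := by rw [← sd_symm (hσ2 := hσ2), η2, map_one]
  obtain ⟨μ, m1, -, m3⟩ := fr.swap.exists_md hσ hC (by omega) (.inr h3)
  have m0 : μ ≠ 0 := by
    rintro rfl
    obtain ⟨c, hc⟩ := exists_ne_of_ne_id hσ
    obtain ⟨_ | j, rfl⟩ := m1 c (by rintro rfl; simp at hc) <;> simp at hc
  have m0' : (σ μ)⁻¹ ≠ 0 := by simpa
  obtain ⟨D, T, ⟨d1, d2, -, ξ, d3, d4, d5⟩, ⟨-, a2, a3, ξ', -, a4, a5⟩, t1, e⟩ := m3 (dual σ A) η (by simp [det_dual, hA]) fun h => by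
    obtain ⟨c, hc⟩ := Submodule.mem_span_singleton.1 h
    simpa [← hc, η1, η2] using dual_sd (σ := σ) A z η
  have l1 : fr.lev (dual σ D) = fr.swap.lev D := fr.swap.swap_lev D
  replace d4 : sd σ η ξ ≠ 0 := by rwa [← sd_symm (hσ2 := hσ2), _root_.map_ne_zero]
  have ts := fun {u} hu => tv_sq (C := C) h2 ok (u := u) hu
  have tc := fun e u hu => fr.tv_comm e ok (u := u) hu
  have tm : ∀ {u} hu, tv C (u := u) hu ok ∈ sisom C := fun hu => det_tv hu ok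
  obtain ⟨u, hu, k'⟩ := fr.swap.two h2 h4 ok a3 a2 m0 a5 m0' a4 H.1
  obtain ⟨y1, -, x, hx, rfl⟩ := H
  obtain ⟨⟨v, hv, k1⟩, v', hv', k2⟩ := flip_aux (s := tv C (fr.qE (A.1 *ᵥ z)) ok * tv C (fr.qE z) ok) (tc ξ) (ts _) (fr.tv_mem ..)
    (mul_mem (fr.tv_mem ..) (fr.tv_mem ..)) (fun u hu => by rw [← mul_assoc, tc _ _ hu, mul_assoc, tc _ _ hu, mul_assoc])
    (fun u => fr.two h2 h4 ok (l1 ▸ d3) d5 m0' ((dual_dual (hσ2 := hσ2) D).symm ▸ d2) m0 d4) (fun r hr e => by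
      exact one_ne_zero (η2.symm.trans (fr.not_comm ((dual_dual (hσ2 := hσ2) D).symm ▸ d2) (h4 μ m0) hr e (ζ := z) (by
        rw [_root_.mul_inv_rev, inv_eq_of_mul_eq_one_right (ts _), inv_eq_of_mul_eq_one_right (ts _)]
        simp [isom_mul_apply, tv_app, η1, η2])))) (inv_mem hx)
  have c1 : y * tv C (fr.qE (A.1 *ᵥ z)) ok * y⁻¹ = tv C (fr.qE (A.1 *ᵥ z)) ok := (tv_conj ..).trans (by simp only [h5])
  have c2 : fr.lev A * tv C (fr.qE z) ok * (fr.lev A)⁻¹ = tv C (fr.qE (A.1 *ᵥ z)) ok := (tv_conj ..).trans (by simp only [lev_E])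
  have c3 : fr.lev A = fr.swap.lev (T * D * T⁻¹) * (fr.lev (dual σ D))⁻¹ := by rw [← fr.swap_lev, e, map_mul _ _ D⁻¹, l1, map_inv]
  have fin : ∀ {l c v : C.isom}, l ∈ sisom C → c ∈ sisom C → v ∈ fr.U → u * (c * l * c⁻¹) * u⁻¹ = y * fr.swap.lev (T * D * T⁻¹) →
      v * l * v⁻¹ = x⁻¹ * fr.lev (dual σ D) ∨ v * l * v⁻¹ = tv C (fr.qE (A.1 *ᵥ z)) ok * tv C (fr.qE z) ok * x⁻¹ *
        fr.lev (dual σ D) → Com (y * (fr.lev A * 1) * x) := fun hl hc hv e1 e2 => by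
    have := com_of hl hc (fr.swap.U_le hu) (fr.U_le hv)
    rcases e2 with e2 | e2 <;> rw [e1, e2] at this
    · convert this using 1; rw [c3]; group
    refine .of_conj (tv C (fr.qE (A.1 *ᵥ z)) ok) ?_
    convert this using 1
    rw [show ∀ Z s t L : C.isom, y * Z * (s * t * x⁻¹ * L)⁻¹ = y * (Z * L⁻¹ * (x * t⁻¹)) * s⁻¹ from fun _ _ _ _ => by group, ← c3,
      inv_eq_of_mul_eq_one_right (ts (fr.qE z)), tc z _ hx, ← mul_assoc (fr.lev A), mul_inv_eq_iff_eq_mul.1 c2, mul_assoc (tv ..) _ x,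
      ← mul_assoc y (tv ..), mul_inv_eq_iff_eq_mul.1 c1]
    group
  have lm := fr.lev_mem (A := dual σ D) (by simp [det_dual, d1])
  rcases k' with k' | k'
  · exact fin lm (fr.swap.lev_mem t1) hv (by rw [← k', l1]; simp) k1
  have c4 : fr.lev (dual σ D) * tv C (fr.qE ξ) ok * (fr.lev (dual σ D))⁻¹ = tv C (fr.qE ξ) ok :=
    (tv_conj ..).trans (by simp only [lev_E, d5, map_smul]; exact tv_smul _ _ (h4 _ m0') _)
  have c5 : fr.lev (dual σ D) * tv C (fr.qΦ η) ok * (fr.lev (dual σ D))⁻¹ = tv C (fr.qΦ η) ok :=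
    (tv_conj ..).trans (by simp only [lev_Φ, dual_dual (hσ2 := hσ2), d2, map_smul]; exact tv_smul _ _ (h4 _ m0) _)
  have c6 : tv C (fr.qE ξ) ok * tv C (fr.qΦ η) ok * tv C (fr.qE ξ) ok * (tv C (fr.qE ξ) ok * tv C (fr.qΦ η) ok)⁻¹ =
      tv C (fr.qΦ η) ok := (tv_conj ..).trans (by
    have : (tv C (fr.qE ξ) ok * tv C (fr.qΦ η) ok).1 (fr.E ξ) = sd σ η ξ • fr.Φ η := by
      simp only [isom_mul_apply, tv_app, map_add, map_smul, pE, pΦ, xE, yE, yΦ, one_mul, map_zero, zero_add, smul_eq_mul,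
        ← sd_symm (hσ2 := hσ2) η ξ]
      linear_combination (norm := module) (h4 _ d4 + h2) • fr.E ξ
    simp only [this]; exact tv_smul _ _ (h4 _ d4) _)
  have c7 : fr.swap.lev T * tv C (fr.qΦ η) ok * (fr.swap.lev T)⁻¹ = tv C (fr.swap.qE (T.1 *ᵥ η)) ok :=
    (tv_conj ..).trans (by simp only [← fr.swap.lev_E]; rfl)
  refine fin (mul_mem (tm _) lm) (mul_mem (fr.swap.lev_mem t1) (mul_mem (tm (fr.qE ξ)) (tm (fr.qΦ η)))) hv' ?_ k2
  have c8 : Commute (tv C (fr.qE ξ) ok * tv C (fr.qΦ η) ok) (fr.lev (dual σ D)) :=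
    .mul_left (mul_inv_eq_iff_eq_mul.1 c4).symm (mul_inv_eq_iff_eq_mul.1 c5).symm
  have c9 := congrArg (· * fr.lev (dual σ D)) c6
  simp only [mul_assoc _ _⁻¹, c8.inv_left.eq] at c9
  rw [← one_mul y, ← ts (fr.swap.qE (T.1 *ᵥ η)), mul_assoc _ _ y, mul_assoc _ (_ * y), ← k', ← mul_assoc (tv ..) _ u⁻¹,
    ← mul_assoc (tv ..) u, ← fr.swap.tv_comm _ ok hu, ← c7, map_mul, map_mul, map_inv, ← l1,
    show ∀ T b L : C.isom, u * (T * b * T⁻¹) * (T * L * T⁻¹) = u * T * (b * L) * T⁻¹ from fun _ _ _ => by group, ← c9]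
  group

omit ok h4 h2 [FiniteDimensional F V] [Finite F] fr in
include hσ2 in
theorem quad_dual {D : GL n F} {t : F} (h : D.1 * D.1 + t • D.1 + 1 = 0) :
    (dual σ D).1 * (dual σ D).1 + σ t • (dual σ D).1 + 1 = 0 := by
  have := congrArg (fun M => ((((D⁻¹).1 * M * (D⁻¹).1)).map σ)ᵀ) h
  simp only [Matrix.mul_add, Matrix.add_mul, ← Matrix.mul_assoc, Units.inv_mul, Matrix.mul_smul, Matrix.smul_mul, Matrix.one_mul,
    Units.mul_inv, Matrix.mul_one, Matrix.mul_zero, Matrix.zero_mul] at this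
  rw [coe_dual]
  ext i j
  simpa [one_apply, apply_ite σ, add_comm, add_left_comm, add_assoc, eq_comm, mul_apply, mul_comm] using congrFun₂ this i j

omit ok [FiniteDimensional F V] [Finite F] in
theorem quad_fp (hC : C.Nondeg) {D : GL n F} {t : F} (ht : t * t + t + 1 = 0) (h : D.1 * D.1 + t • D.1 + 1 = 0) :
    fr.Fp (fr.lev D * 1) ∧ fr.swap.Fp (fr.lev D * 1) := by
  have t0 : t ≠ 0 := by rintro rfl; simp at ht
  have k : ∀ {A : Matrix n n F} {s : F}, s ≠ 0 → A * A + s • A + 1 = 0 → IsUnit (aeval A (X - 1 : F[X])) := fun {A s} s0 e =>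
    .of_mul_eq_one (s⁻¹ • (A + (s + 1) • 1)) (by
      simp only [map_sub, aeval_X, map_one, Matrix.mul_smul, inv_smul_eq_iff₀ s0, Matrix.mul_add, Matrix.sub_mul, Matrix.one_mul,
        Matrix.mul_one]
      linear_combination (norm := module) e - (s + 1) • h2 • (1 : Matrix n n F))
  have h' := quad_dual (hσ2 := hσ2) h
  have := fr.gd_both hC (D := D) (one_mem _) (φ := X * X + Polynomial.C t * X + 1) (ψ := X - 1) (a := 0) (b := 0)
    (by simpa [Algebra.smul_def] using h) (by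
      rw [show aeval (dual σ D).1 (X * X + Polynomial.C t * X + 1) = (dual σ D).1 by
        have : σ t = t - 1 := by have := h4 t t0; grind
        simp only [map_add, map_mul, aeval_X, aeval_C, map_one, ← Algebra.smul_def]
        linear_combination (norm := module) h' - this • (dual σ D).1]
      exact Units.isUnit _) (by simp [End.one_eq_id]) (k t0 h) (k (by simpa) h')
  exact ⟨this.1.fp (μ := 0) (by simp) (by simp), this.2.fp (μ := 0) (by simp) (by simp)⟩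

omit ok fr in
theorem com_two {fr : Fr C (Fin 2)} (hσ : σ ≠ RingHom.id F) (hC : C.Nondeg) {g y : C.isom} {A : GL (Fin 2) F}
    (H : fr.Big g y A 1) (hA : A.1.det = 1) : Com g := by
  obtain ⟨D, T, t, t1, t2, d1, d2, e⟩ := sl_two hσ h2 h4 A hA
  have k : ∀ {D : GL (Fin 2) F} {t : F}, D.1 * D.1 + t • D.1 + 1 = 0 →
      (T * D * T⁻¹).1 * (T * D * T⁻¹).1 + t • (T * D * T⁻¹).1 + 1 = 0 := fun {D t} h => by
    have := congrArg (fun M => T.1 * M * (T⁻¹).1) h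
    simpa [Matrix.mul_add, Matrix.add_mul, Matrix.mul_assoc, -coe_units_inv] using this
  have l := fr.lev_mem d1
  rcases e with e | e <;> obtain rfl := eq_mul_inv_of_mul_eq (eq_mul_inv_of_mul_eq e)
  · exact H.com (fr.quad_fp h2 h4 hC t1 (k t2)).2 (fr.quad_fp h2 h4 hC t1 t2).1 (fr.lev_mem d2) (by simp) (by simpa)
  obtain ⟨τ, hτ⟩ := exists_iso hC (fr.Φ ∘ₗ fr.cx + fr.p + fr.E ∘ₗ fr.cy) fun u v => by
    rw [fr.B_eq, fr.B_eq u]; simp [add_comm]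
  have τ2 : τ * τ = 1 := isom_ext fun v => by simpa [isom_mul_apply, hτ, isom_one_apply] using fr.swap.dec v
  have τ3 : τ * fr.lev D * τ = fr.lev (dual σ D) := isom_ext fun v => by
    simp [isom_mul_apply, hτ, lev_apply, dual_dual (hσ2 := hσ2)]; abel
  refine H.com (fr.quad_fp h2 h4 hC (by simpa using congrArg σ t1) (k (quad_dual (hσ2 := hσ2) t2))).2
    (fr.quad_fp h2 h4 hC t1 t2).1 (mul_mem (fr.lev_mem d2) (mem_iff.2 (?_ : dt τ = 1))) ?_ (by simpa)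
  · have := congrArg dt τ2
    rw [map_mul, map_one] at this; grind
  · simp [← τ3, inv_eq_of_mul_eq_one_right τ2, mul_assoc]

end Fr

end H23.UO
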