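import Cfsg.Agent.H23.UOre5
import Cfsg.Agent.H12.Parabolic

/-!
Central elements of unitary groups and orthogonal decompositions.
-/

namespace H23.UO

open Module Matrix H12 H11 H12.CForm

variable {F V : Type*} {n : Type} [Field F] [AddCommGroup V] [Module F V] [Fintype n] [DecidableEq n]
  {σ : F →+* F} {hσ2 : ∀ a, σ (σ a) = a} {C : CForm (hermType σ hσ2) V} [FiniteDimensional F V]

theorem exists_coord [Finite F] (hσ : σ ≠ RingHom.id F) (hC : C.Nondeg) {M : Matrix n n F} (hn : finrank F V = Fintype.card n)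
    (h1 : (M.map σ)ᵀ = M) (h2 : IsUnit M) : ∃ e : V ≃ₗ[F] (n → F), ∀ u v, hb C u v = sd σ (e u) (M *ᵥ e v) := by
  obtain ⟨e, he⟩ := herm_iso_of_finite hσ hC (C' := .ofHerm σ hσ hσ2 ((sd σ).compl₂ M.mulVecLin) ⟨fun u v => by
    simp [sd_symm (hσ2 := hσ2), sd_mulVec, h1]⟩) (fun x hx => mulVec_injective_of_isUnit h2 (sd_ext (σ := σ) fun y => by
      rw [← sd_symm (hσ2 := hσ2), sd_mulVec, h1, show sd σ x (M *ᵥ y) = 0 from hx y]; simp)) (by simp [hn])
  exact ⟨e, fun u v => (he.1 u v).symm⟩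

theorem com_mat (hC : C.Nondeg) {M G a b : Matrix n n F} {e : V ≃ₗ[F] (n → F)} (he : ∀ u v, hb C u v = sd σ (e u) (M *ᵥ e v))
    {g : C.isom} (hg : ∀ v, e (g.1 v) = G *ᵥ e v) (ha : (a.map σ)ᵀ * M * a = M) (hb' : (b.map σ)ᵀ * M * b = M) (da : a.det = 1)
    (db : b.det = 1) (h : G * b * a = a * b) : Com g := by
  have k : ∀ {a : Matrix n n F}, (a.map σ)ᵀ * M * a = M → a.det = 1 → ∃ x ∈ sisom C, ∀ v, e (x.1 v) = a *ᵥ e v := fun {a} h d => by
    obtain ⟨x, hx⟩ := Fr.exists_iso hC (e.symm.conj (toLin' a)) fun u v => by simp [he, sd_mulVec, ← Matrix.mul_assoc, h]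
    exact ⟨x, mem_iff.2 (by rw [dt_apply, LinearMap.ext hx, ← d, ← LinearMap.det_toLin']; exact LinearMap.det_conj (toLin' a) e.symm),
      by simp [hx]⟩
  obtain ⟨x, x1, x2⟩ := k ha da
  obtain ⟨y, y1, y2⟩ := k hb' db
  exact ⟨x, x1, y, y1, eq_mul_inv_of_mul_eq (eq_mul_inv_of_mul_eq (isom_ext fun v => e.injective (by
    simp [isom_mul_apply, x2, y2, hg, ← Matrix.mul_assoc, h])))⟩

theorem qcomm {R : Type*} [Ring R] [Algebra F R] {x y : R} {c : F} (h : x * y = c • (y * x)) (i : ℕ) :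
    x ^ i * y = c ^ i • (y * x ^ i) ∧ x * y ^ i = c ^ i • (y ^ i * x) := by
  induction i with
  | zero => simp
  | succ i ih => exact ⟨by rw [pow_succ', mul_assoc, ih.1, mul_smul_comm, ← mul_assoc, h]; simp [smul_smul, pow_succ c, mul_assoc],
      by rw [pow_succ, ← mul_assoc, ih.2, smul_mul_assoc, mul_assoc, h]; simp [smul_smul, pow_succ c, mul_assoc]⟩

include hσ2 in
theorem exists_sqrt [Finite F] (hσ : σ ≠ RingHom.id F) {l : F} (h : l * σ l = 1) : ∃ a, l = a * a := by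
  classical
  haveI := Fintype.ofFinite F
  obtain ⟨b, b0, rfl⟩ := hilbert90 hσ hσ2 h
  have e : quadraticChar F (σ b) = quadraticChar F b := by
    simp only [quadraticChar_apply, quadraticCharFun, map_eq_zero,
      show IsSquare (σ b) ↔ IsSquare b from ⟨fun h => hσ2 b ▸ h.map σ, fun h => h.map σ⟩]
  exact (quadraticChar_one_iff_isSquare (left_ne_zero_of_mul_eq_one h)).1 (by
    rw [map_mul, ← quadraticChar_sq_one b0, sq, ← e, ← mul_one (σ b)⁻¹, ← mul_inv_cancel₀ (a := σ b) (by simpa), mul_left_comm,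
      ← sq, map_mul, quadraticChar_sq_one' (by simpa), mul_one])

theorem com_scalar [Finite F] (hσ : σ ≠ RingHom.id F) (hC : C.Nondeg) {m : ℕ} (hn : finrank F V = m + 2) {g : C.isom} {l : F}
    (hg : ∀ v, g.1 v = l • v) (h1 : l * σ l = 1) (h2 : l ^ (m + 2) = 1) : Com g := by
  let T : Matrix (Fin (m + 2)) (Fin (m + 2)) F := diagonal fun i => l ^ i.1
  let P : Matrix (Fin (m + 2)) (Fin (m + 2)) F := (finRotate _).permMatrix F
  have t1 : (T.map σ)ᵀ * T = 1 := by simp [T, ← mul_pow, mul_comm (σ l), h1]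
  have t2 : T ^ (m + 2) = 1 := by simp [T, diagonal_pow, Pi.pow_def, pow_right_comm l _ (m + 2), h2]
  have t3 : T.det = l ^ ((m + 2) * (m + 1) / 2) := by
    simp [T, Finset.prod_pow_eq_pow_sum, Fin.sum_univ_eq_sum_range fun i => i, Finset.sum_range_id]
  have p1 : (P.map σ)ᵀ * P = 1 := by
    rw [show P.map σ = P by ext; simp [P, PEquiv.toMatrix_apply, apply_ite σ], transpose_permMatrix, ← permMatrix_mul]; simp
  have p2 : P ^ (m + 2) = 1 := by
    have := congrArg (permMatrixHom (R := F)) (pow_orderOf_eq_one (finRotate (m + 2))⁻¹)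
    rwa [orderOf_inv, isCycle_finRotate.orderOf, support_finRotate, Finset.card_fin, map_pow, map_one] at this
  have p3 : P.det = (-1) ^ (m + 1) := by simp [P, sign_finRotate]
  have e : P * T = l • (T * P) := matrix_ext_mulVec fun v => funext fun i => by
    simp only [← mulVec_mulVec, P, T, permMatrix_mulVec, smul_mulVec, Function.comp, mulVec_diagonal, Pi.smul_apply, coe_finRotate]
    split_ifs with h
    · simp [h, ← mul_assoc, ← pow_succ', h2]
    · simp [pow_succ', mul_assoc]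
  have k : ∀ {M a b : Matrix (Fin (m + 2)) (Fin (m + 2)) F}, (M.map σ)ᵀ = M → IsUnit M → (a.map σ)ᵀ * M * a = M →
      (b.map σ)ᵀ * M * b = M → a.det = 1 → b.det = 1 → a * b = l • (b * a) → Com g := fun m1 m2 a1 b1 a2 b2 e => by
    obtain ⟨c, hc⟩ := exists_coord hσ hC (by simpa) m1 m2
    exact com_mat hC hc (G := l • 1) (by simp [hg, smul_mulVec]) a1 b1 a2 b2 (by simp [e])
  have k' : ∀ a : F, a * σ a = 1 → a ^ (m + 2) * T.det = 1 → Com g := fun a a1 a2 => by
    let D : Matrix (Fin (m + 2)) (Fin (m + 2)) F := diagonal (Function.update 1 0 ((-1) ^ (m + 1)))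
    have d : (D.map σ)ᵀ * D = 1 := by
      simp only [D, diagonal_map (map_zero σ), diagonal_transpose, diagonal_mul_diagonal, diagonal_eq_one]
      ext i; by_cases h : i = 0 <;> simp [h, ← mul_pow]
    refine k (M := 1) (a := P * D) (b := a • T) (by simp) isUnit_one ?_ (by simp [Matrix.map_smul', t1, smul_smul, a1]) ?_
      (by simpa using a2) ?_
    · rw [Matrix.map_mul, transpose_mul, Matrix.mul_one, Matrix.mul_assoc, ← Matrix.mul_assoc _ P, p1, Matrix.one_mul, d]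
    · simp [p3, D, Finset.prod_update_of_mem, ← mul_pow]
    · rw [Matrix.mul_smul, Matrix.mul_assoc, (commute_diagonal ..).eq, ← Matrix.mul_assoc, e]
      simp [smul_smul, mul_comm, Matrix.mul_assoc, D]
  obtain ⟨j, hj | hj⟩ := (m + 1).even_or_odd'
  · exact k' 1 (by simp) (by rw [t3, hj, mul_left_comm, Nat.mul_div_cancel_left _ two_pos, pow_mul, h2]; simp)
  replace hj : m + 2 = (j + 1) + (j + 1) := by omega
  have t4 : T.det = l ^ (j + 1) := by
    rw [t3, show (m + 2) * (m + 1) / 2 = (m + 2) * j + (j + 1) by rw [hj, show m + 1 = 2 * j + 1 by omega]; apply Nat.div_eq_of_eq_mul_left two_pos; ring,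
      pow_add, pow_mul, h2, one_pow, one_mul]
  rcases mul_self_eq_one_iff.1 (pow_add l _ _ ▸ hj ▸ h2 : l ^ (j + 1) * l ^ (j + 1) = 1) with h3 | h3
  · exact k' 1 (by simp) (by simp [t4, h3])
  obtain ⟨a, rfl⟩ := exists_sqrt (hσ2 := hσ2) hσ h1
  have a2 : a ^ (m + 2) = -1 := by rw [hj, pow_add, ← mul_pow, h3]
  rcases mul_self_eq_one_iff.1 (by rw [← h1, map_mul]; ring : a * σ a * (a * σ a) = 1) with a1 | a1
  · exact k' a a1 (by simp [a2, t4, h3])
  obtain ⟨κ, κ0, hκ⟩ : ∃ κ ≠ 0, σ κ * (-1) ^ (j + 1) = κ := by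
    obtain ⟨c, c0, hc⟩ := exists_trace_zero' (hσ2 := hσ2) hσ
    rcases neg_one_pow_eq_or F (j + 1) with h | h <;> rw [h]
    exacts [⟨1, one_ne_zero, by simp⟩, ⟨c, c0, by linear_combination -hc⟩]
  have e1 := (qcomm e (j + 1)).1
  have e2 := (qcomm e (j + 1)).2
  rw [h3] at e1 e2
  rw [congrArg (T ^ ·) hj, pow_add] at t2
  rw [congrArg (P ^ ·) hj, pow_add] at p2
  have u : ∀ {A : Matrix (Fin (m + 2)) (Fin (m + 2)) F}, (A.map σ)ᵀ * A = 1 → A ^ (j + 1) * A ^ (j + 1) = 1 →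
      ((A ^ (j + 1)).map σ)ᵀ = A ^ (j + 1) := fun {A} h h' => left_inv_eq_right_inv (by
    rw [← RingHom.mapMatrix_apply, map_pow, transpose_pow, RingHom.mapMatrix_apply, ← Commute.mul_pow (h.trans (mul_eq_one_comm.1 h).symm)]; simp [h]) h'
  refine k (M := κ • (T ^ (j + 1) * P ^ (j + 1))) (a := a • P) (b := a • T) ?_ ?_ ?_ ?_ (by simp [a2, p3, show m + 1 = 2 * j + 1 by omega, pow_succ])
    (by simp [a2, t4, h3]) (by simp [e, smul_comm a (a * a)])
  · rw [Matrix.map_smul' _ _ _ (map_mul σ), transpose_smul, Matrix.map_mul, transpose_mul, u t1 t2, u p1 p2, (qcomm e1 _).2, smul_smul, hκ]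
  · exact .of_mul_eq_one (κ⁻¹ • (P ^ (j + 1) * T ^ (j + 1))) (by
      simp [smul_smul, κ0, Matrix.mul_assoc, ← Matrix.mul_assoc (P ^ _), p2, t2])
  · rw [Matrix.map_smul' _ _ _ (map_mul σ), transpose_smul, Matrix.mul_smul, Matrix.mul_assoc, Matrix.smul_mul, Matrix.smul_mul,
      smul_smul, a1, Matrix.mul_assoc, ← pow_succ, pow_succ' P, ← Matrix.mul_assoc (T ^ _), ← neg_eq_iff_eq_neg.2 (e2.trans (neg_one_smul ..))]
    simp [← Matrix.mul_assoc, p1]
  · rw [Matrix.map_smul' _ _ _ (map_mul σ), transpose_smul, Matrix.mul_smul, Matrix.mul_assoc, Matrix.smul_mul, Matrix.smul_mul,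
      smul_smul, a1, Matrix.mul_assoc, e1, Matrix.mul_smul (T ^ _), ← Matrix.mul_assoc (T ^ _), ← pow_succ, pow_succ' T]
    simp [← Matrix.mul_assoc, t1]

theorem com_split (hC : C.Nondeg) {M : Submodule F V} (hM : C.NondegOn M) {g : C.isom} (h : ∀ x ∈ M, g.1 x ∈ M) :
    ∃ (a : (C.restrict M).isom) (b : (C.restrict (C.perp M)).isom), (∀ x : M, (a.1 x : V) = g.1 x) ∧
      (∀ x : C.perp M, (b.1 x : V) = g.1 x) ∧ dt g = dt a * dt b ∧ (Com a → Com b → Com g) := by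
  have hc := hC.isCompl_perp hM
  let Ψ : (C.restrict M).isom × (C.restrict (C.perp M)).isom →* C.isom := ((sumEquiv hc).comp
    ((Subgroup.subtype _).prodMap (Subgroup.subtype _))).codRestrict _ fun x => sumEquiv_mem_isom hc x.1.2 x.2.2
  have d : ∀ x, dt (Ψ x) = dt x.1 * dt x.2 := fun x => congrArg Units.val (det_sumEquiv hc x.1.1 x.2.1)
  let x := hC.stabEquivProd hM ⟨g, mem_stab_of_mapsTo h⟩
  have e : Ψ x = g := isom_ext fun v => by
    obtain ⟨a, b, rfl⟩ := exists_add_of_isCompl hc v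
    exact (sumEquiv_apply ..).trans (map_add g.1 ..).symm
  refine ⟨x.1, x.2, fun _ => rfl, fun _ => rfl, e ▸ d x, fun ⟨a, ha, b, hb, e1⟩ ⟨a', ha', b', hb', e2⟩ => ⟨Ψ (a, a'), mem_iff.2 ?_,
    Ψ (b, b'), mem_iff.2 ?_, by rw [← e, ← map_inv, ← map_inv, ← map_mul, ← map_mul, ← map_mul]; exact congrArg Ψ (Prod.ext e1 e2)⟩⟩ <;>
    simp [d, mem_iff.1, *]

end H23.UO
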