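import Cfsg.Agent.H23.UOre6

/-!
Every element of a special unitary group is a commutator.
-/

namespace H23.UO

universe u v

open Module Matrix H12 H11 H12.CForm

variable {F : Type u} {V : Type v} [Field F] [AddCommGroup V] [Module F V] {σ : F →+* F} {hσ2 : ∀ a, σ (σ a) = a}
  {C : CForm (hermType σ hσ2) V} [FiniteDimensional F V] [Finite F] (hσ : σ ≠ RingHom.id F)
include hσ

theorem exists_on {P : Submodule F V} (hP : C.NondegOn P) (h : 3 ≤ finrank F P) :
    ∃ u : Fin 3 → V, (∀ i, u i ∈ P) ∧ ∀ i j, hb C (u i) (u j) = if i = j then 1 else 0 := by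
  obtain ⟨e, he⟩ := exists_coord hσ (C.restrict_nondeg_iff.2 hP) (M := 1) (Fintype.card_fin _).symm (by simp) isUnit_one
  exact ⟨fun i => e.symm (Pi.single (i.castLE h) 1), fun i => Submodule.coe_mem _, fun i j => (he _ _).trans (by
    simp [one_apply])⟩

omit [FiniteDimensional F V] [Finite F] in
theorem ti_sup {T : Submodule F V} (h : ∀ x ∈ T, C.N x = 0) {y : V} (h1 : y ∈ C.perp T) (h2 : C.N y = 0) :
    ∀ x ∈ T ⊔ F ∙ y, C.N x = 0 :=
  (TS.sup ⟨h, fun x hx _ hy => herm_le_perp hσ h hy x hx⟩ (ts_singleton h2) ((Submodule.span_singleton_le_iff_mem ..).2 h1)).1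

variable (hC : C.Nondeg) {g : C.isom}
include hC

theorem exists_J {T : Submodule F V} (h : ∀ x ∈ T, C.N x = 0) {x : V} (hx : x ∈ T) (hg : g.1 x ∉ T) :
    ∃ fr : Fr C (Fin (finrank F V / 2)), finrank F fr.W ≤ 1 ∧ fr.J g ∧ ∀ x ∈ T, ∃ a, x = fr.E a := by
  by_cases hp : g.1 x ∈ C.perp T
  · obtain ⟨y, y1, y2, y3⟩ := hC.exists_partner hg ((isom_N g.2 x).trans (h x hx)) hp
    obtain ⟨fr, f1, f2⟩ := exists_fr hσ hC (ti_sup hσ h y1 y2)
    obtain ⟨a, rfl⟩ := f2 x (Submodule.mem_sup_left hx)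
    obtain ⟨b, rfl⟩ := f2 y (Submodule.mem_sup_right (Submodule.mem_span_singleton_self y))
    exact ⟨fr, f1, ⟨a, fun a' e => by simpa [e] using show hb C _ _ = 1 from y3⟩, fun x hx => f2 x (Submodule.mem_sup_left hx)⟩
  obtain ⟨fr, f1, f2⟩ := exists_fr hσ hC h
  obtain ⟨a, rfl⟩ := f2 x hx
  exact ⟨fr, f1, ⟨a, fun a' e => hp (C.mem_perp.2 fun t ht => by
    obtain ⟨b, rfl⟩ := f2 t ht
    exact show hb C _ _ = 0 by simp [e])⟩, f2⟩

theorem com_or_J (h3 : 3 ≤ finrank F V) (hg : g ∈ sisom C) :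
    Com g ∨ ∃ fr : Fr C (Fin (finrank F V / 2)), finrank F fr.W ≤ 1 ∧ fr.J g := by
  by_cases h : ∃ z, C.N z = 0 ∧ g.1 z ∉ F ∙ z
  · obtain ⟨z, z1, z2⟩ := h
    obtain ⟨fr, f1, f2, -⟩ := exists_J hσ hC (ts_singleton z1).1 (Submodule.mem_span_singleton_self z) z2
    exact .inr ⟨fr, f1, f2⟩
  push Not at h
  obtain ⟨e, -, e0, e1⟩ := herm_exists_iso (exists_norm_of_finite hσ2 hσ) C (W := ⊤) (by simp; omega)
  obtain ⟨l, hl⟩ := exists_scalar_of_fix hC (.inl h3) e0 e1 g.2 fun u hu =>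
    (Submodule.mem_span_singleton.1 (h u hu)).imp fun _ => .symm
  obtain ⟨y, hy⟩ := hC.exists_eq e0 1
  obtain ⟨m, hm⟩ := Nat.exists_eq_add_of_le' (by omega : 2 ≤ finrank F V)
  refine .inl (com_scalar hσ hC hm hl (by simpa [hl, show hb C e y = 1 from hy] using iso_B g e y) ?_)
  rw [← mem_iff.1 hg, dt_apply, show g.1.toLinearMap = l • .id from LinearMap.ext hl, LinearMap.det_smul, hm]; simp

section
variable (h2 : (2 : F) = 0) (h4 : ∀ x : F, x ≠ 0 → x * σ x = 1)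
include h2 h4

theorem an_of (h6 : 6 ≤ finrank F V) (H : ∀ z, C.N z = 0 → hb C z (g.1 z) = 0 → g.1 z ∈ F ∙ z) :
    ∃ l, l * σ l = 1 ∧ ∀ x, hb C x (g.1 x - l • x) = 0 → g.1 x = l • x := by
  have k : ∀ fr : Fr C (Fin (finrank F V / 2)), ∃ a ≠ 0, hb C (fr.E a) (g.1 (fr.E a)) = 0 := fun fr => by
    obtain ⟨a, -, a0, ha⟩ := cw_two hσ h2 h4 ((sd σ).compl₂ (fr.cy ∘ₗ g.1.toLinearMap ∘ₗ fr.E)) (T := ⊤) (by simp; omega)
    exact ⟨a, a0, (fr.pE ..).trans ha⟩
  obtain ⟨fr, -, -⟩ := exists_fr hσ hC (T := ⊥) (by simp)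
  obtain ⟨a, a0, ha⟩ := k fr
  obtain ⟨l, hl⟩ := Submodule.mem_span_singleton.1 (H _ (fr.qE a) ha)
  have x0 : fr.E a ≠ 0 := fun e => a0 (by simpa using congrArg fr.cx e)
  have x1 := fr.qE a
  generalize fr.E a = x at *
  have l1 := h4 l (by rintro rfl; exact x0 (by simpa using hl.symm))
  have un : ∀ y, C.N y = 0 → hb C y (g.1 y) = 0 → g.1 y = l • y := fun y y1 y2 => by
    obtain ⟨m, hm⟩ := Submodule.mem_span_singleton.1 (H y y1 y2)
    by_cases e : l = m
    · rw [e, hm]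
    have e1 : hb C x y = 0 := by
      have := iso_B g x y
      simp only [← hl, ← hm, map_smulₛₗ, LinearMap.smul_apply, smul_eq_mul, RingHom.id_apply] at this
      exact (mul_eq_zero_iff_left (sub_ne_zero.2 e)).1 (by linear_combination m * hb C x y * l1 - l * this)
    have e2 : hb C y x = 0 := by rw [hb_symm, e1, map_zero]
    obtain ⟨c, hc⟩ := Submodule.mem_span_singleton.1 (H (x + y) (by simp [← hb_self, e1, e2]; simp [hb_self, x1, y1]) (by
      simp [← hl, ← hm, e1, e2, hb_self, x1, y1]))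
    have := congrArg g.1 hc
    simp only [map_add, map_smul, ← hl, ← hm] at hc this
    obtain rfl : c = l := sub_eq_zero.1 ((mul_eq_zero_iff_right (sub_ne_zero.2 e)).1 ((smul_eq_zero_iff_left x0).1 (by
      linear_combination (norm := module) this - m • hc)))
    rw [← hm]; linear_combination (norm := module) -hc
  have n1 : ∀ x, C.N x ≠ 0 → C.N x = 1 := fun x hx => by have := h4 _ hx; rw [herm_σN] at this; grind
  obtain ⟨u, u1, u2⟩ : ∃ u, g.1 u = l • u ∧ C.N u ≠ 0 := by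
    by_contra! N
    obtain ⟨fr, -, f⟩ := exists_fr hσ hC (T := LinearMap.ker (g.1.toLinearMap - l • 1 : End F V)) fun x hx => N x (sub_eq_zero.1 hx)
    obtain ⟨a, a0, ha⟩ := k fr.swap
    obtain ⟨b, hb⟩ := f _ (sub_eq_zero.2 (un _ (fr.qΦ a) ha))
    exact a0 (by simpa using congrArg fr.cy hb)
  refine ⟨l, l1, fun x hx => ?_⟩
  obtain ⟨c, hc⟩ : ∃ c : F, C.N (x + c • u) = 0 := by
    by_cases x0 : C.N x = 0
    · exact ⟨0, by simpa⟩
    simp only [H12.herm_N_add, H12.herm_N_smul, n1 x x0, n1 u u2, map_smul, smul_eq_mul]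
    by_cases s0 : C.B x u = 0
    · exact ⟨1, by simp [s0, one_add_one_eq_two, h2]⟩
    · exact ⟨(C.B x u)⁻¹, by rw [h4 _ (inv_ne_zero s0), inv_mul_cancel₀ s0, map_one]; linear_combination 2 * h2⟩
  have e := iso_B g u x
  have := un _ hc (by
    rw [← hb_self] at hc
    simp only [u1, map_add, map_sub, map_smulₛₗ, LinearMap.add_apply, LinearMap.smul_apply, smul_eq_mul, RingHom.id_apply] at *
    linear_combination l * hc + hx + σ c * l * e - σ c * hb C u (g.1 x) * l1)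
  rw [map_add, map_smul, u1] at this
  linear_combination (norm := module) this

theorem tri_a (h6 : 6 ≤ finrank F V) {l : F} (l1 : l * σ l = 1) (H : ∀ x, hb C x (g.1 x - l • x) = 0 → g.1 x = l • x) :
    ∃ s : Fin 3 → V, (C.gram s).det ≠ 0 ∧ ∀ i, g.1 (s i) = l • s i := by
  let N : End F V := g.1.toLinearMap - l • 1
  obtain ⟨W, hW⟩ := (LinearMap.ker N).exists_isCompl
  have k : ∀ x ∈ W, hb C x (N x) = 0 → x = 0 := fun x hx h =>
    Submodule.disjoint_def.1 hW.disjoint x (sub_eq_zero.2 (H x h)) hx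
  have w2 : finrank F W ≤ 2 := by
    by_contra! h
    obtain ⟨x, x1, x2, x3⟩ := cw_two hσ h2 h4 ((hb C).compl₂ N) h
    exact x2 (k x x1 x3)
  have := Submodule.finrank_add_eq_of_isCompl hW
  have := hC.finrank_add_finrank_perp (LinearMap.ker N)
  obtain ⟨P, p1, p2, p3⟩ := exists_nondegOn_le C (LinearMap.ker N)
  obtain ⟨u, u1, u2⟩ := exists_on hσ p2 (by
    by_contra! h
    have e : LinearMap.ker N ⊓ C.perp (LinearMap.ker N) = C.perp (LinearMap.ker N) :=
      Submodule.eq_of_le_of_finrank_le inf_le_right (by omega)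
    have n1 : ∀ x, N x ∈ C.perp (LinearMap.ker N) := fun x => C.mem_perp.2 fun y hy => show hb C _ _ = 0 by
      have := iso_B g y x
      simp only [N, show g.1 y = l • y from sub_eq_zero.1 hy, map_smulₛₗ, LinearMap.smul_apply, smul_eq_mul, LinearMap.sub_apply,
        map_sub, End.one_apply, RingHom.id_apply, LinearEquiv.coe_coe] at this ⊢
      linear_combination l * this - hb C y (g.1 x) * l1
    obtain ⟨x, x1, x2, x3⟩ := herm_exists_iso (exists_norm_of_finite hσ2 hσ) (.ofHerm σ hσ hσ2 (σ l • (hb C).compl₂ N) ⟨fun x y => by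
      have e1 := iso_B g y x
      have e2 : hb C (N y) (N x) = 0 := n1 x _ (e.ge (n1 y)).1
      simp only [N, map_smulₛₗ, LinearMap.smul_apply, smul_eq_mul, LinearMap.sub_apply, map_sub, End.one_apply, RingHom.id_apply,
        LinearEquiv.coe_coe, LinearMap.compl₂_apply, map_mul, hσ2, ← hb_symm] at e1 e2 ⊢
      linear_combination e1 - e2 + hb C y x * l1 + (hb C y x - σ l * hb C y (g.1 x)) * h2⟩) (W := W) (by
        have := Submodule.finrank_mono (inf_le_right : LinearMap.ker N ⊓ _ ≤ C.perp (LinearMap.ker N)); omega)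
    exact x2 (k x x1 ((mul_eq_zero.1 x3).resolve_left (right_ne_zero_of_mul_eq_one l1))))
  exact ⟨u, by rw [show C.gram u = 1 from Matrix.ext u2]; simp, fun i => sub_eq_zero.1 (p1 (u1 i))⟩

theorem tri_b (h7 : 7 ≤ finrank F V) (H : ∀ z, g.1 z ∉ F ∙ z → ∀ T : Submodule F V, (∀ x ∈ T, C.N x = 0) → z ∈ T → g.1 z ∈ T →
    ∀ x ∈ T, g.1 x ∈ T) {z : V} (z1 : C.N z = 0) (z2 : hb C z (g.1 z) = 0) (z3 : g.1 z ∉ F ∙ z) :
    ∃ (l : F) (s : Fin 3 → V), (C.gram s).det ≠ 0 ∧ ∀ i, g.1 (s i) = l • s i := by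
  have m := Submodule.mem_span_singleton_self (R := F) (M := V)
  have t := ti_sup hσ (ts_singleton z1).1 (C.mem_perp_singleton.2 z2) ((isom_N g.2 z).trans z1)
  have d := finrank_sup_span_le (F ∙ z) (g.1 z)
  have d' := H12.finrank_span_singleton_le (F := F) z
  have m1 : z ∈ (F ∙ z) ⊔ F ∙ g.1 z := Submodule.mem_sup_left (m z)
  have m2 : g.1 z ∈ (F ∙ z) ⊔ F ∙ g.1 z := Submodule.mem_sup_right (m _)
  obtain ⟨P, p1, p2, p3⟩ := hC.exists_nondegOn_perp ((F ∙ z) ⊔ F ∙ g.1 z)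
  obtain ⟨u, u1, u2⟩ := exists_on hσ p2 (by omega)
  have k : ∀ s ∈ P, C.N s = 0 → hb C (u 0) s = 1 → ∃ b c : F, g.1 (s - b • z) = c • (s - b • z) := fun s s1 s2 s3 => by
    have t' := ti_sup hσ t (p1 s1) s2
    obtain ⟨_, x1, _, x2, e⟩ := Submodule.mem_sup.1 (H z z3 _ t' (Submodule.mem_sup_left m1) (Submodule.mem_sup_left m2) s
      (Submodule.mem_sup_right (m s)))
    obtain ⟨_, x3, _, x4, rfl⟩ := Submodule.mem_sup.1 x1
    obtain ⟨a, rfl⟩ := Submodule.mem_span_singleton.1 x3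
    obtain ⟨b, rfl⟩ := Submodule.mem_span_singleton.1 x4
    obtain ⟨c, rfl⟩ := Submodule.mem_span_singleton.1 x2
    by_contra! N
    obtain ⟨a', b', e'⟩ := Submodule.mem_span_pair.1 (H (s - b • z) (fun h => let ⟨c, e⟩ := Submodule.mem_span_singleton.1 h; N b c e.symm)
      (Submodule.span F {s - b • z, z}) (fun x hx => t' x (Submodule.span_le.2 (Set.pair_subset (sub_mem (Submodule.mem_sup_right (m s))
        (Submodule.smul_mem _ b (Submodule.mem_sup_left m1))) (Submodule.mem_sup_left m1)) hx)) (Submodule.subset_span (by simp))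
      (Submodule.mem_span_pair.2 ⟨c, a + c * b, by rw [map_sub, map_smul, ← e]; module⟩) z (Submodule.subset_span (by simp)))
    have := congrArg (hb C (u 0)) e'
    simp [s3, show hb C (u 0) z = 0 from C.mem_perp'.1 (p1 (u1 0)) _ m1, show hb C (u 0) (g.1 z) = 0 from C.mem_perp'.1 (p1 (u1 0)) _ m2]
      at this
    exact z3 (Submodule.mem_span_singleton.2 ⟨b', by simpa [this] using e'⟩)
  obtain ⟨w, hw⟩ := exists_ne_of_ne_id hσ
  have w1 := h4 w (by rintro rfl; simp at hw)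
  obtain ⟨b1, c1, e1⟩ := k (u 0 + u 1) (add_mem (u1 0) (u1 1)) (by simp [← hb_self, u2, one_add_one_eq_two, h2]) (by simp [u2])
  obtain ⟨b2, c2, e2⟩ := k (u 0 + w • u 1) (add_mem (u1 0) (P.smul_mem w (u1 1))) (by
    simp [← hb_self, u2, mul_comm (σ w), w1, one_add_one_eq_two, h2]) (by simp [u2])
  obtain ⟨b3, c3, e3⟩ := k (u 0 + u 2) (add_mem (u1 0) (u1 2)) (by simp [← hb_self, u2, one_add_one_eq_two, h2]) (by simp [u2])
  have o1 : ∀ i, hb C (u i) z = 0 := fun i => C.mem_perp'.1 (p1 (u1 i)) _ m1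
  have o2 : ∀ i, hb C z (u i) = 0 := fun i => C.mem_perp.1 (p1 (u1 i)) _ m1
  have o3 := (hb_self z).trans z1
  have f1 := iso_B g (u 0 + u 1 - b1 • z) (u 0 + w • u 1 - b2 • z)
  have f2 := iso_B g (u 0 + u 1 - b1 • z) (u 0 + u 2 - b3 • z)
  have f3 := iso_B g (u 0 + w • u 1 - b2 • z) (u 0 + u 2 - b3 • z)
  rw [e1] at f1 f2
  rw [e2] at f1 f3
  rw [e3] at f2 f3
  simp [o1, o2, o3, u2] at f1 f2 f3
  obtain rfl : c1 = c2 := σ.injective (by grind)
  obtain rfl : c1 = c3 := by grind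
  refine ⟨c1, ![_, _, _], ?_, Fin.forall_fin_succ.2 ⟨e1, Fin.forall_fin_two.2 ⟨e2, e3⟩⟩⟩
  rw [det_fin_three]
  change hb C _ _ * hb C _ _ * hb C _ _ - hb C _ _ * hb C _ _ * hb C _ _ - hb C _ _ * hb C _ _ * hb C _ _ +
    hb C _ _ * hb C _ _ * hb C _ _ + hb C _ _ * hb C _ _ * hb C _ _ - hb C _ _ * hb C _ _ * hb C _ _ ≠ 0
  simp [o1, o2, o3, u2]
  grind

omit hC in
theorem main_two (m : ℕ) : ∀ {V : Type v} [AddCommGroup V] [Module F V] [FiniteDimensional F V] {C : CForm (hermType σ hσ2) V},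
    C.Nondeg → finrank F V = m → 4 ≤ m → ∀ g ∈ sisom C, Com g := by
  induction m using Nat.strong_induction_on with | h m ih => ?_
  intro V _ _ _ C hC hm h3 g hg
  by_cases h6 : m < 6
  · refine (com_or_J hσ hC (by omega) hg).elim id ?_
    rw [show finrank F V / 2 = 2 by omega]
    rintro ⟨fr, f1, f2⟩
    obtain ⟨x, -, y, A, H, hA⟩ := fr.exists_norm hσ hC f1 hg (.inl f2)
    exact (Fr.com_two h2 h4 hσ hC H hA).of_conj
  haveI : NeZero (finrank F V / 2) := ⟨by omega⟩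
  have k : ∀ (fr : Fr C (Fin (finrank F V / 2))) {z : V} {T : Submodule F V}, finrank F fr.W ≤ 1 → fr.J g ∨ fr.W = ⊥ → g.1 z ∉ F ∙ z →
      z ∈ T → g.1 z ∈ T → (∀ x ∈ T, ∃ a, x = fr.E a) → Com g := fun fr z T f1 f2 z1 z2 z3 f3 => by
    obtain ⟨x, hx, y, A, H, hA⟩ := fr.exists_norm hσ hC f1 hg (f2.imp_right fun e => ⟨e, fun a ha a0 => by
      have := h4 a a0; grind⟩)
    obtain ⟨a, rfl⟩ := f3 z z2
    obtain ⟨b, hb⟩ := f3 _ z3
    refine (fr.com_par h2 h4 hσ hC (by simp; omega) H hA (z := a) (e := b) ?_ fun h => z1 ?_).of_conj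
    · rw [isom_mul_apply, isom_mul_apply, (inv_mem hx).1, hb, hx.1]
    · obtain ⟨c, rfl⟩ := Submodule.mem_span_singleton.1 h
      exact Submodule.mem_span_singleton.2 ⟨c, by simp [hb]⟩
  by_contra N
  obtain ⟨l, s, s1, s2, s3⟩ : ∃ (l : F) (s : Fin 3 → V), (C.gram s).det ≠ 0 ∧ (∀ i, g.1 (s i) = l • s i) ∧
      (m = 6 → ∀ x, hb C x (g.1 x - l • x) = 0 → g.1 x = l • x) := by
    by_cases hz : ∃ z, C.N z = 0 ∧ hb C z (g.1 z) = 0 ∧ g.1 z ∉ F ∙ z
    · obtain ⟨z, z1, z2, z3⟩ := hz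
      have m6 : m ≠ 6 := fun e => by
        obtain ⟨fr, f1, f2⟩ := exists_fr hσ hC (ti_sup hσ (ts_singleton z1).1 (C.mem_perp_singleton.2 z2) ((isom_N g.2 z).trans z1))
        exact N (k fr f1 (.inr (Submodule.finrank_eq_zero.1 (by have := fr.rank_eq; simp at this; omega))) z3
          (Submodule.mem_sup_left (Submodule.mem_span_singleton_self _))
          (Submodule.mem_sup_right (Submodule.mem_span_singleton_self _)) f2)
      obtain ⟨l, s, s1, s2⟩ := tri_b hσ hC h2 h4 (by omega) (fun z z1 T t z2 z3 x hx => by_contra fun h => by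
        obtain ⟨fr, f1, f2, f3⟩ := exists_J hσ hC t hx h
        exact N (k fr f1 (.inl f2) z1 z2 z3 f3)) z1 z2 z3
      exact ⟨l, s, s1, s2, fun e => absurd e m6⟩
    · push Not at hz
      obtain ⟨l, l1, l2⟩ := an_of hσ hC h2 h4 (by omega) hz
      obtain ⟨s, s1, s2⟩ := tri_a hσ hC h2 h4 (by omega) l1 l2
      exact ⟨l, s, s1, s2, fun _ => l2⟩
  have li := C.linearIndependent_of_det_gram s1
  have nd := C.nondegOn_span_of_det_gram s1
  have d : finrank F (Submodule.span F (Set.range s)) = 1 + 2 := finrank_span_eq_card li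
  have s4 : ∀ x ∈ Submodule.span F (Set.range s), g.1 x = l • x := fun x hx => LinearMap.eqOn_span (f := g.1.toLinearMap)
    (g := l • .id) (by rintro _ ⟨i, rfl⟩; exact s2 i) hx
  have l1 := h4 l (by rintro rfl; exact li.ne_zero 0 (by simpa using s2 0))
  have l3 : l ^ (1 + 2) = 1 := by
    obtain ⟨ι, ⟨-, i2⟩, i3⟩ := exists_model hσ h2 h4
    obtain ⟨l, rfl⟩ := i2 l
    rw [← l1, i3, map_mul]; ring
  obtain ⟨a, b, e1, e2, e3, e4⟩ := com_split hC nd fun x hx => s4 x hx ▸ Submodule.smul_mem _ l hx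
  have e5 : ∀ x, a.1 x = l • x := fun x => Subtype.ext ((e1 x).trans (s4 x x.2))
  rw [mem_iff.1 hg, dt_apply a, show a.1.toLinearMap = l • .id from LinearMap.ext e5, LinearMap.det_smul, d, l3,
    LinearMap.det_id, one_mul, one_mul] at e3
  have d' := hC.finrank_add_finrank_perp (Submodule.span F (Set.range s))
  refine N (e4 (com_scalar hσ (C.restrict_nondeg_iff.2 nd) d e5 l1 l3) ?_)
  by_cases m6 : m = 6
  · obtain ⟨e, he⟩ := exists_coord (n := Fin 3) hσ (hC.restrict_perp nd) (M := 1) (by simp; omega) (by simp) isUnit_one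
    have e6 : ∀ v, e (b.1 v) = LinearMap.toMatrix' (e.conj b.1.toLinearMap) *ᵥ e v := by simp
    obtain ⟨x, y, x1, y1, x2, y2, e7⟩ := su_three hσ h2 h4 (G := LinearMap.toMatrix' (e.conj b.1.toLinearMap)) (l := l)
      (matrix_ext_mulVec fun v => sd_ext (σ := σ) fun u => by
        simpa [he, e6, sd_mulVec, -LinearMap.toMatrix'_mulVec] using iso_B b (e.symm u) (e.symm v))
      ((LinearMap.det_toMatrix' _).trans ((LinearMap.det_conj _ e).trans ((dt_apply b).symm.trans e3.symm))) fun v hv => by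
        obtain ⟨v, rfl⟩ := e.surjective v
        rw [← e6, ← map_smul] at hv ⊢
        rw [← map_sub, ← one_mulVec (e (_ - _)), ← he] at hv
        exact congrArg e (Subtype.ext ((e2 v).trans (s3 m6 v (e2 v ▸ hv))))
    exact com_mat (hC.restrict_perp nd) he e6 (by simpa) (by simpa) x2 y2 e7
  · exact ih _ (by omega) (hC.restrict_perp nd) rfl (by omega) b (mem_iff.2 e3.symm)

end

theorem main (h3 : 3 ≤ finrank F V) (h : finrank F V = 3 → ∃ x ≠ 0, x * σ x ≠ 1) (hg : g ∈ sisom C) : Com g := by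
  by_cases h4 : ∀ x ≠ 0, x * σ x = 1
  · obtain ⟨d, hd⟩ := exists_norm_of_finite hσ2 hσ (-1) (by simp)
    exact main_two hσ (by have := h4 d (by rintro rfl; simp at hd); grind) h4 _ hC rfl
      (h3.lt_of_ne fun e => let ⟨x, x0, x1⟩ := h e.symm; x1 (h4 x x0)) g hg
  push Not at h4
  obtain ⟨x, x0, x1⟩ := h4
  have a : σ (x * σ x) = x * σ x := by rw [map_mul, hσ2, mul_comm]
  have a0 : x * σ x ≠ 0 := by simpa
  haveI : NeZero (finrank F V / 2) := ⟨by omega⟩
  refine (com_or_J hσ hC h3 hg).elim id fun ⟨fr, f1, f2⟩ => ?_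
  obtain ⟨u, y, A, H, hA, hA'⟩ := fr.exists_norm₂ hσ hC f1 hg f2 a a0 x1
  by_cases h4 : 4 ≤ finrank F V
  · exact (fr.com_three hσ hC H hA hA' (by simp; omega) a a0 x1).of_conj
  obtain ⟨_⟩ := (Fintype.card_eq_one_iff_nonempty_unique (α := Fin (finrank F V / 2))).1 (by simp; omega)
  exact (fr.com_one hσ hC (by have := fr.rank_eq; simp only [Fintype.card_fin] at this; omega) H hA a a0 x1).of_conj

end H23.UO
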