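import Cfsg.Agent.H5.Schur
import Mathlib.LinearAlgebra.Matrix.Adjugate

/-!
# Zhmud': `χ(1) - χ(u) = 4` or `χ(u) = 0` for all nonprincipal irreducible `χ`; character part
-/

set_option autoImplicit false

open Cfsg H5 Subgroup
open scoped ComplexConjugate

namespace H23.Zh

variable {G : Type*} [Group G] [Fintype G] {u : G} {χ ψ ξ f : G → ℂ} {n k : ℤ}

/-- the hypothesis -/
def Hy (u : G) : Prop :=
  ∀ χ, IsIrrCharacter G χ → χ ≠ (fun _ => 1) → χ 1 - χ u = 4 ∨ χ u = 0

/-- degree three, value `-1` -/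
structure H3 (u : G) (χ : G → ℂ) : Prop where
  irr : IsIrrCharacter G χ
  d : χ 1 = 3
  v : χ u = -1

/-- characters with `u ^ 2` in the kernel -/
structure Gd (u : G) (f : G → ℂ) : Prop where
  ch : IsCharacter G f
  sq : f (u * u) = f 1

theorem H3.star (h : H3 u χ) : H3 u (star χ) :=
  ⟨h.irr.star, by simp [h.d], by simp [h.v]⟩

omit [Fintype G] in
theorem H3.ne (h : H3 u χ) : χ ≠ fun _ => 1 := fun e => by
  have := h.d
  rw [e] at this
  norm_num at this

theorem Gd.con (h : Gd u f) (hξ : IsIrrCharacter G ξ) (h0 : classInner f ξ ≠ 0) : Gd u ξ :=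
  ⟨hξ.isCharacter, hξ.mem_charKer_iff.1
    (h.ch.charKer_le_of_constituent hξ h0 (h.ch.mem_charKer_iff.2 h.sq))⟩

theorem Gd.sub (h : Gd u f) (hξ : IsIrrCharacter G ξ) (h0 : classInner f ξ ≠ 0) : Gd u (f - ξ) :=
  ⟨h.ch.sub_irr hξ h0, by simp [h.sq, (h.con hξ h0).sq]⟩

omit [Fintype G] in
theorem Gd.mul (h : Gd u f) (h' : Gd u ξ) : Gd u (f * ξ) :=
  ⟨h.ch.mul h'.ch, by simp [h.sq, h'.sq]⟩

theorem peel (hf : IsCharacter G f) (hξ : IsIrrCharacter G ξ) (h0 : classInner f ξ ≠ 0) :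
    1 + (classInner (f - ξ) (f - ξ)).re ≤ (classInner f f).re := by
  have h1 := hf.sub_irr hξ h0
  have h2 := h1.classInner_re_nonneg hξ.isCharacter
  have h3 := hξ.isCharacter.classInner_re_nonneg h1
  conv_rhs => rw [← sub_add_cancel f ξ]
  rw [classInner_add_left, classInner_add_right, classInner_add_right, hξ.classInner_self]
  simp only [Complex.add_re, Complex.one_re]
  linarith

theorem one_le_nrm (hf : IsCharacter G f) (h0 : f ≠ 0) : 1 ≤ (classInner f f).re := by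
  obtain ⟨m, hm⟩ := hf.exists_classInner_nat hf
  rw [hm, Complex.natCast_re, Nat.one_le_cast, Nat.one_le_iff_ne_zero]
  rintro rfl
  exact h0 (classInner_self_eq_zero.1 (by simpa using hm))

theorem add_ne (hf : IsCharacter G f) (hψ : IsCharacter G ψ) (hξ : IsCharacter G ξ)
    (h : classInner ψ ξ ≠ 0) : classInner (f + ψ) ξ ≠ 0 := by
  obtain ⟨a, ha⟩ := hf.exists_classInner_nat hξ
  obtain ⟨b, hb⟩ := hψ.exists_classInner_nat hξ
  rw [classInner_add_left, ha, hb, ← Nat.cast_add, Nat.cast_ne_zero]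
  rw [hb, Nat.cast_ne_zero] at h
  omega

theorem sq_ne (hf : IsCharacter G f) (hξ : IsCharacter G ξ)
    (h : classInner (fun g => (f g ^ 2 - f (g * g)) / 2) ξ ≠ 0) : classInner (f * f) ξ ≠ 0 := by
  convert add_ne hf.sym2 hf.alt2 hξ h using 2
  ext g
  simp only [Pi.mul_apply, Pi.add_apply]
  ring

namespace Hy

variable (h : Hy u)
include h

theorem lin (hχ : IsIrrCharacter G χ) (h1 : χ 1 = 1) : χ = fun _ => 1 := by
  by_contra hc
  rcases h χ hχ hc with h2 | h2
  · have h3 := hχ.isCharacter.norm_apply_le u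
    rw [show χ u = -3 by linear_combination h1 - h2, h1] at h3
    norm_num at h3
  · have h3 := hχ.isCharacter.map_mul_of_apply_one h1 u u⁻¹
    rw [mul_inv_cancel, h1, h2] at h3
    norm_num at h3

theorem perf : commutator G = ⊤ := by
  rw [eq_top_iff]
  intro g _
  by_contra hg
  obtain ⟨χ, h1, h2, h3⟩ := exists_irr_le_charKer_not_mem _ hg
  exact h3 ((h1.charKer_eq_top_iff.2 (h.lin h1 (h1.apply_one_eq_one_iff.2 h2))).ge trivial)

theorem top (N : Subgroup G) [N.Normal] (hu : u ∈ N) : N = ⊤ := by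
  rw [eq_top_iff]
  intro g _
  by_contra hg
  obtain ⟨χ, h1, h2, h3⟩ := exists_irr_le_charKer_not_mem _ hg
  have h4 := h1.mem_charKer_iff.1 (h2 hu)
  rcases h χ h1 (fun e => h3 ((h1.charKer_eq_top_iff.2 e).ge trivial)) with h5 | h5
  · rw [h4] at h5; norm_num at h5
  · exact h1.apply_one_ne_zero (h4.symm.trans h5)

theorem nker (hχ : IsIrrCharacter G χ) (h1 : χ ≠ fun _ => 1) : u ∉ charKer χ := fun hu =>
  haveI := hχ.charKer_normal
  h1 (hχ.charKer_eq_top_iff.1 (h.top _ hu))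

theorem typ (hχ : IsIrrCharacter G χ) (h1 : χ ≠ fun _ => 1) :
    ∃ d w : ℤ, χ 1 = d ∧ χ u = w ∧ (3 ≤ d ∧ w = d - 4 ∨ 2 ≤ d ∧ w = 0) := by
  obtain ⟨d, hd, e⟩ := hχ.exists_apply_one
  have h2 : d ≠ 1 := fun e' => h1 (h.lin hχ (by rw [e, e', Nat.cast_one]))
  rcases h χ hχ h1 with h3 | h3
  · refine ⟨d, d - 4, by simpa using e, by push_cast; linear_combination e - h3,
      Or.inl ⟨?_, rfl⟩⟩
    by_contra h4
    obtain rfl : d = 2 := by omega
    haveI := hχ.isCharacter.charCenter_normal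
    have h5 := hχ.apply_one_sq_le_index _ (h.top (charCenter χ)
      (hχ.isCharacter.mem_charCenter_iff.2 (by
        rw [show χ u = -2 by push_cast at e; linear_combination e - h3, e]; norm_num))).ge
    rw [e] at h5
    norm_num at h5
  · exact ⟨d, 0, by simpa using e, by simpa using h3, Or.inr ⟨by omega, rfl⟩⟩

theorem det2 (hχ : IsCharacter G χ) (h1 : χ 1 = 2) (g : G) : χ g ^ 2 - χ (g * g) = 2 := by
  have h2 : (fun g => (χ g ^ 2 - χ (g * g)) / 2) (1 : G) = 1 := by simp only [mul_one, h1]; norm_num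
  linear_combination 2 * congrFun (h.lin (hχ.alt2.isIrr_of_apply_one h2) h2) g

theorem det3 (hχ : IsCharacter G χ) (h1 : χ 1 = 3) (g : G) :
    χ g ^ 2 - χ (g * g) = 2 * conj (χ g) := by
  rw [← hχ.apply_inv]
  obtain ⟨m, ρ, rfl⟩ := hχ
  obtain rfl : m = 3 := by
    rw [Representation.char_one, Module.finrank_fin_fun] at h1
    exact_mod_cast h1
  let M : G →* Matrix (Fin 3) (Fin 3) ℂ :=
    (LinearMap.toMatrixAlgEquiv' (R := ℂ) (n := Fin 3)).toMonoidHom.comp ρ
  have e : ∀ g, ρ.character g = (M g).trace := fun g =>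
    LinearMap.trace_eq_matrix_trace ℂ (Pi.basisFun ℂ (Fin 3)) _
  have hd : (M g).det = 1 := congrFun (h.lin (isIrrCharacter_monoidHom
    (Matrix.detMonoidHom.comp M)) (map_one _)) g
  have h2 : M g⁻¹ = (M g).adjugate := by
    have h3 := Matrix.mul_adjugate (M g)
    rw [hd, one_smul] at h3
    rw [← mul_one (M g⁻¹), ← h3, ← mul_assoc, ← map_mul, inv_mul_cancel, map_one, one_mul]
  rw [e, e, e, h2, map_mul, Matrix.adjugate_fin_three]
  simp [Matrix.trace_fin_three, Matrix.mul_apply, Fin.sum_univ_three]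
  ring

theorem alt3 (hχ : H3 u χ) : (fun g => (χ g ^ 2 - χ (g * g)) / 2) = star χ := by
  ext g
  rw [h.det3 hχ.irr.isCharacter hχ.d]
  simp

theorem gd3 (hχ : H3 u χ) : Gd u χ := ⟨hχ.irr.isCharacter, by
  have := h.det3 hχ.irr.isCharacter hχ.d u
  rw [hχ.v] at this
  simp only [map_neg, map_one] at this
  rw [hχ.d]
  linear_combination -this⟩

theorem neg (hf : IsCharacter G f) (h1 : (f u).re < 0) : ∃ χ, H3 u χ ∧ classInner f χ ≠ 0 := by
  by_contra hc
  push Not at hc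
  rw [hf.isClassFunction.apply_eq_sum_irr, Complex.re_sum] at h1
  refine absurd (Finset.sum_nonneg fun ξ _ => ?_) h1.not_ge
  obtain ⟨m, hm⟩ := hf.exists_classInner_nat ξ.2.isCharacter
  by_cases h2 : ξ.1 = fun _ => 1
  · rw [hm, h2]; simp
  obtain ⟨d, w, h3, h4, h5⟩ := h.typ ξ.2 h2
  by_cases h6 : w < 0
  · obtain rfl : d = 3 := by omega
    obtain rfl : w = -1 := by omega
    rw [hc _ ⟨ξ.2, by simpa using h3, by simpa using h4⟩]; simp
  · rw [hm, h4, ← Int.cast_natCast, ← Int.cast_mul, Complex.intCast_re]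
    exact_mod_cast mul_nonneg (by omega) (by omega)

theorem lb (hf : Gd u f) (h1 : f 1 = n) (h2 : f u = k) (h3 : k ≠ n) :
    ∃ ξ, IsIrrCharacter G ξ ∧ classInner f ξ ≠ 0 ∧ (ξ ≠ fun _ => 1) ∧ 3 ≤ n ∧
      (f 1 - ξ 1).re - (f u - ξ u).re ≤ n - k - 4 := by
  obtain ⟨ξ, h4, h5, h6⟩ : ∃ ξ, IsIrrCharacter G ξ ∧ classInner f ξ ≠ 0 ∧ u ∉ charKer ξ := by
    by_contra hc
    push Not at hc
    have := hf.ch.mem_charKer_iff.1 (hf.ch.mem_charKer_of_constituents hc)
    rw [h1, h2] at this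
    exact h3 (by exact_mod_cast this)
  have h7 : ξ ≠ fun _ => 1 := fun e => h6 ((h4.charKer_eq_top_iff.2 e).ge trivial)
  obtain ⟨d, w, e1, e2, h8⟩ := h.typ h4 h7
  have h9 := (hf.con h4 h5).sq
  have h10 : 3 ≤ d ∧ 4 ≤ d - w := by
    rcases h8 with h8 | ⟨h8, rfl⟩
    · omega
    have : d ≠ 2 := by
      rintro rfl
      have := h.det2 h4.isCharacter (by simpa using e1) u
      rw [h9, e1, e2] at this
      norm_num at this
    have : d ≠ 3 := by
      rintro rfl
      have := h.det3 h4.isCharacter (by simpa using e1) u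
      rw [h9, e1, e2] at this
      norm_num at this
    omega
  have h11 := hf.ch.irr_apply_one_le h4 h5
  refine ⟨ξ, h4, h5, h7, ?_, ?_⟩
  · rw [e1, h1, Complex.intCast_re, Complex.intCast_re, Int.cast_le] at h11
    omega
  · rw [h1, h2, e1, e2]
    simp only [Complex.sub_re, Complex.intCast_re]
    have : (4 : ℝ) ≤ d - w := by exact_mod_cast h10.2
    linarith

theorem irr_of (hf : Gd u f) (h0 : classInner f (fun _ => 1) = 0) (h1 : f 1 = n) (h2 : f u = k)
    (h3 : n - k = 4) : IsIrrCharacter G f := by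
  obtain ⟨ξ, h4, h5, h6, -, h7⟩ := h.lb hf h1 h2 (by omega)
  have h8 := hf.ch.sub_irr h4 h5
  by_cases h9 : f - ξ = 0
  · rwa [sub_eq_zero.1 h9]
  obtain ⟨ζ, h10, h11⟩ := h8.exists_irr_constituent h9
  refine absurd (h8.charKer_le_of_constituent h10 h11 (h8.mem_charKer_iff_re.2 ?_))
    (h.nker h10 ?_)
  · have : ((n : ℝ) - k) = 4 := by exact_mod_cast h3
    simp only [Pi.sub_apply]
    linarith
  · rintro rfl
    exact h11 (by rw [classInner_sub_left, h0, h4.classInner_one h6, sub_zero])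

theorem ex3 (hu : u ≠ 1) : ∃ χ, H3 u χ := by
  obtain ⟨χ, h1, -⟩ := h.neg (isCharacter_regChar.sub_irr isIrrCharacter_one
    (by rw [classInner_regChar_left]; simp)) (by simp [regChar_of_ne_one hu])
  exact ⟨χ, h1⟩

theorem deg (hu : u ≠ 1) (hψ : IsIrrCharacter G ψ) (h1 : ψ ≠ fun _ => 1) (h2 : ψ u ≠ 0) :
    Gd u ψ ∧ (ψ 1 = 3 ∧ ψ u = -1 ∨ ψ 1 = 5 ∧ ψ u = 1 ∨ ψ 1 = 6 ∧ ψ u = 2) := by
  obtain ⟨d, w, e1, e2, h3⟩ := h.typ hψ h1
  have h4 : w ≠ 0 := fun e => h2 (by rw [e2, e, Int.cast_zero])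
  obtain rfl : w = d - 4 := by omega
  by_cases h5 : d = 3
  · subst h5
    have : H3 u ψ := ⟨hψ, by simpa using e1, by simpa using e2⟩
    exact ⟨h.gd3 this, Or.inl ⟨this.d, this.v⟩⟩
  obtain ⟨χ, hχ⟩ := h.ex3 hu
  obtain ⟨χ', hχ', h6⟩ := h.neg (hψ.isCharacter.mul hχ.irr.isCharacter) (by
    rw [Pi.mul_apply, e2, hχ.v, mul_neg_one, Complex.neg_re, Complex.intCast_re, neg_lt_zero,
      Int.cast_pos]
    omega)
  have h7 : classInner (χ' * star χ) ψ ≠ 0 := by
    rw [Ne, classInner_eq_zero_comm]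
    convert h6 using 2
    exact classInner_congr fun g => by simp; ring
  have h8 := (h.gd3 hχ').mul (h.gd3 hχ.star)
  obtain ⟨-, -, -, -, h9, -⟩ := h.lb (n := 9 - d) (k := 5 - d) (h8.sub hψ h7)
    (by simp [hχ.d, hχ'.d, e1]; norm_num) (by simp [hχ.v, hχ'.v, e2]; ring) (by omega)
  refine ⟨h8.con hψ h7, Or.inr ?_⟩
  rw [e1, e2]
  rcases (by omega : d = 5 ∨ d = 6) with rfl | rfl <;> norm_num

end Hy

open Classical in
/-- the irreducible characters of degree `a` with value `a - 4` -/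
noncomputable def ty (u : G) (a : ℂ) : Finset (IrrCharacter G) :=
  Finset.univ.filter fun ξ => ξ.1 1 = a ∧ ξ.1 u = a - 4

theorem mem_ty {a : ℂ} {ξ : IrrCharacter G} : ξ ∈ ty u a ↔ ξ.1 1 = a ∧ ξ.1 u = a - 4 := by
  simp [ty]

namespace Hy

variable (h : Hy u) (hu : u ≠ 1)
include h hu

theorem sum_eq (F : ℂ → ℂ → ℂ) (hF : ∀ a, F a 0 = 0) :
    ∑ ξ : IrrCharacter G, F (ξ.1 1) (ξ.1 u) = F 1 1 + (ty u 3).card * F 3 (-1) +
      (ty u 5).card * F 5 1 + (ty u 6).card * F 6 2 := by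
  classical
  have : ∀ ξ : IrrCharacter G, F (ξ.1 1) (ξ.1 u) = (if ξ = irrOne G then F 1 1 else 0) +
      (if ξ ∈ ty u 3 then F 3 (-1) else 0) + (if ξ ∈ ty u 5 then F 5 1 else 0) +
      (if ξ ∈ ty u 6 then F 6 2 else 0) := fun ξ => by
    simp only [mem_ty]
    by_cases h1 : ξ = irrOne G
    · subst h1
      norm_num [irrOne]
    by_cases h2 : ξ.1 u = 0
    · norm_num [h1, h2, hF]
    rcases (h.deg hu ξ.2 (fun e => h1 (Subtype.ext e)) h2).2 with h3 | h3 | h3 <;>
      norm_num [h1, h3.1, h3.2]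
  simp [this, Finset.sum_add_distrib]

theorem cnt : (ty u 5).card = 1 ∧ (ty u 3).card = 2 + 4 * (ty u 6).card := by
  have h1 := h.sum_eq hu (fun a b => a * b) (by simp)
  rw [sum_irr_one_mul_apply, regChar_of_ne_one hu] at h1
  have h2 : 3 * (ty u 3).card = 1 + 5 * (ty u 5).card + 12 * (ty u 6).card := by
    have : (3 * (ty u 3).card : ℂ) = 1 + 5 * (ty u 5).card + 12 * (ty u 6).card := by
      linear_combination h1
    exact_mod_cast this
  have h3 := card_pairs_isConj u u u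
  rw [h.sum_eq hu (fun a b => b * b * conj b / a) (by simp)] at h3
  simp only [map_one, map_neg, map_ofNat] at h3
  have h4 : (0 : ℝ) < Nat.card {x // IsConj u x} := by
    haveI : Nonempty {x // IsConj u x} := ⟨⟨u, IsConj.refl u⟩⟩
    exact_mod_cast Nat.card_pos
  have h5 : (Nat.card {p : G × G // IsConj u p.1 ∧ IsConj u p.2 ∧ p.1 * p.2 = u} : ℝ) =
      Nat.card {x // IsConj u x} * Nat.card {x // IsConj u x} / Nat.card G *
        ((40 - 16 * (ty u 5).card) / 45) := by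
    have : ((ty u 3).card : ℂ) = (1 + 5 * (ty u 5).card + 12 * (ty u 6).card) / 3 := by
      linear_combination h1 / 3
    rw [this] at h3
    apply Complex.ofReal_injective
    push_cast
    rw [h3]
    ring
  have h6 := card_pos_real G
  have h7 := nonneg_of_mul_nonneg_right (h5 ▸ Nat.cast_nonneg _) (by positivity)
  have h8 : ((ty u 5).card : ℝ) < 3 := by linarith
  have h9 : (ty u 5).card < 3 := by exact_mod_cast h8
  omega

omit hu in
theorem ad (hχ : H3 u χ) (hr : star χ ≠ χ) :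
    IsIrrCharacter G (χ * star χ - fun _ => 1) ∧ classInner (χ * star χ) (fun _ => 1) = 1 := by
  have h1 := (h.gd3 hχ).mul (h.gd3 hχ)
  have h2 : classInner (χ * χ) (star χ) ≠ 0 := sq_ne hχ.irr.isCharacter hχ.star.irr.isCharacter
    (by rw [h.alt3 hχ, hχ.star.irr.classInner_self]; exact one_ne_zero)
  have h3 := h.irr_of (n := 6) (k := 2) (h1.sub hχ.star.irr h2) (by
    rw [classInner_sub_left, hχ.star.irr.classInner_one hχ.star.ne, sub_zero,
      ← hχ.irr.classInner_of_ne hχ.star.irr hr.symm]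
    exact classInner_congr fun g => by simp) (by simp [hχ.d]; norm_num) (by simp [hχ.v]; norm_num)
    (by norm_num)
  have h4 := h3.classInner_of_ne hχ.star.irr fun e => by
    have := congrFun e 1
    simp [hχ.d] at this
    norm_num at this
  have h5 : classInner (χ * star χ) (fun _ => 1) = 1 :=
    (classInner_congr fun g => by simp).trans hχ.irr.classInner_self
  have h6 := (h.gd3 hχ).mul (h.gd3 hχ.star)
  have h7 : classInner (χ * star χ) (χ * star χ) = 2 := by
    rw [show classInner (χ * star χ) (χ * star χ) = classInner (χ * χ) (χ * χ) from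
      classInner_congr fun g => by simp; ring, ← sub_add_cancel (χ * χ) (star χ),
      classInner_add_left, classInner_add_right, classInner_add_right, h3.classInner_self, h4,
      (classInner_eq_zero_comm _ _).1 h4, hχ.star.irr.classInner_self]
    norm_num
  refine ⟨(h6.ch.sub_irr isIrrCharacter_one (by rw [h5]; exact one_ne_zero)).isIrr_of_classInner_self
    ?_, h5⟩
  rw [classInner_sub_left, classInner_sub_right, classInner_sub_right, h7, h5,
    ← conj_classInner, h5, classInner_one_one]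
  norm_num

section
variable (hψ : IsIrrCharacter G ψ) (d5 : ψ 1 = 5) (v5 : ψ u = 1)
include hψ d5 v5

theorem uniq5 (hξ : IsIrrCharacter G ξ) (h1 : ξ 1 = 5) (h2 : ξ u = 1) : ξ = ψ :=
  congrArg Subtype.val (Finset.card_le_one.1 (h.cnt hu).1.le ⟨ξ, hξ⟩
    (mem_ty.2 ⟨h1, h2.trans (by norm_num)⟩) ⟨ψ, hψ⟩ (mem_ty.2 ⟨d5, v5.trans (by norm_num)⟩))

theorem real5 (g : G) : conj (ψ g) = ψ g :=
  congrFun (h.uniq5 hu hψ d5 v5 hψ.star (by simp [d5, map_ofNat]) (by simp [v5])) g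

omit h hu hψ v5 in
theorem ne5 : ψ ≠ fun _ => 1 := fun e => by
  rw [e] at d5
  norm_num at d5

theorem gd5 : Gd u ψ := (h.deg hu hψ (ne5 d5) (by simp [v5])).1

theorem real_of (hχ : H3 u χ) (h0 : classInner (ψ * ψ) χ ≠ 0) : star χ = χ := by
  by_contra hr
  obtain ⟨h1, h2⟩ := h.ad hχ hr
  have r5 := h.real5 hu hψ d5 v5
  have h3 := hψ.isCharacter.mul hχ.irr.isCharacter
  have h4 : classInner (ψ * χ) ψ ≠ 0 := by
    rw [Ne, classInner_eq_zero_comm]
    convert h0 using 2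
    exact classInner_congr fun g => by simp [r5]; ring
  have h5 := h3.sub_irr hψ h4
  obtain ⟨a, ha, h6⟩ := h.neg h5 (by simp [v5, hχ.v])
  have h7 := h5.sub_irr ha.irr h6
  obtain ⟨b, hb, h8⟩ := h.neg h7 (by simp [v5, hχ.v, ha.v])
  have h9 := one_le_nrm (h7.sub_irr hb.irr h8) fun e => by
    have := congrFun e 1
    simp [d5, hχ.d, ha.d, hb.d] at this
    norm_num at this
  have h10 := peel h3 hψ h4
  have h11 := peel h5 ha.irr h6
  have h12 := peel h7 hb.irr h8
  have h13 := hψ.isCharacter.mul hψ.isCharacter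
  have h14 : classInner (ψ * ψ) (fun _ => 1) = 1 :=
    (classInner_congr fun g => by simp [r5]).trans hψ.classInner_self
  have h15 := (h13.sub_irr hχ.irr h0).classInner_mul_apply_one_le h1
  have h16 := hχ.irr.classInner_of_ne h1 fun e => by
    have := congrFun e 1
    simp [hχ.d] at this
    norm_num at this
  rw [classInner_sub_left, h16, classInner_sub_right, h14,
    show classInner (ψ * ψ) (χ * star χ) = classInner (ψ * χ) (ψ * χ) from
      classInner_congr fun g => by simp [r5]; ring, classInner_self_eq_re] at h15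
  simp [hχ.d, d5] at h15
  linarith

theorem sq_real (hχ : H3 u χ) (hr : star χ = χ) (g : G) : ψ g = χ g * χ g - χ g - 1 := by
  have h1 := (h.gd3 hχ).mul (h.gd3 hχ)
  have h2 : classInner (χ * χ) χ ≠ 0 := sq_ne hχ.irr.isCharacter hχ.irr.isCharacter
    (by rw [h.alt3 hχ, hr, hχ.irr.classInner_self]; exact one_ne_zero)
  have h3 : classInner (χ * χ - χ) (fun _ => 1) = 1 := by
    rw [classInner_sub_left, hχ.irr.classInner_one hχ.ne, sub_zero]
    exact (classInner_congr fun g => by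
      rw [show conj (χ g) = χ g from congrFun hr g]; simp).trans hχ.irr.classInner_self
  have h4 : (χ * χ - χ - fun _ => 1 : G → ℂ) 1 = 5 := by simp [hχ.d]; norm_num
  have h5 : (χ * χ - χ - fun _ => 1 : G → ℂ) u = 1 := by simp [hχ.v]
  exact (congrFun (h.uniq5 hu hψ d5 v5 (h.irr_of (n := 5) (k := 1)
    ((h1.sub hχ.irr h2).sub isIrrCharacter_one (by rw [h3]; exact one_ne_zero))
    (by rw [classInner_sub_left, h3, classInner_one_one, sub_self]) (by simpa using h4)
    (by simpa using h5) (by norm_num)) h4 h5) g).symm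

theorem real (hχ : H3 u χ) : star χ = χ := by
  by_contra hr
  obtain ⟨h1, h2⟩ := h.ad hχ hr
  obtain ⟨a, ha, h3⟩ := h.neg hψ.isCharacter.alt2 (by
    simp only [(h.gd5 hu hψ d5 v5).sq, d5, v5]; norm_num)
  have h4 := h.real_of hu hψ d5 v5 ha (sq_ne hψ.isCharacter ha.irr.isCharacter h3)
  have h5 : ∀ ξ, IsIrrCharacter G ξ → ξ 1 ≠ 8 → classInner (χ * star χ - fun _ => 1) ξ = 0 :=
    fun ξ hξ h8 => h1.classInner_of_ne hξ fun e => h8 (by rw [← e]; simp [hχ.d]; norm_num)
  have h6 := (hχ.irr.isCharacter.mul ha.irr.isCharacter).isIrr_of_classInner_self (by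
    rw [show classInner (χ * a) (χ * a) = classInner (χ * star χ) (ψ + a + fun _ => 1) from
      classInner_congr fun g => by
        simp [h.sq_real hu hψ d5 v5 ha h4 g, show conj (a g) = a g from congrFun h4 g]
        ring, ← sub_add_cancel (χ * star χ) fun _ => 1, classInner_add_left]
    simp only [classInner_add_right]
    rw [h5 _ hψ (by rw [d5]; norm_num), h5 _ ha.irr (by rw [ha.d]; norm_num),
      h5 _ isIrrCharacter_one (by norm_num), classInner_one_one,
      (classInner_eq_zero_comm _ _).1 (hψ.classInner_one (ne5 d5)),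
      (classInner_eq_zero_comm _ _).1 (ha.irr.classInner_one ha.ne)]
    norm_num)
  have h7 : (χ * a) 1 = 9 := by simp [hχ.d, ha.d]; norm_num
  rcases h _ h6 (fun e => by rw [e] at h7; norm_num at h7) with h8 | h8 <;>
    simp [hχ.d, ha.d, hχ.v, ha.v] at h8
  norm_num at h8

theorem alt5 (hχ : H3 u χ) : (fun g => (ψ g ^ 2 - ψ (g * g)) / 2) = χ * ψ - ψ := by
  ext g
  have hr := h.real hu hψ d5 v5 hχ
  have h1 := h.det3 hχ.irr.isCharacter hχ.d g
  rw [show conj (χ g) = χ g from congrFun hr g] at h1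
  simp only [Pi.sub_apply, Pi.mul_apply, h.sq_real hu hψ d5 v5 hχ hr]
  rw [show χ (g * g) = χ g ^ 2 - 2 * χ g by linear_combination -h1]
  ring

theorem n3 : (ty u 3).card = 2 ∧ (ty u 6).card = 0 := by
  have h1 := hψ.isCharacter.alt2
  have h2 := congrArg Complex.re (h1.isClassFunction.apply_eq_sum_irr 1)
  rw [Complex.re_sum] at h2
  have h3 := Finset.sum_le_sum_of_subset_of_nonneg (Finset.subset_univ (ty u 3))
    (f := fun ξ => (classInner (fun g => (ψ g ^ 2 - ψ (g * g)) / 2) ξ.1 * ξ.1 1).re)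
    fun ξ _ _ => by
      obtain ⟨a, ha⟩ := h1.exists_classInner_nat ξ.2.isCharacter
      obtain ⟨b, hb⟩ := ξ.2.isCharacter.exists_apply_one
      rw [ha, hb, ← Nat.cast_mul, Complex.natCast_re]
      positivity
  rw [← h2, Finset.sum_congr rfl (g := fun _ => (3 : ℝ)) fun ξ hξ => by
    have hχ : H3 u ξ.1 := ⟨ξ.2, (mem_ty.1 hξ).1, by rw [(mem_ty.1 hξ).2]; norm_num⟩
    have hr := h.real hu hψ d5 v5 hχ
    have h4 : ∀ a, H3 u a → classInner ψ a = 0 := fun a ha => hψ.classInner_of_ne ha.irr fun e => by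
      have := ha.d
      rw [← e, d5] at this
      norm_num at this
    rw [h.alt5 hu hψ d5 v5 hχ, classInner_sub_left, h4 _ hχ,
      show classInner (ξ.1 * ψ) ξ.1 = classInner ψ (ψ + ξ.1 + fun _ => 1) from
        classInner_congr fun g => by
          simp [h.sq_real hu hψ d5 v5 hχ hr g, show conj (ξ.1 g) = ξ.1 g from congrFun hr g]
          ring, classInner_add_right, classInner_add_right, h4 _ hχ, hψ.classInner_self,
      hψ.classInner_one (ne5 d5), hχ.d]
    norm_num] at h3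
  simp only [mul_one, d5, Finset.sum_const, nsmul_eq_mul] at h3
  norm_num at h3
  have h4 : ((ty u 3).card : ℝ) < 4 := by linarith
  have h5 : (ty u 3).card < 4 := by exact_mod_cast h4
  have := (h.cnt hu).2
  omega

end

theorem main : Nat.card (centralizer ({u} : Set G)) = 4 ∧ ∃ K : Subgroup G, K.Normal ∧ u ∉ K ∧
    u * u ∈ K ∧ ∀ t, t ∉ K → t * t ∈ K → IsConj u t := by
  obtain ⟨ψ, hψ⟩ := Finset.card_pos.1 ((h.cnt hu).1.symm ▸ one_pos : 0 < (ty u 5).card)
  obtain ⟨d5, v5⟩ := mem_ty.1 hψ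
  replace v5 : ψ.1 u = 1 := by rw [v5]; norm_num
  obtain ⟨h1, h2⟩ := h.n3 hu ψ.2 d5 v5
  have h3 := h.sum_eq hu (fun _ b => b * conj b) (by simp)
  rw [h1, h2, (h.cnt hu).1] at h3
  norm_num at h3
  refine ⟨by exact_mod_cast (sum_irr_mul_conj_of_isConj (IsConj.refl u)).symm.trans h3, _,
    ψ.2.charKer_normal, h.nker ψ.2 (ne5 d5), ψ.2.mem_charKer_iff.2 (h.gd5 hu ψ.2 d5 v5).sq,
    fun t ht ht2 => ?_⟩
  have h4 : ∀ χ, H3 u χ → χ t = -1 := fun χ hχ => by
    have hr := h.real hu ψ.2 d5 v5 hχ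
    have h5 := congrFun (h.alt5 hu ψ.2 d5 v5 hχ) (t * t)
    have h6 := h.det3 hχ.irr.isCharacter hχ.d t
    simp only [Pi.sub_apply, Pi.mul_apply, apply_eq_of_mem_charKer ht2,
      apply_eq_of_mem_charKer (mul_mem ht2 ht2), d5] at h5
    rw [show conj (χ t) = χ t from congrFun hr t, show χ (t * t) = 3 by
      linear_combination -h5 / 5] at h6
    rcases mul_eq_zero.1 (show (χ t - 3) * (χ t + 1) = 0 by linear_combination h6) with h7 | h7
    · refine absurd (ψ.2.mem_charKer_iff.2 ?_) ht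
      rw [h.sq_real hu ψ.2 d5 v5 hχ hr, sub_eq_zero.1 h7, d5]
      norm_num
    · linear_combination h7
  by_contra hc
  have h5 := sum_irr_mul_conj_of_not_isConj hc
  rw [Finset.sum_congr rfl (g := fun ξ => ξ.1 u * conj (ξ.1 u)) fun ξ _ => ?_, h3] at h5
  · norm_num at h5
  by_cases h6 : ξ.1 = fun _ => 1
  · rw [h6]
  by_cases h7 : ξ.1 u = 0
  · simp [h7]
  rcases (h.deg hu ξ.2 h6 h7).2 with h8 | h8 | h8
  · rw [h4 _ ⟨ξ.2, h8.1, h8.2⟩, h8.2]
  · obtain ⟨χ, hχ⟩ := h.ex3 hu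
    rw [h.uniq5 hu ψ.2 d5 v5 ξ.2 h8.1 h8.2, v5,
      h.sq_real hu ψ.2 d5 v5 hχ (h.real hu ψ.2 d5 v5 hχ), h4 χ hχ]
    norm_num
  · exact absurd (mem_ty.2 ⟨h8.1, by rw [h8.2]; norm_num⟩)
      (Finset.card_eq_zero.1 h2 ▸ Finset.notMem_empty ξ)

end Hy

end H23.Zh
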