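import Cfsg.Agent.H23.Zh1
import Cfsg.Agent.H24.BinIco
import Cfsg.Agent.H19.D8
import Cfsg.Agent.H11.Small
import Cfsg.Agent.H10.Taussky
import Cfsg.Agent.H10.HH9

/-! # Zhmud': the group-theoretic part -/

set_option autoImplicit false

open Cfsg Subgroup
open H19 hiding eq_bot_mono

namespace H23.Zh

variable {G : Type*} [Group G] [Finite G] {u : G} {K : Subgroup G}

theorem card_cent_conj {t : G} (h : IsConj u t) : #C[t] = #C[u] := by
  obtain ⟨g, rfl⟩ := isConj_iff.1 h
  rw [← cj_cent1, card_cj]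

theorem sixty [Group.IsPerfect G] (u2 : orderOf u = 2) (hc : #C[u] ≤ 4)
    (cls : ∀ x : G, orderOf x = 2 → IsConj u x) :
    Nat.card G = 60 ∧ ∀ g : G, PiE {2} g → g * g = 1 := by
  haveI : Nontrivial G := ⟨u, 1, ne_one_of_two u2⟩
  obtain ⟨P⟩ : Nonempty (Sylow 2 G) := inferInstance
  have hP := syl_sylow_top P
  have h4 := hP.dvd (PiN.prime_pow Nat.prime_two 2)
    (card_top (G := G) ▸ H24.four_dvd_card_of_perfect)
  have h0 : (P : Subgroup G) ≠ ⊥ := ne_bot_iff_one_lt_card.2 (by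
    have := Nat.le_of_dvd (card_pos _) h4; omega)
  have hn := H24.not_isCyclic_sylow_two_of_perfect Group.IsPerfect.commutator_eq_top P h0
  obtain ⟨z, hz, z2⟩ := exists_orderOf_eq_prime Nat.prime_two
    ((hP.pi.dvd (card_dvd inf_le_left)).dvd_of_ne_bot (hP.pi.center_ne_bot h0))
  have h1 : (P : Subgroup G) ≤ C[z] := le_cent1_iff.2 hz.2
  have h2 := card_cent_conj (cls z z2)
  have h3 := Nat.le_of_dvd (card_pos _) h4
  have h5 : (P : Subgroup G) = C[z] :=
    eq_of_le_of_card_eq h1 (le_antisymm (card_le h1) (by omega))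
  have h6 : #(P : Subgroup G) = 4 := by rw [h5] at h3 ⊢; omega
  have h7 : ∀ g ∈ (P : Subgroup G), g * g = 1 := fun g hg => by
    by_contra hg'
    have h8 : zpowers g = P := eq_of_le_of_card_eq (zpowers_le.2 hg) (by
      rw [Nat.card_zpowers, h6]
      exact orderOf_eq_prime_pow (p := 2) (n := 1) (by rwa [pow_one, sq])
        (orderOf_dvd_iff_pow_eq_one.1 ((orderOf_dvd_card' hg).trans h6.dvd)))
    exact hn (h8 ▸ inferInstanceAs (IsCyclic (zpowers g)))
  have h8 : (zpowers z).relIndex P = 2 := by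
    have := card_mul_relIndex (zpowers_le.2 hz.1)
    rw [Nat.card_zpowers, z2, h6] at this
    omega
  obtain ⟨s, hs, hs'⟩ := H10.exists_notMem_of_relIndex_two h8
  refine ⟨(H24.card_of_cent_four z2 (two_of_mul_self (h7 s hs) fun e => hs' (e ▸ one_mem _))
    (fun e => hs' (e ▸ mem_zpowers _)) (fun g => ?_) fun x hx =>
      (cls z z2).symm.trans (cls x hx)).resolve_right fun e => H24.not_card_dvd_of_perfect
      (G := G) (a := 2) (b := 1) Nat.prime_two Nat.prime_three (by rw [e]; norm_num), fun g hg => ?_⟩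
  · rw [← mem_cent1, ← h5]
    refine ⟨fun hg => or_iff_not_imp_left.2 fun hg' => ?_, fun hg => hg.elim
      (fun h => zpowers_le.2 hz.1 h) fun h => (mul_mem_cancel_right hs).1 (zpowers_le.2 hz.1 h)⟩
    simpa using H10.mul_inv_mem_of_relIndex_two h8 hg (inv_mem hs) hg' (by rwa [inv_mem_iff])
  · obtain ⟨c, -, hc⟩ := hP.scj_le le_top (piG_zpowers.2 hg)
    have := h7 _ (hc (conj_mem_cj.2 (mem_zpowers g)))
    rwa [conj_mul, conj_eq_one_iff] at this

theorem four {t : G} (h4 : orderOf t = 4) (hc : #C[t] = 4) {x : G} (hx : x ∈ C[t]) :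
    x ^ 4 = 1 ∧ (x * x = 1 → x = 1 ∨ x = t * t) := by
  classical
  refine ⟨orderOf_dvd_iff_pow_eq_one.1 (hc ▸ orderOf_dvd_card' hx), fun h => ?_⟩
  rw [← eq_of_le_of_card_eq (zpowers_le.2 (mem_cent1_self t)) (by rw [Nat.card_zpowers, h4, hc]),
    mem_zpowers_iff_mem_range_orderOf, h4] at hx
  obtain ⟨i, hi, rfl⟩ := Finset.mem_image.1 hx
  rw [← pow_add, ← orderOf_dvd_iff_pow_eq_one, h4] at h
  rw [Finset.mem_range] at hi
  rcases (by omega : i = 0 ∨ i = 2) with rfl | rfl
  exacts [Or.inl (pow_zero _), Or.inr (sq _)]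

theorem struct [Group.IsPerfect G] [K.Normal] (hc : #C[u] = 4) (hu : u ∉ K) (hu2 : u * u ∈ K)
    (cls : ∀ t, t ∉ K → t * t ∈ K → IsConj u t) : IsMulCommutative (oddCore G) ∧
    ((Nonempty (G ⧸ oddCore G ≃* Matrix.ProjectiveSpecialLinearGroup (Fin 2) (ZMod 5)) ∧
      orderOf u = 2) ∨ (Nonempty (G ⧸ oddCore G ≃* H24.SL25) ∧ orderOf u = 4)) := by
  have two := Nat.prime_two
  obtain ⟨h60, hsq⟩ := sixty (G := G ⧸ K) (u := u) (two_of_mul_self
    ((QuotientGroup.eq_one_iff _).2 hu2) (mt (QuotientGroup.eq_one_iff _).1 hu))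
    (hc ▸ H10.card_centralizer_quotient_le K u) fun x hx => by
      obtain ⟨x, rfl⟩ := QuotientGroup.mk_surjective x
      exact (QuotientGroup.mk' K).map_isConj (cls x
        (mt (QuotientGroup.eq_one_iff _).2 (ne_one_of_two hx))
        ((QuotientGroup.eq_one_iff _).1 (mul_self_of_two hx)))
  haveI := H24.simple_of_perfect_sixty h60
  obtain ⟨e⟩ := H24.a5_of_simple_sixty h60
  have ho := H1.odd_card_oddCore (G := G)
  have hO : oddCore G ≤ K := by
    rcases IsSimpleGroup.eq_bot_or_eq_top_of_normal ((oddCore G).map (QuotientGroup.mk' K))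
      (Normal.map inferInstance _ (QuotientGroup.mk'_surjective K)) with h | h
    · rwa [Subgroup.map_eq_bot_iff, QuotientGroup.ker_mk'] at h
    · have := card_map_dvd (oddCore G) (QuotientGroup.mk' K)
      rw [h, card_top, h60] at this
      exact absurd (Dvd.dvd.trans (by norm_num) this) ho.not_two_dvd_nat
  have odd : ∀ x ∈ oddCore G, x ^ 4 = 1 → x = 1 := fun x hx h =>
    orderOf_eq_one_iff.1 (Nat.eq_one_of_dvd_coprimes (Nat.Coprime.pow_left 2
      (Nat.coprime_two_left.2 ho)) (orderOf_dvd_of_pow_eq_one h) (orderOf_dvd_card' hx))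
  have hd : orderOf u ∣ 2 ^ 2 := (orderOf_dvd_card' (mem_cent1_self u)).trans hc.dvd
  obtain ⟨S, hS, huS⟩ := PiN.exists_syl (piG_zpowers.2 ((PiN.prime_pow two 2).dvd hd)) le_top
  replace huS := zpowers_le.1 huS
  have hSK : ∀ t ∈ S, t * t ∈ K := fun t ht => (QuotientGroup.eq_one_iff _).1
    (hsq t ((hS.pi.dvd (orderOf_dvd_card' ht)).dvd (orderOf_map_dvd (QuotientGroup.mk' K) t)))
  obtain ⟨v, hvS, hv, huv⟩ : ∃ v ∈ S, v ∉ K ∧ u * v ∉ K := by
    by_contra hv
    push Not at hv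
    have h1 := (hS.map (QuotientGroup.mk' K)).dvd (PiN.prime_pow two 2) (by
      rw [map_top_of_surjective _ (QuotientGroup.mk'_surjective K), card_top, h60]; norm_num)
    rw [← relIndex_ker, QuotientGroup.ker_mk', relIndex_eq_two_iff_exists_notMem_and'.2
      ⟨u, huS, hu, fun v hv' => or_iff_not_imp_right.2 (hv v hv')⟩] at h1
    norm_num at h1
  have huvS := mul_mem huS hvS
  have ord : ∀ t, t ∉ K → t * t ∈ K → orderOf t = orderOf u := fun t a b => by
    obtain ⟨g, rfl⟩ := isConj_iff.1 (cls t a b)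
    exact orderOf_conj' _ _
  have key : ∀ k, k * u * k = u → k * v * k = v → k * (u * v) * k = u * v → k ∈ C[u] ∧ k * k = 1 :=
    fun k a b c => by
      have d : k * k = 1 := by
        have : k * (u * v) * k = k * (u * (k * k) * v) * k := by
          conv_lhs => rw [c, ← a, ← b]
          group
        have := mul_right_cancel (mul_left_cancel (mul_right_cancel this))
        exact (mul_eq_left.1 this.symm)
      exact ⟨mem_cent1.2 (by rw [eq_mul_inv_of_mul_eq a, inv_eq_of_mul_eq_one_right d]), d⟩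
  obtain ⟨i, hi, h2⟩ := (Nat.dvd_prime_pow two).1 hd
  have cos : ∀ t k, t ∉ K → t * t ∈ K → k ∈ K → t * k ∉ K ∧ t * k * (t * k) ∈ K := fun t k a b c =>
    ⟨fun d => a ((mul_mem_cancel_right c).1 d), by
      rw [show t * k * (t * k) = t * k * t⁻¹ * (t * t) * k by group]
      exact mul_mem (mul_mem (Normal.conj_mem ‹_› _ c _) b) c⟩
  interval_cases i
  · exact absurd (orderOf_eq_one_iff.1 h2 ▸ one_mem K) hu
  · have inv : ∀ t, t ∉ K → t * t ∈ K → t * t = 1 := fun t a b =>
      mul_self_of_two ((ord t a b).trans h2)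
    have h3 : ∀ t ∈ S, t ∉ K → ∀ k ∈ K, k * t * k = t := fun t a b k c => by
      have d := cos t k b (hSK t a) c
      apply mul_left_cancel (a := t)
      rw [inv t b (hSK t a), ← inv _ d.1 d.2]
      group
    have h4 : K ≤ C[u] := fun k hk =>
      (key k (h3 u huS hu k hk) (h3 v hvS hv k hk) (h3 _ huvS huv k hk)).1
    have h5 : v ∈ C[u] := mem_cent1.2 (by
      rw [← inv_eq_of_mul_eq_one_right (inv _ huv (hSK _ huvS)), mul_inv_rev,
        inv_eq_of_mul_eq_one_right (inv _ hu hu2), inv_eq_of_mul_eq_one_right (inv _ hv (hSK _ hvS))])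
    have h6 : K = ⊥ := by
      by_contra h6
      have h7 := card_mul_relIndex h4
      have h8 := ne_bot_iff_one_lt_card.1 h6
      have h9 := relIndex_pos K C[u]
      rw [hc] at h7
      rcases (by nlinarith : K.relIndex C[u] ≤ 2).eq_or_lt with h | h
      · exact huv (by simpa using (H10.mul_inv_mem_of_relIndex_two h (mem_cent1_self u)
          (inv_mem h5) hu (by rwa [inv_mem_iff])))
      · exact hu (relIndex_eq_one.1 (by omega) (mem_cent1_self u))
    have h7 : oddCore G = K := le_antisymm hO (h6 ▸ bot_le)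
    haveI : Fact (Nat.Prime 5) := ⟨Nat.prime_five⟩
    obtain ⟨e'⟩ := H11.nonempty_psl2_five_equiv (F := ZMod 5) (ZMod.card 5)
    exact ⟨(h7.trans h6).symm ▸ comm_bot,
      Or.inl ⟨⟨(QuotientGroup.quotientMulEquivOfEq h7).trans (e.trans e'.symm)⟩, h2⟩⟩
  have cyc := fun t a b {x} => four ((ord t a b).trans h2) ((card_cent_conj (cls t a b)).trans hc)
    (x := x)
  obtain ⟨z, hz, z2⟩ := exists_orderOf_eq_prime two ((hS.pi.dvd (card_dvd inf_le_left)).dvd_of_ne_bot
    (hS.pi.center_ne_bot (ne_bot_of_mem huS fun e => hu (e ▸ one_mem K))))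
  have zz := mul_self_of_two z2
  have h3 : ∀ t ∈ S, t ∉ K → z = t * t := fun t a b =>
    ((cyc t b (hSK t a) (cent_le_cent1 a hz.2)).2 zz).resolve_left (ne_one_of_two z2)
  have hzK : z ∈ K := h3 u huS hu ▸ hu2
  have h4 : ∀ t ∈ S, t ∉ K → ∀ k ∈ S ⊓ K, k * t * k = t := fun t a b k c => by
    apply mul_left_cancel (a := t)
    rw [← h3 t a b, h3 _ (mul_mem a c.1) (cos t k b (hSK t a) c.2).1]
    group
  have h5 : S ⊓ K = zpowers z := le_antisymm (fun k hk => by
    obtain ⟨a, b⟩ := key k (h4 u huS hu k hk) (h4 v hvS hv k hk) (h4 _ huvS huv k hk)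
    rcases (cyc u hu hu2 a).2 b with c | c <;> rw [c]
    exacts [one_mem _, h3 u huS hu ▸ mem_zpowers _]) (zpowers_le.2 ⟨hz.1, hzK⟩)
  have h6 := hS.inf_normal (normalIn_top (H := K))
  rw [h5] at h6
  have h7 := npc_of_cyc h6 (inferInstanceAs (IsCyclic (zpowers z)))
  have h8 : Oc {2}ᶜ K = oddCore G := le_antisymm (H1.le_oddCore ((normalIn_top.Oc _).normal)
    (Nat.odd_iff.2 (Nat.two_dvd_ne_zero.1 (h7.pi.not_dvd two rfl))))
    (le_Oc (normalIn_top.of_le hO le_top) (PiN.of_not_dvd ho.not_two_dvd_nat))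
  rw [h8] at h7
  have h9 := h6.card_mul_compl h7
  rw [Nat.card_zpowers, z2] at h9
  have h10 : (oddCore G).relIndex K = 2 := by
    have := card_mul_relIndex hO
    rw [← h9, mul_comm] at this
    exact Nat.eq_of_mul_eq_mul_right (card_pos _) this
  have hzO : z ∉ oddCore G := fun h =>
    ne_one_of_two z2 (odd z h (by rw [show 4 = 2 * 2 from rfl, pow_mul, sq z, zz, one_pow]))
  have h11 : ∀ t ∈ S, t ∉ K → ∀ k ∈ oddCore G ⊓ C[z], k * t * k = t := fun t a b k c => by
    have := (H10.HH.inv_of_fpf (K := oddCore G ⊓ C[z]) (t := t)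
      (norms_inf le_normalizer_of_normal le_normalizer (mem_cent1.2 (mem_cent.1 hz.2 t a)))
      (h3 t a b ▸ le_cent1_iff.1 inf_le_right)
      (eq_bot_iff.2 fun x hx => odd x hx.1.1 (cyc t b (hSK t a) hx.2).1)).1 k c
    rw [mul_assoc, mul_inv_eq_iff_eq_mul.1 this]
    group
  refine ⟨(H10.HH.inv_of_fpf (t := z) (le_normalizer_of_normal (mem_top z)) (zz ▸ one_mem _)
    (eq_bot_iff.2 fun k hk => odd k hk.1 (cyc u hu hu2 (key k (h11 u huS hu k hk)
      (h11 v hvS hv k hk) (h11 _ huvS huv k hk)).1).1)).2, Or.inr ⟨?_, h2⟩⟩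
  have h12 : ∀ g ∈ K, g ∉ oddCore G → (g : G ⧸ oddCore G) = z := fun g a b =>
    QuotientGroup.eq_iff_div_mem.2 (div_eq_mul_inv g z ▸
      H10.mul_inv_mem_of_relIndex_two h10 a hzK b hzO)
  refine H24.equiv_SL25_of_card (z := z) ?_ (mem_center_iff.2 fun g => ?_)
    (mt (QuotientGroup.eq_one_iff _).1 hzO) (congrArg QuotientGroup.mk zz) fun g hg => ?_
  · rw [← index_eq_card, ← relIndex_mul_index hO, h10, index_eq_card, h60]
  · obtain ⟨g, rfl⟩ := QuotientGroup.mk_surjective g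
    rw [← mul_inv_eq_iff_eq_mul]
    exact h12 _ (Normal.conj_mem ‹_› _ hzK g) fun h => hzO ((Normal.mem_comm_iff inferInstance).1 h
      |> fun h => by simpa using h)
  · obtain ⟨g, rfl⟩ := QuotientGroup.mk_surjective g
    replace hg := (QuotientGroup.eq_one_iff _).1 hg
    refine or_iff_not_imp_left.2 fun h => h12 g ?_ (mt (QuotientGroup.eq_one_iff _).2 h)
    by_contra h'
    have h13 := odd _ hg (cyc g h' (hO hg) (mul_mem (mem_cent1_self g) (mem_cent1_self g))).1
    have h14 := orderOf_dvd_of_pow_eq_one ((sq g).trans h13)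
    rw [ord g h' (hO hg), h2] at h14
    norm_num at h14

end H23.Zh
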